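import Mathlib
import Cfsg.Prelude.Def_GeometricClasses
import Cfsg.Agent.Lib.Lin.AschO2

/-! Aschbacher's theorem for orthogonal groups: small cases and tensor products. -/

set_option autoImplicit false
set_option linter.unusedSectionVars false

namespace CA.AschO3

open Cfsg Cfsg.Geo Matrix CA.AschBase CA.AschWed CA.AschKron CA.AschTens CA.AschFF CA.AschField
  CA.AschForm CA.AschGrp CA.AschPerf CA.AschTForm CA.AschLin CA.AschProp CA.AschProp2 CA.AschDesc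
  CA.AschFG CA.AschFG2 CA.AschFG3 CA.AschFG4 CA.AschFG5 CA.AschFG6 CA.AschFG7 CA.AschO1 CA.AschO2
  CA.CForm Module
open scoped MatrixGroups Kronecker commutatorElement

variable {ι : Type} [Fintype ι] [DecidableEq ι] {F : Type*} [Field F]
variable {κ : Type} [Fintype κ] [DecidableEq κ]

local notation "𝟙" => RingHom.id F

theorem sq_small [Fintype F] (h : Fintype.card F ≤ 3) {a : F} (ha : a ≠ 0) : a * a = 1 := by
  have := Fintype.one_lt_card (α := F)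
  by_cases h2 : Fintype.card F = 2
  · rw [(cases_two h2 a).resolve_left ha, mul_one]
  · exact sq_three (by omega) ha

theorem plus_two_line [Fintype F] (h : Fintype.card F ≤ 3) {V : Type*} [AddCommGroup V] [Module F V]
    [FiniteDimensional F V] {ψ : Form (Kind.orth F) V} (hψ : ψ.Nondeg) (h2 : finrank F V = 2)
    (hp : Pl ψ) : ∃ v, ψ.Q v = 1 ∧ ∀ w, ψ.Q w = 1 → w ∈ F ∙ v := by
  obtain ⟨e, he⟩ := ((pl_iff hψ (m := 1) h2).1 hp).equivalent_plus hψ h2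
  refine ⟨e.symm fun _ => 1, by rw [he.symm.Q_eq, plusForm_Q_apply]; simp, fun w hw => ?_⟩
  rw [← he.Q_eq, plusForm_Q_apply, Fin.sum_univ_one] at hw
  have h1 := sq_small h (left_ne_zero_of_mul_eq_one hw)
  refine Submodule.mem_span_singleton.2 ⟨e w (Sum.inl 0), ?_⟩
  rw [← map_smul, e.symm_apply_eq]
  ext (i | i) <;> obtain rfl := Fin.eq_zero i
  · simp
  · simp only [Pi.smul_apply, smul_eq_mul, mul_one]
    linear_combination e w (Sum.inr 0) * h1 - e w (Sum.inl 0) * hw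

theorem le_stab_line {H : Subgroup (GL ι F)} {v : ι → F}
    (h : ∀ g ∈ H, (g : Matrix ι ι F) *ᵥ v ∈ F ∙ v) : H ≤ subspaceStabilizer (F ∙ v) :=
  le_subspaceStabilizer fun g hg w hw => by
    obtain ⟨c, rfl⟩ := Submodule.mem_span_singleton.1 hw
    rw [mulVec_smul]
    exact Submodule.smul_mem _ _ (h g hg)

variable {φ : Form (Kind.orth F) (ι → F)} {H : Subgroup (GL ι F)}

theorem stab_line_of_plus [Fintype F] (h : Fintype.card F ≤ 3) (hH : H ≤ IG φ)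
    {W : Submodule F (ι → F)} (hW : Disjoint W (φ.perp W)) (h2 : finrank F W = 2)
    (hp : IsPlusTypeOn φ.Q W) (hle : H ≤ subspaceStabilizer W) :
    ∃ v, φ.Q v = 1 ∧ H ≤ subspaceStabilizer (F ∙ v) := by
  obtain ⟨v, h3, h4⟩ := plus_two_line h ((φ.nondeg_restrict_iff W).2 hW) h2 (plusOn_iff.1 hp)
  refine ⟨v, h3, le_stab_line fun g hg => ?_⟩
  obtain ⟨c, hc⟩ := Submodule.mem_span_singleton.1
    (h4 ⟨_, mulVec_mem_of_stab (hle hg) v.2⟩ ((Q_IG (hH hg) _).trans h3))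
  exact Submodule.mem_span_singleton.2 ⟨c, congrArg Subtype.val hc⟩

theorem not_irr_of_line (h2 : 2 ≤ Fintype.card ι) {v : ι → F} (hv : v ≠ 0)
    (h : H ≤ subspaceStabilizer (F ∙ v)) : ¬ Irr H :=
  (not_irr_iff H).2 ⟨_, mt Submodule.span_singleton_eq_bot.1 hv, fun h1 => by
    have := finrank_span_singleton (K := F) hv
    rw [h1, finrank_top, finrank_fun] at this
    omega, h⟩

theorem equiv_map {k : Kind F} {φ₀ : Form k (κ → F)} {φ : Form k (ι → F)} {T : (κ → F) →ₗ[F] (ι → F)}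
    (h : φ₀.Pres φ T) (hT : Function.Injective T) (E : Submodule F (κ → F)) :
    (φ₀.restrict E).Equivalent (φ.restrict (E.map T)) :=
  ⟨Submodule.equivMapOfInjective T hT E, fun x y => h.B_eq x y, fun x => h.Q_eq x⟩

theorem orefine (hφ : φ.Nondeg) {m t : ℕ} {φ₀ : Form (Kind.orth F) (Fin m → F)}
    {Φ : (Fin t → Fin m → F) ≃ₗ[F] (ι → F)} (h : Wr φ H φ₀ Φ) {s m' : ℕ}
    {E : Fin s → Submodule F (Fin m → F)} (hE : IsOrthogonalMDecomposition φ₀.Q m' E)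
    (hle : IG φ₀ ≤ decompositionStabilizer E) :
    ∃ D : Fin (t * s) → Submodule F (ι → F), IsOrthogonalMDecomposition φ.Q m' D ∧
      H ≤ decompositionStabilizer D ∧ ∀ p, ∃ j, IsPlusTypeOn φ.Q (D p) ↔ IsPlusTypeOn φ₀.Q (E j) := by
  obtain ⟨h1, h2⟩ := orthDecomp_iff.1 hE
  obtain ⟨D, h3, h4, h5⟩ := h.refine hφ h1 hle
  have h6 : ∀ p, ∃ j, (φ₀.restrict (E j)).Equivalent (φ.restrict (D p)) := fun p => by
    obtain ⟨j, T, a1, a2, a3⟩ := h5 p
    exact ⟨j, a3 ▸ equiv_map a1 a2 _⟩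
  refine ⟨D, orthDecomp_iff.2 ⟨h3, fun p q => ?_⟩, h4, fun p => (h6 p).imp fun j hj => by
    rw [plusOn_iff, plusOn_iff, pl_congr hj]⟩
  obtain ⟨j, hj⟩ := h6 p
  obtain ⟨j', hj'⟩ := h6 q
  exact hj.symm.trans ((h2 j j').trans hj')

theorem orth_frame {t : ℕ} {b : Fin t → ι → F} {a : F} (hb : ∀ i, φ.Q (b i) = a)
    (h : IsNondegenerateMDecomposition (fn φ) 1 fun i => F ∙ b i) :
    IsOrthogonalMDecomposition φ.Q 1 fun i => F ∙ b i := by
  have h0 : ∀ i, b i ≠ 0 := fun i h1 =>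
    decomp_ne_bot h.decomp i (Submodule.span_singleton_eq_bot.2 h1)
  refine ⟨polar_fn φ ▸ h, fun i j => ⟨(LinearEquiv.toSpanNonzeroSingleton F _ _ (h0 i)).symm.trans
    (LinearEquiv.toSpanNonzeroSingleton F _ _ (h0 j)), fun w => ?_⟩⟩
  obtain ⟨c, rfl⟩ := (LinearEquiv.toSpanNonzeroSingleton F _ _ (h0 i)).surjective w
  rw [LinearEquiv.trans_apply, LinearEquiv.symm_apply_apply]
  simp [φ.orth_Q_smul, hb]

theorem sq_add_sq [Fintype F] (h : Fintype.card F = 3 ∨ Fintype.card F = 5) {x y : F}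
    (h1 : x ^ 2 + y ^ 2 = 1) : x = 0 ∨ y = 0 := by
  by_contra! h0
  rcases h with h | h
  · rw [sq, sq, sq_three h h0.1, sq_three h h0.2] at h1
    simp at h1
  · have : CharP F 5 := charP_of_card (k := 1) Nat.prime_five (by simpa using h)
    have h5 : (5 : F) = 0 := CharP.cast_eq_zero F 5
    have a1 := FiniteField.pow_card_sub_one_eq_one x h0.1
    have a2 := FiniteField.pow_card_sub_one_eq_one y h0.2
    rw [h] at a1 a2
    have a3 : (2 * x ^ 2 - 1) = 0 := by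
      linear_combination (1 - (x ^ 2 - y ^ 2)) * h1 + a1 - a2
    exact one_ne_zero (by linear_combination (2 * x ^ 2 + 1) * a3 * 2 - 8 * a1 - h5 : (1 : F) = 0)

theorem frame_two [Fintype F] (h : Fintype.card F = 3 ∨ Fintype.card F = 5) :
    ∃ E : Fin 2 → Submodule F (Fin 2 → F), IsOrthogonalMDecomposition (binForm (0 : F) 1).Q 1 E ∧
      IG (binForm (0 : F) 1) ≤ decompositionStabilizer E := by
  have h2 : (2 : F) ≠ 0 := two_ne_zero_iff_odd.2 (by rcases h with h | h <;> rw [h] <;> decide)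
  have h1 := frame_decomp (binForm_nondeg (a := (0 : F)) (b := 1) (by
    rw [show (0 : F) ^ 2 - 4 * 1 = -(2 * 2) by ring]; simp [h2])) le_rfl (Pi.basisFun F (Fin 2))
    (by simp [Fin.forall_fin_two, binForm_B])
  have h3 : ∀ i, (binForm (0 : F) 1).Q (Pi.basisFun F (Fin 2) i) = 1 := by
    simp [Fin.forall_fin_two, binForm_Q]
  refine ⟨_, orth_frame h3 h1, fun g hg => mem_frame h1.decomp fun i => ?_⟩
  have h4 := (Q_IG hg _).trans (h3 i)
  generalize (g : Matrix (Fin 2) (Fin 2) F) *ᵥ Pi.basisFun F (Fin 2) i = v at h4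
  rcases sq_add_sq h (x := v 0) (y := v 1) (by simpa [binForm_Q] using h4) with h5 | h5
  · exact ⟨1, Submodule.mem_span_singleton.2 ⟨v 1, by ext j; fin_cases j <;> simp [h5]⟩⟩
  · exact ⟨0, Submodule.mem_span_singleton.2 ⟨v 0, by ext j; fin_cases j <;> simp [h5]⟩⟩

theorem pl_binForm {a b : F} : Pl (binForm a b) ↔ ¬ Aniso a b := by
  constructor
  · rintro ⟨U, h1, h2⟩ h
    rw [show U = ⊥ from eq_bot_iff.2 fun v hv => binForm_anisotropic h v (h1.Q_eq v hv)] at h2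
    simp at h2
  · intro h
    obtain ⟨t, ht⟩ : ∃ t : F, t ^ 2 + a * t + b = 0 := by
      by_contra! h'; exact h (aniso_iff.2 h')
    refine ⟨F ∙ ![t, 1], Form.ts_span_singleton (by simpa [binForm_Q] using ht), ?_⟩
    rw [finrank_span_singleton (fun h => one_ne_zero (congrFun h 1))]
    simp

theorem four_facts [Fintype F] (h : Fintype.card F = 4) :
    (2 : F) = 0 ∧ ¬ Aniso (1 : F) 1 ∧ ∀ g ∈ IG (binForm (1 : F) 1), ∀ F₀ : Subfield F,
      Ent F₀ (g : Matrix (Fin 2) (Fin 2) F) := by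
  have h2 : (2 : F) = 0 := by
    by_contra h2; exact absurd (h ▸ two_ne_zero_iff_odd.1 h2) (by decide)
  have h3 : ∀ x : F, x ≠ 0 → x ^ 3 = 1 := fun x hx => by
    simpa [h] using FiniteField.pow_card_sub_one_eq_one x hx
  have h4 : ∀ x : F, x ^ 2 = 1 → x = 1 := fun x hx =>
    sub_eq_zero.1 (pow_eq_zero_iff two_ne_zero |>.1 (by linear_combination hx + (1 - x) * h2))
  refine ⟨h2, fun ha => ?_, fun g hg F₀ i j => ?_⟩
  · classical
    obtain ⟨x, hx⟩ : ∃ x : F, x ∉ ({0, 1} : Finset F) := by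
      by_contra! hx
      have := Finset.card_le_card (show Finset.univ ⊆ ({0, 1} : Finset F) from fun x _ => hx x)
      have := Finset.card_le_two (a := (0 : F)) (b := 1)
      rw [Finset.card_univ] at *
      omega
    simp only [Finset.mem_insert, Finset.mem_singleton, not_or] at hx
    exact aniso_iff.1 ha x ((mul_eq_zero.1 (by linear_combination h3 x hx.1 :
      (x - 1) * (x ^ 2 + 1 * x + 1) = 0)).resolve_left (sub_ne_zero.2 hx.2))
  · have h5 : (g : Matrix (Fin 2) (Fin 2) F) 0 j ^ 2 + (g : Matrix (Fin 2) (Fin 2) F) 0 j *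
        (g : Matrix (Fin 2) (Fin 2) F) 1 j + (g : Matrix (Fin 2) (Fin 2) F) 1 j ^ 2 = 1 := by
      have := Q_IG hg (Pi.single j 1)
      fin_cases j <;> simpa [binForm_Q] using this
    have key : ∀ x y : F, x ^ 2 + x * y + y ^ 2 = 1 → x ∈ F₀ := fun x y hxy => by
      by_cases hx : x = 0
      · exact hx ▸ F₀.zero_mem
      by_cases hy : y = 0
      · exact h4 x (by simpa [hy] using hxy) ▸ F₀.one_mem
      obtain rfl : x = y := by linear_combination h3 x hx - h3 y hy - (x - y) * hxy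
      exact h4 x (by linear_combination hxy - x ^ 2 * h2) ▸ F₀.one_mem
    fin_cases i
    · exact key _ _ h5
    · exact key ((g : Matrix (Fin 2) (Fin 2) F) 1 j) ((g : Matrix (Fin 2) (Fin 2) F) 0 j)
        (by linear_combination h5)

theorem aniso_two [Fintype F] (h : Fintype.card F = 2) : Aniso (1 : F) 1 :=
  aniso_iff.2 fun t => by
    rcases cases_two h t with rfl | rfl
    · simp
    · exact fun h1 => one_ne_zero (by linear_combination h1 - two_eq_zero h : (1 : F) = 0)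

theorem O4_two [Fintype F] (h : Fintype.card F = 2) (hφ : φ.Nondeg) (h4 : Fintype.card ι = 4)
    (hp : Pl φ) : ∃ E : Fin 2 → Submodule F (ι → F), IsOrthogonalMDecomposition φ.Q 2 E ∧
      (∀ i, ¬ IsPlusTypeOn φ.Q (E i)) ∧ IG φ ≤ decompositionStabilizer E := by
  have h2 := two_eq_zero h
  have ha := aniso_two h
  have hb := binForm_nondeg (disc_ne_zero_of_anisotropic ha)
  obtain ⟨e, he⟩ := equivalent_of_pl (hb.prod hb) hφ (by simp; decide) (by simp [h4])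
    (by rw [pl_prod_iff hb hb (by simp) (by simp)]; tauto)
  let W := LinearMap.range (e.toLinearMap ∘ₗ LinearMap.inl F (Fin 2 → F) (Fin 2 → F))
  have e1 : (binForm (1 : F) 1).Equivalent (φ.restrict W) :=
    ⟨LinearEquiv.ofInjective _ (e.injective.comp LinearMap.inl_injective),
      fun x y => (he.B_eq _ _).trans (by simp), fun x => (he.Q_eq _).trans (by simp)⟩
  have hW := (φ.nondeg_restrict_iff W).1 (e1.nondeg hb)
  have d1 : finrank F W = 2 := by simpa using e1.finrank_eq.symm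
  have d2 := hφ.finrank_perp W
  rw [finrank_fun] at d2
  have hD := nondeg_pair hφ (W := W) (by rintro h; rw [h] at d1; simp at d1) hW (by omega)
  have p1 : ¬ IsPlusTypeOn φ.Q W := by rw [plusOn_iff, ← pl_congr e1, pl_binForm]; tauto
  have p2 : ¬ IsPlusTypeOn φ.Q (φ.perp W) := by
    have := plusOn_sup hW (hφ.disjoint_perp_perp hW) le_rfl ⟨1, by omega⟩ ⟨1, by omega⟩
    rw [(hφ.isCompl_perp hW).sup_eq_top, plus_top] at this
    tauto
  have hE : ∀ i, ¬ IsPlusTypeOn φ.Q (![W, φ.perp W] i) := by simp [Fin.forall_fin_two, p1, p2]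
  rw [d1] at hD
  have hn := fun i => (φ.nondeg_restrict_iff _).2 (nondegOn_iff.1 (hD.nondegenerate i))
  have hq : ∀ i, ∀ v ∈ ![W, φ.perp W] i, v ≠ 0 → φ.Q v = 1 := fun i v hv h0 =>
    (cases_two h _).resolve_left fun h1 => hE i ⟨F ∙ v, (Submodule.span_singleton_le_iff_mem _ _).2 hv,
      (Form.ts_span_singleton h1).Q_eq, by rw [finrank_span_singleton h0, hD.decomp.finrank_eq]⟩
  have hq' : ∀ v, φ.Q v = 1 → ∃ j, v ∈ ![W, φ.perp W] j := fun v hv => by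
    obtain ⟨a, ha, b, hb, rfl⟩ := exists_add_of_pair hD.decomp v
    by_cases a0 : a = 0
    · exact ⟨1, by simpa [a0] using hb⟩
    by_cases b0 : b = 0
    · exact ⟨0, by simpa [b0] using ha⟩
    rw [φ.Q_add_of_B (hb a ha), hq 0 a ha a0, hq 1 b hb b0] at hv
    exact absurd (by linear_combination hv : (1 : F) = 0) one_ne_zero
  refine ⟨_, orthDecomp_iff.2 ⟨hD, fun i j => equivalent_of_pl (hn i) (hn j)
    (by rw [hD.decomp.finrank_eq]; decide) (by rw [hD.decomp.finrank_eq, hD.decomp.finrank_eq])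
    (by rw [← plusOn_iff, ← plusOn_iff]; simp [hE])⟩, hE,
    fun g hg => mem_decomp_of_forall hD.decomp fun i => ?_⟩
  obtain ⟨u, hu, hu0⟩ := Submodule.exists_mem_ne_zero_of_ne_bot (decomp_ne_bot hD.decomp i)
  obtain ⟨j, hj⟩ := hq' _ ((Q_IG hg u).trans (hq i u hu hu0))
  refine ⟨j, fun v hv => ?_⟩
  by_cases v0 : v = 0
  · simp [v0]
  by_cases v1 : v = u
  · exact v1 ▸ hj
  obtain ⟨j', hj'⟩ := hq' _ ((Q_IG hg v).trans (hq i v hv v0))
  by_cases hjj : j' = j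
  · exact hjj ▸ hj'
  have b1 := orthFor_iff.1 (hD.orthogonal j' j hjj) hj' _ hj
  have b2 := hq i (u + v) (Submodule.add_mem _ hu hv) fun h0 => v1 (by
    rw [eq_neg_of_add_eq_zero_right h0, neg_eq_iff_add_eq_zero, ← two_smul F, h2, zero_smul])
  rw [φ.orth_Q_add, ← B_IG hg, b1, hq i u hu hu0, hq i v hv v0] at b2
  exact absurd (by linear_combination b2 : (1 : F) = 0) one_ne_zero

theorem ent_one_dim {φ₀ : Form (Kind.orth F) (Fin 1 → F)} (h : φ₀.Nondeg) (F₀ : Subfield F) :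
    (∀ g ∈ IG φ₀, Ent F₀ (g : Matrix (Fin 1) (Fin 1) F)) ∧ ∃ ζ : F, ζ ≠ 0 ∧
      ∀ u : Fin 1 → F, (∀ i, u i ∈ F₀) → ζ * φ₀.Q u ∈ F₀ := by
  have h1 : ∀ u : Fin 1 → F, φ₀.Q u = u 0 ^ 2 * φ₀.Q (Pi.single 0 1) := fun u => by
    rw [← φ₀.orth_Q_smul]; congr 1; ext i; simp [Fin.eq_zero i]
  have h2 : φ₀.Q (Pi.single 0 1) ≠ 0 := fun h2 => by
    obtain ⟨v, -, hv⟩ := φ₀.exists_nonsingular (W := ⊤) (by simp [h.perp_top]) top_ne_bot
    exact hv (by rw [h1, h2, mul_zero])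
  refine ⟨fun g hg i j => ?_, _, inv_ne_zero h2, fun u hu => ?_⟩
  · have := Q_IG hg (Pi.single 0 1)
    rw [h1, mul_left_eq_self₀, sq_eq_one_iff] at this
    rw [Fin.eq_zero i, Fin.eq_zero j]
    rcases this.resolve_right h2 with h | h <;> simp only [mulVec_single_one, col_apply] at h <;>
      rw [h]
    · exact F₀.one_mem
    · exact F₀.neg_mem F₀.one_mem
  · rw [h1 u, mul_left_comm, inv_mul_cancel₀ h2, mul_one]
    exact F₀.pow_mem (hu 0) 2

theorem exists_prime_subfield [Fintype F] (h : ¬ (Fintype.card F).Prime) :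
    ∃ (F₀ : Subfield F) (r : ℕ), r.Prime ∧ Fintype.card F = Nat.card F₀ ^ r := by
  obtain ⟨p, _, -, hp, -⟩ := FiniteField.card' F
  have := Fact.mk hp
  obtain ⟨F₁, r, -, h1, -, h2⟩ := exists_subfield_prime_index (F₀ := (⊥ : Subfield F)) fun h1 => by
    have h2 := card_bot_subfield (F := F) (p := p)
    rw [h1, Nat.card_congr Subfield.topEquiv.toEquiv, Nat.card_eq_fintype_card] at h2
    exact h (h2 ▸ hp)
  exact ⟨F₁, r, h1, h2⟩

/-! ### Quadratic forms determined by an endomorphism -/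

theorem Q_eq_of_j [Finite F] (hφ : φ.Nondeg) (hn : 2 ≤ Fintype.card ι) (hH : H ≤ IG φ) (hI : Irr H)
    {j : Matrix ι ι F} (hj : j + adj 𝟙 (fn φ) j = 1)
    (h : (2 : F) = 0 → FixesQuadForm (matrixSet H) fun v => fn φ (j *ᵥ v) v) (v : ι → F) :
    φ.Q v = fn φ (j *ᵥ v) v := by
  have hf : SF 𝟙 (fn φ) := sf_fn hφ
  obtain ⟨h1, h3⟩ := quad_of_j hf (refl_fn φ) hj
  by_cases h2 : (2 : F) = 0
  · exact quad_unique h2 hI hn (quad_Q hφ) h1 (fun u v => by rw [h3, polar_fn])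
      (by rintro _ ⟨g, hg, rfl⟩ v; exact Q_IG (hH hg) v) (h h2) v
  · exact mul_left_cancel₀ h2 (by rw [← polar_self h1, h3, fn_apply, φ.orth_B_self])

theorem sim_of_field [Finite F] (hφ : φ.Nondeg) (hn : 2 ≤ Fintype.card ι) (hH : H ≤ IG φ)
    (hI : Irr H) {K : Subalgebra F (Matrix ι ι F)} (hK : IsFieldSubalgebra 2 K)
    (hcl : ∀ x ∈ K, adj 𝟙 (fn φ) x ∈ K) (hne : ∃ x ∈ K, adj 𝟙 (fn φ) x ≠ x)
    (hle : H ≤ subalgebraNormalizer K) : ∀ x ∈ K, ∃ c : F, ∀ v, φ.Q (x *ᵥ v) = c * φ.Q v := by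
  have : Nonempty ι := Fintype.card_pos_iff.1 (by omega)
  have hf : SF 𝟙 (fn φ) := sf_fn hφ
  have hr : Refl 𝟙 1 (fn φ) := refl_fn φ
  obtain ⟨j, hj, h1, h2⟩ := quad_of_field hf hr hK hcl hne (fixes_IG hH) hle
  have h3 := Q_eq_of_j hφ hn hH hI h1 fun _ => h2
  obtain ⟨J, hJ, h4⟩ := hne
  intro x hx
  obtain ⟨s, t, h5⟩ := eq_of_finrank_two hK hJ
    (by rintro c rfl; exact h4 (by rw [hf.adj_smul, hf.adj_one]; rfl)) (K.mul_mem (hcl x hx) hx)
  have h6 := congrArg (adj 𝟙 (fn φ)) h5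
  rw [hf.adj_mul, hr.adj_adj hf, h5, hf.adj_add, hf.adj_smul, hf.adj_smul, hf.adj_one] at h6
  obtain rfl : t = 0 := by
    by_contra h0; exact h4 (smul_right_injective _ h0 (add_left_cancel h6)).symm
  refine ⟨s, fun v => ?_⟩
  rw [h3, h3, mulVec_mulVec, hK.comm j hj x hx, ← mulVec_mulVec, hf.adj_spec, mulVec_mulVec, h5]
  simp [smul_mulVec, hf.smul_right]

theorem form_pure {μ : Type} [Fintype μ] [DecidableEq μ] {f₁ : (κ → F) → (κ → F) → F}
    {f₂ : (μ → F) → (μ → F) → F} (h₁ : SF 𝟙 f₁) (h₂ : SF 𝟙 f₂) (x₁ y₁ : κ → F) (x₂ y₂ : μ → F) :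
    formOfGram 𝟙 (gramMatrix f₁ ⊗ₖ gramMatrix f₂) (fun a => x₁ a.1 * x₂ a.2)
      (fun a => y₁ a.1 * y₂ a.2) = f₁ x₁ y₁ * f₂ x₂ y₂ := by
  rw [congrFun (congrFun h₁.eq_formOfGram x₁) y₁, congrFun (congrFun h₂.eq_formOfGram x₂) y₂]
  simp only [formOfGram, Fintype.sum_prod_type, kronecker_apply, RingHom.id_apply,
    Finset.sum_mul_sum]
  refine Finset.sum_congr rfl fun a _ => Finset.sum_congr rfl fun b _ =>
    Finset.sum_congr rfl fun c _ => Finset.sum_congr rfl fun d _ => by ring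

theorem e11_facts : (!![1, 0; 0, 0] : Matrix (Fin 2) (Fin 2) F) * !![1, 0; 0, 0] = !![1, 0; 0, 0] ∧
    (!![1, 0; 0, 0] : Matrix (Fin 2) (Fin 2) F) + adjugate !![1, 0; 0, 0] = 1 := by
  constructor <;> ext i j <;> fin_cases i <;> fin_cases j <;> simp [adjugate_fin_two]

theorem sp_tensor [Finite F] (hφ : φ.Nondeg) (hH : H ≤ IG φ) (hI : Irr H) {n₂ : ℕ}
    {e : ι ≃ Fin 2 × Fin n₂} {P : GL ι F} {f₁ : (Fin 2 → F) → (Fin 2 → F) → F}
    {f₂ : (Fin n₂ → F) → (Fin n₂ → F) → F} {ε₁ ε₂ : F} (h : TData 𝟙 (fn φ) H e P f₁ f₂ ε₁ ε₂)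
    (a₁ : ∀ v, f₁ v v = 0) (a₂ : ∀ v, f₂ v v = 0) : Pl φ ∧ ∀ (x₁ : Fin 2 → F) (x₂ : Fin n₂ → F),
      φ.Q ((P : Matrix ι ι F) *ᵥ ((fun a : Fin 2 × Fin n₂ => x₁ a.1 * x₂ a.2) ∘ e)) = 0 := by
  have hf : SF 𝟙 (fn φ) := sf_fn hφ
  have hr : Refl 𝟙 1 (fn φ) := refl_fn φ
  have hn : 2 ≤ Fintype.card ι := by have := h.card; have := h.two₂; omega
  have h1 : ψL e P !![1, 0; 0, 0] + adj 𝟙 (fn φ) (ψL e P !![1, 0; 0, 0]) = 1 := by
    rw [h.adj₁, adj_alt_two h.sf₁ a₁, ← map_add, e11_facts.2, map_one]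
  have h3 := Q_eq_of_j hφ hn hH hI h1 fun h2 => by
    obtain ⟨-, -, j, h4, h5⟩ := TData_two h2 hf hr hI (fixes_IG hH) h.swap
    have h6 := j_indep hf hr h1 h4 (by rw [ψL_apply _ _ j, tr_swap]; exact ψ_comm e P _ j)
    simpa only [h6] using h5
  refine ⟨pl_of_idem hφ (by rw [← map_mul, e11_facts.1]) h1 h3, fun x₁ x₂ => ?_⟩
  obtain ⟨c, -, h4⟩ := h.form_eq hf
  rw [h3, ← trv_apply, ψL_apply, tr_mulVec, h4]
  have : ((!![1, 0; 0, 0] : Matrix (Fin 2) (Fin 2) F) ⊗ₖ (1 : Matrix (Fin n₂) (Fin n₂) F)) *ᵥ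
      (fun a : Fin 2 × Fin n₂ => x₁ a.1 * x₂ a.2) = fun a => ![x₁ 0, 0] a.1 * x₂ a.2 := by
    ext ⟨a, b⟩
    fin_cases a <;> simp [mulVec, dotProduct, Fintype.sum_prod_type, one_apply]
  rw [this, form_pure h.sf₁ h.sf₂, a₂, mul_zero, mul_zero]

theorem pl_wreath_two [Finite F] (h2 : (2 : F) = 0) (hφ : φ.Nondeg) (hH : H ≤ IG φ) (hI : Irr H)
    {t : ℕ} {e : ι ≃ (Fin t → Fin 2)} {P : GL ι F} {f₀ : (Fin 2 → F) → (Fin 2 → F) → F} {ε₀ : F}
    (h : WData 𝟙 (fn φ) H e P f₀ ε₀) (ha : ∀ v, f₀ v v = 0) : Pl φ := by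
  have hf : SF 𝟙 (fn φ) := sf_fn hφ
  have hr : Refl 𝟙 1 (fn φ) := refl_fn φ
  have : Nontrivial (Fin t) := Fin.nontrivial_iff_two_le.2 h.two_t
  obtain ⟨i, i', hi⟩ := exists_pair_ne (Fin t)
  have h1 : tr e P (atF i !![1, 0; 0, 0]) + adj 𝟙 (fn φ) (tr e P (atF i !![1, 0; 0, 0])) = 1 := by
    rw [h.adj, adj_alt_two h.sf ha, ← map_add, ← map_add, e11_facts.2, map_one, map_one]
  refine pl_of_idem hφ (by rw [← map_mul, ← map_mul, e11_facts.1]) h1 (Q_eq_of_j hφ ?_ hH hI h1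
    fun _ => ?_)
  · rw [h.card]; exact Nat.le_self_pow (by have := h.two_t; omega) 2
  · obtain ⟨j, h4, h5⟩ := WData_two h2 hf hr (fixes_IG hH) h ha i'
    have h6 := j_indep hf hr h1 h4 (by rw [← map_mul, ← map_mul, atF_comm hi])
    simpa only [h6] using h5

theorem not_perfect_O2 (h2 : (2 : F) ≠ 0) {f : (Fin 2 → F) → (Fin 2 → F) → F} (hf : SF 𝟙 f)
    (hr : Refl 𝟙 1 f) {Q : Subgroup (GL (Fin 2) F)} (hp : ⁅Q, Q⁆ = Q) (ha : alg Q = ⊤) :
    ¬ FixesForm (matrixSet Q) f := fun h => by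
  obtain ⟨c, -, hc⟩ := SF.exists_smul_of_fixes sf_J2 hf ha (by
    rintro _ ⟨g, hg, rfl⟩
    refine (sf_J2.isom_iff _).2 ?_
    rw [adj_J2, adjugate_mul, show (g : Matrix (Fin 2) (Fin 2) F).det = 1 from congrArg Units.val
      (eq_one_of_perfect hp (Matrix.GeneralLinearGroup.det.comp Q.subtype) ⟨g, hg⟩), one_smul]) h
  have h1 : Refl 𝟙 (-1) f := fun u v => by rw [hc, hc, refl_J2 u v]; simp
  exact h2 (by linear_combination refl_unique hf hr h1)

theorem det_swap {f : (κ → F) → (κ → F) → F} (hf : SF 𝟙 f) {e : κ ≃ Fin 2 × Fin 2} {P : GL κ F}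
    {c : F} (hc : c ≠ 0)
    (h : ∀ x y, f (trv e P x) (trv e P y) = c * formOfGram 𝟙 (J2 F ⊗ₖ J2 F) x y) {b : GL κ F}
    {μ : F} (hb : adj 𝟙 f b * (b : Matrix κ κ F) = μ • 1)
    (hs : ∀ x, cj b (ψL e P x) ∈ (ψR e P).range) : (b : Matrix κ κ F).det = -μ ^ 2 := by
  have : Nonempty κ := e.nonempty
  let S : Matrix (Fin 2 × Fin 2) (Fin 2 × Fin 2) F :=
    Equiv.Perm.permMatrix F (Equiv.prodComm (Fin 2) (Fin 2))
  have S1 : S * S = 1 := by
    ext ⟨a, b⟩ ⟨c, d⟩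
    fin_cases a <;> fin_cases b <;> fin_cases c <;> fin_cases d <;>
      simp [S, Matrix.mul_apply, Fintype.sum_prod_type, PEquiv.toMatrix]
  have S2 : S.det = -1 := by
    rw [det_permutation, show Equiv.Perm.sign (Equiv.prodComm (Fin 2) (Fin 2)) = -1 by decide]; simp
  have hG : (J2 F ⊗ₖ J2 F).det ≠ 0 := by
    simpa only [gramMatrix_formOfGram] using kron_det_ne_zero (F := F) sf_J2 sf_J2
  have hs' := sf_formOfGram (σ := 𝟙) (fun _ => rfl) hG
  have S3 : adj 𝟙 f (tr e P S) = tr e P S := by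
    rw [adj_of_form_eq hf hs' hc h, adj_eq_of_gram (fun _ => rfl) hG (y := S)]
    ext ⟨a, b⟩ ⟨c, d⟩
    fin_cases a <;> fin_cases b <;> fin_cases c <;> fin_cases d <;>
      simp [S, J2, Matrix.mul_apply, Fintype.sum_prod_type, PEquiv.toMatrix]
  obtain ⟨s, hs1⟩ := exists_gl_of_mul (X := tr e P S) (by rw [← map_mul, S1, map_one])
  obtain ⟨a₁, a₂, h1⟩ := (mem_tensorProductSubgroup_iff e P (s * b)).1
    (mem_tensor_of_L two_pos two_pos fun x => by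
      obtain ⟨y, hy⟩ := hs x
      refine ⟨y, ?_⟩
      rw [cj_mul, ← hy, cj_eq_iff, hs1]
      change tr e P S * ψR e P y = _
      rw [ψL_apply, ψR_apply, ← map_mul, ← map_mul]
      congr 1
      ext ⟨a, b⟩ ⟨c, d⟩
      fin_cases a <;> fin_cases b <;> fin_cases c <;> fin_cases d <;>
        simp [S, Matrix.mul_apply, Fintype.sum_prod_type, PEquiv.toMatrix])
  have h2 : adj 𝟙 f (s * b : GL κ F) * (s * b : GL κ F) = μ • 1 := by
    rw [Units.val_mul, hf.adj_mul, hs1, S3, mul_assoc, ← mul_assoc (tr e P S), ← map_mul, S1, map_one,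
      one_mul, hb]
  have h3 := adj_kronecker (F := F) sf_J2 sf_J2 (a₁ : Matrix (Fin 2) (Fin 2) F) a₂
  simp only [gramMatrix_formOfGram, adj_J2] at h3
  rw [h1, adj_of_form_eq hf hs' hc h, h3, ← map_mul, ← mul_kronecker_mul, adjugate_mul, adjugate_mul,
    smul_kronecker, kronecker_smul, one_kronecker_one, smul_smul, map_smul, map_one] at h2
  have h4 := congrArg det h1
  rw [Units.val_mul, det_mul, hs1, det_tr, det_tr, S2, det_kronecker] at h4
  rw [← smul_left_injective F one_ne_zero h2, mul_pow]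
  simp only [Fintype.card_fin] at h4
  linear_combination -h4

theorem sp_of_O3O4 [Finite F] (h2 : (2 : F) ≠ 0) (hφ : φ.Nondeg) (hH : H ≤ IG φ)
    (hd : ∀ g ∈ H, (g : Matrix ι ι F).det = 1) {e : ι ≃ Fin 3 × Fin 4} {P : GL ι F}
    {f₁ : (Fin 3 → F) → (Fin 3 → F) → F} {f₂ : (Fin 4 → F) → (Fin 4 → F) → F} {ε₁ : F}
    (h : TData 𝟙 (fn φ) H e P f₁ f₂ ε₁ 1) (hp : IsPlusTypeOn (fun v => f₂ v v) ⊤) :
    ∃ (e : ι ≃ Fin 2 × Fin 6) (P : GL ι F) (f₁ : (Fin 2 → F) → (Fin 2 → F) → F)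
      (f₂ : (Fin 6 → F) → (Fin 6 → F) → F), TData 𝟙 (fn φ) H e P f₁ f₂ (-1) (-1) := by
  have := h.neι
  have hf : SF 𝟙 (fn φ) := sf_fn hφ
  have hr : Refl 𝟙 1 (fn φ) := refl_fn φ
  have hs := hH.trans (IG_le_sim φ)
  obtain ⟨e', P', c, hc, h1⟩ := exists_JJ h2 h.sf₂ h.r₂ (by simp) hp
  have hT := tdata_of_form_eq (H := ⊥) h.sf₂ le_rfl le_rfl sf_J2 sf_J2 refl_J2 refl_J2 hc
    (by simpa only [gramMatrix_formOfGram] using h1) bot_le
  let ψ := (ψR e P).comp (ψL e' P')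
  have ha : ∀ x, adj 𝟙 (fn φ) (ψ x) = ψ (adj 𝟙 (formOfGram 𝟙 (J2 F)) x) := fun x => by
    change adj 𝟙 (fn φ) (ψR e P (ψL e' P' x)) = ψR e P (ψL e' P' _)
    rw [h.adj₂, hT.adj₁]
  obtain ⟨m, e₀, P₀, hm, h3, hle⟩ := exists_tensor_of_algHom (H := H) two_pos ψ (fun h3 => by
    have h4 := LinearMap.finrank_range_le ψ.toLinearMap
    rw [show LinearMap.range ψ.toLinearMap = ⊤ from congrArg Subalgebra.toSubmodule h3, finrank_top,
      finrank_matrix, finrank_matrix, h.card] at h4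
    simp at h4) (le_normalizer_of_forall fun g hg => by
    rintro _ ⟨x, rfl⟩
    obtain ⟨a, b, h3⟩ := (mem_tensorProductSubgroup_iff e P g).1 (h.le hg)
    have h4 : ∀ x, cj g (ψL e P x) = ψL e P (cj a x) := fun x => by
      rw [ψL_apply, cj_tr_kronecker h3, map_one]; rfl
    have h5 : ∀ x, cj g (ψR e P x) = ψR e P (cj b x) := fun x => by
      rw [ψR_apply, cj_tr_kronecker h3, map_one]; rfl
    have h6 := ind_le_sim hf h.sf₂ h.adj₂ hs ⟨g, hg, h5⟩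
    rcases perm_JJ h2 h.sf₂ hc h1 h6 with h7 | h7
    · obtain ⟨x', hx'⟩ := range_comp h5 h7.1 x
      exact ⟨x', hx'.symm⟩
    exfalso
    obtain ⟨μ, -, h8⟩ := exists_adj_mul_of_sim h.sf₂ h6
    obtain ⟨l, -, h9⟩ := exists_adj_mul_of_sim h.sf₁ (ind_le_sim hf h.sf₁ h.adj₁ hs ⟨g, hg, h4⟩)
    have b1 := det_swap h.sf₂ hc h1 h8 h7.1
    have b2 := sim_det h.sf₁ ((h.sf₁.sim_iff _ l).2 h9)
    have b3 := (hf.isom_iff _).1 (mem_IG.1 (hH hg)).1
    rw [h3, ← ψL_mul_ψR, hf.adj_mul, h.adj₁, h.adj₂, mul_assoc, ← mul_assoc (ψL e P _), ← map_mul,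
      h9, map_smul, map_one, Matrix.smul_mul, one_mul, Matrix.mul_smul, ← map_mul, h8, map_smul,
      map_one, smul_smul] at b3
    have b4 : l * μ = 1 := smul_left_injective F one_ne_zero (b3.trans (one_smul F _).symm)
    have b5 := hd g hg
    rw [h3, det_tr, det_kronecker, b1] at b5
    simp only [Fintype.card_fin, RingHom.id_apply] at b2 b5
    have b6 : (l * μ) ^ 6 = 1 := by rw [b4, one_pow]
    exact h2 (by
      linear_combination (-1) * b5 - b6 - μ ^ 6 * ((a : Matrix (Fin 3) (Fin 3) F).det ^ 2 + l ^ 3) * b2))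
  obtain rfl : m = 6 := by
    have := Fintype.card_congr e₀
    rw [h.card] at this
    simp at this
    omega
  obtain ⟨g₁, g₂, η₁, η₂, s1, s2, r1, r2, a1, a2⟩ := exists_tensor_form hf hr e₀ P₀ fun x =>
    ⟨adj 𝟙 (formOfGram 𝟙 (J2 F)) x, by rw [← h3, ← h3, ha]⟩
  have h4 : TData 𝟙 (fn φ) H e₀ P₀ g₁ g₂ η₁ η₂ := ⟨le_rfl, hm, s1, s2, r1, r2, a1, a2, hle⟩
  obtain ⟨d, -, hd⟩ := SF.exists_smul_of_adj_eq sf_J2 s1 fun x =>
    algHom_injective ψ (by rw [← ha, h3, h3, a1])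
  obtain rfl : η₁ = -1 := refl_unique s1 r1 fun u v => by rw [hd, hd, refl_J2 u v]; simp
  obtain rfl : η₂ = -1 := by linear_combination -TData.eps h4 hf hr
  exact ⟨e₀, P₀, g₁, g₂, h4⟩

theorem pl_of_esp [Finite F] (hφ : φ.Nondeg) (h4 : 4 ∣ Fintype.card ι) [Nontrivial ι] {r : ℕ}
    {L : Subgroup (GL ι F)} (hL : ESp r L) (hle : L ≤ IG φ) : Pl φ := by
  have hf : SF 𝟙 (fn φ) := sf_fn hφ
  obtain ⟨rfl, -, h2, -⟩ := esp_bilin hL hf (fixes_IG hle)
  have h1 : ∀ x ∈ L, x ∈ scalars ι F → (x : Matrix ι ι F) = 1 ∨ (x : Matrix ι ι F) = -1 := by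
    intro x hx hs
    obtain ⟨c, hc⟩ := (mem_scalars_iff x).1 hs
    rcases mul_self_eq_one_iff.1 (scalar_norm hf (fixes_IG hle) hx hc) with h | h <;> simp [hc, h]
  have h3 : ∀ z ∈ L, (z : Matrix ι ι F) * z = -1 → Pl φ := fun z hz h =>
    pl_of_skew hφ h2 h (by
      rw [hf.adj_of_isom (mem_IG.1 (hle hz)).1]
      exact Units.inv_eq_of_mul_eq_one_right (by rw [mul_neg, h, neg_neg])) h4
  have h5 : ∀ z ∈ L, (z : Matrix ι ι F) * z = 1 ∨ Pl φ := fun z hz =>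
    (h1 _ (L.pow_mem hz 2) (hL.pow_sc z hz)).imp (by simp [sq]) fun h => h3 z hz (by simpa [sq] using h)
  by_contra h6
  refine not_comm_of_alg_top hL.alg_top fun x hx y hy => ?_
  have h7 : ∀ z ∈ L, z * z = 1 := fun z hz => Units.ext ((h5 z hz).resolve_right h6)
  rw [← mul_inv_eq_one, _root_.mul_inv_rev, inv_eq_of_mul_eq_one_right (h7 x hx),
    inv_eq_of_mul_eq_one_right (h7 y hy)]
  exact h7 _ (L.mul_mem hx hy)

end CA.AschO3
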