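import Mathlib
import Cfsg.Prelude.Def_GeometricClasses
import Cfsg.Agent.Lib.Lin.AschO3

/-! Aschbacher's theorem for the orthogonal groups. -/

set_option autoImplicit false
set_option linter.unusedSectionVars false

namespace CA.AschO

open Cfsg Cfsg.Geo Matrix CA.AschBase CA.AschWed CA.AschKron CA.AschTens CA.AschFF CA.AschField
  CA.AschForm CA.AschGrp CA.AschPerf CA.AschTForm CA.AschLin CA.AschProp CA.AschProp2 CA.AschDesc
  CA.AschFG CA.AschFG2 CA.AschFG3 CA.AschFG4 CA.AschFG5 CA.AschFG6 CA.AschFG7 CA.AschO1 CA.AschO2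
  CA.AschO3 CA.CForm Module
open scoped MatrixGroups Kronecker commutatorElement

variable {ι : Type} [Fintype ι] [DecidableEq ι] {F : Type*} [Field F] [Fintype F]

local notation "𝟙" => RingHom.id F

/-- The refined list of geometric classes for the orthogonal group of `φ`. -/
def OC (φ : Form (Kind.orth F) (ι → F)) (p : Subgroup (GL ι F) → Prop) : Prop :=
  (∃ W : Submodule F (ι → F), W ≠ ⊥ ∧ IsTotallySingularQuad φ.Q W ∧
    (Pl φ → 2 * (finrank F W + 1) ≠ Fintype.card ι) ∧ p (subspaceStabilizer W)) ∨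
  (∃ W : Submodule F (ι → F), W ≠ ⊥ ∧ Disjoint W (φ.perp W) ∧ 2 * finrank F W ≤ Fintype.card ι ∧
    (finrank F W = 2 → IsPlusTypeOn φ.Q W → 4 ≤ Fintype.card F) ∧ p (subspaceStabilizer W) ∧
    p (subspaceStabilizer (φ.perp W)) ∧
    (2 * finrank F W = Fintype.card ι → p (decompositionStabilizer ![W, φ.perp W]))) ∨
  ((2 : F) = 0 ∧ ∃ v, φ.Q v ≠ 0 ∧ p (subspaceStabilizer (F ∙ v))) ∨
  (∃ (t k : ℕ) (D : Fin t → Submodule F (ι → F)), IsOrthogonalMDecomposition φ.Q k D ∧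
    (k = 1 → (Fintype.card F).Prime) ∧
    (k = 2 → ∀ i, (IsPlusTypeOn φ.Q (D i) → 7 ≤ Fintype.card F) ∧
      (¬ IsPlusTypeOn φ.Q (D i) → Fintype.card F ≠ 3)) ∧ (k = 3 → 5 ≤ Fintype.card F) ∧
    (k = 4 → ∀ i, IsPlusTypeOn φ.Q (D i) → 3 ≤ Fintype.card F) ∧ p (decompositionStabilizer D)) ∨
  (∃ (k : ℕ) (D : Fin 2 → Submodule F (ι → F)), IsMDecomposition k D ∧
    (∀ i, IsTotallySingularQuad φ.Q (D i)) ∧ Even k ∧ Pl φ ∧ p (decompositionStabilizer D)) ∨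
  (∃ (r : ℕ) (K : Subalgebra F (Matrix ι ι F)), r.Prime ∧ r ∣ Fintype.card ι ∧
    r ≠ Fintype.card ι ∧ 2 * r ≠ Fintype.card ι ∧ ((2 : F) = 0 → 2 * r ∣ Fintype.card ι) ∧
    IsFieldSubalgebra r K ∧ IsSelfAdjointFor (QuadraticMap.polar φ.Q) K ∧
    p (subalgebraNormalizer K)) ∨
  (∃ (m : ℕ) (K : Subalgebra F (Matrix ι ι F)), Fintype.card ι = 2 * m ∧ (Pl φ ↔ Even m) ∧
    IsFieldSubalgebra 2 K ∧ IsAdjointClosedFor (QuadraticMap.polar φ.Q) K ∧
    ¬ IsSelfAdjointFor (QuadraticMap.polar φ.Q) K ∧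
    (∀ x ∈ K, ∃ c : F, ∀ v, φ.Q (x *ᵥ v) = c * φ.Q v) ∧ p (subalgebraNormalizer K)) ∨
  (Odd (Fintype.card F) ∧ ∃ (n₁ n₂ : ℕ) (e : ι ≃ Fin n₁ × Fin n₂) (P : GL ι F)
    (f₁ : (Fin n₁ → F) → (Fin n₁ → F) → F) (f₂ : (Fin n₂ → F) → (Fin n₂ → F) → F),
    Fintype.card ι = n₁ * n₂ ∧ 3 ≤ n₁ ∧ n₁ < n₂ ∧ (n₁ = 3 → 5 ≤ Fintype.card F) ∧
    (n₂ = 4 → ¬ IsPlusTypeOn (fun v => f₂ v v) ⊤ ∧ ¬ Pl φ) ∧ IsSymmetricForm f₁ ∧
    IsSymmetricForm f₂ ∧ IsTensorFormStructure id (QuadraticMap.polar φ.Q) f₁ f₂ e P ∧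
    p (tensorProductSubgroup n₁ n₂ e P)) ∨
  (3 ≤ Fintype.card F ∧ Pl φ ∧ ∃ (n₂ : ℕ) (e : ι ≃ Fin 2 × Fin n₂) (P : GL ι F)
    (f₁ : (Fin 2 → F) → (Fin 2 → F) → F) (f₂ : (Fin n₂ → F) → (Fin n₂ → F) → F),
    Fintype.card ι = 2 * n₂ ∧ Even n₂ ∧ IsSymplecticForm f₁ ∧ IsSymplecticForm f₂ ∧
    IsTensorFormStructure id (QuadraticMap.polar φ.Q) f₁ f₂ e P ∧
    (∀ (x₁ : Fin 2 → F) (x₂ : Fin n₂ → F),
      φ.Q ((P : Matrix ι ι F) *ᵥ ((fun a : Fin 2 × Fin n₂ => x₁ a.1 * x₂ a.2) ∘ e)) = 0) ∧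
    p (tensorProductSubgroup 2 n₂ e P)) ∨
  (∃ (F₀ : Subfield F) (r : ℕ) (P : GL ι F) (ζ : F), r.Prime ∧ Fintype.card F = Nat.card F₀ ^ r ∧
    ζ ≠ 0 ∧ IsQuadFormRationalStructure (fun v => ζ * φ.Q v) F₀ P ∧ p (subfieldSubgroup F₀ P)) ∨
  (∃ (k t : ℕ) (e : ι ≃ (Fin t → Fin k)) (P : GL ι F) (f₁ : (Fin k → F) → (Fin k → F) → F),
    Fintype.card ι = k ^ t ∧ 3 ≤ k ∧ 2 ≤ t ∧ ¬ (Fintype.card F = 3 ∧ k = 3) ∧
    IsSymmetricForm f₁ ∧ IsTensorPowerFormStructure id (QuadraticMap.polar φ.Q) f₁ e P ∧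
    p (tensorWreathSubgroup k t e P))

theorem five_le (h2 : (2 : F) ≠ 0) (h3 : Fintype.card F ≠ 3) : 5 ≤ Fintype.card F := by
  have := Fintype.one_lt_card (α := F)
  obtain ⟨k, hk⟩ := two_ne_zero_iff_odd.1 h2
  omega

theorem equiv_odd {n : ℕ} (h2 : (2 : F) ≠ 0) (ho : Odd n) {f₁ f₂ : (Fin n → F) → (Fin n → F) → F}
    (s₁ : SF 𝟙 f₁) (s₂ : SF 𝟙 f₂) (r₁ : Refl 𝟙 1 f₁) (r₂ : Refl 𝟙 1 f₂) :
    ∃ (b : GL (Fin n) F) (c : F), ∀ u v, f₂ ((b : Matrix (Fin n) (Fin n) F) *ᵥ u)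
      ((b : Matrix (Fin n) (Fin n) F) *ᵥ v) = c * f₁ u v := by
  obtain ⟨m, hm⟩ := ho
  obtain ⟨c₁, h₁, e₁, a₁⟩ := (toSym_nondeg h2 s₁ r₁).equivalent_smul_odd (m := m) (by simp [hm])
  obtain ⟨c₂, -, e₂, a₂⟩ := (toSym_nondeg h2 s₂ r₂).equivalent_smul_odd (m := m) (by simp [hm])
  refine ⟨glEquiv.symm (e₁.trans e₂.symm), c₂ / c₁, fun u v => ?_⟩
  have b₁ := a₁.B_eq v u
  have b₂ := a₂.B_eq (e₂.symm (e₁ v)) (e₂.symm (e₁ u))
  rw [← fn_apply (toSym h2 _ _), fn_toSym] at b₁ b₂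
  simp only [glEquiv_symm_mulVec, LinearEquiv.trans_apply]
  simp only [Form.smulOrth_B, LinearEquiv.apply_symm_apply] at b₁ b₂
  rw [← b₁, ← b₂]
  field_simp

section Main

variable {φ : Form (Kind.orth F) (ι → F)} {H : Subgroup (GL ι F)}

theorem cls_nondeg (hH : H ≤ IG φ) {W : Submodule F (ι → F)} (h1 : W ≠ ⊥)
    (h2 : Disjoint W (φ.perp W)) (h3 : 2 * finrank F W ≤ Fintype.card ι)
    (h4 : finrank F W = 2 → IsPlusTypeOn φ.Q W → 4 ≤ Fintype.card F)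
    (h5 : H ≤ subspaceStabilizer W) : OC φ (H ≤ ·) :=
  .inr (.inl ⟨W, h1, h2, h3, h4, h5, le_stab_perp hH h5, fun _ => le_decomp_pair hH h5⟩)

theorem cls_line (hn : 2 ≤ Fintype.card ι) (hH : H ≤ IG φ) {v : ι → F} (hv : φ.Q v ≠ 0)
    (h : H ≤ subspaceStabilizer (F ∙ v)) : OC φ (H ≤ ·) := by
  by_cases h2 : (2 : F) = 0
  · exact .inr (.inr (.inl ⟨h2, v, hv, h⟩))
  have h0 : v ≠ 0 := by rintro rfl; exact hv φ.Q_zero
  have h1 := finrank_span_singleton (K := F) h0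
  refine cls_nondeg hH (mt Submodule.span_singleton_eq_bot.1 h0) ?_ (by omega) (by omega) h
  rw [Submodule.disjoint_def]
  intro x hx hx'
  obtain ⟨c, rfl⟩ := Submodule.mem_span_singleton.1 hx
  rw [φ.mem_perp_span_singleton, map_smul, φ.orth_B_self, smul_eq_mul] at hx'
  rw [(mul_eq_zero.1 hx').resolve_right (mul_ne_zero h2 hv), zero_smul]

theorem cls_sub (hφ : φ.Nondeg) (hn : 2 ≤ Fintype.card ι) {L : Subgroup (GL ι F)} (hL : alg L = ⊤)
    (hN : Nrm H L) (hle : L ≤ IG φ) {F₀ : Subfield F} (h0 : F₀ ≠ ⊤) {B : GL ι F}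
    (hB : ∀ x ∈ L, Ent F₀ (cj B (x : Matrix ι ι F))) : OC φ (H ≤ ·) := by
  have : Nonempty ι := Fintype.card_pos_iff.1 (by omega)
  obtain ⟨F₁, r, P, ζ, h1, -, h2, h3, h4, h5, h6⟩ := sub_case (sf_fn hφ) hL hN (fixes_IG hle) h0 hB
  have h7 := quad_rat hφ hn hle (irr_of_alg_eq_top hL) h3 h4 h5
  repeat (first | exact .inl ⟨F₁, r, P, ζ, h1, h2, h3, h7, h6⟩ | right)

theorem cls_frame {t : ℕ} {D : Fin t → Submodule F (ι → F)} (hD : IsOrthogonalMDecomposition φ.Q 1 D)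
    (hp : (Fintype.card F).Prime) (hle : H ≤ decompositionStabilizer D) : OC φ (H ≤ ·) :=
  .inr (.inr (.inr (.inl ⟨t, 1, D, hD, fun _ => hp, by omega, by omega, by omega, hle⟩)))

variable (hφ : φ.Nondeg) (h7 : 7 ≤ Fintype.card ι) (hH : H ≤ EG φ)
include hφ h7 hH

theorem cls_red (hI : ¬ Irr H) : OC φ (H ≤ ·) := by
  have hG := hH.trans (EG_le_IG φ)
  obtain ⟨W, h1, h2, h3, h4 | h4 | ⟨v, hv, -, rfl⟩⟩ := red_cases hG hI
  · by_cases h5 : Pl φ ∧ 2 * (finrank F W + 1) = Fintype.card ι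
    · obtain ⟨U, u1, u2, u3⟩ := φ.exists_maximal_ts h4
      obtain ⟨U', v1, v2⟩ := h5.1
      have a1 := hφ.finrank_le_of_maximal u2 u3 v1
      have a2 := hφ.two_mul_finrank_le u2
      rw [finrank_fun] at v2 a2
      refine .inl ⟨U, fun h => h1 (le_bot_iff.1 (h ▸ u1)), u2.Q_eq, fun _ => by omega,
        le_subspaceStabilizer fun g hg v hv => mem_stab_of_EG hφ (by omega) (hH hg) u2 (by omega)
          (fun d hd a3 a4 => ?_) hv⟩
      have a5 := Submodule.finrank_mono (le_inf u1 ((map_eq_of_stab (h3 hg)).ge.trans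
        (Submodule.map_mono u1)))
      obtain ⟨s, hs⟩ := a4
      omega
    · exact .inl ⟨W, h1, h4.Q_eq, fun a b => h5 ⟨a, b⟩, h3⟩
  · obtain ⟨W, h1, -, h3, h4, h5⟩ := exists_small_nondeg hφ hG h1 h2 h3 h4
    by_cases h6 : finrank F W = 2 ∧ IsPlusTypeOn φ.Q W ∧ Fintype.card F ≤ 3
    · obtain ⟨v, hv, h8⟩ := stab_line_of_plus h6.2.2 hG h4 h6.1 h6.2.1 h3
      exact cls_line (by omega) hG (hv ▸ one_ne_zero) h8
    · exact cls_nondeg hG h1 h4 h5 (fun a b => by by_contra h; exact h6 ⟨a, b, by omega⟩) h3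
  · exact cls_line (by omega) hG hv h3

theorem cls_D1 (hI : Irr H) (h : CaseD1 φ H) : OC φ (H ≤ ·) := by
  have hG := hH.trans (EG_le_IG φ)
  obtain ⟨t, m, D, hD, hle, htr⟩ := h
  have hq := Fintype.one_lt_card (α := F)
  let i₀ : Fin t := ⟨0, by have := hD.decomp.two_le; omega⟩
  have hn : ∀ i, (φ.restrict (D i)).Nondeg := fun i =>
    (φ.nondeg_restrict_iff _).2 (nondegOn_iff.1 (hD.nondegenerate i))
  have he : ∀ i j, (φ.restrict (D i)).Equivalent (φ.restrict (D j)) := fun i j => by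
    obtain ⟨g, hg, h⟩ := htr i j
    exact h ▸ equiv_map (T := Matrix.toLin' (g : Matrix ι ι F)) ⟨B_IG (hG hg), Q_IG (hG hg)⟩
      (mulVec_injective_gl g) _
  have hO := orthDecomp_iff.2 ⟨hD, he⟩
  have hp : ∀ i, IsPlusTypeOn φ.Q (D i) ↔ Pl (φ.restrict (D i₀)) := fun i => by
    rw [plusOn_iff, pl_congr (he i i₀)]
  have hd := hD.decomp.finrank_eq i₀
  obtain ⟨φ₀, h₀⟩ := exists_equivalent_fun (φ.restrict (D i₀)) hd
  obtain ⟨Φ, hW⟩ := exists_wr hG hD hle htr i₀ h₀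
  have n₀ := h₀.symm.nondeg (hn i₀)
  have hbin : ∀ {a b : F}, m = 2 → a ^ 2 - 4 * b ≠ 0 → (Pl (φ.restrict (D i₀)) ↔ ¬ Aniso a b) →
      ∃ Φ : (Fin t → Fin 2 → F) ≃ₗ[F] (ι → F), Wr φ H (binForm a b) Φ := by
    rintro a b rfl h1 h2
    exact exists_wr hG hD hle htr i₀ (equivalent_of_pl (binForm_nondeg h1) (hn i₀) (by simp)
      (by simp [hd]) (pl_binForm.trans h2.symm))
  by_cases c1 : m = 1 ∧ ¬ (Fintype.card F).Prime
  · obtain ⟨rfl, c1⟩ := c1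
    obtain ⟨F₀, r, h1, h2⟩ := exists_prime_subfield c1
    obtain ⟨h3, ζ, h4, h5⟩ := ent_one_dim n₀ F₀
    obtain ⟨P, h6, h8⟩ := hW.sub h3 h5
    repeat (first | exact .inl ⟨F₀, r, P, ζ, h1, h2, h4, h6, h8⟩ | right)
  by_cases c2 : m = 2 ∧ Pl (φ.restrict (D i₀)) ∧ Fintype.card F ≤ 3
  · obtain ⟨rfl, c2, c3⟩ := c2
    obtain ⟨v, h1, h2⟩ := plus_two_line c3 n₀ (by simp) ((pl_congr h₀).2 c2)
    exact absurd (hW.irr hI) (not_irr_of_line (by simp)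
      (by rintro rfl; exact zero_ne_one (φ₀.Q_zero.symm.trans h1))
      (le_stab_line fun g hg => h2 _ ((Q_IG hg _).trans h1)))
  by_cases c3 : m = 2 ∧ Pl (φ.restrict (D i₀)) ∧ Fintype.card F = 4
  · obtain ⟨h1, h2, h3⟩ := four_facts c3.2.2
    obtain ⟨Φ, hW⟩ := hbin (a := 1) (b := 1) c3.1 (fun h => one_ne_zero
      (by linear_combination h + 2 * h1 : (1 : F) = 0)) (by tauto)
    obtain ⟨P, h4, h5⟩ := hW.sub (F₀ := ⊥) (ζ := 1) (fun g hg => h3 g hg _) fun u hu => by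
      simpa only [binForm_Q, one_mul] using add_mem (add_mem (pow_mem (hu 0) 2)
        (mul_mem (hu 0) (hu 1))) (pow_mem (hu 1) 2)
    have : CharP F 2 := charP_of_card (k := 2) Nat.prime_two c3.2.2
    have h6 : Fintype.card F = Nat.card (⊥ : Subfield F) ^ 2 := by
      rw [card_bot_subfield (p := 2), c3.2.2]; rfl
    repeat (first | exact .inl ⟨⊥, 2, P, 1, Nat.prime_two, h6, one_ne_zero, h4, h5⟩ | right)
  by_cases c4 : m = 2 ∧ (Pl (φ.restrict (D i₀)) ∧ Fintype.card F = 5 ∨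
      ¬ Pl (φ.restrict (D i₀)) ∧ Fintype.card F = 3)
  · have h1 : Fintype.card F = 3 ∨ Fintype.card F = 5 := by tauto
    have h2 : (2 : F) ≠ 0 := two_ne_zero_iff_odd.2 (by rcases h1 with h | h <;> rw [h] <;> decide)
    obtain ⟨Φ, hW⟩ := hbin (a := 0) (b := 1) c4.1
      (by rw [show (0 : F) ^ 2 - 4 * 1 = -(2 * 2) by ring]; simp [h2]) (by
      rcases c4.2 with ⟨a, b⟩ | ⟨a, b⟩
      · have : CharP F 5 := charP_of_card (k := 1) Nat.prime_five (by simpa using b)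
        exact iff_of_true a fun h => aniso_iff.1 h 2 (by
          linear_combination (CharP.cast_eq_zero F 5 : ((5 : ℕ) : F) = 0))
      · refine iff_of_false a (not_not.2 (aniso_iff.2 fun x hx => ?_))
        rcases cases_three b x with rfl | rfl | rfl
        · simp at hx
        all_goals exact h2 (by linear_combination hx))
    obtain ⟨E, h3, h4⟩ := frame_two h1
    obtain ⟨D', h5, h6, -⟩ := orefine hφ hW h3 h4
    exact cls_frame h5 (by rcases h1 with h | h <;> rw [h] <;> decide) h6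
  by_cases c5 : m = 3 ∧ Fintype.card F = 3
  · obtain ⟨rfl, c5⟩ := c5
    obtain ⟨b, a, h1, h2, h3⟩ := sim_le_frame_three c5 n₀ (by simp)
    obtain ⟨D', h5, h6, -⟩ := orefine hφ hW (orth_frame h1 h2) ((IG_le_sim φ₀).trans h3)
    exact cls_frame h5 (c5 ▸ Nat.prime_three) h6
  by_cases c6 : m = 4 ∧ Pl (φ.restrict (D i₀)) ∧ Fintype.card F = 2
  · obtain ⟨rfl, c6, c7⟩ := c6
    obtain ⟨E, h1, h2, h3⟩ := O4_two c7 n₀ (by simp) ((pl_congr h₀).2 c6)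
    obtain ⟨D', h5, h6, h8⟩ := orefine hφ hW h1 h3
    refine .inr (.inr (.inr (.inl ⟨_, 2, D', h5, by omega, fun _ i => ⟨fun h => ?_, fun _ => by omega⟩,
      by omega, by omega, h6⟩)))
    obtain ⟨j, hj⟩ := h8 i
    exact absurd (hj.1 h) (h2 j)
  refine .inr (.inr (.inr (.inl ⟨t, m, D, hO, by tauto, fun h i => ⟨fun a => ?_, fun a b => ?_⟩,
    fun h => five_le (two_ne_of_odd (nondegOn_iff.1 (hD.nondegenerate i₀)) (by rw [hd, h]; decide))
      fun a => c5 ⟨h, a⟩, fun h i a => ?_, hle⟩)))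
  · by_contra h1
    rw [hp] at a
    rcases card_lt_seven (F := F) (by omega) with b | b | b | b
    · exact c2 ⟨h, a, by omega⟩
    · exact c2 ⟨h, a, by omega⟩
    · exact c3 ⟨h, a, b⟩
    · exact c4 ⟨h, .inl ⟨a, b⟩⟩
  · exact c4 ⟨h, .inr ⟨mt (hp i).2 a, b⟩⟩
  · by_contra h1
    exact c6 ⟨h, (hp i).1 a, by omega⟩

theorem cls_field (hI : Irr H) {r : ℕ} {K : Subalgebra F (Matrix ι ι F)} (hr : r.Prime)
    (hK : IsFieldSubalgebra r K) (hcl : ∀ x ∈ K, adj 𝟙 (fn φ) x ∈ K)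
    (hle : H ≤ subalgebraNormalizer K) (h2 : 2 * r ≠ Fintype.card ι)
    (h : (∀ x ∈ K, adj 𝟙 (fn φ) x = x) ∨ r = 2) : OC φ (H ≤ ·) := by
  have : Nonempty ι := Fintype.card_pos_iff.1 (by omega)
  have hG := hH.trans (EG_le_IG φ)
  have hf : SF 𝟙 (fn φ) := sf_fn hφ
  by_cases hs : ∀ x ∈ K, adj 𝟙 (fn φ) x = x
  · have h1 : r ≠ Fintype.card ι := by
      rintro rfl
      exact field_ne_card hφ hG hI hK (hr.odd_of_ne_two (by omega)) (by omega) hs hle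
    have h3 : (2 : F) = 0 → 2 * r ∣ Fintype.card ι := fun h3 =>
      two_mul_dvd_of_alt hφ hK hcl fun x hx => alt_of_selfadj hf
        (fun v => by rw [fn_apply, φ.orth_B_self, h3, zero_mul]) hK hx (hs x hx)
    have h4 : IsSelfAdjointFor (QuadraticMap.polar φ.Q) K := by
      rw [polar_fn]; exact (selfAdjointFor_iff hf).2 hs
    repeat (first | exact .inl ⟨r, K, hr, field_dvd_card hK, h1, h2, h3, hK, h4, hle⟩ | right)
  · obtain rfl := h.resolve_left hs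
    have h3 := sim_of_field hφ (by omega) hG hI hK hcl (by simpa using hs) hle
    obtain ⟨m, hm⟩ := field_dvd_card hK
    have h4 : IsAdjointClosedFor (QuadraticMap.polar φ.Q) K := by
      rw [polar_fn]; exact adjointClosedFor_of hf hcl
    have h5 : ¬ IsSelfAdjointFor (QuadraticMap.polar φ.Q) K := by
      rw [polar_fn]; exact mt (selfAdjointFor_iff hf).1 hs
    repeat (first | exact .inl ⟨m, K, hm, pl_of_unitary hφ hK hcl h3 hm, hK, h4, h5, h3, hle⟩ | right)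

theorem cls_comm (hI : Irr H) (h : CaseD1 φ H ∨ CaseD2 φ H ∨ CaseK φ H) : OC φ (H ≤ ·) := by
  have : Nonempty ι := Fintype.card_pos_iff.1 (by omega)
  rcases h with h | ⟨m, D, hD, hts, hle⟩ | ⟨d, K, hd, hK, hcl, hle⟩
  · exact cls_D1 hφ h7 hH hI h
  · have hc := decomp_card hD
    have d0 := hD.finrank_eq 0
    have he : Even m := by
      by_contra he
      refine (not_irr_iff H).2 ⟨D 0, decomp_ne_bot hD 0, decomp_ne_top hD 0,
        le_subspaceStabilizer fun g hg v hv => mem_stab_of_EG hφ (by omega) (hH hg) (hts 0)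
          (by omega) (fun d hd _ h1 => ?_) hv⟩ hI
      obtain ⟨π, hπ⟩ := exists_decompHom hD hle
      have h2 := hπ ⟨g, hg⟩ 0
      generalize π ⟨g, hg⟩ 0 = j at h2
      rw [h2] at hd
      fin_cases j
      · exact hd.trans (congrArg (fun X : Submodule F (ι → F) => finrank F X) (inf_idem _))
      · rw [show D 0 ⊓ D ⟨1, _⟩ = ⊥ from (isCompl_of_pair hD).inf_eq_bot, finrank_bot] at hd
        exact absurd (by simpa [hd, d0] using h1) he
    have hp : Pl φ := ⟨D 0, hts 0, by rw [finrank_fun]; omega⟩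
    repeat (first | exact .inl ⟨m, D, hD, fun i => (hts i).Q_eq, he, hp, hle⟩ | right)
  · obtain ⟨r, K', hr, hK', hcl', h1, h3⟩ := prime_field_bilin (sf_fn hφ) (refl_fn φ) hK hd hcl
    by_cases h2 : 2 * r = Fintype.card ι
    · obtain ⟨K'', h4, h5, h6⟩ := field_two_mul hφ hH hI hK' hr h2.symm (by omega)
        (h3.resolve_right fun h => by omega) (hle.trans h1)
      exact cls_field hφ h7 hH hI Nat.prime_two h4 h5 h6 (by omega) (.inr rfl)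
    · exact cls_field hφ h7 hH hI hr hK' hcl' (hle.trans h1) h2 (h3.imp_right And.left)

theorem cls_sp (hI : Irr H) {n₂ : ℕ} {e : ι ≃ Fin 2 × Fin n₂} {P : GL ι F}
    {f₁ : (Fin 2 → F) → (Fin 2 → F) → F} {f₂ : (Fin n₂ → F) → (Fin n₂ → F) → F} {ε₁ ε₂ : F}
    (h : TData 𝟙 (fn φ) H e P f₁ f₂ ε₁ ε₂) (a₁ : ∀ v, f₁ v v = 0) (a₂ : ∀ v, f₂ v v = 0) :
    OC φ (H ≤ ·) := by
  have hG := hH.trans (EG_le_IG φ)
  have hq := Fintype.one_lt_card (α := F)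
  by_cases c : Fintype.card F = 2
  · exact cls_comm hφ h7 hH hI (comm_of_small hφ (by omega) hG hI h.sf₁ h.adj₁ h.ind₁
      (small_two_two c h.sf₁ a₁))
  obtain ⟨h1, h2⟩ := sp_tensor hφ hG hI h a₁ a₂
  have h3 : IsTensorFormStructure id (QuadraticMap.polar φ.Q) f₁ f₂ e P := by
    rw [polar_fn]; exact h.struct (sf_fn hφ)
  have h4 : Even n₂ := by simpa using even_of_symp (symp_of_sf h.sf₂ a₂)
  have h5 : 3 ≤ Fintype.card F := by omega
  repeat (first | exact .inl ⟨h5, h1, n₂, e, P, f₁, f₂, h.card, h4, symp_of_sf h.sf₁ a₁, symp_of_sf h.sf₂ a₂, h3, h2, h.le⟩ | right)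

theorem cls_wreath {m t : ℕ} {e : ι ≃ (Fin t → Fin m)} {P : GL ι F}
    {f₀ : (Fin m → F) → (Fin m → F) → F} (h : WData 𝟙 (fn φ) H e P f₀ 1) (h3 : 3 ≤ m)
    (h4 : ¬ (Fintype.card F = 3 ∧ m = 3)) : OC φ (H ≤ ·) := by
  have h1 : IsTensorPowerFormStructure id (QuadraticMap.polar φ.Q) f₀ e P := by
    rw [polar_fn]; exact h.struct (sf_fn hφ)
  repeat (first | exact ⟨m, t, e, P, f₀, h.card, h3, h.two_t, h4, symm_of_sf h.sf h.refl, h1, h.le⟩ | right)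

variable (hn : Odd (Fintype.card ι) ∨ Fintype.card ι ≤ 12)
include hn

theorem cls_alt (hI : Irr H) {n₁ n₂ : ℕ} {e : ι ≃ Fin n₁ × Fin n₂} {P : GL ι F}
    {f₁ : (Fin n₁ → F) → (Fin n₁ → F) → F} {f₂ : (Fin n₂ → F) → (Fin n₂ → F) → F} {ε₁ ε₂ : F}
    (h : TData 𝟙 (fn φ) H e P f₁ f₂ ε₁ ε₂) (a₁ : ∀ v, f₁ v v = 0) (a₂ : ∀ v, f₂ v v = 0) :
    OC φ (H ≤ ·) := by
  have h1 : Even n₁ := by simpa using even_of_symp (symp_of_sf h.sf₁ a₁)
  have h2 : Even n₂ := by simpa using even_of_symp (symp_of_sf h.sf₂ a₂)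
  have h3 := hn.resolve_left (h.card ▸ Nat.not_odd_iff_even.2 (h1.mul_right _))
  rw [h.card] at h3
  have := h.two₁
  have := h.two₂
  by_cases c : n₁ = 2
  · subst c; exact cls_sp hφ h7 hH hI h a₁ a₂
  obtain rfl : n₂ = 2 := by
    obtain ⟨a, ha⟩ := h1
    obtain ⟨b, hb⟩ := h2
    by_contra c'
    have := Nat.mul_le_mul (show 4 ≤ n₁ by omega) (show 4 ≤ n₂ by omega)
    omega
  exact cls_sp hφ h7 hH hI h.swap a₂ a₁

theorem cls_sym (hI : Irr H) (h2 : (2 : F) ≠ 0) {n₁ n₂ : ℕ} {e : ι ≃ Fin n₁ × Fin n₂} {P : GL ι F}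
    {f₁ : (Fin n₁ → F) → (Fin n₁ → F) → F} {f₂ : (Fin n₂ → F) → (Fin n₂ → F) → F}
    (h : TData 𝟙 (fn φ) H e P f₁ f₂ 1 1) (hle : n₁ ≤ n₂) : OC φ (H ≤ ·) := by
  have hG := hH.trans (EG_le_IG φ)
  have := h.ne₁
  have hs : Small 𝟙 f₁ → OC φ (H ≤ ·) := fun hs => cls_comm hφ h7 hH hI
    (comm_of_small hφ (by omega) hG hI h.sf₁ h.adj₁ h.ind₁ hs)
  by_cases c1 : n₁ = 2
  · subst c1; exact hs (small_O2 h2 h.sf₁ h.r₁)
  by_cases c2 : Fintype.card F = 3 ∧ n₁ = 3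
  · exact hs (small_O3 c2.1 h.sf₁ h.r₁ (by simp [c2.2]))
  have h3 : 3 ≤ n₁ := by have := h.two₁; omega
  rcases hle.eq_or_lt with rfl | hlt
  · have ho : Odd n₁ := by
      rcases hn with ho | ho <;> rw [h.card] at ho
      · exact (Nat.odd_mul.1 ho).1
      · obtain rfl : n₁ = 3 := by
          by_contra c
          have := Nat.mul_le_mul (show 4 ≤ n₁ by omega) (show 4 ≤ n₁ by omega)
          omega
        decide
    obtain ⟨e', P', hW⟩ := h.wdata (equiv_odd h2 ho h.sf₁ h.sf₂ h.r₁ h.r₂)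
    exact cls_wreath hφ h7 hH hW h3 c2
  by_cases c3 : n₂ = 4 ∧ IsPlusTypeOn (fun v => f₂ v v) ⊤
  · obtain ⟨rfl, c3⟩ := c3
    obtain rfl : n₁ = 3 := by omega
    obtain ⟨e', P', g₁, g₂, h'⟩ := sp_of_O3O4 h2 hφ hG (fun g hg => det_EG hφ (by omega) (hH hg)) h c3
    exact cls_sp hφ h7 hH hI h' (alt_of_refl h'.r₁ h2) (alt_of_refl h'.r₂ h2)
  have h4 : n₂ = 4 → ¬ IsPlusTypeOn (fun v => f₂ v v) ⊤ ∧ ¬ Pl φ := by
    rintro rfl
    obtain rfl : n₁ = 3 := by omega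
    rw [pl_tensor hφ h2 h]
    tauto
  have h5 : IsTensorFormStructure id (QuadraticMap.polar φ.Q) f₁ f₂ e P := by
    rw [polar_fn]; exact h.struct (sf_fn hφ)
  repeat (first | exact .inl ⟨two_ne_zero_iff_odd.1 h2, n₁, n₂, e, P, f₁, f₂, h.card, h3, hlt, fun a => five_le h2 fun b => c2 ⟨b, a⟩, h4, symm_of_sf h.sf₁ h.r₁, symm_of_sf h.sf₂ h.r₂, h5, h.le⟩ | right)

theorem o_cases (h8 : Fintype.card ι = 8 → ¬ Pl φ) :
    OC φ (H ≤ ·) ∨ InOrthogonalResidualClass H := by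
  have : Nontrivial ι := Fintype.one_lt_card_iff_nontrivial.1 (by omega)
  have hf : SF 𝟙 (fn φ) := sf_fn hφ
  have hr : Refl 𝟙 1 (fn φ) := refl_fn φ
  have hG := hH.trans (EG_le_IG φ)
  have hpow : ∀ {m t : ℕ}, Fintype.card ι = m ^ t → 2 ≤ t → Even m → m = 2 ∧ Fintype.card ι = 8 := by
    intro m t h1 h2 h3
    have h4 := hn.resolve_left (h1 ▸ Nat.not_odd_iff_even.2 (h3.pow_of_ne_zero (by omega)))
    have h5 : m ≠ 0 := by rintro rfl; rw [zero_pow (by omega)] at h1; omega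
    obtain rfl : m = 2 := by
      by_contra c
      have := (Nat.pow_le_pow_left (show 4 ≤ m by obtain ⟨a, ha⟩ := h3; omega) 2).trans
        (Nat.pow_le_pow_right (by omega) h2)
      omega
    have h6 : t < 4 := (Nat.pow_lt_pow_iff_right one_lt_two).1 (by omega)
    interval_cases t <;> omega
  by_cases hI : Irr H
  swap
  · exact .inl (cls_red hφ h7 hH hI)
  rcases form_cases hφ (by omega) hG hI with h | ⟨n₁, n₂, e, P, f₁, f₂, ε₁, ε₂, h⟩ |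
    ⟨m, t, e, P, f₀, ε₀, Q, h, h1, h3, h4⟩ | ⟨r, L, h1, h2, h3⟩ | ⟨L, hL⟩
  · exact .inl (cls_comm hφ h7 hH hI h)
  · left
    by_cases h2 : (2 : F) = 0
    · obtain ⟨a₁, a₂, -⟩ := TData_two h2 hf hr hI (fixes_IG hG) h
      exact cls_alt hφ h7 hH hn hI h a₁ a₂
    have := h.ne₁
    have := h.ne₂
    have he := TData.eps h hf hr
    rcases Refl.sign h.r₁ h.sf₁ with rfl | rfl <;> rcases Refl.sign h.r₂ h.sf₂ with rfl | rfl
    · rcases le_total n₁ n₂ with c | c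
      · exact cls_sym hφ h7 hH hn hI h2 h c
      · exact cls_sym hφ h7 hH hn hI h2 h.swap c
    · exact absurd (by linear_combination -he) h2
    · exact absurd (by linear_combination -he) h2
    · exact cls_alt hφ h7 hH hn hI h (alt_of_refl h.r₁ h2) (alt_of_refl h.r₂ h2)
  · left
    have := h.ne
    have halt : ¬ ∀ v, f₀ v v = 0 := fun ha => by
      obtain ⟨rfl, h5⟩ := hpow h.card h.two_t (by simpa using even_of_symp (symp_of_sf h.sf ha))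
      by_cases h2 : (2 : F) = 0
      · exact h8 h5 (pl_wreath_two h2 hφ hG hI h ha)
      obtain rfl : t = 3 := Nat.pow_right_injective le_rfl (h.card.symm.trans h5)
      have he := WData.eps h hf hr
      rw [refl_unique h.sf h.refl (refl_of_symp (symp_of_sf h.sf ha))] at he
      exact h2 (by linear_combination -he)
    have h2 : (2 : F) ≠ 0 := fun h2 => halt (alt_of_irr h2 h.sf h.refl (irr_of_alg_eq_top h3)
      (by simpa using h.two_m) (le_sim_of_fixes h4))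
    obtain rfl : ε₀ = 1 := (Refl.sign h.refl h.sf).resolve_right (by
      rintro rfl; exact halt (alt_of_refl h.refl h2))
    refine cls_wreath hφ h7 hH h ?_ ?_
    · by_contra c
      obtain rfl : m = 2 := by have := h.two_m; omega
      exact not_perfect_O2 h2 h.sf h.refl h1 h3 h4
    · rintro ⟨c, rfl⟩
      obtain ⟨b, a, -, h5, h6⟩ := sim_le_frame_three c (toSym_nondeg h2 h.sf h.refl) (by simp)
      exact not_le_decomp_of_perfect h1 h3 h5.decomp le_rfl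
        ((le_sim_of_fixes ((fn_toSym h2 h.sf h.refl).symm ▸ h4)).trans h6)
  · obtain ⟨-, -, -, m, -, h4, -⟩ := esp_bilin h3 hf (fixes_IG (h1.trans hG))
    have h5 := (hpow h4 (by by_contra c; interval_cases m <;> omega) even_two).2
    exact absurd (pl_of_esp hφ (by rw [h5]; decide) h3 (h1.trans hG)) (h8 h5)
  · by_cases h1 : ∃ F₀ : Subfield F, F₀ ≠ ⊤ ∧ RealisableOver F₀ (matrixSet L)
    · obtain ⟨F₀, h2, h3⟩ := h1
      obtain ⟨B, hB⟩ := realisableOver_iff.1 h3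
      exact .inl (cls_sub hφ (by omega) hL.alg_top hL.nrm (hL.le.trans hG) h2 hB)
    · refine .inr ⟨L, hL.isResidualCore fun F₀ h3 h4 => h1 ⟨F₀, h3, h4⟩, ?_⟩
      rintro ⟨σ, h, h3, h4⟩
      exact h1 (realisable_of_two_forms hf (sf_of_unitary h3) (ne_id_of_unitary h3) hL.alg_top
        (fixes_IG (hL.le.trans hG)) h4)

end Main

theorem o_max {φ : Form (Kind.orth F) (ι → F)} (hφ : φ.Nondeg) (h7 : 7 ≤ Fintype.card ι)
    (hn : Fintype.card ι ≤ 12) (h8 : Fintype.card ι = 8 → ¬ Pl φ) {H : Subgroup (GL ι F)}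
    (hH : IsMaximalIn (omegaGL φ.Q) H) :
    OC φ (fun M => H = M ⊓ omegaGL φ.Q) ∨ InOrthogonalResidualClass H := by
  have : Nontrivial ι := Fintype.one_lt_card_iff_nontrivial.1 (by omega)
  rw [omega_eq hφ (by omega)] at hH ⊢
  have hG := qs_omega hφ (by omega)
  obtain ⟨N, n1, n2, n3, n4⟩ := exists_siegel hφ (by omega)
  obtain ⟨g, hg, hgN⟩ := n4 1
  rw [one_smul] at hgN
  have hgs := not_scalar_of_sq_zero' n1 n2 hgN
  have hg1 : (g : Matrix ι ι F) - 1 = N := by rw [hgN]; abel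
  have hdec : ∀ {t m : ℕ} {D : Fin t → Submodule F (ι → F)}, IsMDecomposition m D →
      ((2 : F) ≠ 0 ∨ 2 ≤ m) → ¬ EG φ ≤ decompositionStabilizer D := fun hD h =>
    hG.not_le_decomp hD hg hgs (by rw [hg1, n2]) (h.imp_right fun h => by rw [hg1]; omega)
  have hst : ∀ {W : Submodule F (ι → F)}, W ≠ ⊥ → finrank F W < Fintype.card ι →
      ¬ EG φ ≤ subspaceStabilizer W := fun h1 h2 => hG.not_le_stab h1 (by
    rintro rfl; rw [finrank_top, finrank_fun] at h2; omega)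
  refine (o_cases hφ h7 hH.1.le (.inr hn) h8).imp_left ?_
  refine Or.imp ?_ (Or.imp ?_ (Or.imp ?_ (Or.imp ?_ (Or.imp ?_ (Or.imp ?_ (Or.imp ?_ (Or.imp ?_
    (Or.imp ?_ (Or.imp ?_ ?_)))))))))
  · rintro ⟨W, h1, h2, h3, h4⟩
    have := hφ.two_mul_finrank_le (Form.orth_ts_iff.2 h2)
    rw [finrank_fun] at this
    exact ⟨W, h1, h2, h3, isMaximalIn_eq hH h4 (hst h1 (by omega))⟩
  · rintro ⟨W, h1, h2, h3, h4, h5, h6, h9⟩
    have a1 := hφ.finrank_perp W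
    have a2 : finrank F W ≠ 0 := mt Submodule.finrank_eq_zero.1 h1
    rw [finrank_fun] at a1
    exact ⟨W, h1, h2, h3, h4, isMaximalIn_eq hH h5 (hst h1 (by omega)), isMaximalIn_eq hH h6
      (hst (mt Submodule.finrank_eq_zero.2 (by omega)) (by omega)), fun h => isMaximalIn_eq hH (h9 h)
      (hdec (nondeg_pair hφ h1 h2 h).decomp (.inr (by omega)))⟩
  · rintro ⟨h1, v, h2, h3⟩
    have h0 : v ≠ 0 := by rintro rfl; exact h2 φ.Q_zero
    exact ⟨h1, v, h2, isMaximalIn_eq hH h3 (hst (mt Submodule.span_singleton_eq_bot.1 h0)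
      (by rw [finrank_span_singleton h0]; omega))⟩
  · rintro ⟨t, k, D, h1, h2, h3, h4, h5, h6⟩
    have hD := (orthDecomp_iff.1 h1).1
    refine ⟨t, k, D, h1, h2, h3, h4, h5, isMaximalIn_eq hH h6 (hdec hD.decomp ?_)⟩
    have a1 := hD.decomp.pos
    have a2 := hD.decomp.two_le
    by_cases c : k = 1
    · exact .inl (two_ne_of_odd (nondegOn_iff.1 (hD.nondegenerate ⟨0, by omega⟩))
        (by rw [hD.decomp.finrank_eq, c]; decide))
    · exact .inr (by omega)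
  · rintro ⟨k, D, h1, h2, h3, h4, h5⟩
    exact ⟨k, D, h1, h2, h3, h4, isMaximalIn_eq hH h5
      (hdec h1 (.inr (by have := decomp_card h1; omega)))⟩
  · rintro ⟨r, K, h1, h2, h3, h4, h5, h6, h9, h10⟩
    exact ⟨r, K, h1, h2, h3, h4, h5, h6, h9, isMaximalIn_eq hH h10
      (hG.not_le_fieldNormalizer h6 h1.one_lt.ne')⟩
  · rintro ⟨m, K, h1, h2, h3, h4, h5, h6, h9⟩
    exact ⟨m, K, h1, h2, h3, h4, h5, h6, isMaximalIn_eq hH h9
      (hG.not_le_fieldNormalizer h3 (by norm_num))⟩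
  · rintro ⟨h0, n₁, n₂, e, P, f₁, f₂, h1, h2, h3, h4, h5, h6, h9, h10, h11⟩
    exact ⟨h0, n₁, n₂, e, P, f₁, f₂, h1, h2, h3, h4, h5, h6, h9, h10, isMaximalIn_eq hH h11
      (not_le_tensor hG (by omega) (by omega) e P hg hgs (Or.inl (by rw [hg1]; omega)))⟩
  · rintro ⟨h0, h0', n₂, e, P, f₁, f₂, h1, h2, h3, h4, h5, h6, h9⟩
    exact ⟨h0, h0', n₂, e, P, f₁, f₂, h1, h2, h3, h4, h5, h6, isMaximalIn_eq hH h9
      (not_le_tensor hG le_rfl (by omega) e P hg hgs (Or.inr (by rw [hg1]; omega)))⟩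
  · rintro ⟨F₀, r, P, ζ, h1, h2, h3, h4, h5⟩
    refine ⟨F₀, r, P, ζ, h1, h2, h3, h4, isMaximalIn_eq hH h5 fun hle =>
      subfield_ne_top h1.two_le h2 (eq_top_iff.2 fun c _ => ?_)⟩
    obtain ⟨g', hg', h6⟩ := n4 c
    exact hG.ratio_mem_of_le_subfield hle n1 hg hg' hgN h6
  · rintro ⟨k, t, e, P, f₁, h1, h2, h3, h4, h5, h6, h9⟩
    refine ⟨k, t, e, P, f₁, h1, h2, h3, h4, h5, h6, isMaximalIn_eq hH h9
      (not_le_wreath hG (by omega) (Or.inl ?_) e P hg hgs (by rw [hg1]; omega))⟩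
    by_contra c
    have := (Nat.pow_le_pow_right (by norm_num) (show 3 ≤ t by omega)).trans
      (Nat.pow_le_pow_left h2 t)
    omega

end CA.AschO
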