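import Mathlib
import Cfsg.Prelude.Def_GeometricClasses
import Cfsg.Agent.Lib.Lin.AschO

/-! Aschbacher's theorem for the orthogonal groups: helpers for the tables. -/

set_option autoImplicit false
set_option linter.unusedSectionVars false

namespace CA.AschO4

open Cfsg Cfsg.Geo Matrix CA.AschBase CA.AschWed CA.AschKron CA.AschTens CA.AschFF CA.AschField
  CA.AschForm CA.AschGrp CA.AschPerf CA.AschTForm CA.AschLin CA.AschProp CA.AschProp2 CA.AschDesc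
  CA.AschFG CA.AschFG2 CA.AschFG3 CA.AschFG4 CA.AschFG5 CA.AschFG6 CA.AschFG7 CA.AschO1 CA.AschO2
  CA.AschO3 CA.AschO CA.CForm Module
open scoped MatrixGroups Kronecker commutatorElement

variable {ι : Type} [Fintype ι] [DecidableEq ι] {F : Type*} [Field F] [Fintype F]

local notation "𝟙" => RingHom.id F

variable {φ : Form (Kind.orth F) (ι → F)}

theorem nd_of {W : Submodule F (ι → F)} (h : Disjoint W (φ.perp W)) :
    IsNondegenerateOn (QuadraticMap.polar φ.Q) W := by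
  rw [polar_fn]; exact nondegOn_iff.2 h

theorem odd_of {W : Submodule F (ι → F)} (h : Disjoint W (φ.perp W)) (ho : Odd (finrank F W)) :
    Odd (Fintype.card F) := two_ne_zero_iff_odd.1 (two_ne_of_odd h ho)

theorem ne_top_of {W : Submodule F (ι → F)} (h : finrank F W < Fintype.card ι) : W ≠ ⊤ := by
  rintro rfl; rw [finrank_top, finrank_fun] at h; omega

theorem odd_of_decomp {t k : ℕ} {D : Fin t → Submodule F (ι → F)}
    (hD : IsOrthogonalMDecomposition φ.Q k D) (ho : Odd k) : Odd (Fintype.card F) := by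
  have h := (orthDecomp_iff.1 hD).1
  have := h.decomp.two_le
  exact odd_of (nondegOn_iff.1 (h.nondegenerate ⟨0, by omega⟩)) (by rwa [h.decomp.finrank_eq])

theorem mod_four (hφ : φ.Nondeg) (hn : Fintype.card ι = 10) (ho : Odd (Fintype.card F)) :
    ((Pl φ ↔ IsSquare φ.disc) → Fintype.card F % 4 = 1) ∧
      (¬ (Pl φ ↔ IsSquare φ.disc) → Fintype.card F % 4 = 3) := by
  rw [pl_iff_of_sq hφ (two_ne_zero_iff_odd.2 ho) (m := 5) hn]
  obtain ⟨k, hk⟩ := ho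
  exact ⟨fun h => h.resolve_left (by decide), fun h => by omega⟩

theorem pair_cases (hφ : φ.Nondeg) {W : Submodule F (ι → F)} (h1 : W ≠ ⊥)
    (h2 : Disjoint W (φ.perp W)) {k : ℕ} (hk : finrank F W = k) (h : 2 * k = Fintype.card ι) :
    IsNondegenerateMDecomposition (QuadraticMap.polar φ.Q) k ![W, φ.perp W] ∧
    (AreIsometricFor φ.Q W (φ.perp W) → IsOrthogonalMDecomposition φ.Q k ![W, φ.perp W]) ∧
    (Odd k → ¬ AreIsometricFor φ.Q W (φ.perp W) → ¬ IsSquare φ.disc) ∧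
    (Even k → Pl φ → AreIsometricFor φ.Q W (φ.perp W)) := by
  subst hk
  have hD := nondeg_pair hφ h1 h2 h
  have n1 := (φ.nondeg_restrict_iff _).2 h2
  have n2 := (φ.nondeg_restrict_iff _).2 (hφ.disjoint_perp_perp h2)
  have d1 : finrank F W = finrank F (φ.perp W) := (hD.decomp.finrank_eq 1).symm
  simp only [← equivalent_iff_isometric]
  refine ⟨polar_fn φ ▸ hD, fun h3 => orthDecomp_iff.2 ⟨hD, fun i j => ?_⟩, fun ho h3 h4 => h3 ?_,
    fun he h3 => equivalent_of_pl n1 n2 he d1 ?_⟩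
  · fin_cases i <;> fin_cases j
    · exact h3.trans h3.symm
    · exact h3
    · exact h3.symm
    · exact h3.symm.trans h3
  · have h5 := disc_decomp hD
    rw [sqSign_eq_one.2 h4, Fin.prod_univ_two] at h5
    rw [n1.equivalent_iff_isSquare (two_ne_of_odd h2 ho) n2 d1, ← sqSign_eq_one,
      sqSign_mul n1.disc_ne_zero n2.disc_ne_zero]
    exact h5.symm
  · have := plusOn_sup h2 (hφ.disjoint_perp_perp h2) le_rfl he (d1 ▸ he)
    rw [(hφ.isCompl_perp h2).sup_eq_top, plus_top, plusOn_iff, plusOn_iff] at this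
    exact this.1 h3

theorem odd_index (hφ : φ.Nondeg) (he : Even (Fintype.card ι)) (hp : ¬ Pl φ) {F₀ : Subfield F}
    {r : ℕ} (hr : r.Prime) (hF : Fintype.card F = Nat.card F₀ ^ r) {ζ : F} (hζ : ζ ≠ 0) {P : GL ι F}
    (h : IsQuadFormRationalStructure (fun v => ζ * φ.Q v) F₀ P) : Odd r :=
  hr.odd_of_ne_two (by rintro rfl; exact hp (pl_of_sub_two hφ he hF hζ h))

theorem gram_odd (m : ℕ) (F₀ : Subfield F) : (gramMatrix (fn (oddForm F m))).det ∈ F₀ := by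
  have h : IsQuadFormRationalStructure (fun v => 1 * (oddForm F m).Q v) F₀ 1 := fun u hu => by
    simpa [oddForm_Q, quadFormOdd] using
      add_mem (pow_mem (hu _) 2) (sum_mem fun i _ => mul_mem (hu (.inr (.inl i))) (hu (.inr (.inr i))))
  refine det_mem_of_ent fun i j => ?_
  simpa only [gramMatrix, fn_apply, of_apply, Units.val_one, one_mulVec, one_mul] using
    rat_B h (single_mem F₀ j) (single_mem F₀ i)

theorem oc_odd {m : ℕ} (ho : Odd (Fintype.card F)) (hm : 3 ≤ m)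
    {p : Subgroup (GL (Unit ⊕ (Fin m ⊕ Fin m)) F) → Prop} (h : OC (oddForm F m) p) :
    (∃ W, W ≠ ⊥ ∧ IsTotallySingularQuad (quadFormOdd m F) W ∧ p (subspaceStabilizer W)) ∨
    (∃ W : Submodule F (Unit ⊕ (Fin m ⊕ Fin m) → F), W ≠ ⊥ ∧ W ≠ ⊤ ∧ Even (finrank F W) ∧
      IsNondegenerateOn (QuadraticMap.polar (quadFormOdd m F)) W ∧
      ¬ (Fintype.card F = 3 ∧ finrank F W = 2 ∧ IsPlusTypeOn (quadFormOdd m F) W) ∧
      p (subspaceStabilizer W)) ∨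
    (∃ (t k : ℕ) (D : Fin t → Submodule F (Unit ⊕ (Fin m ⊕ Fin m) → F)), 2 * m + 1 = t * k ∧ 2 ≤ t ∧
      IsOrthogonalMDecomposition (quadFormOdd m F) k D ∧ (k = 1 → (Fintype.card F).Prime) ∧
      (k = 3 → 5 ≤ Fintype.card F) ∧ p (decompositionStabilizer D)) ∨
    (∃ r K, r.Prime ∧ r ∣ 2 * m + 1 ∧ 2 * m + 1 ≠ r ∧ IsFieldSubalgebra r K ∧
      IsSelfAdjointFor (QuadraticMap.polar (quadFormOdd m F)) K ∧ p (subalgebraNormalizer K)) ∨
    (∃ n₁ n₂ e P f₁ f₂, 2 * m + 1 = n₁ * n₂ ∧ 3 ≤ n₁ ∧ n₁ < n₂ ∧ IsSymmetricForm f₁ ∧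
      IsSymmetricForm f₂ ∧ IsTensorFormStructure id (QuadraticMap.polar (quadFormOdd m F)) f₁ f₂ e P ∧
      p (tensorProductSubgroup n₁ n₂ e P)) ∨
    (∃ (F₀ : Subfield F) (r : ℕ) (P : GL _ F), r.Prime ∧ Fintype.card F = Nat.card F₀ ^ r ∧
      IsQuadFormRationalStructure (quadFormOdd m F) F₀ P ∧ p (subfieldSubgroup F₀ P)) ∨
    (∃ k t e P f₁, 2 * m + 1 = k ^ t ∧ 3 ≤ k ∧ 2 ≤ t ∧ ¬ (Fintype.card F = 3 ∧ k = 3) ∧
      IsSymmetricForm f₁ ∧ IsTensorPowerFormStructure id (QuadraticMap.polar (quadFormOdd m F)) f₁ e P ∧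
      p (tensorWreathSubgroup k t e P)) := by
  have h2 := two_ne_zero_iff_odd.2 ho
  have hφ := oddForm_nondeg h2 m
  have hc : Fintype.card (Unit ⊕ (Fin m ⊕ Fin m)) = 2 * m + 1 := by simp; omega
  have hp : ¬ Pl (oddForm F m) := fun h => by
    have := h.even
    rw [finrank_fun, hc] at this
    exact Nat.not_even_two_mul_add_one m this
  unfold OC at h
  rw [hc] at h
  rcases h with ⟨W, h1, h3, -, h4⟩ | ⟨W, h1, h3, h4, h5, h6, h7, -⟩ | ⟨h1, -⟩ |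
    ⟨t, k, D, h1, h3, -, h4, -, h5⟩ | ⟨k, D, -, -, -, h1, -⟩ | ⟨r, K, h1, h3, h4, -, -, h5, h6, h7⟩ |
    ⟨m', K, h1, -⟩ | ⟨-, n₁, n₂, e, P, f₁, f₂, h1, h3, h4, -, -, h5, h6, h7, h8⟩ | ⟨-, h1, -⟩ |
    ⟨F₀, r, P, ζ, h1, h3, h4, h5, h6⟩ | h
  · exact .inl ⟨W, h1, h3, h4⟩
  · have a1 := hφ.finrank_perp W
    have a2 : finrank F W ≠ 0 := mt Submodule.finrank_eq_zero.1 h1
    rw [finrank_fun, hc] at a1
    rcases Nat.even_or_odd (finrank F W) with he | he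
    · exact .inr (.inl ⟨W, h1, ne_top_of (by omega), he, nd_of h3,
        fun h => by have := h5 h.2.1 h.2.2; omega, h6⟩)
    · obtain ⟨s, hs⟩ := he
      exact .inr (.inl ⟨_, mt Submodule.finrank_eq_zero.2 (by omega), ne_top_of (by omega),
        ⟨m - s, by omega⟩, nd_of (hφ.disjoint_perp_perp h3), by omega, h7⟩)
  · exact absurd h1 h2
  · exact .inr (.inr (.inl ⟨t, k, D, hc ▸ decomp_card h1.decomp.decomp, h1.decomp.decomp.two_le, h1,
      h3, h4, h5⟩))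
  · exact absurd h1 hp
  · exact .inr (.inr (.inr (.inl ⟨r, K, h1, h3, h4.symm, h5, h6, h7⟩)))
  · omega
  · exact .inr (.inr (.inr (.inr (.inl ⟨n₁, n₂, e, P, f₁, f₂, h1, h3, h4, h5, h6, h7, h8⟩))))
  · exact absurd h1 hp
  · obtain ⟨P', a1, a2⟩ := sub_odd hφ (hc ▸ odd_two_mul_add_one m) (gram_odd m F₀) h4 h5
    exact .inr (.inr (.inr (.inr (.inr (.inl ⟨F₀, r, P', h1, h3, a1, a2 ▸ h6⟩)))))
  · exact .inr (.inr (.inr (.inr (.inr (.inr h)))))

theorem o_max_odd {m : ℕ} (ho : Odd (Fintype.card F)) (hm : 3 ≤ m) (hm' : m ≤ 5)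
    {H : Subgroup (GL (Unit ⊕ (Fin m ⊕ Fin m)) F)} (hH : IsMaximalIn (omegaGL (quadFormOdd m F)) H) :
    OC (oddForm F m) (fun M => H = M ⊓ omegaGL (quadFormOdd m F)) ∨ InOrthogonalResidualClass H :=
  o_max (oddForm_nondeg (two_ne_zero_iff_odd.2 ho) m) (by simp; omega) (by simp; omega)
    (by simp; omega) hH

theorem o_class {m : ℕ} (ho : Odd (Fintype.card F)) (hm : 3 ≤ m)
    {H : Subgroup (GL (Unit ⊕ (Fin m ⊕ Fin m)) F)} (hH : H ≤ omegaGL (quadFormOdd m F)) :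
    (∃ M, InOrthogonalOddClass m F M ∧ H ≤ M) ∨ InOrthogonalResidualClass H := by
  have hφ := oddForm_nondeg (two_ne_zero_iff_odd.2 ho) m
  have hc : Fintype.card (Unit ⊕ (Fin m ⊕ Fin m)) = 2 * m + 1 := by simp; omega
  have hI : H ≤ isometryGroup F (quadFormOdd m F) := hH.trans (Subgroup.map_subtype_le _)
  refine (o_cases hφ (by omega) (omega_eq hφ (by omega) ▸ hH) (.inl (hc ▸ odd_two_mul_add_one m))
    (by omega)).imp_left fun h => ?_
  rcases oc_odd ho hm h with ⟨W, h1, h2, h3⟩ | ⟨W, h1, h2, -, h3, -, h4⟩ |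
    ⟨t, k, D, h1, -, h2, h3, -, h4⟩ | ⟨r, K, h1, -, h2, h3, h4, h5⟩ |
    ⟨n₁, n₂, e, P, f₁, f₂, -, h1, h2, h3, h4, h5, h6⟩ | ⟨F₀, r, P, h1, h2, h3, h4⟩ |
    ⟨k, t, e, P, f₁, -, h1, h2, h3, h4, h5, h6⟩
  · exact ⟨_, .inl ⟨W, h1, h2, rfl⟩, le_inf h3 hI⟩
  · exact ⟨_, .inr (.inl ⟨W, h1, h2, h3, rfl⟩), le_inf h4 hI⟩
  · by_cases c : k = 1
    · subst c
      exact ⟨_, .inr (.inr (.inr (.inl ⟨t, D, h3 rfl, h2, rfl⟩))), le_inf h4 hI⟩
    · have := h2.decomp.decomp.pos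
      exact ⟨_, .inr (.inr (.inl ⟨t, k, D, by omega, h2, rfl⟩)), le_inf h4 hI⟩
  · exact ⟨_, .inr (.inr (.inr (.inr (.inl ⟨r, K, h1, h2, h3, h4, rfl⟩)))), le_inf h5 hI⟩
  · exact ⟨_, .inr (.inr (.inr (.inr (.inr (.inl
      ⟨n₁, n₂, e, P, f₁, f₂, h1, h2, h3, h4, h5, rfl⟩))))), le_inf h6 hI⟩
  · exact ⟨_, .inr (.inr (.inr (.inr (.inr (.inr (.inl ⟨F₀, r, P, h1, h2, h3, rfl⟩)))))),
      le_inf h4 hI⟩
  · exact ⟨_, .inr (.inr (.inr (.inr (.inr (.inr (.inr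
      ⟨k, t, e, P, f₁, h1, h2, h3, h4, h5, rfl⟩)))))), le_inf h6 hI⟩

end CA.AschO4
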