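import Cfsg.Agent.Lib.Lin.AutTri2
import Cfsg.Agent.Lib.Grp.Core
import Cfsg.Agent.S0033

/-!
Local balance in classical groups: the abstract reduction, and subgroups normalised by the group
generated by the Eichler maps of a form.
-/

set_option autoImplicit false

namespace CA.AutForm

open Subgroup CA.AutCorr CA.CForm CA.CForm.Form Module CA.AutPhi CA.AutGam
  CA.AutFld CA.AutLang CA.AutOut SemidirectProduct Matrix

section abstract
variable {X : Type*} [Group X] {p : ℕ}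

theorem mem_of_pow_mem {H : Subgroup X} {β : X} {n : ℕ} (hn : n.Coprime (orderOf β))
    (h : β ^ n ∈ H) : β ∈ H := by
  obtain ⟨m, hm⟩ := exists_pow_eq_self_of_coprime hn
  exact hm ▸ H.pow_mem h m

theorem coprime_of_mem {O : Subgroup X} (hO : (Nat.card O).Coprime p) {β : X} (hβ : β ∈ O) :
    p.Coprime (orderOf β) := (hO.coprime_dvd_left (O.orderOf_dvd_natCard hβ)).symm

theorem comm_mem {O : Subgroup X} {β γ : X} (hβ : β ∈ O) (hγ : γ ∈ normalizer (O : Set X)) :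
    β * γ * β⁻¹ * γ⁻¹ ∈ O := by
  rw [mul_assoc, mul_assoc, ← mul_assoc γ]
  exact O.mul_mem hβ ((mem_normalizer_iff.mp hγ _).mp (O.inv_mem hβ))

theorem commute_of_inf_eq_bot {O I : Subgroup X} [hI : I.Normal] (h : ∀ β ∈ O, β ∈ I → β = 1)
    {β γ : X} (hβ : β ∈ O) (hγ : γ ∈ normalizer (O : Set X)) (hγI : γ ∈ I) : Commute β γ := by
  have := h _ (comm_mem hβ hγ) (I.mul_mem (hI.conj_mem _ hγI β) (I.inv_mem hγI))
  rwa [mul_inv_eq_one, mul_inv_eq_iff_eq_mul] at this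

/-- The data of a candidate for the `p'`-core of the centraliser of `x`. -/
structure Cand {K : Type*} [Group K] (p : ℕ) (x : MulAut K) (O : Subgroup (MulAut K)) :
    Prop where
  le : ∀ β ∈ O, Commute x β
  cop : (Nat.card O).Coprime p
  norm : ∀ γ ∈ Cfsg.Inn K, Commute x γ → γ ∈ normalizer (O : Set (MulAut K))

variable {K : Type*} [Group K]

theorem Cand.conj {x : MulAut K} {O : Subgroup (MulAut K)} (h : Cand p x O) (α : MulAut K) :
    Cand p (α * x * α⁻¹) (O.map (MulAut.conj α).toMonoidHom) where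
  le := by
    rintro _ ⟨β, hβ, rfl⟩
    exact (h.le β hβ).map (MulAut.conj α)
  cop := by rw [card_map_of_injective (MulAut.conj α).injective]; exact h.cop
  norm γ hγ hc := by
    have h1 := h.norm _ ((inferInstance : (Cfsg.Inn K).Normal).conj_mem _ hγ α⁻¹)
      (by simpa [mul_assoc] using hc.map (MulAut.conj α⁻¹))
    exact le_normalizer_map _ ⟨_, h1, by simp [mul_assoc]⟩

theorem bal_iff [Finite K] [Nontrivial K]
    (hc : Function.Injective (MulAut.conj : K →* MulAut K)) {A : Subgroup (MulAut K)}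
    (hinn : ∀ k, MulAut.conj k ∈ A) [hp : Fact p.Prime] {x : MulAut K} (hord : orderOf x = p)
    {P : Prop} (H : ∀ O, Cand p x O → O ≠ ⊥ →
      P ∧ ∀ β ∈ Cfsg.Inn K, Commute x β → orderOf β ≠ p) :
    Cfsg.pPrimeCore p ↥(A ⊓ centralizer {x}) ≠ ⊥ ↔
      P ∧ p.Coprime (Nat.card (x.toMonoidHom.eqLocus (MonoidHom.id K))) := by
  have hx : ∀ k, Commute x (MulAut.conj k) ↔ x k = k := fun k => by
    rw [← hc.eq_iff, commute_iff_eq, ← mul_inv_eq_iff_eq_mul]
    exact Eq.congr_left (by ext v; simp)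
  have hC : ∀ β, β ∈ centralizer {x} ↔ Commute x β := fun β =>
    mem_centralizer_singleton_iff.trans eq_comm
  rw [ne_eq, ← map_eq_bot_iff_of_injective _ (A ⊓ centralizer {x}).subtype_injective]
  constructor
  · intro h
    obtain ⟨h1, h2⟩ := H _ ⟨fun β hβ => (hC β).mp (mem_inf.mp (map_subtype_le _ hβ)).2,
      CA.Core.coprime_map_pPrimeCore _, fun γ ⟨k, hk⟩ hγ =>
        CA.Core.le_normalizer_map_pPrimeCore _ (mem_inf.mpr ⟨hk ▸ hinn k, (hC γ).mpr hγ⟩)⟩ h
    refine ⟨h1, hp.out.coprime_iff_not_dvd.mpr fun hd => ?_⟩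
    obtain ⟨k, hk⟩ := exists_prime_orderOf_dvd_card' p hd
    exact h2 _ ⟨k, rfl⟩ ((hx k).mpr k.2) ((orderOf_injective _ hc _).trans
      ((orderOf_coe k).trans hk))
  · rintro ⟨-, h1⟩ h
    have h2 := CA.Core.le_map_pPrimeCore (p := p) (H := A ⊓ centralizer {x})
      (K := (x.toMonoidHom.eqLocus (MonoidHom.id K)).map MulAut.conj) (by
        rintro _ ⟨k, hk, rfl⟩
        exact ⟨hinn k, (hC _).mpr ((hx k).mpr hk)⟩) (fun β hβ => ?_)
      (by rw [card_map_of_injective hc]; exact h1.symm)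
    · rw [h, le_bot_iff, map_eq_bot_iff_of_injective _ hc] at h2
      haveI := Cfsg.Agent.S0033.result x (fun k hk => by
        have : k ∈ x.toMonoidHom.eqLocus (MonoidHom.id K) := hk
        rwa [h2] at this) p hp.out hord
      obtain ⟨z, hz⟩ := (center K).ne_bot_iff_exists_ne_one.mp (Group.IsNilpotent.center_ne_bot K)
      refine hz (Subtype.ext (hc ?_))
      ext v
      simp [← mem_center_iff.mp z.2 v]
    · have key : ∀ β, Commute x β → ∀ γ ∈ (x.toMonoidHom.eqLocus (MonoidHom.id K)).map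
          (MulAut.conj : K →* _), β * γ * β⁻¹ ∈ (x.toMonoidHom.eqLocus (MonoidHom.id K)).map
          (MulAut.conj : K →* _) := by
        rintro β hβ _ ⟨k, hk, rfl⟩
        refine ⟨β k, ?_, by ext v; simp⟩
        have : x k = k := hk
        exact (congrArg (· k) hβ).trans (congrArg β this)
      refine mem_normalizer_iff.mpr fun γ => ⟨key β ((hC β).mp hβ.2) γ, fun h => ?_⟩
      simpa [mul_assoc] using key β⁻¹ ((hC β).mp hβ.2).inv_right _ h

end abstract

variable {F : Type*} [Field F] {k : Kind F} {V : Type*} [AddCommGroup V] [Module F V]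
  {f : Form k V}

/-- An isometry interchanging two points has even order modulo scalars. -/
theorem not_mem_scalars_of_swap {g : f.Isom} {x y : V} (hx : x ≠ 0) (hxy : y ∉ F ∙ x) {a b : F}
    (h1 : (g : V ≃ₗ[F] V) x = a • y) (h2 : (g : V ≃ₗ[F] V) y = b • x) {n : ℕ} (hn : Odd n) :
    g ^ n ∉ f.scalars := by
  obtain ⟨j, rfl⟩ := hn
  have key : ∀ j, ∃ c : F, ((g ^ (2 * j + 1) : f.Isom) : V ≃ₗ[F] V) x = c • y := fun j => by
    induction j with
    | zero => exact ⟨a, by simpa using h1⟩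
    | succ j ih =>
      obtain ⟨c, hc⟩ := ih
      refine ⟨c * b * a, ?_⟩
      rw [show 2 * (j + 1) + 1 = 2 * j + 1 + 1 + 1 by ring, pow_succ', pow_succ', isom_mul_apply,
        isom_mul_apply, hc, map_smul, h2, map_smul, map_smul, h1, smul_smul, smul_smul]
  rintro ⟨d, hd⟩
  obtain ⟨c, hc⟩ := key j
  have hc0 : c ≠ 0 := by
    rintro rfl
    exact hx (by simpa using hc)
  exact hxy (Submodule.mem_span_singleton.mpr ⟨c⁻¹ * d, by
    rw [mul_smul, ← hd, hc, inv_smul_smul₀ hc0]⟩)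

variable [FiniteDimensional F V] (hf : f.Nondeg)
include hf

omit [FiniteDimensional F V] hf in
theorem exists_swap_of_B {N : Subgroup f.Isom} {n : f.Isom} (hn : n ∈ N) {x : V} (hx : f.Q x = 0)
    (h : f.B x ((n : V ≃ₗ[F] V) x) ≠ 0) : ∃ g ∈ N ⊔ f.Qgrp x, ∃ (y : V) (a b : F), y ∉ F ∙ x ∧
      (g : V ≃ₗ[F] V) x = a • y ∧ (g : V ≃ₗ[F] V) y = b • x := by
  have h1 : f.B x (((n⁻¹ : f.Isom) : V ≃ₗ[F] V) x) ≠ 0 := fun h0 => h (f.eq_zero_symm (by
    rw [← f.B_coe_map n⁻¹, isom_inv_apply_apply, h0]))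
  obtain ⟨e, he, h2⟩ := exists_Qgrp_apply_eq hx h1
    (v' := (f.B x (((n⁻¹ : f.Isom) : V ≃ₗ[F] V) x) / f.B x ((n : V ≃ₗ[F] V) x)) •
      (n : V ≃ₗ[F] V) x) (by rw [map_smul, smul_eq_mul, div_mul_cancel₀ _ h])
    (by rw [f.Q_smul_of_Q (by rwa [Q_coe_map]), Q_coe_map, hx])
  refine ⟨e * n⁻¹, mul_mem (mem_sup_right he) (mem_sup_left (inv_mem hn)), _, _, 1, fun h0 => ?_,
    h2, by rw [isom_mul_apply, isom_inv_apply_apply, f.apply_of_mem_Qgrp he, one_smul]⟩
  obtain ⟨c, hc⟩ := Submodule.mem_span_singleton.mp h0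
  exact h (by rw [← hc, map_smul, f.B_self_of_Q hx, smul_zero])

theorem exists_swap (hr : f.Rich) (hp : f.Prim ∨ finrank F V = 4) {e : V} (he : f.Q e = 0)
    (he0 : e ≠ 0) {N : Subgroup f.Isom} (hN : f.Eich ≤ normalizer (N : Set f.Isom))
    (hns : ¬N ≤ f.scalars) : ∃ x, f.Q x = 0 ∧ x ≠ 0 ∧ ∃ g ∈ N ⊔ f.Qgrp x, ∃ (y : V) (a b : F),
      y ∉ F ∙ x ∧ (g : V ≃ₗ[F] V) x = a • y ∧ (g : V ≃ₗ[F] V) y = b • x := by
  rcases hp with hp | h4
  · obtain ⟨y, hy⟩ := hf.exists_isHyp he he0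
    obtain ⟨g, hg, a, -, h1, h2⟩ := hy.exists_Eich hy.swap hf hr
    refine ⟨e, he, he0, g, hf.Eich_le_sup hp hN hns he he0 hg, y, _, _, fun h0 => ?_,
      h1.trans (smul_smul _ _ _), h2⟩
    obtain ⟨c, hc⟩ := Submodule.mem_span_singleton.mp h0
    have := hy.B_xy
    rw [← hc, map_smul, hy.B_xx, smul_zero] at this
    exact zero_ne_one this
  obtain ⟨n, hn, hs⟩ := SetLike.not_le_iff_exists.mp hns
  obtain ⟨x, hx, h1⟩ : ∃ x, f.Q x = 0 ∧ (n : V ≃ₗ[F] V) x ∉ F ∙ x := by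
    by_contra! h
    exact hs (hf.mem_scalars_of_singular hr he he0 fun v hv =>
      let ⟨a, ha⟩ := Submodule.mem_span_singleton.mp (h v hv); ⟨a, ha.symm⟩)
  have hx0 : x ≠ 0 := by rintro rfl; simp at h1
  by_cases h2 : f.B x ((n : V ≃ₗ[F] V) x) = 0
  swap
  · exact ⟨x, hx, hx0, exists_swap_of_B hn hx h2⟩
  set x' := (n : V ≃ₗ[F] V) x with hx'
  set x'' := ((n⁻¹ : f.Isom) : V ≃ₗ[F] V) x with hx''
  have hQ : f.Q x' = 0 := by rwa [hx', Q_coe_map]
  by_cases h3 : f.B x'' x' = 0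
  swap
  · exact ⟨x'', by rwa [hx'', Q_coe_map], by simpa [hx''] using hx0,
      exists_swap_of_B (mul_mem hn hn) (by rwa [hx'', Q_coe_map])
        (by rwa [isom_mul_apply, hx'', isom_apply_inv_apply])⟩
  have h4' : f.B x x'' = 0 := f.eq_zero_symm (by
    rw [← f.B_coe_map n, hx'', isom_apply_inv_apply, h2])
  have hli : LinearIndependent F ![x, x'] := by
    rw [LinearIndependent.pair_iff' hx0]
    exact fun a ha => h1 (Submodule.mem_span_singleton.mpr ⟨a, ha⟩)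
  have hd : finrank F (Submodule.span F {x, x'}) = 2 := by
    have := finrank_span_eq_card hli
    rwa [Matrix.range_cons_cons_empty, Fintype.card_fin] at this
  have hW : Submodule.span F {x, x'} = f.perp (Submodule.span F {x, x'}) :=
    Submodule.eq_of_le_of_finrank_eq (Submodule.span_le.mpr (by
      rintro _ (rfl | rfl)
      · exact f.mem_perp_span_pair.mpr ⟨f.B_self_of_Q hx, f.eq_zero_symm h2⟩
      · exact f.mem_perp_span_pair.mpr ⟨h2, f.B_self_of_Q hQ⟩))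
      (by have := hf.finrank_perp (Submodule.span F {x, x'}); omega)
  obtain ⟨b, a, hab⟩ := Submodule.mem_span_pair.mp
    (hW ▸ f.mem_perp_span_pair.mpr ⟨h4', f.eq_zero_symm h3⟩ : x'' ∈ Submodule.span F {x, x'})
  have h5 : x'' ∉ F ∙ x := fun h0 => by
    obtain ⟨c, hc⟩ := Submodule.mem_span_singleton.mp h0
    have h6 : c • x' = x := by rw [hx', ← map_smul, hc, hx'', isom_apply_inv_apply]
    have hc0 : c ≠ 0 := by rintro rfl; exact hx0 (by rw [← h6, zero_smul])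
    exact h1 (Submodule.mem_span_singleton.mpr ⟨c⁻¹, by rw [← h6, inv_smul_smul₀ hc0]⟩)
  obtain ⟨w, hw, hw'⟩ := hf.exists_perp_B_eq h5 (k.ε * b)
  obtain ⟨c, hc⟩ := f.exists_eichlerCond hx (f.mem_perp_span_singleton.mp hw)
  refine ⟨x, hx, hx0, f.eichler x w c hc * n⁻¹, mul_mem (mem_sup_right (f.eichler_mem_Qgrp _ _ _ _))
    (mem_sup_left (inv_mem hn)), x', a, 1, h1, ?_, ?_⟩
  · rw [isom_mul_apply, ← hx'', f.eichler_apply_of_B _ _ _ _ h4', hw', ← mul_assoc, k.εε, one_mul,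
      ← hab, add_sub_cancel_left]
  · rw [isom_mul_apply, hx', isom_inv_apply_apply, eichler_apply_self, one_smul]

/-- An additive map commuting with all Eichler maps is a scalar. -/
theorem scalar_of_comm_add (h3 : 3 ≤ finrank F V ∨ ∀ d, k.π d = 0) {e : V} (he : f.Q e = 0)
    (he0 : e ≠ 0) (Φ : V →+ V) (h : ∀ g ∈ f.Eich, ∀ v, Φ ((g : V ≃ₗ[F] V) v) =
      (g : V ≃ₗ[F] V) (Φ v)) : ∃ c : F, ∀ v, Φ v = c • v := by
  have hr : f.Rich := h3.imp id fun h => ⟨1, one_ne_zero, h 1⟩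
  obtain ⟨y, hy⟩ := hf.exists_isHyp he he0
  obtain ⟨c, hc⟩ := Submodule.mem_span_singleton.mp (hf.mem_span_of_fixed hr hy.Q_y
    hy.y_ne_zero (v := Φ y) fun g hg => by
      rw [← h g (f.Qgrp_le_Eich y hg), f.apply_of_mem_Qgrp hg])
  let Y : AddSubgroup V :=
    { carrier := {v | Φ v = c • v}
      zero_mem' := by simp
      add_mem' := fun {a b} (ha : _ = _) (hb : _ = _) => show _ = _ by rw [map_add, ha, hb, smul_add]
      neg_mem' := fun {a} (ha : _ = _) => show _ = _ by rw [map_neg, ha, smul_neg] }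
  have h1 : ∀ g ∈ f.Eich, ∀ v ∈ Y, (g : V ≃ₗ[F] V) v ∈ Y :=
    fun g hg v (hv : _ = _) => show _ = _ by rw [h g hg, hv, map_smul]
  have hy0 : y ∈ Y := hc.symm
  have h2 : ∀ (w : Wp f e y) d, k.π d = f.Q w → (w : V) - (k.ε * d) • e ∈ Y := fun w d hd => by
    have := Y.sub_mem (h1 _ (f.eichler_mem_Eich e w d ⟨he, Wp_e w, hd⟩) y hy0) hy0
    rwa [eichler_apply_y hy _ (Wp_y w), add_sub_assoc, add_sub_cancel_left] at this
  have h4 : ∀ a : F, a • e ∈ Y := fun a => by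
    rcases h3 with h3 | h3
    · haveI : Nontrivial (Wp f e y) :=
        finrank_pos_iff.mp (by have := hy.finrank_perp; unfold Wp; omega : 0 < finrank F _)
      obtain ⟨w, hw⟩ := exists_ne (0 : Wp f e y)
      obtain ⟨z, -, hz⟩ := (hy.nondeg_perp hf).exists_perp_B_eq (W := ⊥) (u := w)
        (by simpa using hw) (k.ε * a)
      obtain ⟨d, hd⟩ := f.Q_mem w
      have h4 := h2 w d hd
      obtain ⟨d', hd'⟩ := f.exists_eichlerCond he (Wp_e z)
      have := Y.sub_mem h4 (h1 _ (f.eichler_mem_Eich e z d' hd') _ h4)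
      rw [f.eichler_apply_of_B _ _ _ _ (by simp [Wp_e w, hy.B_xx]), sub_sub_cancel] at this
      rw [restrict_B] at hz
      simpa [hz, f.eq_zero_symm (Wp_e z), ← mul_assoc, k.εε] using this
    · simpa [← mul_assoc, k.εε] using h2 0 (-(k.ε * a)) (by simp [h3])
  have h5 : ∀ v, f.Q v = 0 → v ∈ Y := fun v hv => by
    by_cases hv0 : v = 0
    · exact hv0 ▸ Y.zero_mem
    obtain ⟨g, hg, a, ha, H⟩ := hf.exists_Eich_smul hr he he0 hv hv0
    simpa [H, ha] using h1 g hg _ (h4 a⁻¹)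
  refine ⟨c, fun v => ?_⟩
  obtain ⟨a, b, d, ha, hb, hd, rfl⟩ := hy.exists_eq_add_singular v
  exact Y.add_mem (Y.add_mem (h5 a ha) (h5 b hb)) (h5 d hd)

variable [Finite F] {X : Type*} [Group X] [Finite X] {p : ℕ} [hp : Fact p.Prime] (hpr : p ≠ ringChar F)
  (hr : f.Rich) {e : V} (he : f.Q e = 0) (he0 : e ≠ 0) (ψ : f.Isom →* X) {O : Subgroup X}
  (hO : (Nat.card O).Coprime p) (hn : ∀ g ∈ f.Eich, ψ g ∈ normalizer (O : Set X))
  (hP : (f.Prim ∧ ∃ g ∈ f.Eich, p ∣ orderOf (ψ g)) ∨ (p = 2 ∧ (f.Prim ∨ finrank F V = 4) ∧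
    ∀ g, ψ g = 1 → g ∈ f.scalars))
include hpr hr he he0 hO hn hP

theorem mem_scalars_of_mem {g : f.Isom} (hg : g ∈ f.Eich) (hgO : ψ g ∈ O) : g ∈ f.scalars := by
  by_contra h
  have hN : f.Eich ≤ normalizer ((f.Eich ⊓ O.comap ψ : Subgroup _) : Set f.Isom) := fun a ha =>
    mem_normalizer_iff.mpr fun b => and_congr
      (mem_normalizer_iff.mp (le_normalizer ha) b)
      (by simpa using mem_normalizer_iff.mp (hn a ha) (ψ b))
  have hns : ¬f.Eich ⊓ O.comap ψ ≤ f.scalars := fun H => h (H ⟨hg, hgO⟩)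
  have key : ∀ x, f.Q x = 0 → x ≠ 0 → ∀ a ∈ f.Eich ⊓ O.comap ψ ⊔ f.Qgrp x,
      p.Coprime (orderOf (ψ a)) := fun x hx hx0 a ha => by
    obtain ⟨j, hj⟩ := ((Qgrp_isPGroup (p := ringChar F) hf hx hx0).map ψ).exists_card_eq
    refine coprime_of_mem (CA.Core.coprime_card_sup (A := (f.Qgrp x).map ψ) (B := O) (by
      rintro _ ⟨b, hb, rfl⟩
      exact hn b (f.Qgrp_le_Eich x hb)) (by
        rw [hj]
        exact ((Nat.coprime_primes Fact.out hp.out).mpr hpr.symm).pow_left j) hO) ?_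
    exact (sup_le (fun b hb => mem_sup_right (mem_inf.mp hb).2) (fun b hb => mem_sup_left ⟨b, hb, rfl⟩) :
      _ ≤ ((f.Qgrp x).map ψ ⊔ O).comap ψ) ha
  rcases hP with ⟨h1, a, ha, h2⟩ | ⟨rfl, h1, h2⟩
  · exact hp.out.coprime_iff_not_dvd.mp (key e he he0 a (hf.Eich_le_sup h1 hN hns he he0 ha)) h2
  · obtain ⟨x, hx, hx0, a, ha, y, c, d, h3, h4, h5⟩ := exists_swap hf hr h1 he he0 hN hns
    exact not_mem_scalars_of_swap hx0 h3 h4 h5 (Nat.coprime_two_left.mp (key x hx hx0 a ha))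
      (h2 _ (by rw [map_pow, pow_orderOf_eq_one]))

theorem comm_of_norm {β : X} (hβ : β ∈ O) (hβn : β ∈ normalizer (f.Eich.map ψ : Set X)) :
    ∀ t ∈ f.Eich, Commute β (ψ t) := by
  refine fun t ht => mem_centralizer_singleton_iff.mp
    (f.Eich_le (G := (centralizer {β}).comap ψ) (fun x w c hc => ?_) ht) |>.symm
  have ht := f.eichler_mem_Eich x w c hc
  have h1 := (pe_eichler (p := ringChar F) hf hc).map ψ
  generalize f.eichler x w c hc = t at ht h1
  obtain ⟨t', ht', h2⟩ := (mem_normalizer_iff.mp hβn _).mp (mem_map_of_mem ψ ht)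
  have h3 := mem_scalars_of_mem hf hpr hr he he0 ψ hO hn hP (mul_mem ht' (inv_mem ht))
    (by rw [map_mul, map_inv, h2]; exact comm_mem hβ (hn t ht))
  obtain ⟨m, hm, h4⟩ := scalars_exp (f := f) (p := ringChar F)
  have h5 : Commute t' t⁻¹ := by
    have := mem_center_iff.mp (f.scalars_le_center h3) t
    rw [← mul_assoc, mul_inv_eq_iff_eq_mul, mul_assoc, mul_assoc, inv_mul_cancel_left] at this
    exact (show Commute t t' from this).symm.inv_right
  have h6 : ψ (t' * t⁻¹) = 1 := PE.eq_one_of_pow (p := ringChar F) (by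
    rw [map_mul, map_inv]
    exact (h2 ▸ h1.conj β).mul_of_commute h1.inv (by simpa using h5.map ψ)) hm
    (by rw [← map_pow, h4 _ h3, map_one])
  rw [map_mul, map_inv, h2, mul_inv_eq_one, mul_inv_eq_iff_eq_mul] at h6
  exact mem_centralizer_singleton_iff.mpr h6.symm

end CA.AutForm
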