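import Cfsg.Agent.Lib.Lin.AutBal1

/-!
Local balance in classical groups: automorphisms inducing a non-trivial field automorphism.
-/

set_option autoImplicit false

namespace CA.AutForm

open Subgroup CA.AutCorr CA.CForm CA.CForm.Form Module CA.AutPhi CA.AutGam
  CA.AutFld CA.AutLang CA.AutOut SemidirectProduct Matrix

variable {F : Type*} [Field F] {k : Kind F} {ι : Type} [Fintype ι] [DecidableEq ι]
  {F₀ : Type*} [Field F₀] {k₀ : Kind F₀} {X : Type*} [Group X]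

local notation "sc" => GeneralLinearGroup.scalar
local notation "gm" => GeneralLinearGroup.map

theorem ringChar_eq (i : F₀ →+* F) : ringChar F₀ = ringChar F :=
  haveI := i.charP i.injective (ringChar F)
  ringChar.eq F₀ _

theorem pow_eq_one_of_fix [Finite F] {σ ρ : RingAut F} (h : ∀ a, σ a = a → ρ a = a) :
    ρ ^ orderOf σ = 1 := by
  let ρ' : F ≃ₐ[fixF σ] F := { ρ with commutes' := fun a => h a a.2 }
  have h3 : finrank (fixF σ) F = orderOf σ := Nat.pow_right_injective Finite.one_lt_card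
    ((Module.natCard_eq_pow_finrank (K := fixF σ) (V := F)).symm.trans (card_fixF_pow σ).symm)
  have h1 : ρ' ^ orderOf σ = 1 := by
    rw [← h3, ← IsGalois.card_aut_eq_finrank, pow_card_eq_one']
  have h2 : ∀ n a, (ρ ^ n) a = (ρ' ^ n) a := fun n => by
    induction n with
    | zero => exact fun _ => rfl
    | succ n ih => exact fun a => by rw [pow_succ, pow_succ]; exact ih _
  exact RingEquiv.ext fun a => by rw [h2, h1]; rfl

theorem center_pow [Finite F] {g : GL ι F} (hg : g ∈ center (GL ι F)) :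
    g ^ Nat.card Fˣ = 1 := by
  obtain ⟨c, rfl⟩ := mem_center_iff_scalar.mp hg
  rw [← map_pow, pow_card_eq_one', map_one]

theorem coprime_card_units [Finite F] : (ringChar F).Coprime (Nat.card Fˣ) := by
  haveI := Fintype.ofFinite F
  obtain ⟨n, -, hn⟩ := FiniteField.card F (ringChar F)
  rw [Nat.card_units, Nat.card_eq_fintype_card, hn]
  exact ((Nat.coprime_self_sub_right (Nat.one_le_pow _ _ (Nat.Prime.pos Fact.out))).mpr
    (Nat.coprime_one_right _)).coprime_dvd_left (dvd_pow_self _ n.ne_zero)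

section rep
variable {A : Type*} [Group A] {act : A →* MulAut (GL ι F)} {Γ : Subgroup (GL ι F ⋊[act] A)}
  {Φ : Γ →* X} {G₀ : Type*} [Group G₀]

variable (Φ) in
/-- `Φ` represents the elements of `Γ` modulo scalars. -/
def Rp : Prop := ∀ y, Φ y = 1 ↔ y.1 ∈ ZG act

variable (Φ) in
/-- The representation of a group of matrices. -/
def lft (T : G₀ →* GL ι F) (hT : ∀ a, inl (T a) ∈ Γ) : G₀ →* X :=
  Φ.comp ((inl.comp T).codRestrict Γ hT)

theorem lft_apply (T : G₀ →* GL ι F) (hT : ∀ a, inl (T a) ∈ Γ) (a : G₀) :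
    lft Φ T hT a = Φ ⟨inl (T a), hT a⟩ := rfl

theorem Rp.comm_iff (h : Rp Φ) (y z : Γ) :
    Commute (Φ y) (Φ z) ↔ y.1 * z.1 * y.1⁻¹ * z.1⁻¹ ∈ ZG act := by
  rw [← commutatorElement_eq_one_iff_commute, ← map_commutatorElement, h]; rfl

theorem Rp.eq_iff (h : Rp Φ) (y z : Γ) : Φ y = Φ z ↔ y.1⁻¹ * z.1 ∈ ZG act := by
  rw [← inv_mul_eq_one, ← map_inv, ← map_mul, h]; rfl

theorem Rp.lft_eq_one (h : Rp Φ) {T : G₀ →* GL ι F} {hT : ∀ a, inl (T a) ∈ Γ} {a : G₀} :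
    lft Φ T hT a = 1 ↔ T a ∈ center (GL ι F) := (h _).trans inl_mem_ZG

theorem Rp.comm_of_pe [Finite F] (h : Rp Φ) {y : Γ} {t : GL ι F} {ht : inl t ∈ Γ}
    (hp : PE (ringChar F) t) (hc : Commute (Φ y) (Φ ⟨_, ht⟩)) : Commute y.1 (inl t) := by
  have h1 := (h.comm_iff _ _).mp hc
  rw [conj_inl, ← map_inv, ← map_mul, inl_mem_ZG] at h1
  have h2 := (((hp.map (act y.1.right).toMonoidHom)).conj y.1.left).mul_of_commute hp.inv (by
    have := mem_center_iff.mp h1 t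
    rw [← mul_assoc, mul_inv_eq_iff_eq_mul, mul_assoc _ t t, mul_assoc _ t⁻¹,
      inv_mul_cancel_left] at this
    exact (show Commute t _ from this).symm.inv_right)
  have h3 := h2.eq_one_of_pow coprime_card_units (center_pow h1)
  rw [commute_iff_eq, ← mul_inv_eq_iff_eq_mul, conj_inl]
  exact congrArg inl (mul_inv_eq_one.mp h3)

variable {V₀ : Type*} [AddCommGroup V₀] [Module F₀ V₀] {f₀ : Form k₀ V₀} {T : f₀.Isom →* GL ι F}
  {hT : ∀ a, inl (T a) ∈ Γ}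

theorem Rp.comm_Eich [Finite F] [Finite F₀] (h : Rp Φ) (hf : f₀.Nondeg)
    (hr : ringChar F₀ = ringChar F) {y : Γ}
    (hc : ∀ t ∈ f₀.Eich, Commute (Φ y) (lft Φ T hT t)) :
    ∀ t ∈ f₀.Eich, Commute y.1 (inl (T t)) := fun _ ht =>
  (mem_centralizer_singleton_iff.mp (f₀.Eich_le (G := (centralizer {y.1}).comap (inl.comp T))
    (fun x w c hc' => mem_centralizer_singleton_iff.mpr (h.comm_of_pe
      (hr ▸ (pe_eichler hf hc').map T) (hc _ (f₀.eichler_mem_Eich x w c hc'))).symm) ht)).symm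

theorem mem_norm_lft [Finite X] {E : Subgroup G₀} {T : G₀ →* GL ι F} {hT : ∀ a, inl (T a) ∈ Γ}
    {g : GL ι F} (hg : inl g ∈ Γ) (h : ∀ t ∈ E, ∃ t' ∈ E, T t' = g * T t * g⁻¹) :
    Φ ⟨_, hg⟩ ∈ normalizer (E.map (lft Φ T hT) : Set X) := mem_normalizer_fintype (by
  rintro _ ⟨t, ht, rfl⟩
  obtain ⟨t', ht', H⟩ := h t ht
  refine ⟨t', ht', ?_⟩
  rw [lft_apply, lft_apply, ← map_inv, ← map_mul, ← map_mul]
  exact congrArg Φ (Subtype.ext (by simp [H])))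

end rep

theorem exists_conj_Eich [Finite F] [Nonempty ι] (hk : Std k) {f : Form k (ι → F)} (hf : f.Nondeg)
    {g : GL ι F} (hg : g ∈ Sim f) {t : f.Isom} (ht : t ∈ f.Eich) :
    ∃ t' ∈ f.Eich, toGL f t' = g * toGL f t * g⁻¹ :=
  let ⟨_, h⟩ := hg
  ⟨_, h.conj_mem_Eich hk (h.σ_mu hf) ht, toGL_conj h t⟩

variable {i : F₀ →+* F} {x : GS ι F} {b : GL ι F}

variable (i x b) in
/-- A multiple of `x` is a field automorphism in the basis `b`, with fixed field `F₀`. -/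
structure Fl : Prop where
  conj : ∃ c : Fˣ, inl (sc ι c) * x = inl b * inr x.right * (inl b)⁻¹
  fix : ∀ a, (∃ c, i c = a) ↔ x.right a = a

theorem mk_inl_sc (c : Fˣ) :
    QuotientGroup.mk' (ZG (fldAct ι F)) (inl (sc ι c)) = 1 :=
  (QuotientGroup.eq_one_iff _).mpr (inl_mem_ZG.mpr (scalar_mem_center c))

theorem Fl.comm (h : Fl i x b) (g : GL ι F₀) : Commute x (inl (cjm i b g)) := by
  obtain ⟨c, hc⟩ := h.conj
  have h1 := inr_comm_gm (fun a => (h.fix _).mp ⟨a, rfl⟩) g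
  rw [mul_inv_eq_iff_eq_mul] at h1
  have h2 : Commute (inl (sc ι c) : GS ι F) (inl (cjm i b g)) :=
    (show Commute _ _ from (gl_scalar_comm c _).symm).map inl
  have h3 : Commute (inl (sc ι c) * x) (inl (cjm i b g)) := by
    rw [hc, cjm_apply, map_mul, map_mul, map_inv]
    exact (show Commute _ _ from h1.symm).map (MulAut.conj (inl b : GS ι F))
  simpa using h2.inv_left.mul_left h3

theorem Fl.descend [Finite F] [Nonempty ι] (h : Fl i x b) {y : GS ι F}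
    (hy : y * x * y⁻¹ * x⁻¹ ∈ ZG (fldAct ι F)) : ∃ (c : Fˣ) (g : GL ι F₀),
      inl (sc ι c) * y = inl b * ⟨gm i g, y.right⟩ * (inl b)⁻¹ := by
  obtain ⟨c, hc⟩ := h.conj
  obtain ⟨y, rfl⟩ := (MulAut.conj (inl b : GS ι F)).surjective y
  rw [MulAut.conj_apply] at hy ⊢
  have hr : (inl b * y * (inl b)⁻¹ : GS ι F).right = y.right := by simp
  have h1 : y * inr x.right * y⁻¹ * (inr x.right)⁻¹ ∈ ZG (fldAct ι F) := by
    have h2 := congrArg (QuotientGroup.mk' (ZG (fldAct ι F))) hc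
    rw [map_mul, mk_inl_sc, one_mul] at h2
    rw [← QuotientGroup.ker_mk' (ZG _), MonoidHom.mem_ker] at hy ⊢
    simp only [map_mul, map_inv] at hy h2 ⊢
    rw [h2] at hy
    rw [← conj_eq_one_iff (a := QuotientGroup.mk' (ZG (fldAct ι F)) (inl b)), ← hy]
    group
  have h3 : y * inr x.right * y⁻¹ = inl (y.left * (fldGL x.right y.left)⁻¹) * inr x.right := by
    rw [← fldAct_apply, ← inl_conj_inr]
    conv_lhs => rw [← inl_left_mul_inr_right y]
    rw [mul_assoc (inl _), ← map_mul, ringAut_comm, map_mul]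
    group
  rw [h3, mul_inv_cancel_right, inl_mem_ZG] at h1
  obtain ⟨d, hd⟩ := (fld_cent_iff x.right y.left).mp (by
    simpa [mul_assoc] using aut_mem_center (MulAut.conj y.left⁻¹) (inv_mem h1))
  obtain ⟨g, hg⟩ := (mem_range_glMap i h.fix).mpr hd
  refine ⟨d, g, ?_⟩
  rw [hr, hg, ← mul_assoc, ← mul_assoc, ← map_mul, ← gl_scalar_comm, map_mul, mul_assoc (inl b)]
  rfl

theorem Fl.descend_inl [Finite F] [Nonempty ι] (h : Fl i x b) {y : GL ι F}
    (hy : inl y * x * (inl y)⁻¹ * x⁻¹ ∈ ZG (fldAct ι F)) : ∃ (c : Fˣ) (g : GL ι F₀),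
      sc ι c * y = cjm i b g :=
  let ⟨c, g, H⟩ := h.descend hy
  ⟨c, g, inl_injective (φ := fldAct ι F) (by rw [map_mul, H, cjm_apply, map_mul, map_mul, map_inv]; rfl)⟩

theorem Fl.pow_mem [Finite F] [Finite F₀] [Nonempty ι] (h : Fl i x b) {f₀ : Form k₀ (ι → F₀)}
    (hf : f₀.Nondeg) (h3 : 3 ≤ finrank F₀ (ι → F₀) ∨ ∀ d, k₀.π d = 0) {e : ι → F₀}
    (he : f₀.Q e = 0) (he0 : e ≠ 0) {y : GS ι F} (hy : y * x * y⁻¹ * x⁻¹ ∈ ZG (fldAct ι F))
    (hc : ∀ t ∈ f₀.Eich, Commute y (inl (cjm i b (toGL f₀ t)))) :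
    y ^ orderOf x.right ∈ ZG (fldAct ι F) := by
  obtain ⟨c, g, H⟩ := h.descend hy
  obtain ⟨ρ, hρ⟩ := exists_aut_down i y.right
  have h1 := fun u => H ▸ sactE_up hρ b b g u
  have h2 : ∀ (a : GL ι F₀) u, sactE (inl (cjm i b a)) (up i b u) = up i b (a.1 *ᵥ u) :=
    fun a u => by rw [sactE_inl, mulVec_up, cjm_apply, inv_mul_cancel_right, up_mul_gm]
  obtain ⟨d, hd⟩ := scalar_of_comm_add hf h3 he he0 (sact ⟨g, ρ⟩) fun t ht v =>
    up_injective b (by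
      have h4 : Commute (inl (sc ι c) * y) (inl (cjm i b (toGL f₀ t))) :=
        ((show Commute _ _ from (gl_scalar_comm c _).symm).map inl).mul_left (hc t ht)
      rw [← toGL_mulVec, ← toGL_mulVec, ← h2]
      refine (h1 _).symm.trans ?_
      rw [← h2, ← sactE_mul, h4.eq, sactE_mul, h1]; rfl)
  have hd0 : d ≠ 0 := by
    rintro rfl
    exact he0 (sact_injective _ ((hd e).trans (by rw [zero_smul, map_zero])))
  have h4 : ρ = 1 := RingEquiv.ext fun a => by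
    have := sact_smul ⟨g, ρ⟩ a e
    rw [hd, hd, smul_smul, smul_smul, mul_comm d] at this
    exact (mul_right_cancel₀ hd0 (smul_left_injective F₀ he0 this)).symm
  subst h4
  have h5 : g = sc ι (Units.mk0 d hd0) := gl_ext fun v => by rw [sc_mulVec]; exact hd v
  have h6 := congrArg (QuotientGroup.mk' (ZG (fldAct ι F))) H
  rw [h5, glMap_scalar, ← inl_left_mul_inr_right ⟨_, y.right⟩] at h6
  simp only [map_mul, mk_inl_sc, one_mul, map_inv] at h6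
  rw [← QuotientGroup.ker_mk' (ZG _), MonoidHom.mem_ker, map_pow, h6, conj_pow, ← map_pow,
    ← map_pow, pow_eq_one_of_fix (fun a ha => by
      obtain ⟨a, rfl⟩ := (h.fix a).mpr ha
      exact hρ a), map_one, map_one, mul_one, mul_inv_cancel]

theorem cjm_mem_center {g : GL ι F₀} : cjm i b g ∈ center (GL ι F) ↔ g ∈ center (GL ι F₀) :=
  Iff.trans ⟨fun H => by simpa [cjm_apply, mul_assoc] using aut_mem_center (MulAut.conj b⁻¹) H,
    aut_mem_center (MulAut.conj b)⟩ (glMap_mem_center i g)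

theorem up_ne_zero {e : ι → F₀} (he : e ≠ 0) : up i b e ≠ 0 := fun H =>
  he (up_injective (i := i) b (by simpa [H] using (up_smul (i := i) b 0 0).symm))

theorem Rp.bal_fld [Finite F] [Finite F₀] [Nonempty ι] {K : Type*} [Group K] [Finite K]
    {Γ : Subgroup (GS ι F)} {Φ : Γ →* MulAut K} (h : Rp Φ) {x : Γ} (hx : Fl i x.1 b)
    {f₀ : Form k₀ (ι → F₀)} (hk : Std k₀) (hf : f₀.Nondeg)
    (h3 : 3 ≤ finrank F₀ (ι → F₀) ∨ ∀ d, k₀.π d = 0) {e : ι → F₀} (he : f₀.Q e = 0) (he0 : e ≠ 0)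
    (hT : ∀ a, inl ((cjm i b).comp (toGL f₀) a) ∈ Γ) {p : ℕ} [Fact p.Prime]
    (hpr : p ≠ ringChar F) (hp : orderOf x.1.right = p) {O : Subgroup (MulAut K)}
    (hO : Cand p (Φ x) O) (hI : ∀ t ∈ f₀.Eich, lft Φ _ hT t ∈ Cfsg.Inn K)
    (hI' : ∀ β ∈ Cfsg.Inn K, ∃ g hg, β = Φ ⟨inl g, hg⟩ ∧
      ∀ c g₀, sc ι c * g = cjm i b g₀ → g₀ ∈ Sim f₀)
    (hR : ∀ β ∈ O, (∀ t ∈ f₀.Eich, Commute β (lft Φ _ hT t)) → β ∈ Φ.range)
    (hP : (f₀.Prim ∧ ∃ g ∈ f₀.Eich, p ∣ orderOf (lft Φ _ hT g)) ∨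
      (p = 2 ∧ (f₀.Prim ∨ finrank F₀ (ι → F₀) = 4))) : O = ⊥ := by
  have hn : ∀ g ∈ f₀.Eich, lft Φ _ hT g ∈ normalizer (O : Set (MulAut K)) := fun g hg => by
    have h1 : Commute x ⟨_, hT g⟩ := Subtype.ext (hx.comm (toGL f₀ g)).eq
    exact hO.norm _ (hI g hg) (h1.map Φ)
  have key : ∀ β ∈ O, (∀ t ∈ f₀.Eich, Commute β (lft Φ _ hT t)) → β = 1 := fun β hβ hc => by
    obtain ⟨y, rfl⟩ := hR β hβ hc
    have h0 := h.comm_Eich hf (ringChar_eq i) hc
    simp only [MonoidHom.comp_apply] at h0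
    have h1 := hx.pow_mem hf h3 he he0 ((h.comm_iff y x).mp (hO.le _ hβ).symm) h0
    have h2 : Φ y ^ p = 1 := by rw [← map_pow, ← hp]; exact (h _).mpr h1
    exact mem_bot.mp (mem_of_pow_mem (coprime_of_mem hO.cop hβ) h2)
  have key2 : ∀ β ∈ O, β ∈ Cfsg.Inn K → β = 1 := fun β hβ hβI => by
    obtain ⟨g, hg, rfl, H⟩ := hI' β hβI
    obtain ⟨c, g₀, hc⟩ := hx.descend_inl ((h.comm_iff ⟨_, hg⟩ x).mp (hO.le _ hβ).symm)
    have h4 : ∀ g, lft Φ _ hT g = 1 → g ∈ f₀.scalars := fun g hg =>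
      have := h.lft_eq_one.mp hg
      toGL_mem_center.mp (cjm_mem_center.mp (by rwa [MonoidHom.comp_apply] at this))
    have h5 : Φ ⟨_, hg⟩ ∈ normalizer (f₀.Eich.map (lft Φ _ hT) : Set (MulAut K)) :=
      mem_norm_lft hg fun t ht => by
        obtain ⟨t', ht', h1⟩ := exists_conj_Eich hk hf (H c g₀ hc) ht
        refine ⟨t', ht', ?_⟩
        rw [← conj_scalar_mul c, hc, MonoidHom.comp_apply, MonoidHom.comp_apply, h1, map_mul,
          map_mul, map_inv]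
    exact key _ hβ (comm_of_norm hf (by rwa [ringChar_eq i])
      (h3.imp id fun h => ⟨1, one_ne_zero, h 1⟩) he he0 _ hO.cop hn
      (hP.imp id fun H => ⟨H.1, H.2, h4⟩) hβ h5)
  exact eq_bot_iff.mpr fun β hβ => key β hβ fun t ht =>
    commute_of_inf_eq_bot key2 hβ (hn t ht) (hI t ht)

section tr
variable {κ : Type} [Fintype κ] [DecidableEq κ] {f₀ : Form k₀ (κ → F₀)} {f : Form k (ι → F)}
  {T : GL κ F₀ →* GL ι F} {u : (κ → F₀) → ι → F} {l : F} (h : Tr i f₀ f T u l)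
include h

theorem Tr.isom_apply [Finite F] (hk : Std k) (a : f₀.Isom) (v : κ → F₀) :
    (h.isom hk a : (ι → F) ≃ₗ[F] (ι → F)) (u v) = u ((a : (κ → F₀) ≃ₗ[F₀] (κ → F₀)) v) := by
  rw [← toGL_mulVec, h.toGL_isom, h.mulVec, toGL_mulVec]

theorem Tr.isom_eichler [Finite F] (hk : Std k) (hk₀ : KMap i k₀ k) (hl : k.σ l = l)
    {e w : κ → F₀} {c : F₀} (hc : f₀.EichlerCond e w c) :
    ∃ hc', h.isom hk (f₀.eichler e w c hc) = f.eichler (u e) (l⁻¹ • u w) (l⁻¹ * i c) hc' := by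
  have h0 := h.ne
  have hl' : k.σ l⁻¹ = l⁻¹ := by rw [map_inv₀, hl]
  refine ⟨⟨by simp [h.Q, hc.1], by simp [h.B, hc.2], ?_⟩, toGL_injective (h.ext_GL fun v => ?_)⟩
  · rw [hk.π_mul hl', ← hk₀.π, hc.3, f.Q_smul, h.Q, hl']; field_simp
  · rw [toGL_mulVec, toGL_mulVec, h.isom_apply, eichler_apply, eichler_apply, h.sub, h.add, h.smul,
      h.smul, B_smul_left, hl', h.B, h.B, smul_smul]
    simp only [map_mul, map_add, hk₀.ε]
    congr 2
    · field_simp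
    · congr 2 <;> field_simp

theorem Tr.isom_mem_Qgrp [Finite F] (hk : Std k) (hk₀ : KMap i k₀ k) (hl : k.σ l = l)
    {e : κ → F₀} {t : f₀.Isom} (ht : t ∈ f₀.Qgrp e) : h.isom hk t ∈ f.Qgrp (u e) :=
  f₀.Qgrp_le (G := (f.Qgrp (u e)).comap (h.isom hk)) (fun _ _ hc =>
    let ⟨_, H⟩ := h.isom_eichler hk hk₀ hl hc
    mem_comap.mpr (H ▸ f.eichler_mem_Qgrp _ _ _ _)) ht

theorem Tr.isom_mem_Eich [Finite F] (hk : Std k) (hk₀ : KMap i k₀ k) (hl : k.σ l = l)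
    {t : f₀.Isom} (ht : t ∈ f₀.Eich) : h.isom hk t ∈ f.Eich :=
  f₀.Eich_le (G := f.Eich.comap (h.isom hk)) (fun _ _ _ hc =>
    let ⟨_, H⟩ := h.isom_eichler hk hk₀ hl hc
    mem_comap.mpr (H ▸ f.eichler_mem_Eich _ _ _ _)) ht

theorem Tr.mem_span_of_fixed [Finite F] (hk : Std k) (hk₀ : KMap i k₀ k) (hl : k.σ l = l)
    (hf : f.Nondeg) (h3 : 3 ≤ finrank F (ι → F)) {e : κ → F₀} (he : f₀.Q e = 0) (he0 : e ≠ 0)
    {v : ι → F} (hv : ∀ t ∈ f₀.Qgrp e, (h.isom hk t : (ι → F) ≃ₗ[F] (ι → F)) v = v) :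
    v ∈ F ∙ u e := by
  have hf₀ := h.nondeg₀ hf
  have h0 := h.ne
  have hl' : k.σ l⁻¹ = l⁻¹ := by rw [map_inv₀, hl]
  obtain ⟨y, hy⟩ := hf₀.exists_isHyp he he0
  have key : ∀ w, f₀.B e w = 0 → ∃ c : F, f.B (u e) v • l⁻¹ • u w =
      (k.ε * (l⁻¹ * f.B (u w) v + c * f.B (u e) v)) • u e := fun w hw => by
    obtain ⟨c, hc⟩ := f₀.exists_eichlerCond he hw
    obtain ⟨hc', H⟩ := h.isom_eichler hk hk₀ hl hc
    have := hv _ (f₀.eichler_mem_Qgrp _ _ _ hc)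
    rw [H, eichler_apply, add_sub_assoc, add_eq_left, sub_eq_zero, B_smul_left, hl'] at this
    exact ⟨_, this⟩
  have h1 : f.B (u e) v = 0 := by
    haveI : Nontrivial (Wp f₀ e y) := finrank_pos_iff.mp
      (by have := hy.finrank_perp; have := h.rank; unfold Wp; omega : 0 < finrank F₀ _)
    obtain ⟨w, hw⟩ := exists_ne (0 : Wp f₀ e y)
    obtain ⟨z, hz⟩ := (hy.nondeg_perp hf₀).exists_B_ne_zero hw
    obtain ⟨c, hc⟩ := key z (Wp_e z)
    have := congrArg (f.B (u w)) hc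
    rw [restrict_B] at hz
    simpa [h.B, f₀.eq_zero_symm (Wp_e w), h0, hz] using this
  have hu : u e ≠ 0 := fun H => he0 (h.inj (by simpa [H] using (h.sub 0 0).symm))
  have h2 : ∀ w, f₀.B e w = 0 → f.B (u w) v = 0 := fun w hw => by
    obtain ⟨c, hc⟩ := key w hw
    simpa [h1, hu, h0, k.ε_ne_zero] using hc.symm
  refine Submodule.mem_span_singleton.mpr ⟨k.ε * l⁻¹ * f.B (u y) v, hf.eq_of_B_eq fun z => ?_⟩
  refine LinearMap.congr_fun (LinearMap.ext_on_range h.span fun w => ?_ :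
    f.B _ = f.B v) z
  obtain ⟨a, d, w, rfl⟩ := exists_decomp' hy w
  refine f.B_eq_symm (x := u _) (x' := u _) ?_
  have := k.εε
  simp only [h.add, h.smul, B_add_left, B_smul_left, map_smul, smul_eq_mul, h.B, hy.B_xx, hy.B_yx,
    f₀.eq_zero_symm (Wp_e w), h1, h2 w (Wp_e w), map_zero, hk₀.ε, mul_zero, zero_add, add_zero]
  field_simp
  linear_combination (k.σ (i d) * f.B (u y) v) * this

end tr

namespace Emb
variable [Finite F] {f : Form k (ι → F)} {S : Type*} [Group S] {j₀ : S →* GL ι F} (E : Emb f j₀)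
include E

theorem rp : Rp E.Ph := E.Ph_eq_one_iff

theorem finite_K : Finite (S ⧸ center S) := haveI := E.finite; inferInstance

theorem rel_of_comm {β : MulAut (S ⧸ center S)} {t : f.Isom} (ht : t ∈ f.Eich)
    (h : Commute β (E.Ph ⟨inl (toGL f t), toGL_mem_Sim t⟩)) : E.Rel E β t t := by
  obtain ⟨s, hs⟩ := E.exists_eq ht
  have h1 : E.Ph ⟨inl (toGL f t), toGL_mem_Sim t⟩ = MulAut.conj (QuotientGroup.mk s) := by
    rw [E.Ph_apply, ← phi_j E.jinj s, jG_apply, hs]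
  have h2 : E.j s = t := toGL_injective (by rw [E.toGL_j, hs])
  refine ⟨s, s, h2, h2, E.conj_injective ?_⟩
  rw [h1, commute_iff_eq, ← mul_inv_eq_iff_eq_mul] at h
  rw [← h]
  ext v; simp

/-- The hypothesis under which every automorphism outside the semilinear group moves points to
maximal totally singular subspaces. -/
def Exc : Prop := Function.Surjective E.Ph ∨ ∃ t, Nat.card k.π.ker = Nat.card F ^ t ∧
  ∀ n, 2 * n = finrank F (ι → F) → 2 * n - 2 + t ≤ n.choose 2 + t * n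

theorem mem_range_of_comm (hG : E.Exc) {e : ι → F} (he : f.Q e = 0) (he0 : e ≠ 0)
    {β : MulAut (S ⧸ center S)} (H : ∀ W : Submodule F (ι → F), f.TS W → f.perp W = W →
      ∃ t ∈ f.Qgrp e, Commute β (E.Ph ⟨inl (toGL f t), toGL_mem_Sim t⟩) ∧ t ∉ f.fix W) :
    β ∈ E.Ph.range := by
  rcases hG with hG | ⟨t, h1, h2⟩
  · exact hG β
  refine (E.mem_range_or he he0 h1 h2 β).resolve_right fun ⟨W, h3, h4, h5⟩ => ?_
  obtain ⟨t, ht, h6, h7⟩ := H W h3 h4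
  exact h7 (h5 ▸ subset_closure ⟨pe_of_mem (Qgrp_isPGroup E.nice.nondeg he he0) ht, t, ht,
    E.rel_of_comm (f.Qgrp_le_Eich e ht) h6⟩)

variable [Finite F₀] {x : Gam f} {f₀ : Form k₀ (ι → F₀)} (hk₀ : KMap i k₀ k)
  (h : Desc i f x.1 f₀ b) (hi : ∀ a, (∃ c, i c = a) ↔ x.1.right a = a)
include hk₀ h hi

theorem bal_desc (hG : E.Exc) (hk : Std k₀) (hp₀ : f₀.Prim) {e : ι → F₀} (he : f₀.Q e = 0)
    (he0 : e ≠ 0) {p : ℕ} [Fact p.Prime] (hpr : p ≠ ringChar F) (hp : orderOf x.1.right = p)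
    {O : Subgroup (MulAut (S ⧸ center S))} (hO : Cand p (E.Ph x) O)
    (hP : p = 2 ∨ ∃ t ∈ f₀.Eich, ∃ hg, p ∣ orderOf (E.Ph ⟨inl (cjm i b (toGL f₀ t)), hg⟩)) :
    O = ⊥ := by
  haveI := E.nonempty
  haveI := E.finite_K
  obtain ⟨l, hl⟩ := h.ext
  have hf := E.nice.nondeg
  have hT : ∀ a, inl ((cjm i b).comp (toGL f₀) a) ∈ Gam f := fun a =>
    range_toGL_le (hl.tr.mem_range E.std a)
  have h1 : ∀ a, lft E.Ph _ hT a = E.Ph ⟨inl (toGL f (hl.tr.isom E.std a)), toGL_mem_Sim _⟩ :=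
    fun a => congrArg E.Ph (Subtype.ext (congrArg inl (hl.tr.toGL_isom E.std a).symm))
  refine E.rp.bal_fld ⟨h.conj, hi⟩ hk (hl.nondeg₀ hf) (Or.inl (hl.tr.rank ▸ E.nice.three)) he he0
    hT hpr hp hO (fun t ht => ?_) (fun β hβ => ?_) (fun β _ hc => ?_) ?_
  · rw [h1, E.Ph_mem_inn]
    exact ⟨rfl, mem_sup_left (E.range ▸ mem_map_of_mem _
      (hl.tr.isom_mem_Eich E.std hk₀ hl.fix ht))⟩
  · obtain ⟨g, hg, rfl⟩ := (E.mem_im E.range_le).mp (E.inn_eq_im ▸ hβ)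
    exact ⟨g, _, rfl, fun c g₀ H => (h.mem_Sim E.std hk₀ hf).mp (by
      rw [← cjm_apply, ← H]
      exact mul_mem (center_le_Sim (scalar_mem_center c)) (E.range_le hg))⟩
  · refine E.mem_range_of_comm hG (e := up i b e) (by rw [hl.Q, he, map_zero, mul_zero])
      (up_ne_zero he0) fun W h2 h3 => ?_
    by_contra! H
    have h4 : W ≤ F ∙ up i b e := fun v hv =>
      hl.tr.mem_span_of_fixed E.std hk₀ hl.fix hf E.nice.three he he0 fun t ht =>
        H _ (hl.tr.isom_mem_Qgrp E.std hk₀ hl.fix ht) (h1 t ▸ hc t (f₀.Qgrp_le_Eich e ht)) v hv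
    have h5 := (Submodule.finrank_mono h4).trans (finrank_span_le_card {up i b e})
    have := (card_fix_max hf h2 h3).1
    have := E.nice.three
    simp only [Set.toFinset_singleton, Finset.card_singleton] at h5
    omega
  · exact hP.symm.imp (fun ⟨t, ht, _, H⟩ => ⟨hp₀, t, ht, H⟩) fun H => ⟨H, Or.inl hp₀⟩

theorem bal_pow (hG : E.Exc) (hk : Std k₀) (hp₀ : f₀.Prim) {e : ι → F₀} (he : f₀.Q e = 0)
    (he0 : e ≠ 0) {p : ℕ} [hp' : Fact p.Prime] (hpr : p ≠ ringChar F)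
    (hp : orderOf x.1.right = p) {O : Subgroup (MulAut (S ⧸ center S))} (hO : Cand p (E.Ph x) O)
    (hne : O ≠ ⊥) (hP : p ≠ 2 → (∃ t ∈ f₀.Eich, t ^ p = 1 ∧ t ∉ f₀.scalars) ∨ ∀ g ∈ Sim f₀,
      ∃ n, p.Coprime n ∧ ∃ c, ∃ t ∈ f₀.Eich, g ^ n = sc ι c * toGL f₀ t) :
    p ≠ 2 ∧ ∀ β ∈ Cfsg.Inn (S ⧸ center S), Commute (E.Ph x) β → orderOf β ≠ p := by
  haveI := E.nonempty
  have key := fun H => hne (E.bal_desc hk₀ h hi hG hk hp₀ he he0 hpr hp hO H)
  have h2 : p ≠ 2 := fun H => key (Or.inl H)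
  obtain ⟨l, hl⟩ := h.ext
  have hT : ∀ a, inl ((cjm i b).comp (toGL f₀) a) ∈ Gam f := fun a =>
    range_toGL_le (hl.tr.mem_range E.std a)
  refine ⟨h2, fun β hβ hc ho => key (Or.inr ?_)⟩
  rcases hP h2 with ⟨t, ht, h3, h4⟩ | hP
  · refine ⟨t, ht, hT t, dvd_of_eq (orderOf_eq_prime ?_ fun H => ?_).symm⟩
    · exact (map_pow (lft E.Ph _ hT) t p).symm.trans (by rw [h3, map_one])
    · exact h4 (toGL_mem_center.mp (cjm_mem_center.mp (inl_mem_ZG.mp ((E.rp _).mp H))))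
  obtain ⟨g, hg, rfl⟩ := (E.mem_im E.range_le).mp (E.inn_eq_im ▸ hβ)
  obtain ⟨c, g₀, H⟩ := (Fl.mk h.conj hi).descend_inl ((E.rp.comm_iff ⟨_, _⟩ x).mp hc.symm)
  obtain ⟨n, h3, d, t, ht, h4⟩ := hP g₀ ((h.mem_Sim E.std hk₀ E.nice.nondeg).mp (by
    rw [← cjm_apply, ← H]
    exact mul_mem (center_le_Sim (scalar_mem_center c)) (E.range_le hg)))
  refine ⟨t, ht, hT t, dvd_of_eq (ho.symm.trans ?_)⟩
  rw [← ho] at h3
  refine h3.orderOf_pow.symm.trans
    (congrArg orderOf ((map_pow _ _ _).symm.trans ((E.Ph_eq_iff _ _).mpr ?_)))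
  rw [SubmonoidClass.coe_pow, ← map_pow, ← map_inv, ← map_mul, inl_mem_ZG, inv_mul_mem_center]
  refine ⟨(Units.map i.toMonoidHom d)⁻¹ * c ^ n, ?_⟩
  rw [map_mul, map_pow, mul_assoc, ← (show Commute _ _ from (gl_scalar_comm c g).symm).mul_pow, H,
    ← map_pow, h4, map_mul, hl.tr.scalar, map_inv, inv_mul_cancel_left]

end Emb

theorem exists_pow_symp {f : Form (Kind.symp F) (ι → F)} (hf : f.Nondeg) {g : GL ι F}
    (hg : g ∈ Sim f) : ∃ c, ∃ t ∈ f.Eich, g ^ 2 = sc ι c * toGL f t := by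
  obtain ⟨μ, h⟩ := hg
  obtain ⟨a, ha⟩ := exists_toGL_of_ss (g := g * g) (c := Units.mk0 μ h.ne)
    (by rw [map_mul]; exact h.mul h)
  exact ⟨_, a, hf.symp_Eich_eq_top ▸ mem_top _, by rw [sq, ha]⟩

theorem exists_pow_orth [Finite F] {f : Form (Kind.orth F) (ι → F)} (hf : f.Nondeg) (hG : f.Good)
    (h3 : 3 ≤ finrank F (ι → F)) {g : GL ι F} (hg : g ∈ Sim f) :
    ∃ c, ∃ t ∈ f.Eich, g ^ 4 = sc ι c * toGL f t := by
  obtain ⟨μ, h⟩ := hg
  obtain ⟨a, ha⟩ := exists_toGL_of_ss (g := g * g) (c := Units.mk0 μ h.ne)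
    (by rw [map_mul]; exact h.mul h)
  exact ⟨_, a * a, hf.commutator_eq_Eich hG h3 ▸ hf.mul_self_mem_commutator hG a, by
    rw [← sc_toGL_mul, ← ha, show 4 = 2 + 2 from rfl, pow_add, sq]⟩

theorem exists_pow_herm [Finite F] {s : F →+* F} {hs : ∀ a, s (s a) = a} (hne : s ≠ RingHom.id F)
    {f : Form (Kind.herm s hs) (ι → F)} (hf : f.Nondeg) (h3 : 3 ≤ finrank F (ι → F)) {p : ℕ}
    [hp : Fact p.Prime] : (∃ t ∈ f.Eich, t ^ p = 1 ∧ t ∉ f.scalars) ∨ ∀ g ∈ Sim f,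
      ∃ n, p.Coprime n ∧ ∃ c, ∃ t ∈ f.Eich, g ^ n = sc ι c * toGL f t := by
  obtain ⟨e, -, he0, he⟩ := f.herm_exists_singular hne (W := ⊤) (by rw [finrank_top]; omega)
  rw [hf.herm_Eich_eq_SIsom hne he he0]
  by_cases H : ∃ a : Fˣ, a * s a = 1 ∧ orderOf a = p
  · obtain ⟨a, ha, hp'⟩ := H
    obtain ⟨n, hn⟩ : ∃ n, finrank F (ι → F) = n + 3 := ⟨_, (Nat.sub_add_cancel h3).symm⟩
    obtain ⟨b, hb⟩ := hf.herm_exists_orthonormal hne hn
    have hq : ∀ (j) (c : F), c * s c = 1 → f.QreflCond (b j) (c - 1) := fun j c hc => by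
      have : f.Q (b j) = 1 := by simpa [hb] using (f.B_self (b j)).symm
      simp only [QreflCond, this, Kind.herm_σ, Kind.herm_π, Kind.herm_ε, map_sub, map_one, one_mul]
      linear_combination hc
    have ha' : ((a⁻¹ : Fˣ) : F) * s (a⁻¹ : Fˣ) = 1 := by
      rw [Units.val_inv_eq_inv_val, map_inv₀, ← mul_inv, ha, inv_one]
    let t := f.qrefl _ _ (hq 0 a ha) * f.qrefl _ _ (hq 1 _ ha')
    have ht : ∀ j, ∃ c : Fˣ, c ^ p = 1 ∧ (t : (ι → F) ≃ₗ[F] (ι → F)) (b j) = (c : F) • b j ∧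
        (j = 0 → c = a) ∧ (j = Fin.last _ → c = 1) := fun j => by
      have hp1 : a ^ p = 1 := hp' ▸ pow_orderOf_eq_one a
      simp only [t, isom_mul_apply, qrefl_apply, map_add, map_smul, hb]
      by_cases h0 : j = 0
      · subst h0
        exact ⟨a, hp1, by simp; module, fun _ => rfl, fun h => absurd h (by simp [Fin.ext_iff])⟩
      by_cases h1 : j = 1
      · subst h1
        exact ⟨a⁻¹, by rw [inv_pow, hp1, inv_one], by simp; module, fun h => absurd h h0,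
          fun h => absurd h (by simp [Fin.ext_iff])⟩
      · exact ⟨1, one_pow _, by simp [Ne.symm h0, Ne.symm h1], fun h => absurd h h0, fun _ => rfl⟩
    refine Or.inl ⟨t, mem_SIsom.mpr (Units.ext ?_), Subtype.ext (b.ext' fun j => ?_), ?_⟩
    · rw [map_mul, Units.val_mul, detHom_qrefl, detHom_qrefl]; simp [hb]
    · obtain ⟨c, h1, h2, -⟩ := ht j
      rw [SubmonoidClass.coe_pow, CA.AutLin.pow_apply_of_eigen h2, ← Units.val_pow_eq_pow_val, h1]
      simp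
    · rintro ⟨d, hd⟩
      obtain ⟨c, -, h1, h2, -⟩ := ht 0
      obtain ⟨c', -, h3, -, h4⟩ := ht (Fin.last _)
      rw [hd, h2 rfl] at h1
      rw [hd, h4 rfl] at h3
      have : a = 1 := Units.ext ((smul_left_injective F (b.ne_zero 0) h1).symm.trans
        (smul_left_injective F (b.ne_zero _) h3))
      exact hp.out.one_lt.ne (by rw [← hp', this, orderOf_one])
  refine Or.inr fun g ⟨μ, h⟩ => ?_
  haveI : Nontrivial (ι → F) := nontrivial_of_finrank_pos (R := F) (by omega)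
  obtain ⟨c, rfl⟩ := exists_norm_eq s hs hne μ (h.σ_mu hf)
  obtain ⟨a, ha⟩ := exists_toGL_of_ss (c := Units.mk0 c (left_ne_zero_of_mul h.ne)) h
  refine ⟨orderOf (f.detHom a), hp.out.coprime_iff_not_dvd.mpr fun hd => H ⟨f.detHom a ^
    (orderOf (f.detHom a) / p), ?_, orderOf_pow_orderOf_div (orderOf_pos _).ne' hd⟩,
    Units.mk0 c (left_ne_zero_of_mul h.ne) ^ orderOf (f.detHom a), a ^ orderOf (f.detHom a),
    mem_SIsom.mpr (by rw [map_pow, pow_orderOf_eq_one]), ?_⟩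
  · rw [Units.val_pow_eq_pow_val, map_pow, ← mul_pow]
    exact (congrArg (· ^ _) (hf.det_mul_σ_det a)).trans (one_pow _)
  · rw [map_pow, map_pow]
    exact (congrArg (· ^ _) ha).trans
      ((show Commute _ _ from (gl_scalar_comm _ _).symm).mul_pow _)

theorem coprime_two_pow {p : ℕ} [hp : Fact p.Prime] (h : p ≠ 2) (n : ℕ) : p.Coprime (2 ^ n) :=
  ((Nat.coprime_primes hp.out Nat.prime_two).mpr h).pow_right n

namespace Emb
variable [Finite F] {S : Type*} [Group S] {j₀ : S →* GL ι F} {p : ℕ} [hp : Fact p.Prime]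
  {O : Subgroup (MulAut (S ⧸ center S))}

theorem orderOf_right {f : Form k (ι → F)} (E : Emb f j₀) {x : Gam f} (hx : x.1.right ≠ 1)
    (ho : orderOf (E.Ph x) = p) : orderOf x.1.right = p :=
  (hp.out.eq_one_or_self_of_dvd _ (ho ▸ E.orderOf_right_dvd x)).resolve_left
    (mt orderOf_eq_one_iff.mp hx)

theorem pow_mem_ZG {f : Form k (ι → F)} (E : Emb f j₀) {x : Gam f} (hx : x.1.right ≠ 1)
    (ho : orderOf (E.Ph x) = p) : x.1 ^ orderOf x.1.right ∈ ZG (fldAct ι F) :=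
  (E.Ph_pow_eq_one_iff x _).mp (by rw [E.orderOf_right hx ho, ← ho, pow_orderOf_eq_one])

theorem bal_symp {f : Form (Kind.symp F) (ι → F)} (E : Emb f j₀) (hG : E.Exc)
    (hpr : p ≠ ringChar F) {x : Gam f} (hx : x.1.right ≠ 1) (ho : orderOf (E.Ph x) = p)
    (hO : Cand p (E.Ph x) O) (hne : O ≠ ⊥) :
    p ≠ 2 ∧ ∀ β ∈ Cfsg.Inn (S ⧸ center S), Commute (E.Ph x) β → orderOf β ≠ p := by
  haveI := E.nonempty
  have hi := fixF_range x.1.right
  obtain ⟨f₀, b, h⟩ := exists_desc E.std (kmap_symp _) E.nice.nondeg x.2 hi (Or.inl fun _ => rfl)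
    (E.pow_mem_ZG hx ho)
  obtain ⟨l, hl⟩ := h.ext
  obtain ⟨e, he⟩ := exists_ne (0 : ι → fixF x.1.right)
  exact E.bal_pow (kmap_symp _) h hi hG (Or.inl rfl) (symp_prim _) (f₀.symp_Q e) he hpr
    (E.orderOf_right hx ho) hO hne fun h2 => Or.inr fun g hg =>
      ⟨2, coprime_two_pow h2 1, exists_pow_symp (hl.nondeg₀ E.nice.nondeg) hg⟩

theorem bal_orth {f : Form (Kind.orth F) (ι → F)} (hf : Big f) (E : Emb f j₀) (hG : E.Exc)
    (hpr : p ≠ ringChar F) {x : Gam f} (hx : x.1.right ≠ 1) (ho : orderOf (E.Ph x) = p)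
    (hO : Cand p (E.Ph x) O) (hne : O ≠ ⊥) :
    p ≠ 2 ∧ ∀ β ∈ Cfsg.Inn (S ⧸ center S), Commute (E.Ph x) β → orderOf β ≠ p := by
  haveI := E.nonempty
  have hi := fixF_range x.1.right
  obtain ⟨f₀, b, h⟩ := exists_desc E.std (kmap_orth _) E.nice.nondeg x.2 hi (Or.inl fun _ => rfl)
    (E.pow_mem_ZG hx ho)
  obtain ⟨l, hl⟩ := h.ext
  have hf₀ := hl.tr.big hf
  have h3 : 3 ≤ finrank (fixF x.1.right) (ι → fixF x.1.right) := by have := hf₀.five; omega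
  obtain ⟨e, he0, he⟩ := f₀.exists_singular' h3
  exact E.bal_pow (kmap_orth _) h hi hG stdO (prim_of_five_le hf₀.five) he he0 hpr
    (E.orderOf_right hx ho) hO hne fun h2 => Or.inr fun g hg =>
      ⟨4, coprime_two_pow h2 2, exists_pow_orth hf₀.nd hf₀.good h3 hg⟩

theorem bal_herm {s : F →+* F} {hs : ∀ a, s (s a) = a} (hs1 : s ≠ RingHom.id F)
    {f : Form (Kind.herm s hs) (ι → F)} (E : Emb f j₀) (hG : E.Exc) (hpr : p ≠ ringChar F)
    (h2 : p ≠ 2) {x : Gam f} (hx : x.1.right ≠ 1) (ho : orderOf (E.Ph x) = p)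
    (hO : Cand p (E.Ph x) O) (hne : O ≠ ⊥) :
    ∀ β ∈ Cfsg.Inn (S ⧸ center S), Commute (E.Ph x) β → orderOf β ≠ p := by
  haveI := E.nonempty
  have hi := fixF_range x.1.right
  let s' : RingAut F := RingEquiv.ofRingHom s s (RingHom.ext hs) (RingHom.ext hs)
  obtain ⟨s₀, h0⟩ := exists_aut_down (fixF x.1.right).subtype s'
  have h1 : ∀ a, (fixF x.1.right).subtype (s₀ a) = s ((fixF x.1.right).subtype a) :=
    fun a => (h0 a).symm
  have hs₀ : ∀ a, s₀.toRingHom (s₀.toRingHom a) = a := fun a =>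
    Subtype.ext ((h1 _).trans ((congrArg s (h1 a)).trans (hs _)))
  obtain ⟨t, ht, ht'⟩ : ∃ t, x.1.right t = t ∧ s t ≠ t := by
    by_contra! H
    have h3 := pow_eq_one_of_fix (ρ := s') H
    rw [E.orderOf_right hx ho] at h3
    have h4 : s' = 1 := mem_bot.mp (mem_of_pow_mem (n := p) ((coprime_two_pow h2 1).coprime_dvd_right
      (orderOf_dvd_of_pow_eq_one (RingEquiv.ext hs))) h3)
    exact hs1 (RingHom.ext (RingEquiv.ext_iff.mp h4))
  have hne₀ : s₀.toRingHom ≠ RingHom.id _ := fun H =>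
    ht' ((h1 ⟨t, ht⟩).symm.trans (congrArg Subtype.val (RingHom.congr_fun H ⟨t, ht⟩)))
  have hk := kmap_herm (hs₀ := hs₀) (hs := hs) _ hne₀ h1
  obtain ⟨f₀, b, h⟩ := exists_desc E.std hk E.nice.nondeg x.2 hi (Or.inr ⟨t, ht, ht'⟩)
    (E.pow_mem_ZG hx ho)
  obtain ⟨l, hl⟩ := h.ext
  have h3 : 3 ≤ finrank (fixF x.1.right) (ι → fixF x.1.right) := hl.tr.rank ▸ E.nice.three
  obtain ⟨e, -, he0, he⟩ := f₀.herm_exists_singular hne₀ (W := ⊤) (by rw [finrank_top]; omega)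
  exact (E.bal_pow hk h hi hG (Or.inr (Or.inr ⟨_, _, hne₀, rfl⟩)) (herm_prim hne₀ _) he he0 hpr
    (E.orderOf_right hx ho) hO hne fun _ =>
      exists_pow_herm hne₀ (hl.nondeg₀ E.nice.nondeg) h3).2

end Emb

end CA.AutForm
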