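import Cfsg.Agent.Lib.Lin.AutBal2

/-!
Graph automorphisms of unitary groups: descent to a bilinear form over the fixed field.
-/

set_option autoImplicit false

namespace CA.AutForm

open Subgroup CA.AutCorr CA.CForm CA.CForm.Form Module CA.AutPhi CA.AutGam
  CA.AutFld CA.AutLang CA.AutOut SemidirectProduct Matrix

variable {F : Type*} [Field F] {k : Kind F} {ι : Type} [Fintype ι] [DecidableEq ι]
  {F₀ : Type*} [Field F₀] {k₀ : Kind F₀}

local notation "sc" => GeneralLinearGroup.scalar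
local notation "gm" => GeneralLinearGroup.map

/-- bilinear forms on coordinate space -/
abbrev Bil (F : Type*) [Field F] (ι : Type) : Type _ := LinearMap.BilinForm F (ι → F)

/-- `g` is a similarity from `B` to `B'` with multiplier `c` -/
def Sm (B B' : Bil F ι) (g : GL ι F) (c : F) : Prop := ∀ u v, B' (g.1 *ᵥ u) (g.1 *ᵥ v) = c * B u v

/-- the similarity group -/
abbrev SG (B : Bil F ι) : Subgroup (GL ι F) := Cfsg.Geo.similarityGroup fun u v => B u v

theorem mem_SG {B : Bil F ι} {g : GL ι F} : g ∈ SG B ↔ ∃ c : Fˣ, Sm B B g c := Iff.rfl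

/-- non-degenerate and symmetric or alternating -/
structure Rf (B : Bil F ι) : Prop where
  nd : ∀ u, (∀ v, B u v = 0) → u = 0
  sy : (∀ u v, B v u = B u v) ∨ ∀ u, B u u = 0

omit [Fintype ι] in
theorem exists_one [Nonempty ι] {B : Bil F ι} (h : ∀ u, (∀ v, B u v = 0) → u = 0) : ∃ u v, B u v = 1 := by
  obtain ⟨j⟩ := ‹Nonempty ι›
  obtain ⟨v, hv⟩ := not_forall.1 (mt (h (Pi.single j 1)) (by simp))
  exact ⟨Pi.single j 1, (B (Pi.single j 1) v)⁻¹ • v, by rw [map_smul, smul_eq_mul, inv_mul_cancel₀ hv]⟩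

omit [Fintype ι] [DecidableEq ι] in
theorem rf_of {B : Bil F ι} (h : ∀ u, (∀ v, B u v = 0) → u = 0) {ε : F} (hε : ∀ u v, B v u = ε * B u v) :
    Rf B := by
  refine ⟨h, ?_⟩
  by_cases h2 : ε = 1
  · exact .inl fun u v => by rw [hε, h2, one_mul]
  · exact .inr fun u => (mul_eq_zero.1 (by linear_combination -hε u u : (ε - 1) * B u u = 0)).resolve_left (sub_ne_zero.2 h2)

omit [Fintype ι] [DecidableEq ι] in
theorem Rf.exists_eps {B : Bil F ι} (h : Rf B) : ∃ ε : F, (ε = 1 ∨ ε = -1) ∧ ∀ u v, B v u = ε * B u v :=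
  h.sy.elim (fun h => ⟨1, .inl rfl, by simpa using h⟩) fun h => ⟨-1, .inr rfl, fun u v => by
    rw [neg_one_mul, LinearMap.IsAlt.neg h]⟩

omit [Fintype ι] [DecidableEq ι] in
theorem Rf.exists_form {B : Bil F ι} (h : Rf B) (h2 : (2 : F) ≠ 0) : ∃ (k : Kind F) (f : Form k (ι → F)),
    (k = Kind.symp F ∨ k = Kind.orth F) ∧ f.Nondeg ∧ ∀ u v, f.B u v = B u v :=
  h.sy.elim (fun h' => ⟨_, ofSymm h2 B ⟨fun u v => h' v u⟩, .inr rfl, h.nd, fun _ _ => rfl⟩)
    fun h' => ⟨_, ofAlt B h', .inl rfl, h.nd, fun _ _ => rfl⟩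

theorem ss_of_B (hk : Std k) (h2 : (2 : F) ≠ 0) {f₁ f₂ : Form k (ι → F)} {x : GS ι F} {μ : F} (h0 : μ ≠ 0)
    (h : ∀ u v, f₂.B (sactE x u) (sactE x v) = μ * x.right (f₁.B u v)) : SS f₁ f₂ x μ := by
  rcases hk with rfl | rfl | ⟨s, hs, -, rfl⟩
  · exact semiSim_symp (sactE_smul _) h0 h
  · exact ⟨sactE_smul _, h0, h, fun v => mul_left_cancel₀ h2 (by
      rw [← orth_B_self, h, orth_B_self, map_mul, map_ofNat]; ring)⟩
  · exact semiSim_herm (sactE_smul _) h0 h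

theorem mem_Sim_iff (hk : Std k) (h2 : (2 : F) ≠ 0) {f : Form k (ι → F)} {B : Bil F ι} (h : ∀ u v, f.B u v = B u v)
    {g : GL ι F} : g ∈ Sim f ↔ g ∈ SG B :=
  ⟨fun ⟨μ, hg⟩ => ⟨Units.mk0 μ hg.ne, fun u v => by simpa [h, sactE_inl] using hg.B u v⟩,
    fun ⟨c, hc⟩ => ⟨c, ss_of_B hk h2 c.ne_zero fun u v => by simpa [h, sactE_inl] using hc u v⟩⟩

omit [DecidableEq ι] in
theorem prim_or [Finite F] {f : Form k (ι → F)} (hk : k = Kind.symp F ∨ k = Kind.orth F) (hf : f.Nondeg)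
    (h3 : 3 ≤ finrank F (ι → F)) : (f.Prim ∨ finrank F (ι → F) = 4) ∧ ∃ e, e ≠ 0 ∧ f.Q e = 0 := by
  rcases hk with rfl | rfl
  · haveI : Nontrivial (ι → F) := nontrivial_of_finrank_pos (R := F) (by omega)
    obtain ⟨e, he⟩ := exists_ne (0 : ι → F)
    exact ⟨.inl (symp_prim f), e, he, symp_Q f e⟩
  obtain ⟨e, h0, he⟩ := f.exists_singular' h3
  refine ⟨?_, e, h0, he⟩
  by_cases h : finrank F (ι → F) = 3
  · exact .inl (.inr (.inr ⟨h3, hf.isIndex_of_two_mul (ts_span_singleton he) (finrank_span_singleton h0) h.le⟩))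
  · exact (by omega : 5 ≤ finrank F (ι → F) ∨ _).imp_left fun h => .inr (.inl h)

theorem B_ext {V : Type*} [AddCommGroup V] [Module F V] {f₁ f₂ : Form k V} (a : V →ₗ[F] V) {S : Set V}
    (hS : Submodule.span F S = ⊤) {μ : F} (h : ∀ u ∈ S, ∀ v ∈ S, f₂.B (a u) (a v) = μ * f₁.B u v) (u v : V) :
    f₂.B (a u) (a v) = μ * f₁.B u v := by
  have key : ∀ v ∈ S, f₂.B (a u) (a v) = μ * f₁.B u v := fun v hv => by
    induction (hS ▸ Submodule.mem_top : u ∈ Submodule.span F S) using Submodule.span_induction with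
    | mem u hu => exact h u hu v hv
    | zero => simp
    | add u w _ _ h1 h2 => simp [h1, h2, mul_add]
    | smul c u _ h1 => simp [h1]; ring
  exact LinearMap.congr_fun (LinearMap.ext_on (f := (f₂.B (a u)).comp a) (g := μ • f₁.B u) hS key) v

section desc
variable {s : F →+* F} {hs : ∀ a, s (s a) = a} {f f' : Form (Kind.herm s hs) (ι → F)} {i : F₀ →+* F} {b b' : GL ι F}
  {B B' : Bil F₀ ι} {l l' : F}

variable (i f b B l) in
/-- in the basis `b` the hermitian form `f` is a multiple of `B` -/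
structure GD : Prop where
  ne : l ≠ 0
  eq : ∀ u v, f.B (up i b u) (up i b v) = l * i (B u v)

theorem GD.ss (h : GD f i b B l) (h' : GD f' i b' B' l') {g : GL ι F₀} {c : F₀} (hg : Sm B B' g c) (hc : c ≠ 0) :
    SS f f' (inl (b' * gm i g * b⁻¹)) (l' * i c / l) :=
  semiSim_herm (sactE_smul _) (div_ne_zero (mul_ne_zero h'.ne ((map_ne_zero i).2 hc)) h.ne)
    (B_ext (mulVecLin (b' * gm i g * b⁻¹).1) (span_up (i := i) b) (by
      rintro _ ⟨u, rfl⟩ _ ⟨v, rfl⟩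
      have := h.ne
      rw [mulVecLin_apply, mulVecLin_apply, mulVec_up, mulVec_up, inv_mul_cancel_right, up_mul_gm, up_mul_gm, h'.eq, hg,
        h.eq, map_mul]
      field_simp))

theorem GD.sm [Nonempty ι] (h : GD f i b B l) (h' : GD f' i b' B' l') (hB : Rf B) {g : GL ι F₀} {μ : F}
    (hg : SS f f' (inl (b' * gm i g * b⁻¹)) μ) : ∃ c : F₀ˣ, Sm B B' g c ∧ μ = l' * i c / l := by
  have key : ∀ u v, l' * i (B' (g.1 *ᵥ u) (g.1 *ᵥ v)) = μ * (l * i (B u v)) := fun u v => by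
    have := hg.B (up i b u) (up i b v)
    rwa [sactE_inl, sactE_inl, mulVec_up, mulVec_up, inv_mul_cancel_right, up_mul_gm, up_mul_gm, h'.eq, h.eq] at this
  obtain ⟨u, v, e⟩ := exists_one hB.nd
  have h1 := key u v
  rw [e, map_one, mul_one] at h1
  have := h.ne
  refine ⟨Units.mk0 (B' (g.1 *ᵥ u) (g.1 *ᵥ v)) fun H => mul_ne_zero hg.ne h.ne (by rw [← h1, H, map_zero, mul_zero]), fun u' v' =>
    i.injective (mul_left_cancel₀ h'.ne ?_), by rw [Units.val_mk0, h1]; field_simp⟩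
  rw [key, map_mul, Units.val_mk0, ← mul_assoc, ← mul_assoc, h1]

theorem GD.mem_Sim [Nonempty ι] (h : GD f i b B l) (hB : Rf B) {g : GL ι F₀} : cjm i b g ∈ Sim f ↔ g ∈ SG B :=
  ⟨fun ⟨_, hg⟩ => let ⟨c, hc, _⟩ := h.sm h hB hg; ⟨c, hc⟩, fun ⟨c, hc⟩ => ⟨_, h.ss h hc c.ne_zero⟩⟩

theorem GD.ss_one (h : GD f i b B l) {g : GL ι F₀} (hg : Sm B B g 1) : SS f f (inl (cjm i b g)) 1 := by
  have := h.ss h hg one_ne_zero
  rwa [map_one, mul_one, div_self h.ne] at this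

variable [Finite F] [Nonempty ι]

theorem exists_GD (hf : f.Nondeg) {x : GS ι F} (hx : x ∈ Gam f) (hi : ∀ a, (∃ c, i c = a) ↔ x.right a = a)
    (hσ : ∀ a, x.right a = s a) (h1 : x ^ orderOf x.right ∈ ZG (fldAct ι F)) :
    ∃ b B l, Fl i x b ∧ GD f i b B l ∧ Rf B := by
  obtain ⟨c, hc⟩ := exists_scalar_mul_pow_eq_one x h1
  obtain ⟨ν, hν⟩ := (Gam f).mul_mem (center_le_Sim (scalar_mem_center c)) hx
  have hr : (inl (sc ι c) * x).right = x.right := by simp
  obtain ⟨b, hb⟩ := exists_conj_inr (inl (sc ι c) * x) (orderOf_pos _) (by rw [hr]; exact hc)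
  have h2 : inl (sc ι c) * x = inl b * inr x.right * (inl b)⁻¹ := by
    rw [inl_conj_inr, fldAct_apply, ← hr, ← eq_mul_inv_of_mul_eq hb, inl_left_mul_inr_right]
  have h3 : ∀ u, sactE (inl (sc ι c) * x) (up i b u) = up i b u := fun u => by
    have := sactE_up (σ := x.right) (σ₀ := 1) (fun a => (hi _).mp ⟨a, rfl⟩) b b 1 u
    rw [map_one, show sactE ⟨1, 1⟩ u = u from sact_one u] at this
    rw [h2]; exact this
  have h4 : nm x.right (orderOf x.right) ν = 1 := by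
    have := hν.pow (orderOf x.right)
    rw [hc, hr] at this
    exact this.mu_eq hf ss_one
  obtain ⟨l, hl0, hl1⟩ := hilbert90 (orderOf_pos _) h4
  have h5 : ∀ u v, ∃ c, i c = l⁻¹ * f.B (up i b u) (up i b v) := fun u v => (hi _).mpr (by
    have h6 := hν.B (up i b u) (up i b v)
    rw [h3, h3, hr] at h6
    have := hν.ne
    rw [map_mul, map_inv₀, show x.right l = ν⁻¹ * l by field_simp; linear_combination hl1]
    field_simp; exact h6.symm)
  choose B hB using h5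
  have h6 : ∀ c, s (i c) = i c := fun c => (hσ _).symm.trans ((hi _).1 ⟨c, rfl⟩)
  let B' : Bil F₀ ι := LinearMap.mk₂ F₀ B
    (fun u u' v => i.injective (by rw [map_add, hB, hB, hB, up_add, B_add_left, mul_add]))
    (fun c u v => i.injective (by rw [smul_eq_mul, map_mul, hB, hB, up_smul, B_smul_left, Kind.herm_σ, h6]; ring))
    (fun u v v' => i.injective (by rw [map_add, hB, hB, hB, up_add, map_add, mul_add]))
    (fun c u v => i.injective (by rw [smul_eq_mul, map_mul, hB, hB, up_smul, map_smul, smul_eq_mul]; ring))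
  have h7 : GD f i b B' l := ⟨hl0, fun u v => by rw [LinearMap.mk₂_apply, hB, mul_inv_cancel_left₀ hl0]⟩
  have h8 : ∀ u, (∀ v, B' u v = 0) → u = 0 := fun u hu => up_injective b ((hf _ fun v => LinearMap.congr_fun
    (LinearMap.ext_on (f := f.B (up i b u)) (g := 0) (span_up (i := i) b) (by
      rintro _ ⟨v, rfl⟩; rw [h7.eq, hu, map_zero, mul_zero]; rfl)) v).trans (by simpa using (up_smul (i := i) b 0 0).symm))
  obtain ⟨u, v, e⟩ := exists_one h8
  have h9 : ∀ u v, l * i (B' v u) = s l * i (B' u v) := fun u v => by rw [← h7.eq, herm_symm, h7.eq, map_mul, h6]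
  refine ⟨b, B', l, ⟨⟨c, h2⟩, hi⟩, h7, rf_of h8 (ε := B' v u) fun u' v' => i.injective (mul_left_cancel₀ hl0 ?_)⟩
  rw [h9, map_mul, ← mul_assoc, h9, e, map_one, mul_one]

theorem Emb.bal_herm_two {S : Type*} [Group S] {j₀ : S →* GL ι F} (hs1 : s ≠ RingHom.id F) (E : Emb f j₀)
    (hG : Function.Surjective E.Ph) (hE : f.Eich = f.SIsom) (h2 : (2 : F) ≠ 0) {x : Gam f} (hx : x.1.right ≠ 1)
    (ho : orderOf (E.Ph x) = 2) {O : Subgroup (MulAut (S ⧸ center S))} (hO : Cand 2 (E.Ph x) O) : O = ⊥ := by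
  haveI := E.finite_K
  have hi := fixF_range x.1.right
  have h1 := E.orderOf_right hx ho
  let s' : RingAut F := RingEquiv.ofRingHom s s (RingHom.ext hs) (RingHom.ext hs)
  have hσ : x.1.right = s' := eq_of_orderOf_two h1 (orderOf_eq_prime (RingEquiv.ext hs) fun H =>
    hs1 (RingHom.ext (RingEquiv.ext_iff.mp H)))
  obtain ⟨b, B, l, h3, h4, h5⟩ := exists_GD E.nice.nondeg x.2 hi (fun a => by rw [hσ]; rfl) (E.pow_mem_ZG hx ho)
  have h2' : (2 : fixF x.1.right) ≠ 0 := fun H => h2 (congrArg Subtype.val H)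
  obtain ⟨k₀, f₀, hk, hf, hB⟩ := h5.exists_form h2'
  have hk' : Std k₀ := hk.imp_right .inl
  have h6 : 3 ≤ finrank (fixF x.1.right) (ι → fixF x.1.right) := by simpa using E.nice.three
  obtain ⟨h7, e, he0, he⟩ := prim_or hk hf h6
  have h8 := fun a : f₀.Isom => h4.ss_one (g := toGL f₀ a) fun u v => by
    simpa [hB, sactE_inl] using (ss_toGL a).B u v
  refine E.rp.bal_fld h3 hk' hf (.inl h6) he he0 (fun a => ⟨1, h8 a⟩) (ringChar_ne_two_iff.2 h2).symm h1 hO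
    (fun t ht => ?_) (fun β hβ => ?_) (fun β _ _ => hG β) (.inr ⟨rfl, h7⟩)
  · obtain ⟨t', ht'⟩ := mem_range_toGL.2 (h8 t)
    refine (E.Ph_mem_inn _).2 ⟨rfl, mem_sup_left (E.range ▸ ⟨t', hE ▸ mem_SIsom.2 ?_, ht'⟩)⟩
    rw [← det_toGL, ht', cjm_apply, map_mul, map_mul, det_glMap, det_toGL, mem_SIsom.1 (f₀.Eich_le_SIsom ht)]
    simp
  · obtain ⟨g, hg, rfl⟩ := (E.mem_im E.range_le).mp (E.inn_eq_im ▸ hβ)
    exact ⟨g, _, rfl, fun c g₀ H => (mem_Sim_iff hk' h2' hB).2 ((h4.mem_Sim h5).1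
      (H ▸ mul_mem (center_le_Sim (scalar_mem_center c)) (E.range_le hg)))⟩

end desc

end CA.AutForm
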