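import Cfsg.Agent.Lib.Lin.AutGr1
import Cfsg.Agent.Lib.Lin.SLnGen

/-!
Polarities and local balance in the linear groups.
-/

set_option autoImplicit false

namespace CA.AutForm

open Subgroup CA.AutCorr CA.CForm CA.CForm.Form Module CA.AutPhi CA.AutGam
  CA.AutFld CA.AutLang CA.AutOut CA.AutPSL SemidirectProduct Matrix

variable {F : Type*} [Field F] {k : Kind F} {ι : Type} [Fintype ι] [DecidableEq ι]

local notation "sc" => GeneralLinearGroup.scalar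
local notation "gm" => GeneralLinearGroup.map

theorem mem_ZG_of_smul [Nonempty ι] {y : GS ι F} {d : F} (h : ∀ v, sact y v = d • v) : y ∈ ZG (fldAct ι F) := by
  obtain ⟨j⟩ := ‹Nonempty ι›
  have he0 : (Pi.single j 1 : ι → F) ≠ 0 := by simp
  have hd0 : d ≠ 0 := by
    rintro rfl
    exact he0 (sact_injective _ ((h _).trans (by rw [zero_smul, map_zero])))
  have h4 : y.right = 1 := RingEquiv.ext fun a => by
    have := sact_smul y a (Pi.single j 1)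
    rw [h, h, smul_smul, smul_smul, mul_comm d] at this
    exact (mul_right_cancel₀ hd0 (smul_left_injective F he0 this)).symm
  refine mem_ZG.2 ⟨h4, mem_center_iff_scalar.2 ⟨Units.mk0 d hd0, gl_ext fun v => ?_⟩⟩
  rw [sc_mulVec, Units.val_mk0, ← h, ← inl_left_mul_inr_right y, h4, map_one, mul_one]; rfl

theorem Rp.bal_pol [Finite F] [Nonempty ι] {K : Type*} [Group K] [Finite K]
    {Γ : Subgroup (GS ι F)} {Φ : Γ →* MulAut K} (h : Rp Φ) {x : MulAut K} {f : Form k (ι → F)} (hk : Std k)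
    (hf : f.Nondeg) (h3 : 3 ≤ finrank F (ι → F)) {e : ι → F} (he : f.Q e = 0) (he0 : e ≠ 0)
    (hT : ∀ a, inl (toGL f a) ∈ Γ) (h2 : 2 ≠ ringChar F) {O : Subgroup (MulAut K)} (hO : Cand 2 x O)
    (hI : ∀ t ∈ f.Eich, lft Φ _ hT t ∈ Cfsg.Inn K ∧ Commute x (lft Φ _ hT t))
    (hI' : ∀ β ∈ Cfsg.Inn K, Commute x β → ∃ g ∈ Sim f, ∃ hg, β = Φ ⟨inl g, hg⟩)
    (hR : O ≤ Φ.range) (hP : f.Prim ∨ finrank F (ι → F) = 4) : O = ⊥ := by
  have hn : ∀ g ∈ f.Eich, lft Φ _ hT g ∈ normalizer (O : Set (MulAut K)) := fun g hg =>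
    hO.norm _ (hI g hg).1 (hI g hg).2
  have key : ∀ β ∈ O, (∀ t ∈ f.Eich, Commute β (lft Φ _ hT t)) → β = 1 := fun β hβ hc => by
    obtain ⟨y, rfl⟩ := hR hβ
    have h0 := h.comm_Eich hf rfl hc
    obtain ⟨d, hd⟩ := scalar_of_comm_add hf (.inl h3) he he0 (sact y.1) fun t ht v => by
      rw [← toGL_mulVec, ← toGL_mulVec, ← sact_inl, ← sact_inl, ← sact_mul, (h0 t ht).eq, sact_mul]
    exact (h _).2 (mem_ZG_of_smul hd)
  have key2 : ∀ β ∈ O, β ∈ Cfsg.Inn K → β = 1 := fun β hβ hβI => by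
    obtain ⟨g, hg', hg, rfl⟩ := hI' β hβI (hO.le _ hβ)
    exact key _ hβ (comm_of_norm hf h2 (.inl h3) he he0 _ hO.cop hn
      (.inr ⟨rfl, hP, fun g hg => toGL_mem_center.1 (h.lft_eq_one.1 hg)⟩) hβ
      (mem_norm_lft hg fun t ht => exists_conj_Eich hk hf hg' ht))
  exact eq_bot_iff.mpr fun β hβ => key β hβ fun t ht =>
    commute_of_inf_eq_bot key2 hβ (hn t ht) (hI t ht).1

theorem pol_iff (σ : RingAut F) (a a' g : GL ι F) (c : Fˣ) :
    sc ι c * a' = g * a * (fgAct ι F (σ, c2) g)⁻¹ ↔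
      ∀ u v, matB (σ : F →+* F) (a'⁻¹).1 (g.1 *ᵥ u) (g.1 *ᵥ v) = c * matB (σ : F →+* F) (a⁻¹).1 u v := by
  have h1 : ((fgAct ι F (σ, c2) g)⁻¹ * a'⁻¹ * g).1 = (g.1.map (σ : F →+* F))ᵀ * (a'⁻¹).1 * g.1 := by
    rw [fgAct_c2]; rfl
  simp only [matB_mulVec, ← matB_smul, ← h1, ← coe_scalar_mul]
  refine Iff.trans ?_ ⟨fun H _ _ => by rw [H], fun H => Units.ext (matB_inj H)⟩
  have hz := fun x => (gl_scalar_comm (ι := ι) c x).symm
  generalize sc ι c = z at hz ⊢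
  generalize fgAct ι F (σ, c2) g = w
  constructor <;> intro H
  · obtain rfl : g = z * a' * w * a⁻¹ := by rw [H]; group
    rw [hz a', mul_assoc a', hz w]; group
  · obtain rfl : g = a' * w * (z * a⁻¹) := by rw [← H]; group
    rw [hz a', ← mul_assoc _ z, mul_assoc a', ← hz w]; group

theorem comm_inr {A : Type*} [Group A] {act : A →* MulAut (GL ι F)} (y : GL ι F ⋊[act] A) {t : A}
    (h : y.right * t = t * y.right) : y * inr t * y⁻¹ * (inr t)⁻¹ = inl (y.left * (act t y.left)⁻¹) := by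
  rw [mul_inv_eq_iff_eq_mul, ← inl_conj_inr]
  conv_lhs => rw [← inl_left_mul_inr_right y]
  rw [mul_assoc (inl _), ← map_mul, h, map_mul]
  group

/-- the bilinear form with matrix `a⁻¹` -/
noncomputable def bA (a : GL ι F) : Bil F ι := Matrix.toBilin' (a⁻¹).1

theorem bA_apply (a : GL ι F) (u v : ι → F) : bA a u v = matB ((1 : RingAut F) : F →+* F) (a⁻¹).1 u v :=
  toBilin'_apply' _ u v

theorem bA_nd (a : GL ι F) (u : ι → F) (h : ∀ v, bA a u v = 0) : u = 0 :=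
  matB_nondeg _ a⁻¹ fun v => (bA_apply a u v).symm.trans (h v)

theorem bA_sy (a : GL ι F) : a * fgAct ι F (1, c2) a ∈ center (GL ι F) ↔ ∃ c : Fˣ, ∀ u v, bA a v u = c * bA a u v := by
  have h1 : ∀ u v, bA a v u = bA (fgAct ι F (1, c2) a)⁻¹ u v := fun u v => by
    rw [bA_apply, bA_apply, fgAct_c2]; exact matB_swap (s := (1 : RingAut F)) (fun _ => rfl) _ v u
  have h2 := fun c => pol_iff (1 : RingAut F) a (fgAct ι F (1, c2) a)⁻¹ 1 c
  simp only [one_mul, map_one, inv_one, mul_one, Units.val_one, one_mulVec, ← bA_apply] at h2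
  rw [mem_center_iff_scalar]
  refine exists_congr fun c => ?_
  rw [← mul_inv_eq_iff_eq_mul, h2]
  simp only [← h1]

theorem rf_bA [Nonempty ι] {a : GL ι F} : a * fgAct ι F (1, c2) a ∈ center (GL ι F) ↔ Rf (bA a) := by
  rw [bA_sy]
  refine ⟨fun ⟨c, hc⟩ => rf_of (bA_nd a) hc, fun h => ?_⟩
  obtain ⟨ε, h1, h2⟩ := h.exists_eps
  exact ⟨Units.mk0 ε (by rcases h1 with rfl | rfl <;> simp), h2⟩

theorem exists_bA {B : Bil F ι} (h : ∀ u, (∀ v, B u v = 0) → u = 0) : ∃ a, bA a = B := by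
  have h1 : (LinearMap.BilinForm.toMatrix' B).det ≠ 0 := by
    rw [Ne, ← exists_vecMul_eq_zero_iff]
    rintro ⟨u, hu, H⟩
    refine hu (h u fun v => ?_)
    rw [← Matrix.toBilin'_toMatrix' B, toBilin'_apply', dotProduct_mulVec, H, zero_dotProduct]
  exact ⟨(GeneralLinearGroup.mkOfDetNeZero _ h1)⁻¹, by rw [bA, inv_inv]; exact Matrix.toBilin'_toMatrix' B⟩

variable {n : ℕ} [Finite F]

theorem Ph_mk (a : GL (Fin n) F) (t : RingAut F × C2) : Ph (⟨a, t⟩ : GT n F) = Ph (inl a) * Ph (inr t) := by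
  rw [← map_mul, mk_eq_inl_mul_inr]

theorem Ph_conj_iff (hn : 2 ≤ n) (σ : RingAut F) (a a' g : GL (Fin n) F) :
    Ph ⟨a', (σ, c2)⟩ = Ph (inl g) * Ph (⟨a, (σ, c2)⟩ : GT n F) * (Ph (inl g))⁻¹ ↔ ∃ c : Fˣ,
      ∀ u v, matB (σ : F →+* F) (a'⁻¹).1 (g.1 *ᵥ u) (g.1 *ᵥ v) = c * matB (σ : F →+* F) (a⁻¹).1 u v := by
  have h1 : (inl g * ⟨a, (σ, c2)⟩ * (inl g)⁻¹ : GT n F) = ⟨g * a * (fgAct _ F (σ, c2) g)⁻¹, (σ, c2)⟩ := by
    ext <;> simp
  rw [← map_inv, ← map_mul, ← map_mul, h1, Ph_mk, Ph_mk (g * _ * _), mul_left_inj, Ph_inl_eq_iff hn,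
    inv_mul_mem_center]
  simp only [pol_iff]

theorem Ph_comm_iff (hn : 2 ≤ n) (σ : RingAut F) (a g : GL (Fin n) F) :
    Commute (Ph (⟨a, (σ, c2)⟩ : GT n F)) (Ph (inl g)) ↔ ∃ c : Fˣ,
      ∀ u v, matB (σ : F →+* F) (a⁻¹).1 (g.1 *ᵥ u) (g.1 *ᵥ v) = c * matB (σ : F →+* F) (a⁻¹).1 u v := by
  rw [← Ph_conj_iff hn, eq_mul_inv_iff_mul_eq]; rfl

theorem Ph_sq (hn : 2 ≤ n) {σ : RingAut F} (hσ : σ ^ 2 = 1) (a : GL (Fin n) F) :
    Ph (⟨a, (σ, c2)⟩ : GT n F) ^ 2 = 1 ↔ a * fgAct _ F (σ, c2) a ∈ center (GL (Fin n) F) := by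
  have h1 : (⟨a, (σ, c2)⟩ : GT n F) ^ 2 = inl (a * fgAct _ F (σ, c2) a) := by
    rw [sq] at hσ ⊢; ext <;> simp [hσ, c2_mul_c2]
  rw [← map_pow, h1, Ph_inl_eq_one hn]

variable (n F) in
/-- the action of the semilinear group -/
noncomputable def PhG : (⊤ : Subgroup (GS (Fin n) F)) →* MulAut (ProjectiveSpecialLinearGroup (Fin n) F) :=
  Ph.comp ((SemidirectProduct.map (MonoidHom.id _) (MonoidHom.inl _ _) fun σ => by
    ext1 g; simp [fgAct_one, fldAct_apply]).comp (Subgroup.subtype _))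

theorem PhG_apply (y : (⊤ : Subgroup (GS (Fin n) F))) : PhG F n y = Ph ⟨y.1.left, (y.1.right, 1)⟩ := rfl

theorem rp_PhG (hn : 2 ≤ n) : Rp (PhG F n) := fun y => by
  rw [PhG_apply, ← MonoidHom.mem_ker, mem_ker_iff hn (.inl rfl), mem_ZG, mem_ZG]
  simp

theorem mem_range_PhG {y : GT n F} (h : y.right.2 = 1) : Ph y ∈ (PhG F n).range :=
  ⟨⟨⟨y.left, y.right.1⟩, trivial⟩, by rw [PhG_apply, ← h]⟩

theorem right_pow (hn : 2 ≤ n) {y : GT n F} (hy : y.right.2 = 1 ∨ 3 ≤ n) {m : ℕ} (h : Ph y ^ m = 1) :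
    y.right ^ m = 1 := by
  rw [← map_pow, ← MonoidHom.mem_ker, mem_ker_iff hn (hy.imp_left fun h => by
    rw [← rightHom_eq_right, map_pow, Prod.pow_snd, rightHom_eq_right, h, one_pow]), mem_ZG] at h
  rw [← rightHom_eq_right, ← map_pow]; exact h.1

theorem inn_of_det (hn : 2 ≤ n) {g : GL (Fin n) F} (h : GeneralLinearGroup.det g = 1) :
    Ph (inl g : GT n F) ∈ Cfsg.Inn (ProjectiveSpecialLinearGroup (Fin n) F) :=
  (Ph_inl_mem_inn hn).2 (h ▸ one_mem _)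

theorem exists_of_inn {β : MulAut (ProjectiveSpecialLinearGroup (Fin n) F)} (h : β ∈ Cfsg.Inn _) :
    ∃ g, β = Ph (inl g : GT n F) := mem_inndiag_iff.1 (inndiag_eq (F := F) (n := n) ▸ inn_le_inndiag h)

variable {O : Subgroup (MulAut (ProjectiveSpecialLinearGroup (Fin n) F))}

theorem bal_pol_PSL (hn : 3 ≤ n) (h2 : (2 : F) ≠ 0) {σ : RingAut F} {a : GL (Fin n) F} {f : Form k (Fin n → F)}
    (hk : Std k) (hf : f.Nondeg) {e : Fin n → F} (he : f.Q e = 0) (he0 : e ≠ 0) {l : F} (hl : l ≠ 0)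
    (hB : ∀ u v, f.B u v = l * matB (σ : F →+* F) (a⁻¹).1 u v) (hP : f.Prim ∨ finrank F (Fin n → F) = 4)
    (hO : Cand 2 (Ph (⟨a, (σ, c2)⟩ : GT n F)) O) : O = ⊥ := by
  haveI : Nonempty (Fin n) := ⟨⟨0, by omega⟩⟩
  have hn' : 2 ≤ n := by omega
  refine (rp_PhG hn').bal_pol hk hf (by simpa using hn) he he0 (fun _ => trivial) (ringChar_ne_two_iff.2 h2).symm hO
    (fun t ht => ⟨inn_of_det hn' ((det_toGL t).trans (mem_SIsom.1 (f.Eich_le_SIsom ht))),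
      (Ph_comm_iff hn' σ a (toGL f t)).2 ⟨1, fun u v => mul_left_cancel₀ hl ?_⟩⟩) (fun β hβ hc => ?_) (fun β hβ => ?_) hP
  · rw [← hB, toGL_mulVec, toGL_mulVec, B_coe_map, hB, Units.val_one, one_mul]
  · obtain ⟨g, rfl⟩ := exists_of_inn hβ
    obtain ⟨c, hc⟩ := (Ph_comm_iff hn' σ a g).1 hc
    exact ⟨g, ⟨c, ss_of_B hk h2 c.ne_zero fun u v => by
      rw [sactE_inl, sactE_inl, hB, hc, hB]; exact mul_left_comm _ _ _⟩, trivial, rfl⟩
  · obtain ⟨y, rfl⟩ := Ph_surjective hn' β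
    refine mem_range_PhG ((c2_cases _).resolve_right fun H => ?_)
    have h3 := congrArg Prod.snd (right_pow hn' (.inr hn) (pow_orderOf_eq_one (Ph y)))
    obtain ⟨m, hm⟩ := (Nat.coprime_two_left.1 (coprime_of_mem hO.cop hβ))
    rw [Prod.pow_snd, H, hm, pow_succ, pow_mul, sq, c2_mul_c2, one_pow, one_mul] at h3
    exact c2_ne_one h3

theorem bal_graph (hn : 3 ≤ n) (h2 : (2 : F) ≠ 0) {σ : RingAut F} {a : GL (Fin n) F}
    (ho : Ph (⟨a, (σ, c2)⟩ : GT n F) ^ 2 = 1) (hO : Cand 2 (Ph (⟨a, (σ, c2)⟩ : GT n F)) O) : O = ⊥ := by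
  haveI : Nonempty (Fin n) := ⟨⟨0, by omega⟩⟩
  have hσ : σ ^ 2 = 1 := congrArg Prod.fst (right_pow (by omega) (.inr hn) ho)
  rw [Ph_sq (by omega) hσ] at ho
  have h3 : 3 ≤ finrank F (Fin n → F) := by simpa using hn
  by_cases h1 : σ = 1
  · subst h1
    obtain ⟨k, f, hk, hf, hB⟩ := (rf_bA.1 ho).exists_form h2
    obtain ⟨hP, e, he0, he⟩ := prim_or hk hf h3
    exact bal_pol_PSL hn h2 (hk.imp_right .inl) hf he he0 one_ne_zero
      (fun u v => by rw [hB, bA_apply, one_mul]) hP hO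
  obtain ⟨g, c, hc⟩ := lang_herm (by omega) (orderOf_eq_prime hσ h1) a ho
  have hs : ∀ x, (σ : F →+* F) ((σ : F →+* F) x) = x := fun x => congrArg (fun τ : RingAut F => τ x) (sq σ ▸ hσ)
  have hne : (σ : F →+* F) ≠ RingHom.id F := fun h => h1 (RingEquiv.ext (RingHom.congr_fun h))
  have h4 : ((sc _ c * a)⁻¹).1 = ((g⁻¹).1.map (σ : F →+* F))ᵀ * (g⁻¹).1 := by
    rw [hc, _root_.mul_inv_rev, inv_inv, fgAct_c2]; rfl
  have hN : (((sc _ c * a)⁻¹).1.map (σ : F →+* F))ᵀ = ((sc _ c * a)⁻¹).1 := by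
    rw [h4, Matrix.map_mul, transpose_mul, transpose_map, transpose_transpose, Matrix.map_map,
      show (σ : F →+* F) ∘ (σ : F →+* F) = id from funext hs, Matrix.map_id]
  obtain ⟨e, -, he0, he⟩ := (hermMat hs hne _ hN).herm_exists_singular hne (W := ⊤) (by rw [finrank_top]; omega)
  refine bal_pol_PSL hn h2 (.inr (.inr ⟨_, hs, hne, rfl⟩)) (fun u hu => matB_nondeg _ _ hu) he he0 (c⁻¹).ne_zero
    (fun u v => ?_) (.inl (herm_prim hne _)) hO
  rw [← matB_smul, ← coe_scalar_mul, ← gl_scalar_comm c⁻¹, map_inv, ← _root_.mul_inv_rev]; rfl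

theorem fgAct_gm {F₀ : Type*} [Field F₀] {i : F₀ →+* F} {τ : RingAut F} {τ₀ : RingAut F₀} (h : ∀ a, τ (i a) = i (τ₀ a))
    (ε : C2) (g : GL ι F₀) : fgAct ι F (τ, ε) (gm i g) = gm i (fgAct ι F₀ (τ₀, ε) g) := by
  rcases c2_cases ε with rfl | rfl
  · rw [fgAct_one, fgAct_one]; exact Units.ext (Matrix.ext fun _ _ => h _)
  · rw [fgAct_c2, fgAct_c2]; exact Units.ext (Matrix.ext fun _ _ => h _)

theorem Ph_sc_mul (hn : 2 ≤ n) (c : Fˣ) (g : GL (Fin n) F) (t : RingAut F × C2) :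
    Ph (⟨sc _ c * g, t⟩ : GT n F) = Ph ⟨g, t⟩ := by
  rw [Ph_mk, map_mul, map_mul, (Ph_inl_eq_one hn).2 (scalar_mem_center c), one_mul, ← Ph_mk]

variable {F₀ : Type*} [Field F₀] [Finite F₀] {i : F₀ →+* F}

omit [Finite F₀] in
theorem descend_PSL (hn : 2 ≤ n) {σ : RingAut F} (hi : ∀ a, (∃ c, i c = a) ↔ σ a = a) {y : GT n F}
    (hc : Commute (Ph (inr (σ, 1) : GT n F)) (Ph y)) : ∃ g, Ph y = Ph ⟨gm i g, y.right⟩ := by
  haveI : Nonempty (Fin n) := ⟨⟨0, by omega⟩⟩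
  have h1 := commutatorElement_eq_one_iff_commute.2 hc.symm
  rw [← map_commutatorElement, commutatorElement_def, comm_inr y (Prod.ext (ringAut_comm _ _) (mul_comm _ _)),
    Ph_inl_eq_one hn, fgAct_one] at h1
  obtain ⟨d, hd⟩ := (fld_cent_iff σ y.left).mp (by
    simpa [mul_assoc] using aut_mem_center (MulAut.conj y.left⁻¹) (inv_mem h1))
  obtain ⟨g, hg⟩ := (mem_range_glMap _ hi).mpr hd
  exact ⟨g, by rw [hg, Ph_sc_mul hn]⟩

theorem exists_p_SL (hn : 3 ≤ n) {p : ℕ} [hp : Fact p.Prime]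
    {g : GL (Fin n) F₀} (hg : orderOf (Ph (inl (gm i g) : GT n F)) = p) : ∃ s : SpecialLinearGroup (Fin n) F₀,
      orderOf (Ph (inl (gm i (SpecialLinearGroup.toGL s)) : GT n F)) = p := by
  by_cases h : p ∣ Nat.card F₀ˣ
  · obtain ⟨l, hl⟩ := exists_prime_orderOf_dvd_card' p h
    obtain ⟨m, rfl⟩ : ∃ m, n = m + 3 := ⟨n - 3, by omega⟩
    let d : Fin (m + 3) → F₀ := Fin.cons l (Fin.cons (l⁻¹ : F₀ˣ) fun _ => 1)
    let s : SpecialLinearGroup (Fin (m + 3)) F₀ := ⟨diagonal d, by simp [d, Fin.prod_univ_succ]⟩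
    have h1 : (l : F₀) ^ p = 1 := by rw [← Units.val_pow_eq_pow_val, ← hl, pow_orderOf_eq_one, Units.val_one]
    have h2 : s ^ p = 1 := Subtype.ext (by
      refine (Matrix.SpecialLinearGroup.coe_pow s p).trans ((diagonal_pow _ _).trans
        ((congrArg diagonal (funext fun j => ?_)).trans diagonal_one))
      refine Fin.cases ?_ (fun j => Fin.cases ?_ (fun j => ?_) j) j <;> simp [d, h1])
    refine ⟨s, orderOf_eq_prime (by simp only [← map_pow, h2, map_one]) fun H => ?_⟩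
    obtain ⟨c, hc⟩ := mem_center_iff_scalar.1 ((glMap_mem_center i _).1 ((Ph_inl_eq_one (by omega)).1 H))
    have h3 : ∀ j, (c : F₀) = d j := fun j => by
      have : (sc _ c).1 j j = diagonal d j j := congrArg (fun g : GL (Fin (m + 3)) F₀ => g.1 j j) hc
      simpa using this
    have h4 : (l : F₀) = 1 := (h3 0).symm.trans (h3 (Fin.succ (Fin.succ 0)))
    rw [Units.val_eq_one.1 h4, orderOf_one] at hl
    exact hp.1.one_lt.ne hl
  · have h1 : (g ^ Nat.card F₀ˣ).1.det = 1 := by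
      have := congrArg Units.val ((map_pow GeneralLinearGroup.det g _).trans pow_card_eq_one')
      exact this
    refine ⟨⟨_, h1⟩, ?_⟩
    rw [show SpecialLinearGroup.toGL ⟨_, h1⟩ = g ^ Nat.card F₀ˣ from Units.ext rfl, map_pow, map_pow, map_pow,
      Nat.Coprime.orderOf_pow (hg ▸ (hp.1.coprime_iff_not_dvd.2 h)), hg]

theorem bal_fld_three (hn : 3 ≤ n) {σ : RingAut F} (hi : ∀ a, (∃ c, i c = a) ↔ σ a = a) {p : ℕ} [hp : Fact p.Prime] (hσ : orderOf σ = p)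
    (hO : Cand p (Ph (inr (σ, 1) : GT n F)) O) {β : MulAut (ProjectiveSpecialLinearGroup (Fin n) F)}
    (hβ : β ∈ Cfsg.Inn _) (hc : Commute (Ph (inr (σ, 1) : GT n F)) β) (ho : orderOf β = p) : O = ⊥ := by
  have hn' : 2 ≤ n := by omega
  obtain ⟨κ, hκ⟩ : ∃ κ : SpecialLinearGroup (Fin n) F₀ →* _,
      ∀ s, κ s = Ph (inl (gm i (SpecialLinearGroup.toGL s)) : GT n F) :=
    ⟨(Ph : GT n F →* _).comp (inl.comp ((gm i).comp SpecialLinearGroup.toGL)), fun _ => rfl⟩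
  have h1 : ∀ s, κ s ∈ normalizer (O : Set _) := fun s => hκ s ▸ hO.norm _ (inn_of_det hn' (by
    rw [det_glMap, Units.ext_iff]; simp)) (Commute.map (by
      rw [← commutatorElement_eq_one_iff_commute, ← inv_eq_one, commutatorElement_inv, commutatorElement_def,
        comm_inr _ (by simp), fgAct_one, left_inl, fldGL_gm (fun a => (hi _).1 ⟨a, rfl⟩), mul_inv_cancel, map_one]) Ph)
  haveI : (O.comap κ).Normal := ⟨fun s hs t => by
    rw [mem_comap, map_mul, map_mul, map_inv]; exact (mem_normalizer_iff.1 (h1 t) _).1 hs⟩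
  rcases CA.SLnGen.normal_le_center_or_eq_top (.inl (by simpa using hn)) (O.comap κ) with h | h
  swap
  · obtain ⟨g, rfl⟩ := exists_of_inn hβ
    obtain ⟨g₀, hg⟩ := descend_PSL hn' hi hc
    obtain ⟨s, hs⟩ := exists_p_SL (i := i) (g := g₀) hn ((congrArg orderOf hg.symm).trans ho)
    have := coprime_of_mem hO.cop (show κ s ∈ O from (h ▸ mem_top s : s ∈ O.comap κ))
    rw [hκ, hs, Nat.coprime_self] at this
    exact absurd this hp.1.one_lt.ne'
  refine eq_bot_iff.2 fun γ hγ => ?_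
  obtain ⟨y, rfl⟩ := Ph_surjective hn' γ
  obtain ⟨g, hg⟩ := descend_PSL hn' hi (hO.le _ hγ)
  obtain ⟨τ, hτ⟩ := exists_aut_down i y.right.1
  have h2 : (⟨g, (τ, y.right.2)⟩ : GT n F₀) ∈ ZG _ := (mem_ker_iff hn' (.inr hn)).1 (by
    refine MulEquiv.ext fun z => ?_
    obtain ⟨s, rfl⟩ := QuotientGroup.mk_surjective z
    have h3 : GeneralLinearGroup.det (g * fgAct _ _ (τ, y.right.2) (SpecialLinearGroup.toGL s) * g⁻¹) = 1 := by
      rw [map_mul, map_mul, det_fgAct _ (Units.ext (by simp))]; simp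
    let s' : SpecialLinearGroup (Fin n) F₀ := ⟨_, congrArg Units.val h3⟩
    have h4 : Ph y * κ s * (Ph y)⁻¹ = κ s' := by
      rw [hg, hκ, hκ, ← map_inv, ← map_mul, ← map_mul, conj_inl, show SpecialLinearGroup.toGL s' =
        g * fgAct _ _ (τ, y.right.2) (SpecialLinearGroup.toGL s) * g⁻¹ from Units.ext rfl,
        map_mul (gm i), map_mul (gm i), map_inv (gm i), ← fgAct_gm hτ]
    refine ((ind_iff' _ _).2 rfl s s' rfl).trans (QuotientGroup.eq.2 ?_).symm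
    have h5 := h (show s' * s⁻¹ ∈ O.comap κ by rw [mem_comap, map_mul, map_inv, ← h4]; exact comm_mem hγ (h1 s))
    simpa [mul_assoc] using aut_mem_center (MulAut.conj s⁻¹) h5)
  obtain ⟨h3, h4⟩ := mem_ZG.1 h2
  obtain ⟨rfl, h5⟩ := Prod.ext_iff.1 h3
  refine mem_bot.2 (mem_bot.1 (mem_of_pow_mem (coprime_of_mem hO.cop hγ) (mem_bot.2 ?_)))
  rw [hg, Ph_mk, (Ph_inl_eq_one hn').2 ((glMap_mem_center i g).2 h4), one_mul, ← map_pow, ← map_pow,
    show y.right ^ p = 1 from Prod.ext (hσ ▸ pow_eq_one_of_fix fun a ha => by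
      obtain ⟨a, rfl⟩ := (hi a).2 ha; exact hτ a)
      (by rw [Prod.pow_snd, show y.right.2 = 1 from h5, one_pow]; rfl), map_one, map_one]

theorem bal_fld_two {O : Subgroup (MulAut (ProjectiveSpecialLinearGroup (Fin 2) F))} {σ : RingAut F} {p : ℕ}
    [hp : Fact p.Prime] (hpr : p ≠ ringChar F) (hσ : orderOf σ = p)
    (hO : Cand p (Ph (inr (σ, 1) : GT 2 F)) O) {β : MulAut (ProjectiveSpecialLinearGroup (Fin 2) F)}
    (hβ : β ∈ Cfsg.Inn _) (hc : Commute (Ph (inr (σ, 1) : GT 2 F)) β) (ho : orderOf β = p) : O = ⊥ := by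
  let f₀ := ofAlt (Matrix.toBilin' !![0, 1; -1, (0 : fixF σ)]) fun u => by
    simp [toBilin'_apply, Fin.sum_univ_two, mul_comm]
  have hB : ∀ u v, f₀.B u v = u 0 * v 1 - u 1 * v 0 := fun u v => by
    show Matrix.toBilin' _ u v = _
    simp [toBilin'_apply, Fin.sum_univ_two]; ring
  have hf : f₀.Nondeg := fun u hu => by
    have h1 := hu ![0, 1]
    have h2 := hu ![1, 0]
    simp [hB] at h1 h2
    ext j; fin_cases j <;> simp [h1, h2]
  have hS : ∀ g, g ∈ Sim f₀ := fun g => ⟨g.1.det, semiSim_symp (sactE_smul _) (GeneralLinearGroup.det_ne_zero g) fun u v => by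
    simp [sactE_inl, hB, mulVec, dotProduct, Fin.sum_univ_two, det_fin_two]; ring⟩
  have h1 : ∀ g, cjm (fixF σ).subtype (1 : GL (Fin 2) F) g = gm (fixF σ).subtype g := fun g => by simp [cjm_apply]
  refine (rp_PhG le_rfl).bal_fld (x := ⟨inr σ, trivial⟩) (i := (fixF σ).subtype) (b := 1) ⟨⟨1, by simp⟩, fixF_range σ⟩
    (.inl rfl) hf (.inr fun _ => rfl) (symp_Q _ _) (e := ![1, 0]) (by simp) (fun _ => trivial) hpr hσ hO
    (fun t ht => inn_of_det le_rfl ?_) (fun γ hγ => ?_) (fun γ _ _ => ?_) ?_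
  · show GeneralLinearGroup.det (cjm _ 1 (toGL f₀ t)) = 1
    rw [h1, det_glMap, det_toGL, mem_SIsom.1 (f₀.Eich_le_SIsom ht), map_one]
  · obtain ⟨g, rfl⟩ := exists_of_inn hγ
    exact ⟨g, trivial, rfl, fun _ _ _ => hS _⟩
  · obtain ⟨y, rfl, hy⟩ := exists_Ph le_rfl γ
    exact mem_range_PhG (hy rfl)
  by_cases h2 : p = 2
  · exact .inr ⟨h2, .inl (symp_prim _)⟩
  obtain ⟨g, rfl⟩ := exists_of_inn hβ
  obtain ⟨g₀, hg⟩ := descend_PSL le_rfl (fixF_range σ) hc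
  obtain ⟨c, t, ht, H⟩ := exists_pow_symp hf (hS g₀)
  refine .inl ⟨symp_prim _, t, ht, ?_⟩
  have h3 : Ph (inl g : GT 2 F) ^ 2 = Ph (inl (cjm (fixF σ).subtype 1 (toGL f₀ t))) := by
    rw [hg, h1]
    show Ph (inl (gm _ g₀) : GT 2 F) ^ 2 = _
    rw [← map_pow, ← map_pow, ← map_pow, H, map_mul, glMap_scalar]; exact Ph_sc_mul le_rfl _ _ 1
  have h4 := Nat.Coprime.orderOf_pow (y := Ph (inl g : GT 2 F)) (m := 2) (ho ▸ coprime_two_pow h2 1)
  rw [h3, ho] at h4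
  exact h4.symm.dvd

end CA.AutForm
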