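import Cfsg.Agent.Lib.Lin.AutGr2

/-!
Local balance for graph involutions of orthogonal groups.
-/

set_option autoImplicit false

namespace CA.AutForm

open Subgroup CA.AutCorr CA.CForm CA.CForm.Form Module CA.AutPhi CA.AutGam
  CA.AutFld CA.AutLang CA.AutOut SemidirectProduct Matrix

variable {F : Type*} [Field F] {k : Kind F} {ι : Type} [Fintype ι] [DecidableEq ι]

local notation "sc" => GeneralLinearGroup.scalar

theorem Emb.exists_equiv [Finite F] {f₁ f₂ : Form k (ι → F)} {S₁ S₂ : Type*} [Group S₁] [Group S₂]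
    {j₁ : S₁ →* GL ι F} {j₂ : S₂ →* GL ι F} (h₁ : Emb f₁ j₁) (h₂ : Emb f₂ j₂) {y : GS ι F} {μ : F}
    (hy : SS f₁ f₂ y μ) : ∃ ψ : S₁ ⧸ center S₁ ≃* S₂ ⧸ center S₂, ∀ x : Gam f₁,
      (ψ.symm.trans (h₁.Ph x)).trans ψ = h₂.Ph ⟨_, hy.conj_mem x.2⟩ := by
  have e := fun (z : GS ι F) g => (conj_inl z g).symm
  simp only [fldAct_apply] at e
  let θ : MulAut (GL ι F) := MulAut.conj y.left * fldGL y.right
  have H : j₁.range.map θ.toMonoidHom = j₂.range := le_antisymm (by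
    rintro _ ⟨_, ⟨s, rfl⟩, rfl⟩; exact h₁.exists_conj h₂ hy s) (by
    rintro _ ⟨s, rfl⟩
    obtain ⟨s', hs'⟩ := h₂.exists_conj h₁ hy.inv s
    refine ⟨_, ⟨s', rfl⟩, inl_injective (φ := fldAct ι F) ((e y _).trans ?_)⟩
    rw [hs', e]; group)
  let ε : S₁ ≃* S₂ := (MonoidHom.ofInjective h₁.inj).trans ((θ.subgroupMap _).trans
    ((MulEquiv.subgroupCongr H).trans (MonoidHom.ofInjective h₂.inj).symm))
  have hε : ∀ s, j₂ (ε s) = y.left * fldGL y.right (j₁ s) * y.left⁻¹ := fun s =>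
    congrArg Subtype.val ((MonoidHom.ofInjective h₂.inj).apply_symm_apply _)
  let ψ := QuotientGroup.congr (center S₁) (center S₂) ε (le_antisymm (by
    rintro _ ⟨s, hs, rfl⟩; exact (centerCongr ε ⟨s, hs⟩).2) fun s hs =>
      ⟨_, (centerCongr ε.symm ⟨s, hs⟩).2, ε.apply_symm_apply s⟩)
  have key : ∀ s s', j₂ s' = y.left * fldGL y.right (j₁ s) * y.left⁻¹ →
      ψ (QuotientGroup.mk s) = QuotientGroup.mk s' := fun s s' h => by
    rw [h₂.inj (h.trans (hε s).symm)]; rfl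
  refine ⟨ψ, fun x => MulEquiv.ext fun z => ?_⟩
  obtain ⟨z, rfl⟩ := ψ.surjective z
  obtain ⟨s, rfl⟩ := QuotientGroup.mk_surjective z
  obtain ⟨ν, hx⟩ := x.2
  obtain ⟨s₁, h1⟩ := h₁.exists_conj h₁ hx s
  rw [MulEquiv.trans_apply, MulEquiv.trans_apply, ψ.symm_apply_apply, h₁.Ph_mk x h1, key _ _ (hε _),
    key _ _ (hε _)]
  refine (h₂.Ph_mk _ (inl_injective (φ := fldAct ι F) ?_)).symm
  rw [e, hε, hε, e, e, h1, e]
  group

theorem eq_bot_of_set {K : Type*} [Group K] {O : Subgroup (MulAut K)} (L : Set (MulAut K))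
    (h1 : ∀ l ∈ L, l ∈ Cfsg.Inn K ∧ l ∈ normalizer (O : Set (MulAut K)))
    (h2 : ∀ β ∈ O, β ∈ Cfsg.Inn K → ∀ l ∈ L, Commute β l) (h3 : ∀ β ∈ O, (∀ l ∈ L, Commute β l) → β = 1) :
    O = ⊥ := eq_bot_iff.2 fun β hβ => h3 β hβ fun l hl =>
  commute_of_inf_eq_bot (fun γ hγ hI => h3 γ hγ (h2 γ hγ hI)) hβ (h1 l hl).2 (h1 l hl).1

theorem prim_orth [Finite F] {V : Type*} [AddCommGroup V] [Module F V] [FiniteDimensional F V]
    {f : Form (Kind.orth F) V} (hf : f.Nondeg) (h3 : 3 ≤ finrank F V) : f.Prim ∨ finrank F V = 4 := by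
  obtain ⟨e, h0, he⟩ := f.exists_singular' h3
  by_cases h : finrank F V = 3
  · exact .inl (.inr (.inr ⟨h3, hf.isIndex_of_two_mul (ts_span_singleton he) (finrank_span_singleton h0) h.le⟩))
  · exact (by omega : 5 ≤ finrank F V ∨ _).imp_left fun h => .inr (.inl h)

theorem comm_of_odd [Nonempty ι] {y : GS ι F} {g : GL ι F} (hc : y * inl g * y⁻¹ * (inl g)⁻¹ ∈ ZG (fldAct ι F))
    {l : Fˣ} (hg : g * g = sc ι l) (hl : y.right l = l) {n : ℕ} (hn : Odd n) (hy : y ^ n ∈ ZG (fldAct ι F)) :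
    Commute y (inl g) := by
  have hs : ∀ c : Fˣ, y.right c = c → Commute y (inl (sc ι c)) := fun c h => by
    rw [commute_iff_eq, ← mul_inv_eq_iff_eq_mul, conj_inl, fldAct_apply, fldGL_scalar, gl_scalar_comm, mul_inv_cancel_right,
      show Units.map y.right.toMonoidHom c = c from Units.ext h]
  obtain ⟨_, hc, H⟩ := hc
  obtain ⟨c, rfl⟩ := mem_center_iff_scalar.1 hc
  rw [eq_mul_inv_iff_mul_eq, ← map_mul] at H
  have h1 : c * c = 1 := scalar_injective (ι := ι) (mul_right_cancel (b := sc ι l) (inl_injective (φ := fldAct ι F) (by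
    have h2 := (hs l hl).eq
    rw [← mul_inv_eq_iff_eq_mul, ← hg, map_mul, ← conj_mul, ← H, ← map_mul] at h2
    rw [map_one, one_mul, ← hg, map_mul inl g g, ← h2, map_mul (sc ι), mul_assoc, mul_assoc, ← mul_assoc g, gl_scalar_comm,
      mul_assoc])))
  have h2 := hs c (by
    rcases mul_self_eq_one_iff.1 (congrArg Units.val h1) with h | h <;> simp [h])
  have h3 : Commute (y ^ 2) (inl g) := by
    rw [commute_iff_eq, ← mul_inv_eq_iff_eq_mul, show y ^ 2 * inl g * (y ^ 2)⁻¹ = y * (y * inl g * y⁻¹) * y⁻¹ by rw [sq]; group,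
      ← H, map_mul, ← mul_assoc, h2.eq, mul_assoc, mul_assoc, ← mul_assoc y, ← H, ← map_mul, ← mul_assoc, ← map_mul, h1,
      map_one, one_mul]
  obtain ⟨m, rfl⟩ := hn
  obtain ⟨z, hz, h4⟩ := hy
  have h5 : Commute (y ^ (2 * m + 1)) (inl g) := h4 ▸ (show Commute z g from (mem_center_iff.1 hz g).symm).map inl
  simpa [pow_succ, pow_mul] using (h3.pow_left m).inv_left.mul_left h5

variable {f : Form (Kind.orth F) (ι → F)} {g : GL ι F}

theorem sq_mem_ZG [Nonempty ι] (hf : f.Nondeg) (hg : ∀ u v, f.B (g.1 *ᵥ u) v = f.B u (g.1 *ᵥ v)) {y : GS ι F}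
    (hy : y ∈ Gam f) {a b : F} (h : ∀ v, sact y v = a • v + b • g.1 *ᵥ v) : y ^ 2 ∈ ZG (fldAct ι F) := by
  obtain ⟨μ, hy⟩ := hy
  have h1 : y.right = 1 := RingEquiv.ext fun t => by
    obtain ⟨j⟩ := ‹Nonempty ι›
    have h2 := sact_smul y t (Pi.single j 1)
    rw [h, mulVec_smul, smul_comm a, smul_comm b, ← smul_add, ← h] at h2
    exact (smul_left_injective F (fun H => by simpa using sact_injective y (H.trans (map_zero _).symm)) h2).symm
  refine mem_ZG_of_smul (d := μ) fun u => sub_eq_zero.1 (hf _ fun v => ?_)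
  have h2 : f.B (sact y u) (sact y v) = μ * f.B u v := (hy.B u v).trans (by rw [h1]; rfl)
  rw [B_sub_left, B_smul_left, Kind.orth_σ, ← h2, sq, sact_mul, h (sact y u), h v]
  simp [hg]

section comp
variable {K W : Type*} [Field K] [AddCommGroup W] [Module K W] {f₀ : Form (Kind.orth K) W} {T : f₀.Isom →* f.Isom}
  {u : W →+ ι → F}

variable (g T u) in
/-- an orthogonal group centralising `g` -/
structure Comp : Prop where
  nd : f₀.Nondeg
  three : 3 ≤ finrank K W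
  char : ringChar K = ringChar F
  inj : Function.Injective u
  app : ∀ a w, (T a).1 (u w) = u (a.1 w)
  comm : ∀ a, Commute g (toGL f (T a))
  scal : ∀ a, T a ∈ f.scalars → a ∈ f₀.scalars
  conj : ∀ h ∈ Sim f, Commute h g → ∀ t ∈ f₀.Eich, ∃ t' ∈ f₀.Eich, toGL f (T t') = h * toGL f (T t) * h⁻¹

variable [Finite F] [Finite K] [FiniteDimensional K W] {S : Type*} [Group S] {j₀ : S →* GL ι F} (E : Emb f j₀)

variable (T) in
/-- the action of the small orthogonal group -/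
noncomputable abbrev Emb.psi : f₀.Isom →* MulAut (S ⧸ center S) :=
  lft E.Ph ((toGL f).comp T) fun _ => toGL_mem_Sim _

variable (h : Comp g T u) (h2 : (2 : F) ≠ 0) {hg : g ∈ Sim f} {O : Subgroup (MulAut (S ⧸ center S))}
  (hO : Cand 2 (E.Ph ⟨inl g, hg⟩) O)
include h

include h2 hO in
theorem Comp.norm {t : f₀.Isom} (ht : t ∈ f₀.Eich) :
    E.psi T t ∈ Cfsg.Inn _ ∧ E.psi T t ∈ normalizer (O : Set (MulAut (S ⧸ center S))) := by
  have h1 : T t ∈ f.Eich := by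
    rw [← E.nice.nondeg.commutator_eq_Eich (f.good_of_two_ne_zero h2) E.nice.three]
    rw [← h.nd.commutator_eq_Eich (f₀.good_of_two_ne_zero (ringChar_ne_two_iff.1 (h.char ▸ ringChar_ne_two_iff.2 h2)))
      h.three] at ht
    exact commutator_mono le_top le_top (map_commutator ⊤ ⊤ T ▸ mem_map_of_mem T ht)
  have h3 : E.psi T t ∈ Cfsg.Inn _ := (E.Ph_mem_inn _).2 ⟨rfl, mem_sup_left (E.range ▸ mem_map_of_mem _ h1)⟩
  have h4 : Commute (⟨inl g, hg⟩ : Gam f) ⟨_, toGL_mem_Sim (T t)⟩ := Subtype.ext ((h.comm t).map inl).eq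
  exact ⟨h3, hO.norm _ h3 (h4.map E.Ph)⟩

include h2 hO in
theorem Comp.comm_of_mem {a : GL ι F} {ha : a ∈ Sim f} (hc : Commute a g) (hm : E.Ph ⟨inl a, ha⟩ ∈ O) :
    ∀ t ∈ f₀.Eich, Commute (E.Ph ⟨inl a, ha⟩) (E.psi T t) := by
  haveI := E.finite_K
  obtain ⟨e, he0, he⟩ := f₀.exists_singular' h.three
  exact comm_of_norm h.nd (h.char ▸ (ringChar_ne_two_iff.2 h2).symm) (.inl h.three) he he0 _ hO.cop
    (fun t ht => (h.norm E h2 hO ht).2) (.inr ⟨rfl, prim_orth h.nd h.three, fun t ht =>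
      h.scal t (toGL_mem_center.1 (inl_mem_ZG.1 ((E.rp _).1 ht)))⟩) hm (mem_norm_lft ha (h.conj a ha hc))

theorem Comp.scalar {y : Gam f} (hc : ∀ t ∈ f₀.Eich, Commute (E.Ph y) (E.psi T t)) (Φ : W →+ W)
    (hΦ : ∀ w, u (Φ w) = sact y.1 (u w)) : ∃ c : K, ∀ w, sact y.1 (u w) = u (c • w) := by
  obtain ⟨e, he0, he⟩ := f₀.exists_singular' h.three
  have h0 := E.rp.comm_Eich h.nd h.char hc
  obtain ⟨c, hc⟩ := scalar_of_comm_add h.nd (.inl h.three) he he0 Φ fun t ht w => h.inj (by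
    rw [hΦ, ← h.app, ← h.app, hΦ, ← toGL_mulVec, ← toGL_mulVec, ← sact_inl, ← sact_inl, ← sact_mul, ← sact_mul]
    exact congrArg (sact · (u w)) (h0 t ht).eq)
  exact ⟨c, fun w => by rw [← hΦ, hc]⟩

end comp

section sq
variable [Finite F] (hf : f.Nondeg) (h2 : (2 : F) ≠ 0) {a : f.Isom} (ha : a * a = 1)

omit [Finite F] in
include ha in
theorem invol_apply (v : ι → F) : a.1 (a.1 v) = v := congrArg (fun x : f.Isom => x.1 v) ha

omit [Finite F] in
include hf h2 ha in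
theorem mem_perp_fix {v : ι → F} : v ∈ f.perp (f.fixSub a) ↔ a.1 v = -v := by
  rw [hf.perp_fixSub, mem_commSub]
  refine ⟨by rintro ⟨u, rfl⟩; rw [map_sub, invol_apply ha, neg_sub], fun h => ⟨(-2⁻¹ : F) • v, ?_⟩⟩
  rw [map_smul, h, ← smul_sub, ← neg_add', ← two_smul F, smul_neg, smul_smul, neg_mul, inv_mul_cancel₀ h2, neg_smul,
    neg_neg, one_smul]

omit [Finite F] in
include hf h2 ha in
theorem compl_fix : IsCompl (f.fixSub a) (f.perp (f.fixSub a)) :=
  hf.isCompl_perp (Submodule.disjoint_def.2 fun v h1 h3 => by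
    rw [mem_perp_fix hf h2 ha, f.mem_fixSub.1 h1, eq_neg_iff_add_eq_zero, ← two_smul F] at h3
    exact (smul_eq_zero.1 h3).resolve_left h2)

omit [Finite F] in
theorem comm_apply {y : GS ι F} (hy : Commute y (inl (toGL f a))) (v : ι → F) : a.1 (sact y v) = sact y (a.1 v) := by
  rw [← toGL_mulVec, ← toGL_mulVec, ← sact_inl, ← sact_inl, ← sact_mul, ← sact_mul, hy.eq]

/-- restriction to the fixed space -/
def resW {y : GS ι F} (hy : Commute y (inl (toGL f a))) : f.fixSub a →+ f.fixSub a where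
  toFun w := ⟨sact y w, f.mem_fixSub.2 (by rw [comm_apply hy, f.mem_fixSub.1 w.2])⟩
  map_zero' := Subtype.ext (map_zero _)
  map_add' _ _ := Subtype.ext (map_add _ _ _)

theorem comp_fix (h3 : 3 ≤ finrank F (f.fixSub a)) (hg : ∀ h, Commute h g ↔ Commute h (toGL f a)) :
    Comp g (f.extLeft (compl_fix hf h2 ha)) (f.fixSub a).subtype.toAddMonoidHom := by
  have hW := compl_fix hf h2 ha
  refine ⟨(f.nondeg_restrict_iff _).2 hW.disjoint, h3, rfl, Subtype.val_injective, f.extLeft_apply_left hW,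
    fun t => ((hg _).2 (Commute.map (f.isom_ext_of_isCompl hW (fun v hv => ?_) fun v hv => ?_) (toGL f))).symm,
    fun t ⟨c, hc⟩ => ⟨c, fun w => Subtype.ext ((f.extLeft_apply_left hW t w).symm.trans (hc w))⟩,
    fun h ⟨μ, hh⟩ hc t ht => ?_⟩
  · show (f.extLeft hW t).1 (a.1 v) = a.1 ((f.extLeft hW t).1 v)
    rw [f.mem_fixSub.1 hv, f.extLeft_apply_left hW t ⟨v, hv⟩, f.mem_fixSub.1 (Subtype.prop _)]
  · show (f.extLeft hW t).1 (a.1 v) = a.1 ((f.extLeft hW t).1 v)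
    rw [f.extLeft_apply_right hW t hv, (mem_perp_fix hf h2 ha).1 hv, map_neg, f.extLeft_apply_right hW t hv]
  have hy : Commute (inl h : GS ι F) (inl (toGL f a)) := ((hg h).1 hc).map inl
  have hs : SemiSim (f.restrict (f.fixSub a)) (f.restrict (f.fixSub a)) (1 : RingAut F) μ
      (AddEquiv.ofBijective (resW hy) (Finite.injective_iff_bijective.1 fun u v H =>
        Subtype.ext (sact_injective _ (congrArg Subtype.val H)))) :=
    ⟨fun c v => Subtype.ext (hh.smul c v), hh.ne, fun u v => hh.B u v, fun v => hh.Q v⟩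
  refine ⟨_, hs.conj_mem_Eich stdO rfl ht, eq_mul_inv_of_mul_eq (gl_ext fun v => ?_)⟩
  obtain ⟨x, hx, z, hz, rfl⟩ := Submodule.mem_sup.1 (hW.sup_eq_top ▸ Submodule.mem_top (x := v))
  have h4 : h.1 *ᵥ z ∈ f.perp (f.fixSub a) := (mem_perp_fix hf h2 ha).2 (by
    rw [← sact_inl, comm_apply hy, (mem_perp_fix hf h2 ha).1 hz, map_neg])
  rw [Units.val_mul, Units.val_mul, ← mulVec_mulVec, ← mulVec_mulVec, toGL_mulVec, toGL_mulVec, mulVec_add, map_add,
    map_add, mulVec_add, f.extLeft_apply_right hW _ hz, f.extLeft_apply_right hW _ h4, f.extLeft_apply_left hW _ ⟨x, hx⟩,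
    add_left_inj]
  exact (f.extLeft_apply_left hW _ (resW hy ⟨x, hx⟩)).trans (congrArg Subtype.val (hs.conj_apply t ⟨x, hx⟩))

end sq

variable [Finite F] {S : Type*} [Group S] {j₀ : S →* GL ι F} (E : Emb f j₀) (h2 : (2 : F) ≠ 0)
  {O : Subgroup (MulAut (S ⧸ center S))}

theorem Emb.comm_of_mem {hg : g ∈ Sim f} (hO : Cand 2 (E.Ph ⟨inl g, hg⟩) O) {l : Fˣ} (hl : g * g = sc ι l) {y : Gam f}
    (hy : E.Ph y ∈ O) (h : y.1.right l = l) : Commute y.1 (inl g) :=
  haveI := E.nonempty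
  comm_of_odd ((E.rp.comm_iff y ⟨inl g, hg⟩).1 (hO.le _ hy).symm) hl h
    (Nat.coprime_two_left.1 (coprime_of_mem hO.cop hy)) ((E.Ph_pow_eq_one_iff y _).1 (pow_orderOf_eq_one _))

theorem Emb.exists_of_inn {β : MulAut (S ⧸ center S)} (h : β ∈ Cfsg.Inn _) : ∃ a ha, β = E.Ph ⟨inl a, ha⟩ :=
  let ⟨a, _, H⟩ := (E.mem_im E.range_le).mp (E.inn_eq_im ▸ h); ⟨a, _, H.symm⟩

theorem Emb.eq_one_of {x : MulAut (S ⧸ center S)} (hO : Cand 2 x O)
    (hg : ∀ u v, f.B (g.1 *ᵥ u) v = f.B u (g.1 *ᵥ v)) {y : Gam f} (hy : E.Ph y ∈ O) {a b : F}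
    (h : ∀ v, sact y.1 v = a • v + b • g.1 *ᵥ v) : E.Ph y = 1 :=
  haveI := E.nonempty
  haveI := E.finite_K
  mem_bot.1 (mem_of_pow_mem (coprime_of_mem hO.cop hy) (mem_bot.2
    ((E.Ph_pow_eq_one_iff y 2).2 (sq_mem_ZG E.nice.nondeg hg y.2 h))))

include h2 in
theorem Emb.bal_sq (hG : Function.Surjective E.Ph) {a : f.Isom} (ha : a * a = 1) (h3 : 3 ≤ finrank F (f.fixSub a))
    (ho : Odd (finrank F (f.fixSub (negI f * a)))) (hO : Cand 2 (E.Ph ⟨inl (toGL f a), toGL_mem_Sim a⟩) O) : O = ⊥ := by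
  have hf := E.nice.nondeg
  have ha' : negI f * a * (negI f * a) = 1 := f.isom_ext fun v => by
    show -a.1 (-a.1 v) = v
    rw [map_neg, neg_neg, invol_apply ha]
  have hn : ∀ h, Commute h (toGL f a) ↔ Commute h (toGL f (negI f * a)) := fun h => by
    have : Commute h (sc ι (-1)) := gl_scalar_comm _ _
    rw [map_mul, toGL_negI]
    exact ⟨this.mul_right, fun H => by simpa using this.inv_right.mul_right H⟩
  have C₁ := comp_fix hf h2 ha h3 fun _ => Iff.rfl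
  have C₂ := fun h => comp_fix hf h2 ha' h hn
  have hl : toGL f a * toGL f a = sc ι 1 := by rw [← map_mul, ha, map_one, map_one]
  refine eq_bot_of_set {l | (∃ t ∈ (f.restrict _).Eich, E.psi (f.extLeft (compl_fix hf h2 ha)) t = l) ∨
    3 ≤ finrank F (f.fixSub (negI f * a)) ∧ ∃ t ∈ (f.restrict _).Eich, E.psi (f.extLeft (compl_fix hf h2 ha')) t = l}
    ?_ (fun β hβ hI => ?_) fun β hβ H => ?_
  · rintro _ (⟨t, ht, rfl⟩ | ⟨h, t, ht, rfl⟩)
    exacts [C₁.norm E h2 hO ht, (C₂ h).norm E h2 hO ht]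
  · obtain ⟨h, hh, rfl⟩ := E.exists_of_inn hI
    have hc : Commute h (toGL f a) := inl_injective (by
      rw [map_mul, map_mul]; exact (E.comm_of_mem hO hl hβ rfl).eq)
    rintro _ (⟨t, ht, rfl⟩ | ⟨h, t, ht, rfl⟩)
    exacts [C₁.comm_of_mem E h2 hO hc hβ t ht, (C₂ h).comm_of_mem E h2 hO hc hβ t ht]
  obtain ⟨y, rfl⟩ := hG β
  have hy := E.comm_of_mem hO hl hβ (map_one _)
  have hy' : Commute y.1 (inl (toGL f (negI f * a))) := gs_ext (by simp) fun v => by
    rw [sactE_mul, sactE_mul, sactE_inl, sactE_inl, toGL_mulVec, toGL_mulVec]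
    show sact y.1 (-a.1 v) = -a.1 (sact y.1 v)
    rw [map_neg, comm_apply hy]
  obtain ⟨c, hc⟩ := C₁.scalar E (fun t ht => H _ (.inl ⟨t, ht, rfl⟩)) (resW hy) fun _ => rfl
  have h1 : y.1.right = 1 := RingEquiv.ext fun t => by
    haveI : Nontrivial (f.fixSub a) := nontrivial_of_finrank_pos (R := F) (by omega)
    obtain ⟨w, hw⟩ := exists_ne (0 : f.fixSub a)
    have h4 := (sact_smul y.1 t w).symm.trans (hc (t • w))
    rw [smul_comm] at h4
    refine smul_left_injective F (fun H => hw (Subtype.ext (sact_injective y.1 (H.trans (map_zero _).symm)))) ?_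
    exact h4.trans (congrArg (t • ·) (hc w).symm)
  obtain ⟨d, hd⟩ : ∃ d : F, ∀ w : f.fixSub (negI f * a), sact y.1 w = d • w := by
    by_cases h : 3 ≤ finrank F (f.fixSub (negI f * a))
    · exact (C₂ h).scalar E (fun t ht => H _ (.inr ⟨h, t, ht, rfl⟩)) (resW hy') fun _ => rfl
    obtain ⟨w, -, hw⟩ := finrank_eq_one_iff'.1 (show finrank F (f.fixSub (negI f * a)) = 1 by
      obtain ⟨j, hj⟩ := ho; omega)
    obtain ⟨d, hd⟩ := hw (resW hy' w)
    refine ⟨d, fun v => ?_⟩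
    obtain ⟨t, rfl⟩ := hw v
    rw [Submodule.coe_smul, sact_smul, h1, smul_comm d]
    exact congrArg (t • ·) (congrArg Subtype.val hd).symm
  refine E.eq_one_of hO (g := toGL f a) (fun u v => ?_) hβ (a := 2⁻¹ * (c + d)) (b := 2⁻¹ * (c - d)) fun v => ?_
  · rw [toGL_mulVec, toGL_mulVec, ← B_coe_map _ a, invol_apply ha]
  have h4 := hc ⟨(2⁻¹ : F) • (v + a.1 v), f.mem_fixSub.2 (by rw [map_smul, map_add, invol_apply ha, add_comm])⟩
  have h5 := hd ⟨(2⁻¹ : F) • (v - a.1 v), f.mem_fixSub.2 (by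
    show -a.1 _ = _
    rw [map_smul, map_sub, invol_apply ha, ← smul_neg, neg_sub])⟩
  have h6 : v = (2⁻¹ : F) • (v + a.1 v) + (2⁻¹ : F) • (v - a.1 v) := by
    rw [← smul_add, add_add_sub_cancel, ← two_smul F, smul_smul, inv_mul_cancel₀ h2, one_smul]
  rw [toGL_mulVec]
  refine (congrArg _ h6).trans ((map_add _ _ _).trans ((congrArg₂ (· + ·) h4 h5).trans ?_))
  show c • (2⁻¹ : F) • (v + a.1 v) + d • (2⁻¹ : F) • (v - a.1 v) = _
  module

section nsq

/-- the space as a module over the quadratic extension generated by `g` -/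
def QV {l : F} (_ : g.1 * g.1 = l • 1) : Type _ := ι → F

variable {l : F} (hg : g.1 * g.1 = l • 1)

instance : AddCommGroup (QV hg) := inferInstanceAs (AddCommGroup (ι → F))
instance : Module F (QV hg) := inferInstanceAs (Module F (ι → F))
instance : Finite (QV hg) := inferInstanceAs (Finite (ι → F))

omit [Finite F] in
include hg in
theorem gg_apply (v : ι → F) : g.1 *ᵥ g.1 *ᵥ v = l • v := by rw [mulVec_mulVec, hg, smul_mulVec, one_mulVec]

/-- the identity map -/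
def QV.u : QV hg ≃ₗ[F] ι → F := LinearEquiv.refl F _

instance : SMul (QuadraticAlgebra F l 0) (QV hg) := ⟨fun z v => (QV.u hg).symm (z.re • QV.u hg v + z.im • g.1 *ᵥ QV.u hg v)⟩

omit [Finite F] in
theorem QV.u_smul (z : QuadraticAlgebra F l 0) (v : QV hg) :
    QV.u hg (z • v) = z.re • QV.u hg v + z.im • g.1 *ᵥ QV.u hg v := rfl

instance : Module (QuadraticAlgebra F l 0) (QV hg) where
  one_smul v := (QV.u hg).injective (by simp [QV.u_smul, QuadraticAlgebra.re_one, QuadraticAlgebra.im_one])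
  mul_smul z w v := (QV.u hg).injective (by
    simp only [QV.u_smul, mulVec_add, mulVec_smul, gg_apply hg, QuadraticAlgebra.re_mul, QuadraticAlgebra.im_mul]; module)
  smul_zero z := (QV.u hg).injective (by simp [QV.u_smul])
  smul_add z v w := (QV.u hg).injective (by simp only [QV.u_smul, map_add, mulVec_add]; module)
  add_smul z w v := (QV.u hg).injective (by
    simp only [QV.u_smul, map_add, QuadraticAlgebra.re_add, QuadraticAlgebra.im_add]; module)
  zero_smul v := (QV.u hg).injective (by simp [QV.u_smul])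

instance : IsScalarTower F (QuadraticAlgebra F l 0) (QV hg) := ⟨fun c z v => (QV.u hg).injective (by
  simp only [QV.u_smul, map_smul, QuadraticAlgebra.re_smul, QuadraticAlgebra.im_smul, smul_eq_mul]; module)⟩

variable [Fact (∀ r : F, r ^ 2 ≠ l + 0 * r)]

theorem finrank_QV : finrank F (ι → F) = 2 * finrank (QuadraticAlgebra F l 0) (QV hg) := by
  rw [← QuadraticAlgebra.finrank_eq_two l (0 : F), finrank_mul_finrank]; rfl

include hg in
theorem det_of_sq {m : ℕ} (hm : finrank F (ι → F) = 2 * m) : g.1.det = (-l) ^ m := by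
  have h1 : (show QV hg →ₗ[F] QV hg from toLin' g.1) = ((QuadraticAlgebra.omega : QuadraticAlgebra F l 0) •
      (LinearMap.id : QV hg →ₗ[QuadraticAlgebra F l 0] QV hg)).restrictScalars F :=
    LinearMap.ext fun v => by
      show g.1 *ᵥ QV.u hg v = (0 : F) • QV.u hg v + (1 : F) • g.1 *ᵥ QV.u hg v
      simp
  have h3 := congrArg LinearMap.det h1
  rw [LinearMap.det_restrictScalars] at h3
  refine (LinearMap.det_toLin' _).symm.trans (h3.trans ?_)
  rw [LinearMap.det_smul, LinearMap.det_id, mul_one, map_pow, show finrank _ (QV hg) = m by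
    have := finrank_QV hg; omega, Algebra.norm_apply]
  exact congrArg (· ^ m) ((QuadraticAlgebra.det_toLinearMap_eq_norm _).trans (by simp [QuadraticAlgebra.norm_def]))

include h2 in
theorem exists_comp (hf : Big f) (hs : ∀ u v, f.B (g.1 *ᵥ u) v = f.B u (g.1 *ᵥ v)) :
    ∃ (f₀ : Form (Kind.orth (QuadraticAlgebra F l 0)) (QV hg)) (T : f₀.Isom →* f.Isom),
      (3 ≤ finrank (QuadraticAlgebra F l 0) (QV hg) → Comp g T (QV.u hg).toAddMonoidHom) := by
  haveI : Finite (QuadraticAlgebra F l 0) := Module.finite_of_finite F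
  have hl : l ≠ 0 := fun h => Fact.out (p := ∀ r : F, r ^ 2 ≠ l + 0 * r) 0 (by simp [h])
  let B : LinearMap.BilinForm (QuadraticAlgebra F l 0) (QV hg) := LinearMap.mk₂ _
    (fun u v => ⟨f.B (QV.u hg u) (QV.u hg v), l⁻¹ * f.B (QV.u hg u) (g.1 *ᵥ QV.u hg v)⟩)
    (fun _ _ _ => by ext <;> simp [mul_add])
    (fun _ _ _ => by ext <;> simp [QV.u_smul, hs, gg_apply hg] <;> field_simp)
    (fun _ _ _ => by ext <;> simp [mul_add, mulVec_add])
    (fun _ _ _ => by ext <;> simp [QV.u_smul, mulVec_add, mulVec_smul, gg_apply hg] <;> field_simp)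
  have hB : ∀ u v, B u v = ⟨f.B (QV.u hg u) (QV.u hg v), l⁻¹ * f.B (QV.u hg u) (g.1 *ᵥ QV.u hg v)⟩ := fun _ _ => rfl
  have hc : ringChar (QuadraticAlgebra F l 0) = ringChar F := (ringChar_eq (algebraMap F _)).symm
  have h2' : (2 : QuadraticAlgebra F l 0) ≠ 0 := ringChar_ne_two_iff.1 (hc ▸ ringChar_ne_two_iff.2 h2)
  let f₀ := ofSymm h2' B ⟨fun u v => by rw [hB, hB, f.orth_symm, ← hs, f.orth_symm (g.1 *ᵥ _)]⟩
  let T : f₀.Isom →* f.Isom :=
    { toFun a := ⟨a.1.restrictScalars F, f.orth_mem_Isom.2 fun v => mul_left_cancel₀ h2 (by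
        rw [← orth_B_self, ← orth_B_self]; exact congrArg QuadraticAlgebra.re (a.2.1 v v))⟩
      map_one' := rfl
      map_mul' _ _ := rfl }
  have hω : ∀ v, QV.u hg ((QuadraticAlgebra.omega : QuadraticAlgebra F l 0) • v) = g.1 *ᵥ QV.u hg v := fun v => by
    simp [QV.u_smul]
  refine ⟨f₀, T, fun h3 => ⟨fun u hu => hf.nd u fun v => congrArg QuadraticAlgebra.re (hu v), h3, hc, (QV.u hg).injective,
    fun _ _ => rfl, fun a => gl_ext fun v => ?_, fun a ⟨c, hc⟩ => ⟨algebraMap F _ c, fun v => (hc v).trans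
      (algebraMap_smul _ c (show QV hg from v)).symm⟩, fun h ⟨μ, hh⟩ hc t ht => ?_⟩⟩
  · rw [Units.val_mul, Units.val_mul, ← mulVec_mulVec, ← mulVec_mulVec, toGL_mulVec, toGL_mulVec]
    exact (hω _).symm.trans ((congrArg _ (map_smul a.1 _ _).symm).trans (congrArg a.1 (hω v)))
  have h4 : ∀ v, g.1 *ᵥ h.1 *ᵥ v = h.1 *ᵥ g.1 *ᵥ v := fun v => by
    rw [mulVec_mulVec, mulVec_mulVec, ← Units.val_mul, ← hc.eq, Units.val_mul]
  have h5 : ∀ u v, f.B (h.1 *ᵥ u) (h.1 *ᵥ v) = μ * f.B u v := hh.B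
  have h6 : ∀ u v : QV hg, B (sactE (inl h) u) (sactE (inl h) v) = algebraMap F _ μ * B u v := fun u v => by
    refine QuadraticAlgebra.ext ((h5 (QV.u hg u) (QV.u hg v)).trans (by simp [hB])) ?_
    show l⁻¹ * f.B (h.1 *ᵥ QV.u hg u) (g.1 *ᵥ h.1 *ᵥ QV.u hg v) = _
    rw [h4, h5]; simp [hB, mul_left_comm]
  have hs : SemiSim f₀ f₀ (1 : RingAut _) (algebraMap F _ μ) (show QV hg ≃+ QV hg from sactE (inl h)) :=
    ⟨fun c v => by
      show h.1 *ᵥ (c.re • QV.u hg v + c.im • g.1 *ᵥ QV.u hg v) = c.re • h.1 *ᵥ QV.u hg v + c.im • g.1 *ᵥ h.1 *ᵥ QV.u hg v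
      rw [mulVec_add, mulVec_smul, mulVec_smul, h4], (map_ne_zero _).2 hh.ne, h6, fun v =>
        (congrArg (· / 2) (h6 v v)).trans (mul_div_assoc _ _ _)⟩
  refine ⟨_, hs.conj_mem_Eich stdO rfl ht, eq_mul_inv_of_mul_eq (gl_ext fun v => ?_)⟩
  rw [Units.val_mul, Units.val_mul, ← mulVec_mulVec, ← mulVec_mulVec, toGL_mulVec, toGL_mulVec]
  exact hs.conj_apply t v

end nsq

include h2 in
theorem Emb.bal_nsq (hf : Big f) (hG : Function.Surjective E.Ph) {l : Fˣ} [Fact (∀ r : F, r ^ 2 ≠ l + 0 * r)]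
    (hl : g * g = sc ι l) (hs : ∀ u v, f.B (g.1 *ᵥ u) v = f.B u (g.1 *ᵥ v)) {hg : g ∈ Sim f}
    (hO : Cand 2 (E.Ph ⟨inl g, hg⟩) O) : O = ⊥ := by
  have hg' : g.1 * g.1 = (l : F) • 1 := by rw [← Units.val_mul, hl, coe_scalar]
  haveI : Finite (QuadraticAlgebra F (l : F) 0) := Module.finite_of_finite F
  obtain ⟨f₀, T, C⟩ := exists_comp h2 hg' hf hs
  have C := C (by have := finrank_QV hg'; have := hf.five; omega)
  refine eq_bot_of_set {x | ∃ t ∈ f₀.Eich, E.psi T t = x} ?_ (fun β hβ hI => ?_) fun β hβ H => ?_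
  · rintro _ ⟨t, ht, rfl⟩; exact C.norm E h2 hO ht
  · obtain ⟨h, hh, rfl⟩ := E.exists_of_inn hI
    rintro _ ⟨t, ht, rfl⟩
    exact C.comm_of_mem E h2 hO (inl_injective (by
      rw [map_mul, map_mul]; exact (E.comm_of_mem hO hl hβ rfl).eq)) hβ t ht
  obtain ⟨y, rfl⟩ := hG β
  obtain ⟨c, hc⟩ := C.scalar E (fun t ht => H _ ⟨t, ht, rfl⟩) (sact y.1) fun _ => rfl
  exact E.eq_one_of hO hs hβ hc

include h2 in
theorem Emb.bal_inv {m : ℕ} (hf : BigE f m) (hi : ¬f.IsIndex m) (hG : Function.Surjective E.Ph) {hg : g ∈ Sim f}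
    (hP : g ∉ hf.SimP) (ho : E.Ph ⟨inl g, hg⟩ ^ 2 = 1) (hO : Cand 2 (E.Ph ⟨inl g, hg⟩) O) : O = ⊥ := by
  haveI := E.nonempty
  rw [E.Ph_pow_eq_one_iff, ← map_pow, inl_mem_ZG, sq] at ho
  obtain ⟨l, hl⟩ := mem_center_iff_scalar.1 ho
  obtain ⟨μ, hμ⟩ := id hg
  have hg' : g.1 * g.1 = (l : F) • 1 := by rw [← Units.val_mul, ← hl, coe_scalar]
  have hd : hf.dk ⟨g, hg⟩ = -1 := (Int.units_eq_one_or _).resolve_left (mt hf.mem_SimP.2 hP)
  have h1 : μ * μ = l * l := by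
    have := hμ.mul hμ
    rw [← map_mul, ← hl] at this
    exact hf.mu_eq this (ss_scalar l)
  by_cases hq : IsSquare (l : F)
  swap
  · haveI : Fact (∀ r : F, r ^ 2 ≠ l + 0 * r) := ⟨fun r hr => hq ⟨r, by rw [← sq, hr]; simp⟩⟩
    obtain rfl : μ = l := (mul_self_eq_mul_self_iff.1 h1).resolve_right (by
      rintro rfl
      have h3 := (det_of_sq hg' hf.rank).symm.trans (hf.det_eq (g := ⟨g, hg⟩) hμ)
      rw [hd] at h3
      exact mul_ne_zero h2 (pow_ne_zero m (neg_ne_zero.2 l.ne_zero)) (by push_cast at h3; linear_combination h3))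
    exact E.bal_nsq h2 hf.toBig hG hl.symm (fun u v => mul_left_cancel₀ l.ne_zero (by
      rw [← show f.B (g.1 *ᵥ u) (g.1 *ᵥ g.1 *ᵥ v) = l * f.B u (g.1 *ᵥ v) from hμ.B u _, gg_apply hg', map_smul,
        smul_eq_mul])) hO
  obtain ⟨r, hr⟩ := hq
  have hr0 : r ≠ 0 := fun h => l.ne_zero (by rw [hr, h, mul_zero])
  obtain rfl : μ = l := (mul_self_eq_mul_self_iff.1 h1).resolve_right (by
    rintro rfl
    have h3 : ∀ s : F, s * s = l → f.TS (LinearMap.ker (toLin' g.1 - s • LinearMap.id)) := fun s hs =>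
      orth_ts_iff.2 fun w hw => by
        have h4 : f.Q (g.1 *ᵥ w) = -l * f.Q w := hμ.Q w
        rw [show g.1 *ᵥ w = s • w from sub_eq_zero.1 hw, f.Q_smul, Kind.orth_σ, hs] at h4
        exact (mul_eq_zero.1 (by linear_combination h4 : 2 * l * f.Q w = 0)).resolve_left (mul_ne_zero h2 l.ne_zero)
    have h4 := h3 r hr.symm
    have h5 : f.TS (LinearMap.range (toLin' g.1 - r • LinearMap.id)) := (h3 (-r) (by rw [hr, neg_mul_neg])).mono (by
      rintro _ ⟨v, rfl⟩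
      simp [mulVec_sub, mulVec_smul, gg_apply hg', hr, smul_sub, smul_smul]
      abel)
    have h6 := LinearMap.finrank_range_add_finrank_ker (toLin' g.1 - r • LinearMap.id)
    have h7 := hf.nd.two_mul_finrank_le h5
    have h8 := hf.nd.two_mul_finrank_le h4
    have h9 := hf.rank
    exact hi (hf.nd.isIndex_of_two_mul h4 (by omega) (by omega)))
  obtain ⟨c, a, hc, rfl⟩ := exists_toGL_of_isSquare hμ ⟨r, hr⟩
  rw [hf.dk_eq rfl] at hd
  have ha : a * a = 1 := toGL_injective (mul_left_cancel (a := sc ι (c * c)) (by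
    rw [← sc_toGL_mul, ← hl, map_one, mul_one, show l = c * c from Units.ext hc]))
  have key : ∀ a : f.Isom, a * a = 1 → hf.dick a = -1 → Odd (finrank F (f.fixSub a)) := fun a _ h => by
    have h3 := mt (hf.nd.dick_eq_one_iff hf.good a).2 (by rw [h]; decide)
    have h4 := f.finrank_commSub_add a
    rw [hf.rank] at h4
    rw [Nat.even_iff] at h3
    rw [Nat.odd_iff]; omega
  have ha' : negI f * a * (negI f * a) = 1 := f.isom_ext fun v => by
    show -a.1 (-a.1 v) = v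
    rw [map_neg, neg_neg, invol_apply ha]
  have h3 := key a ha hd
  have h4 := key _ ha' (by rw [map_mul, hf.dick_negI hf.even, hd, one_mul])
  have h5 : E.Ph ⟨_, hg⟩ = E.Ph ⟨inl (toGL f a), toGL_mem_Sim a⟩ :=
    (congrArg E.Ph (Subtype.ext (map_mul inl _ _))).trans (E.Ph_scalar_mul c ⟨_, toGL_mem_Sim a⟩)
  rw [h5] at hO
  by_cases h : 3 ≤ finrank F (f.fixSub a)
  · exact E.bal_sq h2 hG ha h h4 hO
  have h6 : f.fixSub (negI f * a) = f.perp (f.fixSub a) := Submodule.ext fun v => by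
    rw [mem_perp_fix hf.nd h2 ha, mem_fixSub, ← neg_eq_iff_eq_neg]; rfl
  have h7 := Submodule.finrank_add_eq_of_isCompl (compl_fix hf.nd h2 ha)
  have h8 := hf.five
  refine E.bal_sq h2 hG ha' (by rw [h6]; omega) (by
    rwa [← mul_assoc, show negI f * negI f = 1 from f.isom_ext fun v => neg_neg v, one_mul]) ?_
  exact ((congrArg E.Ph (Subtype.ext (show inl _ = _ by rw [map_mul, toGL_negI, map_mul]))).trans
    (E.Ph_scalar_mul (-1) ⟨_, toGL_mem_Sim a⟩) : E.Ph ⟨inl (toGL f (negI f * a)), toGL_mem_Sim _⟩ = _) ▸ hO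

end CA.AutForm
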