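import Cfsg.Agent.Lib.Lin.AutTri2

/-!
The exceptional graph automorphism of the four-dimensional symplectic group in characteristic two.
-/

set_option autoImplicit false

namespace CA.AutForm

open Subgroup CA.AutCorr CA.CForm CA.CForm.Form Module CA.AutPhi CA.AutGam
  CA.AutFld CA.AutLang CA.AutOut SemidirectProduct Matrix CA.AutAbs CA.SylIn

variable {F : Type*} [Field F]

local notation "I4" => Fin 2 ⊕ Fin 2

/-- A two by two minor. -/
def mnr (g : Matrix I4 I4 F) (a b c d : I4) : F := g a c * g b d - g a d * g b c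

/-- First index of the pair attached to an index. -/
def pr1 : I4 → I4 := Sum.elim (fun _ => .inl 0) fun _ => .inr 0

/-- Second index of the pair attached to an index. -/
def pr2 : I4 → I4 := Sum.elim ![.inl 1, .inr 1] ![.inr 1, .inl 1]

theorem pr_eq : pr1 (.inl 0) = .inl 0 ∧ pr1 (.inl 1) = .inl 0 ∧ pr1 (.inr 0) = .inr 0 ∧
    pr1 (.inr 1) = .inr 0 ∧ pr2 (.inl 0) = .inl 1 ∧ pr2 (.inl 1) = .inr 1 ∧
    pr2 (.inr 0) = .inr 1 ∧ pr2 (.inr 1) = .inl 1 := ⟨rfl, rfl, rfl, rfl, rfl, rfl, rfl, rfl⟩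

theorem forall4 {P : I4 → Prop} (h0 : P (.inl 0)) (h1 : P (.inl 1)) (h2 : P (.inr 0))
    (h3 : P (.inr 1)) (i : I4) : P i := by
  rcases i with i | i <;> fin_cases i <;> assumption

theorem sum4 (u : I4 → F) : ∑ i, u i = u (.inl 0) + u (.inl 1) + (u (.inr 0) + u (.inr 1)) := by
  rw [Fintype.sum_sum_type, Fin.sum_univ_two, Fin.sum_univ_two]

/-- The action on the four-dimensional section of the exterior square. -/
def gamM (g : Matrix I4 I4 F) : Matrix I4 I4 F :=
  Matrix.of fun i j => mnr g (pr1 i) (pr2 i) (pr1 j) (pr2 j)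

theorem gamM_apply (g : Matrix I4 I4 F) (i j : I4) :
    gamM g i j = mnr g (pr1 i) (pr2 i) (pr1 j) (pr2 j) := rfl

theorem gamM_transpose (g : Matrix I4 I4 F) : gamM gᵀ = (gamM g)ᵀ := by
  ext i j; simp only [gamM_apply, mnr, transpose_apply]; ring

theorem sp_rel {g : Matrix I4 I4 F} (hg : g ∈ symplecticGroup (Fin 2) F) (c d : I4) :
    mnr g (.inl 0) (.inr 0) c d + mnr g (.inl 1) (.inr 1) c d = -J (Fin 2) F c d := by
  rw [← SymplecticGroup.mem_iff'.mp hg]
  simp [Matrix.mul_apply, sum4, J, mnr]; ring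

theorem J_pr (i : I4) : J (Fin 2) F (pr1 i) (pr2 i) = 0 := by
  induction i using forall4 <;> simp [J, pr_eq]

variable (h2 : (2 : F) = 0) {g h : Matrix I4 I4 F}
include h2

theorem gamM_mul (hg : g ∈ symplecticGroup (Fin 2) F) (hh : h ∈ symplecticGroup (Fin 2) F) :
    gamM (g * h) = gamM g * gamM h := by
  ext i j
  have h1 := sp_rel (SymplecticGroup.transpose_mem hg) (pr1 i) (pr2 i)
  have h3 := sp_rel hh (pr1 j) (pr2 j)
  rw [J_pr] at h1 h3
  simp only [gamM_apply, mnr, Matrix.mul_apply, sum4, pr_eq, transpose_apply] at h1 h3 ⊢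
  linear_combination (g (pr1 i) (.inl 1) * g (pr2 i) (.inr 1) - g (pr1 i) (.inr 1) * g (pr2 i) (.inl 1)) * h3 -
    (h (.inl 0) (pr1 j) * h (.inr 0) (pr2 j) - h (.inl 0) (pr2 j) * h (.inr 0) (pr1 j)) * h1 +
    (g (pr1 i) (.inl 0) * g (pr2 i) (.inr 0) - g (pr1 i) (.inr 0) * g (pr2 i) (.inl 0)) *
    (h (.inl 0) (pr1 j) * h (.inr 0) (pr2 j) - h (.inl 0) (pr2 j) * h (.inr 0) (pr1 j)) * h2

theorem gamM_J : gamM (J (Fin 2) F) = J (Fin 2) F := by
  have h1 : (-1 : F) = 1 := by linear_combination -h2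
  ext i j
  induction i using forall4 <;> induction j using forall4 <;>
    simp [gamM_apply, mnr, pr_eq, J, h1]

theorem gamM_mem (hg : g ∈ symplecticGroup (Fin 2) F) : gamM g ∈ symplecticGroup (Fin 2) F := by
  have := congrArg gamM (SymplecticGroup.mem_iff.mp hg)
  rwa [gamM_mul h2 (mul_mem hg (SymplecticGroup.J_mem _ _)) (SymplecticGroup.transpose_mem hg),
    gamM_mul h2 hg (SymplecticGroup.J_mem _ _), gamM_J h2, gamM_transpose] at this

theorem gamM_gamM (hg : g ∈ symplecticGroup (Fin 2) F) (i j : I4) :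
    gamM (gamM g) i j = g i j ^ 2 := by
  have h01 := sp_rel hg (.inl 0) (.inl 1)
  have h02 := sp_rel hg (.inl 0) (.inr 0)
  have h03 := sp_rel hg (.inl 0) (.inr 1)
  have h12 := sp_rel hg (.inl 1) (.inr 0)
  have h13 := sp_rel hg (.inl 1) (.inr 1)
  have h23 := sp_rel hg (.inr 0) (.inr 1)
  simp only [mnr, J, fromBlocks_apply₁₁, fromBlocks_apply₁₂, fromBlocks_apply₂₂, Matrix.zero_apply,
    Matrix.neg_apply, one_apply_eq, one_apply_ne (zero_ne_one' (Fin 2)),
    one_apply_ne (one_ne_zero' (Fin 2))] at h01 h02 h03 h12 h13 h23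
  induction i using forall4 <;> induction j using forall4 <;>
    simp only [gamM_apply, mnr, pr_eq]
  · linear_combination g (.inl 0) (.inl 0) * g (.inl 0) (.inl 0) * h13 +
      -g (.inl 0) (.inl 0) * g (.inl 0) (.inl 1) * h03 +
      g (.inl 0) (.inl 0) * g (.inl 0) (.inr 1) * h01
  · linear_combination -g (.inl 0) (.inl 1) * g (.inl 0) (.inl 0) * h12 +
      g (.inl 0) (.inl 1) * g (.inl 0) (.inl 1) * h02 +
      -g (.inl 0) (.inl 1) * g (.inl 0) (.inr 0) * h01
  · linear_combination g (.inl 0) (.inr 0) * g (.inl 0) (.inl 1) * h23 +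
      -g (.inl 0) (.inr 0) * g (.inl 0) (.inr 0) * h13 +
      g (.inl 0) (.inr 0) * g (.inl 0) (.inr 1) * h12 +
      -g (.inl 0) (.inr 0) ^ 2 * h2
  · linear_combination -g (.inl 0) (.inr 1) * g (.inl 0) (.inl 0) * h23 +
      g (.inl 0) (.inr 1) * g (.inl 0) (.inr 0) * h03 +
      -g (.inl 0) (.inr 1) * g (.inl 0) (.inr 1) * h02 +
      -g (.inl 0) (.inr 1) ^ 2 * h2
  · linear_combination g (.inl 1) (.inl 0) * g (.inl 1) (.inl 0) * h13 +
      -g (.inl 1) (.inl 0) * g (.inl 1) (.inl 1) * h03 +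
      g (.inl 1) (.inl 0) * g (.inl 1) (.inr 1) * h01
  · linear_combination -g (.inl 1) (.inl 1) * g (.inl 1) (.inl 0) * h12 +
      g (.inl 1) (.inl 1) * g (.inl 1) (.inl 1) * h02 +
      -g (.inl 1) (.inl 1) * g (.inl 1) (.inr 0) * h01
  · linear_combination g (.inl 1) (.inr 0) * g (.inl 1) (.inl 1) * h23 +
      -g (.inl 1) (.inr 0) * g (.inl 1) (.inr 0) * h13 +
      g (.inl 1) (.inr 0) * g (.inl 1) (.inr 1) * h12 +
      -g (.inl 1) (.inr 0) ^ 2 * h2
  · linear_combination -g (.inl 1) (.inr 1) * g (.inl 1) (.inl 0) * h23 +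
      g (.inl 1) (.inr 1) * g (.inl 1) (.inr 0) * h03 +
      -g (.inl 1) (.inr 1) * g (.inl 1) (.inr 1) * h02 +
      -g (.inl 1) (.inr 1) ^ 2 * h2
  · linear_combination -g (.inr 0) (.inl 0) * g (.inr 0) (.inl 0) * h13 +
      g (.inr 0) (.inl 0) * g (.inr 0) (.inl 1) * h03 +
      -g (.inr 0) (.inl 0) * g (.inr 0) (.inr 1) * h01 +
      -g (.inr 0) (.inl 0) ^ 2 * h2
  · linear_combination g (.inr 0) (.inl 1) * g (.inr 0) (.inl 0) * h12 +
      -g (.inr 0) (.inl 1) * g (.inr 0) (.inl 1) * h02 +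
      g (.inr 0) (.inl 1) * g (.inr 0) (.inr 0) * h01 +
      -g (.inr 0) (.inl 1) ^ 2 * h2
  · linear_combination -g (.inr 0) (.inr 0) * g (.inr 0) (.inl 1) * h23 +
      g (.inr 0) (.inr 0) * g (.inr 0) (.inr 0) * h13 +
      -g (.inr 0) (.inr 0) * g (.inr 0) (.inr 1) * h12
  · linear_combination g (.inr 0) (.inr 1) * g (.inr 0) (.inl 0) * h23 +
      -g (.inr 0) (.inr 1) * g (.inr 0) (.inr 0) * h03 +
      g (.inr 0) (.inr 1) * g (.inr 0) (.inr 1) * h02
  · linear_combination -g (.inr 1) (.inl 0) * g (.inr 1) (.inl 0) * h13 +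
      g (.inr 1) (.inl 0) * g (.inr 1) (.inl 1) * h03 +
      -g (.inr 1) (.inl 0) * g (.inr 1) (.inr 1) * h01 +
      -g (.inr 1) (.inl 0) ^ 2 * h2
  · linear_combination g (.inr 1) (.inl 1) * g (.inr 1) (.inl 0) * h12 +
      -g (.inr 1) (.inl 1) * g (.inr 1) (.inl 1) * h02 +
      g (.inr 1) (.inl 1) * g (.inr 1) (.inr 0) * h01 +
      -g (.inr 1) (.inl 1) ^ 2 * h2
  · linear_combination -g (.inr 1) (.inr 0) * g (.inr 1) (.inl 1) * h23 +
      g (.inr 1) (.inr 0) * g (.inr 1) (.inr 0) * h13 +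
      -g (.inr 1) (.inr 0) * g (.inr 1) (.inr 1) * h12
  · linear_combination g (.inr 1) (.inr 1) * g (.inr 1) (.inl 0) * h23 +
      -g (.inr 1) (.inr 1) * g (.inr 1) (.inr 0) * h03 +
      g (.inr 1) (.inr 1) * g (.inr 1) (.inr 1) * h02

/-- The graph automorphism of the symplectic group. -/
noncomputable def gamS [Finite F] : MulAut (symplecticGroup (Fin 2) F) :=
  MulEquiv.ofBijective (MonoidHom.mk' (fun g => ⟨gamM g.1, gamM_mem h2 g.2⟩)
    fun g h => Subtype.ext (gamM_mul h2 g.2 h.2)) (Finite.injective_iff_bijective.mp fun g h H =>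
      Subtype.ext (Matrix.ext fun i j => by
        have := (gamM_gamM h2 g.2 i j).symm.trans ((congrArg (gamM ·.1 i j) H).trans
          (gamM_gamM h2 h.2 i j))
        exact sub_eq_zero.mp (pow_eq_zero_iff two_ne_zero |>.mp (by
          linear_combination this + (h.1 i j ^ 2 - g.1 i j * h.1 i j) * h2))))

variable [Finite F]

theorem exists_graph_Sp4 : ∃ (γ : MulAut (Cfsg.PSp 2 F)) (σ : RingAut F), (∀ x, σ x = x ^ 2) ∧
    γ ^ 2 = (embSp le_rfl).Ph ⟨_, inr_mem_Sp σ⟩ ∧ γ ∉ (embSp le_rfl).Ph.range := by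
  haveI : CharP F 2 := CharTwo.of_one_ne_zero_of_two_eq_zero one_ne_zero h2
  have E := embSp (F := F) (m := 2) le_rfl
  let γ : MulAut (Cfsg.PSp 2 F) := QuotientGroup.congr _ _ (gamS h2)
    (characteristic_iff_map_eq.mp inferInstance _)
  have hγ : ∀ s, γ (QuotientGroup.mk s) = QuotientGroup.mk (gamS h2 s) := fun _ => rfl
  refine ⟨γ, frobeniusEquiv F 2, fun _ => rfl, (E.ind_inr _ _).mp fun s s' H => ?_, ?_⟩
  · rw [sq, MulAut.mul_apply, hγ, hγ]
    exact congrArg _ (Subtype.ext ((Matrix.ext (gamM_gamM h2 s.2)).trans H.symm))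
  rintro ⟨x, hx⟩
  let t : symplecticGroup (Fin 2) F := ⟨1 + single (.inl 0) (.inr 0) 1, by
    rw [SymplecticGroup.mem_iff]
    ext i j
    induction i using forall4 <;> induction j using forall4 <;>
      simp [Matrix.mul_apply, sum4, J, one_apply, single_apply]⟩
  obtain ⟨μ, hμ⟩ := x.2
  obtain ⟨s', hs'⟩ := E.exists_conj E hμ t
  have h1 := (E.Ph_mk x hs').symm.trans (hx ▸ hγ t)
  rw [QuotientGroup.eq, E.mem_center_iff, map_mul, map_inv, hs'] at h1
  obtain ⟨c, hc⟩ := inv_mul_mem_center.mp h1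
  have h3 : ∀ v : I4 → F, v (.inr 0) = 0 → sactE x.1 v (.inr 0) = 0 ∧ sactE x.1 v (.inr 1) = 0 :=
      fun v hv => by
    have h6 := congrArg (sactE · v) (show (inl (jSp F 2 (gamS h2 t)) * x.1 : GS I4 F) =
        inl (GeneralLinearGroup.scalar _ c) * x.1 * inl (jSp F 2 t) by
      rw [← hc, map_mul, mul_assoc, mul_assoc _ x.1]
      exact congrArg _ (mul_inv_eq_iff_eq_mul.mp (conj_inl x.1 _)).symm)
    simp only [sactE_mul, sactE_inl, sc_mulVec] at h6
    rw [show (jSp F 2 t).1 *ᵥ v = v by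
      change (1 + single _ _ 1) *ᵥ v = v
      simp [add_mulVec, single_mulVec, hv]] at h6
    generalize sactE x.1 v = w at h6 ⊢
    change gamM (1 + single _ _ 1) *ᵥ w = _ at h6
    have a0 := congrFun h6 (.inl 0)
    have a1 := congrFun h6 (.inl 1)
    have a2 := congrFun h6 (.inr 0)
    have a3 := congrFun h6 (.inr 1)
    simp [mulVec, dotProduct, sum4, gamM_apply, mnr, pr_eq, one_apply, single_apply] at a0 a1 a2 a3
    by_cases h7 : (c : F) = 1
    · rw [h7] at a0 a1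
      exact ⟨by linear_combination a1, by linear_combination a0⟩
    · exact ⟨(mul_eq_zero.mp (show (c - 1 : F) * _ = 0 by linear_combination -a2)).resolve_left
        (sub_ne_zero.mpr h7), (mul_eq_zero.mp (show (c - 1 : F) * _ = 0 by
          linear_combination -a3)).resolve_left (sub_ne_zero.mpr h7)⟩
  have h4 := hμ.B (Pi.single (.inl 1) 1) (Pi.single (.inr 1) 1)
  obtain ⟨a1, a2⟩ := h3 (Pi.single (.inl 1) 1) (by simp)
  obtain ⟨a3, a4⟩ := h3 (Pi.single (.inr 1) 1) (by simp)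
  simp [sympStd_B, sympForm_eq, a1, a2, a3, a4, hμ.ne] at h4

omit h2 in
theorem inv_mul_mem_Sp4 {β β' : MulAut (Cfsg.PSp 2 F)} (h : β ∉ (embSp le_rfl).Ph.range)
    (h' : β' ∉ (embSp le_rfl).Ph.range) : β'⁻¹ * β ∈ (embSp le_rfl).Ph.range := by
  have E := embSp (F := F) (m := 2) le_rfl
  obtain ⟨e, he0, he⟩ := E.nice.ex
  have k1 := E.mem_range_or he he0 (t := 1) (by rw [card_ker_π_symp, pow_one]) fun n hn => by
    rw [finrank_plus] at hn
    obtain rfl : n = 2 := by omega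
    decide
  obtain ⟨X, a1, a2, a3⟩ := (k1 β).resolve_left h
  obtain ⟨Y, b1, b2, b3⟩ := (k1 β').resolve_left h'
  obtain ⟨γ, rfl⟩ := E.nice.nondeg.exists_map_eq_of_ts a1 b1 (by
    have := (card_fix_max E.nice.nondeg a1 a2).1
    have := (card_fix_max E.nice.nondeg b1 b2).1
    omega)
  exact E.inv_mul_mem_range he he0 (γ := γ) (E.nice.nondeg.symp_Eich_eq_top ▸ mem_top _)
    (by rw [a3, b3, conj_fix]; rfl)

theorem out_Sp4 : IsCyclic (Cfsg.Out (Cfsg.PSp 2 F)) ∧
    Nat.card (Cfsg.Out (Cfsg.PSp 2 F)) = 2 * Nat.card (RingAut F) := by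
  haveI : CharP F 2 := CharTwo.of_one_ne_zero_of_two_eq_zero one_ne_zero h2
  have E := embSp (F := F) (m := 2) le_rfl
  obtain ⟨γ, σ, h1, h3, h4⟩ := exists_graph_Sp4 h2
  have h5 : ((jSp F 2).range ⊔ center _).relIndex (Sim (sympStd F 2)) = 1 := by
    haveI := Fintype.ofFinite F
    rw [relIndex_Sp le_rfl, Nat.card_eq_fintype_card]
    have := FiniteField.even_card_of_char_two (ringChar.eq F 2)
    have := Fintype.card_pos (α := F)
    exact Nat.coprime_two_left.mpr (Nat.odd_iff.mpr (by omega))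
  constructor
  · have h6 : ∀ x, E.po x ∈ zpowers (QuotientGroup.mk γ) := fun x => by
      obtain ⟨g, n, rfl⟩ := exists_inlG_mul (x₀ := ⟨_, inr_mem_Sp σ⟩) (fun ρ => by
        obtain ⟨n, hn⟩ := exists_pow_eq 2 ρ
        refine ⟨n, RingEquiv.ext fun x => ?_⟩
        rw [hn, zpow_natCast]
        clear hn
        induction n with
        | zero => simp
        | succ n ih => rw [pow_succ 2, pow_mul, ih, pow_succ' _ n]; exact (h1 _).symm) x
      rw [map_mul, map_zpow, (E.po_inlG_eq_one g).mpr (relIndex_eq_one.mp h5 g.2), one_mul,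
        E.po_apply, ← h3, QuotientGroup.mk_pow]
      exact zpow_mem (npow_mem_zpowers _ _) _
    refine ⟨⟨QuotientGroup.mk γ, fun o => ?_⟩⟩
    obtain ⟨β, rfl⟩ := QuotientGroup.mk_surjective o
    by_cases h : β ∈ E.Ph.range
    · obtain ⟨x, rfl⟩ := h
      exact h6 x
    · obtain ⟨x, hx⟩ := inv_mul_mem_Sp4 h h4
      rw [eq_inv_mul_iff_mul_eq] at hx
      rw [← hx]
      exact mul_mem (mem_zpowers _) (h6 x)
  · haveI := E.finite
    refine Nat.eq_of_mul_eq_mul_right (m := Nat.card (Cfsg.PSp 2 F)) Nat.card_pos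
      (E.card_aut_eq.symm.trans ?_)
    rw [← E.Ph.range.index_mul_card, E.card_range_Ph fun σ => ⟨1, inr_mem_Sp σ⟩, E.card_inn, h5,
      index_eq_two_iff'.mpr ⟨γ⁻¹, fun β => ?_⟩]
    · ring
    by_cases h : β ∈ E.Ph.range
    · exact Or.inr ⟨h, fun H => h4 (by simpa using mul_mem h (inv_mem H))⟩
    · exact Or.inl ⟨inv_mul_mem_Sp4 h h4, h⟩

end CA.AutForm
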