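/-
Character degrees of orthogonal groups: long root elements and the unipotent radical of a point stabilizer.
-/
import Cfsg.Agent.Lib.Lin.DegO1

set_option autoImplicit false
set_option linter.unusedSectionVars false

namespace CA.DegO

open Cfsg CA.Wt CA.DegSp CA.CForm CA.CForm.Form CA.AutForm CChar.CharFun CChar.CharKer CChar.CharRep Finset Module
open scoped commutatorElement

universe u
variable {F : Type*} [Field F] {V : Type u} [AddCommGroup V] [Module F V] {f : Form (Kind.orth F) V}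

variable (f) in
/-- a basis of a totally singular line -/
structure LP (a b : V) : Prop where
  Qa : f.Q a = 0
  Qb : f.Q b = 0
  B : f.B a b = 0
  a0 : a ≠ 0
  nb : b ∉ F ∙ a

variable (f) in
/-- long root elements -/
def LR : Set f.Eich := {g | ∃ a b, LP f a b ∧ g = E f a b}

theorem LP.li {a b : V} (h : LP f a b) : LinearIndependent F ![a, b] :=
  (LinearIndependent.pair_iff' h.a0).2 fun _ e => h.nb (e ▸ Submodule.smul_mem _ _ (Submodule.mem_span_singleton_self a))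

theorem LP.eq {a b : V} (h : LP f a b) {s t : F} (e : s • a + t • b = 0) : s = 0 ∧ t = 0 := LinearIndependent.pair_iff.1 h.li s t e

theorem LP.map {a b : V} (h : LP f a b) (g : f.Eich) : LP f (g ▹ a) (g ▹ b) :=
  ⟨by simp [h.Qa], by simp [h.Qb], by simp [h.B], by simp [h.a0], fun e => h.nb (by
    obtain ⟨t, e⟩ := Submodule.mem_span_singleton.1 e
    rw [← map_smul, EmbeddingLike.apply_eq_iff_eq] at e
    exact e ▸ Submodule.smul_mem _ _ (Submodule.mem_span_singleton_self a))⟩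

theorem conj_LR {g : f.Eich} (hg : g ∈ LR f) (k : f.Eich) : k * g * k⁻¹ ∈ LR f := by
  obtain ⟨a, b, h, rfl⟩ := hg
  exact ⟨_, _, h.map k, E_conj k h.Qa h.B⟩

variable (f) in
/-- the complement of a hyperbolic pair -/
abbrev Up (x y : V) : Submodule F V := f.perp (Submodule.span F {x, y})

theorem Bx {x y : V} (w : Up f x y) : f.B x w = 0 := (f.mem_perp_span_pair.1 w.2).1
theorem By {x y : V} (w : Up f x y) : f.B y w = 0 := (f.mem_perp_span_pair.1 w.2).2
theorem mem_Up {x y w : V} (h1 : f.B x w = 0) (h2 : f.B y w = 0) : w ∈ Up f x y := f.mem_perp_span_pair.2 ⟨h1, h2⟩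

variable {x y : V} (h : f.IsHyp x y)

/-- the unipotent radical -/
noncomputable def X : AddChar (Up f x y) f.Eich := ⟨fun w => E f x w, E_zero x, fun a b => E_add h.Q_x (Bx a) (Bx b)⟩

theorem X_apply (w : Up f x y) : X h w = E f x w := rfl

theorem X_inj : Function.Injective (X h) := fun a b H => Subtype.ext (eichler_inj h (By a) (By b)
  ((coe_E h.Q_x (Bx a)).symm.trans ((congrArg Subtype.val H).trans (coe_E h.Q_x (Bx b))))).1

/-- its characters -/
def lam (ψ : AddChar F ℂ) (x y u : V) : AddChar (Up f x y) ℂ := ψ.compAddMonoidHom ((f.B u).comp (Up f x y).subtype).toAddMonoidHom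

theorem lam_apply (ψ : AddChar F ℂ) (u : V) (w : Up f x y) : lam ψ x y u w = ψ (f.B u w) := rfl

/-- the Levi factor -/
noncomputable def ι : (f.restrict (Up f x y)).Eich →* f.Eich :=
  ((f.extRight h.isCompl).comp (Subgroup.subtype _)).codRestrict _ fun g => extRight_mem_Eich _ g.2

theorem ι_x (g : (f.restrict (Up f x y)).Eich) : ι h g ▹ x = x := f.extRight_apply_left _ _ (Submodule.subset_span (by simp))
theorem ι_y (g : (f.restrict (Up f x y)).Eich) : ι h g ▹ y = y := f.extRight_apply_left _ _ (Submodule.subset_span (by simp))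

theorem ι_E {a b : Up f x y} (ha : f.Q a = 0) (hb : f.B a b = 0) : ι h (E _ a b) = E f a b := Subtype.ext <| by
  change f.extRight h.isCompl (E _ a b).1 = _
  rw [coe_E (f := f.restrict _) ha hb, extRight_eichler, coe_E ha hb]; rfl

theorem map_Up {g : f.Eich} {t : F} (t0 : t ≠ 0) (h1 : g ▹ x = t • x) (h2 : g ▹ y = t⁻¹ • y) (w : Up f x y) : t • g ▹ w ∈ Up f x y := by
  have a := f.B_coe_map g.1 x w
  have b := f.B_coe_map g.1 y w
  rw [h1, Bx] at a; rw [h2, By] at b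
  exact Submodule.smul_mem _ _ (mem_Up (by simpa [t0] using a) (by simpa [t0] using b))

theorem conjX {g : f.Eich} {t : F} (t0 : t ≠ 0) (h1 : g ▹ x = t • x) (h2 : g ▹ y = t⁻¹ • y) (w : Up f x y) :
    g * X h w * g⁻¹ = X h ⟨_, map_Up t0 h1 h2 w⟩ := by
  rw [X_apply, E_conj g h.Q_x (Bx w), h1, E_smul t h.Q_x, X_apply]
  simpa [t0] using Bx ⟨_, map_Up t0 h1 h2 w⟩

variable {ψ : AddChar F ℂ} {χ : f.Eich → ℂ} [Fintype (Up f x y)]

theorem mem_stab {g : f.Eich} {u : V} (h1 : g ▹ x = x) (h2 : g ▹ y = y) (h3 : g ▹ u = u) : g ∈ Wt.stab (X h) (X_inj h) (lam ψ x y u) :=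
  fun w => ⟨_, conjX h one_ne_zero (by simpa) (by simpa) w, by rw [lam_apply, lam_apply, ← f.B_coe_map g.1 u w, h3]; simp⟩

theorem E_stab {a b u : V} (ha : f.Q a = 0) (hb : f.B a b = 0) (a1 : a ∈ Up f x y) (b1 : b ∈ Up f x y) (a2 : f.B a u = 0) (b2 : f.B b u = 0) :
    E f a b ∈ Wt.stab (X h) (X_inj h) (lam ψ x y u) :=
  mem_stab h (E_fix ha hb (f.eq_zero_symm (Bx ⟨a, a1⟩)) (f.eq_zero_symm (Bx ⟨b, b1⟩)))
    (E_fix ha hb (f.eq_zero_symm (By ⟨a, a1⟩)) (f.eq_zero_symm (By ⟨b, b1⟩))) (E_fix ha hb a2 b2)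

theorem wt_move (hχ : IsClassFunction _ χ) {g : f.Eich} {t : F} (t0 : t ≠ 0) (h1 : g ▹ x = t • x) (h2 : g ▹ y = t⁻¹ • y) (u : V) :
    wt χ (X h) (lam ψ x y (t⁻¹ • g ▹ u)) 1 = wt χ (X h) (lam ψ x y u) 1 := by
  simpa using wt_conj' hχ (X_inj h) _ (conjX h t0 h1 h2) (ψ' := lam ψ x y (t⁻¹ • g ▹ u)) (ψ := lam ψ x y u)
    (fun w => by simp [lam_apply, t0]) 1

variable [FiniteDimensional F V] [Finite F] (hf : f.Nondeg)
include hf

omit [Fintype (Up f x y)] in
theorem lp_conj (h6 : 6 ≤ finrank F V) {a b a' b' : V} (h : LP f a b) (h' : LP f a' b') : ∃ k : f.Eich, k ▹ a = a' ∧ k ▹ b = b' := by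
  obtain ⟨g, rfl, rfl⟩ := hf.witt_pair h.li h'.li (h'.Qa.trans h.Qa.symm) (h'.Qb.trans h.Qb.symm) (h'.B.trans h.B.symm)
  obtain ⟨N, -, a1, a2, a3⟩ := ext_nondeg hf (N := ⊥) disjoint_bot_left (g.1 a)
  obtain ⟨N', b0, b1, b2, b3⟩ := ext_nondeg hf a2 (g.1 b)
  obtain ⟨k, hk⟩ := adj hf (by omega) b2 (by rw [finrank_bot] at a3; omega) g
  exact ⟨k, hk _ (b0 a1), hk _ b1⟩

omit [Fintype (Up f x y)] in
include h in
theorem trans (h6 : 6 ≤ finrank F V) {u u' : Up f x y} (u0 : u ≠ 0) (u0' : u' ≠ 0) (e : f.Q u = f.Q u') :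
    ∃ k : f.Eich, k ▹ x = x ∧ k ▹ y = y ∧ k ▹ u = u' := by
  have key : ∀ u : Up f x y, u ≠ 0 → u.1 ∉ Submodule.span F {x, y} := fun u u0 e =>
    u0 (Subtype.ext (Submodule.disjoint_def.1 h.isCompl.disjoint _ e u.2))
  obtain ⟨g, -, h1, h2⟩ := hf.witt_step f.isFull_top _ (key u u0) (key u' u0') (fun a ha => (u.2 a ha).trans (u'.2 a ha).symm) e
  obtain ⟨N, a0, a1, a2, a3⟩ := ext_nondeg hf h.isCompl.disjoint u'
  obtain ⟨k, hk⟩ := adj hf (by omega) a2 (by rw [h.finrank_span] at a3; omega) g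
  have hx : x ∈ Submodule.span F {x, y} := Submodule.subset_span (by simp)
  have hy : y ∈ Submodule.span F {x, y} := Submodule.subset_span (by simp)
  exact ⟨k, by rw [hk _ ((h1 x hx).symm ▸ a0 hx), h1 x hx], by rw [hk _ ((h1 y hy).symm ▸ a0 hy), h1 y hy], by rw [hk _ (h2 ▸ a1), h2]⟩

theorem triv (hχ : IsCharacter _ χ) {a b u : Up f x y} (h1 : wt χ (X h) (lam ψ x y u) 1 = 1) (hab : LP f a b) (a2 : f.B a u = 0)
    (b2 : f.B b u = 0) (h7 : 7 ≤ finrank F V) (H : u ∈ Submodule.span F {a, b} ∨ 9 ≤ finrank F V ∨ ∃ t : F, t ≠ 0 ∧ t * t ≠ 1) :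
    wt χ (X h) (lam ψ x y u) (E f a b) = 1 := by
  have fr := h.finrank_perp
  have key : ∀ K : Submodule F (Up f x y), a ∈ K → b ∈ K → u ∈ K → 2 * finrank F K + 2 < finrank F V →
      wt χ (X h) (lam ψ x y u) (E f a b) = 1 := fun K k1 k2 k3 k4 => by
    obtain ⟨w, hw, w', hw', e⟩ := exists_pair (h.nondeg_perp hf) K (by change 2 * finrank F K < _; omega) (-1)
    have c1 : f.B a w = 0 := hw a k1
    have c2 : f.B b w' = 0 := hw' b k2
    refine wt_comm hχ (X_inj h) h1 ((?_ : ⁅E f b w', E f a w⁆ = E f a b) ▸ Subgroup.commutator_mem_commutator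
      (E_stab h hab.Qb c2 b.2 w'.2 b2 (f.eq_zero_symm (hw' u k3))) (E_stab h hab.Qa c1 a.2 w.2 a2 (f.eq_zero_symm (hw u k3))))
    rw [commutatorElement_def, E_conj _ hab.Qa c1, E_fix hab.Qb c2 (f.eq_zero_symm hab.B) (f.eq_zero_symm (hw' a k1)),
      E_apply hab.Qb c2, show f.B b w = 0 from hw b k2, show f.B w' w = -1 from e, ← E_neg hab.Qa c1,
      ← E_add hab.Qa (by simp [c1, hab.B]) (by simp [c1])]
    simp
  by_cases hu : u ∈ Submodule.span F {a, b}
  · exact key _ (Submodule.subset_span (by simp)) (Submodule.subset_span (by simp)) hu (by have := fr2 (F := F) a b; omega)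
  rcases H.resolve_left hu with H | ⟨t, t0, ht⟩
  · exact key (Submodule.span F {a, b, u}) (Submodule.subset_span (by simp)) (Submodule.subset_span (by simp))
      (Submodule.subset_span (by simp)) (by have := fr3 (F := F) a b u; omega)
  obtain ⟨a', c1, c2, c3⟩ := (h.nondeg_perp hf).exists_partner_perp (H := Submodule.span F {b, u}) (p := a) hab.Qa (fun e => by
    obtain ⟨r, s, e⟩ := Submodule.mem_span_pair.1 e
    by_cases s0 : s = 0
    · have := (hab.eq (s := -1) (t := r) (by rw [← e, s0]; simp)).1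
      simp at this
    · exact hu (Submodule.mem_span_pair.2 ⟨s⁻¹, -(s⁻¹ * r), by rw [← e, smul_add, smul_smul, inv_smul_smul₀ s0, neg_smul]; abel⟩))
    ((f.restrict _).mem_perp_span_pair.2 ⟨f.eq_zero_symm hab.B, f.eq_zero_symm a2⟩)
  have h' : f.IsHyp a a' := ⟨hab.Qa, c2, c3⟩
  obtain ⟨c4, c5⟩ := (f.restrict _).mem_perp_span_pair.1 c1
  let k : f.Eich := ⟨_, h'.torus_mul_self_mem_Eich hf (by omega) (.mk0 t t0)⟩
  have k1 : ∀ v, f.B v a = 0 → f.B v a' = 0 → k ▹ v = v := fun v e e' => h'.torus_apply_of_B _ (f.eq_zero_symm e) (f.eq_zero_symm e')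
  have c6 : ∀ r : F, f.B a (r • b.1) = 0 := fun r => by simp [hab.B]
  refine wt_comm hχ (X_inj h) h1 ((?_ : ⁅k, E f a ((t * t - 1)⁻¹ • b.1)⁆ = E f a b) ▸ Subgroup.commutator_mem_commutator
    (mem_stab h (k1 _ (Bx a) (Bx a')) (k1 _ (By a) (By a')) (k1 _ (f.eq_zero_symm a2) c5))
    (E_stab h hab.Qa (c6 _) a.2 (Submodule.smul_mem _ _ b.2) a2 (by simp [b2])))
  rw [commutatorElement_def, E_conj _ hab.Qa (c6 _), show k ▹ a = (t * t) • a.1 from h'.torus_apply_x _, map_smul,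
    k1 b (f.eq_zero_symm hab.B) c4, E_smul _ hab.Qa (c6 _), ← E_neg hab.Qa (c6 _), smul_smul, ← neg_smul, ← E_add hab.Qa (c6 _) (c6 _),
    ← add_smul, show t * t * (t * t - 1)⁻¹ + -(t * t - 1)⁻¹ = 1 by linear_combination mul_inv_cancel₀ (sub_ne_zero.2 ht), one_smul]

omit [Fintype (Up f x y)] in
theorem cnt0 [Fintype V] [DecidableEq F] {H : Submodule F V} [DecidablePred (· ∈ f.perp H)] {p : V} (hp : f.Q p = 0) (h1 : p ∉ H) (h2 : p ∈ f.perp H)
    {k : F} (hk : k ≠ 0) (c : F) {r : ℕ} (hr : finrank F V = finrank F H + 2 + r) :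
    #{u | u ∈ f.perp H ∧ f.B p u = k ∧ f.Q u = c} = Nat.card F ^ r := by
  have := hf.card_partner hp h1 h2 hk (c := c) ⟨c, rfl⟩ hr
  rwa [Nat.card_eq_fintype_card, Fintype.card_subtype, show Nat.card (Kind.orth F).π.ker = 1 from
    have := Fintype.ofFinite F; card_ker_π_orth, mul_one] at this

omit [Fintype (Up f x y)] in
theorem cnt1 [Fintype V] [DecidableEq F] (hψ : ψ ≠ 0) {b : V} (hb : f.Q b = 0) (b0 : b ≠ 0) (c : F) {r : ℕ} (hr : finrank F V = r + 2) :
    ∑ u with f.Q u = c, (1 - ψ (f.B b u)) = Nat.card F ^ (r + 1) := by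
  classical
  have := Fintype.ofFinite F
  rw [← sum_fiberwise (g := fun u => f.B b u), ← add_sum_erase _ _ (mem_univ 0), sum_eq_zero fun u hu => by simp [(mem_filter.1 hu).2],
    sum_congr rfl (g := fun k => Nat.card F ^ r * (1 - ψ k)) fun k hk => ?_]
  · rw [← mul_sum, sum_erase _ (by simp), sum_sub_distrib, AddChar.sum_eq_zero_iff_ne_zero.2 hψ]; simp [pow_succ]
  · rw [sum_congr rfl (g := fun _ => 1 - ψ k) fun u hu => by rw [(mem_filter.1 hu).2], sum_const, nsmul_eq_mul, ← Nat.cast_pow,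
      ← cnt0 hf (H := ⊥) hb (by simpa) (by simp) (ne_of_mem_erase hk) c (r := r) (by simp; omega), filter_filter]
    congr 3; ext; simp [and_comm]

omit [Fintype (Up f x y)] in
theorem cnt2 [Fintype V] [DecidableEq F] {a b : V} (hab : LP f a b) (c : F) {r : ℕ} (hr : finrank F V = r + 3) :
    #{u | f.Q u = c ∧ ¬(f.B a u = 0 ∧ f.B b u = 0)} < Nat.card F ^ (r + 2) := by
  classical
  have := Fintype.ofFinite F
  have : ({u | f.Q u = c ∧ ¬(f.B a u = 0 ∧ f.B b u = 0)} : Finset V) ⊆ (univ.erase 0).biUnion fun k =>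
      univ.filter (fun u => u ∈ f.perp ⊥ ∧ f.B a u = k ∧ f.Q u = c) ∪
        univ.filter fun u => u ∈ f.perp (F ∙ a) ∧ f.B b u = k ∧ f.Q u = c := fun u hu => by
    obtain ⟨h1, h2⟩ := (mem_filter.1 hu).2
    by_cases e : f.B a u = 0
    · exact mem_biUnion.2 ⟨f.B b u, by simpa [e] using h2, by simp [mem_perp_span_singleton, e, h1]⟩
    · exact mem_biUnion.2 ⟨f.B a u, by simpa, by simp [h1]⟩
  refine ((card_le_card this).trans (card_biUnion_le_card_mul _ _ (Nat.card F ^ (r + 1) + Nat.card F ^ r) fun k hk =>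
    (card_union_le _ _).trans_eq ?_)).trans_lt ?_
  · rw [cnt0 hf hab.Qa (by simpa using hab.a0) (by simp) (ne_of_mem_erase hk) c (r := r + 1) (by simp; omega),
      cnt0 hf hab.Qb hab.nb (f.mem_perp_span_singleton.2 hab.B) (ne_of_mem_erase hk) c (r := r) (by rw [finrank_span_singleton hab.a0]; omega)]
  · rw [card_erase_of_mem (mem_univ _), card_univ, ← Nat.card_eq_fintype_card]
    obtain ⟨q, e⟩ := Nat.exists_eq_add_one.2 (Nat.card_pos (α := F))
    have : 0 < (q + 1) ^ r := by positivity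
    rw [e, Nat.add_sub_cancel, pow_succ, pow_succ (q + 1) (r + 1), pow_succ]; nlinarith

omit hf [Fintype (Up f x y)] in
theorem E_eq {a b : V} (hab : LP f a b) {v : V} (hv : v ∈ Submodule.span F {a, b}) (v0 : v ≠ 0) {z : V} (hz : f.IsHyp v z) :
    ∃ w, f.B v w = 0 ∧ f.B z w = 0 ∧ f.Q w = 0 ∧ w ≠ 0 ∧ E f v w = E f a b := by
  obtain ⟨s, t, rfl⟩ := Submodule.mem_span_pair.1 hv
  have ba := f.eq_zero_symm hab.B
  obtain ⟨w, h1, h2, h3, h4⟩ : ∃ w, f.B (s • a + t • b) w = 0 ∧ f.Q w = 0 ∧ w ∉ F ∙ (s • a + t • b) ∧ E f (s • a + t • b) w = E f a b := by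
    by_cases s0 : s = 0
    · have t0 : t ≠ 0 := fun e => v0 (by simp [s0, e])
      refine ⟨-(t⁻¹ • a), by simp [s0, ba], by simp [f.Q_smul_of_Q hab.Qa], fun e => ?_, ?_⟩
      · obtain ⟨r, e⟩ := Submodule.mem_span_singleton.1 e
        exact inv_ne_zero t0 (hab.eq (s := t⁻¹) (t := r * t) (by rw [s0] at e; linear_combination (norm := module) e)).1
      · rw [s0, zero_smul, zero_add, E_smul _ hab.Qb (by simp [ba]), smul_neg, smul_inv_smul₀ t0, ← E_swap hab.Qa hab.Qb hab.B]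
    · have bb := f.B_self_of_Q hab.Qb
      refine ⟨s⁻¹ • b, by simp [hab.B, bb], f.Q_smul_of_Q hab.Qb _, fun e => ?_, ?_⟩
      · obtain ⟨r, e⟩ := Submodule.mem_span_singleton.1 e
        obtain ⟨e1, e2⟩ := hab.eq (s := r * s) (t := r * t - s⁻¹) (by rw [sub_smul, ← e]; module)
        simp [(mul_eq_zero.1 e1).resolve_right s0, s0] at e2
      · rw [E_swap hz.Q_x (f.Q_smul_of_Q hab.Qb _) (by simp [hab.B, bb]), E_smul _ hab.Qb (by simp [ba, bb]),
          show s⁻¹ • -(s • a + t • b) = -a + (-(s⁻¹ * t)) • b by match_scalars <;> field_simp,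
          E_add hab.Qb (by simp [ba]) (by simp [bb]), E_self _ hab.Qb, mul_one, ← E_swap hab.Qa hab.Qb hab.B]
  generalize s • a + t • b = v at *
  refine ⟨w + (-f.B z w) • v, by simp [h1, hz.B_xx], by simp [hz.B_yx], by rw [f.Q_add_smul_of_Q hz.Q_x]; simp [h2, f.eq_zero_symm h1], fun e => h3 ?_, ?_⟩
  · exact eq_neg_of_add_eq_zero_left e ▸ Submodule.neg_mem _ (Submodule.smul_mem _ _ (Submodule.mem_span_singleton_self _))
  · rw [E_add hz.Q_x h1 (by simp [hz.B_xx]), E_self _ hz.Q_x, mul_one, h4]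

omit hf in
theorem c1 {α : Type*} [Fintype α] (P : α → Prop) (a : α) (h : P a) [DecidablePred fun v => v ≠ a ∧ P v] :
    Nat.card {v // P v} - 1 = #{v | v ≠ a ∧ P v} := by
  rw [← natCard_subtype_ne P a h, Nat.add_sub_cancel, Nat.card_eq_fintype_card, Fintype.card_subtype]

omit [Fintype (Up f x y)] in
include h in
theorem card_LR : (LR f).ncard * (Nat.card F ^ 2 - 1) =
    (Nat.card {v // f.Q v = 0} - 1) * (Nat.card {w // (f.restrict (Up f x y)).Q w = 0} - 1) := by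
  classical
  have := Module.finite_of_finite F (M := V)
  have := Fintype.ofFinite V
  have := Fintype.ofFinite f.Eich
  have : ∀ a, ∃ z, f.Q a = 0 → a ≠ 0 → f.IsHyp a z := fun a => by
    by_cases e : f.Q a = 0 ∧ a ≠ 0
    · exact (hf.exists_isHyp e.1 e.2).imp fun _ h _ _ => h
    · exact ⟨0, fun a b => (e ⟨a, b⟩).elim⟩
  choose z hz using this
  let S : Finset (V × V) := {p | (p.1 ≠ 0 ∧ f.Q p.1 = 0) ∧ f.B p.1 p.2 = 0 ∧ f.B (z p.1) p.2 = 0 ∧ f.Q p.2 = 0 ∧ p.2 ≠ 0}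
  trans #S
  · rw [Set.ncard_eq_toFinset_card', card_eq_sum_card_fiberwise (s := S) (f := fun p => E f p.1 p.2) (t := (LR f).toFinset) (fun p hp => by
      obtain ⟨⟨a1, a2⟩, a3, a4, a5, a6⟩ := (mem_filter.1 hp).2
      refine Set.mem_toFinset.2 ⟨_, _, ⟨a2, a5, a3, a1, fun e => a6 ?_⟩, rfl⟩
      obtain ⟨r, e⟩ := Submodule.mem_span_singleton.1 e
      rw [← e] at a4 ⊢
      simp [show r = 0 by simpa [(hz _ a2 a1).B_yx] using a4]), ← smul_eq_mul, ← sum_const]
    refine sum_congr rfl fun g hg => ?_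
    obtain ⟨a, b, hab, rfl⟩ := Set.mem_toFinset.1 hg
    have e1 : Nat.card F ^ 2 - 1 = #{v | v ≠ 0 ∧ v ∈ Submodule.span F {a, b}} := by
      have := finrank_span_eq_card hab.li
      rw [Matrix.range_cons_cons_empty, Fintype.card_fin] at this
      rw [← show _ = 2 from this, ← Module.natCard_eq_pow_finrank, c1 _ 0 (zero_mem _)]
    rw [e1]
    refine (card_bij (fun p _ => p.1) (fun p hp => ?_) (fun p hp p' hp' e => ?_) fun v hv => ?_).symm
    · simp only [S, mem_filter, mem_univ, true_and] at hp ⊢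
      obtain ⟨⟨⟨a1, a2⟩, a3, a4, a5, a6⟩, e⟩ := hp
      obtain ⟨w, hw⟩ := ((hz _ a2 a1).nondeg_perp hf).exists_B_ne_zero (x := ⟨p.2, mem_Up a3 a4⟩) (by simpa)
      have hw : f.B p.2 w ≠ 0 := hw
      have := congrArg (fun g : f.Eich => g ▹ w.1) e
      simp only [E_apply a2 a3, E_apply hab.Qa hab.B, Bx w, hab.Qb] at this
      exact ⟨a1, Submodule.mem_span_pair.2 ⟨f.B b w / f.B p.2 w, -f.B a w / f.B p.2 w, smul_right_injective _ hw (by
        simp only [smul_add, smul_smul, mul_div_cancel₀ _ hw]; linear_combination (norm := module) this)⟩⟩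
    · simp only [S, mem_filter, mem_univ, true_and] at hp hp'
      obtain ⟨⟨⟨a1, a2⟩, a3, a4, -⟩, e1⟩ := hp
      obtain ⟨⟨-, b3, b4, -⟩, e2⟩ := hp'
      rw [← e] at b3 b4 e2
      exact Prod.ext e (congrArg Subtype.val (X_inj (hz _ a2 a1) (a₁ := ⟨_, mem_Up a3 a4⟩) (a₂ := ⟨_, mem_Up b3 b4⟩) (e1.trans e2.symm)))
    · obtain ⟨v0, hv⟩ := (mem_filter.1 hv).2
      have qv : f.Q v = 0 := by obtain ⟨s, t, rfl⟩ := Submodule.mem_span_pair.1 hv; simp [orth_Q_pair, hab.Qa, hab.Qb, hab.B]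
      obtain ⟨w, a1, a2, a3, a4, a5⟩ := E_eq hab hv v0 (hz v qv v0)
      exact ⟨(v, w), by simp [S, *], rfl⟩
  · rw [c1 (fun v => f.Q v = 0) 0 f.Q_zero, card_eq_sum_card_fiberwise (s := S) (f := Prod.fst) (t := {v | v ≠ 0 ∧ f.Q v = 0}) (fun p hp => by
      simpa using (mem_filter.1 hp).2.1), ← smul_eq_mul, ← sum_const]
    refine sum_congr rfl fun a ha => ?_
    obtain ⟨a1, a2⟩ := (mem_filter.1 ha).2
    have fr := h.finrank_perp
    have e1 := h.card_Q_eq hf (c := 0) ⟨0, rfl⟩ fr.symm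
    rw [(hz a a2 a1).card_Q_eq hf (c := 0) ⟨0, rfl⟩ fr.symm, add_left_inj, mul_right_inj' Nat.card_pos.ne'] at e1
    rw [← e1, c1 (fun v => (f.restrict (Up f a (z a))).Q v = 0) 0 (Q_zero _)]
    refine (card_bij (fun w _ => (a, w.1)) (fun w hw => ?_) (fun _ _ _ _ e => Subtype.ext (Prod.mk.inj e).2) ?_).symm
    · obtain ⟨b1, b2⟩ := (mem_filter.1 hw).2
      simpa [S, a1, a2, Bx w, By w, b1] using b2
    · rintro ⟨a', w⟩ hp
      simp only [S, mem_filter, mem_univ, true_and] at hp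
      obtain ⟨⟨-, a3, a4, a5, a6⟩, rfl⟩ := hp
      exact ⟨⟨w, mem_Up a3 a4⟩, mem_filter.2 ⟨mem_univ _, by simpa using a6, a5⟩, rfl⟩

end CA.DegO
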