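/-
Character degrees of orthogonal groups: restriction to a point stabilizer.
-/
import Cfsg.Agent.Lib.Lin.DegO2

set_option autoImplicit false
set_option linter.unusedSectionVars false

namespace CA.DegO

open Cfsg CA.Wt CA.DegSp CA.CForm CA.CForm.Form CA.AutForm CChar.CharFun CChar.CharKer CChar.CharRep CChar.CharInt Finset Module

universe u
variable {F : Type*} [Field F] [Fintype F] [DecidableEq F] {V : Type u} [AddCommGroup V] [Module F V] {f : Form (Kind.orth F) V}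
  [FiniteDimensional F V] (hf : f.Nondeg) {x y : V} (h : f.IsHyp x y) {ψ : AddChar F ℂ} (hψ : ψ ≠ 0) {χ : f.Eich → ℂ}
  [Fintype (Up f x y)]

include hψ in
theorem psi_ne {k : F} (hk : k ≠ 0) : ∃ t, ψ (t * k) ≠ 1 := by
  obtain ⟨c, hc⟩ := AddChar.ne_zero_iff.1 hψ
  exact ⟨c / k, by rwa [div_mul_cancel₀ c hk]⟩

/-- the characters of the unipotent radical -/
def PP : Par (Up f x y) (Up f x y) :=
  ⟨fun u => lam ψ x y u, fun u w a => by simp [lam_apply, AddChar.map_add_eq_mul], fun a ha => by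
    obtain ⟨w, hw⟩ := (h.nondeg_perp hf).exists_B_ne_zero ha
    obtain ⟨t, ht⟩ := psi_ne hψ (k := f.B w a) (mt f.eq_zero_symm hw)
    exact ⟨t • w, by simpa [lam_apply]⟩, rfl⟩

open Classical in
variable (f x y) in
/-- sizes of the level sets -/
noncomputable def N (c : F) : ℕ := #{u : Up f x y | u ≠ 0 ∧ f.Q u = c}

theorem N_zero : N f x y 0 = Nat.card {w // (f.restrict (Up f x y)).Q w = 0} - 1 := by
  classical rw [c1 (fun v => (f.restrict (Up f x y)).Q v = 0) 0 (Q_zero _)]; rfl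

theorem N_ne {c : F} (hc : c ≠ 0) : N f x y c = Nat.card {w // (f.restrict (Up f x y)).Q w = c} := by
  classical
  rw [Nat.card_eq_fintype_card, Fintype.card_subtype, N]
  congr 1; ext u
  rw [mem_filter_univ, mem_filter_univ]
  exact ⟨fun e => e.2, fun e => ⟨by rintro rfl; exact hc (by simpa using Eq.symm e), e⟩⟩

theorem char_T (hχ : IsCharacter _ χ) : IsCharacter _ fun g => wt χ (X h) (lam ψ x y 0) (ι h g) :=
  char_wt hχ (ι h) (fun g => mem_stab h (ι_x h g) (ι_y h g) (map_zero _)) (X_inj h)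

include hf hψ

theorem step (hχ : IsCharacter _ χ) {r : ℕ} (hr : finrank F V = r + 4) (h2 : 2 ≤ r) {D : ℕ} (hD : χ 1 = D) :
    ∃ (s : F → ℕ) (t : ℕ), wt χ (X h) (lam ψ x y 0) 1 = t ∧ (∀ u : Up f x y, u ≠ 0 → wt χ (X h) (lam ψ x y u) 1 = s (f.Q u)) ∧
      D = t + ∑ c, s c * N f x y c ∧ (∀ g ∈ LR f, χ g = D - (∑ c, s c : ℕ) * Nat.card F ^ (r + 1)) ∧ ∀ μ ≠ 0, ∀ c, s (μ ^ 2 * c) = s c := by
  classical
  have fr : finrank F (Up f x y) + 2 = _ := h.finrank_perp
  have hU : (f.restrict (Up f x y)).Nondeg := h.nondeg_perp hf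
  obtain ⟨b, b0, hb⟩ := exists_singular' (f.restrict (Up f x y)) (by omega)
  have : ∀ c, ∃ u : Up f x y, u ≠ 0 ∧ f.Q u = c := fun c => by
    by_cases e : c = 0
    · exact ⟨b, b0, e ▸ hb⟩
    · obtain ⟨u, hu⟩ := hU.exists_Q_eq (by omega) c
      exact ⟨u, by rintro rfl; exact e (by simpa using hu.symm), hu⟩
  choose U U0 UQ using this
  obtain ⟨n, m1, m2, -⟩ := exists_mults (PP hf h hψ) hχ (X_inj h)
  replace m1 : ∀ u : Up f x y, wt χ (X h) (lam ψ x y u) 1 = n u := m1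
  have m3 : ∀ u : Up f x y, u ≠ 0 → n u = n (U (f.Q u)) := fun u u0 => by
    obtain ⟨k, k1, k2, k3⟩ := trans h hf (by omega) (U0 _) u0 (UQ _)
    have := wt_move h (ψ := ψ) (char_classFun hχ) one_ne_zero (g := k) (by simpa) (by simpa) (U (f.Q u))
    rw [k3, inv_one, one_smul, m1, m1] at this
    exact_mod_cast this
  have key : ∀ g : Up f x y → ℂ, ∑ u, n u * g u = n 0 * g 0 + ∑ c, n (U c) * ∑ u ∈ univ.filter (fun u : Up f x y => u ≠ 0 ∧ f.Q u = c), g u := fun g => by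
    rw [← add_sum_erase _ _ (mem_univ 0), ← sum_fiberwise (g := fun u : Up f x y => f.Q u)]
    refine congrArg _ (sum_congr rfl fun c _ => ?_)
    rw [mul_sum]
    exact sum_congr (by ext; simp) fun u hu => by obtain ⟨a, rfl⟩ := (mem_filter.1 hu).2; rw [← m3 u a]
  have m4 : (D : ℂ) = ∑ u, n u * (1 : ℂ) := by simpa [hD] using m2 0
  refine ⟨fun c => n (U c), n 0, m1 0, fun u u0 => by rw [m1, m3 u u0], ?_, ?_, fun μ μ0 c => ?_⟩
  · rw [key] at m4
    simp only [mul_one, sum_const, nsmul_eq_mul] at m4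
    exact_mod_cast m4
  · rintro _ ⟨a', b', hab, rfl⟩
    obtain ⟨k, rfl, rfl⟩ := lp_conj hf (by omega) (a := x) (b := b) ⟨h.Q_x, hb, Bx b, h.x_ne_zero, fun e => b0 (Subtype.ext
      (Submodule.disjoint_def.1 h.isCompl.disjoint _ (Submodule.span_mono (by simp) e) b.2))⟩ hab
    rw [← E_conj k h.Q_x (Bx b), char_classFun hχ, ← X_apply h, m2, m4, eq_sub_iff_add_eq', ← eq_sub_iff_add_eq, ← sum_sub_distrib]
    simp only [← mul_sub]
    rw [key, Nat.cast_sum, sum_mul, show (PP hf h hψ).e 0 b = 1 by simp [PP, lam_apply], sub_self, mul_zero, zero_add]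
    refine sum_congr rfl fun c _ => congrArg _ ?_
    rw [← cnt1 hU hψ hb b0 c (r := r) (by omega)]
    refine (sum_subset (fun u hu => mem_filter.2 ⟨mem_univ _, (mem_filter.1 hu).2.2⟩) fun u hu e => ?_).symm.trans
      (sum_congr rfl fun u _ => by rw [orth_symm]; rfl)
    simp [show u = 0 from by_contra fun e' => e (mem_filter.2 ⟨mem_univ _, e', (mem_filter.1 hu).2⟩)]
  · obtain ⟨a, h'⟩ := hU.exists_isHyp hb b0
    have h' : f.IsHyp b a := ⟨h'.1, h'.2, h'.3⟩
    let t : Fˣ := (Units.mk0 μ μ0)⁻¹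
    let k : f.Eich := ⟨_, torus_mul_inv_mem hf (Or.inl (by omega)) h h' t⟩
    have k0 : ∀ v, f.B v b = 0 → f.B v a = 0 → k ▹ v = (h.torus t).1 v := fun v e e' => by
      change (h.torus t).1 ((h'.torus t)⁻¹.1 v) = _
      rw [← h'.torus_inv, h'.torus_apply_of_B _ (f.eq_zero_symm e) (f.eq_zero_symm e')]
    have k1 : k ▹ x = μ⁻¹ • x := by rw [k0 _ (Bx b) (Bx a), h.torus_apply_x]; simp [t]
    have k2 : k ▹ y = μ⁻¹⁻¹ • y := by rw [k0 _ (By b) (By a), h.torus_apply_y]; simp [t]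
    have := wt_move h (ψ := ψ) (char_classFun hχ) (inv_ne_zero μ0) k1 k2 (U c)
    have hm : μ⁻¹⁻¹ • k ▹ (U c).1 ∈ Up f x y := by
      simpa [smul_smul, μ0] using Submodule.smul_mem _ (μ * μ) (map_Up (inv_ne_zero μ0) k1 k2 (U c))
    rw [m1, m1 ⟨_, hm⟩, m3 _ (by simpa [μ0] using U0 c)] at this
    simpa [orth_Q_smul, UQ] using this

theorem ntriv (hχ : IsCharacter _ χ) {r : ℕ} (hr : finrank F V = r + 5) {c : F}
    (h1 : ∀ u : Up f x y, u ≠ 0 → wt χ (X h) (lam ψ x y u) 1 = if f.Q u = c then 1 else 0) {a b : Up f x y} (hab : LP f a b)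
    (h2 : χ (E f a b) = χ 1 - Nat.card F ^ (r + 2))
    (h3 : ∀ u : Up f x y, u ≠ 0 → f.Q u = c → f.B a u = 0 → f.B b u = 0 → wt χ (X h) (lam ψ x y u) (E f a b) = 1) :
    charKer (fun g => wt χ (X h) (lam ψ x y 0) (ι h g)) ≠ ⊤ := fun hk => by
  classical
  have fr : finrank F (Up f x y) + 2 = _ := h.finrank_perp
  have hU : (f.restrict (Up f x y)).Nondeg := h.nondeg_perp hf
  have hab' : LP (f.restrict (Up f x y)) a b := ⟨hab.Qa, hab.Qb, hab.B, fun e => hab.a0 (by simp [e]), fun e => hab.nb (by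
    obtain ⟨t, rfl⟩ := Submodule.mem_span_singleton.1 e
    exact Submodule.smul_mem _ _ (Submodule.mem_span_singleton_self _))⟩
  have k1 := apply_of_mem_charKer (hk.ge (Subgroup.mem_top (E _ a b)))
  simp only [ι_E h hab.Qa hab.B, map_one] at k1
  have k2 := conjX h one_ne_zero (g := E f a b) (by simpa using E_fix hab.Qa hab.B (f.eq_zero_symm (Bx a)) (f.eq_zero_symm (Bx b)))
    (by simpa using E_fix hab.Qa hab.B (f.eq_zero_symm (By a)) (f.eq_zero_symm (By b)))
  have k3 : ∀ u : Up f x y, wt χ (X h) (lam ψ x y u) 1 - wt χ (X h) (lam ψ x y u) (E f a b) =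
      if f.Q u = c ∧ ¬(f.B a u = 0 ∧ f.B b u = 0) then 1 else 0 := fun u => by
    by_cases u0 : u = 0
    · simp [u0, k1]
    have := h1 u u0
    by_cases e : f.Q u = c
    · rw [if_pos e] at this
      by_cases e' : f.B a u = 0 ∧ f.B b u = 0
      · simp [this, h3 u u0 e e'.1 e'.2, e']
      obtain ⟨w, hw⟩ : ∃ w : Up f x y, ψ (f.B a w * f.B u b - f.B b w * f.B u a) ≠ 1 := by
        have := fun c => hU.exists_B_eq_of_linearIndependent hab'.li c
        by_cases e1 : f.B u b = 0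
        · obtain ⟨t, ht⟩ := psi_ne hψ (k := f.B u a) fun e2 => e' ⟨f.eq_zero_symm e2, f.eq_zero_symm e1⟩
          obtain ⟨w, hw⟩ := this ![0, -t]
          exact ⟨w, by simpa [e1, show f.B b w = -t from hw 1]⟩
        · obtain ⟨t, ht⟩ := psi_ne hψ e1
          obtain ⟨w, hw⟩ := this ![t, 0]
          exact ⟨w, by simpa [show f.B b w = 0 from hw 1, show f.B a w = t from hw 0]⟩
      rw [this, wt_eq_zero (char_classFun hχ) (mul_inv_eq_iff_eq_mul.1 (k2 w)) fun e => hw ?_, if_pos ⟨e, e'⟩, sub_zero]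
      simp only [lam_apply, one_smul, E_apply hab.Qa hab.B, hab.Qb, zero_mul, add_zero, map_sub, map_add, map_smul, smul_eq_mul,
        add_sub_assoc, AddChar.map_add_eq_mul, left_eq_mul₀ (ψ.val_isUnit _).ne_zero] at e
      exact e
    · rw [if_neg e] at this
      simp [this, wt_eq_zero_of hχ (X_inj h) this fun w => ⟨_, k2 w⟩, e]
  have k4 := sum_congr (s₁ := univ) rfl fun u _ => k3 u
  rw [sum_sub_distrib, show ∑ u : Up f x y, wt χ (X h) (lam ψ x y u) 1 = _ from sum_wt (PP hf h hψ) 1,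
    show ∑ u : Up f x y, wt χ (X h) (lam ψ x y u) _ = _ from sum_wt (PP hf h hψ) _, h2, sub_sub_cancel, sum_boole] at k4
  exact (cnt2 hU hab' c (r := r) (by omega)).ne' (by exact_mod_cast k4)

theorem core (hχ : IsCharacter _ χ) (hne : charKer χ ≠ ⊤) {r : ℕ} (hr : finrank F V = r + 4) (h2 : 2 ≤ r) {D : ℕ} (hD : χ 1 = D) :
    (∃ c, 2 * N f x y c ≤ D) ∨ ∃ (c : F) (t : ℕ), wt χ (X h) (lam ψ x y 0) 1 = t ∧ D = t + N f x y c ∧
      (∀ u : Up f x y, u ≠ 0 → wt χ (X h) (lam ψ x y u) 1 = if f.Q u = c then 1 else 0) ∧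
      (∀ g ∈ LR f, χ g = χ 1 - Nat.card F ^ (r + 1)) ∧ (∀ μ ≠ 0, μ ^ 2 * c = c) ∧
      (IsIrrCharacter _ χ → D ∣ (LR f).ncard * Nat.card F ^ (r + 1)) := by
  obtain ⟨s, t, a1, a2, a3, a4, a5⟩ := step hf h hψ hχ hr h2 hD
  rcases (by omega : ∑ c, s c = 0 ∨ ∑ c, s c = 1 ∨ 2 ≤ ∑ c, s c) with e | e | e
  · refine (hne (top_unique fun g _ => ?_)).elim
    obtain ⟨k, hk, e⟩ := hf.Eich_le_of_singular (by omega) (G := (charKer χ).map f.Eich.subtype) (fun a b hab hb => ⟨E f a b, by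
      by_cases a0 : a = 0
      · rw [show E f a b = 1 from Subtype.ext ((coe_E hab.1 hab.2).trans (by subst a0; exact f.eichler_zero_left _ _ _))]; exact one_mem _
      by_cases nb : b ∈ F ∙ a
      · obtain ⟨t, rfl⟩ := Submodule.mem_span_singleton.1 nb
        rw [E_self t hab.1]; exact one_mem _
      · exact (mem_charKer hχ).2 (by simp [a4 _ ⟨a, b, ⟨hab.1, hb, hab.2, a0, nb⟩, rfl⟩, e, hD]),
      (coe_E hab.1 hab.2).trans (f.eichler_congr _ _ rfl rfl hb)⟩) g.2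
    exact Subtype.ext e ▸ hk
  · obtain ⟨c, -, hc⟩ := exists_ne_zero_of_sum_ne_zero (e ▸ one_ne_zero : ∑ c, s c ≠ 0)
    rw [← add_sum_erase _ _ (mem_univ c)] at e
    have c1 : s c = 1 := by omega
    have c2 : ∀ d, d ≠ c → s d = 0 := fun d hd => sum_eq_zero_iff.1 (by omega : ∑ x ∈ univ.erase c, s x = 0) d (by simpa)
    have c3 : ∀ d, s d = if d = c then 1 else 0 := fun d => by split_ifs with e; exacts [e ▸ c1, c2 d e]
    have a6 : ∀ g ∈ LR f, χ g = χ 1 - Nat.card F ^ (r + 1) := fun g hg => by simp [a4 g hg, c3, hD]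
    refine Or.inr ⟨c, t, a1, by simpa [c3] using a3, fun u u0 => by simp [a2 u u0, c3], a6, fun μ μ0 => by_contra fun e => ?_, fun hi => ?_⟩
    · have := a5 μ μ0 c
      rw [c2 _ e] at this; omega
    classical
    have := Fintype.ofFinite f.Eich
    have h2 := isIntegral_sum_mul_div hi (f := fun g => if g ∈ LR f then 1 else 0) (fun g k => by
      have : k * g * k⁻¹ ∈ LR f ↔ g ∈ LR f := ⟨fun e => by simpa [mul_assoc] using conj_LR e k⁻¹, fun e => conj_LR e k⟩
      simp only [this]) fun g => by split_ifs; exacts [isIntegral_one, isIntegral_zero]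
    have h3 : ∑ g, (if g ∈ LR f then (1 : ℂ) else 0) * χ g = (((LR f).ncard * (D - Nat.card F ^ (r + 1)) : ℤ) : ℂ) := by
      rw [sum_congr rfl (g := fun g => if g ∈ LR f then (D - Nat.card F ^ (r + 1) : ℂ) else 0) fun g _ => by
        split_ifs with h
        · rw [one_mul, a6 g h, hD]
        · rw [zero_mul], ← sum_filter, sum_const, Set.ncard_eq_toFinset_card', nsmul_eq_mul]
      push_cast
      congr 3
      ext; simp
    have hd0 : D ≠ 0 := by rintro rfl; exact irr_apply_one_ne_zero hi (by simpa using hD)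
    rw [h3, hD, ← Int.cast_natCast] at h2
    have h4 := int_dvd_of_isIntegral_div (by exact_mod_cast hd0) h2
    rw [mul_sub, dvd_sub_right (dvd_mul_left _ _)] at h4
    exact Int.natCast_dvd_natCast.1 (by push_cast; exact h4)
  · obtain ⟨c, -, hc⟩ := exists_min_image univ (N f x y) univ_nonempty
    refine Or.inl ⟨c, (Nat.mul_le_mul_right _ e).trans ?_⟩
    rw [sum_mul, a3]
    exact le_add_left (sum_le_sum fun d _ => Nat.mul_le_mul_left _ (hc d (mem_univ _)))

end CA.DegO
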