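/-
Character degrees of orthogonal groups: the induction.
-/
import Cfsg.Agent.Lib.Lin.DegO3

set_option autoImplicit false
set_option linter.unusedSectionVars false

namespace CA.DegO

open Cfsg CA.Wt CA.DegSp CA.CForm CA.CForm.Form CA.AutForm CChar.CharFun CChar.CharKer CChar.CharRep Finset Module

/-- `(q² - 1)` times the bound in dimension `2 (k + 1)` -/
def Bn (q ε : ℤ) (k : ℕ) : ℤ := (q ^ (k + 1) - ε) * (q ^ k + ε * q)

section
variable {q ε P N : ℤ} (hε : ε = 1 ∨ ε = -1)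
include hε

theorem Bn_succ (k : ℕ) : Bn q ε (k + 1) = Bn q ε k + (q ^ 2 - 1) * ((q ^ (k + 1) - ε) * (q ^ k + ε) + 1) := by
  rcases hε with rfl | rfl <;> (simp only [Bn]; ring)

theorem dvd_Bn (k : ℕ) : q ^ 2 - 1 ∣ Bn q ε k := by
  induction k with
  | zero => rcases hε with rfl | rfl; exacts [⟨1, by simp only [Bn]; ring⟩, ⟨-1, by simp only [Bn]; ring⟩]
  | succ k ih => rw [Bn_succ hε]; exact ih.add (dvd_mul_right _ _)

theorem ar1 (hq : 2 ≤ q) (hP : q ≤ P) (h2 : ε = -1 ∨ q ^ 2 ≤ P) (hN : N = (q * P - ε) * (P + ε) ∨ N = q * P ^ 2 - ε * P) :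
    (q ^ 2 * P - ε) * (q * P + ε * q) ≤ (q ^ 2 - 1) * (2 * N) := by
  obtain ⟨a, rfl⟩ : ∃ a, q = a + 2 := ⟨q - 2, by ring⟩
  have ha : 0 ≤ a := by omega
  rw [← sub_nonneg]
  rcases hε with rfl | rfl
  · obtain ⟨b, rfl⟩ : ∃ b, P = b + (a + 2) ^ 2 := ⟨P - (a + 2) ^ 2, by ring⟩
    have hb : 0 ≤ b := by omega
    rcases hN with rfl | rfl <;> (ring_nf; positivity)
  · obtain ⟨b, rfl⟩ : ∃ b, P = b + (a + 2) := ⟨P - (a + 2), by ring⟩
    have hb : 0 ≤ b := by omega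
    rcases hN with rfl | rfl <;> (ring_nf; positivity)

theorem ar2 {D K : ℤ} {e : ℕ} (hq : 2 ≤ q) (hP : q ^ 2 ≤ P) (hD : (q ^ 2 * P - ε) * (q * P + ε * q) = (q ^ 2 - 1) * (D + 1))
    (hK : K * (q ^ 2 - 1) = (q ^ 2 * P - ε) * (q * P + ε) * ((q * P - ε) * (P + ε))) : ¬D ∣ K * q ^ e := fun h => by
  have e2 : ε ^ 2 = 1 := by rcases hε with rfl | rfl <;> simp
  have c : IsCoprime D q := ⟨-1, q * (D + 1) - (q ^ 2 * P - ε) * (P + ε), by linear_combination -hD⟩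
  have h1 : q * K = (D + 1) * ((q * P) ^ 2 - 1) := mul_left_cancel₀ (show q ^ 2 - 1 ≠ 0 by nlinarith) (by
    linear_combination q * hK + ((q * P) ^ 2 - 1) * hD - (q ^ 2 * P - ε) * (q * P + ε * q) * e2)
  obtain ⟨j, rfl⟩ := c.pow_right.dvd_of_dvd_mul_right h
  have h2 : D ∣ (q ^ 2 - 1) * (q * P - ε) := ⟨ε * (q ^ 2 - 1 - q * (q * j - ((q * P) ^ 2 - 1))), by
    rcases hε with rfl | rfl
    · linear_combination hD + q * h1
    · linear_combination -hD - q * h1⟩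
  obtain ⟨a, rfl⟩ : ∃ a, q = a + 2 := ⟨q - 2, by ring⟩
  obtain ⟨b, rfl⟩ : ∃ b, P = b + (a + 2) ^ 2 := ⟨P - (a + 2) ^ 2, by ring⟩
  have ha : 0 ≤ a := by omega
  have hb : 0 ≤ b := by omega
  have h3 := mul_le_mul_of_nonneg_left (Int.le_of_dvd (by rcases hε with rfl | rfl <;> (ring_nf; positivity)) h2)
    (show 0 ≤ (a + 2) ^ 2 - 1 by ring_nf; positivity)
  rw [mul_add _ D, mul_one, ← sub_eq_iff_eq_add] at hD
  rw [← hD, ← sub_nonneg, ← not_lt, ← neg_pos] at h3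
  rcases hε with rfl | rfl <;> exact h3 (by ring_nf; positivity)

end

universe u
variable {F : Type*} [Field F] [Fintype F] [DecidableEq F] {V : Type u} [AddCommGroup V] [Module F V] {f : Form (Kind.orth F) V}
  [FiniteDimensional F V] {ε : ℤ} {k : ℕ} {x y : V} {ψ : AddChar F ℂ}

local notation "𝔮" => (Nat.card F : ℤ)

variable (f) in
/-- spaces of dimension `2 n` and type `ε` -/
structure Ty (ε : ℤ) (n : ℕ) : Prop where
  nd : f.Nondeg
  fr : finrank F V = 2 * n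
  ix : ε = 1 ∧ f.IsIndex n ∨ ε = -1 ∧ ∃ m, n = m + 1 ∧ f.IsIndex m

theorem exists_psi0 : ∃ ψ : AddChar F ℂ, ψ ≠ 0 :=
  (AddChar.exists_apply_ne_zero.2 (one_ne_zero' F)).imp fun _ h => AddChar.ne_zero_iff.2 ⟨1, h⟩

theorem Ty.eps (T : Ty f ε k) : ε = 1 ∨ ε = -1 := T.ix.imp And.left And.left

theorem Ty.perp (T : Ty f ε (k + 2)) (h : f.IsHyp x y) : Ty (f.restrict (Up f x y)) ε (k + 1) :=
  ⟨h.nondeg_perp T.nd, by have := h.finrank_perp; have := T.fr; change finrank F (f.perp _) = _; omega,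
    T.ix.imp (And.imp_right (h.isIndex_perp T.nd)) (And.imp_right fun ⟨m, e, i⟩ => ⟨k, rfl, h.isIndex_perp T.nd (by
      rwa [show k + 1 = m by omega])⟩)⟩

theorem two_le : 2 ≤ 𝔮 := by exact_mod_cast one_lt_natCard (F := F)

theorem Ty.sing (T : Ty f ε (k + 1)) : ((Nat.card {v // f.Q v = 0} - 1 : ℕ) : ℤ) = (𝔮 ^ (k + 1) - ε) * (𝔮 ^ k + ε) := by
  have : Finite V := Module.finite_of_finite F
  have : Nonempty {v // f.Q v = 0} := ⟨⟨0, Q_zero _⟩⟩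
  rw [Nat.cast_sub Nat.card_pos]
  refine mul_left_cancel₀ (show 𝔮 ≠ 0 by have := two_le (F := F); omega) ?_
  rcases T.ix with ⟨rfl, i⟩ | ⟨rfl, m, e, i⟩
  · have := IsIndex.card_singular _ 0 i T.nd T.fr
    zify at this
    push_cast
    linear_combination this
  · obtain rfl : k = m := by omega
    have := IsIndex.card_singular _ 2 i T.nd T.fr
    zify at this
    push_cast
    linear_combination this

theorem Ty.level (T : Ty f ε (k + 1)) {c : F} (hc : c ≠ 0) : (Nat.card {v // f.Q v = c} : ℤ) = 𝔮 * (𝔮 ^ k) ^ 2 - ε * 𝔮 ^ k := by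
  refine mul_left_cancel₀ (show 𝔮 ≠ 0 by have := two_le (F := F); omega) ?_
  rcases T.ix with ⟨rfl, i⟩ | ⟨rfl, m, e, i⟩
  · linear_combination card_plus hc i T.nd T.fr
  · obtain rfl : k = m := by omega
    linear_combination card_minus hc i T.nd T.fr

theorem Ty.N0 (T : Ty f ε (k + 2)) (h : f.IsHyp x y) [Fintype (Up f x y)] : (N f x y 0 : ℤ) = (𝔮 ^ (k + 1) - ε) * (𝔮 ^ k + ε) := by
  rw [N_zero, (T.perp h).sing]

theorem Ty.Nc (T : Ty f ε (k + 2)) (h : f.IsHyp x y) [Fintype (Up f x y)] {c : F} (hc : c ≠ 0) :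
    (N f x y c : ℤ) = 𝔮 * (𝔮 ^ k) ^ 2 - ε * 𝔮 ^ k := by
  rw [N_ne hc, (T.perp h).level hc]

theorem Ty.hyp (T : Ty f ε (k + 2)) : ∃ x y, f.IsHyp x y := by
  obtain ⟨x, x0, hx⟩ := exists_singular' f (by have := T.fr; omega)
  exact ⟨x, T.nd.exists_isHyp hx x0⟩

theorem Ty.core (T : Ty f ε (k + 3)) (H : ε = -1 ∨ 1 ≤ k) (h : f.IsHyp x y) [Fintype (Up f x y)] (hψ : ψ ≠ 0) {χ : f.Eich → ℂ}
    (hχ : IsCharacter _ χ) (hne : charKer χ ≠ ⊤) {D : ℕ} (hD : χ 1 = D) (hlt : (𝔮 ^ 2 - 1) * D < Bn 𝔮 ε (k + 2)) :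
    ∃ (c : F) (t : ℕ), wt χ (X h) (lam ψ x y 0) 1 = t ∧ D = t + N f x y c ∧
      (∀ u : Up f x y, u ≠ 0 → wt χ (X h) (lam ψ x y u) 1 = if f.Q u = c then 1 else 0) ∧
      (∀ g ∈ LR f, χ g = χ 1 - Nat.card F ^ (2 * k + 2 + 1)) ∧ (∀ μ ≠ 0, μ ^ 2 * c = c) ∧
      (IsIrrCharacter _ χ → D ∣ (LR f).ncard * Nat.card F ^ (2 * k + 2 + 1)) := by
  refine (DegO.core T.nd h hψ hχ hne (r := 2 * k + 2) (by have := T.fr; omega) (by omega) hD).resolve_left fun ⟨c, hc⟩ => hlt.not_ge ?_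
  have hq := two_le (F := F)
  have := ar1 (N := N f x y c) (P := 𝔮 ^ (k + 1)) T.eps hq (le_self_pow₀ (by omega) (by omega)) (H.imp_right fun e => pow_le_pow_right₀ (by omega) (by omega))
    ((eq_or_ne c 0).imp (fun e => by rw [e, T.N0 h]; ring) (T.Nc h))
  refine (le_of_eq (by simp only [Bn]; ring)).trans (this.trans (mul_le_mul_of_nonneg_left (by exact_mod_cast hc) (by nlinarith)))

variable (f) in
/-- the bound -/
def Bd (ε : ℤ) (k e : ℕ) : Prop :=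
  ∀ χ : f.Eich → ℂ, IsCharacter _ χ → charKer χ ≠ ⊤ → ∀ D : ℕ, χ 1 = D → Bn 𝔮 ε k ≤ (𝔮 ^ 2 - 1) * (D + e)

theorem Ty.fin (T : Ty f ε (k + 4)) (H : Bd f ε (k + 3) 1) : Bd f ε (k + 3) 0 := fun χ hχ hne D hD => by
  have : Finite V := Module.finite_of_finite F
  have hq := two_le (F := F)
  have q0 : 0 < 𝔮 ^ 2 - 1 := by nlinarith
  obtain ⟨φ, hφ, h1, d, hd, h2⟩ := exists_irr hχ hne hD
  refine le_trans (not_lt.1 fun hlt => ?_) (mul_le_mul_of_nonneg_left (show (d : ℤ) ≤ _ by push_cast; omega) q0.le)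
  obtain ⟨x, y, h⟩ := T.hyp
  have := Fintype.ofFinite (Up f x y)
  obtain ⟨ψ, hψ⟩ := exists_psi0 (F := F)
  obtain ⟨-, -, -, -, -, -, -, h3⟩ := T.core (Or.inr (by omega)) h hψ (char_of_irr hφ) h1 h2 hlt
  obtain ⟨b, hb⟩ := dvd_Bn (q := 𝔮) T.eps (k + 3)
  have h4 := H φ (char_of_irr hφ) h1 d h2
  rw [hb, mul_lt_mul_iff_right₀ q0] at hlt
  rw [hb, mul_le_mul_iff_right₀ q0] at h4
  have h5 := congrArg (Nat.cast : ℕ → ℤ) (card_LR h T.nd)
  rw [Nat.cast_mul, Nat.cast_mul, T.sing, (T.perp h).sing, Nat.cast_sub (Nat.one_le_pow _ _ Nat.card_pos)] at h5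
  refine ar2 (D := d) (P := 𝔮 ^ (k + 2)) (K := (LR f).ncard) T.eps hq (pow_le_pow_right₀ (by omega) (by omega)) ?_ ?_
    (by exact_mod_cast h3 hφ)
  · rw [show (d : ℤ) + 1 = b by push_cast at h4; omega, ← hb, Bn]; ring
  · push_cast at h5; linear_combination h5

theorem exists_LP (T : Ty f ε (k + 4)) (h : f.IsHyp x y) : ∃ a b : Up f x y, LP f a b := by
  obtain ⟨a, a', h'⟩ := (T.perp h).hyp
  obtain ⟨b, b0, hb⟩ := exists_singular' ((f.restrict _).restrict (Up _ a a')) (((T.perp h).perp h').fr.ge.trans' (by omega))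
  refine ⟨a, b, h'.Q_x, hb, Bx b, by simpa using h'.x_ne_zero, fun e => b0 (Subtype.ext
    (Submodule.disjoint_def.1 h'.isCompl.disjoint _ ?_ b.2))⟩
  obtain ⟨t, e⟩ := Submodule.mem_span_singleton.1 e
  exact Submodule.mem_span_pair.2 ⟨t, 0, Subtype.ext (by simpa)⟩

theorem Ty.up (T : Ty f ε (k + 4)) (H : (ε = -1 ∧ 1 ≤ k) ∨ ∃ t : F, t ≠ 0 ∧ t * t ≠ 1)
    (ih : ∀ x y, f.IsHyp x y → Bd (f.restrict (Up f x y)) ε (k + 2) 0) : Bd f ε (k + 3) 0 := T.fin fun χ hχ hne D hD => by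
  have : Finite V := Module.finite_of_finite F
  have hq := two_le (F := F)
  have q0 : 0 < 𝔮 ^ 2 - 1 := by nlinarith
  obtain ⟨x, y, h⟩ := T.hyp
  have := Fintype.ofFinite (Up f x y)
  obtain ⟨ψ, hψ⟩ := exists_psi0 (F := F)
  by_contra hlt
  obtain ⟨c, t, a1, a2, a3, a4, a5, -⟩ := T.core (Or.inr (by omega)) h hψ hχ hne hD (by push_cast at hlt; linarith)
  obtain ⟨a, b, hab⟩ := exists_LP T h
  have fr := T.fr
  have h1 := ih x y h _ (char_T h hχ) (ntriv T.nd h hψ hχ (r := 2 * k + 3) (by omega) a3 hab (a4 _ ⟨a, b, hab, rfl⟩)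
    fun u u0 e e1 e2 => triv h T.nd hχ (by rw [a3 u u0, if_pos e]) hab e1 e2 (by omega) (Or.inr (H.imp_left fun e => by omega))) t
    (by simpa using a1)
  have h2 : (N f x y 0 : ℤ) ≤ N f x y c := by
    by_cases e : c = 0
    · rw [e]
    obtain ⟨rfl, -⟩ := H.resolve_right fun ⟨t, t0, ht⟩ => ht (by simpa [e, sq] using a5 t t0)
    rw [T.N0 h, T.Nc h e, pow_succ _ (k + 2)]
    nlinarith [pow_pos (show 0 < 𝔮 by omega) (k + 2)]
  rw [Bn_succ T.eps, ← T.N0 h, a2] at hlt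
  push_cast at hlt h1
  nlinarith

end CA.DegO
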