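/-
Character degrees of orthogonal groups: the group `Ω⁻₈`.
-/
import Cfsg.Agent.Lib.Lin.DegO4

set_option autoImplicit false
set_option linter.unusedSectionVars false

namespace CA.DegO

open Cfsg CA.Wt CA.DegSp CA.CForm CA.CForm.Form CA.AutForm CChar.CharFun CChar.CharKer CChar.CharRep Finset Module

universe u
variable {F : Type*} [Field F] [Fintype F] [DecidableEq F] {V : Type u} [AddCommGroup V] [Module F V] {f : Form (Kind.orth F) V}
  [FiniteDimensional F V] {ψ : AddChar F ℂ} {M : Type*} [AddCommGroup M] [Module ℂ M] (ρ : Representation ℂ f.Eich M)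

/-- vectors fixed by a subgroup of the stabiliser of a line -/
def Y (L : Submodule F V) : Submodule ℂ M where
  carrier := {v | ∀ a ∈ L, ∀ w ∈ f.perp L, ρ (E f a w) v = v}
  add_mem' h1 h2 a ha w hw := by rw [map_add, h1 a ha w hw, h2 a ha w hw]
  zero_mem' _ _ _ _ := map_zero _
  smul_mem' c v h a ha w hw := by rw [map_smul, h a ha w hw]

theorem orth_Q_sub (a b : V) : f.Q (a - b) = f.Q a + f.Q b - f.B a b := f.Q_sub a b

theorem ts_span_pair {a b : V} (ha : f.Q a = 0) (hb : f.Q b = 0) (h : f.B a b = 0) : f.TS (Submodule.span F {a, b}) :=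
  ts_span (by simp [ha, hb]) (by simp [ha, hb, h, f.eq_zero_symm h, orth_B_self])

theorem span_eq {r : F} (r0 : r ≠ 0) (s : F) (a b : V) : Submodule.span F {r • a + s • b, b} = Submodule.span F {a, b} := by
  refine le_antisymm ?_ ?_ <;> simp only [Submodule.span_le, Set.insert_subset_iff, Set.singleton_subset_iff, SetLike.mem_coe, Submodule.mem_span_pair]
  exacts [⟨⟨r, s, rfl⟩, 0, 1, by simp⟩, ⟨⟨r⁻¹, -(r⁻¹ * s), by simp [r0, mul_smul]⟩, 0, 1, by simp⟩]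

theorem eq_zero_of {c : ℂ} {v : M} (h : c • v = v) (hc : c ≠ 1) : v = 0 := by
  rwa [← sub_eq_zero, ← one_smul ℂ v, smul_smul, mul_one, ← sub_smul, smul_eq_zero_iff_right (sub_ne_zero.2 hc)] at h

variable {ρ}
theorem Y_inv {L : Submodule F V} (hL : f.TS L) {g : f.Eich} (h1 : ∀ a ∈ L, g ▹ a ∈ L) (h2 : ∀ a ∈ L, g⁻¹ ▹ a ∈ L) {v : M}
    (hv : v ∈ Y ρ L) : ρ g v ∈ Y ρ L := fun a ha w hw => by
  have := hv _ (h2 a ha) (g⁻¹ ▹ w) fun b hb => by rw [← f.B_coe_map g.1]; simpa using hw _ (h1 b hb)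
  rw [← E_conj _ (hL.Q_eq a ha) (hw a ha)] at this
  simpa [← End.mul_apply, ← map_mul, mul_assoc] using congrArg (ρ g) this

theorem fix_add {a b c : V} {v : M} (ha : f.Q a = 0) (h : f.B a b = 0) (h' : f.B a c = 0) (h1 : ρ (E f a b) v = v) (h2 : ρ (E f a c) v = v)
    {d : V} (e : d = b + c) : ρ (E f a d) v = v := by
  rw [e, E_add ha h h', map_mul, End.mul_apply, h2, h1]

variable (H0 : ∀ a a' b b', f.IsHyp a a' → f.IsHyp b b' → b ∈ Up f a a' → b' ∈ Up f a a' → ∀ v, (∀ w ∈ Up f a a', ρ (E f a w) v = v) →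
    (∀ w ∈ Up f a a', w ∈ Up f b b' → ρ (E f b w) v = v) → v = 0)
  (H2 : ∀ x y (h : f.IsHyp x y) (u b : Up f x y), u ≠ 0 → f.Q u = 0 → f.Q b = 0 → f.B u b = 0 → ∀ v ∈ Ws ρ (X h) (lam ψ x y u), ρ (E f u b) v = v)
include H0 H2

theorem L1 {x y : V} (h : f.IsHyp x y) [Fintype (Up f x y)] {a a' b b' : V} (ha : f.IsHyp a a') (hb : f.IsHyp b b') (h1 : b ∈ Up f a a')
    (h2 : b' ∈ Up f a a') (a1 : a ∈ Up f x y) (b1 : b' ∈ Up f x y) {v : M} (hv : v ∈ Y ρ (Submodule.span F {a, b})) :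
    pj ρ (X h) (lam ψ x y a) v = 0 := by
  have c1 : f.B a b = 0 := Bx ⟨b, h1⟩
  have c2 : ∀ t : F, f.B a (t • b') = 0 := fun t => by simp [show f.B a b' = 0 from Bx ⟨b', h2⟩]
  have ma : a ∈ Submodule.span F {a, b} := Submodule.subset_span (by simp)
  have mb : b ∈ Submodule.span F {a, b} := Submodule.subset_span (by simp)
  let A : AddChar F f.Eich := ⟨fun t => E f a (t • b'), by simp [E_zero], fun s t => by rw [add_smul, E_add ha.Q_x (c2 s) (c2 t)]⟩
  have k1 : ∀ t, ∀ c ∈ Submodule.span F {a, b}, A t ▹ c ∈ Submodule.span F {a, b} := fun t c hc => by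
    obtain ⟨r, s, rfl⟩ := Submodule.mem_span_pair.1 hc
    rw [show A t ▹ _ = _ from E_apply ha.Q_x (c2 t) _, show f.B a (r • a + s • b) = 0 by simp [c1, orth_B_self, ha.Q_x], zero_smul, add_zero]
    exact sub_mem hc (Submodule.smul_mem _ _ ma)
  have k2 : pj ρ A 0 v ∈ Y ρ (Submodule.span F {a, b}) := by
    rw [pj, LinearMap.smul_apply, LinearMap.sum_apply]
    exact Submodule.smul_mem _ _ (Submodule.sum_mem _ fun t _ => Submodule.smul_mem _ _
      (Y_inv (ts_span_pair ha.Q_x hb.Q_x c1) (k1 t) (AddChar.map_neg_eq_inv A t ▸ k1 (-t)) hv))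
  have k3 := H0 a a' b b' ha hb h1 h2 _ (fun w hw => fix_add ha.Q_x ?_ (c2 _) (k2 a ma (w - f.B b w • b') (f.mem_perp_span_pair.2 ⟨?_, ?_⟩))
    ((pj_mem ρ A 0 v _).trans (by simp)) (sub_add_cancel _ _).symm) fun w h1 h2 => k2 b mb w (f.mem_perp_span_pair.2 ⟨Bx ⟨w, h1⟩, Bx ⟨w, h2⟩⟩)
  · have k4 : ∀ t, ρ (A t) * pj ρ (X h) (lam ψ x y a) = pj ρ (X h) (lam ψ x y a) * ρ (A t) := fun t => pj_comm (X_inj h)
      (E_stab h ha.Q_x (c2 t) a1 (Submodule.smul_mem _ _ b1) (by simp [orth_B_self, ha.Q_x]) (f.eq_zero_symm (c2 t)))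
    rw [← pj_of_mem (ρ := ρ) (x := A) (ψ := 0) (v := pj ρ (X h) (lam ψ x y a) v) fun t => (H2 x y h ⟨a, a1⟩ ⟨_, Submodule.smul_mem _ t b1⟩
      (by simpa using ha.x_ne_zero) ha.Q_x (by simp [orth_Q_smul, hb.Q_y]) (c2 t) _ (pj_mem _ _ _ _)).trans (by simp), ← map_zero (pj ρ (X h) (lam ψ x y a)),
      ← k3, ← End.mul_apply, ← End.mul_apply, pj.eq_1 ρ A]
    simp only [smul_mul_assoc, mul_smul_comm, sum_mul, mul_sum, k4]
  · rw [map_sub, c2, Bx ⟨w, hw⟩, sub_zero]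
  · rw [map_sub, c2, Bx ⟨w, hw⟩, sub_zero]
  · simp [hb.B_xy]

theorem vec (hf : f.Nondeg) (hψ : ψ ≠ 0) {e y : Fin 3 → V} (hS : f.HypSys e y)
    (han : ∀ v ∈ f.perp (Submodule.span F (Set.range (Sum.elim e y))), f.Q v = 0 → v = 0)
    (H1 : ∀ u : Up f (e 2) (y 2), f.Q u ≠ 0 → ∀ v ∈ Ws ρ (X (hS.isHyp 2)) (lam ψ _ _ u), v = 0)
    {v : M} (hv : v ∈ Ws ρ (X (hS.isHyp 0)) (lam ψ _ _ (e 1))) : v = 0 := by
  classical
  have : Finite V := Module.finite_of_finite F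
  have := Fintype.ofFinite (Up f (e 2) (y 2))
  have ee := hS.B_ee
  have yy := hS.B_yy
  have qe := hS.Q_e
  have qy := hS.Q_y
  have ey : ∀ i j, f.B (e i) (y j) = if i = j then 1 else 0 := fun i j => by
    split_ifs with h
    exacts [h ▸ hS.B_ey i, hS.B_ey' i j h]
  have ye : ∀ i j, f.B (y i) (e j) = if j = i then 1 else 0 := fun i j => by rw [orth_symm, ey]
  have s1 : ∀ w, f.B (e 0) w = 0 → f.B (e 1) w = 0 → ρ (E f (e 0) w) v = v := fun w h0 h1 =>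
    fix_add (qe 0) (by simp [ee, h0]) (by simp [ee]) ((hv ⟨w - f.B (y 0) w • e 0, mem_Up (by simp [ee, h0]) (by simp [ye])⟩).trans
      (by simp [lam_apply, h1, ee])) (by rw [E_self _ (qe 0)]; simp) (sub_add_cancel _ _).symm
  have s2 : ∀ w, f.B (e 0) w = 0 → f.B (e 1) w = 0 → f.Q w = 0 → ρ (E f (e 1) w) v = v := fun w h0 h1 h2 =>
    fix_add (qe 1) (by simp [ee, h1]) (by simp [ee]) (H2 _ _ _ ⟨e 1, mem_Up (ee _ _) (by simp [ye])⟩
      ⟨w - f.B (y 0) w • e 0, mem_Up (by simp [ee, h0]) (by simp [ye])⟩ (by simpa using (hS.isHyp 1).x_ne_zero) (qe 1)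
      (by simp [orth_Q_sub, orth_Q_smul, h2, qe, f.eq_zero_symm h0]) (by simp [ee, h1]) v hv)
      (by rw [E_swap (qe 1) (by simp [orth_Q_smul, qe]) (by simp [ee]), E_smul _ (qe 0) (by simp [ee])]
          exact s1 _ (by simp [ee]) (by simp [ee])) (sub_add_cancel _ _).symm
  have hY : v ∈ Y ρ (Submodule.span F {e 0, e 1}) := fun a ha w hw => by
    obtain ⟨r, s, rfl⟩ := Submodule.mem_span_pair.1 ha
    have qa : f.Q (r • e 0 + s • e 1) = 0 := (ts_span_pair (qe 0) (qe 1) (ee 0 1)).Q_eq _ ha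
    have s3 : ∀ w, f.B (e 0) w = 0 → f.B (e 1) w = 0 → f.Q w = 0 → ρ (E f (r • e 0 + s • e 1) w) v = v := fun w h0 h1 h2 => by
      rw [E_swap qa h2 (by simp [h0, h1])]
      refine fix_add h2 (by simp [f.eq_zero_symm h0]) (by simp [f.eq_zero_symm h1]) ?_ ?_ (neg_add _ _)
      · rw [← E_swap (by simp [orth_Q_smul, qe]) h2 (by simp [h0]), E_smul _ (qe 0) h0]
        exact s1 _ (by simp [h0]) (by simp [h1])
      · rw [← E_swap (by simp [orth_Q_smul, qe]) h2 (by simp [h1]), E_smul _ (qe 1) h1]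
        exact s2 _ (by simp [h0]) (by simp [h1]) (by simp [orth_Q_smul, h2])
    obtain ⟨h0, h1⟩ := f.mem_perp_span_pair.1 hw
    let p := w - (f.B (e 2) w - 1) • y 2
    have p0 : f.B (e 0) p = 0 := by simp [p, h0, ey]
    have p1 : f.B (e 1) p = 0 := by simp [p, h1, ey]
    have p2 : f.B p (e 2) = 1 := by rw [orth_symm]; simp [p, ey]
    exact fix_add qa (by simp [p0, p1]) (by simp [ey]) (fix_add qa (by simp [p0, p1, ee]) (by simp [ee])
      (s3 (p - f.Q p • e 2) (by simp [p0, ee]) (by simp [p1, ee]) (by simp [orth_Q_sub, orth_Q_smul, qe, p2]))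
      (s3 _ (by simp [ee]) (by simp [ee]) (by simp [orth_Q_smul, qe])) (sub_add_cancel _ _).symm)
      (s3 _ (by simp [ey]) (by simp [ey]) (by simp [orth_Q_smul, qy])) (sub_add_cancel _ _).symm
  have s4 : ∀ u : Up f (e 2) (y 2), u ≠ 0 → pj ρ (X (hS.isHyp 2)) (lam ψ _ _ u) v = 0 := fun u u0 => by
    by_cases hQ : f.Q u = 0
    swap
    · exact H1 u hQ _ (pj_mem _ _ _ _)
    have s5 : ∀ i, i ≠ 2 → e i ∈ Submodule.span F {e 0, e 1} → f.B u (e i) ≠ 0 → pj ρ (X (hS.isHyp 2)) (lam ψ _ _ u) v = 0 := fun i hi h1 h2 => by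
      obtain ⟨t, ht⟩ := psi_ne hψ h2
      let w : Up f (e 2) (y 2) := ⟨t • e i, mem_Up (by simp [ee]) (by simp [ye, hi])⟩
      have := pj_comm (ρ := ρ) (X_inj (hS.isHyp 2)) (x_mem_stab (ψ := lam ψ (e 2) (y 2) u) _ w)
      rw [mul_pj] at this
      replace this := LinearMap.congr_fun this v
      rw [End.mul_apply, X_apply, E_swap (qe 2) (by simp [w, orth_Q_smul, qe]) (by simp [w, ee]), hY _ (Submodule.smul_mem _ _ h1) _
        (f.mem_perp_span_pair.2 ⟨by simp [ee], by simp [ee]⟩)] at this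
      exact eq_zero_of this (by simpa [lam_apply, w])
    by_cases h0 : f.B u (e 0) = 0
    swap
    · exact s5 0 (by simp) (Submodule.subset_span (by simp)) h0
    by_cases h1 : f.B u (e 1) = 0
    swap
    · exact s5 1 (by simp) (Submodule.subset_span (by simp)) h1
    have hu : u = f.B (y 0) u • e 0 + f.B (y 1) u • e 1 := sub_eq_zero.1 (han _ (f.mem_perp_span.2 ?_)
      (by simp [orth_Q_sub, orth_Q_add, orth_Q_smul, hQ, qe, ee, h0, h1]))
    · generalize f.B (y 0) u = r, f.B (y 1) u = s at hu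
      by_cases r0 : r = 0
      · have s0 : s ≠ 0 := by rintro rfl; exact u0 (Subtype.ext (by simp [hu, r0]))
        refine L1 H0 H2 _ (a' := s⁻¹ • y 1) ⟨hQ, by simp [orth_Q_smul, qy], by simp [hu, ey, s0]⟩ (hS.isHyp 0) (mem_Up h0 (by simp [ye]))
          (mem_Up (by simp [hu, ey, r0]) (by simp [yy])) u.2 (mem_Up (by simp [ey]) (yy _ _)) ?_
        rwa [hu, add_comm, span_eq s0, Set.pair_comm]
      · refine L1 H0 H2 _ (a' := r⁻¹ • y 0) (b := e 1) (b' := y 1 - (s / r) • y 0) ⟨hQ, by simp [orth_Q_smul, qy], by simp [hu, ey, r0]⟩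
          ⟨qe 1, by simp [orth_Q_sub, orth_Q_smul, qy, yy], by simp [ey]⟩ (mem_Up h1 (by simp [ye]))
          (mem_Up (by simp [hu, ey, r0, mul_div_cancel₀]) (by simp [yy])) u.2 (mem_Up (by simp [ey]) (by simp [yy])) ?_
        rwa [hu, span_eq r0]
    · rintro _ ⟨i | i, rfl⟩ <;> fin_cases i <;> simp [ee, ye, f.eq_zero_symm h0, f.eq_zero_symm h1, Bx u, By u]
  have s6 := (sum_eq_single 0 (fun u _ => s4 u) (by simp)).symm.trans (sum_pj (PP hf (hS.isHyp 2) hψ) v)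
  have s7 : ρ (E f (e 2) (y 1)) v = v :=
    ((s6 ▸ pj_mem ρ _ _ v : v ∈ Ws ρ _ _) ⟨y 1, mem_Up (by simp [ey]) (yy _ _)⟩).trans (by simp [lam_apply])
  obtain ⟨t, ht⟩ := AddChar.ne_zero_iff.1 hψ
  have s8 := mul_inv_eq_iff_eq_mul.1 (E_conj (E f (e 2) (y 1)) (b := t • y 2) (qe 0) (by simp [ey]))
  have c : f.B (e 2) (y 1) = 0 := by simp [ey]
  rw [E_fix (qe 2) c (ee _ _) (by simp [ye]), E_apply (qe 2) c] at s8
  replace s8 := LinearMap.congr_fun (congrArg ρ s8) v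
  rw [map_mul, map_mul, End.mul_apply, End.mul_apply, s1 _ (by simp [ey]) (by simp [ey]), s7, show ρ (E f (e 0) _) v = _ from
    hv ⟨_, mem_Up (by simp [ey, ee]) (by simp [yy, ye])⟩] at s8
  exact eq_zero_of s8.symm (by simpa [lam_apply, ey, ee])

omit H0 H2 in
theorem weak4 (T : Ty f (-1) 4) : Bd f (-1) 3 1 := by
  rintro _ ⟨n, ρ, rfl⟩ hne D hD
  by_contra hlt
  have : Finite V := Module.finite_of_finite F
  have (x y : V) : Fintype (Up f x y) := Fintype.ofFinite _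
  have hq := two_le (F := F)
  have q0 : 0 < (Nat.card F : ℤ) ^ 2 - 1 := by nlinarith
  have fr := T.fr
  have hχ := isCharacter_character ρ
  obtain ⟨ψ, hψ⟩ := exists_psi0 (F := F)
  obtain ⟨-, m, e, i⟩ := T.ix.resolve_left (by simp)
  obtain rfl : m = 3 := by omega
  have A : ∀ x y (h : f.IsHyp x y), ∃ t : ℕ, wt ρ.character (X h) (lam ψ x y 0) 1 = t ∧ D = t + N f x y 0 ∧
      (∀ u : Up f x y, u ≠ 0 → wt ρ.character (X h) (lam ψ x y u) 1 = if f.Q u = 0 then 1 else 0) ∧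
      ∀ g ∈ LR f, ρ.character g = ρ.character 1 - Nat.card F ^ (3 + 2) := fun x y h => by
    obtain ⟨c, t, a1, a2, a3, a4, -⟩ := Ty.core (k := 1) T (Or.inl rfl) h hψ hχ hne hD (by push_cast at hlt; linarith)
    obtain rfl : c = 0 := by_contra fun e => hlt (by
      have := Ty.Nc (k := 2) T h e
      refine le_of_eq_of_le (b := ((Nat.card F : ℤ) ^ 2 - 1) * (Nat.card F * (Nat.card F ^ 2) ^ 2 + Nat.card F)) (by simp only [Bn]; ring)
        (mul_le_mul_of_nonneg_left ?_ q0.le)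
      rw [a2]
      push_cast
      nlinarith)
    exact ⟨t, a1, a2, a3, a4⟩
  have B : ∀ x y (h : f.IsHyp x y) (a b u : Up f x y), LP f a b → u ≠ 0 → f.Q u = 0 → f.B a u = 0 → f.B b u = 0 →
      wt ρ.character (X h) (lam ψ x y u) (E f a b) = 1 := fun x y h a b u hab u0 e e1 e2 => by
    obtain ⟨t, -, -, a3, -⟩ := A x y h
    refine triv h T.nd hχ (by rw [a3 u u0, if_pos e]) hab e1 e2 (by omega) (Or.inl ((h.isIndex_perp T.nd i).mem_of_finrank_eq
      (ts_span_pair hab.Qa hab.Qb hab.B) ?_ ((f.restrict _).mem_perp_span_pair.2 ⟨e1, e2⟩) e))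
    have := finrank_span_eq_card (LinearIndependent.of_comp (Up f x y).subtype (v := ![a, b]) (by convert hab.li; ext i; fin_cases i <;> rfl))
    rwa [Matrix.range_cons_cons_empty] at this
  obtain ⟨e, y, hS, han⟩ := i.exists_hypSys T.nd
  let u : Up f (e 0) (y 0) := ⟨e 1, mem_Up (hS.B_ee _ _) (f.eq_zero_symm (hS.B_ey' _ _ (by simp)))⟩
  obtain ⟨v, hv, v0⟩ := Submodule.exists_mem_ne_zero_of_ne_bot (p := Ws ρ (X (hS.isHyp 0)) (lam ψ _ _ u)) fun e' => by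
    obtain ⟨t, -, -, a3, -⟩ := A _ _ (hS.isHyp 0)
    have := a3 u (by simpa [u] using (hS.isHyp 1).x_ne_zero)
    rw [← finrank_Ws (X_inj _), e', if_pos (hS.Q_e 1)] at this
    simp at this
  refine v0 (vec ?_ (fun x y h u b u0 qu qb hb v hv => ?_) T.nd hψ hS han (fun u hu v hv => ?_) hv)
  · intro x y x' y' h h' hx hy v h1 h2
    obtain ⟨t, a1, a2, a3, a4⟩ := A x y h
    obtain ⟨a, b, hab⟩ := exists_LP (k := 0) T h
    have h'' : (f.restrict (Up f x y)).IsHyp ⟨x', hx⟩ ⟨y', hy⟩ := ⟨h'.1, h'.2, h'.3⟩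
    have := Fintype.ofFinite (Up (f.restrict (Up f x y)) ⟨x', hx⟩ ⟨y', hy⟩)
    have T' := Ty.perp (k := 2) T h
    rw [Bn_succ (.inr rfl), ← Ty.N0 (k := 2) T h, a2] at hlt
    push_cast at hlt
    obtain ⟨c, s, b1, b2, -⟩ := Ty.core (k := 0) T' (Or.inl rfl) h'' hψ (char_T h hχ) (ntriv T.nd h hψ hχ (r := 3) (by omega) a3 hab
      (a4 _ ⟨a, b, hab, rfl⟩) fun u => B x y h a b u hab) (D := t) (by simpa using a1) (by linarith)
    obtain rfl : s = 0 := by
      rw [Bn_succ (.inr rfl), ← Ty.N0 (k := 1) T' h'', show Bn _ (-1) 1 = 0 by simp [Bn], b2] at hlt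
      push_cast at hlt
      have : (N (f.restrict (Up f x y)) ⟨x', hx⟩ ⟨y', hy⟩ 0 : ℤ) ≤ N (f.restrict (Up f x y)) ⟨x', hx⟩ ⟨y', hy⟩ c := by
        by_cases e : c = 0
        · rw [e]
        rw [Ty.N0 (k := 1) T' h'', Ty.Nc (k := 1) T' h'' e, ← sub_nonneg]
        ring_nf
        positivity
      have : (s : ℤ) < 1 := by nlinarith
      omega
    obtain ⟨σ, c1, c2⟩ := exists_sub (ρ := ρ) (ψ := lam ψ x y 0) (X_inj h) (ι h) fun g => mem_stab h (ι_x h g) (ι_y h g) (map_zero _)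
    refine congrArg Subtype.val (eq_zero_of_wt (ρ := σ) (X_inj h'') (by rw [c2, b1, Nat.cast_zero])
      (v := ⟨v, fun w => (h1 w w.2).trans (by simp [lam_apply])⟩) fun w => Subtype.ext ?_)
    rw [c1, X_apply, ι_E h (a := ⟨x', hx⟩) h'.Q_x (Bx w), h2 _ w.1.2 (mem_Up (Bx w) (By w))]
    simp [lam_apply]
  · by_cases nb : b.1 ∈ F ∙ u.1
    · obtain ⟨t, e⟩ := Submodule.mem_span_singleton.1 nb
      rw [← e, E_self t qu]; simp
    have e1 : f.B u u = 0 := f.B_self_of_Q qu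
    obtain ⟨t, -, -, a3, -⟩ := A x y h
    exact fix_of_wt (X_inj h) (E_stab h qu hb u.2 b.2 e1 (f.eq_zero_symm hb))
      (by rw [B x y h u b u ⟨qu, qb, hb, by simpa, nb⟩ u0 qu e1 (f.eq_zero_symm hb), a3 u u0, if_pos qu]) hv
  · obtain ⟨t, -, -, a3, -⟩ := A _ _ (hS.isHyp 2)
    exact eq_zero_of_wt (X_inj _) (by rw [a3 u (by rintro rfl; simp at hu), if_neg hu]) hv

omit H0 H2 in
theorem minus_bound (k : ℕ) : ∀ {V : Type u} [AddCommGroup V] [Module F V] [FiniteDimensional F V]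
    {f : Form (Kind.orth F) V}, Ty f (-1) (k + 4) → Bd f (-1) (k + 3) 0 := by
  induction k with
  | zero => exact fun T => T.fin (weak4 T)
  | succ k ih => exact fun T => T.up (Or.inl ⟨rfl, by omega⟩) fun x y h => ih (T.perp h)

end CA.DegO
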