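import Cfsg.Agent.Lib.Lin.Unip2

/-! Two-generation of classical groups: the general mechanism. -/

namespace CA.Gen2

open Module CA.CForm CA.CForm.Form Submodule

theorem mem_of_coprime {G : Type*} [Group G] {a b : G} {m n : ℕ} (h : Commute a b) (ha : a ^ m = 1) (hb : b ^ n = 1)
    (hc : n.Coprime m) {H : Subgroup G} (hH : a * b ∈ H) : a ∈ H ∧ b ∈ H := by
  obtain ⟨j, hj⟩ := exists_pow_eq_self_of_coprime (hc.coprime_dvd_right (orderOf_dvd_of_pow_eq_one ha))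
  have : a ∈ H := hj ▸ pow_mem (by simpa [h.mul_pow, hb] using pow_mem hH n) j
  exact ⟨this, (mul_mem_cancel_left this).1 hH⟩

theorem exists_ppart {G : Type*} [Group G] [Finite G] (g : G) {p n : ℕ} (hp : p.Prime) (h : p.Coprime n) (hn : 0 < n) :
    ∃ j m, m.Coprime p ∧ (g ^ (n * j + 1)) ^ m = 1 := by
  obtain ⟨a, m, h1, h2⟩ := Nat.exists_eq_pow_mul_and_not_dvd (orderOf_pos g).ne' p hp.ne_one
  obtain ⟨j, hj⟩ := (Nat.modEq_iff_dvd' (Nat.one_le_pow _ _ (pow_pos hp.pos a))).1 (Nat.ModEq.pow_totient (h.pow_left a)).symm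
  refine ⟨j, m, ((Nat.Prime.coprime_iff_not_dvd hp).2 h1).symm, ?_⟩
  rw [← hj, Nat.sub_add_cancel (Nat.one_le_pow _ _ (pow_pos hp.pos a)), ← pow_mul, ← orderOf_dvd_iff_pow_eq_one, h2]
  exact mul_dvd_mul_right (dvd_pow_self _ (Nat.totient_pos.2 hn).ne') _

variable {F : Type*} [Field F] {k : Kind F} {V : Type*} [AddCommGroup V] [Module F V] {f : Form k V}
  {H : Subgroup f.Isom} {x y z w v v' c : V} {g : f.Isom} {a t : F}

theorem pow_apply {n : ℕ} (h : (g ^ n).1 v = v) (j : ℕ) : (g ^ (n * j + 1)).1 v = g.1 v := by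
  rw [pow_succ', isom_mul_apply]
  congr 1
  induction j with
  | zero => rfl
  | succ j ih => rw [mul_add, mul_one, pow_add, isom_mul_apply, h, ih]

/-- The vectors occurring in Eichler maps at `x` in `H`. -/
def MS (hx : f.Q x = 0) (H : Subgroup f.Isom) : AddSubgroup V where
  carrier := {w | ∃ c h, f.eichler x w c h ∈ H}
  zero_mem' := ⟨0, f.eichlerCond_zero hx (map_zero _), by rw [eichler_zero]; exact one_mem _⟩
  add_mem' := by
    rintro w w' ⟨c, h, hc⟩ ⟨c', h', hc'⟩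
    exact ⟨_, _, f.eichler_mul h h' ▸ mul_mem hc hc'⟩
  neg_mem' := by
    rintro w ⟨c, h, hc⟩
    exact ⟨_, _, f.eichler_inv h ▸ inv_mem hc⟩

theorem cond_smul (h : f.EichlerCond (a • x) c t) (hx : f.Q x = 0) : f.EichlerCond x (k.σ a • c) (a * k.σ a * t) :=
  ⟨hx, by rw [map_smul, smul_eq_mul, ← B_smul_left, h.B_pw], by rw [k.π_norm, f.Q_smul, k.σσ, h.π_c]; ring⟩

theorem conj_mem (hx : f.Q x = 0) (hg : g ∈ H) (ha : g.1 x = a • x) (h : f.EichlerCond x c t) (hc : f.eichler x c t h ∈ H) :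
    ∃ h', f.eichler x (k.σ a • g.1 c) (a * k.σ a * t) h' ∈ H := by
  have h1 := mul_mem (mul_mem hg hc) (inv_mem hg)
  have h2 : f.EichlerCond (a • x) (g.1 c) t := ⟨f.Q_smul_of_Q hx a, by rw [← ha, B_coe_map, h.2], by rw [Q_coe_map, h.3]⟩
  rw [conj_eichler, f.eichler_congr _ h2 ha rfl rfl, f.eichler_smul _ _ _ _ h2 (cond_smul h2 hx)] at h1
  exact ⟨_, h1⟩

/-- All Eichler maps at `z` with vector orthogonal to `v` lie in `H`. -/
def SS (H : Subgroup f.Isom) (v z : V) : Prop :=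
  f.Q z = 0 ∧ ∀ c t (h : f.EichlerCond z c t), f.B v c = 0 → f.eichler z c t h ∈ H

theorem SS.map (h : SS H v z) (hg : g ∈ H) : SS H (g.1 v) (g.1 z) := ⟨by rw [Q_coe_map, h.1], fun c t hc hv => by
  obtain ⟨c, rfl⟩ := g.1.surjective c
  have := h.2 c t ⟨h.1, by simpa using hc.2, by simpa using hc.3⟩ (by simpa using hv)
  exact f.conj_eichler g z c t _ ▸ mul_mem (mul_mem hg this) (inv_mem hg)⟩

theorem SS.smul (h : SS H v z) (a : F) : SS H v (a • z) := ⟨f.Q_smul_of_Q h.1 a, fun c t hc hv =>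
  f.eichler_smul _ _ _ _ hc (cond_smul hc h.1) ▸ h.2 _ _ _ (by simp [hv])⟩

theorem SS.shift (h : SS H (v - a • z) z) : SS H v z := ⟨h.1, fun c t hc hv => h.2 c t hc (by simp [hv, hc.2])⟩

variable [FiniteDimensional F V] (hf : f.Nondeg)
include hf

theorem exists_el (hx : f.Q x = 0) (h1 : f.B x z = 0) (h2 : f.B x v = 0) (h3 : z ∉ span F {x, v}) (t : F) :
    ∃ e ∈ f.Eich, e.1 x = x ∧ e.1 z = z + t • x ∧ e.1 v = v ∧ ∀ H, SS H v x → e ∈ H := by
  obtain ⟨c, h4, h5⟩ := hf.exists_perp_B_eq h3 (-(k.ε * t))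
  rw [mem_perp_span_pair] at h4
  obtain ⟨s, hs⟩ := f.exists_eichlerCond hx h4.1
  refine ⟨_, f.eichler_mem_Eich _ _ _ hs, f.eichler_apply_self _ _ _ _, ?_, ?_, fun H h => h.2 _ _ _ h4.2⟩
  · rw [f.eichler_apply_of_B _ _ _ _ h1, h5, mul_neg, ← mul_assoc, k.εε]; module
  · rw [f.eichler_apply_of_B _ _ _ _ h2, f.eq_zero_symm h4.2]; module

theorem SS.both (h : SS H v z) (h' : SS H v' z) (hv : v' ∉ span F {z, v}) : SS H 0 z := ⟨h.1, fun c t hc _ => by
  obtain ⟨d, h1, h2⟩ := hf.exists_perp_B_eq' hv (f.B v' c)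
  rw [mem_perp_span_pair] at h1
  obtain ⟨s, hs⟩ := f.exists_eichlerCond h.1 h1.1
  have := mul_mem (h.2 _ _ hs h1.2) (h'.2 _ _ (hs.neg.add hc) (by simp [h2]))
  rwa [← f.eichler_mul hs.neg hc, ← f.eichler_inv hs, mul_inv_cancel_left] at this⟩

theorem eich_le (hx : SS H 0 x) (hy : SS H 0 y) (h : f.B x y ≠ 0) : f.Eich ≤ H := by
  have k1 : ∀ {x y z}, SS H 0 x → SS H 0 y → f.B x y ≠ 0 → f.Q z = 0 → f.B x z ≠ 0 → SS H 0 z := by
    intro x y z hx hy h hz h'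
    have e : f.B x ((f.B x z / f.B x y) • y) = f.B x z := by simp [h]
    obtain ⟨c, hc, h1⟩ := exists_eichler_move hx.1 (e.trans_ne h') e.symm (hz.trans (f.Q_smul_of_Q hy.1 _).symm)
    have := (hy.smul (f.B x z / f.B x y)).map (hx.2 _ _ hc (by simp))
    rwa [h1, map_zero] at this
  have h' := mt f.eq_zero_symm h
  refine f.Eich_le fun z w c hc => ?_
  by_cases h0 : z = 0
  · subst h0; rw [eichler_zero_left]; exact one_mem _
  refine (by_contra fun h1 => ?_ : SS H 0 z).2 w c hc (by simp)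
  have h2 : f.B x z = 0 := by_contra fun e => h1 (k1 hx hy h hc.1 e)
  have h3 : f.B y z = 0 := by_contra fun e => h1 (k1 hy hx h' hc.1 e)
  obtain ⟨e, -, -, e1, -, e2⟩ := exists_el hf hx.1 h2 (v := 0) (by simp) (fun e => by
    obtain ⟨a, b, rfl⟩ := mem_span_pair.1 e
    simp_all) 1
  simpa [← e1] using h1 (by simpa using (k1 hy hx h' ((f.Q_coe_map e z).trans hc.1) (by simpa [e1, h3])).map (inv_mem (e2 H hx)))

omit hf [FiniteDimensional F V] in
theorem nm (h : v' = 0 ∨ f.B v v' ≠ 0) (h1 : f.B v x = 0) (h2 : f.B v w = 0) (h3 : ∀ a : F, w ≠ a • x) :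
    w ∉ span F {x, v'} := fun e => by
  obtain ⟨a, b, rfl⟩ := mem_span_pair.1 e
  refine h3 a ?_
  rcases h with h | h <;> simp_all

theorem exists_rot (hx : f.Q x = 0) (hw : f.Q w = 0) (h1 : f.B x w = 0) (h2 : f.B x v = 0) (h3 : f.B w v = 0)
    (h4 : w ∉ span F {x, v}) (h5 : x ∉ span F {w, v}) (t : F) :
    ∃ g ∈ f.Eich, g.1 x = w ∧ g.1 w = -x + t • w ∧ g.1 v = v := by
  obtain ⟨e1, a1, a2, a3, a4, -⟩ := exists_el hf hx h1 h2 h4 (-1)
  obtain ⟨e2, b1, b2, b3, b4, -⟩ := exists_el hf hw (f.eq_zero_symm h1) h3 h5 1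
  obtain ⟨e3, c1, c2, c3, c4, -⟩ := exists_el hf hx h1 h2 h4 (t - 1)
  refine ⟨e1 * (e2 * e3), mul_mem a1 (mul_mem b1 c1), ?_, ?_, ?_⟩ <;>
    simp only [isom_mul_apply, a2, a3, a4, b2, b3, b4, c2, c3, c4, map_add, map_smul] <;> module

/-- The data used for two-generation. -/
structure Dt (f : Form k V) (x y v w : V) : Prop where
  hyp : f.IsHyp x y
  v0 : v = 0 ∨ f.B v v ≠ 0
  xv : f.B x v = 0
  yv : f.B y v = 0
  w0 : w ≠ 0
  qw : f.Q w = 0
  xw : f.B x w = 0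
  yw : f.B y w = 0
  vw : f.B v w = 0

/-- Two-generation of the group generated by the Eichler maps. -/
def G2 (f : Form k V) : Prop := ∃ a ∈ f.Eich, ∃ b ∈ f.Eich, ∀ H : Subgroup f.Isom, a ∈ H → b ∈ H → f.Eich ≤ H

namespace Dt
variable (D : Dt f x y v w)
include D

omit hf [FiniteDimensional F V] in
theorem cond : f.EichlerCond x w 0 := ⟨D.hyp.Q_x, D.xw, by rw [map_zero, D.qw]⟩

omit hf [FiniteDimensional F V] in
theorem n1 (a : F) : w ≠ a • x := fun e => D.w0 (by simpa [e, D.hyp.B_yx, k.ε_ne_zero, or_comm, D.hyp.x_ne_zero] using D.yw)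

omit hf [FiniteDimensional F V] in
theorem n2 (a : F) : x ≠ a • w := fun e => k.ε_ne_zero (by rw [← D.hyp.B_yx, e, map_smul, D.yw, smul_zero])

omit hf [FiniteDimensional F V] in
theorem n3 : w ∉ span F {x, y, v} := fun e => by
  obtain ⟨a, b, c, e⟩ := mem_span_triple.1 e
  have h1 := D.xw; have h2 := D.yw; have h3 := D.vw
  simp only [← e, map_add, map_smul, D.hyp.B_xx, D.hyp.B_xy, D.hyp.B_yx, D.hyp.B_yy, D.xv, D.yv, f.eq_zero_symm D.xv,
    f.eq_zero_symm D.yv, smul_eq_mul] at h1 h2 h3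
  refine D.w0 (e.symm.trans ?_)
  rcases D.v0 with h | h <;> simp_all [k.ε_ne_zero]

theorem exists_B (b : F) : ∃ d, f.B x d = 0 ∧ f.B y d = 0 ∧ f.B v d = 0 ∧ f.B w d = b := by
  obtain ⟨d, h1, h2⟩ := hf.exists_perp_B_eq' D.n3 b
  rw [mem_perp_span] at h1
  exact ⟨d, h1 _ (by simp), h1 _ (by simp), h1 _ (by simp), h2⟩

theorem tgrp (h : ∀ t, k.π t = 0 → ∃ b, b - k.ε * k.σ b = t)
    (hM : ∀ c, f.B x c = 0 → f.B y c = 0 → f.B v c = 0 → c ∈ MS D.hyp.Q_x H) : f.Tgrp x ≤ H :=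
  f.Tgrp_le fun t ht => by
    obtain ⟨b, hb⟩ := h t ht.π_eq_zero
    obtain ⟨d, h1, h2, h3, h4⟩ := D.exists_B hf b
    obtain ⟨s, hs, e⟩ := hM w D.xw D.yw D.vw
    obtain ⟨s', hs', e'⟩ := hM d h1 h2 h3
    have := Subgroup.commutator_le_self H (Subgroup.commutator_mem_commutator e e')
    rwa [commutator_eichler, f.eichler_congr _ ht rfl rfl (by rw [f.symm w d, h4, hb])] at this

theorem main [Finite F] (p : ℕ) [Fact p.Prime] [CharP F p] {n : ℕ} {κ : F} (hn : p.Coprime n) (h0 : 0 < n) (hg : g ∈ f.Eich)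
    (g1 : g.1 x = w) (g2 : g.1 w = -k.ε • x + t • w) (g3 : g.1 v = v + κ • x) (ht : t = k.ε * k.σ t) (hκ : v = 0 ∨ κ ≠ 0)
    (n1 : (g ^ n).1 x = x) (n2 : (g ^ n).1 w = w) (n3 : (g ^ n).1 v = v) {a : f.Isom} (ha : a ∈ f.Eich)
    (cyc : ∀ H : Subgroup f.Isom, a ∈ H → ∀ M : AddSubgroup V, w ∈ M →
      (∀ g ∈ H, ∀ l : F, g.1 x = l • x → ∀ c ∈ M, k.σ l • g.1 c ∈ M) → ∀ c, f.B x c = 0 → f.B y c = 0 → f.B v c = 0 → c ∈ M)
    (hT : ∀ H : Subgroup f.Isom, a ∈ H → f.eichler x w 0 D.cond ∈ H →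
      (∀ c, f.B x c = 0 → f.B y c = 0 → f.B v c = 0 → c ∈ MS D.hyp.Q_x H) → f.Tgrp x ≤ H) : G2 f := by
  obtain ⟨j, m, hm, h1⟩ := exists_ppart g Fact.out hn h0
  rw [← pow_apply n1 j] at g1
  rw [← pow_apply n2 j] at g2
  rw [← pow_apply n3 j] at g3
  replace hg := pow_mem hg (n * j + 1)
  generalize g ^ (n * j + 1) = g at *
  have hx := D.hyp.Q_x
  have hu : ∀ n : ℕ, ∀ u, (f.eichler x w 0 D.cond ^ n).1 u = u + (n : F) • (f.B x u • w - (k.ε * f.B w u) • x) := fun n u => by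
    induction n with
    | zero => simp
    | succ n ih =>
      simp only [pow_succ', isom_mul_apply, ih, eichler_apply, map_add, map_smul, map_sub, D.xw, f.eq_zero_symm D.xw,
        f.B_self_of_Q hx, f.B_self_of_Q D.qw, Nat.cast_succ]
      module
  have hc : Commute (f.eichler x w 0 D.cond) g := by
    refine (mul_inv_eq_iff_eq_mul.1 ?_).symm
    rw [conj_eichler]
    refine f.isom_ext fun u => ?_
    simp only [eichler_apply, g1, g2, B_add_left, B_smul_left, map_neg, k.σε]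
    linear_combination (norm := module) (f.B w u * ht + f.B x u * k.εε) • w
  refine ⟨a, ha, _, mul_mem (f.eichler_mem_Eich _ _ _ D.cond) hg, fun H h2 h3 => ?_⟩
  obtain ⟨h4, h5⟩ := mem_of_coprime hc (f.isom_ext fun u => (hu p u).trans (by simp)) h1 hm h3
  have hM := cyc H h2 (MS hx H) ⟨_, _, h4⟩ fun g hg l hl c ⟨s, hs, e⟩ => ⟨_, conj_mem hx hg hl hs e⟩
  have h6 := hT H h2 h4 hM
  have s1 : SS H v x := ⟨hx, fun c s hs hv => eichler_mem_of_eichSet hx h6 (by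
    obtain ⟨d, hd, e⟩ := D.hyp.exists_decomp c
    rw [mem_perp_span_pair] at hd
    rw [e, hs.2, zero_smul, add_zero] at hv ⊢
    exact add_mem (smul_mem_eichSet _ _ _) (hM d hd.1 hd.2 (by simpa [f.eq_zero_symm D.xv] using hv))) s hs⟩
  have s2 := s1.map h5
  rw [g1, g3] at s2
  have s3 : SS H 0 w := by
    rcases hκ with rfl | hκ
    · rwa [← g3, map_zero] at s2
    have e1 : g⁻¹.1 x = -k.ε • (w - t • x) := g.1.injective (by
      rw [isom_apply_inv_apply, map_smul, map_sub, map_smul, g1, g2]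
      linear_combination (norm := module) k.εε.symm • x)
    have e2 : g⁻¹.1 v = v - κ • g⁻¹.1 x := g.1.injective (by simp [g3])
    have s4 := (e2 ▸ s1.map (inv_mem h5)).shift.smul (-k.ε)
    rw [e1, smul_smul, neg_mul_neg, k.εε, one_smul] at s4
    obtain ⟨e, -, -, a2, a3, a4⟩ := exists_el hf hx (z := w - t • x) (by simp [D.xw, D.hyp.B_xx]) D.xv (nm D.v0
      (f.eq_zero_symm D.xv) (by simp [D.vw, f.eq_zero_symm D.xv]) fun a e => D.n1 (a + t) (by rw [add_smul, ← e]; simp)) t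
    have s5 := s4.map (a4 H s1)
    rw [a2, a3, sub_add_cancel] at s5
    refine s5.both hf s2 fun e => nm D.v0 D.vw (f.eq_zero_symm D.xv) D.n2 ((smul_mem_iff _ hκ).1 ?_)
    exact (Submodule.add_mem_iff_right _ (subset_span (by simp))).1 e
  by_contra h7
  have h8 : ∀ g ∈ H, f.B w (g.1 w) = 0 := fun g hg => by_contra fun e => h7 (eich_le hf s3 (by simpa using s3.map hg) e)
  obtain ⟨d, b1, b2, b3, b4⟩ := D.exists_B hf 1
  exact one_ne_zero (b4.symm.trans (cyc H h2 ⟨⟨⟨{c | ∀ g ∈ H, f.B w (g.1 c) = 0}, fun ha hb g hg => by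
    simp [ha g hg, hb g hg]⟩, by simp⟩, fun ha g hg => by simp [ha g hg]⟩ h8 (fun g hg l _ c hc g' hg' => by
      rw [map_smul, map_smul, ← isom_mul_apply, hc _ (mul_mem hg' hg), smul_zero]) d b1 b2 b3 1 (one_mem _)))

end Dt

end CA.Gen2
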