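import Cfsg.Agent.Lib.Lin.Gen1
import Cfsg.Agent.Lib.Lin.OrbitSum

/-! Two-generation of classical groups: cyclic modules. -/

namespace CA.Gen2

open Module Polynomial CA.Rcf CA.CForm CA.CForm.Form Submodule

variable {F : Type*} [Field F] {k : Kind F} {V : Type*} [AddCommGroup V] [Module F V] {f : Form k V}
  {V' : Type*} [AddCommGroup V'] [Module F V'] {f' : Form k V'}
  {H : Subgroup f.Isom} {x y z w v c : V} {g s : f.Isom} {s' : f'.Isom} {a t μ : F} {N N' : ℕ}

/-- `μ` generates the field as a ring. -/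
def Gn (μ : F) : Prop := ∀ S : Subring F, μ ∈ S → ∀ a, a ∈ S

theorem Gn.smul (h : Gn μ) {M : AddSubgroup V} (h' : ∀ c ∈ M, μ • c ∈ M) (a : F) : ∀ c ∈ M, a • c ∈ M :=
  h { carrier := {a | ∀ c ∈ M, a • c ∈ M}
      mul_mem' := fun ha hb c hc => by rw [mul_smul]; exact ha _ (hb c hc)
      one_mem' := fun c hc => by simpa
      add_mem' := fun ha hb c hc => by rw [add_smul]; exact add_mem (ha c hc) (hb c hc)
      zero_mem' := fun c hc => by simp
      neg_mem' := fun ha c hc => by rw [neg_smul]; exact neg_mem (ha c hc) } h' a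

theorem exists_gn [Finite F] : ∃ ξ : Fˣ, (∀ u, u ∈ Submonoid.powers ξ) ∧ Gn ((ξ : F) * ξ) := by
  obtain ⟨ξ, h⟩ := IsCyclic.exists_monoid_generator (α := Fˣ)
  refine ⟨ξ, h, fun S hS a => ?_⟩
  have k : ∀ a : F, a * a ∈ S := fun a => by
    by_cases h0 : a = 0
    · simp [h0]
    obtain ⟨n, hn⟩ := h (Units.mk0 a h0)
    simpa [mul_pow, ← Units.val_pow_eq_pow_val, show ξ ^ n = _ from hn] using pow_mem hS n
  by_cases h2 : (2 : F) = 0
  · obtain ⟨b, rfl⟩ := FiniteField.isSquare_of_char_two (ringChar.eq_iff.2 ((CharP.charP_iff_prime_eq_zero Nat.prime_two).2 h2)) a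
    exact k b
  · convert sub_mem (k ((a + 1) / 2)) (k ((a - 1) / 2)) using 1
    field_simp; ring

/-- `w` generates the space under `s` and `μ`. -/
def Cy (s : f.Isom) (w : V) (μ : F) : Prop :=
  ∀ M : AddSubgroup V, w ∈ M → (∀ c ∈ M, s.1 c ∈ M) → (∀ c ∈ M, μ • c ∈ M) → ∀ c, c ∈ M

theorem Cy.congr (h : Cy s w μ) {e : V ≃ₗ[F] V'} (he : ∀ v, e (s.1 v) = s'.1 (e v)) : Cy s' (e w) μ := fun M h1 h2 h3 c => by
  simpa using h (M.comap e.toAddMonoidHom) h1 (fun c hc => by simpa [he] using h2 _ hc)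
    (fun c hc => by simpa using h3 _ hc) (e.symm c)

/-- A semiregular isometry of order `N`. -/
def SR (s : f.Isom) (N : ℕ) : Prop := s ^ N = 1 ∧ ∀ j v, (s ^ j).1 v = v → v = 0 ∨ N ∣ j

theorem pow_congr {e : V ≃ₗ[F] V'} (he : ∀ v, e (s.1 v) = s'.1 (e v)) (j : ℕ) (v : V) : e ((s ^ j).1 v) = (s' ^ j).1 (e v) := by
  induction j with
  | zero => rfl
  | succ j ih => rw [pow_succ', pow_succ', isom_mul_apply, isom_mul_apply, he, ih]

theorem pow_eq_congr {e : V ≃ₗ[F] V'} (he : ∀ v, e (s.1 v) = s'.1 (e v)) (h : s ^ N = 1) : s' ^ N = 1 :=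
  f'.isom_ext fun v => by obtain ⟨v, rfl⟩ := e.surjective v; rw [← pow_congr he, h]; rfl

theorem SR.congr (h : SR s N) (H : IsoSim s s') : SR s' N := by
  obtain ⟨e, -, he⟩ := H
  refine ⟨pow_eq_congr he h.1, fun j v hv => ?_⟩
  obtain ⟨v, rfl⟩ := e.surjective v
  simpa using h.2 j v (e.injective ((pow_congr he j v).trans hv))

theorem pow_mem' {S : Set V} (h' : ∀ c ∈ S, s.1 c ∈ S) (j : ℕ) : ∀ c ∈ S, (s ^ j).1 c ∈ S := by
  induction j with
  | zero => exact fun _ h => h
  | succ j ih => exact fun c hc => pow_succ' s j ▸ h' _ (ih c hc)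

theorem SR.dvd [Finite V] (h : SR s N) (hN : N ≠ 0) {S : Set V} (h0 : 0 ∈ S) (h' : ∀ c ∈ S, s.1 c ∈ S) : N ∣ S.ncard - 1 := by
  classical
  by_cases h1 : S \ {0} = ∅
  · rw [← Set.ncard_diff_singleton_of_mem h0, h1]; simp
  obtain ⟨v, hv⟩ := Set.nonempty_iff_ne_empty.2 h1
  have k := (isOfFinOrder_iff_pow_eq_one.2 ⟨N, by omega, h.1⟩ : IsOfFinOrder s)
  have := CA.OrbitSum.card_subgroup_dvd_of_semiregular (Subgroup.zpowers s) (Set.toFinite (S \ {0})).toFinset
    (fun g hg y hy => by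
      obtain ⟨j, rfl⟩ := k.mem_powers_iff_mem_zpowers.2 hg
      simp only [Set.Finite.mem_toFinset, Set.mem_diff, Set.mem_singleton_iff, smul_eq_zero_iff_eq] at hy ⊢
      exact ⟨pow_mem' h' j y hy.1, hy.2⟩)
    (fun g hg y hy e => by
      obtain ⟨j, rfl⟩ := k.mem_powers_iff_mem_zpowers.2 hg
      obtain ⟨i, rfl⟩ := (h.2 j y e).resolve_left (by simpa using ((Set.Finite.mem_toFinset _).1 hy).2)
      simp [pow_mul, h.1])
  rw [← Set.ncard_eq_toFinset_card, Set.ncard_diff_singleton_of_mem h0, Nat.card_zpowers] at this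
  exact ((h.2 _ v (by rw [pow_orderOf_eq_one]; rfl)).resolve_left hv.2).trans this

theorem SR.cy [Finite V] (h : SR s N) (hN : Nat.card V < (N + 1) ^ 2) (hw : w ≠ 0) : Cy s w μ := fun M h1 h2 _ c => by
  have h0 : N ≠ 0 := by rintro rfl; have : Nontrivial V := ⟨w, 0, hw⟩; have := Finite.one_lt_card (α := V); omega
  have h3 := h.dvd h0 M.zero_mem h2
  have h4 := h.dvd h0 (S := Set.univ) trivial fun _ _ => trivial
  rw [Set.ncard_univ, ← M.card_mul_index] at h4
  rw [← M.card_mul_index] at hN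
  replace h3 : N ∣ Nat.card M - 1 := h3
  have h5 : 1 < Nat.card M := Finite.one_lt_card_iff_nontrivial.2 ⟨⟨w, h1⟩, 0, by simpa⟩
  have h6 := Nat.pos_of_ne_zero (M.index_ne_zero_of_finite)
  have h7 : N ∣ M.index - 1 := (Nat.dvd_add_right (h3.mul_right M.index)).1 (by
    convert h4 using 1
    zify [h5.le, h6, Nat.mul_pos (by omega : 0 < Nat.card M) h6]; ring)
  by_cases h8 : M.index = 1
  · rw [AddSubgroup.index_eq_one.1 h8]; trivial
  have := Nat.le_of_dvd (by omega) h3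
  have := Nat.le_of_dvd (by omega) h7
  nlinarith [Nat.mul_le_mul (show N + 1 ≤ Nat.card M by omega) (show N + 1 ≤ M.index by omega)]

theorem cy_prod {w' : V'} (h : SR s N) (h' : s' ^ N' = 1) (hN : ¬N ∣ N') (hw : w ≠ 0) (c1 : ∀ w ≠ 0, Cy s w 1)
    (c2 : Cy s' w' 1) : Cy (f.prodHom f' (s, s')) (w, w') 1 := fun M h1 h2 _ c => by
  have h3 := M.sub_mem (show ((f.prodHom f' (s, s')) ^ N').1 (w, w') ∈ M from
    pow_mem' (s := f.prodHom f' (s, s')) (S := (M : Set (V × V'))) h2 N' _ h1) h1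
  rw [← map_pow, Prod.pow_mk, h', prodHom_apply] at h3
  have h4 : ∀ c, (c, 0) ∈ M := c1 _ (fun e => (h.2 N' w (sub_eq_zero.1 e)).elim hw hN) (M.comap (AddMonoidHom.inl V V'))
    (by simpa [isom_one_apply] using h3) (fun c hc => by simpa [prodHom_apply] using h2 _ hc) (by simp)
  simpa using add_mem (h4 c.1) (c2 (M.comap (AddMonoidHom.inr V V')) (by simpa using sub_mem h1 (h4 w))
    (fun c hc => by simpa [prodHom_apply] using h2 _ hc) (by simp) c.2)

variable [Finite F]

open FiniteField in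
theorem exists_singer (hσ : ∀ a, k.σ a = a) (j : ℕ) : ∃ (V : Type) (_ : AddCommGroup V) (_ : Module F V)
    (_ : FiniteDimensional F V) (f : Form k V) (s : f.Isom), f.Nondeg ∧ finrank F V = 2 * j + 2 ∧
      SR s (Nat.card F ^ (j + 1) + 1) := by
  obtain ⟨p, _⟩ := CharP.exists F
  have := Fact.mk (CharP.char_is_prime F p)
  let L := Extension F p (2 * j + 2)
  have hq : 2 ≤ Nat.card F ^ (j + 1) := Nat.one_lt_pow (by omega) Finite.one_lt_card
  obtain ⟨ξ, h1⟩ := IsCyclic.exists_ofOrder_eq_natCard (α := Lˣ)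
  rw [Nat.card_units, natCard_extension, show Nat.card F ^ (2 * j + 2) = (Nat.card F ^ (j + 1)) ^ 2 by ring, ← Nat.one_pow 2,
    Nat.sq_sub_sq] at h1
  generalize hQ : Nat.card F ^ (j + 1) = Q at *
  have h2 : orderOf (ξ ^ (Q - 1)) = Q + 1 := by
    rw [orderOf_pow_of_dvd (by omega) (h1 ▸ dvd_mul_left _ _), h1, Nat.mul_div_cancel _ (by omega)]
  generalize ξ ^ (Q - 1) = ω at h2
  let g : L ≃ₗ[F] L := DistribMulAction.toLinearEquiv F L ω
  have h3 : ∀ i v, (g ^ i) v = (ω ^ i).1 * v := fun i v => by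
    induction i with
    | zero => simp
    | succ i ih => rw [pow_succ', LinearEquiv.mul_apply, ih, pow_succ', Units.val_mul, mul_assoc]; rfl
  have h4 : ∀ i v, (g ^ i) v = v → v = 0 ∨ Q + 1 ∣ i := fun i v hv => or_iff_not_imp_left.2 fun h0 => by
    rw [← h2, orderOf_dvd_iff_pow_eq_one, ← Units.val_eq_one, ← mul_eq_right₀ h0, ← h3, hv]
  let φ := Extension.frob F p (2 * j + 2) ^ (j + 1)
  obtain ⟨f, hf, hg⟩ := exists_form (k := k) (g := g) (.inr fun v hv => (h4 2 v hv).resolve_right fun e => by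
    have := Nat.le_of_dvd two_pos e; omega) (edivs_adj_inv k.σσ (B := fun x => Algebra.traceForm F L (φ x))
      (((Algebra.traceForm F L).toDual (traceForm_nondegenerate F L)).bijective.comp φ.bijective) (by simp)
      (by simp [hσ]) fun x y => by
        have : (ω : L) ^ Q * ω = 1 := by rw [← pow_succ, ← h2, ← Units.val_pow_eq_pow_val, pow_orderOf_eq_one, Units.val_one]
        change Algebra.trace F L (φ (ω * x) * (ω * y)) = Algebra.trace F L (φ x * y)
        rw [map_mul φ, show φ ω = _ from Extension.frob_iterate_apply _ _ _ _, hQ, mul_mul_mul_comm, this, one_mul]).symm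
  exact ⟨L, _, _, inferInstance, f, ⟨g, hg⟩, hf, finrank_extension _ _ _, f.isom_ext fun v => (h3 _ v).trans (by
    rw [← h2, pow_orderOf_eq_one]; exact one_mul v), h4⟩

variable [FiniteDimensional F V]

theorem SR.cy' {j : ℕ} (h : SR s (Nat.card F ^ (j + 1) + 1)) (hd : finrank F V = 2 * j + 2) (hw : w ≠ 0) : Cy s w μ :=
  have : Finite V := Module.finite_of_finite F
  h.cy (by rw [Module.natCard_eq_pow_finrank (K := F), hd, show 2 * j + 2 = (j + 1) * 2 by ring, pow_mul]; exact Nat.pow_lt_pow_left (by omega) two_ne_zero) hw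

theorem SR.index {f : Form (Kind.orth F) V} {s : f.Isom} {j : ℕ} (h : SR s (Nat.card F ^ (j + 1) + 1)) (hf : f.Nondeg)
    (ho : Odd (Nat.card F ^ (j + 1) + 1)) (hd : finrank F V = 2 * j + 2) : f.IsIndex j := by
  have : Finite V := Module.finite_of_finite F
  refine (hf.isIndex_even hd).resolve_left fun e => ?_
  have h1 := h.dvd (by omega) (S := {v | f.Q v = 0}) f.Q_zero fun c hc => (f.Q_coe_map s c).trans hc
  have h2 := e.card_singular_sub_one (d := 0) hf hd
  have hq : 1 < Nat.card F := Finite.one_lt_card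
  have h3 := Nat.one_le_pow (j + 1) _ (by omega : 0 < Nat.card F)
  rw [← Nat.card_coe_set_eq, show Nat.card {v | f.Q v = 0} - 1 = _ from h2] at h1
  have := Nat.le_of_dvd (by omega) (Nat.Coprime.dvd_of_dvd_mul_left ((Nat.coprime_self_sub_right (by omega)).1 (by
    rw [show Nat.card F ^ (j + 1) + 1 - (Nat.card F ^ (j + 1) - 1) = 2 by omega]
    simpa using ho)) h1)
  have := Nat.pow_lt_pow_right hq (show j + 0 < j + 1 by omega)
  omega

omit [Finite F] in
theorem exists_cy (hf : f.Nondeg) (hδ : k.δ ≠ 0) (hd : 2 ≤ finrank F V) (h : edivs (s.1 : End F V) = {(X - 1) ^ finrank F V})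
    (hμ : Gn μ) : ∃ w, w ≠ 0 ∧ f.Q w = 0 ∧ Cy s w μ := by
  have h0 : edivs (s.1 : End F V) = ({finrank F V} : Multiset ℕ).map fun k => (X - 1 : F[X]) ^ k := h
  have h1 := isNilpotent_of_edivs h0
  have h2 := finrank_ker_sub_one h1
  rw [jt_eq_of_edivs h0, Multiset.card_singleton] at h2
  set A : End F V := s.1 - 1 with hA
  have h3 := LinearMap.finrank_range_add_finrank_ker A
  obtain ⟨⟨u, hu⟩, h4, -⟩ := finrank_eq_one_iff'.1 h2
  have h5 : s.1 u = u := sub_eq_zero.1 hu
  have h6 : LinearMap.range A = f.perp (F ∙ u) := Submodule.eq_of_le_of_finrank_eq (by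
    rintro _ ⟨c, rfl⟩
    rw [mem_perp_span_singleton]
    change f.B u (s.1 c - c) = 0
    rw [map_sub, ← f.B_coe_map s u c, h5, sub_self]) (by
      have := hf.finrank_perp (F ∙ u)
      rw [finrank_span_singleton (by simpa using h4)] at this; omega)
  have h7 := eq_ker_of_regular h1 h2.le (U := LinearMap.range A) (by
    rintro _ ⟨c, rfl⟩; exact ⟨s.1 c, by simp [hA]⟩)
  have h8 : ∀ i ≤ finrank F V - 1, LinearMap.ker (A ^ i) ≤ f.perp (F ∙ u) := fun i hi => by
    rw [← h6, h7]; exact (A.iterateKer).monotone (by omega)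
  obtain ⟨w, hw⟩ := hf.exists_isHyp (x := u) ((mul_eq_zero.1 ((f.B_self u).symm.trans (f.mem_perp_span_singleton.1
    (h8 1 (by omega) (by simpa using hu))))).resolve_left hδ) (by simpa using h4)
  refine ⟨w, hw.y_ne_zero, hw.Q_y, fun M a1 a2 a3 c => ?_⟩
  let U : Submodule F V := { M with smul_mem' := fun a c hc => hμ.smul a3 a c hc }
  by_cases h9 : finrank F U = finrank F V
  · exact (Submodule.eq_top_of_finrank_eq h9).ge (mem_top (x := c))
  have := Submodule.finrank_le U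
  exact absurd ((f.mem_perp_span_singleton.1 (h8 _ (by omega) ((eq_ker_of_regular h1 h2.le (U := U) a2).le a1))).symm.trans
    hw.B_xy) zero_ne_one

end CA.Gen2
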