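import Cfsg.Agent.Lib.Lin.Gen2

/-! Two-generation of classical groups: symplectic and orthogonal groups. -/

namespace CA.Gen2

open Module Polynomial CA.Rcf CA.CForm CA.CForm.Form Submodule

/-- Two-generation. -/
def TG (G : Type*) [Group G] : Prop := ∃ a b : G, Subgroup.closure ({a, b} : Set G) = ⊤

theorem TG.map {G G' : Type*} [Group G] [Group G'] (h : TG G) (φ : G →* G') (hφ : Function.Surjective φ) : TG G' := by
  obtain ⟨a, b, h⟩ := h
  exact ⟨φ a, φ b, by rw [← Set.image_pair, ← MonoidHom.map_closure, h, Subgroup.map_top_of_surjective _ hφ]⟩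

theorem mem_of_index {G : Type*} [Group G] {N : Subgroup G} [N.Normal] {g : G} {n : ℕ} (h : g ^ n = 1)
    (h' : N.index.Coprime n) : g ∈ N := by
  obtain ⟨j, hj⟩ := exists_pow_eq_self_of_coprime (h'.coprime_dvd_right (orderOf_dvd_of_pow_eq_one h))
  exact hj ▸ pow_mem (N.pow_index_mem g) j

variable {F : Type*} [Field F] {k : Kind F} {V : Type*} [AddCommGroup V] [Module F V] {f : Form k V}
  {H : Subgroup f.Isom} {x y z w v c : V} {g s : f.Isom} {a t μ l : F} {N : ℕ}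

theorem G2.tg (h : G2 f) {G : Type*} [Group G] {E : Subgroup f.Isom} (hE : f.Eich = E) (e : G ≃* E) :
    TG (G ⧸ Subgroup.center G) := by
  subst hE
  obtain ⟨a, ha, b, hb, h⟩ := h
  refine TG.map (TG.map ⟨⟨a, ha⟩, ⟨b, hb⟩, eq_top_iff.2 fun g _ => ?_⟩ e.symm.toMonoidHom e.symm.surjective)
    (QuotientGroup.mk' _) (QuotientGroup.mk'_surjective _)
  obtain ⟨g', h1, h2⟩ := h ((Subgroup.closure {⟨a, ha⟩, ⟨b, hb⟩}).map f.Eich.subtype)
    ⟨⟨a, ha⟩, Subgroup.subset_closure (by simp), rfl⟩ ⟨⟨b, hb⟩, Subgroup.subset_closure (by simp), rfl⟩ g.2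
  exact Subtype.ext h2 ▸ h1

theorem compl3 [FiniteDimensional F V] (hf : f.Nondeg) (h : f.IsHyp x y) (h0 : f.B v v ≠ 0) (h1 : f.B x v = 0) (h2 : f.B y v = 0) :
    IsCompl (span F {x, y, v}) (f.perp (span F {x, y, v})) ∧ finrank F (f.perp (span F {x, y, v})) + 3 = finrank F V := by
  have key : ∀ a b c : F, (∀ z ∈ ({x, y, v} : Set V), f.B z (a • x + b • y + c • v) = 0) → a = 0 ∧ b = 0 ∧ c = 0 := by
    simp +contextual [h.B_xx, h.B_xy, h.B_yx, h.B_yy, h0, h1, h2, f.eq_zero_symm h1, f.eq_zero_symm h2, k.ε_ne_zero]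
  refine ⟨hf.isCompl_perp (disjoint_def.2 fun u hu hu' => ?_), ?_⟩
  · obtain ⟨a, b, c, rfl⟩ := mem_span_triple.1 hu
    simp [key a b c (f.mem_perp_span.1 hu')]
  · have := finrank_span_eq_card (b := ![x, y, v]) (Fintype.linearIndependent_iff.2 fun g hg i => by
      have := key (g 0) (g 1) (g 2) fun z _ => by rw [← map_zero (f.B z), ← hg, Fin.sum_univ_three]; rfl
      fin_cases i
      exacts [this.1, this.2.1, this.2.2])
    rw [show Set.range ![x, y, v] = {x, y, v} by rw [Matrix.range_cons, Matrix.range_cons, Matrix.range_cons_empty]; rfl] at this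
    rw [← hf.finrank_perp (span F {x, y, v}), this, add_comm]; rfl

variable [Finite F] [FiniteDimensional F V] (hf : f.Nondeg)

omit [FiniteDimensional F V] in
theorem cop (p : ℕ) [Fact p.Prime] [CharP F p] (j : ℕ) : (p ^ j).Coprime (Nat.card Fˣ) := by
  have := Fintype.ofFinite F
  refine ((Nat.Prime.coprime_iff_not_dvd Fact.out).2 fun h => ?_).pow_left j
  rw [← CharP.cast_eq_zero_iff F, Nat.card_units, Nat.cast_pred Nat.card_pos, Nat.card_eq_fintype_card,
    FiniteField.cast_card_eq_zero] at h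
  simp at h

include hf

theorem Dt.g2 (D : Dt f x y v w) (hε : k.ε = 1 ∨ (f.Eich = ⊤ ∧ v = 0)) {U : Submodule F V} (hU : IsCompl U (f.perp U))
    (hx : x ∈ U) (hc : ∀ c, f.B x c = 0 → f.B y c = 0 → f.B v c = 0 → c ∈ f.perp U) {s : (f.restrict (f.perp U)).Isom}
    {w' : f.perp U} (hw : w = w') (h1 : g ∈ f.Eich) (h2 : g ∈ f.fix (f.perp U)) (h3 : g.1 x = l • x) {m n : ℕ}
    (h4 : g ^ m = 1) (h5 : s ^ n = 1) (h6 : n.Coprime m) (hs : f.extRight hU s ∈ f.Eich) (cy : Cy s w' (k.σ l))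
    (hT : ∀ H : Subgroup f.Isom, g ∈ H → f.extRight hU s ∈ H → f.eichler x w 0 D.cond ∈ H →
      (∀ c, f.B x c = 0 → f.B y c = 0 → f.B v c = 0 → c ∈ MS D.hyp.Q_x H) → f.Tgrp x ≤ H) : G2 f := by
  obtain ⟨p, _⟩ := CharP.exists F
  have := Fact.mk (CharP.char_is_prime F p)
  have h7 : ∀ H : Subgroup f.Isom, g * f.extRight hU s ∈ H → g ∈ H ∧ f.extRight hU s ∈ H := fun H => by
    obtain ⟨g, rfl⟩ := (hf.range_extLeft hU).ge h2
    exact mem_of_coprime ((MonoidHom.commute_inl_inr g s).map (f.extHom hU)) h4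
      (show f.extRight hU s ^ n = 1 by rw [← map_pow, h5, map_one]) h6
  have key := fun n κ t g hn h0 hg g1 g2 g3 ht hκ n1 n2 n3 => D.main (g := g) (t := t) hf p (n := n) (κ := κ) hn h0 hg g1 g2 g3
    ht hκ n1 n2 n3 (mul_mem h1 hs) (fun H hH M a1 a2 c b1 b2 b3 => cy (M.comap (f.perp U).subtype.toAddMonoidHom) (hw ▸ a1 :)
      (fun c hc => by
        simpa [extRight_apply_right] using a2 _ (h7 H hH).2 1 (by rw [f.extRight_apply_left _ _ hx, one_smul]) _ hc)
      (fun c hc => by simpa [h2 _ c.2] using a2 _ (h7 H hH).1 l h3 _ hc) ⟨c, hc c b1 b2 b3⟩)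
    fun H hH => hT H (h7 H hH).1 (h7 H hH).2
  have hp : (2 : F) ≠ 0 → p.Coprime 2 := fun h => (Nat.coprime_primes Fact.out Nat.prime_two).2 fun e =>
    h (by simpa [e] using CharP.cast_eq_zero F p)
  by_cases h8 : k.ε = 1
  · obtain ⟨t, n, a1, a2, a3, a4, a5⟩ : ∃ (t : F) (n : ℕ), p.Coprime n ∧ 0 < n ∧ t = k.σ t ∧ 2 - t ≠ 0 ∧
        ∀ g : f.Isom, g.1 x = w → g.1 w = -x + t • w → (g ^ n).1 x = x ∧ (g ^ n).1 w = w := by
      by_cases h : (2 : F) = 0
      · refine ⟨-1, 3, (Nat.coprime_primes Fact.out Nat.prime_three).2 fun e => ?_, by simp, by simp, by simp [h],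
          fun g a b => by simp [pow_succ', isom_mul_apply, a, b]⟩
        subst e
        exact one_ne_zero (α := F) (by linear_combination (CharP.cast_eq_zero F 3 : (3 : F) = 0) - h)
      · exact ⟨0, 2 ^ 2, (hp h).pow_right 2, by simp, by simp, by simpa, fun g a b => by simp [pow_succ', isom_mul_apply, a, b]⟩
    obtain ⟨δ, hδ⟩ : ∃ δ : F, (v = 0 ∧ δ = 0) ∨ (f.B v v ≠ 0 ∧ δ = 1) :=
      D.v0.elim (fun h => ⟨0, .inl ⟨h, rfl⟩⟩) fun h => ⟨1, .inr ⟨h, rfl⟩⟩
    have b1 := f.eq_zero_symm D.xv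
    have b2 : v - δ • ((1 - t) • x + w) = 0 ∨ f.B v (v - δ • ((1 - t) • x + w)) ≠ 0 :=
      hδ.imp (fun h => by simp [h]) fun h => by simpa [b1, D.vw] using h.1
    obtain ⟨g, c0, c1, c2, c3⟩ := exists_rot hf D.hyp.Q_x D.qw D.xw (v := v - δ • ((1 - t) • x + w))
      (by simp [D.xv, D.xw, D.hyp.B_xx]) (by simp [f.eq_zero_symm D.vw, f.eq_zero_symm D.xw, f.B_self_of_Q D.qw])
      (nm b2 b1 D.vw D.n1) (nm b2 D.vw b1 D.n2) t
    obtain ⟨c4, c5⟩ := a5 g c1 c2
    refine key n (-(δ * (2 - t))) t g a1 a2 c0 c1 (by simpa [h8]) ?_ (by simpa [h8]) (hδ.imp And.left fun h => by rw [h.2, one_mul]; exact neg_ne_zero.2 a4)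
      c4 c5 ?_
    · simp only [map_sub, map_smul, map_add, c1, c2] at c3
      linear_combination (norm := module) c3
    · have := f.mem_fix_span_singleton.1 (pow_mem (f.mem_fix_span_singleton.2 c3) n)
      simp only [map_sub, map_smul, map_add, c4, c5] at this
      exact sub_left_inj.1 this
  · obtain ⟨h9, rfl⟩ := hε.resolve_left h8
    have h10 := k.ε_eq.resolve_left h8
    have h11 : LinearIndependent F ![x, w] := LinearIndependent.pair_iff' D.hyp.x_ne_zero |>.2 fun a e => D.n1 a e.symm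
    obtain ⟨g, c1, c2⟩ := hf.witt_pair h11 (LinearIndependent.pair_symm_iff.1 h11) (D.qw.trans D.hyp.Q_x.symm)
      (D.hyp.Q_x.trans D.qw.symm) ((f.eq_zero_symm D.xw).trans D.xw.symm)
    exact key 2 0 0 g (hp fun h => h8 (by linear_combination h10 - h)) two_pos (h9 ▸ trivial) c1 (by simp [h10, c2]) (by simp)
      (by simp) (.inl rfl) (by simp [pow_succ', isom_mul_apply, c1, c2]) (by simp [pow_succ', isom_mul_apply, c1, c2]) (by simp)

omit [FiniteDimensional F V] hf in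
theorem torus_pow (h : f.IsHyp x y) (u : Fˣ) : h.torus u ^ Nat.card Fˣ = 1 := by
  rw [← h.torusHom_apply, ← map_pow, pow_card_eq_one', map_one]

omit hf in
theorem g2_symp {f : Form (Kind.symp F) V} (hf : f.Nondeg) {j : ℕ} (hd : finrank F V = 2 * j + 4) : G2 f := by
  have := nontrivial_of_finrank_pos (R := F) (M := V) (by omega)
  obtain ⟨x, hx⟩ := exists_ne (0 : V)
  obtain ⟨y, h⟩ := hf.exists_isHyp (f.symp_Q x) hx
  have h1 := h.finrank_perp
  have h2 := h.nondeg_perp hf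
  obtain ⟨W, _, _, _, p, s₀, a1, a2, a3⟩ := exists_singer (k := Kind.symp F) (fun _ => rfl) j
  obtain ⟨s, hs⟩ := (a1.symp_equivalent h2 (by omega)).exists_isoSim s₀
  replace hs := a3.congr hs
  have hq : 2 ≤ Nat.card F ^ (j + 1) := Nat.one_lt_pow (by omega) Finite.one_lt_card
  obtain ⟨c, hc⟩ : ∃ c, f.B (s.1 c) c ≠ 0 := by
    by_contra! H
    have := nontrivial_of_finrank_pos (R := F) (M := f.perp (span F {x, y})) (by omega)
    obtain ⟨c, hc⟩ := exists_ne (0 : f.perp (span F {x, y}))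
    refine (hs.2 2 c (sub_eq_zero.1 (h2 _ fun d => ?_))).elim hc fun e => by have := Nat.le_of_dvd two_pos e; omega
    obtain ⟨d, rfl⟩ := s.1.surjective d
    have := H (c + d)
    simp only [map_add, Submodule.coe_add, B_add_left, H, f.symp_symm c (s.1 d)] at this
    rw [B_sub_left, pow_two, isom_mul_apply, B_coe_map, restrict_B, restrict_B]
    linear_combination this
  have h3 : s.1 c - c ≠ 0 := fun e => hc (by rw [sub_eq_zero.1 e, symp_B_self])
  have h4 := fun u : f.perp (span F {x, y}) => f.mem_perp_span_pair.1 u.2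
  have D : Dt f x y 0 (s.1 c - c :) := ⟨h, .inl rfl, by simp, by simp, fun e => h3 (Subtype.ext e), f.symp_Q _, (h4 _).1, (h4 _).2, by simp⟩
  have key := fun g l m h1 h2 h3 h4 h6 => D.g2 hf (.inr ⟨hf.symp_Eich_eq_top, rfl⟩) h.isCompl (subset_span (by simp))
    (fun c a b _ => f.mem_perp_span_pair.2 ⟨a, b⟩) rfl (g := g) (l := l) h1 h2 h3 (m := m) h4 hs.1 h6
    (hf.symp_Eich_eq_top ▸ trivial) (hs.cy' (by omega) ‹_›)
  by_cases h5 : (2 : F) = 0
  swap
  · exact key 1 1 1 (one_mem _) (one_mem _) (one_smul _ _).symm (one_pow _) (by simp) fun H _ _ _ =>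
      D.tgrp hf fun t _ => ⟨t / 2, by simp; field_simp; ring⟩
  obtain ⟨ξ, -, hξ⟩ := exists_gn (F := F)
  have := Fintype.ofFinite F
  have h6 := FiniteField.even_card_of_char_two (F := F) (ringChar.eq_iff.2 ((CharP.charP_iff_prime_eq_zero Nat.prime_two).2 h5))
  rw [← Nat.card_eq_fintype_card] at h6
  refine key (h.torus ξ) ξ _ (hf.symp_Eich_eq_top ▸ trivial) (h.torus_mem_fix ξ) (h.torus_apply_x ξ) (torus_pow h ξ) ?_
    fun H b1 b2 b3 b4 => f.Tgrp_le fun t ht => ?_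
  · rw [Nat.card_units]
    have h7 := Nat.sub_one_dvd_pow_sub_one (Nat.card F) (j + 1)
    refine Nat.Coprime.coprime_dvd_right h7 ((Nat.coprime_self_sub_right (by omega)).1 ?_)
    rw [show Nat.card F ^ (j + 1) + 1 - (Nat.card F ^ (j + 1) - 1) = 2 by omega]
    exact Nat.coprime_two_right.2 (Even.add_one (Nat.even_pow.2 ⟨Nat.even_iff.2 h6, by omega⟩))
  · obtain ⟨r, hr, e⟩ := b4 c (h4 c).1 (h4 c).2 (by simp)
    obtain ⟨hr', e'⟩ := conj_mem h.Q_x b2 (a := 1) (by rw [f.extRight_apply_left _ _ (subset_span (by simp)), one_smul]) hr e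
    have e2 := mul_mem (mul_mem e' (inv_mem e)) (inv_mem b3)
    rw [eichler_inv, eichler_inv, eichler_mul, eichler_mul] at e2
    let M : AddSubgroup F :=
      { carrier := {t | ∃ h, f.eichler x 0 t h ∈ H}
        zero_mem' := ⟨f.eichlerCond_zero h.Q_x rfl, by rw [eichler_zero]; exact one_mem _⟩
        add_mem' := fun ⟨_, ha⟩ ⟨_, hb⟩ => ⟨f.eichlerCond_zero h.Q_x rfl, by simpa [eichler_mul] using mul_mem ha hb⟩
        neg_mem' := fun ⟨_, ha⟩ => ⟨f.eichlerCond_zero h.Q_x rfl, by simpa [eichler_inv] using inv_mem ha⟩ }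
    have := hξ.smul (M := M) (fun t ⟨_, ht⟩ => ⟨f.eichlerCond_zero h.Q_x rfl, by
      simpa using (conj_mem h.Q_x b1 (h.torus_apply_x ξ) _ ht).2⟩) (t / f.B c (s.1 c)) (f.B c (s.1 c))
      ⟨f.eichlerCond_zero h.Q_x rfl, by
        rwa [f.eichler_congr _ (f.eichlerCond_zero (c := f.B c (s.1 c)) h.Q_x rfl) rfl
          (by simp [extRight_apply_right, add_neg_cancel_comm_assoc, sub_eq_add_neg])
          (by simp [extRight_apply_right, symp_B_self])] at e2⟩
    rw [smul_eq_mul, div_mul_cancel₀ _ (mt f.eq_zero_symm hc)] at this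
    exact this.2

omit hf in
theorem g2_orth {f : Form (Kind.orth F) V} (hf : f.Nondeg) (hd : 5 ≤ finrank F V) (D : Dt f x y v w) {U : Submodule F V}
    (hU : IsCompl U (f.perp U)) (hx : x ∈ U) (hy : y ∈ U) (hc : ∀ c, f.B x c = 0 → f.B y c = 0 → f.B v c = 0 → c ∈ f.perp U)
    {s : (f.restrict (f.perp U)).Isom} {w' : f.perp U} (hw : w = w') (u : Fˣ) {m n : ℕ} (h4 : (u * u) ^ m = 1) (h5 : s ^ n = 1)
    (h6 : n.Coprime m) (ho : Odd n) (cy : Cy s w' (u * u)) : G2 f := by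
  have hg := good_of_five_le (f := f) hd
  have := nontrivial_of_finrank_pos (R := F) (M := V) (by omega)
  refine D.g2 hf (.inl rfl) hU hx hc hw (D.hyp.torus_mul_self_mem_Eich hf (by omega) u)
    (fun c hc => D.hyp.torus_apply_of_B _ (hc x hx) (hc y hy)) (D.hyp.torus_apply_x _)
    (by rw [← D.hyp.torusHom_apply, ← map_pow, h4, map_one]) h5 h6 ?_ cy fun H _ _ _ _ => by simp [orth_Tgrp]
  refine hf.commutator_eq_Eich hg (by omega) ▸ mem_of_index (n := n) (by rw [← map_pow, h5, map_one]) ?_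
  by_cases h2 : (2 : F) = 0
  · simpa [hf.index_commutator_of_two_eq_zero hg h2]
  · rw [hf.index_commutator h2 (by omega)]
    exact (Nat.coprime_two_left.2 ho).pow_left 2

omit hf in
theorem g2_orth_odd {f : Form (Kind.orth F) V} (hf : f.Nondeg) (hd : 5 ≤ finrank F V) (h2 : (2 : F) ≠ 0) : G2 f := by
  obtain ⟨p, _⟩ := CharP.exists F
  have := Fact.mk (CharP.char_is_prime F p)
  obtain ⟨x, hx0, hx⟩ := f.exists_singular' (by omega)
  obtain ⟨y, h⟩ := hf.exists_isHyp hx hx0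
  have h1 := h.finrank_perp
  obtain ⟨v, a1, a2, a3, hU, j, hj, h0⟩ : ∃ v, (v = 0 ∨ f.B v v ≠ 0) ∧ f.B x v = 0 ∧ f.B y v = 0 ∧
      IsCompl (span F {x, y, v}) (f.perp (span F {x, y, v})) ∧ ∃ j, finrank F (f.perp (span F {x, y, v})) = 1 + 2 * j ∧ 0 < j := by
    rcases Nat.even_or_odd' (finrank F V) with ⟨j, hj | hj⟩
    · obtain ⟨v, hv, e⟩ := f.exists_Q_eq_of_two_le (hf.disjoint_perp_perp h.isCompl.disjoint) (by omega) 1
      have h3 : f.B v v ≠ 0 := by simpa [orth_B_self, e]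
      rw [mem_perp_span_pair] at hv
      have := compl3 hf h h3 hv.1 hv.2
      exact ⟨v, .inr h3, hv.1, hv.2, this.1, j - 2, by omega, by omega⟩
    · refine ⟨0, .inl rfl, by simp, by simp, ?_⟩
      rw [show span F {x, y, 0} = span F {x, y} by simp [span_insert]]
      exact ⟨h.isCompl, j - 1, by omega, by omega⟩
  have h3 := hf.restrict_perp hU.disjoint
  obtain ⟨s, b, hb, hs⟩ := h3.orth_exists_reg hj
  have h4 := hs.edivs_eq hb (by omega)
  obtain ⟨ξ, -, hξ⟩ := exists_gn (F := F)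
  obtain ⟨w, b1, b2, b3⟩ := exists_cy h3 h2 (by omega) (by simpa [hj, add_comm] using h4) hξ
  obtain ⟨i, hi⟩ := (isNilpotent_iff_orderOf p s.1).1 (isNilpotent_of_edivs (μ := {0 + 2 * j + 1}) (by simpa using h4))
  have h5 := f.mem_perp_span.1 w.2
  exact g2_orth hf hd ⟨h, a1, a2, a3, by simpa using b1, b2, h5 _ (by simp), h5 _ (by simp), h5 _ (by simp)⟩ hU
    (subset_span (by simp)) (subset_span (by simp)) (fun c _ _ _ => f.mem_perp_span.2 (by simp [*])) rfl ξ pow_card_eq_one'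
    (Subtype.ext (hi ▸ pow_orderOf_eq_one s.1)) (cop p i) (((Fact.out : p.Prime).odd_of_ne_two fun e =>
      h2 (by simpa [e] using CharP.cast_eq_zero F p)).pow) b3

omit hf in
theorem g2_orth_two {f : Form (Kind.orth F) V} (hf : f.Nondeg) {j : ℕ} (hd : finrank F V = 2 * j + 6) (h2 : (2 : F) = 0)
    (hi : f.IsIndex (j + 2) ∨ (f.IsIndex (j + 3) ∧ j ≠ 0)) : G2 f := by
  obtain ⟨x, hx0, hx⟩ := f.exists_singular' (by omega)
  obtain ⟨y, h⟩ := hf.exists_isHyp hx hx0
  have h1 := h.finrank_perp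
  have h3 := h.nondeg_perp hf
  have := Fintype.ofFinite F
  have h6 := FiniteField.even_card_of_char_two (F := F) (ringChar.eq_iff.2 ((CharP.charP_iff_prime_eq_zero Nat.prime_two).2 h2))
  rw [← Nat.card_eq_fintype_card] at h6
  have ho : ∀ i, Odd (Nat.card F ^ (i + 1) + 1) := fun i => Even.add_one (Nat.even_pow.2 ⟨Nat.even_iff.2 h6, by omega⟩)
  obtain ⟨s, w, n, b1, b2, b3, b4, b5⟩ : ∃ (s : (f.restrict (f.perp (span F {x, y}))).Isom) (w : _) (n : ℕ), w ≠ 0 ∧
      (f.restrict (f.perp (span F {x, y}))).Q w = 0 ∧ s ^ n = 1 ∧ Odd n ∧ Cy s w 1 := by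
    rcases hi with hi | ⟨hi, h0⟩
    · obtain ⟨W, _, _, _, p, s₀, a1, a2, a3⟩ := exists_singer (k := Kind.orth F) (fun _ => rfl) (j + 1)
      have h4 := h.isIndex_perp hf hi
      obtain ⟨s, hs⟩ := ((a3.index a1 (ho _) a2).equivalent_of_even a1 h4 h3 (by omega) ⟨j + 2, by omega⟩).exists_isoSim s₀
      obtain ⟨w, c1, c2⟩ := h4.exists_singular (by omega)
      exact ⟨s, w, _, c1, c2, (a3.congr hs).1, ho _, (a3.congr hs).cy' (by omega) c1⟩
    · obtain ⟨W, _, _, _, p, s₀, a1, a2, a3⟩ := exists_singer (k := Kind.orth F) (fun _ => rfl) j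
      obtain ⟨W', _, _, _, p', s₁, c1, c2, c3⟩ := exists_singer (k := Kind.orth F) (fun _ => rfl) 0
      obtain ⟨s, e, d1, d2⟩ := ((isIndex_prod_minus a1 c1 (a3.index a1 (ho _) a2) a2 (c3.index c1 (ho _) c2) c2).equivalent_of_even
        (a1.prod c1) (h.isIndex_perp hf hi) h3 (by simp; omega) (by simp [a2, c2, parity_simps])).exists_isoSim
          (p.prodHom p' (s₀, s₁))
      obtain ⟨u, -, hu⟩ := p.exists_Q_eq_of_two_le (W := ⊤) (by simp [a1.perp_top]) (by simp [a2]) 1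
      obtain ⟨u', -, hu'⟩ := p'.exists_Q_eq_of_two_le (W := ⊤) (by simp [c1.perp_top]) (by simp [c2]) (-1)
      have h4 : u ≠ 0 := by rintro rfl; simp at hu
      refine ⟨s, e (u, u'), _, by simp [h4], (d1.2 _).trans (by simp [hu, hu']), pow_eq_congr d2 ?_, (ho j).mul (ho 0),
        (cy_prod a3 c3.1 (fun e => ?_) h4 (fun w => a3.cy' a2) (c3.cy' c2 (by rintro rfl; simp at hu'))).congr d2⟩
      · rw [← map_pow, Prod.pow_mk, pow_mul, a3.1, one_pow, pow_mul', c3.1, one_pow]; exact map_one _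
      · have := Nat.pow_lt_pow_right (Finite.one_lt_card (α := F)) (show 0 + 1 < j + 1 by omega)
        have := Nat.le_of_dvd (by omega) e
        omega
  have h5 := f.mem_perp_span_pair.1 w.2
  exact g2_orth hf (by omega) ⟨h, .inl rfl, by simp, by simp, by simpa using b1, b2, h5.1, h5.2, by simp⟩ h.isCompl
    (subset_span (by simp)) (subset_span (by simp)) (fun c a b _ => f.mem_perp_span_pair.2 ⟨a, b⟩) rfl 1 (m := 1) (by simp)
    b3 (by simp) b4 (by simpa)

end CA.Gen2
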