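import Cfsg.Agent.Lib.Lin.Gen3
import Cfsg.Agent.Lib.Lin.CFormOBr

/-! Two-generation of classical groups: the orthogonal matrix groups. -/

namespace CA.Gen2

open Module CA.CForm CA.CForm.Form

variable {F : Type*} [Field F] [Finite F]

theorem tg_omega {ι : Type} [Fintype ι] [DecidableEq ι] {f : Form (Kind.orth F) (ι → F)} (hf : f.Nondeg)
    (hd : 5 ≤ finrank F (ι → F)) (h : (2 : F) = 0 → ∃ j, finrank F (ι → F) = 2 * j + 6 ∧
      (f.IsIndex (j + 2) ∨ (f.IsIndex (j + 3) ∧ j ≠ 0))) : TG (Cfsg.POmega F f.Q) := by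
  refine G2.tg ?_ (hf.commutator_eq_Eich (good_of_five_le hd) (by omega)).symm (omegaEquiv f)
  by_cases h2 : (2 : F) = 0
  · obtain ⟨j, h3, h4⟩ := h h2
    exact g2_orth_two hf h3 h2 h4
  · exact g2_orth_odd hf hd h2

theorem tg_minus (j : ℕ) {a b : F} (hab : Aniso a b) : TG (Cfsg.POmega F (Cfsg.quadFormMinus (j + 2) F a b)) :=
  tg_omega (minusForm_nondeg (j + 2) hab) (by rw [finrank_minus]; omega) fun _ =>
    ⟨j, by rw [finrank_minus]; omega, .inl (minusForm_isIndex _ hab)⟩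

end CA.Gen2
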