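import Cfsg.Agent.Lib.Lin.Gen4
import Cfsg.Agent.Lib.Lin.CFormSpU

/-! Two-generation of classical groups: unitary groups. -/

namespace CA.Gen2

open Module Polynomial CA.Rcf CA.CForm CA.CForm.Form Submodule

variable {F : Type*} [Field F] {V : Type*} [AddCommGroup V] [Module F V]

theorem pow_eigen [Finite F] {k : Kind F} {f : Form k V} {g : f.Isom} {z : V} {a : F} (h : g.1 z = a • z) (ha : a ≠ 0) :
    (g ^ Nat.card Fˣ).1 z = z := by
  have : ∀ j, (g ^ j).1 z = a ^ j • z := fun j => by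
    induction j with
    | zero => simp
    | succ j ih => rw [pow_succ', isom_mul_apply, ih, map_smul, h, smul_smul, pow_succ]
  rw [this, show a ^ _ = 1 from congrArg Units.val (pow_card_eq_one' (x := Units.mk0 a ha)), one_smul]

theorem g2_herm [Fintype F] [FiniteDimensional F V] {q : ℕ} (hF : Fintype.card F = q ^ 2) {f : Form (hermKind hF) V}
    (hf : f.Nondeg) (hd : 5 ≤ finrank F V) : G2 f := by
  obtain ⟨p, _⟩ := CharP.exists F
  have := Fact.mk (CharP.char_is_prime F p)
  obtain ⟨x, hx0, hx⟩ := herm_exists_singular' hF (f := f) (by omega)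
  obtain ⟨y, h⟩ := hf.exists_isHyp hx hx0
  have h1 := h.finrank_perp
  obtain ⟨v, hv, e⟩ := f.herm_exists_Q_eq (conj_ne_id hF) (hf.disjoint_perp_perp h.isCompl.disjoint)
    (fun h => by rw [h, finrank_bot] at h1; omega) (map_one _)
  rw [mem_perp_span_pair] at hv
  have h2 : f.B v v = 1 := (f.herm_B_self v).trans e
  obtain ⟨hU, h3⟩ := compl3 hf h (h2 ▸ one_ne_zero) hv.1 hv.2
  have h4 := hf.restrict_perp hU.disjoint
  have h0 := adm_unip (k := hermKind hF) {finrank F (f.perp (span F {x, y, v}))} (by simp; omega)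
  obtain ⟨s, hs⟩ := h4.herm_exists_isom (conj_ne_id hF) h0.1 h0.2.1 h0.2.2 
    ((Multiset.sum_singleton _).trans (natDegree_X_sub_one_pow _))
  obtain ⟨ξ, -, hξ⟩ := exists_gn (F := F)
  obtain ⟨w, b1, b2, b3⟩ := exists_cy h4 one_ne_zero (by omega) hs hξ
  have h5 := isNilpotent_of_edivs (μ := {finrank F (f.perp (span F {x, y, v}))}) hs
  obtain ⟨i, hi⟩ := (isNilpotent_iff_orderOf p s.1).1 h5
  have h6 := f.mem_perp_span.1 w.2
  have D : Dt f x y v w := ⟨h, .inr (h2 ▸ one_ne_zero), hv.1, hv.2, by simpa using b1, b2, h6 _ (by simp), h6 _ (by simp),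
    h6 _ (by simp)⟩
  obtain ⟨u, hu⟩ : ∃ u : Fˣ, conj hF u = ξ * ξ := ⟨Units.map (conj hF) (ξ * ξ), conj_conj hF _⟩
  have h7 : conj hF u ≠ 0 := by simp
  have hc : f.QreflCond v (conj hF u / u - 1) := by
    simp only [QreflCond, e, Kind.herm_σ, Kind.herm_ε, Kind.herm_π, one_mul, map_div₀, map_sub, map_one, conj_conj]
    field_simp; ring
  have hE := herm_Eich_eq hF hf (by omega)
  have h8 : h.torus u * f.qrefl v _ hc ∈ f.fix (f.perp (span F {x, y, v})) := fun c hc => by
    rw [mem_perp_span] at hc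
    rw [isom_mul_apply, qrefl_apply_of_B _ _ _ _ (hc v (by simp)), h.torus_apply_of_B _ (hc x (by simp)) (hc y (by simp))]
  have h9 : (h.torus u * f.qrefl v _ hc).1 x = (u : F) • x := by
    rw [isom_mul_apply, qrefl_apply_of_B _ _ _ _ (f.eq_zero_symm hv.1), h.torus_apply_x]
  refine D.g2 hf (.inl rfl) hU (subset_span (by simp)) (fun c a b d => f.mem_perp_span.2 (by simp [a, b, d])) rfl
    (hE.ge (mem_SIsom.2 (Units.ext ?_))) h8 h9 (f.isom_ext_of_isCompl hU (f.mem_fix_span.2 ?_) (pow_mem h8 _))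
    (Subtype.ext (hi ▸ pow_orderOf_eq_one s.1)) (cop (F := F) p i) (hE.ge (mem_SIsom.2 (Units.ext ?_))) (by rwa [← hu] at b3)
    fun H _ _ _ => D.tgrp hf (herm_exists_sub_eq _ (conj_ne_id hF))
  · rw [map_mul, Units.val_mul, h.detHom_torus, detHom_qrefl, h2, Kind.herm_σ, Units.val_one]
    field_simp; ring
  · rintro _ (rfl | rfl | rfl)
    · exact pow_eigen h9 u.ne_zero
    · exact pow_eigen (by rw [isom_mul_apply, qrefl_apply_of_B _ _ _ _ (f.eq_zero_symm hv.2), h.torus_apply_y]; rfl)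
        (inv_ne_zero h7)
    · exact pow_eigen (a := conj hF u / u) (by
        rw [isom_mul_apply, qrefl_apply, h2, map_add, map_smul, h.torus_apply_of_B _ hv.1 hv.2]; module)
        (div_ne_zero h7 u.ne_zero)
  · rw [detHom_extRight, coe_detHom, det_of_isNilpotent (a := 1) (by rwa [map_one]), one_pow, Units.val_one]

end CA.Gen2
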