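import Cfsg.Agent.Lib.Grp.H10Pron

/-!
Bruhat normal form in `GL_d`, and pronormality of overgroups of Sylow subgroups in the defining
characteristic.
-/

set_option autoImplicit false
set_option linter.unusedSectionVars false

namespace CA.H10Bru

open Cfsg Subgroup Matrix CA.H10Pron

variable {d : ℕ} {K : Type*} [Field K]

variable (K) in
/-- block triangular invertible matrices -/
def Tri {α : Type} [LinearOrder α] (b : Fin d → α) : Subgroup (GL (Fin d) K) where
  carrier := {g | g.1.BlockTriangular b}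
  mul_mem' ha hb := BlockTriangular.mul ha hb
  one_mem' := blockTriangular_one
  inv_mem' := fun {a} ha => by
    change ((a⁻¹ : GL (Fin d) K) : Matrix (Fin d) (Fin d) K).BlockTriangular b
    have : Invertible (a : Matrix (Fin d) (Fin d) K) := a.invertible
    rw [Matrix.coe_units_inv]
    exact Matrix.blockTriangular_inv_of_blockTriangular ha

variable (d K) in
/-- upper triangular -/
abbrev Bu : Subgroup (GL (Fin d) K) := Tri K id
variable (d K) in
/-- lower triangular -/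
abbrev Bl : Subgroup (GL (Fin d) K) := Tri K OrderDual.toDual

theorem mem_Bu {g : GL (Fin d) K} : g ∈ Bu d K ↔ ∀ i j, j < i → g.1 i j = 0 := Iff.rfl
theorem mem_Bl {g : GL (Fin d) K} : g ∈ Bl d K ↔ ∀ i j, i < j → g.1 i j = 0 := Iff.rfl

theorem diag_mul {a b : GL (Fin d) K} (ha : a ∈ Bu d K) (hb : b ∈ Bu d K) (i : Fin d) :
    (a * b).1 i i = a.1 i i * b.1 i i := by
  rw [Units.val_mul, mul_apply]
  refine Finset.sum_eq_single i (fun j _ hj => ?_) (by simp)
  rcases lt_or_gt_of_ne hj with h | h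
  · rw [ha h, zero_mul]
  · rw [hb h, mul_zero]

theorem diag_inv {a : GL (Fin d) K} (ha : a ∈ Bu d K) (i : Fin d) : (a⁻¹).1 i i * a.1 i i = 1 := by
  rw [← diag_mul (inv_mem ha) ha, inv_mul_cancel]; simp

theorem diag_pow {a : GL (Fin d) K} (ha : a ∈ Bu d K) (i : Fin d) (n : ℕ) :
    (a ^ n).1 i i = a.1 i i ^ n := by
  induction n with
  | zero => simp
  | succ n ih => rw [pow_succ, diag_mul (pow_mem ha n) ha, ih, pow_succ]

variable (d K) in
/-- unitriangular -/
def Uu : Subgroup (GL (Fin d) K) where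
  carrier := {g | g ∈ Bu d K ∧ ∀ i, g.1 i i = 1}
  mul_mem' ha hb := ⟨mul_mem ha.1 hb.1, fun i => by rw [diag_mul ha.1 hb.1, ha.2, hb.2, one_mul]⟩
  one_mem' := ⟨one_mem _, fun i => by simp⟩
  inv_mem' ha := ⟨inv_mem ha.1, fun i => by have := diag_inv ha.1 i; rwa [ha.2, mul_one] at this⟩

theorem det_Uu {u : GL (Fin d) K} (hu : u ∈ Uu d K) : GeneralLinearGroup.det u = 1 :=
  Units.ext (by
    rw [GeneralLinearGroup.val_det_apply, det_of_upperTriangular hu.1]
    simp [hu.2])

theorem comm_mem {a b : GL (Fin d) K} (ha : a ∈ Bu d K) (hb : b ∈ Bu d K) :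
    a * b * a⁻¹ * b⁻¹ ∈ Uu d K :=
  ⟨mul_mem (mul_mem (mul_mem ha hb) (inv_mem ha)) (inv_mem hb), fun i => by
    rw [diag_mul (mul_mem (mul_mem ha hb) (inv_mem ha)) (inv_mem hb),
      diag_mul (mul_mem ha hb) (inv_mem ha), diag_mul ha hb]
    linear_combination (b⁻¹).1 i i * b.1 i i * diag_inv ha i + diag_inv hb i⟩

theorem conj_mem {a u : GL (Fin d) K} (ha : a ∈ Bu d K) (hu : u ∈ Uu d K) : a * u * a⁻¹ ∈ Uu d K := by
  simpa using mul_mem (comm_mem ha hu.1) hu

theorem exists_diag {b : GL (Fin d) K} (hb : b ∈ Bu d K) :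
    ∃ u ∈ Uu d K, ∃ t ∈ Bu d K, t ∈ Bl d K ∧ b = u * t := by
  have h0 : ∀ i, b.1 i i ≠ 0 := fun i => right_ne_zero_of_mul_eq_one (diag_inv hb i)
  let t : GL (Fin d) K := GeneralLinearGroup.mkOfDetNeZero (diagonal fun i => b.1 i i)
    (by rw [det_diagonal]; exact Finset.prod_ne_zero_iff.2 fun i _ => h0 i)
  have ht : t ∈ Bu d K := fun i j h => diagonal_apply_ne _ (ne_of_gt h)
  refine ⟨b * t⁻¹, ⟨mul_mem hb (inv_mem ht), fun i => ?_⟩, t, ht,
    fun i j h => diagonal_apply_ne _ (ne_of_lt h), by simp⟩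
  have := diag_inv ht i
  rw [diag_mul hb (inv_mem ht), mul_comm]
  simpa [t] using this

theorem eq_one_of {u : GL (Fin d) K} (hu : u ∈ Uu d K) (h : u ∈ Bl d K) : u = 1 :=
  Units.ext (Matrix.ext fun i j => by
    rcases lt_trichotomy i j with e | rfl | e
    · rw [mem_Bl.1 h i j e, Units.val_one, one_apply_ne e.ne]
    · rw [hu.2, Units.val_one, one_apply_eq]
    · rw [mem_Bu.1 hu.1 i j e, Units.val_one, one_apply_ne e.ne'])

variable (K) in
/-- permutation matrices -/
def P (w : Equiv.Perm (Fin d)) : GL (Fin d) K :=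
  ⟨(1 : Matrix _ _ K).submatrix id w, (1 : Matrix _ _ K).submatrix w id,
    by rw [submatrix_mul_equiv]; simp,
    by have := submatrix_mul_equiv (1 : Matrix (Fin d) (Fin d) K) 1 w (Equiv.refl _) w
       simpa using this⟩

theorem mul_P (x : Matrix (Fin d) (Fin d) K) (w : Equiv.Perm (Fin d)) (i j : Fin d) :
    (x * (P K w).1) i j = x i (w j) := by
  simp [P, mul_apply, one_apply]

theorem P_inv_mul (x : Matrix (Fin d) (Fin d) K) (w : Equiv.Perm (Fin d)) (i j : Fin d) :
    (((P K w)⁻¹).1 * x) i j = x (w i) j := by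
  simp [P, mul_apply, one_apply]

theorem conj_P (x : GL (Fin d) K) (w w' : Equiv.Perm (Fin d)) (i j : Fin d) :
    ((P K w)⁻¹ * x * P K w').1 i j = x.1 (w i) (w' j) := by
  rw [Units.val_mul, mul_P, Units.val_mul, P_inv_mul]

theorem P_one : P K (1 : Equiv.Perm (Fin d)) = 1 := Units.ext (by simp [P])

theorem perm_eq {v w : Equiv.Perm (Fin d)} (h : ∀ i, v i ≤ w i) : v = w := by
  have e : ∑ i, ((v i : Fin d) : ℕ) = ∑ i, ((w i : Fin d) : ℕ) := by
    rw [Equiv.sum_comp v fun i => (i : ℕ), Equiv.sum_comp w fun i => (i : ℕ)]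
  exact Equiv.ext fun i => Fin.ext
    ((Finset.sum_eq_sum_iff_of_le fun i _ => Fin.le_def.1 (h i)).1 e i (Finset.mem_univ _))

theorem exists_col (g : GL (Fin d) K) (r : ℕ) : ∃ b ∈ Bu d K, ∃ w : Fin d → Fin d, ∀ j : Fin d,
    (j : ℕ) < r → (g * b).1 (w j) j = 1 ∧ (∀ i, w j < i → (g * b).1 i j = 0) ∧
      ∀ k, k < j → (g * b).1 (w k) j = 0 := by
  classical
  induction r with
  | zero => exact ⟨1, one_mem _, id, fun j hj => absurd hj (Nat.not_lt_zero _)⟩
  | succ r ih =>
    obtain ⟨b, hb, w, hw⟩ := ih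
    by_cases hr : r < d
    swap
    · exact ⟨b, hb, w, fun j _ => hw j (by have := j.2; omega)⟩
    set m := g * b with hm
    let R : Fin d := ⟨r, hr⟩
    have h1 : ∀ k ≤ r, ∃ c : Fin d → K, c R = 1 ∧ (∀ i, R < i → c i = 0) ∧
        ∀ l : Fin d, (l : ℕ) < k → (m.1 *ᵥ c) (w l) = 0 := by
      intro k hk
      induction k with
      | zero => exact ⟨Pi.single R 1, by simp, fun i hi => Pi.single_eq_of_ne hi.ne' _,
          fun l hl => absurd hl (Nat.not_lt_zero _)⟩
      | succ k ih2 =>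
        obtain ⟨c, c1, c2, c3⟩ := ih2 (by omega)
        let L : Fin d := ⟨k, by omega⟩
        have hL : L < R := Fin.lt_def.2 (by simp only [L, R]; omega)
        refine ⟨c - (m.1 *ᵥ c) (w L) • Pi.single L 1, by simp [c1, hL.ne'], fun i hi => by
          simp [c2 i hi, (hL.trans hi).ne'], fun l hl => ?_⟩
        rw [mulVec_sub, mulVec_smul, mulVec_single_one, Pi.sub_apply, Pi.smul_apply, col_apply,
          smul_eq_mul]
        rcases (Nat.lt_succ_iff.1 hl).lt_or_eq with h | h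
        · rw [c3 l h, (hw L hL).2.2 l h, mul_zero, sub_zero]
        · obtain rfl : l = L := Fin.ext h
          rw [(hw L hL).1, mul_one, sub_self]
    obtain ⟨c, c1, c2, c3⟩ := h1 r le_rfl
    have hv : (Finset.univ.filter fun i => (m.1 *ᵥ c) i ≠ 0).Nonempty := by
      by_contra h
      have h0 : m.1 *ᵥ c = 0 := funext fun i => by
        by_contra hi
        exact h ⟨i, by simpa using hi⟩
      have : c = 0 := by
        have := congrArg (fun v => (m⁻¹).1 *ᵥ v) h0
        simpa only [mulVec_mulVec, Units.inv_mul, one_mulVec, mulVec_zero] using this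
      simp [this] at c1
    set i0 := Finset.max' _ hv
    have hi0 : (m.1 *ᵥ c) i0 ≠ 0 := by simpa using Finset.max'_mem _ hv
    have hi1 : ∀ i, i0 < i → (m.1 *ᵥ c) i = 0 := fun i hi => by
      by_contra h
      exact hi.not_ge (Finset.le_max' _ i (by simpa using h))
    let E : Matrix (Fin d) (Fin d) K := (1 : Matrix _ _ K).updateCol R (((m.1 *ᵥ c) i0)⁻¹ • c)
    have hE : E.BlockTriangular id := fun i j h => by
      by_cases hj : j = R
      · subst hj; simp [E, c2 i h]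
      · simp only [E, updateCol_ne hj]
        exact one_apply_ne (ne_of_gt h)
    have hdet : E.det ≠ 0 := by
      rw [det_of_upperTriangular hE]
      refine Finset.prod_ne_zero_iff.2 fun i _ => ?_
      by_cases hj : i = R
      · subst hj; simp [E, c1, hi0]
      · simp [E, updateCol_ne hj]
    let e := GeneralLinearGroup.mkOfDetNeZero E hdet
    have he : ∀ i j, (g * (b * e)).1 i j =
        if j = R then ((m.1 *ᵥ c) i0)⁻¹ * (m.1 *ᵥ c) i else m.1 i j := fun i j => by
      rw [← mul_assoc, ← hm, Units.val_mul]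
      change (m.1 * E) i j = _
      split_ifs with hj
      · subst hj
        simp only [E, mul_apply, updateCol_self, mulVec, dotProduct, Pi.smul_apply, smul_eq_mul,
          Finset.mul_sum]
        exact Finset.sum_congr rfl fun k _ => by ring
      · simp [E, mul_apply, updateCol_ne hj, one_apply]
    refine ⟨b * e, mul_mem hb hE, Function.update w R i0, fun j hj => ?_⟩
    rcases (Nat.lt_succ_iff.1 hj).lt_or_eq with h | h
    · have hjR : j < R := h
      simp only [he, if_neg hjR.ne, Function.update_of_ne hjR.ne]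
      refine ⟨(hw j h).1, (hw j h).2.1, fun k hk => ?_⟩
      rw [Function.update_of_ne (hk.trans hjR).ne]
      exact (hw j h).2.2 k hk
    · obtain rfl : j = R := Fin.ext h
      simp only [he, if_pos, Function.update_self]
      refine ⟨inv_mul_cancel₀ hi0, fun i hi => by rw [hi1 i hi, mul_zero], fun k hk => ?_⟩
      rw [Function.update_of_ne hk.ne, c3 k hk, mul_zero]

theorem exists_bru (g : GL (Fin d) K) : ∃ (w : Equiv.Perm (Fin d)) (u : GL (Fin d) K), u ∈ Uu d K ∧
    (P K w)⁻¹ * u * P K w ∈ Bl d K ∧ ∃ b ∈ Bu d K, g = u * P K w * b := by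
  obtain ⟨b, hb, w, hw⟩ := exists_col g d
  have hi : Function.Injective w := fun j k e => by
    by_contra hne
    rcases lt_or_gt_of_ne hne with h | h
    · exact one_ne_zero ((hw k k.2).1.symm.trans (e ▸ (hw k k.2).2.2 j h))
    · exact one_ne_zero ((hw j j.2).1.symm.trans (e ▸ (hw j j.2).2.2 k h))
  let v : Equiv.Perm (Fin d) := Equiv.ofBijective w (Finite.injective_iff_bijective.1 hi)
  have h1 : ∀ i j, (g * b * (P K v)⁻¹).1 i (v j) = (g * b).1 i j := fun i j => by
    rw [← mul_P (g * b * (P K v)⁻¹).1, ← Units.val_mul, inv_mul_cancel_right]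
  refine ⟨v, g * b * (P K v)⁻¹, ⟨fun i j h => ?_, fun i => ?_⟩, fun i j h => ?_, b⁻¹, inv_mem hb,
    by group⟩
  · obtain ⟨j, rfl⟩ := v.surjective j
    rw [h1]; exact (hw j j.2).2.1 i h
  · obtain ⟨j, rfl⟩ := v.surjective i
    rw [h1]; exact (hw j j.2).1
  · rw [conj_P, h1]; exact (hw j j.2).2.2 i h

theorem bru_unique {w w' : Equiv.Perm (Fin d)} {u u' b b' : GL (Fin d) K} (hu : u ∈ Uu d K)
    (hu' : u' ∈ Uu d K) (h : (P K w)⁻¹ * u * P K w ∈ Bl d K) (h' : (P K w')⁻¹ * u' * P K w' ∈ Bl d K)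
    (hb : b ∈ Bu d K) (hb' : b' ∈ Bu d K) (e : u * P K w * b = u' * P K w' * b') : u = u' := by
  have hx := mul_mem (inv_mem hu') hu
  have h1 : (P K w')⁻¹ * (u'⁻¹ * u) * P K w ∈ Bu d K := by
    have : (P K w')⁻¹ * (u'⁻¹ * u) * P K w = b' * b⁻¹ := by
      rw [eq_mul_inv_of_mul_eq (eq_mul_inv_of_mul_eq e)]; group
    exact this ▸ mul_mem hb' (inv_mem hb)
  obtain rfl : w' = w := inv_injective (perm_eq fun i => by
    by_contra hlt
    have := mem_Bu.1 h1 _ _ (not_le.1 hlt)
    rw [conj_P] at this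
    simp [hx.2] at this)
  have h2 := eq_one_of ⟨h1, fun i => by rw [conj_P, hx.2]⟩ (by
    convert mul_mem (inv_mem h') h using 1; group)
  have : u'⁻¹ * u = 1 := by
    rw [← mul_left_cancel_iff (a := (P K w')⁻¹), ← mul_right_cancel_iff (a := P K w'), h2]; group
  exact (inv_mul_eq_one.1 this).symm

variable {p : ℕ} [Fact p.Prime] [CharP K p]

theorem pow_eq_one {u : GL (Fin d) K} (hu : u ∈ Uu d K) : u ^ p ^ d = 1 := by
  rcases Nat.eq_zero_or_pos d with rfl | hd
  · exact Units.ext (Subsingleton.elim _ _)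
  haveI : Nonempty (Fin d) := ⟨⟨0, hd⟩⟩
  have h1 : (u.1 - 1) ^ d = 0 := by
    have ht : (u.1 - 1).BlockTriangular id := BlockTriangular.sub hu.1 blockTriangular_one
    have := aeval_self_charpoly (u.1 - 1)
    rw [charpoly_of_upperTriangular _ ht] at this
    simpa [hu.2] using this
  have h2 : (u.1 - 1) ^ p ^ d = 0 :=
    pow_eq_zero_of_le (Nat.lt_pow_self (Fact.out : p.Prime).one_lt).le h1
  rw [sub_pow_char_pow_of_commute _ _ (Commute.one_right _), one_pow, sub_eq_zero] at h2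
  exact Units.ext (by simpa using h2)

theorem mem_Uu_of_pow {b : GL (Fin d) K} (hb : b ∈ Bu d K) {k : ℕ} (h : b ^ p ^ k = 1) :
    b ∈ Uu d K := ⟨hb, fun i => by
  have h1 := diag_pow hb i (p ^ k)
  rw [h, Units.val_one, one_apply_eq] at h1
  have h2 : (b.1 i i - 1) ^ p ^ k = 0 := by rw [sub_pow_char_pow, ← h1, one_pow, sub_self]
  exact sub_eq_zero.1 (pow_eq_zero_iff (pow_ne_zero _ (Fact.out : p.Prime).ne_zero) |>.1 h2)⟩

theorem allP {G : Type*} [Group G] [Finite G] (f : G →* GL (Fin d) K) (hf : Function.Injective f)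
    (σ : GL (Fin d) K →* GL (Fin d) K)
    (hr : ∀ g, g ∈ f.range ↔ GeneralLinearGroup.det g = 1 ∧ σ g = g)
    (h1 : ∀ g ∈ Bu d K, σ g ∈ Bu d K) (h2 : ∀ g ∈ Bl d K, σ g ∈ Bl d K)
    (h3 : ∀ w, ∃ w', σ (P K w) = P K w')
    (h4 : ∀ i j : Fin d, (j : ℕ) = i + 1 → ∃ x ∈ Uu d K, σ x = x ∧ x.1 i j ≠ 0) : AllP G p := by
  have hU : ∀ u ∈ Uu d K, σ u ∈ Uu d K := fun u hu =>
    mem_Uu_of_pow (h1 u hu.1) (by rw [← map_pow, pow_eq_one hu, map_one])
  have hfix : ∀ g, σ (f g) = f g := fun g => ((hr _).1 ⟨g, rfl⟩).2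
  have hB : ∀ g : G, ∃ (w : Equiv.Perm (Fin d)) (u : G), f u ∈ Uu d K ∧
      ∃ b ∈ Bu d K, f g = f u * P K w * b := fun g => by
    obtain ⟨w, u, hu, hl, b, hb, e⟩ := exists_bru (f g)
    obtain ⟨w', hw'⟩ := h3 w
    have := bru_unique (hU u hu) hu (by simpa [hw'] using h2 _ hl) hl (h1 b hb) hb (by
      rw [← hw', ← map_mul, ← map_mul, ← e, hfix])
    obtain ⟨u, rfl⟩ := (hr u).2 ⟨det_Uu hu, this⟩
    exact ⟨w, u, hu, b, hb, e⟩
  refine allP_split (U := (Uu d K).comap f) (B := (Bu d K).comap f)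
    (fun u => ⟨d, Subtype.ext (hf (by simpa using pow_eq_one u.2))⟩) (fun u hu => hu.1)
    (fun b hb u hu => by simpa using conj_mem hb hu) (fun a ha b hb => by simpa using comm_mem ha hb)
    (fun b hb k hk => mem_Uu_of_pow hb (by rw [← map_pow, hk, map_one])) (fun g hg => ?_)
    (fun g b hb => ?_)
  · obtain ⟨w, u, hu, b, hb, e⟩ := hB g
    have hm : Monotone (w⁻¹ : Equiv.Perm (Fin d)) := by
      cases d with
      | zero => exact Subsingleton.monotone _
      | succ n =>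
        refine Fin.monotone_iff_le_succ.2 fun i => ?_
        obtain ⟨x, hx, hσ, h0⟩ := h4 i.castSucc i.succ (by simp)
        obtain ⟨x, rfl⟩ := (hr x).2 ⟨det_Uu hx, hσ⟩
        have h5 : f (g⁻¹ * (u * x * u⁻¹) * g) ∈ Bu _ K :=
          hg (u * x * u⁻¹) (by simpa using mul_mem (mul_mem hu hx) (inv_mem hu))
        have h6 : (P K w)⁻¹ * f x * P K w ∈ Bu _ K := by
          convert mul_mem (mul_mem hb h5) (inv_mem hb) using 1
          simp only [map_mul, map_inv, e]; group
        by_contra hlt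
        have := mem_Bu.1 h6 _ _ (not_le.1 hlt)
        rw [conj_P] at this
        simp [h0] at this
    obtain rfl : w = 1 := inv_eq_one.1
      (perm_eq (v := 1) (hm.strictMono_of_injective (Equiv.injective _)).id_le).symm
    change f g ∈ Bu d K
    rw [e, P_one, mul_one]
    exact mul_mem hu.1 hb
  · obtain ⟨w, u, hu, b0, hb0, e⟩ := hB g
    obtain ⟨u1, hu1, t, ht, ht', e1⟩ := exists_diag (show f b ∈ Bu d K from hb)
    have h5 : u1⁻¹ * σ u1 = t * (σ t)⁻¹ := by
      rw [inv_mul_eq_iff_eq_mul, ← mul_assoc, eq_mul_inv_iff_mul_eq, ← map_mul, ← e1, hfix]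
    have h6 := eq_one_of (mul_mem (inv_mem hu1) (hU _ hu1))
      (h5 ▸ mul_mem ht' (inv_mem (h2 t ht')))
    obtain ⟨u1, rfl⟩ := (hr u1).2 ⟨det_Uu hu1, (inv_mul_eq_one.1 h6).symm⟩
    have h7 : (P K w)⁻¹ * t * P K w ∈ Bu d K := fun i j h => by
      rw [conj_P]
      rcases lt_or_gt_of_ne (w.injective.ne (ne_of_gt h)) with h | h
      · exact mem_Bl.1 ht' _ _ h
      · exact mem_Bu.1 ht _ _ h
    have h8 : t = f (u1⁻¹ * b) := by rw [map_mul, map_inv, e1, inv_mul_cancel_left]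
    refine ⟨u * (u1⁻¹ * b) * u⁻¹ * (u1⁻¹ * b)⁻¹ * u1⁻¹, ?_, ?_⟩
    · change f _ ∈ Uu d K
      rw [map_mul, map_mul, map_mul, map_mul, map_inv, map_inv, map_inv, ← h8, mul_assoc (f u),
        mul_assoc (f u)]
      exact mul_mem (mul_mem hu (conj_mem ht (inv_mem hu))) (inv_mem hu1)
    · change f _ ∈ Bu d K
      convert mul_mem (mul_mem (inv_mem hb0) h7) hb0 using 1
      simp only [map_mul, map_inv, e, h8]; group

end CA.H10Bru
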