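import Cfsg.Agent.Lib.Grp.H10Pron
import Cfsg.Agent.Lib.Lin.Mat2

/-!
Normalisers of Sylow `2`-subgroups of linear and unitary groups of `2`-power degree in odd
characteristic.
-/

set_option autoImplicit false
set_option linter.unusedSectionVars false

namespace CA.H10Two

open Subgroup Matrix CA.Mat2

variable {K : Type*} [Field K] {ι : Type} [Fintype ι] [DecidableEq ι]

/-- scalar matrices -/
def Sc (a : Matrix ι ι K) : Prop := ∃ c : K, a = c • 1

/-- elements of odd order normalising the determinant one part of `R` are scalar -/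
def NorS (R : Subgroup (GL ι K)) : Prop := ∀ (g : GL ι K) (n : ℕ), Odd n → g ^ n = 1 →
  (∀ s ∈ R, s.1.det = 1 → g * s * g⁻¹ ∈ R) → Sc g.1

structure Good (c : ℕ) (R : Subgroup (GL ι K)) : Prop where
  card : Nat.card R = 2 ^ c
  neg : -1 ∈ R
  cen : ∀ a : Matrix ι ι K, (∀ s ∈ R, s.1.det = 1 → s.1 * a = a * s.1) → Sc a
  nor : ∀ (g : GL ι K) (n : ℕ), Odd n → g ^ n = 1 → (∀ s ∈ R, g * s * g⁻¹ ∈ R) → Sc g.1

theorem Good.finite {c : ℕ} {R : Subgroup (GL ι K)} (h : Good c R) : Finite R :=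
  Nat.finite_of_card_ne_zero (by rw [h.card]; positivity)

theorem eq_one_of_odd {G : Type*} [Group G] {R : Subgroup G} (hR : IsPGroup 2 R) {h : G}
    (hh : h ∈ R) {n : ℕ} (hn : Odd n) (e : h ^ n = 1) : h = 1 := by
  obtain ⟨k, hk⟩ := hR ⟨h, hh⟩
  have := pow_gcd_eq_one.2 ⟨e, (congrArg Subtype.val hk : h ^ 2 ^ k = 1)⟩
  rwa [(hn.coprime_two_right.pow_right k : n.gcd _ = 1), pow_one] at this

theorem conj_inv_of {G : Type*} [Group G] {p : G → Prop} {g : G} {n : ℕ} (hn : Odd n) (e : g ^ n = 1)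
    (h : ∀ s, p s → p (g * s * g⁻¹)) (s : G) (hs : p s) : p (g⁻¹ * s * g) := by
  have h1 : ∀ k : ℕ, p (g ^ k * s * (g ^ k)⁻¹) := fun k => by
    induction k with
    | zero => simpa using hs
    | succ k ih => convert h _ ih using 1; group
  have h2 : g ^ (n - 1) = g⁻¹ := eq_inv_of_mul_eq_one_left (by
    rw [← pow_succ, Nat.sub_add_cancel hn.pos, e])
  simpa [h2] using h1 (n - 1)

theorem comm_of_odd {g : GL ι K} {n : ℕ} (hn : Odd n) (e : g ^ n = 1) {z : Matrix ι ι K}
    (h : g.1 * z = z * g.1 ∨ g.1 * z = -(z * g.1)) (h2 : (2 : K) ≠ 0) : g.1 * z = z * g.1 := by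
  refine h.elim id fun h => ?_
  have h1 : ∀ k : ℕ, (g ^ k).1 * z = (-1 : K) ^ k • (z * (g ^ k).1) := fun k => by
    induction k with
    | zero => simp
    | succ k ih =>
      rw [pow_succ, Units.val_mul, Matrix.mul_assoc, h, Matrix.mul_neg, ← Matrix.mul_assoc, ih,
        pow_succ, smul_mul_assoc, Matrix.mul_assoc, mul_neg_one, neg_smul]
  have h3 := h1 n
  rw [e, hn.neg_one_pow, Units.val_one, Matrix.one_mul, Matrix.mul_one, neg_one_smul,
    eq_neg_iff_add_eq_zero, ← two_smul K, smul_eq_zero] at h3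
  simp [h3.resolve_left h2]

theorem ne_neg [Nonempty ι] (h2 : (2 : K) ≠ 0) (b : GL ι K) : b.1 ≠ -b.1 := fun h => by
  rw [eq_neg_iff_add_eq_zero, ← two_smul K, smul_eq_zero] at h
  exact b.ne_zero (h.resolve_left h2)

/-! ### the wreath product -/

/-- block diagonal matrices -/
def dg : GL ι K × GL ι K →* GL (ι ⊕ ι) K where
  toFun x := ⟨fromBlocks x.1.1 0 0 x.2.1, fromBlocks (x.1⁻¹).1 0 0 (x.2⁻¹).1,
    by simp [fromBlocks_multiply], by simp [fromBlocks_multiply]⟩
  map_one' := Units.ext (by simp)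
  map_mul' x y := Units.ext (by simp [fromBlocks_multiply])

theorem dg_val (a b : GL ι K) : (dg (a, b)).1 = fromBlocks a.1 0 0 b.1 := rfl

theorem dg_inj : Function.Injective (dg : GL ι K × GL ι K → _) := fun x y h => by
  have := fromBlocks_inj.1 (congrArg Units.val h)
  exact Prod.ext (Units.ext this.1) (Units.ext this.2.2.2)

variable (K ι) in
/-- the swap -/
def sw : GL (ι ⊕ ι) K := ⟨fromBlocks 0 1 1 0, fromBlocks 0 1 1 0,
  by simp [fromBlocks_multiply], by simp [fromBlocks_multiply]⟩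

theorem sw_sw : sw K ι * sw K ι = 1 := Units.ext (sw K ι).val_inv
theorem sw_dg (a b : GL ι K) : sw K ι * dg (a, b) = dg (b, a) * sw K ι :=
  Units.ext (by simp [sw, dg_val, fromBlocks_multiply])
theorem dg_sw_val (a b : GL ι K) : (dg (a, b) * sw K ι).1 = fromBlocks 0 a.1 b.1 0 := by
  simp [sw, dg_val, fromBlocks_multiply]
theorem dg_ne [Nonempty ι] (a b c d : GL ι K) : dg (a, b) ≠ dg (c, d) * sw K ι := fun h => by
  have := congrArg Units.val h
  rw [dg_sw_val, dg_val, fromBlocks_inj] at this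
  exact a.ne_zero this.1

/-- the wreath product of `R` with `C₂` -/
def W (R : Subgroup (GL ι K)) : Subgroup (GL (ι ⊕ ι) K) where
  carrier := {g | ∃ a ∈ R, ∃ b ∈ R, g = dg (a, b) ∨ g = dg (a, b) * sw K ι}
  one_mem' := ⟨1, one_mem _, 1, one_mem _, Or.inl (map_one dg).symm⟩
  mul_mem' := by
    rintro _ _ ⟨a, ha, b, hb, rfl | rfl⟩ ⟨c, hc, d, hd, rfl | rfl⟩
    · exact ⟨_, mul_mem ha hc, _, mul_mem hb hd, Or.inl (map_mul dg _ _).symm⟩
    · exact ⟨_, mul_mem ha hc, _, mul_mem hb hd, Or.inr (by rw [← mul_assoc, ← map_mul]; rfl)⟩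
    · exact ⟨_, mul_mem ha hd, _, mul_mem hb hc, Or.inr (by
        rw [mul_assoc, sw_dg, ← mul_assoc, ← map_mul]; rfl)⟩
    · exact ⟨_, mul_mem ha hd, _, mul_mem hb hc, Or.inl (by
        rw [mul_assoc, ← mul_assoc (sw K ι), sw_dg, mul_assoc, sw_sw, mul_one, ← map_mul]; rfl)⟩
  inv_mem' := by
    rintro _ ⟨a, ha, b, hb, rfl | rfl⟩
    · exact ⟨_, inv_mem ha, _, inv_mem hb, Or.inl (map_inv dg _).symm⟩
    · exact ⟨_, inv_mem hb, _, inv_mem ha, Or.inr (by
        rw [← sw_dg, _root_.mul_inv_rev, ← map_inv, inv_eq_of_mul_eq_one_right sw_sw]; rfl)⟩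

variable {R : Subgroup (GL ι K)} {c : ℕ}

theorem dg_mem {a b : GL ι K} (ha : a ∈ R) (hb : b ∈ R) : dg (a, b) ∈ W R :=
  ⟨a, ha, b, hb, Or.inl rfl⟩

theorem of_dg_mem [Nonempty ι] {a b : GL ι K} (h : dg (a, b) ∈ W R) : a ∈ R ∧ b ∈ R := by
  obtain ⟨c, hc, d, hd, h | h⟩ := h
  · obtain ⟨rfl, rfl⟩ := Prod.mk.inj (dg_inj h)
    exact ⟨hc, hd⟩
  · exact absurd h (dg_ne _ _ _ _)

theorem card_W [Nonempty ι] [Finite R] : Nat.card (W R) = 2 * Nat.card R ^ 2 := by
  let F : (R × R) ⊕ (R × R) → W R := Sum.elim (fun x => ⟨_, dg_mem x.1.2 x.2.2⟩)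
    fun x => ⟨_, x.1, x.1.2, x.2, x.2.2, Or.inr rfl⟩
  have hi : ∀ x y : R × R, dg ((x.1 : GL ι K), (x.2 : GL ι K)) = dg (y.1.1, y.2.1) → x = y :=
    fun x y h => by
      have := Prod.mk.inj (dg_inj h)
      exact Prod.ext (Subtype.ext this.1) (Subtype.ext this.2)
  have : Function.Bijective F := ⟨by
    rintro (x | x) (y | y) h <;> have h := congrArg Subtype.val h
    · rw [hi x y h]
    · exact absurd h (dg_ne _ _ _ _)
    · exact absurd h.symm (dg_ne _ _ _ _)
    · rw [hi x y (mul_right_cancel h)], by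
    rintro ⟨_, a, ha, b, hb, rfl | rfl⟩
    · exact ⟨.inl (⟨a, ha⟩, ⟨b, hb⟩), rfl⟩
    · exact ⟨.inr (⟨a, ha⟩, ⟨b, hb⟩), rfl⟩⟩
  rw [← Nat.card_eq_of_bijective F this, Nat.card_sum, Nat.card_prod]; ring

theorem det_dg (a b : GL ι K) : (dg (a, b)).1.det = a.1.det * b.1.det := by
  rw [dg_val, det_fromBlocks_zero₂₁]

theorem det_J : (dg ((-1 : GL ι K), 1) * sw K ι).1.det = 1 := by
  have : (dg ((-1 : GL ι K), 1) * sw K ι).1 = fromBlocks 1 (-1) 0 1 * fromBlocks 1 0 1 1 *
      fromBlocks (1 : Matrix ι ι K) (-1) 0 1 := by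
    rw [dg_sw_val]; simp [fromBlocks_multiply]
  rw [this, det_mul, det_mul, det_fromBlocks_zero₂₁, det_fromBlocks_zero₁₂]; simp

theorem block_of_comm (h2 : (2 : K) ≠ 0) {M : Matrix (ι ⊕ ι) (ι ⊕ ι) K}
    (h : (dg ((1 : GL ι K), -1)).1 * M = M * (dg ((1 : GL ι K), -1)).1) : ∃ A D, M = fromBlocks A 0 0 D := by
  rw [← fromBlocks_toBlocks M] at h ⊢
  simp only [dg_val, fromBlocks_multiply, fromBlocks_inj, Units.val_one, Units.val_neg,
    Matrix.one_mul, Matrix.mul_one, Matrix.zero_mul, Matrix.mul_zero, add_zero, zero_add,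
    Matrix.neg_mul, Matrix.mul_neg] at h
  have e : ∀ X : Matrix ι ι K, X = -X → X = 0 := fun X h => by
    rw [eq_neg_iff_add_eq_zero, ← two_smul K, smul_eq_zero] at h
    exact h.resolve_left h2
  exact ⟨_, _, by rw [e _ h.2.1, e _ h.2.2.1.symm]⟩

section step
variable [Nontrivial ι] (h2 : (2 : K) ≠ 0) (he : Even (Fintype.card ι)) (hR : Good c R)
include h2 he hR

theorem det_z : (dg ((1 : GL ι K), -1)).1.det = 1 := by
  rw [det_dg, Units.val_neg, det_neg, he.neg_one_pow]; simp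

theorem cen_W (M : Matrix (ι ⊕ ι) (ι ⊕ ι) K)
    (h : ∀ s ∈ W R, s.1.det = 1 → s.1 * M = M * s.1) : Sc M := by
  obtain ⟨A, D, rfl⟩ := block_of_comm h2 (h _ (dg_mem (one_mem _) hR.neg) (det_z h2 he hR))
  obtain ⟨x, rfl⟩ := hR.cen A fun s hs hd => by
    have := h _ (dg_mem hs (one_mem _)) (by simp [det_dg, hd])
    simp only [dg_val, fromBlocks_multiply, fromBlocks_inj] at this
    simpa using this.1
  have := h _ ⟨-1, hR.neg, 1, one_mem _, Or.inr rfl⟩ det_J
  simp only [dg_sw_val, fromBlocks_multiply, fromBlocks_inj] at this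
  obtain rfl : x • 1 = D := by simpa using this.2.2.1
  exact ⟨x, by rw [← fromBlocks_one, fromBlocks_smul]; simp⟩

theorem norS_W : NorS (W R) := fun g n hn e h => by
  set z : GL (ι ⊕ ι) K := dg (1, -1) with hz
  have hzs : ∀ s ∈ W R, s * z = z * s ∨ s * z = -(z * s) := by
    rintro _ ⟨a, -, b, -, rfl | rfl⟩
    · exact Or.inl (by rw [hz, ← map_mul, ← map_mul]; simp)
    · exact Or.inr (Units.ext (by
        rw [Units.val_neg, Units.val_mul _ z, Units.val_mul z, dg_sw_val, hz, dg_val]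
        simp [fromBlocks_multiply, fromBlocks_neg]))
  have hdet : ∀ s : GL (ι ⊕ ι) K, (g * s * g⁻¹).1.det = s.1.det := fun s => by
    rw [Units.val_mul, Units.val_mul, det_units_conj]
  have hinv := conj_inv_of (p := fun s => s ∈ W R ∧ s.1.det = 1) hn e
    fun s hs => ⟨h s hs.1 hs.2, (hdet s).trans hs.2⟩
  have hz' : ∀ s ∈ W R, s.1.det = 1 → s.1 * (g * z * g⁻¹).1 = (g * z * g⁻¹).1 * s.1 ∨
      s.1 * (g * z * g⁻¹).1 = -((g * z * g⁻¹).1 * s.1) := fun s hs hd => by
    simp only [← Units.val_mul, ← Units.val_neg, Units.val_inj]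
    refine (hzs _ (hinv s ⟨hs, hd⟩).1).imp (fun h => ?_) fun h => ?_
    · calc _ = g * (g⁻¹ * s * g * z) * g⁻¹ := by group
        _ = _ := by rw [h]; group
    · calc _ = g * (g⁻¹ * s * g * z) * g⁻¹ := by group
        _ = _ := by rw [h, mul_neg, neg_mul]; group
  have hzz : z * z = 1 := by rw [hz, ← map_mul, ← map_one dg]; congr 1; simp
  have hgz : g.1 * z.1 = z.1 * g.1 := by
    refine comm_of_odd hn e ?_ h2
    suffices g * z * g⁻¹ = z ∨ g * z * g⁻¹ = -z by
      simp only [← Units.val_mul, ← Units.val_neg, Units.val_inj]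
      exact this.imp eq_mul_of_mul_inv_eq fun h => by rw [← neg_mul, ← h]; group
    obtain ⟨a, ha, b, hb, e1 | e1⟩ := h z (dg_mem (one_mem _) hR.neg) (det_z h2 he hR)
    · have e2 : dg (a * a, b * b) = 1 := by
        rw [← Prod.mk_mul_mk, map_mul, ← e1]
        calc _ = g * (z * z) * g⁻¹ := by group
          _ = _ := by rw [hzz]; group
      rw [← map_one dg] at e2
      have e3 := Prod.mk.inj (dg_inj e2)
      have key : ∀ x : GL ι K, x * x = 1 → Sc x.1 → x = 1 ∨ x = -1 := fun x hx ⟨t, ht⟩ => by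
        have := congrArg Units.val hx
        rw [Units.val_mul, ht, smul_mul_smul_comm, Matrix.one_mul, Units.val_one] at this
        obtain ⟨i⟩ : Nonempty ι := inferInstance
        have h1 : t * t = 1 := by simpa using congrFun (congrFun this i) i
        exact (mul_self_eq_one_iff.1 h1).imp (fun h => Units.ext (by simp [ht, h]))
          fun h => Units.ext (by simp [ht, h])
      rw [e1] at hz' ⊢
      have ea := key a e3.1 (hR.cen _ fun s hs hd => by
        have := hz' _ (dg_mem hs (one_mem _)) (by simp [det_dg, hd])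
        simp only [dg_val, fromBlocks_multiply, fromBlocks_inj, fromBlocks_neg] at this
        rcases this with h | h
        · simpa using h.1
        · exact absurd (by simpa using h.2.2.2) (ne_neg h2 b))
      have eb := key b e3.2 (hR.cen _ fun s hs hd => by
        have := hz' _ (dg_mem (one_mem _) hs) (by simp [det_dg, hd])
        simp only [dg_val, fromBlocks_multiply, fromBlocks_inj, fromBlocks_neg] at this
        rcases this with h | h
        · simpa using h.2.2.2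
        · exact absurd (by simpa using h.1) (ne_neg h2 a))
      have hm : dg ((-1 : GL ι K), -1) = -1 := Units.ext (by
        rw [dg_val, Units.val_neg, Units.val_neg, Units.val_one, Units.val_one, ← fromBlocks_one,
          fromBlocks_neg]; simp)
      have hne : (1 : GL ι K) ≠ -1 := fun h => ne_neg h2 1 (congrArg Units.val h)
      rcases ea with rfl | rfl <;> rcases eb with rfl | rfl
      · have : z = dg 1 := by
          rw [map_one]; simpa using e1.trans (map_one dg)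
        exact absurd (Prod.mk.inj (dg_inj this)).2.symm hne
      · exact Or.inl rfl
      · exact Or.inr (by rw [← neg_one_mul z, ← hm, hz, ← map_mul]; simp)
      · have : z = dg ((-1 : GL ι K), -1) := by
          rw [hm] at e1 ⊢
          calc z = g⁻¹ * (g * z * g⁻¹) * g := by group
            _ = _ := by rw [e1]; simp
        exact absurd (Prod.mk.inj (dg_inj this)).1 hne
    · exfalso
      rw [e1] at hz'
      obtain ⟨i, j, hij⟩ := exists_pair_ne ι
      obtain ⟨t, ht⟩ := hR.cen (single i j 1) fun s hs hd => by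
        have := hz' _ (dg_mem hs (one_mem _)) (by simp [det_dg, hd])
        simp only [dg_sw_val, dg_val, fromBlocks_multiply, fromBlocks_inj, fromBlocks_neg] at this
        rcases this with h | h
        · have h3 : s.1 * a.1 = 1 * a.1 := by simpa using h.2.1
          have : s.1 = 1 := a.mul_left_inj.1 h3
          simp [this]
        · have h3 : s.1 * a.1 = -1 * a.1 := by simpa using h.2.1
          have : s.1 = -1 := a.mul_left_inj.1 h3
          simp [this]
      simpa [one_apply_ne hij] using congrFun (congrFun ht i) j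
  obtain ⟨A, D, e1⟩ := block_of_comm h2 hgz.symm
  have hd : A.det * D.det ≠ 0 := by
    rw [← det_fromBlocks_zero₂₁ A 0 D, ← e1]
    exact ((isUnit_iff_isUnit_det _).1 g.isUnit).ne_zero
  obtain ⟨A, rfl⟩ : ∃ A' : GL ι K, A'.1 = A :=
    ⟨GeneralLinearGroup.mkOfDetNeZero A (left_ne_zero_of_mul hd), rfl⟩
  obtain ⟨D, rfl⟩ : ∃ D' : GL ι K, D'.1 = D :=
    ⟨GeneralLinearGroup.mkOfDetNeZero D (right_ne_zero_of_mul hd), rfl⟩
  obtain rfl : g = dg (A, D) := Units.ext e1
  rw [← map_pow, ← map_one dg] at e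
  have e2 : A ^ n = 1 ∧ D ^ n = 1 := Prod.mk.inj (dg_inj e)
  have h3 : ∀ s ∈ R, A * s * A⁻¹ ∈ R ∧ D * s⁻¹ * D⁻¹ ∈ R := fun s hs => by
    have := h _ (dg_mem hs (inv_mem hs)) (by rw [det_dg, ← det_mul, Units.mul_inv, det_one])
    rw [← map_inv, ← map_mul, ← map_mul] at this
    exact of_dg_mem this
  obtain ⟨x, hx⟩ := hR.nor A n hn e2.1 fun s hs => (h3 s hs).1
  have h4 : dg (A * D⁻¹, D * A⁻¹) ∈ W R := by
    have hJ : dg ((-1 : GL ι K), 1) * sw K ι ∈ W R := ⟨-1, hR.neg, 1, one_mem _, Or.inr rfl⟩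
    convert mul_mem (h _ hJ det_J) (inv_mem hJ) using 1
    rw [eq_mul_inv_iff_mul_eq, ← map_inv, Prod.inv_mk, mul_assoc, mul_assoc, sw_dg, ← mul_assoc,
      ← mul_assoc, ← mul_assoc, ← map_mul, ← map_mul, ← map_mul]
    simp
  have hc : Commute A D⁻¹ := Units.ext (by simp [hx])
  have h5 := eq_one_of_odd (IsPGroup.of_card hR.card) (of_dg_mem h4).1 hn (by
    rw [hc.mul_pow, e2.1, inv_pow, e2.2]; simp)
  obtain rfl := mul_inv_eq_one.1 h5
  exact ⟨x, by rw [dg_val, hx, ← fromBlocks_one, fromBlocks_smul]; simp⟩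

theorem good_W : Good (1 + c * 2) (W R) where
  card := by have := hR.finite; rw [card_W, hR.card]; ring
  neg := ⟨-1, hR.neg, -1, hR.neg, Or.inl (Units.ext (by
    rw [dg_val, Units.val_neg, Units.val_neg, Units.val_one, Units.val_one, ← fromBlocks_one,
      fromBlocks_neg]; simp))⟩
  cen := cen_W h2 he hR
  nor g n hn e h := norS_W h2 he hR g n hn e fun s hs _ => h s hs

end step

/-! ### degree two -/

theorem nor_two (h2 : (2 : K) ≠ 0) {R : Subgroup (GL (Fin 2) K)} (hp : IsPGroup 2 R) [Finite R]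
    (cen : ∀ a : Matrix (Fin 2) (Fin 2) K, (∀ s ∈ R, s.1 * a = a * s.1) → Sc a)
    {r : GL (Fin 2) K} (hr : r ∈ R) (hr' : NS (r * r).1) (g : GL (Fin 2) K) (n : ℕ) (hn : Odd n)
    (e : g ^ n = 1) (h : ∀ s ∈ R, g * s * g⁻¹ ∈ R) : Sc g.1 := by
  have hZ : ∀ x : GL (Fin 2) K, x ∈ center (GL (Fin 2) K) ↔ Sc x.1 := fun x => by
    rw [GeneralLinearGroup.mem_center_iff_val_mem_range_scalar]
    exact exists_congr fun c => by rw [scalar_apply, smul_one_eq_diagonal, eq_comm]
  -- a central involution of the image in `PGL₂`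
  obtain ⟨z, hz, hns, ⟨t, ht⟩, hzc⟩ : ∃ z ∈ R, NS z.1 ∧ Sc (z * z).1 ∧
      ∀ s ∈ R, Sc (s * z * s⁻¹ * z⁻¹).1 := by
    let π := QuotientGroup.mk' (center (GL (Fin 2) K))
    have hπ : ∀ x, π x = 1 ↔ Sc x.1 := fun x => (QuotientGroup.eq_one_iff x).trans (hZ x)
    have hQ : IsPGroup 2 (R.map π) := hp.map π
    haveI : Finite (R.map π) := Finite.of_surjective _ (π.subgroupMap_surjective R)
    haveI : Nontrivial (R.map π) := (R.map π).nontrivial_iff_exists_ne_one.2
      ⟨_, mem_map_of_mem π (mul_mem hr hr), fun h => (not_NS_iff _).2 ((hπ _).1 h) hr'⟩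
    haveI := hQ.center_nontrivial
    obtain ⟨k, hk, hc⟩ := (hQ.to_subgroup (center _)).nontrivial_iff_card.1 inferInstance
    obtain ⟨⟨⟨_, z, hz, rfl⟩, hc⟩, ho⟩ := exists_prime_orderOf_dvd_card' (G := center (R.map π)) 2
      (hc ▸ dvd_pow_self 2 hk.ne')
    obtain ⟨o1, o2⟩ := orderOf_eq_prime_iff.1 ho
    refine ⟨z, hz, not_not.1 fun h => o2 (Subtype.ext (Subtype.ext ((hπ _).2 ((not_NS_iff _).1 h)))),
      (hπ _).1 (by simpa [sq] using congrArg (fun x => x.1.1) o1), fun s hs => (hπ _).1 ?_⟩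
    have := congrArg Subtype.val (mem_center_iff.1 hc ⟨_, mem_map_of_mem π hs⟩)
    simp only [map_mul, map_inv]
    rw [mul_inv_eq_one, mul_inv_eq_iff_eq_mul]
    exact this
  have ht0 : t ≠ 0 := fun h => (z * z).ne_zero (by simp [ht, h])
  have htr : z.1.trace = 0 := by
    have := lin_mul z.1 0 1 0 1
    rw [lin_zero_one, ← Units.val_mul, ht, ← lin_zero_right z.1] at this
    simpa using (hns.lin_inj this).2.symm
  have hpm : ∀ (s : GL (Fin 2) K) (y : K), (s * z * s⁻¹).1 = y • z.1 →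
      s.1 * z.1 = z.1 * s.1 ∨ s.1 * z.1 = -(z.1 * s.1) := fun s y hy => by
    have h1 : (s * z * s⁻¹).1 * (s * z * s⁻¹).1 = t • 1 := by
      rw [← Units.val_mul, show s * z * s⁻¹ * (s * z * s⁻¹) = s * (z * z) * s⁻¹ by group,
        Units.val_mul, Units.val_mul, ht]
      simp
    rw [hy, smul_mul_smul_comm, ← Units.val_mul, ht, smul_smul] at h1
    have h3 : y * y = 1 := by
      have := congrFun (congrFun h1 0) 0
      simpa [ht0] using this
    have h4 : s.1 * z.1 = y • (z.1 * s.1) := by rw [← smul_mul_assoc, ← hy]; simp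
    exact (mul_self_eq_one_iff.1 h3).imp (fun h => by simp [h4, h]) fun h => by simp [h4, h]
  have hs : ∀ s ∈ R, s.1 * z.1 = z.1 * s.1 ∨ s.1 * z.1 = -(z.1 * s.1) := fun s hs => by
    obtain ⟨y, hy⟩ := hzc s hs
    exact hpm s y (by rw [← Matrix.one_mul z.1, ← smul_mul_assoc, ← hy]; simp)
  have hsq : ∀ s ∈ R, (s * s).1 * z.1 = z.1 * (s * s).1 := fun s h => by
    rw [Units.val_mul, Matrix.mul_assoc]
    rcases hs s h with h | h
    · rw [h, ← Matrix.mul_assoc, h, Matrix.mul_assoc]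
    · rw [h, Matrix.mul_neg, ← Matrix.mul_assoc, h, Matrix.neg_mul, neg_neg, Matrix.mul_assoc]
  have hanti : ∀ (s : GL (Fin 2) K) (x y : K), s.1 * z.1 = -(z.1 * s.1) →
      s.1 * lin z.1 x y = lin z.1 x (-y) * s.1 := fun s x y h => by
    simp [lin, Matrix.mul_add, Matrix.add_mul, h]
  have hgz : g.1 * z.1 = z.1 * g.1 := by
    refine comm_of_odd hn e ?_ h2
    rcases hs _ (h z hz) with h1 | h1
    · obtain ⟨x, y, h3⟩ := (hns.comm_iff _).1 h1
      have h4 : (g * z * g⁻¹).1.trace = 0 := by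
        rw [Units.val_mul, Units.val_mul, trace_units_conj, htr]
      rw [h3, trace_lin, htr] at h4
      obtain rfl : x = 0 := by simpa [h2] using h4
      exact hpm g y (by simpa [lin] using h3)
    · exfalso
      obtain ⟨x, y, h3⟩ := (hns.comm_iff _).1 (hsq r hr)
      have h4 := hsq _ (conj_inv_of (p := (· ∈ R)) hn e h r hr)
      have h5 : (g * z * g⁻¹).1 * (r * r).1 = (r * r).1 * (g * z * g⁻¹).1 := by
        simp only [← Units.val_mul, Units.val_inj] at h4 ⊢
        calc _ = g * (z * (g⁻¹ * r * g * (g⁻¹ * r * g))) * g⁻¹ := by group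
          _ = _ := by rw [← h4]; group
      rw [h3, hanti _ x y h1, Units.mul_left_inj] at h5
      have h6 : y = 0 := by
        have := (hns.lin_inj h5).2
        rwa [neg_eq_iff_add_eq_zero, ← two_mul, mul_eq_zero, or_iff_right h2] at this
      exact (hns.lin_iff.1 (h3 ▸ hr')) h6
  obtain ⟨x, y, h3⟩ := (hns.comm_iff _).1 hgz
  obtain ⟨s, hs1, hs2⟩ : ∃ s ∈ R, s.1 * z.1 = -(z.1 * s.1) := by
    by_contra hh
    push Not at hh
    exact (not_NS_iff _).2 (cen _ fun s h => (hs s h).resolve_right (hh s h)) hns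
  have h4 : (s * g * s⁻¹).1 = lin z.1 x (-y) := by
    rw [Units.val_mul, Units.val_mul, h3, hanti s x y hs2]; simp
  have hc : Commute (s * g * s⁻¹) g := Units.ext (by
    rw [Units.val_mul _ g, Units.val_mul g, h4, h3, lin_comm])
  have h5 := eq_one_of_odd hp (h := s * g * s⁻¹ * g⁻¹)
    (by simpa [mul_assoc] using mul_mem hs1 (h _ (inv_mem hs1))) hn (by
      rw [hc.inv_right.mul_pow, conj_pow, inv_pow, e]; simp)
  rw [mul_inv_eq_one.1 h5, h3] at h4
  have := (hns.lin_inj h4).2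
  rw [eq_neg_iff_add_eq_zero, ← two_mul, mul_eq_zero, or_iff_right h2] at this
  exact ⟨x, by rw [h3, this, lin_zero_right]⟩

theorem isPGroup_zpowers {G : Type*} [Group G] {p k : ℕ} {x : G} (h : x ^ p ^ k = 1) :
    IsPGroup p (zpowers x) := by
  rintro ⟨_, m, rfl⟩
  exact ⟨k, Subtype.ext (by
    change (x ^ m) ^ p ^ k = 1
    rw [← _root_.zpow_natCast, ← _root_.zpow_mul, mul_comm, _root_.zpow_mul, _root_.zpow_natCast,
      h, _root_.one_zpow])⟩

open CA.SylIn in
theorem exists_base [Finite K] (h2 : (2 : K) ≠ 0) (Γ : Subgroup (GL (Fin 2) K)) {j y r : GL (Fin 2) K}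
    {a b e : K} (hj : j.1 = !![0, -1; 1, 0]) (hy : y.1 = !![a, b; b, -a]) (hab : a ^ 2 + b ^ 2 = -1)
    (hr : r.1 = !![e, -e; e, e]) (jΓ : j ∈ Γ) (yΓ : y ∈ Γ) (rΓ : r ∈ Γ) :
    ∃ R ≤ Γ, Good ((Nat.card Γ).factorization 2) R := by
  have hj2 : j * j = -1 := Units.ext (by
    rw [Units.val_mul, hj, Units.val_neg, Units.val_one, one_fin_two]; simp)
  have hy2 : y * y = -1 := Units.ext (by
    rw [Units.val_mul, hy, Units.val_neg, Units.val_one, one_fin_two]
    simp only [mul_fin_two, neg_of, neg_cons, neg_empty, eq_iff4]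
    exact ⟨by linear_combination hab, by ring, by ring, by linear_combination hab⟩)
  have hyj : y * j = -(j * y) := Units.ext (by
    rw [Units.val_neg, Units.val_mul, Units.val_mul, hj, hy]; simp)
  have h4 : ∀ x : GL (Fin 2) K, x * x = -1 → x ^ 2 ^ 2 = 1 := fun x hx => by
    rw [show 2 ^ 2 = 2 * 2 by rfl, pow_mul, sq x, hx]; simp
  have hji : j⁻¹ = -j := inv_eq_of_mul_eq_one_right (by rw [mul_neg, hj2, neg_neg])
  have hQ : IsPGroup 2 (zpowers y ⊔ zpowers j : Subgroup _) :=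
    IsPGroup.to_sup_of_normal_right' (isPGroup_zpowers (h4 y hy2)) (isPGroup_zpowers (h4 j hj2))
      (zpowers_le.2 (mem_normalizer_of_forall (by
        rintro _ ⟨k, rfl⟩
        rw [← conj_zpow, hyj, neg_mul, mul_inv_cancel_right, ← hji]
        exact zpow_mem (inv_mem (mem_zpowers j)) k)))
  obtain ⟨R, hR, hle⟩ := exists_isSylowIn_ge hQ (sup_le (zpowers_le.2 yΓ) (zpowers_le.2 jΓ))
  have jR : j ∈ R := hle (mem_sup_right (mem_zpowers j))
  have yR : y ∈ R := hle (mem_sup_left (mem_zpowers y))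
  have hns : NS j.1 := Or.inl (by simp [hj])
  have hcen : ∀ m : Matrix (Fin 2) (Fin 2) K, (∀ s ∈ R, s.1.det = 1 → s.1 * m = m * s.1) → Sc m :=
    fun m hm => by
      obtain ⟨u, v, rfl⟩ := (hns.comm_iff m).1 (hm j jR (by simp [hj])).symm
      have h5 := hm y yR (by rw [hy, det_fin_two_of]; linear_combination -hab)
      have h6 : y.1 * lin j.1 u v = lin j.1 u (-v) * y.1 := by
        have : y.1 * j.1 = -(j.1 * y.1) := congrArg Units.val hyj
        simp [lin, Matrix.mul_add, Matrix.add_mul, this]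
      rw [h6, Units.mul_left_inj] at h5
      have := (hns.lin_inj h5).2
      rw [neg_eq_iff_add_eq_zero, ← two_mul, mul_eq_zero, or_iff_right h2] at this
      exact ⟨u, by rw [this, lin_zero_right]⟩
  obtain ⟨k, m, ⟨l, rfl⟩, ho⟩ := Nat.exists_eq_two_pow_mul_odd (orderOf_pos r).ne'
  obtain ⟨g, -, hg⟩ := hR.exists_conj_le (isPGroup_zpowers (x := r ^ (2 * l + 1)) (k := k) (by
    rw [← pow_mul, mul_comm, ← ho, pow_orderOf_eq_one])) (zpowers_le.2 (pow_mem rΓ _))
  have he : e ≠ 0 := fun h => r.ne_zero (by rw [hr, h]; ext i j; fin_cases i <;> fin_cases j <;> simp)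
  have hr2 : (r * r).1 = lin j.1 0 (2 * e ^ 2) := by
    rw [Units.val_mul, hr, hj, lin_of, mul_fin_two, eq_iff4]
    exact ⟨by ring, by ring, by ring, by ring⟩
  have hr3 : ∀ l : ℕ, ∃ v ≠ 0, ((r * r) ^ (2 * l + 1)).1 = lin j.1 0 v := fun l => by
    induction l with
    | zero => exact ⟨2 * e ^ 2, by simp [h2, he], by simpa using hr2⟩
    | succ l ih =>
      obtain ⟨v, hv, ih⟩ := ih
      refine ⟨-(v * (2 * e ^ 2) ^ 2), by simp [hv, h2, he], ?_⟩
      rw [show 2 * (l + 1) + 1 = 2 * l + 1 + 1 + 1 by ring, pow_succ, pow_succ, Units.val_mul,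
        Units.val_mul, ih, hr2, lin_mul, lin_mul, hj]
      congr 1 <;> simp <;> ring
  obtain ⟨v, hv, h7⟩ := hr3 l
  refine ⟨R, hR.le, ⟨?_, hj2 ▸ mul_mem jR jR, hcen, nor_two h2 hR.isPGroup
    (fun m hm => hcen m fun s hs _ => hm s hs) (conj_le_iff.1 hg _ (mem_zpowers _))
    (((hns.lin_iff (x := 0)).2 hv).of_conj g ?_)⟩⟩
  · rw [← hR.toSylow.card_eq_multiplicity, hR.coe_toSylow]
    exact (Nat.card_congr (subgroupOfEquivOfLe hR.le).toEquiv).symm
  · rw [← h7, ← Units.val_mul, ← Units.val_mul, (Commute.refl r).mul_pow]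
    congr 1; group

/-! ### the tower -/

/-- unitary matrices -/
def Uni (σ : K →+* K) (g : GL ι K) : Prop := (g.1.map σ)ᵀ * g.1 = 1

theorem uni_W {σ : K →+* K} (h : ∀ g ∈ R, Uni σ g) : ∀ g ∈ W R, Uni σ g := by
  rintro _ ⟨a, ha, b, hb, rfl | rfl⟩
  · have := h a ha; have := h b hb
    simp_all [Uni, dg_val, fromBlocks_map, fromBlocks_transpose, fromBlocks_multiply]
  · have := h a ha; have := h b hb
    rw [Uni, dg_sw_val]
    simp_all [Uni, fromBlocks_map, fromBlocks_transpose, fromBlocks_multiply]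

section reindex
variable {κ : Type} [Fintype κ] [DecidableEq κ] (e : ι ≃ κ)

variable (K) in
/-- change of the index set -/
def re : GL ι K ≃* GL κ K := Units.mapEquiv (reindexAlgEquiv K K e).toMulEquiv

theorem re_val (g : GL ι K) : (re K e g).1 = reindex e e g.1 := rfl

theorem sc_re {a : Matrix ι ι K} (h : Sc a) : Sc (reindex e e a) := by
  obtain ⟨c, rfl⟩ := h
  exact ⟨c, by simp [submatrix_smul]⟩

theorem norS_re (h : NorS R) : NorS (R.map (re K e).toMonoidHom) := fun g n hn h1 h3 => by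
  obtain ⟨g, rfl⟩ := (re K e).surjective g
  refine sc_re e (h g n hn ((re K e).injective (by rw [map_pow, h1, map_one])) fun s hs hd => ?_)
  have := h3 _ (mem_map_of_mem _ hs) ((det_reindex_self e s.1).trans hd)
  refine (mem_map_iff_mem (f := (re K e).toMonoidHom) (re K e).injective).1 ?_
  simpa using this

theorem good_re (h : Good c R) : Good c (R.map (re K e).toMonoidHom) where
  card := by rw [← h.card]; exact card_map_of_injective (re K e).injective
  neg := ⟨-1, h.neg, Units.ext (by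
    change (re K e (-1)).1 = _
    rw [re_val]; simp [submatrix_neg])⟩
  cen a ha := by
    obtain ⟨a, rfl⟩ := (reindex e e).surjective a
    refine sc_re e (h.cen a fun s hs hd => (reindexAlgEquiv K K e).injective ?_)
    rw [map_mul, map_mul]
    exact ha _ (mem_map_of_mem _ hs) ((det_reindex_self e s.1).trans hd)
  nor g n hn h1 h3 := by
    obtain ⟨g, rfl⟩ := (re K e).surjective g
    refine sc_re e (h.nor g n hn ((re K e).injective (by rw [map_pow, h1, map_one])) fun s hs => ?_)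
    refine (mem_map_iff_mem (f := (re K e).toMonoidHom) (re K e).injective).1 ?_
    simpa using h3 _ (mem_map_of_mem _ hs)

theorem uni_re {σ : K →+* K} {g : GL ι K} (h : Uni σ g) : Uni σ (re K e g) := by
  rw [Uni, re_val, reindex_apply, ← submatrix_map, transpose_submatrix, submatrix_mul_equiv, h,
    submatrix_one_equiv]

end reindex

theorem tower (h2 : (2 : K) ≠ 0) {R : Subgroup (GL (Fin 2) K)} (hR : Good c R) (w : ℕ) :
    ∃ (R' : Subgroup (GL (Fin (2 ^ (w + 1))) K)) (c' : ℕ), c' + 1 = 2 ^ w * (c + 1) ∧ Good c' R' ∧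
      (w ≠ 0 → NorS R') ∧ ∀ σ : K →+* K, (∀ g ∈ R, Uni σ g) → ∀ g ∈ R', Uni σ g := by
  induction w with
  | zero => exact ⟨R, c, by simp, hR, fun h => absurd rfl h, fun _ h => h⟩
  | succ w ih =>
    obtain ⟨R', c', h1, h3, -, h4⟩ := ih
    haveI : Nontrivial (Fin (2 ^ (w + 1))) :=
      Fin.nontrivial_iff_two_le.2 (Nat.le_self_pow w.succ_ne_zero 2)
    have he : Even (Fintype.card (Fin (2 ^ (w + 1)))) := by simp [Nat.even_pow]
    let e : Fin (2 ^ (w + 1)) ⊕ Fin (2 ^ (w + 1)) ≃ Fin (2 ^ (w + 1 + 1)) :=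
      finSumFinEquiv.trans (finCongr (by ring))
    refine ⟨_, _, by rw [pow_succ]; linear_combination 2 * h1, good_re e (good_W h2 he h3),
      fun _ => norS_re e (norS_W h2 he h3), fun σ h => ?_⟩
    rintro _ ⟨g, hg, rfl⟩
    exact uni_re e (uni_W (h4 σ h) g hg)

open CA.SylIn CA.H10Pron in
theorem allP [Finite K] {G : Type*} [Group G] [Finite G] (f : G →* GL ι K)
    (hf : Function.Injective f) (Γ : Subgroup (GL ι K))
    (hr : ∀ g, g ∈ f.range ↔ g ∈ Γ ∧ g.1.det = 1) (hR : Good c R) (hN : NorS R) (hle : R ≤ Γ)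
    (hc : (Nat.card Γ).factorization 2 ≤ c) : AllP G 2 := by
  have hp : IsPGroup 2 R := IsPGroup.of_card hR.card
  obtain ⟨T, hT⟩ := exists_isSylowIn 2 Γ
  have h1 : IsSylowIn 2 R Γ := hT.of_card_ge hp hle (by
    rw [hR.card, ← Nat.card_congr (subgroupOfEquivOfLe hT.le).toEquiv, ← hT.coe_toSylow,
      Sylow.card_eq_multiplicity]
    exact Nat.pow_le_pow_right two_pos hc)
  have h3 : IsSylowIn 2 (R ⊓ f.range) f.range := h1.inf_of_normal (fun g hg => ((hr g).1 hg).1)
    fun g hg => mem_normalizer_of_forall fun x hx => (hr _).2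
      ⟨mul_mem (mul_mem hg ((hr x).1 hx).1) (inv_mem hg), by
        rw [Units.val_mul, Units.val_mul, det_units_conj, ((hr x).1 hx).2]⟩
  have h4 : IsSylowIn 2 (R.comap f) ⊤ := isSylowIn_of_maximal (hp.comap_of_injective f hf) le_top
    fun Q hQ hle _ => le_antisymm (fun x hx => by
      have := h3.eq_of_le (hQ.map f) (by
        rintro _ ⟨hy, y, rfl⟩
        exact mem_map_of_mem f (hle hy)) (map_le_range f Q)
      exact (this.le (mem_map_of_mem f hx)).1) hle
  obtain ⟨S, hS⟩ := h4.exists_sylow_eq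
  refine allP_of_center S fun g hg => ?_
  obtain ⟨k, m, hm, ho⟩ := Nat.exists_eq_two_pow_mul_odd (orderOf_pos g).ne'
  have hs : g ^ m ∈ (S : Subgroup G) := (isSylowIn_top S).le_of_le_normalizer'
    (isPGroup_zpowers (k := k) (by rw [← pow_mul, mul_comm, ← ho, pow_orderOf_eq_one])) le_top
    (zpowers_le.2 (pow_mem hg m)) (mem_zpowers _)
  have hz : g ^ 2 ^ k ∈ center G := by
    obtain ⟨t, ht⟩ := hN (f (g ^ 2 ^ k)) m hm (by
      rw [← map_pow, ← pow_mul, ← ho, pow_orderOf_eq_one, map_one]) fun s hs hd => by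
        obtain ⟨s, rfl⟩ := (hr s).2 ⟨hle hs, hd⟩
        have := conj_mem_of_mem_normalizer (pow_mem hg (2 ^ k)) (hS.ge hs)
        rw [hS] at this
        simpa using this
    exact mem_center_iff.2 fun x => hf (Units.ext (by simp only [map_mul, Units.val_mul, ht]; simp))
  refine ⟨(g ^ m) ^ Nat.gcdA m (2 ^ k), zpow_mem hs _, (g ^ 2 ^ k) ^ Nat.gcdB m (2 ^ k),
    zpow_mem hz _, ?_⟩
  rw [← _root_.zpow_natCast, ← _root_.zpow_natCast, ← _root_.zpow_mul, ← _root_.zpow_mul,
    ← _root_.zpow_add, ← Nat.gcd_eq_gcd_ab,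
    (hm.coprime_two_right.pow_right k : m.gcd _ = 1)]
  simp

end CA.H10Two
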