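import Cfsg.Prelude.Def_LieClassical
import Cfsg.Agent.Lib.Lin.H10Bru
import Cfsg.Agent.Lib.Lin.H10Two
import Cfsg.Agent.Lib.Lin.H10Syl
import Cfsg.Agent.Lib.Lin.PSL2Sub
import Cfsg.Agent.Lib.Grp.NPC2
import Cfsg.Agent.S2431
import Cfsg.Agent.S0277

/-!
Subgroups of odd index in `PSL` and `PSU` of `2`-power degree are pronormal.
-/

set_option autoImplicit false
set_option linter.unusedSectionVars false

namespace CA.H10Pr2

open Cfsg Subgroup Matrix CA.SylIn CA.H10Pron CA.H10Bru CA.H10Two CA.H10Syl CA.CForm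
open scoped MatrixGroups

theorem allP_of_cyc {G : Type*} [Group G] [Finite G] {p : ℕ} [Fact p.Prime] (S : Sylow p G)
    (hS : (S : Subgroup G) ≤ centralizer (S : Set G))
    (hN : ∀ L : Subgroup G, (S : Subgroup G) ≤ L → L ≤ normalizer (S : Set G) →
      L = S ∨ L = normalizer (S : Set G))
    (hO : ∀ O : Subgroup G, ¬ p ∣ Nat.card O → (S : Subgroup G) ≤ normalizer (O : Set G) →
      IsCyclic O) : AllP G p := by
  refine allP_of S fun H hH g hg => ?_
  set L := H ⊔ g •ᶜ H
  have hL : (S : Subgroup G) ≤ L := hH.trans le_sup_left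
  rcases hN (L ⊓ normalizer (S : Set G)) (le_inf hL le_normalizer) inf_le_right with h | h
  swap
  · exact ⟨g, (h.ge hg).1, rfl⟩
  have hc : HasNormalPComplement p L := PRes.hasNPC_of_normalizer_le_centralizer (S.subtype hL)
    fun x hx y hy => Subtype.ext (hS (h.le ⟨x.2, mem_normalizer_of_forall fun z hz =>
      conj_mem_of_mem_normalizer (g := x) (x := ⟨z, hL hz⟩) hx hz⟩) y hy)
  set O := (pResidual p L).map L.subtype
  have hm : ∀ x, x ∈ O ↔ x ∈ L ∧ (orderOf x).Coprime p := fun x => ⟨by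
    rintro ⟨y, hy, rfl⟩
    exact ⟨y.2, by simpa using (PRes.mem_pResidual_iff_of_hasNPC hc).1 hy⟩, fun h =>
      ⟨⟨x, h.1⟩, (PRes.mem_pResidual_iff_of_hasNPC hc).2 (by simpa using h.2), rfl⟩⟩
  have ho : ∀ x y : G, orderOf (x * y * x⁻¹) = orderOf y := PSL2Struct.orderOf_conj
  have hcy := hO O (by rw [card_subtype]; exact PRes.hasNPC_iff_not_dvd.1 hc) fun s hs =>
    mem_normalizer_of_forall fun x hx => (hm _).2 ⟨mul_mem (mul_mem (hL hs) ((hm x).1 hx).1)
      (inv_mem (hL hs)), ho s x ▸ ((hm x).1 hx).2⟩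
  have hA : g •ᶜ (O ⊓ H) = O ⊓ H := NPC2.eq_of_card_eq_of_isCyclic hcy
    (conj_le_iff.2 fun x hx => (hm _).2 ⟨mem_sup_right (conj_mem_conj.2 hx.2),
      ho g x ▸ ((hm x).1 hx.1).2⟩) inf_le_left (card_conj _ _)
  refine ⟨1, one_mem _, ?_⟩
  rw [one_conj]
  refine conj_eq_of_le (conj_le_iff.2 fun x hx => ?_)
  obtain ⟨⟨⟨o, ho⟩, s, hs⟩, e⟩ := ((PRes.hasNPC_iff_isComplement' (S.subtype hL)).1 hc).2
    ⟨x, mem_sup_left hx⟩
  obtain rfl : (o : G) * s = x := congrArg Subtype.val e
  have h1 : (o : G) ∈ H := by simpa using mul_mem hx (inv_mem (hH hs))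
  have h2 := (hA.le (conj_mem_conj.2 ⟨⟨o, ho, rfl⟩, h1⟩)).2
  rw [show g * (o * s) * g⁻¹ = g * o * g⁻¹ * (g * s * g⁻¹) by group]
  exact mul_mem h2 (hH (conj_mem_of_mem_normalizer hg hs))

variable {F : Type*} [Field F] [Fintype F]

open PSL2Struct PSL2Sub in
theorem cyc_of_odd (hq : Nat.card F % 8 = 3 ∨ Nat.card F % 8 = 5) {S O : Subgroup PSL(2, F)}
    (hS : Nat.card S = 4) (h : ¬ 2 ∣ Nat.card O) (hn : S ≤ normalizer (O : Set PSL(2, F))) :
    IsCyclic O := by
  have hodd : Odd (Nat.card F) := Nat.odd_iff.2 (by omega)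
  have h2 : (2 : F) ≠ 0 := SL2Basic.two_ne_zero_of_odd hodd
  rcases dickson_PSL O with h1 | ⟨h1, y, hy⟩ | ⟨n, -, -, ⟨e⟩⟩ | ⟨-, ⟨e⟩⟩ | ⟨-, ⟨e⟩⟩ | ⟨-, ⟨e⟩⟩ |
    ⟨K, _, _, m, -, h3, -, ⟨⟨e⟩⟩ | ⟨h4, ⟨e⟩⟩⟩
  · exact h1.1
  · exfalso
    obtain ⟨p, hp⟩ := CharP.exists F
    haveI : Fact p.Prime := ⟨CharP.char_is_prime F p⟩
    obtain ⟨⟨x, hx⟩, ho⟩ := exists_prime_orderOf_dvd_card' p ((CharP.cast_eq_zero_iff F p _).1 h1)
    rw [orderOf_mk] at ho
    obtain ⟨z, b, hb, e⟩ := exists_conj_u_of_cast (x := x)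
      (fun h => (Fact.out : p.Prime).ne_one (by rw [← ho, h, orderOf_one])) (by simp [ho])
    have h5 : ∀ s ∈ S, y * s * z⁻¹ ∈ Bb F := fun s hs => mem_Bb_of_conj hb (by
      convert hy _ (conj_mem_of_mem_normalizer (hn hs) hx) using 1
      rw [← e]; group)
    have h6 := card_dvd_of_conj_le (H := S) (K := Bb F) (y := y) fun s hs => by
      convert mul_mem (h5 s hs) (inv_mem (h5 1 (one_mem _))) using 1
      group
    have h7 := card_Bb (F := F)
    obtain ⟨k, hk⟩ := h6
    rw [dd_odd h2, hk, hS] at h7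
    have h8 : 8 ∣ Nat.card F - 1 := (Nat.Coprime.pow_left 3 (Nat.coprime_two_left.2
      hodd)).dvd_of_dvd_mul_left ⟨k, by rw [← h7]; ring⟩
    omega
  all_goals refine absurd ?_ h; rw [Nat.card_congr e.toEquiv]
  · rw [DihedralGroup.nat_card]; exact dvd_mul_right _ _
  · rw [card_A4]; decide
  · rw [card_S4]; decide
  · rw [card_A5]; decide
  · rw [SLnCard.card_PGL2, SLnCard.sq_sub_one, ← mul_assoc, mul_comm (Nat.card K)]
    exact (Nat.even_mul_pred_self (Nat.card K + 1)).two_dvd.mul_right _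
  · have h5 := SLnCard.card_PSL2_odd h4
    obtain ⟨k, hk⟩ := h4
    rw [hk, SLnCard.sq_sub_one] at h5
    refine ⟨(2 * k + 1) * (k * (k + 1)), Nat.eq_of_mul_eq_mul_left two_pos ?_⟩
    rw [h5, Nat.add_sub_cancel]; ring

open PSL2Struct in
theorem allP_PSL2 (h2 : (2 : F) ≠ 0) : AllP PSL(2, F) 2 := by
  obtain ⟨S⟩ : Nonempty (Sylow 2 SL(2, F)) := inferInstance
  have hodd := odd_card h2
  obtain ⟨-, h3, h4⟩ := Cfsg.Agent.S2431.result (Nat.card_eq_fintype_card (α := F) ▸ hodd) S
  rw [← Nat.card_eq_fintype_card] at h3 h4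
  by_cases hq : Nat.card F % 8 = 1 ∨ Nat.card F % 8 = 7
  · exact (allP_of_center S fun g hg => ⟨g, (h3 hq).le hg, 1, one_mem _, by simp⟩).of_surj pr_surj
  replace hq : Nat.card F % 8 = 3 ∨ Nat.card F % 8 = 5 := by have := Nat.odd_iff.1 hodd; omega
  have hm : -1 ∈ (S : Subgroup SL(2, F)) := (isSylowIn_top S).le_of_le_normalizer
    (isPGroup_zpowers (x := -1) (k := 1) (by simp)) le_top
    (fun s _ => mem_normalizer_of_forall fun x hx => by
      obtain ⟨k, rfl⟩ := hx
      rw [← conj_zpow]; simp) (mem_zpowers _)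
  let T := S.mapSurjective pr_surj
  have hT : (T : Subgroup _) = (S : Subgroup _).map (pr F) := rfl
  have hS : Nat.card S = 8 := by
    rw [S.card_eq_multiplicity, v_SL2 h2, SLnCard.sq_sub_one,
      v_mul (by omega) (by have := SLnCard.two_le_card F; omega)]
    have e : ∀ a : ℕ, a % 8 = 4 → a.factorization 2 = 2 := fun a ha => by
      obtain ⟨b, rfl⟩ : ∃ b, a = 2 * b := ⟨a / 2, by omega⟩
      rw [v_mul two_ne_zero (by omega), v_two, v_eq_one (by omega)]
    rcases hq with h | h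
    · rw [e _ (by omega), v_eq_one (by omega)]; rfl
    · rw [v_eq_one (by omega), e _ (by omega)]; rfl
  have hT4 : Nat.card T = 4 := by
    have := card_map hm
    rw [dd_odd h2, hS] at this
    exact Nat.eq_of_mul_eq_mul_left two_pos this
  have hN : normalizer (T : Set PSL(2, F)) = (normalizer (S : Set SL(2, F))).map (pr F) := by
    refine le_antisymm (fun x hx => ?_) (le_normalizer_map _)
    obtain ⟨x, rfl⟩ := pr_surj x
    refine mem_map_of_mem _ (mem_normalizer_of_forall fun s hs => (mem_map_iff' hm).1 ?_)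
    rw [map_mul, map_mul, map_inv]
    exact conj_mem_of_mem_normalizer hx (mem_map_of_mem _ hs)
  have hN12 : Nat.card (normalizer (T : Set PSL(2, F))) = 12 := by
    have := card_map (L := normalizer (S : Set SL(2, F))) (le_normalizer hm)
    rw [dd_odd h2, ← hN] at this
    exact Nat.eq_of_mul_eq_mul_left two_pos (this.trans ((h4 hq).trans (by simp [hS])))
  refine allP_of_cyc T ?_ (fun L h5 h6 => ?_) fun O h5 h6 => cyc_of_odd hq hT4 h5 h6
  · have := IsPGroup.isMulCommutative_of_card_eq_prime_sq (p := 2) (G := T) hT4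
    exact le_centralizer_iff_isMulCommutative.2 this
  · obtain ⟨k, hk⟩ := card_dvd_of_le h5
    have h7 := card_dvd_of_le h6
    rw [hN12, hk, hT4] at h7
    rcases (Nat.dvd_prime Nat.prime_three).1 (Nat.dvd_of_mul_dvd_mul_left (k := 4) (by decide) h7)
      with rfl | rfl
    · exact Or.inl (eq_of_le_of_card_ge h5 (by omega)).symm
    · exact Or.inr (eq_of_le_of_card_ge h6 (by rw [hN12, hk, hT4]))

theorem allP_SL_char (p : ℕ) [Fact p.Prime] [CharP F p] (d : ℕ) : AllP SL(d, F) p :=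
  H10Bru.allP SpecialLinearGroup.toGL SpecialLinearGroup.toGL_injective (MonoidHom.id _)
    (fun g => by rw [SLnCard.toGL_range]; simp) (fun _ h => h) (fun _ h => h) (fun w => ⟨w, rfl⟩)
    fun i j h => by
      have hij : i < j := Fin.lt_def.2 (by omega)
      refine ⟨GeneralLinearGroup.mkOfDetNeZero (transvection i j 1) (by
        rw [det_transvection_of_ne _ _ hij.ne]; exact one_ne_zero), ⟨fun a b hab => ?_, fun a => ?_⟩,
        rfl, by simp [transvection, hij.ne]⟩
      · have : ¬ (i = a ∧ j = b) := fun h => hab.not_gt (h.1 ▸ h.2 ▸ hij)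
        have h1 : a ≠ b := ne_of_gt hab
        simp [transvection, one_apply_ne h1, this]
      · have : ¬ (i = a ∧ j = a) := fun h => hij.ne (h.1.trans h.2.symm)
        simp [transvection, this]

theorem v_fact (w : ℕ) : (2 ^ w).factorial.factorization 2 < 2 ^ w := by
  rw [Nat.factorization_def _ Nat.prime_two]
  exact padicValNat_factorial_lt_of_ne_zero 2 (by positivity)

theorem allP_SL_odd (h2 : (2 : F) ≠ 0) {w : ℕ} (hw : w ≠ 0) : AllP SL(2 ^ (w + 1), F) 2 := by
  obtain ⟨p, hp⟩ := CharP.exists F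
  haveI : NeZero p := ⟨(CharP.char_is_prime F p).ne_zero⟩
  obtain ⟨a, b, hab⟩ := CharP.sq_add_sq F p (-1)
  replace hab : (a : F) ^ 2 + (b : F) ^ 2 = -1 := by simpa using hab
  obtain ⟨R, -, hR⟩ := exists_base h2 ⊤ (e := 1)
    (j := GeneralLinearGroup.mkOfDetNeZero !![0, -1; 1, 0] (by simp))
    (y := GeneralLinearGroup.mkOfDetNeZero !![a, b; b, -a] (by
      rw [det_fin_two_of, show (a : F) * -a - b * b = -(a ^ 2 + b ^ 2) by ring, hab]; simp))
    (r := GeneralLinearGroup.mkOfDetNeZero !![1, -1; 1, 1] (by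
      rw [det_fin_two_of]; intro h; exact h2 (by linear_combination h)))
    rfl rfl hab rfl (mem_top _) (mem_top _) (mem_top _)
  obtain ⟨R', c, hc, h3, h4, -⟩ := tower h2 hR w
  refine H10Two.allP SpecialLinearGroup.toGL SpecialLinearGroup.toGL_injective ⊤
    (fun g => by rw [SLnCard.toGL_range]; simp [Units.ext_iff]) h3 (h4 hw) le_top ?_
  have h1 := SLnCard.two_le_card F
  have h5 := v_gl (odd_card h2) h1 (2 ^ (w + 1))
  have h6 := v_fact w
  rw [card_top, SLnCard.card_GL2, v_mul (by omega) (mul_ne_zero (by omega) (sub_ne h1 two_ne_zero)),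
    v_mul (by omega) (sub_ne h1 two_ne_zero)] at hc
  rw [show 2 ^ (w + 1) / 2 = 2 ^ w by omega, show 2 ^ (w + 1) % 2 = 0 by omega] at h5
  rw [card_top, SLnCard.card_GL]
  nlinarith [Nat.zero_le (2 ^ w * (Nat.card F).factorization 2)]

variable {q : ℕ} (hF : Fintype.card F = q ^ 2)

theorem pres_iff {n : ℕ} (M : Matrix (Fin n) (Fin n) F) :
    (∀ u v, hermForm n F q (M *ᵥ u) (M *ᵥ v) = hermForm n F q u v) ↔ (M.map (conj hF))ᵀ * M = 1 := by
  have h : ∀ u v : Fin n → F, hermForm n F q u v = (conj hF ∘ v) ⬝ᵥ u := fun u v => by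
    simp [hermForm, conj_apply, dotProduct, mul_comm]
  have e : ∀ v, conj hF ∘ (M *ᵥ v) = M.map (conj hF) *ᵥ (conj hF ∘ v) := fun v =>
    funext fun i => RingHom.map_mulVec _ M v i
  have e2 : ∀ u v, hermForm n F q (M *ᵥ u) (M *ᵥ v) =
      (conj hF ∘ v) ⬝ᵥ ((M.map (conj hF))ᵀ * M) *ᵥ u := fun u v => by
    rw [h, e, ← mulVec_mulVec, dotProduct_mulVec (conj hF ∘ v), vecMul_transpose]
  simp only [e2]
  simp only [h]
  refine ⟨fun H => ?_, fun H => by simp [H]⟩
  ext i j
  have := H (Pi.single j 1) (Pi.single i 1)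
  rw [show conj hF ∘ Pi.single i 1 = Pi.single i 1 from funext fun k => by
    by_cases h : k = i <;> simp [h]] at this
  simpa [Pi.single_apply, one_apply, eq_comm] using this

theorem mem_GU {n : ℕ} {g : GL (Fin n) F} : g ∈ GU n F q ↔ Uni (conj hF) g := pres_iff hF g.1

theorem range_SU {n : ℕ} (g : GL (Fin n) F) :
    g ∈ (SpecialLinearGroup.toGL.comp (SU n F q).subtype).range ↔ g ∈ GU n F q ∧ g.1.det = 1 :=
  ⟨by rintro ⟨x, rfl⟩; exact ⟨x.2, x.1.2⟩, fun h => ⟨⟨⟨g.1, h.2⟩, h.1⟩, Units.ext rfl⟩⟩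

theorem v_gu (h : Odd q) (h1 : 1 < q) (m : ℕ) :
    (∏ i ∈ Finset.range (2 * m), if Even i then q ^ (i + 1) + 1 else q ^ (i + 1) - 1).factorization 2
      = m * ((q + 1).factorization 2 + (q ^ 2 - 1).factorization 2) + m.factorial.factorization 2 := by
  have h0 : ∀ i, (if Even i then q ^ (i + 1) + 1 else q ^ (i + 1) - 1) ≠ 0 := fun i => by
    split_ifs
    · omega
    · exact sub_ne h1 i.succ_ne_zero
  induction m with
  | zero => simp
  | succ m ih =>
    have h2 := v_sq h1 (2 * m + 1) (by omega)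
    have h3 := v_sq h1 1 one_ne_zero
    rw [v_even h h1 (by omega), Nat.factorization_eq_zero_of_not_dvd (n := 2 * m + 1) (by omega)] at h2
    have h4 := (Nat.factorization_le_iff_dvd (sub_ne h1 one_ne_zero) (sub_ne h1 (by omega))).2
      (Nat.pow_sub_one_dvd_pow_sub_one q (one_dvd (2 * m + 1))) 2
    have h5 := v_odd_exp h h1 m
    simp only [pow_one, mul_one] at h3 h4
    rw [show 2 * (m + 1) = 2 * m + 1 + 1 by ring, Finset.prod_range_succ, Finset.prod_range_succ,
      v_mul (mul_ne_zero (Finset.prod_ne_zero_iff.2 fun i _ => h0 i) (h0 _)) (h0 _),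
      v_mul (Finset.prod_ne_zero_iff.2 fun i _ => h0 i) (h0 _), ih, if_pos (even_two_mul m),
      if_neg (by simp), show 2 * m + 1 + 1 = 2 * (m + 1) by ring, v_even h h1 m.succ_ne_zero,
      Nat.factorial_succ, v_mul m.succ_ne_zero m.factorial_ne_zero, add_mul]
    simp only [Nat.succ_eq_add_one]
    omega

include hF in
theorem allP_SU_odd (h2 : (2 : F) ≠ 0) {w : ℕ} (hw : w ≠ 0) : AllP (SU (2 ^ (w + 1)) F q) 2 := by
  have hq : Odd q := by
    have := odd_card h2
    rw [Nat.card_eq_fintype_card, hF] at this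
    exact (Nat.odd_pow_iff two_ne_zero).1 this
  have h1 : 1 < q := two_le_of_card_sq hF
  set s := conj hF
  obtain ⟨a, b, hab, ha, hb⟩ : ∃ a b : F, a ^ 2 + b ^ 2 = -1 ∧ s a = -a ∧ s b = -b := by
    obtain ⟨i, hi⟩ : IsSquare (-1 : F) := FiniteField.isSquare_neg_one_iff.2 (by
      obtain ⟨k, rfl⟩ := hq
      rw [hF, show (2 * k + 1) ^ 2 = 1 + 4 * (k ^ 2 + k) by ring]; omega)
    have h3 : s i * s i = i * i := by rw [← map_mul, ← hi, map_neg, map_one]
    rcases mul_self_eq_mul_self_iff.1 h3 with h | h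
    · obtain ⟨t, ht⟩ : ∃ t, s t ≠ t := by
        by_contra h
        push Not at h
        exact conj_ne_id hF (RingHom.ext h)
      have h4 : s (t - s t) = -(t - s t) := by rw [map_sub, CForm.conj_conj]; ring
      have h5 : t - s t ≠ 0 := sub_ne_zero.2 ht.symm
      have h6 : i ≠ 0 := by rintro rfl; simp at hi
      generalize t - s t = o at h4 h5
      refine ⟨(o - o⁻¹) / 2, (o + o⁻¹) / (2 * i), ?_, ?_, ?_⟩
      · field_simp
        linear_combination (-(o ^ 2 - 1) ^ 2 - 4 * o ^ 2) * hi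
      · simp only [map_div₀, map_sub, map_inv₀, h4, map_ofNat]; ring
      · simp only [map_div₀, map_add, map_inv₀, h4, map_ofNat, map_mul, h]; ring
    · exact ⟨i, 0, by rw [hi]; ring, h, by simp⟩
  obtain ⟨e, he⟩ := exists_norm_eq s (CForm.conj_conj hF) (conj_ne_id hF) 2⁻¹ (by simp [map_ofNat])
  have he0 : e ≠ 0 := by rintro rfl; exact inv_ne_zero h2 (by simpa using he.symm)
  replace he : 2 * (e * s e) = 1 := by rw [he, mul_inv_cancel₀ h2]
  have hu : ∀ (x y z u : F) (h), s x * x + s z * z = 1 → s x * y + s z * u = 0 →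
      s y * x + s u * z = 0 → s y * y + s u * u = 1 →
      GeneralLinearGroup.mkOfDetNeZero !![x, y; z, u] h ∈ GU 2 F q := fun x y z u h e1 e2 e3 e4 => by
    rw [mem_GU hF]
    ext i j
    fin_cases i <;> fin_cases j <;> simpa [mul_apply, Fin.sum_univ_two]
  obtain ⟨R, hle, hR⟩ := exists_base h2 (GU 2 F q)
    (j := GeneralLinearGroup.mkOfDetNeZero !![0, -1; 1, 0] (by simp))
    (y := GeneralLinearGroup.mkOfDetNeZero !![a, b; b, -a] (by
      rw [det_fin_two_of, show (a : F) * -a - b * b = -(a ^ 2 + b ^ 2) by ring, hab]; simp))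
    (r := GeneralLinearGroup.mkOfDetNeZero !![e, -e; e, e] (by
      rw [det_fin_two_of, show e * e - -e * e = 2 * e ^ 2 by ring]; simp [h2, he0]))
    rfl rfl hab rfl (hu _ _ _ _ _ (by simp) (by simp) (by simp) (by simp))
    (hu _ _ _ _ _ (by rw [ha, hb]; linear_combination -hab) (by rw [ha, hb]; ring)
      (by rw [map_neg, ha, hb]; ring) (by rw [map_neg, ha, hb]; linear_combination -hab))
    (hu _ _ _ _ _ (by linear_combination he) (by ring) (by rw [map_neg]; ring)
      (by rw [map_neg]; linear_combination he))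
  obtain ⟨R', c, hc, h3, h4, h5⟩ := tower h2 hR w
  refine H10Two.allP _ (SpecialLinearGroup.toGL_injective.comp Subtype.val_injective)
    (GU _ F q) range_SU h3 (h4 hw)
    (fun g hg => (mem_GU hF).2 (h5 s (fun g hg => (mem_GU hF).1 (hle hg)) g hg)) ?_
  have h0 : ∀ m, (Nat.card (GU (2 * m) F q)).factorization 2 = _ := fun m => by
    rw [Cfsg.Agent.S0277.result hF, v_mul (by positivity) (Finset.prod_ne_zero_iff.2 fun i _ => by
      split_ifs
      · omega
      · exact sub_ne h1 i.succ_ne_zero), v_odd hq, zero_add, v_gu hq h1]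
  have h6 := v_fact w
  rw [h0 1] at hc
  rw [pow_succ', h0]
  simp only [Nat.factorial_one, Nat.factorization_one, Finsupp.zero_apply] at hc
  nlinarith

/-- the inverse conjugate transpose -/
def tau {n : ℕ} (s : F →+* F) : GL (Fin n) F →* GL (Fin n) F where
  toFun g := ⟨((g⁻¹).1.map s)ᵀ, (g.1.map s)ᵀ,
    by rw [← transpose_mul, ← Matrix.map_mul, Units.mul_inv]; simp,
    by rw [← transpose_mul, ← Matrix.map_mul, Units.inv_mul]; simp⟩
  map_one' := Units.ext (by simp)
  map_mul' a b := Units.ext (by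
    simp only [_root_.mul_inv_rev, Units.val_mul, Matrix.map_mul, transpose_mul])

theorem tau_eq_iff {n : ℕ} {s : F →+* F} {g x : GL (Fin n) F} :
    tau s g * x = g ↔ (g.1.map s)ᵀ * g.1 = x.1 := by
  rw [← eq_inv_mul_iff_mul_eq, eq_comm, Units.ext_iff]; rfl

include hF in
theorem allP_SU_two (h2 : (2 : F) = 0) {n : ℕ} (hn : Even n) : AllP (SU n F q) 2 := by
  haveI : CharP F 2 := CharTwo.of_one_ne_zero_of_two_eq_zero one_ne_zero h2
  set s := conj hF
  have hr : ∀ i : Fin n, i.rev ≠ i := fun i h => by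
    have := congrArg Fin.val h
    obtain ⟨m, rfl⟩ := hn
    simp only [Fin.val_rev] at this
    omega
  let J : GL (Fin n) F := P F Fin.revPerm
  have hJ : ∀ i j, J.1 i j = if i = j.rev then 1 else 0 := fun i j => by simp [J, P, one_apply]
  obtain ⟨Q, hQ⟩ : ∃ Q : GL (Fin n) F, tau s Q * J = Q := by
    obtain ⟨b, hb⟩ := Kind.exists_trace_eq s (CForm.conj_conj hF) (conj_ne_id hF) 1 (map_one _)
    let α : Fin n → F := fun j => if j < j.rev then 1 else b + 1
    let β : Fin n → F := fun j => if j < j.rev then 1 else b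
    let M : Matrix (Fin n) (Fin n) F := of fun k j =>
      (if k = j then α j else 0) + if k = j.rev then β j else 0
    have hM : (M.map s)ᵀ * M = J.1 := by
      ext i j
      simp only [mul_apply, transpose_apply, map_apply, M, of_apply, mul_add, mul_ite, mul_zero,
        Finset.sum_add_distrib, Finset.sum_ite_eq', Finset.mem_univ, if_true, hJ]
      by_cases h : i = j
      · subst h
        simp only [if_true, if_neg (hr i), if_neg (hr i).symm, add_zero, zero_add, α, β]
        split_ifs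
        · simpa [one_add_one_eq_two] using h2
        · simp only [map_add, map_one]
          linear_combination hb + (s b * b + 1) * h2
      by_cases h' : i = j.rev
      · subst h'
        simp only [Fin.rev_rev, if_true, if_neg (hr j), if_neg (hr j).symm, add_zero, zero_add, α, β]
        rcases lt_or_gt_of_ne (hr j) with h3 | h3
        · simp only [if_pos h3, if_neg h3.not_gt, map_one]
          linear_combination b * h2
        · simp only [if_pos h3, if_neg h3.not_gt, map_add, map_one]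
          linear_combination s b * h2
      · have h3 : j ≠ i.rev := fun e => h' (by rw [e, Fin.rev_rev])
        simp [h', Ne.symm h, Ne.symm h', h3]
    have hd : M.det ≠ 0 := fun h => by
      have := congrArg det hM
      rw [det_mul, h, mul_zero] at this
      exact ((isUnit_iff_isUnit_det _).1 J.isUnit).ne_zero this.symm
    exact ⟨GeneralLinearGroup.mkOfDetNeZero M hd, tau_eq_iff.2 hM⟩
  let σ : GL (Fin n) F →* GL (Fin n) F := (MulAut.conj J⁻¹).toMonoidHom.comp (tau s)
  have hσ : ∀ g, σ g = J⁻¹ * tau s g * J := fun g => by simp [σ]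
  have hσ' : ∀ g i j, (σ g).1 i j = s ((g⁻¹).1 j.rev i.rev) := fun g i j => by
    rw [hσ, conj_P]; rfl
  refine H10Bru.allP ((MulAut.conj Q⁻¹).toMonoidHom.comp
    (SpecialLinearGroup.toGL.comp (SU n F q).subtype)) ((MulAut.conj Q⁻¹).injective.comp
      (SpecialLinearGroup.toGL_injective.comp Subtype.val_injective)) σ (fun g => ?_)
    (fun g hg i j h => by 
      rw [hσ', mem_Bu.1 (inv_mem hg) j.rev i.rev (Fin.rev_lt_rev.2 h), map_zero])
    (fun g hg i j h => by 
      rw [hσ', mem_Bl.1 (inv_mem hg) j.rev i.rev (Fin.rev_lt_rev.2 h), map_zero])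
    (fun w => ⟨Fin.revPerm * w * Fin.revPerm, Units.ext (Matrix.ext fun i j => ?_)⟩) fun i j h => ?_
  · obtain ⟨g, rfl⟩ := (MulAut.conj Q⁻¹).surjective g
    rw [MonoidHom.range_comp, MulAut.conj_apply, conj_mem_conj, range_SU, mem_GU hF, Uni, ← Units.val_one, ← tau_eq_iff, mul_one,
      and_comm, hσ]
    simp only [inv_inv, map_mul, map_inv]
    refine and_congr (by rw [mul_right_comm, inv_mul_cancel, one_mul, Units.ext_iff]; rfl) ?_
    rw [show J⁻¹ * ((tau s Q)⁻¹ * tau s g * tau s Q) * J =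
      (tau s Q * J)⁻¹ * tau s g * (tau s Q * J) by group, hQ]
    simp [s]
  · rw [hσ']
    simp [P, one_apply, eq_comm, Fin.rev_eq_iff]
  · have hij : i < j := Fin.lt_def.2 (by omega)
    let N : Matrix (Fin n) (Fin n) F := of fun a b =>
      if (a = i ∧ b = j) ∨ (a = j.rev ∧ b = i.rev) then 1 else 0
    have hN : N * N = 0 := by
      ext a b
      rw [mul_apply]
      refine Finset.sum_eq_zero fun c _ => ?_
      simp only [N, of_apply]
      split_ifs with h3 h4
      · exfalso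
        rcases h3 with ⟨-, rfl⟩ | ⟨-, rfl⟩ <;> rcases h4 with ⟨h4, -⟩ | ⟨h4, -⟩
        · exact hij.ne' h4
        · exact hr _ h4.symm
        · exact hr _ h4
        · exact hij.ne (Fin.rev_injective h4)
      all_goals simp
    have hN0 : ∀ a b, b ≤ a → N a b = 0 := fun a b hab => if_neg (by
      rintro (⟨rfl, rfl⟩ | ⟨rfl, rfl⟩)
      · exact hab.not_gt hij
      · exact hab.not_gt (Fin.rev_lt_rev.2 hij))
    have hx : (1 + N) * (1 + N) = 1 := by
      rw [add_mul, mul_add, mul_add, hN, Matrix.one_mul, Matrix.one_mul, Matrix.mul_one, add_zero,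
        add_assoc, ← two_smul F N, h2, zero_smul, add_zero]
    refine ⟨⟨1 + N, 1 + N, hx, hx⟩, ⟨fun a b hab => ?_, fun a => by simp [hN0]⟩,
      Units.ext (Matrix.ext fun a b => ?_), by simp [N, hij.ne]⟩
    · have h1 : a ≠ b := ne_of_gt hab
      simp [hN0 a b (le_of_lt hab), one_apply_ne h1]
    · rw [hσ']
      change s ((1 + N) b.rev a.rev) = (1 + N) a b
      have : N b.rev a.rev = N a b := if_congr (by
        simp only [Fin.rev_eq_iff, Fin.rev_rev]; tauto) rfl rfl
      rw [Matrix.add_apply, Matrix.add_apply, this, map_add]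
      congr 1
      · simp [one_apply, eq_comm]
      · simp only [N, of_apply]; split_ifs <;> simp

theorem allP_PSL {w : ℕ} (hw : 1 ≤ w) : AllP PSL(2 ^ w, F) 2 := by
  by_cases h2 : (2 : F) = 0
  · haveI : CharP F 2 := CharTwo.of_one_ne_zero_of_two_eq_zero one_ne_zero h2
    exact (allP_SL_char 2 _).of_surj (QuotientGroup.mk'_surjective _)
  obtain ⟨w, rfl⟩ := Nat.exists_eq_add_of_le' hw
  rcases eq_or_ne w 0 with rfl | h
  · exact allP_PSL2 h2
  · exact (allP_SL_odd h2 h).of_surj (QuotientGroup.mk'_surjective _)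

include hF in
theorem allP_PSU {w : ℕ} (hw : 2 ≤ w) : AllP (PSU (2 ^ w) F q) 2 := by
  obtain ⟨w, rfl⟩ := Nat.exists_eq_add_of_le' (one_le_two.trans hw)
  by_cases h2 : (2 : F) = 0
  · exact (allP_SU_two hF h2 (by simp [Nat.even_pow])).of_surj (QuotientGroup.mk'_surjective _)
  · exact (allP_SU_odd hF h2 (by omega)).of_surj (QuotientGroup.mk'_surjective _)

end CA.H10Pr2
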