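/-
Bounded presentations of `SL₂(q)`.
-/
import Cfsg.Agent.Lib.Grp.Prs
import Cfsg.Agent.Lib.Lin.SL2Basic

set_option autoImplicit false

namespace CA.Prs

open Matrix Subgroup
open scoped MatrixGroups commutatorElement

variable {F J : Type*} [Field F] [Group J]

/-- upper unitriangular -/
def xu (a : F) : SL(2, F) := ⟨!![1, a; 0, 1], by simp [det_fin_two_of]⟩
open Classical in
/-- diagonal -/
noncomputable def hd (a : F) : SL(2, F) := if h : a = 0 then 1 else ⟨!![a, 0; 0, a⁻¹], by simp [det_fin_two_of, h]⟩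
variable (F) in
/-- the Weyl element -/
def tw : SL(2, F) := ⟨!![0, 1; -1, 0], by simp [det_fin_two_of]⟩

theorem hd_val {a : F} (h : a ≠ 0) : (hd a).1 = !![a, 0; 0, a⁻¹] := congrArg Subtype.val (dif_neg h)
theorem xu_val (a : F) : (xu a).1 = !![1, a; 0, 1] := rfl
theorem tw_val : (tw F).1 = !![0, 1; -1, 0] := rfl

/-- the relations of the Bruhat presentation -/
structure R2 (X H : F → J) (τ : J) : Prop where
  add : ∀ a b, X (a + b) = X a * X b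
  hm : ∀ a b, a ≠ 0 → b ≠ 0 → H (a * b) = H a * H b
  hx : ∀ s a, s ≠ 0 → H s * X a = X (s ^ 2 * a) * H s
  ht : ∀ s, s ≠ 0 → τ * H s = H s⁻¹ * τ
  t2 : τ * τ = H (-1)
  hR : ∀ a, a ≠ 0 → X a * τ * X a⁻¹ * τ⁻¹ * X a = H a * τ

theorem r2_sl : R2 (xu : F → _) hd (tw F) := by
  refine ⟨fun a b => ?_, fun a b ha hb => ?_, fun s a h => ?_, fun s h => ?_, ?_, fun a h => ?_⟩ <;>
    refine Subtype.ext (CA.SL2Basic.ext4 ?_ ?_ ?_ ?_) <;>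
    simp [xu_val, tw_val, hd_val, *, Matrix.mul_apply, Fin.sum_univ_two, add_comm, mul_comm, adjugate_fin_two]
  field_simp

theorem bruhat (g : SL(2, F)) : (g.1 1 0 = 0 ∧ g.1 0 0 ≠ 0 ∧ g = xu (g.1 0 0 * g.1 0 1) * hd (g.1 0 0)) ∨
    (g.1 1 0 ≠ 0 ∧ g = xu (g.1 0 0 / g.1 1 0) * hd (-(g.1 1 0)⁻¹) * tw F * xu (g.1 1 1 / g.1 1 0)) := by
  have d := CA.SL2Basic.det_eq g
  by_cases h : g.1 1 0 = 0
  · have h' : g.1 0 0 ≠ 0 := fun e => by simp [h, e] at d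
    refine Or.inl ⟨h, h', Subtype.ext (CA.SL2Basic.ext4 ?_ ?_ ?_ ?_)⟩ <;>
      simp [xu_val, hd_val, *, Matrix.mul_apply, Fin.sum_univ_two] <;> grind
  · refine Or.inr ⟨h, Subtype.ext (CA.SL2Basic.ext4 ?_ ?_ ?_ ?_)⟩ <;>
      simp [xu_val, tw_val, hd_val, h, Matrix.mul_apply, Fin.sum_univ_two] <;> grind

theorem R2.lift {X H : F → J} {τ : J} (R : R2 X H τ) :
    ∃ σ : SL(2, F) →* J, (∀ a, σ (xu a) = X a) ∧ (∀ a, a ≠ 0 → σ (hd a) = H a) ∧ σ (tw F) = τ := by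
  classical
  have x0 := zero_of_add R.add
  have h1 : H 1 = 1 := by simpa using R.hm 1 1 one_ne_zero one_ne_zero
  let f : SL(2, F) → J := fun g => if g.1 1 0 = 0 then X (g.1 0 0 * g.1 0 1) * H (g.1 0 0) else
    X (g.1 0 0 / g.1 1 0) * H (-(g.1 1 0)⁻¹) * τ * X (g.1 1 1 / g.1 1 0)
  have f1 : ∀ a, f (xu a) = X a := fun a => by simp [f, xu_val, h1]
  have f2 : ∀ a, a ≠ 0 → f (hd a) = H a := fun a h => by simp [f, hd_val h, x0]
  have f3 : f (tw F) = τ := by simp [f, tw_val, h1, x0]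
  refine ⟨MonoidHom.ofClosureMEqTopLeft (s := Set.range xu ∪ hd '' {a | a ≠ 0} ∪ {tw F}) f (top_unique fun g _ => ?_)
    (by simp [f, h1, x0]) ?_, f1, f2, f3⟩
  · have a1 := fun a : F => Submonoid.subset_closure (s := Set.range xu ∪ hd '' {a | a ≠ 0} ∪ {tw F})
      (Or.inl (Or.inl ⟨a, rfl⟩))
    have a2 := fun (a : F) (h : a ≠ 0) => Submonoid.subset_closure (s := Set.range xu ∪ hd '' {a | a ≠ 0} ∪ {tw F})
      (Or.inl (Or.inr ⟨a, h, rfl⟩))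
    rcases bruhat g with ⟨-, h, e⟩ | ⟨h, e⟩ <;> rw [e]
    · exact mul_mem (a1 _) (a2 _ h)
    · exact mul_mem (mul_mem (mul_mem (a1 _) (a2 _ (by simpa))) (Submonoid.subset_closure (Or.inr rfl))) (a1 _)
  rintro _ ((⟨b, rfl⟩ | ⟨s, hs : s ≠ 0, rfl⟩) | rfl) g <;> have d := CA.SL2Basic.det_eq g
  · rw [f1]
    by_cases h : g.1 1 0 = 0 <;> simp [f, xu_val, h, Matrix.mul_apply, Fin.sum_univ_two, ← mul_assoc, ← R.add] <;> congr 1
    · rw [h] at d; linear_combination b * d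
    · field_simp; ring
  · rw [f2 s hs]
    by_cases h : g.1 1 0 = 0 <;> simp [f, hd_val, hs, h, Matrix.mul_apply, Fin.sum_univ_two, ← mul_assoc, R.hx _ _ hs]
    · rw [R.hm _ _ hs (fun e => by simp [h, e] at d), ← mul_assoc]; congr 3; ring
    · rw [mul_assoc _ (H s), ← R.hm _ _ hs (by simpa)]; congr 2 <;> [congr 2; skip] <;> [congr 1; skip; skip] <;> field_simp
  · rw [f3]
    by_cases h : g.1 1 0 = 0 <;> by_cases h' : g.1 0 0 = 0 <;>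
      simp [f, tw_val, h, h', Matrix.mul_apply, Fin.sum_univ_two, x0]
    · simp [h, h'] at d
    · rw [show g.1 0 0 * g.1 0 1 = g.1 0 0 ^ 2 * (g.1 0 1 / g.1 0 0) by field_simp, ← R.hx _ _ h', ← mul_assoc,
        R.ht _ h']
    · rw [← mul_assoc, ← mul_assoc, R.ht _ (by simpa), mul_assoc _ τ τ, R.t2, ← R.hm _ _ (by simpa) (by simp),
        show g.1 1 0 * g.1 1 1 = g.1 1 0 ^ 2 * (g.1 1 1 / g.1 1 0) by field_simp, ← R.hx _ _ h]
      simp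
    · have e := R.hR (g.1 1 0 / g.1 0 0) (by simp [h, h'])
      rw [inv_div] at e
      have e1 : τ * X (g.1 0 0 / g.1 1 0) = X (-(g.1 1 0 / g.1 0 0)) * H (g.1 1 0 / g.1 0 0) * τ *
          X (-(g.1 1 0 / g.1 0 0)) * τ := by
        rw [neg_of_add R.add, mul_assoc _ (H _), ← e]; group
      have e2 : τ * H (-(g.1 1 0)⁻¹) * τ = H (g.1 1 0) := by
        rw [R.ht _ (by simpa), mul_assoc, R.t2, ← R.hm _ _ (by simpa) (by simp)]; simp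
      have e3 := R.hx (g.1 1 0) (-(g.1 1 0 * g.1 0 0)⁻¹) h
      rw [show g.1 1 0 ^ 2 * -(g.1 1 0 * g.1 0 0)⁻¹ = -(g.1 1 0 / g.1 0 0) by field_simp] at e3
      have e4 : H (g.1 1 0 / g.1 0 0) * τ * H (g.1 1 0) = H (g.1 0 0)⁻¹ * τ := by
        rw [mul_assoc, R.ht _ h, ← mul_assoc, ← R.hm _ _ (by simp [h, h']) (by simpa)]; congr 2; field_simp
      calc _ = X (-(g.1 1 0 / g.1 0 0)) * (H (g.1 1 0 / g.1 0 0) * τ * H (g.1 1 0)) *
          X (-(g.1 1 0 * g.1 0 0)⁻¹ + g.1 1 1 / g.1 1 0) := by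
            rw [e4, div_neg, show -(g.1 1 0 * g.1 0 0)⁻¹ + g.1 1 1 / g.1 1 0 = g.1 0 1 / g.1 0 0 by
              field_simp; linear_combination d]; simp only [mul_assoc]
        _ = X (-(g.1 1 0 / g.1 0 0)) * H (g.1 1 0 / g.1 0 0) * τ * (H (g.1 1 0) * X (-(g.1 1 0 * g.1 0 0)⁻¹)) *
          X (g.1 1 1 / g.1 1 0) := by simp only [R.add, mul_assoc]
        _ = τ * X (g.1 0 0 / g.1 1 0) * H (-(g.1 1 0)⁻¹) * τ * X (g.1 1 1 / g.1 1 0) := by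
            rw [e3, e1, ← e2]; simp only [mul_assoc]
        _ = _ := by simp only [mul_assoc]

theorem exists_log [Finite F] {ζ : F} (h0 : ζ ≠ 0) (hζ : ∀ a : F, a ≠ 0 → ∃ i : ℕ, ζ ^ i = a)
    (ho : ∀ i : ℕ, ζ ^ i = 1 ↔ Nat.card F - 1 ∣ i) {η : J} (h1 : η ^ (Nat.card F - 1) = 1) :
    ∃ H : F → J, (∀ i : ℕ, H (ζ ^ i) = η ^ i) ∧ ∀ a b, a ≠ 0 → b ≠ 0 → H (a * b) = H a * H b := by
  choose! l hl using hζ
  have a1 : ∀ i j : ℕ, ζ ^ i = ζ ^ j → η ^ i = η ^ j := fun i j e => by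
    wlog h : i ≤ j generalizing i j
    · exact (this j i e.symm (by omega)).symm
    obtain ⟨k, rfl⟩ := Nat.exists_eq_add_of_le h
    obtain ⟨c, rfl⟩ := (ho k).1 (mul_left_cancel₀ (pow_ne_zero i h0) (by rw [← pow_add, ← e, mul_one]))
    rw [pow_add, pow_mul, h1, one_pow, mul_one]
  exact ⟨fun a => η ^ l a, fun i => a1 _ _ (hl _ (pow_ne_zero i h0)), fun a b ha hb => by
    rw [← pow_add]; exact a1 _ _ (by rw [pow_add, hl a ha, hl b hb, hl _ (mul_ne_zero ha hb)])⟩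

theorem sl2_core [Finite F] {ζ : F} (h0 : ζ ≠ 0) (hζ : ∀ a : F, a ≠ 0 → ∃ i : ℕ, ζ ^ i = a)
    (ho : ∀ i : ℕ, ζ ^ i = 1 ↔ Nat.card F - 1 ∣ i) {Ψ : F → J} (add : ∀ a b, Ψ (a + b) = Ψ a * Ψ b) {η τ : J}
    (hx : ∀ a, η * Ψ a * η⁻¹ = Ψ (ζ ^ 2 * a)) (ht : τ * η * τ⁻¹ = η⁻¹) (h1 : η ^ (Nat.card F - 1) = 1) {m : ℕ}
    (hm : ζ ^ m = -1) (t2 : τ * τ = η ^ m) (r1 : Ψ 1 * τ * Ψ 1 * τ⁻¹ * Ψ 1 = τ)
    (r2 : (∃ k : ℕ, ζ = (ζ ^ k) ^ 2) ∨ Ψ ζ * τ * Ψ ζ⁻¹ * τ⁻¹ * Ψ ζ = η * τ) :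
    ∃ σ : SL(2, F) →* J, (∀ a, σ (xu a) = Ψ a) ∧ σ (hd ζ) = η ∧ σ (tw F) = τ := by
  obtain ⟨H, b1, b2⟩ := exists_log h0 hζ ho h1
  have c0 : H 1 = 1 := by simpa using b1 0
  have c1 : ∀ s a, s ≠ 0 → H s * Ψ a = Ψ (s ^ 2 * a) * H s := fun s a hs => by
    obtain ⟨i, rfl⟩ := hζ s hs
    have := cj_eq (pow_ne_zero 2 h0) hx a i
    rw [zpow_natCast, ← pow_mul, mul_comm 2, pow_mul] at this
    simp [this, cj, b1]
  have c2 : ∀ s, s ≠ 0 → H s⁻¹ = (H s)⁻¹ := fun s hs => by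
    rw [eq_inv_iff_mul_eq_one, ← b2 _ _ (inv_ne_zero hs) hs, inv_mul_cancel₀ hs, c0]
  have c3 : ∀ s, s ≠ 0 → τ * H s = H s⁻¹ * τ := fun s hs => by
    obtain ⟨i, rfl⟩ := hζ s hs
    rw [c2 _ hs, b1, ← inv_pow, ← ht, conj_pow, inv_mul_cancel_right]
  have c4 : ∀ s a, s ≠ 0 → a ≠ 0 → Ψ a * τ * Ψ a⁻¹ * τ⁻¹ * Ψ a = H a * τ →
      Ψ (s ^ 2 * a) * τ * Ψ (s ^ 2 * a)⁻¹ * τ⁻¹ * Ψ (s ^ 2 * a) = H (s ^ 2 * a) * τ := fun s a hs ha e => by
    have e1 := eq_mul_inv_of_mul_eq (c1 s a hs).symm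
    have e2 := eq_mul_inv_of_mul_eq (c1 s⁻¹ a⁻¹ (inv_ne_zero hs)).symm
    have e3 := eq_mul_inv_of_mul_eq (c3 s hs)
    rw [inv_pow, ← mul_inv, c2 s hs] at e2
    rw [c2 s hs] at e3
    have e4 : τ * (H s)⁻¹ = H s * τ := by rw [← c2 s hs, c3 _ (inv_ne_zero hs), inv_inv]
    calc _ = H s * (Ψ a * ((H s)⁻¹ * τ * (H s)⁻¹) * Ψ a⁻¹ * ((H s)⁻¹ * τ * (H s)⁻¹)⁻¹ * Ψ a) * (H s)⁻¹ := by
          rw [e1, e2]; group
      _ = _ := by rw [← e3, e, mul_comm _ a, sq, ← mul_assoc a, mul_comm a, b2 _ _ (mul_ne_zero hs ha) hs, b2 _ _ hs ha,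
          mul_assoc, mul_assoc, e4]; simp only [mul_assoc]
  have c5 : ∀ s, s ≠ 0 → Ψ (s ^ 2) * τ * Ψ (s ^ 2)⁻¹ * τ⁻¹ * Ψ (s ^ 2) = H (s ^ 2) * τ := fun s hs => by
    simpa using c4 s 1 hs one_ne_zero (by simpa [c0] using r1)
  obtain ⟨σ, s1, s2, s3⟩ := R2.lift ⟨add, b2, c1, c3, by rw [t2, ← hm, b1], fun a ha => by
    obtain ⟨i, rfl⟩ := hζ a ha
    obtain ⟨i, rfl | rfl⟩ := i.even_or_odd'
    · rw [pow_mul']; exact c5 _ (pow_ne_zero _ h0)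
    rw [pow_succ, pow_mul']
    refine c4 _ _ (pow_ne_zero _ h0) h0 (r2.elim (fun ⟨k, e⟩ => ?_) fun e => by rw [e, ← pow_one η, ← b1, pow_one])
    rw [e]; exact c5 _ (pow_ne_zero _ h0)⟩
  exact ⟨σ, s1, by rw [s2 _ h0, ← pow_one η, ← b1, pow_one], s3⟩

theorem closure_sl2 [Finite F] {ζ : F} (h0 : ζ ≠ 0) (hζ : ∀ a : F, a ≠ 0 → ∃ i : ℕ, ζ ^ i = a) {M : Subgroup SL(2, F)}
    (h1 : ∀ a, xu a ∈ M) (h2 : hd ζ ∈ M) (h3 : tw F ∈ M) : M = ⊤ := top_unique fun g _ => by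
  have a : ∀ a : F, a ≠ 0 → hd a ∈ M := fun a ha => by
    obtain ⟨i, rfl⟩ := hζ a ha
    induction i with
    | zero => rw [pow_zero, show hd (1 : F) = 1 from Subtype.ext (by simp [hd_val, one_fin_two])]; exact one_mem _
    | succ i ih => rw [pow_succ, r2_sl.hm _ _ (pow_ne_zero _ h0) h0]; exact mul_mem (ih (pow_ne_zero _ h0)) h2
  rcases bruhat g with ⟨-, h, e⟩ | ⟨h, e⟩ <;> rw [e]
  · exact mul_mem (h1 _) (a _ h)
  · exact mul_mem (mul_mem (mul_mem (h1 _) (a _ (by simpa))) h3) (h1 _)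

theorem hd_pow {ζ : F} (h0 : ζ ≠ 0) (i : ℕ) : hd ζ ^ i = hd (ζ ^ i) := by
  induction i with
  | zero => rw [pow_zero, pow_zero]; exact Subtype.ext (by simp [hd_val, one_fin_two])
  | succ i ih => rw [pow_succ, pow_succ, ih, r2_sl.hm _ _ (pow_ne_zero _ h0) h0]

theorem hd_conj {s : F} (h : s ≠ 0) (a : F) : hd s * xu a * (hd s)⁻¹ = xu (s ^ 2 * a) := by
  rw [r2_sl.hx _ _ h, mul_inv_cancel_right]

theorem cj_hd {s : F} (h : s ≠ 0) (i : ℤ) : xu ((s ^ 2) ^ i) = cj (hd s) (xu 1) i := by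
  simpa using cj_eq (pow_ne_zero 2 h) (hd_conj h) 1 i

theorem xu_pow (p : ℕ) [CharP F p] : xu (1 : F) ^ p = 1 := by
  have : ∀ n : ℕ, xu (1 : F) ^ n = xu (n : F) := fun n => by
    induction n <;> simp [*, pow_succ, r2_sl.add, zero_of_add r2_sl.add]
  rw [this, CharP.cast_eq_zero, zero_of_add r2_sl.add]

theorem closure_pow [Finite F] {ζ : F} (ho : ∀ i : ℕ, ζ ^ i = 1 ↔ Nat.card F - 1 ∣ i) {k : ℕ} (hk : k ≠ 0)
    (h : k ≤ 2 ∨ (k = 3 ∧ Nat.card F ≠ 4)) (h0 : ζ ≠ 0) : Subring.closure {ζ ^ k} = ⊤ := by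
  by_contra e
  obtain ⟨q, h1, h2, h3, -⟩ := exists_frob e
  obtain ⟨q, rfl⟩ : ∃ r, q = r + 1 := ⟨q - 1, by omega⟩
  have h4 := (ho (k * q)).1 (mul_right_cancel₀ (pow_ne_zero k h0) (by
    rw [pow_mul, ← pow_succ, h3 _ (Subring.subset_closure rfl), one_mul]))
  have h5 := Nat.le_of_dvd (Nat.mul_pos (by omega) (by omega)) h4
  have : (q + 1) ^ 2 ≤ k * q + 1 := by omega
  rcases h with h | ⟨rfl, h⟩
  · nlinarith
  · obtain rfl : q = 1 := by nlinarith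
    omega

/-- the Baumslag part of the presentation -/
theorem baum_mod {d : ℕ} {L : List ℕ} {η θ ξ v : J} (h1 : Commute θ η) (h2 : θ * ξ * θ⁻¹ = ξ * cj η ξ 1)
    (h3 : Commute ξ (cj η ξ 1)) (h4 : cj η ξ d = wd η ξ L * v) (h5 : Commute θ v) (h6 : Commute η v) : v = 1 := by
  have a0 := cj_comm (baumslag h1 h2 h3)
  have a1 : ∀ i : ℤ, θ * cj η ξ i * θ⁻¹ = cj η ξ i * (η * cj η ξ i * η⁻¹) := fun i => by
    have := congrArg (fun g => η ^ i * g * (η ^ i)⁻¹) h2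
    have e := (h1.zpow_right i).eq
    simp only [cj] at this ⊢
    rw [← mul_assoc, ← mul_assoc, e, mul_assoc, ← _root_.mul_inv_rev, e, _root_.mul_inv_rev, ← mul_assoc]
    simp only [← mul_assoc] at this ⊢
    rw [this]; group
  have a2 : ∀ i, Commute (cj η ξ i) (wd η ξ L) := fun i =>
    Commute.list_prod_right _ _ fun g hg => by obtain ⟨j, -, rfl⟩ := List.mem_map.1 hg; exact a0 _ _
  have a3 : ∀ L : List ℕ, θ * wd η ξ L * θ⁻¹ = wd η ξ L * (η * wd η ξ L * η⁻¹) := fun L => by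
    induction L with
    | nil => simp [wd]
    | cons i L ih =>
      have : Commute (η * cj η ξ i * η⁻¹) (wd η ξ L) := by
        rw [← cj_succ]
        exact Commute.list_prod_right _ _ fun g hg => by obtain ⟨j, -, rfl⟩ := List.mem_map.1 hg; exact a0 _ _
      have e : wd η ξ (i :: L) = cj η ξ i * wd η ξ L := rfl
      calc _ = θ * cj η ξ i * θ⁻¹ * (θ * wd η ξ L * θ⁻¹) := by rw [e]; group
        _ = _ := by rw [a1, ih, mul_assoc, ← mul_assoc _ (wd η ξ L), this.eq, e]; group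
  have a4 := a1 d
  have a5 : Commute v (η * wd η ξ L * η⁻¹) := by
    have : Commute v (wd η ξ L) := by
      rw [eq_inv_mul_iff_mul_eq.2 h4.symm]; exact (Commute.refl _).inv_left.mul_left (a2 d)
    exact (h6.symm.mul_right this).mul_right h6.symm.inv_right
  rw [h4, ← mul_assoc, mul_assoc _ v, h5.symm.inv_right.eq, ← mul_assoc, a3, ← mul_assoc η, mul_assoc _ v η⁻¹,
    h6.symm.inv_right.eq, ← mul_assoc _ η⁻¹, mul_assoc (wd η ξ L) v, ← mul_assoc v, a5.eq] at a4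
  simpa [mul_assoc] using a4

theorem exists_baum [Finite F] {ζ : F} (h0 : ζ ≠ 0) (hζ : ∀ a : F, a ≠ 0 → ∃ i : ℕ, ζ ^ i = a)
    (ho : ∀ i : ℕ, ζ ^ i = 1 ↔ Nat.card F - 1 ∣ i) (h2 : (2 : F) ≠ 0) (hq : 9 < Nat.card F) :
    ∃ k l : ℕ, (ζ ^ l) ^ 2 = 1 + (ζ ^ k) ^ 2 ∧ Subring.closure {(ζ ^ k) ^ 2} = ⊤ := by
  have h4 : ζ ^ 4 ≠ 1 := fun e => by have := Nat.le_of_dvd (by omega) ((ho 4).1 e); omega
  obtain ⟨k, hk⟩ := hζ ((ζ - ζ⁻¹) / 2) (div_ne_zero (fun e => h4 (by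
    rw [show ζ ^ 4 = 1 + ζ * (ζ ^ 2 + 1) * (ζ - ζ⁻¹) by field_simp; ring, e]; simp)) h2)
  obtain ⟨l, hl⟩ := hζ ((ζ + ζ⁻¹) / 2) (div_ne_zero (fun e => h4 (by
    rw [show ζ ^ 4 = 1 + ζ * (ζ ^ 2 - 1) * (ζ + ζ⁻¹) by field_simp; ring, e]; simp)) h2)
  refine ⟨k, l, by rw [hk, hl]; field_simp; ring, by_contra fun e => ?_⟩
  obtain ⟨q, h1, h2', h3, φ, h5⟩ := exists_frob e
  obtain ⟨q, rfl⟩ : ∃ r, q = r + 1 := ⟨q - 1, by omega⟩
  have a1 := (h5 _).trans (h3 _ (Subring.subset_closure rfl))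
  have a0 : φ ζ ≠ 0 := (map_ne_zero φ).2 h0
  rw [hk, map_pow, map_div₀, map_sub, map_inv₀, map_ofNat] at a1
  have a2 : (φ ζ ^ 2 - ζ ^ 2) * (φ ζ ^ 2 * ζ ^ 2 - 1) = 0 := by field_simp at a1; linear_combination a1
  rw [h5] at a2
  have a3 : Nat.card F - 1 ≤ 2 * q + 4 := by
    rcases mul_eq_zero.1 a2 with a | a
    · have := Nat.le_of_dvd (by omega) ((ho (2 * q)).1 (mul_right_cancel₀ (pow_ne_zero 2 h0) (by linear_combination a)))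
      omega
    · exact Nat.le_of_dvd (by omega) ((ho (2 * q + 4)).1 (by linear_combination a))
  have : q ≤ 2 := by by_contra! h; have : Nat.card F ≤ 2 * q + 5 := by omega
                     nlinarith
  omega

theorem sq_of_R {u t : J} (h1 : u * u = 1) (h2 : u * t * u * t⁻¹ * u = t) : t * t = 1 :=
  calc t * t = u * t * u * t⁻¹ * u * (u * t * u * t⁻¹ * u) := by rw [h2]
    _ = u * t * u * t⁻¹ * (u * u) * t * u * t⁻¹ * u := by simp only [mul_assoc]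
    _ = u * t * (u * u) * t⁻¹ * u := by rw [h1]; simp [mul_assoc, ← mul_assoc u u, h1]
    _ = 1 := by simp [h1]

local notation "g0" => (FreeGroup.of 0 : FreeGroup (Fin 3))
local notation "g1" => (FreeGroup.of 1 : FreeGroup (Fin 3))
local notation "g2" => (FreeGroup.of 2 : FreeGroup (Fin 3))

theorem pres_sl2 [Finite F] : Pres 3 8 SL(2, F) ∧ (CharP F 2 → Pres 3 5 SL(2, F)) := by
  obtain ⟨ζ, h0, hζ, ho⟩ := exists_gen F
  have gen : closure (Set.range ![xu 1, hd ζ, tw F]) = ⊤ := by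
    obtain ⟨p, hp⟩ := CharP.exists F
    have := Fact.mk (CharP.char_is_prime F p)
    obtain ⟨d, -, b, -⟩ := modl p (pow_ne_zero 2 h0) (closure_pow ho two_ne_zero (by simp) h0)
    have a1 : hd ζ ∈ closure (Set.range ![xu 1, hd ζ, tw F]) := subset_closure ⟨1, rfl⟩
    refine closure_sl2 h0 hζ (fun a => ?_) a1 (subset_closure ⟨2, rfl⟩)
    obtain ⟨L, -, rfl⟩ := b a
    rw [← wd_eq r2_sl.add (cj_hd h0)]
    exact list_prod_mem fun g hg => by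
      obtain ⟨j, -, rfl⟩ := List.mem_map.1 hg
      exact mul_mem (mul_mem (zpow_mem a1 _) (subset_closure ⟨0, rfl⟩)) (inv_mem (zpow_mem a1 _))
  have t1 : tw F * hd ζ * (tw F)⁻¹ * hd ζ = 1 := by
    rw [r2_sl.ht _ h0, mul_inv_cancel_right, ← r2_sl.hm _ _ (inv_ne_zero h0) h0, inv_mul_cancel₀ h0, ← pow_zero ζ,
      ← hd_pow h0, pow_zero]
  have t2 : xu 1 * tw F * xu 1 * (tw F)⁻¹ * xu 1 * (tw F)⁻¹ = 1 := by
    have := r2_sl.hR (1 : F) one_ne_zero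
    rw [inv_one, ← pow_zero ζ, ← hd_pow h0, pow_zero, pow_zero, one_mul] at this
    rw [this, mul_inv_cancel]
  have t3 : hd ζ ^ (Nat.card F - 1) = 1 := by rw [hd_pow h0, (ho _).2 dvd_rfl, ← pow_zero ζ, ← hd_pow h0, pow_zero]
  have fin : ∀ {J : Type} [Group J] {ξ : Fin 3 → J} {Ψ : F → J}, Ψ 1 = ξ 0 →
      (∃ σ : SL(2, F) →* J, (∀ a, σ (xu a) = Ψ a) ∧ σ (hd ζ) = ξ 1 ∧ σ (tw F) = ξ 2) →
      ∃ σ : SL(2, F) →* J, ∀ i, σ (![xu 1, hd ζ, tw F] i) = ξ i := fun h ⟨σ, h1, h2, h3⟩ =>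
    ⟨σ, fun i => by fin_cases i <;> simp [*]⟩
  have even : CharP F 2 → Pres 3 5 SL(2, F) := fun _ => by
    obtain ⟨d, hd', b, M⟩ := modl 2 (pow_ne_zero 2 h0) (closure_pow ho two_ne_zero (by simp) h0)
    obtain ⟨L, l1, l2⟩ := b ((ζ ^ 2) ^ d)
    have t4 : cj (hd ζ) (xu 1) d = wd (hd ζ) (xu 1) L := by
      rw [wd_eq r2_sl.add (cj_hd h0), ← l2, ← cj_hd h0, zpow_natCast]
    have sq : ∀ a : F, a ≠ 0 → ∃ k : ℕ, a = (ζ ^ k) ^ 2 := fun a ha => by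
      obtain ⟨s, rfl⟩ := FiniteField.isSquare_of_char_two (ringChar.eq F 2) a
      obtain ⟨k, rfl⟩ := hζ s (left_ne_zero_of_mul ha)
      exact ⟨k, (sq _).symm⟩
    have key : ∀ {J : Type} [Group J] (ξ : Fin 3 → J), (∀ i : ℕ, i < d → Commute (ξ 0) (cj (ξ 1) (ξ 0) i)) →
        ξ 0 ^ 2 = 1 → cj (ξ 1) (ξ 0) d = wd (ξ 1) (ξ 0) L → ξ 1 ^ (Nat.card F - 1) = 1 → ξ 2 * ξ 1 * (ξ 2)⁻¹ * ξ 1 = 1 →
        ξ 0 * ξ 2 * ξ 0 * (ξ 2)⁻¹ * ξ 0 * (ξ 2)⁻¹ = 1 →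
        ∃ σ : SL(2, F) →* J, ∀ i, σ (![xu 1, hd ζ, tw F] i) = ξ i := fun ξ e1 e2 e3 e4 e5 e6 => by
      obtain ⟨Ψ, p1, p2, p3⟩ := M L l1 l2 _ _ _ e1 e2 e3
      have p4 : Ψ 1 = ξ 0 := by simpa [cj] using p2 0
      rw [mul_inv_eq_one] at e6
      refine fin p4 (sl2_core h0 hζ ho p1 p3 (eq_inv_of_mul_eq_one_left e5) e4 (m := 0) (by simp [CharTwo.neg_eq]) ?_
        (by rwa [p4]) (Or.inl (sq ζ h0)))
      rw [pow_zero]; exact sq_of_R (pow_two (ξ 0) ▸ e2) e6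
    by_cases h : 1 + ζ ^ 2 = 0
    · have : d ≤ 1 := by
        have := Nat.le_of_dvd (by omega) ((ho 2).1 (by rw [← CharTwo.neg_eq (1 : F)]; linear_combination h))
        by_contra! e
        have := Nat.pow_le_pow_right two_pos e
        omega
      refine Pres.base _ [g0 ^ 2, (wd (g1) (g0) L)⁻¹ * cj (g1) (g0) d, g1 ^ (Nat.card F - 1),
        g2 * g1 * (g2)⁻¹ * g1, g0 * g2 * g0 * (g2)⁻¹ * g0 * (g2)⁻¹]
        (by simp [map_wd, map_cj, xu_pow, t1, t2, t3, t4]) gen fun J _ ξ e => ?_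
      simp only [List.forall_mem_cons, map_mul, map_inv, map_pow, map_wd, map_cj, FreeGroup.lift_apply_of, inv_mul_eq_one] at e
      exact key ξ (fun i hi => by simp [show i = 0 by omega, cj]) e.1 e.2.1.symm e.2.2.1 e.2.2.2.1 e.2.2.2.2.1
    · obtain ⟨l, hl⟩ := sq _ h
      refine Pres.base _ [g0 ^ 2, (wd (g1) (g0) L * g1 ^ (Nat.card F - 1))⁻¹ * cj (g1) (g0) d,
        (g0 * cj (g1) (g0) 1)⁻¹ * (g1 ^ l * g0 * (g1 ^ l)⁻¹),
        g2 * g1 * (g2)⁻¹ * g1, g0 * g2 * g0 * (g2)⁻¹ * g0 * (g2)⁻¹]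
        (by simp [map_wd, map_cj, xu_pow, t1, t2, t3, t4, hd_pow h0, hd_conj, h0, ← hl, ← cj_hd h0, r2_sl.add])
        gen fun J _ ξ e => ?_
      simp only [List.forall_mem_cons, map_mul, map_inv, map_pow, map_wd, map_cj, FreeGroup.lift_apply_of, inv_mul_eq_one] at e
      obtain ⟨e1, e2, e3, e4, e5, -⟩ := e
      have c1 : Commute (ξ 0) (cj (ξ 1) (ξ 0) 1) := by
        have a : (ξ 0 * cj (ξ 1) (ξ 0) 1) ^ 2 = 1 := by rw [e3, conj_pow, e1]; simp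
        have b : cj (ξ 1) (ξ 0) 1 ^ 2 = 1 := by rw [cj, conj_pow, e1]; simp
        rw [pow_two] at a b e1
        rw [Commute, SemiconjBy, eq_inv_of_mul_eq_one_left a, _root_.mul_inv_rev, inv_eq_of_mul_eq_one_left b,
          inv_eq_of_mul_eq_one_left e1]
      have c2 := baum_mod ((Commute.refl _).pow_left l) e3.symm c1 e2.symm ((Commute.refl _).pow_pow _ _)
        ((Commute.refl _).pow_right _)
      exact key ξ (fun i _ => baumslag ((Commute.refl _).pow_left l) e3.symm c1 i) e1 (by rw [← e2, c2, mul_one]) c2 e4 e5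
  refine ⟨?_, even⟩
  by_cases h2 : (2 : F) = 0
  · exact (even (CharTwo.of_one_ne_zero_of_two_eq_zero one_ne_zero h2)).mono (by omega)
  obtain ⟨p, hp⟩ := CharP.exists F
  have pp := Fact.mk (CharP.char_is_prime F p)
  obtain ⟨m, hm⟩ := CA.SL2Basic.odd_card_of_two_ne_zero h2
  have m1 : ζ ^ m = -1 := (sq_eq_one_iff.1 (by rw [← pow_mul, ho]; exact ⟨1, by omega⟩)).resolve_left fun e => by
    have := Finite.one_lt_card (α := F)
    have := Nat.le_of_dvd (by omega) ((ho m).1 e); omega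
  have t5 : tw F * tw F = hd ζ ^ m := by rw [hd_pow h0, m1, r2_sl.t2]
  have t6 := r2_sl.hR ζ h0
  have key : ∀ {J : Type} [Group J] {η τ : J}, τ * η * τ⁻¹ * η = 1 → τ * τ = η ^ m → η ^ (Nat.card F - 1) = 1 :=
    fun {J} _ {η τ} e1 e2 => by
      have : τ * η ^ m * τ⁻¹ = (η ^ m)⁻¹ := by rw [← conj_pow, eq_inv_of_mul_eq_one_left e1, inv_pow]
      rw [← e2, ← mul_assoc, mul_inv_cancel_right] at this
      rw [hm, Nat.add_sub_cancel, two_mul, pow_add, ← e2, ← eq_inv_iff_mul_eq_one, ← this]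
  obtain ⟨d, hd', b, M⟩ := modl p (pow_ne_zero 2 h0) (closure_pow ho two_ne_zero (by simp) h0)
  by_cases hq : d ≤ 2
  · obtain ⟨L, l1, l2⟩ := b ((ζ ^ 2) ^ d)
    obtain ⟨A, -, a1⟩ := b ζ
    obtain ⟨B, -, a2⟩ := b ζ⁻¹
    have w := wd_eq r2_sl.add (cj_hd h0)
    refine (Pres.base _ [g0 ^ p, ⁅g0, cj (g1) (g0) 1⁆, (wd (g1) (g0) L)⁻¹ * cj (g1) (g0) d,
      g2 * g1 * (g2)⁻¹ * g1, (g1 ^ m)⁻¹ * (g2 * g2), g0 * g2 * g0 * (g2)⁻¹ * g0 * (g2)⁻¹,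
      (g1 * g2)⁻¹ * (wd (g1) (g0) A * g2 * wd (g1) (g0) B * (g2)⁻¹ * wd (g1) (g0) A)]
      (by simp [map_wd, map_cj, xu_pow, t1, t2, t5, t6, w, ← l2, ← a1, ← a2, ← cj_hd h0,
        commutatorElement_eq_one_iff_mul_comm, ← r2_sl.add, add_comm]) gen fun J _ ξ e => ?_).mono (by simp)
    simp only [List.forall_mem_cons, map_mul, map_inv, map_pow, map_wd, map_cj, FreeGroup.lift_apply_of, inv_mul_eq_one,
      map_commutatorElement, commutatorElement_eq_one_iff_commute] at e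
    obtain ⟨e1, e2, e3, e4, e5, e6, e7, -⟩ := e
    obtain ⟨Ψ, p1, p2, p3⟩ := M L l1 l2 _ _ _ (fun i hi => by
      obtain rfl | rfl : i = 0 ∨ i = 1 := by omega
      exacts [by simp [cj], e2]) e1 e3.symm
    have p4 : Ψ 1 = ξ 0 := by simpa [cj] using p2 0
    exact fin p4 (sl2_core h0 hζ ho p1 p3 (eq_inv_of_mul_eq_one_left e4) (key e4 e5.symm) m1 e5.symm
      (by rwa [p4, ← mul_inv_eq_one]) (Or.inr (by rw [e7, wd_eq p1 p2, wd_eq p1 p2, ← a1, ← a2])))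
  have q9 : 9 < Nat.card F := by
    have : p ≠ 2 := fun e => h2 (by subst e; exact CharP.cast_eq_zero F 2)
    have := pp.out.two_le
    have := Nat.pow_le_pow_left (show 3 ≤ p by omega) 3
    have := Nat.pow_le_pow_right (show 0 < p by omega) (show 3 ≤ d by omega)
    omega
  obtain ⟨k, l, hl, hk⟩ := exists_baum h0 hζ ho h2 q9
  have k0 := pow_ne_zero k h0
  clear hq hd' b M d
  obtain ⟨d, -, b, M⟩ := modl p (pow_ne_zero 2 k0) hk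
  obtain ⟨L, l1, l2⟩ := b (((ζ ^ k) ^ 2) ^ d)
  obtain ⟨A, -, a1⟩ := b ζ
  obtain ⟨B, -, a2⟩ := b ζ⁻¹
  obtain ⟨C, -, a3⟩ := b (ζ ^ 2)
  have w := wd_eq r2_sl.add (cj_hd k0)
  refine Pres.base _ [g0 ^ p, ⁅g0, cj (g1 ^ k) (g0) 1⁆,
    (wd (g1 ^ k) (g0) L * (g1 ^ m * (g2 * g2)⁻¹))⁻¹ * cj (g1 ^ k) (g0) d,
    g2 * g1 * (g2)⁻¹ * g1, (g0 * cj (g1 ^ k) (g0) 1)⁻¹ * (g1 ^ l * g0 * (g1 ^ l)⁻¹),
    g0 * g2 * g0 * (g2)⁻¹ * g0 * (g2)⁻¹,
    (g1 * g2)⁻¹ * (wd (g1 ^ k) (g0) A * g2 * wd (g1 ^ k) (g0) B * (g2)⁻¹ * wd (g1 ^ k) (g0) A),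
    (wd (g1 ^ k) (g0) C)⁻¹ * (g1 * g0 * (g1)⁻¹)]
    (by simp [map_wd, map_cj, xu_pow, t1, t2, t5, t6, w, ← l2, ← a1, ← a2, ← a3, ← cj_hd k0, hd_pow h0, hd_conj, h0, hl,
      commutatorElement_eq_one_iff_mul_comm, ← r2_sl.add, add_comm, ← neg_of_add (r2_sl (F := F)).add,
      zero_of_add (r2_sl (F := F)).add]; rw [← zero_of_add (r2_sl (F := F)).add]; congr 1; ring) gen fun J _ ξ e => ?_
  simp only [List.forall_mem_cons, map_mul, map_inv, map_pow, map_wd, map_cj, FreeGroup.lift_apply_of, inv_mul_eq_one,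
    map_commutatorElement, commutatorElement_eq_one_iff_commute] at e
  obtain ⟨e1, e2, e3, e4, e5, e6, e7, e8, -⟩ := e
  have c0 : Commute (ξ 1) (ξ 2 * ξ 2) := by
    have := eq_inv_of_mul_eq_one_left e4
    have e : ξ 2 * (ξ 1)⁻¹ * (ξ 2)⁻¹ = ξ 1 := by rw [← conj_inv, this, inv_inv]
    rw [← this] at e
    rw [Commute, SemiconjBy]
    conv_lhs => rw [← e]
    group
  have c1 : ∀ n, Commute (ξ 1 ^ n) (ξ 1 ^ m * (ξ 2 * ξ 2)⁻¹) := fun n =>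
    ((Commute.refl _).pow_pow _ _).mul_right (c0.pow_left n).inv_right
  have c2 := baum_mod ((Commute.refl _).pow_pow l k) e5.symm e2 e3.symm (c1 l) (c1 k)
  obtain ⟨Ψ, p1, p2, p3⟩ := M L l1 l2 _ _ _ (fun i _ => baumslag ((Commute.refl _).pow_pow l k) e5.symm e2 i) e1
    (by rw [← e3, c2, mul_one])
  have p4 : Ψ 1 = ξ 0 := by simpa [cj] using p2 0
  rw [mul_inv_eq_one] at c2
  refine fin p4 (sl2_core h0 hζ ho p1 (fun a => ?_) (eq_inv_of_mul_eq_one_left e4) (key e4 c2.symm) m1 c2.symm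
    (by rwa [p4, ← mul_inv_eq_one]) (Or.inr (by rw [e7, wd_eq p1 p2, wd_eq p1 p2, ← a1, ← a2])))
  obtain ⟨D, -, rfl⟩ := b a
  rw [← List.sum_map_mul_left, sum_of_add p1, sum_of_add p1, ← MulAut.conj_apply, map_list_prod, List.map_map]
  refine congrArg _ (List.map_congr_left fun i _ => ?_)
  have := cj_eq (pow_ne_zero 2 k0) p3 (ζ ^ 2) i
  rw [a3, ← wd_eq p1 p2, e8, ← a3, zpow_natCast, mul_comm] at this
  rw [this, Function.comp, ← zpow_natCast, p2]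
  simp only [cj, MulAut.conj_apply]; group

theorem pres_psl2 [Finite F] : Pres 3 9 PSL(2, F) ∧ (CharP F 2 → Pres 3 5 PSL(2, F)) := by
  have : IsCyclic (center SL(2, F)) := isCyclic_of_card_dvd_prime (p := 2) (by rw [CA.SL2Basic.card_center]; exact Nat.gcd_dvd_left _ _)
  refine ⟨pres_sl2.1.quot_cyc _, fun h => (pres_sl2.2 h).quot (QuotientGroup.mk' _) (QuotientGroup.mk'_surjective _) []
    (by simp) fun g hg => ?_⟩
  rw [QuotientGroup.ker_mk', CA.SL2Basic.mem_center_iff] at hg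
  rw [show g = 1 from hg.elim id fun e => e.trans (Subtype.ext (by ext; simp [CharTwo.neg_eq]))]
  exact one_mem _

end CA.Prs
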