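/-
A bounded presentation of `SL₃(q)`.
-/
import Cfsg.Agent.Lib.Lin.PrsSL2
import Cfsg.Agent.S2401

set_option autoImplicit false

namespace CA.H13Pr

open Matrix Subgroup CA.Prs Monoid
open scoped MatrixGroups commutatorElement

variable {F J : Type*} [Field F] [Group J]

/-- the universal property of `SL_n` over a finite field (`n ≥ 3`) -/
theorem sl_lift [Finite F] {l : ℕ} (hl : 2 ≤ l) (y : Fin (l + 1) → Fin (l + 1) → F → J)
    (h1 : ∀ a d, a ≠ d → ∀ t u, y a d (t + u) = y a d t * y a d u)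
    (h2 : ∀ a d a' d', a ≠ d → a' ≠ d' → a ≠ d' → d ≠ a' → ∀ t u, Commute (y a d t) (y a' d' u))
    (h3 : ∀ a d d', a ≠ d → d ≠ d' → a ≠ d' → ∀ t u, y a d t * y d d' u = y a d' (t * u) * (y d d' u * y a d t)) :
    ∃ σ : SL(l + 1, F) →* J, ∀ a d (h : a ≠ d) t, σ (SpecialLinearGroup.transvection h t) = y a d t := by
  obtain ⟨e, he⟩ := CA.Chev.exists_slA (hl := hl) (K := F)
  obtain ⟨φ, hφ⟩ := Cfsg.Agent.S2401.lift hl (fun a d _ => y a d) h1
    (fun a d h a' d' h' t u e1 e2 => h2 a d a' d' h h' e1 e2 t u) fun a d h d' h' h'' => h3 a d d' h h' h''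
  exact ⟨φ.comp e.symm.toMonoidHom, fun a d h t => by rw [← he]; simpa using hφ a d h t⟩

theorem same {X : F → J} (h : ∀ a b, X (a + b) = X a * X b) (a b : F) : Commute (X a) (X b) := by
  change _ = _
  rw [← h, ← h, add_comm]

/-- elementary matrices of `SL₃` -/
abbrev T3 (i j : Fin 3) (a : F) (h : i ≠ j := by decide) : SL(3, F) := SpecialLinearGroup.transvection h a

theorem six [Finite F] {x12 x23 x31 x21 x32 x13 : F → J}
    (a1 : ∀ a b, x12 (a + b) = x12 a * x12 b) (a2 : ∀ a b, x23 (a + b) = x23 a * x23 b)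
    (a3 : ∀ a b, x31 (a + b) = x31 a * x31 b) (a4 : ∀ a b, x21 (a + b) = x21 a * x21 b)
    (a5 : ∀ a b, x32 (a + b) = x32 a * x32 b) (a6 : ∀ a b, x13 (a + b) = x13 a * x13 b)
    (c1 : ∀ a b, Commute (x12 a) (x13 b)) (c2 : ∀ a b, Commute (x23 a) (x21 b)) (c3 : ∀ a b, Commute (x31 a) (x32 b))
    (c4 : ∀ a b, Commute (x23 a) (x13 b)) (c5 : ∀ a b, Commute (x31 a) (x21 b)) (c6 : ∀ a b, Commute (x12 a) (x32 b))
    (r1 : ∀ a b, x12 a * x23 b = x13 (a * b) * (x23 b * x12 a))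
    (r2 : ∀ a b, x23 a * x31 b = x21 (a * b) * (x31 b * x23 a))
    (r3 : ∀ a b, x31 a * x12 b = x32 (a * b) * (x12 b * x31 a))
    (r4 : ∀ a b, x21 a * x13 b = x23 (a * b) * (x13 b * x21 a))
    (r5 : ∀ a b, x32 a * x21 b = x31 (a * b) * (x21 b * x32 a))
    (r6 : ∀ a b, x13 a * x32 b = x12 (a * b) * (x32 b * x13 a)) :
    ∃ σ : SL(3, F) →* J, (∀ a, σ (T3 0 1 a) = x12 a) ∧ (∀ a, σ (T3 1 0 a) = x21 a) ∧ (∀ a, σ (T3 1 2 a) = x23 a) ∧
      ∀ a, σ (T3 2 1 a) = x32 a := by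
  obtain ⟨σ, h⟩ := sl_lift (l := 2) le_rfl ![![x12, x12, x13], ![x21, x12, x23], ![x31, x32, x12]]
    (fun a d h => by
      fin_cases a <;> fin_cases d <;>
        first | exact absurd rfl h | exact a1 | exact a2 | exact a3 | exact a4 | exact a5 | exact a6)
    (fun a d a' d' h h' e1 e2 t u => by
      fin_cases a <;> fin_cases d <;> first | exact absurd rfl h | fin_cases a' <;> fin_cases d' <;>
        first | exact absurd rfl h' | exact absurd rfl e1 | exact absurd rfl e2 | exact same a1 t u | exact same a2 t u |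
          exact same a3 t u | exact same a4 t u | exact same a5 t u | exact same a6 t u | exact c1 t u | exact c2 t u |
          exact c3 t u | exact c4 t u | exact c5 t u | exact c6 t u | exact (c1 u t).symm | exact (c2 u t).symm |
          exact (c3 u t).symm | exact (c4 u t).symm | exact (c5 u t).symm | exact (c6 u t).symm)
    (fun a d d' h h' h'' => by
      fin_cases a <;> fin_cases d <;> first | exact absurd rfl h | fin_cases d' <;>
        first | exact absurd rfl h' | exact absurd rfl h'' | exact r1 | exact r2 | exact r3 | exact r4 | exact r5 |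
          exact r6)
  exact ⟨σ, h 0 1 _, h 1 0 _, h 1 2 _, h 2 1 _⟩

/-- lower unitriangular -/
def xl (a : F) : SL(2, F) := ⟨!![1, 0; a, 1], by simp [det_fin_two_of]⟩
theorem xl_val (a : F) : (xl a).1 = !![1, 0; a, 1] := rfl

/-- conjugation by `diag(1, z)` -/
def cd {z : F} (h : z ≠ 0) : SL(2, F) →* SL(2, F) where
  toFun s := ⟨!![s.1 0 0, z⁻¹ * s.1 0 1; z * s.1 1 0, s.1 1 1], by
    have := CA.SL2Basic.det_eq s
    rw [det_fin_two_of]; field_simp; linear_combination this⟩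
  map_one' := Subtype.ext (by simp [one_fin_two])
  map_mul' s t := Subtype.ext (by
    change _ = !![s.1 0 0, z⁻¹ * s.1 0 1; z * s.1 1 0, s.1 1 1] * !![t.1 0 0, z⁻¹ * t.1 0 1; z * t.1 1 0, t.1 1 1]
    rw [mul_fin_two]
    change !![(s.1 * t.1) 0 0, z⁻¹ * (s.1 * t.1) 0 1; z * (s.1 * t.1) 1 0, (s.1 * t.1) 1 1] = _
    simp only [mul_apply, Fin.sum_univ_two]
    congr 1 <;> ext i j <;> fin_cases i <;> fin_cases j <;> simp <;> field_simp)

theorem cd_val {z : F} (h : z ≠ 0) (s : SL(2, F)) :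
    (cd h s).1 = !![s.1 0 0, z⁻¹ * s.1 0 1; z * s.1 1 0, s.1 1 1] := rfl
theorem cd_xu {z : F} (h : z ≠ 0) (a : F) : cd h (xu a) = xu (z⁻¹ * a) := Subtype.ext (by simp [cd_val, xu_val])
theorem cd_xl {z : F} (h : z ≠ 0) (a : F) : cd h (xl a) = xl (z * a) := Subtype.ext (by simp [cd_val, xl_val])

theorem xl_add (a b : F) : xl (a + b) = xl a * xl b :=
  Subtype.ext (by simp [xl_val, add_comm])
theorem tw_xu (a : F) : tw F * xu a = xl (-a) * tw F := Subtype.ext (by simp [xl_val, xu_val, tw_val])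
theorem tw_xl (a : F) : tw F * xl a = xu (-a) * tw F := Subtype.ext (by simp [xl_val, xu_val, tw_val])
theorem tw_eq : tw F = xu 1 * xl (-1) * xu 1 := Subtype.ext (by simp [xl_val, xu_val, tw_val])

theorem gen2 {M : Subgroup SL(2, F)} (h1 : ∀ a, xu a ∈ M) (h3 : tw F ∈ M) : M = ⊤ := top_unique fun g _ => by
  have a : ∀ a : F, a ≠ 0 → hd a ∈ M := fun a ha => (M.mul_mem_cancel_right h3).1 (by
    rw [← r2_sl.hR a ha]
    exact mul_mem (mul_mem (mul_mem (mul_mem (h1 _) h3) (h1 _)) (inv_mem h3)) (h1 _))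
  rcases bruhat g with ⟨-, h, e⟩ | ⟨h, e⟩ <;> rw [e]
  · exact mul_mem (h1 _) (a _ h)
  · exact mul_mem (mul_mem (mul_mem (h1 _) (a _ (by simpa))) h3) (h1 _)

theorem ext2 {f g : SL(2, F) →* J} (h1 : ∀ a, f (xu a) = g (xu a)) (h2 : ∀ a, f (xl a) = g (xl a)) : f = g :=
  MonoidHom.eq_of_eqOn_top fun s hs => (gen2 (M := f.eqLocus g) h1
    (tw_eq (F := F) ▸ mul_mem (mul_mem (h1 1) (h2 _)) (h1 1))).ge hs

/-- the block embedding -/
def emb : SL(2, F) →* SL(3, F) where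
  toFun s := ⟨!![s.1 0 0, s.1 0 1, 0; s.1 1 0, s.1 1 1, 0; 0, 0, 1], by
    have := CA.SL2Basic.det_eq s
    simp [det_fin_three]; linear_combination this⟩
  map_one' := Subtype.ext (by simp [one_fin_three])
  map_mul' s t := Subtype.ext (by
    change _ = !![s.1 0 0, s.1 0 1, 0; s.1 1 0, s.1 1 1, 0; 0, 0, 1] * !![t.1 0 0, t.1 0 1, 0; t.1 1 0, t.1 1 1, 0; 0, 0, 1]
    rw [mul_fin_three]
    change !![(s.1 * t.1) 0 0, (s.1 * t.1) 0 1, 0; (s.1 * t.1) 1 0, (s.1 * t.1) 1 1, 0; 0, 0, 1] = _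
    simp [mul_apply, Fin.sum_univ_two])

theorem emb_val (s : SL(2, F)) : (emb s).1 = !![s.1 0 0, s.1 0 1, 0; s.1 1 0, s.1 1 1, 0; 0, 0, 1] := rfl

variable (F) in
/-- the permutation matrix of a 3-cycle -/
def g3 : SL(3, F) := ⟨!![0, 0, 1; 1, 0, 0; 0, 1, 0], by simp [det_fin_three]⟩
theorem g3_val : (g3 F).1 = !![0, 0, 1; 1, 0, 0; 0, 1, 0] := rfl

theorem T3_val (i j : Fin 3) (a : F) (h : i ≠ j) : (T3 i j a h).1 = 1 + single i j a := rfl

theorem emb_xu (a : F) : emb (xu a) = T3 0 1 a := Subtype.ext (by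
  ext i j; fin_cases i <;> fin_cases j <;> simp [emb_val, xu_val, T3_val])
theorem emb_xl (a : F) : emb (xl a) = T3 1 0 a := Subtype.ext (by
  ext i j; fin_cases i <;> fin_cases j <;> simp [emb_val, xl_val, T3_val])

theorem g3_T (i j : Fin 3) (a : F) (h : i ≠ j) (h' : i + 1 ≠ j + 1) :
    g3 F * T3 i j a h * (g3 F)⁻¹ = T3 (i + 1) (j + 1) a h' := by
  rw [mul_inv_eq_iff_eq_mul]
  refine Subtype.ext ?_
  change (g3 F).1 * (T3 i j a h).1 = (T3 (i + 1) (j + 1) a h').1 * (g3 F).1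
  rw [T3_val, T3_val, mul_add, add_mul, mul_one, one_mul, g3_val]
  congr 1
  ext k m
  fin_cases i <;> fin_cases j <;> first | exact absurd rfl h | fin_cases k <;> fin_cases m <;>
    simp [mul_apply, Fin.sum_univ_three, single_apply]

theorem g3_tw : g3 F * (emb (tw F))⁻¹ * g3 F = emb (tw F) := by
  rw [← map_inv]
  exact Subtype.ext (by simp [emb_val, tw_val, g3_val, adjugate_fin_two])

theorem g3_cube : g3 F * g3 F * g3 F = 1 := Subtype.ext (by simp [g3_val, one_fin_three])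

theorem cyc {g x : J} (h1 : g * x⁻¹ * g = x) (h2 : g * g * g = 1) : g = x⁻¹ * (g * x * g⁻¹)⁻¹ := by
  have h3 : g⁻¹ = g * g := inv_eq_of_mul_eq_one_left h2
  have : g * x⁻¹ = x * (g * g) := by rw [← h3, eq_mul_inv_iff_mul_eq, h1]
  rw [_root_.mul_inv_rev, _root_.mul_inv_rev, inv_inv, ← mul_assoc g, this, h3, mul_assoc x, inv_mul_cancel_left,
    ← mul_assoc, h2, one_mul]

theorem core [Finite F] {ζ : F} (h0 : ζ ≠ 0) (hζ : ∀ a : F, a ≠ 0 → ∃ i : ℕ, ζ ^ i = a) (ψ : SL(2, F) →* J) (γ : J)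
    (S : List F) (hS : ∀ A : AddSubmonoid F, (∀ s ∈ S, ∀ c, c ≠ 0 → s * c ^ 3 ∈ A) → ∀ a, a ∈ A)
    (r1 : ∀ s, γ * ψ (hd ζ) * γ⁻¹ * ψ s * (γ * ψ (hd ζ) * γ⁻¹)⁻¹ = ψ (cd h0 s))
    (r3 : γ * (ψ (tw F))⁻¹ * γ = ψ (tw F)) (r4 : γ * γ * γ = 1)
    (r5 : ∀ s ∈ S, Commute (ψ (xu s)) (γ * (γ * ψ (xl 1) * γ⁻¹) * γ⁻¹))
    (r6 : ∀ s ∈ S, ψ (xu s) * (γ * ψ (xu 1) * γ⁻¹) =
      γ * (γ * ψ (xl s) * γ⁻¹) * γ⁻¹ * (γ * ψ (xu 1) * γ⁻¹ * ψ (xu s))) :
    ∃ σ : SL(3, F) →* J, σ.comp emb = ψ ∧ σ (g3 F) = γ := by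
  obtain ⟨c, hc⟩ : ∃ c : J ≃* J, ∀ x, c x = γ * x * γ⁻¹ := ⟨MulAut.conj γ, fun _ => rfl⟩
  obtain ⟨w, hw⟩ : ∃ w : J ≃* J, ∀ x, w x = ψ (tw F) * x * (ψ (tw F))⁻¹ := ⟨MulAut.conj _, fun _ => rfl⟩
  obtain ⟨t, ht⟩ : ∃ t : F → J ≃* J, ∀ k x, t k x = ψ (hd k) * x * (ψ (hd k))⁻¹ :=
    ⟨fun k => MulAut.conj (ψ (hd k)), fun _ _ => rfl⟩
  obtain ⟨t', ht'⟩ : ∃ t : F → J ≃* J, ∀ k x, t k x = c (ψ (hd k)) * x * (c (ψ (hd k)))⁻¹ :=
    ⟨fun k => MulAut.conj (c (ψ (hd k))), fun _ _ => rfl⟩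
  obtain ⟨u, hu⟩ : ∃ u : F → J, ∀ a, u a = ψ (xu a) := ⟨_, fun _ => rfl⟩
  obtain ⟨v, hv⟩ : ∃ v : F → J, ∀ a, v a = ψ (xl a) := ⟨_, fun _ => rfl⟩
  simp only [← hc, ← hu, ← hv] at r5 r6
  simp only [← hc, ← ht'] at r1
  have gi : γ⁻¹ = γ * γ := inv_eq_of_mul_eq_one_left r4
  have c3 : ∀ x, c (c (c x)) = x := fun x => by
    have : c (c (c x)) = (γ * γ * γ) * x * (γ * γ * γ)⁻¹ := by simp only [hc]; group
    rw [this, r4]; simp
  have ua : ∀ a b, u (a + b) = u a * u b := fun a b => by rw [hu, hu, hu, r2_sl.add, map_mul]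
  have va : ∀ a b, v (a + b) = v a * v b := fun a b => by rw [hv, hv, hv, xl_add, map_mul]
  have u0 : u 0 = 1 := zero_of_add ua
  have v0 : v 0 = 1 := zero_of_add va
  have tc : ∀ k x, t' k (c x) = c (t k x) := fun k x => by rw [ht', ht, map_mul, map_mul, map_inv]
  have tm : ∀ a b, a ≠ 0 → b ≠ 0 → ∀ x, t' (a * b) x = t' a (t' b x) := fun a b ha hb x => by
    simp only [ht', r2_sl.hm a b ha hb, map_mul]; group
  have t1 : ∀ x, t' 1 x = x := fun x => by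
    rw [ht', show hd (1 : F) = 1 from Subtype.ext (by simp [hd_val, one_fin_two])]; simp
  have p12 : ∀ k, k ≠ 0 → ∀ a, t' k (u a) = u (k⁻¹ * a) := fun k hk => by
    obtain ⟨i, rfl⟩ := hζ k hk
    induction i with
    | zero => simp [t1]
    | succ i ih =>
      intro a
      rw [pow_succ, tm _ _ (pow_ne_zero _ h0) h0, hu, r1, cd_xu, ← hu, ih (pow_ne_zero _ h0), mul_inv, mul_assoc]
  have p21 : ∀ k, k ≠ 0 → ∀ a, t' k (v a) = v (k * a) := fun k hk => by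
    obtain ⟨i, rfl⟩ := hζ k hk
    induction i with
    | zero => simp [t1]
    | succ i ih =>
      intro a
      rw [pow_succ, tm _ _ (pow_ne_zero _ h0) h0, hv, r1, cd_xl, ← hv, ih (pow_ne_zero _ h0), mul_assoc]
  have t12 : ∀ k, k ≠ 0 → ∀ a, t k (u a) = u (k ^ 2 * a) := fun k hk a => by
    rw [ht, hu, hu, ← hd_conj hk, map_mul, map_mul, map_inv]
  have t13 : ∀ k, k ≠ 0 → ∀ a, t k (c (c (v a))) = c (c (v (k * a))) := fun k hk a =>
    c.injective (by rw [← tc, c3, c3, p21 k hk])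
  have t31 : ∀ k, k ≠ 0 → ∀ a, t k (c (c (u a))) = c (c (u (k⁻¹ * a))) := fun k hk a =>
    c.injective (by rw [← tc, c3, c3, p12 k hk])
  have m1 : (-1 : F) ≠ 0 := by simp
  have t2 : ψ (hd (-1)) = ψ (tw F) * ψ (tw F) := by rw [← map_mul, r2_sl.t2]
  have ww : ∀ x, w (w x) = t (-1) x := fun x => by simp only [hw, ht, t2]; group
  have wc : ∀ x, w (c x) = t (-1) (c (c (w x))) := fun x => by
    have e : γ = ψ (tw F) * (γ * γ) * ψ (tw F) := by
      rw [← gi]; nth_rewrite 1 [← r3]; group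
    have : t (-1) (c (c (w x))) = ψ (tw F) * (ψ (tw F) * (γ * γ) * ψ (tw F)) * x *
        (ψ (tw F) * (γ * γ) * ψ (tw F))⁻¹ * (ψ (tw F))⁻¹ := by simp only [hw, ht, hc, t2]; group
    rw [this, ← e, hw, hc]; group
  have wt : ∀ k, k ≠ 0 → ∀ x, w (t k x) = t k⁻¹ (w x) := fun k hk x => by
    have e : ψ (hd k⁻¹) = ψ (tw F) * ψ (hd k) * (ψ (tw F))⁻¹ := by
      rw [← map_mul, r2_sl.ht k hk, map_mul, mul_inv_cancel_right]
    simp only [hw, ht, e]; group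
  have w12 : ∀ a, w (u a) = v (-a) := fun a => by rw [hw, hu, hv, ← map_mul, tw_xu, map_mul, mul_inv_cancel_right]
  have w21 : ∀ a, w (v a) = u (-a) := fun a => by rw [hw, hu, hv, ← map_mul, tw_xl, map_mul, mul_inv_cancel_right]
  have w23 : ∀ a, w (c (u a)) = c (c (v a)) := fun a => by rw [wc, w12, t13 _ m1]; simp
  have w32 : ∀ a, w (c (v a)) = c (c (u a)) := fun a => by rw [wc, w21, t31 _ m1]; simp
  have t23 : ∀ k, k ≠ 0 → ∀ a, t k (c (u a)) = c (u (k⁻¹ * a)) := fun k hk a =>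
    w.injective (by rw [wt k hk, w23, w23, t13 _ (inv_ne_zero hk)])
  have t32 : ∀ k, k ≠ 0 → ∀ a, t k (c (v a)) = c (v (k * a)) := fun k hk a =>
    w.injective (by rw [wt k hk, w32, w32, t31 _ (inv_ne_zero hk), inv_inv])
  have w13 : ∀ a, w (c (c (v a))) = c (u (-a)) := fun a => by rw [← w23, ww, t23 _ m1]; simp
  have c1 : ∀ a b, Commute (u a) (c (c (v b))) := fun a b => by
    by_cases hb : b = 0
    · simp [hb, v0]
    have := hS ⟨⟨{a | Commute (u (a * b⁻¹)) (c (c (v b)))}, fun {x y} hx hy => by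
      rw [Set.mem_setOf_eq, add_mul, ua]; exact Commute.mul_left hx hy⟩, by simp [u0]⟩ (fun s hs k hk => by
        have hd' : b * k⁻¹ ≠ 0 := mul_ne_zero hb (inv_ne_zero hk)
        have := ((r5 s hs).map (t' (b * k⁻¹))).map (t k)
        rw [p12 _ hd', t12 _ hk, tc, t32 _ hd', t13 _ hk] at this
        have e1 : k ^ 2 * ((b * k⁻¹)⁻¹ * s) = s * k ^ 3 * b⁻¹ := by field_simp
        have e2 : k * (b * k⁻¹ * 1) = b := by field_simp
        rw [e1, e2] at this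
        exact this) (a * b)
    simpa [hb] using this
  have R1 : ∀ a b, u a * c (u b) = c (c (v (a * b))) * (c (u b) * u a) := fun a b => by
    by_cases hb : b = 0
    · simp [hb, v0, u0]
    have := hS ⟨⟨{a | u (a * b⁻¹ ^ 2) * c (u b) = c (c (v (a * b⁻¹ ^ 2 * b))) * (c (u b) * u (a * b⁻¹ ^ 2))},
      fun {x y} hx hy => by
        rw [Set.mem_setOf_eq] at hx hy ⊢
        rw [add_mul, add_mul, ua, mul_assoc, hy, ← mul_assoc, (c1 _ _).eq, mul_assoc, ← mul_assoc (u _), hx,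
          add_comm (x * _ * b), va, map_mul, map_mul]
        simp only [mul_assoc]⟩, by simp [u0, v0]⟩ (fun s hs d hd' => by
        have hk : d ^ 2 * b⁻¹ ≠ 0 := mul_ne_zero (pow_ne_zero _ hd') (inv_ne_zero hb)
        have := congrArg (t (d ^ 2 * b⁻¹)) (congrArg (t' d) (r6 s hs))
        simp only [map_mul, p12 _ hd', t12 _ hk, tc, t32 _ hd', t13 _ hk, t12 _ hd', t23 _ hk] at this
        have e1 : (d ^ 2 * b⁻¹) ^ 2 * (d⁻¹ * s) = s * d ^ 3 * b⁻¹ ^ 2 := by field_simp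
        have e2 : (d ^ 2 * b⁻¹)⁻¹ * (d ^ 2 * 1) = b := by field_simp
        have e3 : d ^ 2 * b⁻¹ * (d * s) = s * d ^ 3 * b⁻¹ ^ 2 * b := by field_simp
        rw [e1, e2, e3] at this
        exact this) (a * b ^ 2)
    have e : a * b ^ 2 * b⁻¹ ^ 2 = a := by field_simp
    change u _ * _ = _ at this
    rwa [e] at this
  have c4 : ∀ a b, Commute (c (u a)) (c (c (v b))) := fun a b => by
    have := R1 1 (a + b)
    rw [one_mul, ua, va, map_mul, map_mul, map_mul, ← mul_assoc, R1, mul_assoc, mul_assoc, R1, one_mul, one_mul,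
      mul_assoc, mul_left_cancel_iff, ← mul_assoc, ← mul_assoc, ← mul_assoc, ← mul_assoc, mul_right_cancel_iff,
      mul_right_cancel_iff] at this
    exact this
  have R4 : ∀ a b, v a * c (c (v b)) = c (u (a * b)) * (c (c (v b)) * v a) := fun a b => by
    have := congrArg w (R1 (-a) b)
    simpa only [map_mul, w12, w23, w13, neg_neg, neg_mul] using this
  obtain ⟨σ, s1, s2, s3, s4⟩ := six (x12 := u) (x23 := fun a => c (u a)) (x31 := fun a => c (c (u a))) (x21 := v)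
    (x32 := fun a => c (v a)) (x13 := fun a => c (c (v a))) ua (by simp [ua]) (by simp [ua]) va (by simp [va])
    (by simp [va]) c1 (fun a b => by simpa only [c3] using (c1 a b).map c)
    (fun a b => by simpa only [c3] using ((c1 a b).map c).map c) c4 (fun a b => by simpa only [c3] using (c4 a b).map c)
    (fun a b => by simpa only [c3] using ((c4 a b).map c).map c) R1
    (fun a b => by simpa only [map_mul, c3] using congrArg c (R1 a b))
    (fun a b => by simpa only [map_mul, c3] using congrArg c (congrArg c (R1 a b))) R4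
    (fun a b => by simpa only [map_mul, c3] using congrArg c (R4 a b))
    (fun a b => by simpa only [map_mul, c3] using congrArg c (congrArg c (R4 a b)))
  have e1 : σ.comp emb = ψ := ext2 (fun a => by rw [MonoidHom.comp_apply, emb_xu, s1, hu])
    fun a => by rw [MonoidHom.comp_apply, emb_xl, s2, hv]
  refine ⟨σ, e1, ?_⟩
  have e2 : σ (g3 F * emb (tw F) * (g3 F)⁻¹) = c (ψ (tw F)) := by
    have : g3 F * emb (tw F) * (g3 F)⁻¹ = T3 1 2 1 * T3 2 1 (-1) * T3 1 2 1 := by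
      rw [← g3_T 0 1 _ (by decide), ← g3_T 1 0 _ (by decide), ← emb_xu, ← emb_xl, tw_eq, map_mul, map_mul]; group
    rw [this, map_mul, map_mul, s3, s4, tw_eq, hu, hv, map_mul, map_mul, map_mul, map_mul]
  rw [cyc g3_tw g3_cube, map_mul, map_inv, map_inv, e2, ← MonoidHom.comp_apply, e1, hc, ← cyc r3 r4]

theorem span {γ : F} (h : Subring.closure {γ} = ⊤) (A : AddSubgroup F) (hA : ∀ n : ℕ, γ ^ n ∈ A) (a : F) : a ∈ A :=
  (AddSubgroup.closure_le A).2 (fun x hx => by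
    obtain ⟨n, rfl⟩ := Submonoid.mem_closure_singleton.1 hx; exact hA n) (Subring.mem_closure_iff.1 (h.ge trivial))

/-- the root elements lying in `M` -/
def xuA (M : Subgroup SL(2, F)) (c : F) : AddSubgroup F where
  carrier := {a | xu (a * c) ∈ M}
  add_mem' {a b} ha hb := by rw [Set.mem_setOf_eq, add_mul, r2_sl.add]; exact mul_mem ha hb
  zero_mem' := by rw [Set.mem_setOf_eq, zero_mul, zero_of_add (r2_sl (F := F)).add]; exact one_mem _
  neg_mem' {a} ha := by rw [Set.mem_setOf_eq, neg_mul, neg_of_add (r2_sl (F := F)).add]; exact inv_mem ha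

variable (F) in
theorem pair [Finite F] : ∃ s1 s2 : SL(2, F), ∀ M : Subgroup SL(2, F), s1 ∈ M → s2 ∈ M → M = ⊤ := by
  obtain ⟨ζ, h0, hζ, ho⟩ := exists_gen F
  have c := closure_pow ho two_ne_zero (by simp) h0
  by_cases h : ζ ^ 2 = 1
  · refine ⟨xu 1, tw F, fun M h1 h2 => gen2 (fun a => ?_) h2⟩
    exact mul_one a ▸ span c (xuA M 1) (fun n => by change xu _ ∈ M; rwa [h, one_pow, one_mul]) a
  · refine ⟨hd ζ, xu 1 * tw F, fun M h1 h2 => ?_⟩
    have a : xu (ζ ^ 2 - 1) ∈ M := by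
      have e : hd ζ⁻¹ = (hd ζ)⁻¹ := by
        rw [eq_inv_iff_mul_eq_one, ← r2_sl.hm _ _ (inv_ne_zero h0) h0, inv_mul_cancel₀ h0, ← pow_zero ζ, ← hd_pow h0,
          pow_zero]
      have : xu (ζ ^ 2 - 1) = hd ζ * (xu 1 * tw F * hd ζ * (xu 1 * tw F)⁻¹) := by
        rw [sub_eq_add_neg, r2_sl.add, neg_of_add (r2_sl (F := F)).add, ← mul_one (ζ ^ 2), ← hd_conj h0,
          mul_assoc (xu 1), r2_sl.ht _ h0, e]
        group
      rw [this]
      exact mul_mem h1 (mul_mem (mul_mem h2 h1) (inv_mem h2))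
    have b : ∀ a, xu a ∈ M := fun b => by
      have := span c (xuA M (ζ ^ 2 - 1)) (fun n => by
        change xu _ ∈ M
        rw [← pow_mul, mul_comm 2, pow_mul, ← hd_conj (pow_ne_zero n h0), ← hd_pow h0]
        exact mul_mem (mul_mem (pow_mem h1 _) a) (inv_mem (pow_mem h1 _))) (b / (ζ ^ 2 - 1))
      change xu _ ∈ M at this
      rwa [div_mul_cancel₀ _ (sub_ne_zero.2 h)] at this
    exact gen2 b ((M.mul_mem_cancel_left (b 1)).1 h2)

/-- the extra relators -/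
noncomputable def rl {ζ : F} (h0 : ζ ≠ 0) (s1 s2 : SL(2, F)) (S : List F) (ψ : SL(2, F) →* J) (γ : J) : List J :=
  [s1, s2].map (fun s => γ * ψ (hd ζ) * γ⁻¹ * ψ s * (γ * ψ (hd ζ) * γ⁻¹)⁻¹ * (ψ (cd h0 s))⁻¹) ++
  [γ * (ψ (tw F))⁻¹ * γ * (ψ (tw F))⁻¹, γ * γ * γ] ++
  S.map (fun s => ⁅ψ (xu s), γ * (γ * ψ (xl 1) * γ⁻¹) * γ⁻¹⁆) ++
  S.map fun s => ψ (xu s) * (γ * ψ (xu 1) * γ⁻¹) *
    (γ * (γ * ψ (xl s) * γ⁻¹) * γ⁻¹ * (γ * ψ (xu 1) * γ⁻¹ * ψ (xu s)))⁻¹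

theorem rl_iff {ζ : F} (h0 : ζ ≠ 0) (s1 s2 : SL(2, F)) (S : List F) (ψ : SL(2, F) →* J) (ξ : Fin 1 → J) :
    (∀ w ∈ rl h0 s1 s2 S Coprod.inl (Coprod.inr (FreeGroup.of 0)), Coprod.lift ψ (FreeGroup.lift ξ) w = 1) ↔
    (((∀ s ∈ [s1, s2], ξ 0 * ψ (hd ζ) * (ξ 0)⁻¹ * ψ s * (ξ 0 * ψ (hd ζ) * (ξ 0)⁻¹)⁻¹ = ψ (cd h0 s)) ∧
      ξ 0 * (ψ (tw F))⁻¹ * ξ 0 = ψ (tw F) ∧ ξ 0 * ξ 0 * ξ 0 = 1) ∧
      ∀ s ∈ S, Commute (ψ (xu s)) (ξ 0 * (ξ 0 * ψ (xl 1) * (ξ 0)⁻¹) * (ξ 0)⁻¹)) ∧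
      ∀ s ∈ S, ψ (xu s) * (ξ 0 * ψ (xu 1) * (ξ 0)⁻¹) =
        ξ 0 * (ξ 0 * ψ (xl s) * (ξ 0)⁻¹) * (ξ 0)⁻¹ * (ξ 0 * ψ (xu 1) * (ξ 0)⁻¹ * ψ (xu s)) := by
  simp only [rl, List.forall_mem_append, List.forall_mem_map, List.forall_mem_cons, map_mul, map_inv,
    Coprod.lift_apply_inl, Coprod.lift_apply_inr, FreeGroup.lift_apply_of, mul_inv_eq_one, map_commutatorElement,
    commutatorElement_eq_one_iff_commute, List.not_mem_nil, false_imp_iff, implies_true, and_true, List.map_cons, List.map_nil]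

theorem g3_hd {ζ : F} (h0 : ζ ≠ 0) (s : SL(2, F)) :
    g3 F * emb (hd ζ) * (g3 F)⁻¹ * emb s * (g3 F * emb (hd ζ) * (g3 F)⁻¹)⁻¹ = emb (cd h0 s) := by
  obtain ⟨D, e⟩ : ∃ D : SL(3, F), D.1 = !![1, 0, 0; 0, ζ, 0; 0, 0, ζ⁻¹] :=
    ⟨⟨_, by simp [det_fin_three, h0]⟩, rfl⟩
  have : g3 F * emb (hd ζ) * (g3 F)⁻¹ = D := by
    rw [mul_inv_eq_iff_eq_mul]
    refine Subtype.ext ?_
    change (g3 F).1 * (emb (hd ζ)).1 = D.1 * (g3 F).1
    simp [e, g3_val, emb_val, hd_val h0]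
  rw [this, mul_inv_eq_iff_eq_mul]
  refine Subtype.ext ?_
  change D.1 * (emb s).1 = (emb (cd h0 s)).1 * D.1
  rw [e, emb_val, emb_val, cd_val, mul_fin_three, mul_fin_three]
  simp [mul_comm, h0]

theorem of_list [Finite F] {r : ℕ} (h : Pres 3 r SL(2, F)) {ζ : F} (h0 : ζ ≠ 0) (hζ : ∀ a : F, a ≠ 0 → ∃ i : ℕ, ζ ^ i = a)
    (S : List F) (hS : ∀ A : AddSubmonoid F, (∀ s ∈ S, ∀ c, c ≠ 0 → s * c ^ 3 ∈ A) → ∀ a, a ∈ A) :
    Pres 4 (r + (4 + S.length + S.length)) SL(3, F) := by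
  obtain ⟨s1, s2, hs⟩ := pair F
  have e2 : ∀ a : F, g3 F * (g3 F * emb (xl a) * (g3 F)⁻¹) * (g3 F)⁻¹ = T3 0 2 a := fun a => by
    rw [emb_xl, g3_T _ _ _ _ (by decide), g3_T _ _ _ _ (by decide)]
  have e1 : ∀ a : F, g3 F * emb (xu a) * (g3 F)⁻¹ = T3 1 2 a := fun a => by
    rw [emb_xu, g3_T _ _ _ _ (by decide)]
  have := h.ext emb (fun _ : Fin 1 => g3 F) (rl h0 s1 s2 S Coprod.inl (Coprod.inr (FreeGroup.of 0)))
    ((rl_iff ..).2 ⟨⟨⟨fun s _ => g3_hd h0 s, g3_tw, g3_cube⟩, fun s _ => by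
      rw [e2, emb_xu]
      refine Subtype.ext ?_
      change (T3 0 1 s).1 * (T3 0 2 1).1 = (T3 0 2 1).1 * (T3 0 1 s).1
      ext i j; fin_cases i <;> fin_cases j <;> simp [T3_val, mul_apply, Fin.sum_univ_three, one_apply]⟩, fun s _ => by
      rw [e2, e1, emb_xu]
      refine Subtype.ext ?_
      change (T3 0 1 s).1 * (T3 1 2 1).1 = (T3 0 2 s).1 * ((T3 1 2 1).1 * (T3 0 1 s).1)
      ext i j; fin_cases i <;> fin_cases j <;> simp [T3_val, mul_apply, Fin.sum_univ_three, one_apply]⟩)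
    (CA.SLnGen.eq_top_of_transvection fun i j hij a => by
      set M := closure (Set.range (emb (F := F)) ∪ Set.range fun _ : Fin 1 => g3 F)
      have g : g3 F ∈ M := subset_closure (.inr ⟨0, rfl⟩)
      have st : ∀ i j h h', T3 i j a h ∈ M → T3 (i + 1) (j + 1) a h' ∈ M := fun i j h h' m =>
        g3_T i j a h h' ▸ mul_mem (mul_mem g m) (inv_mem g)
      have a1 : T3 0 1 a ∈ M := subset_closure (.inl ⟨_, emb_xu a⟩)
      have a2 : T3 1 0 a ∈ M := subset_closure (.inl ⟨_, emb_xl a⟩)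
      have a3 := st _ _ _ (by decide) a1
      have a4 := st _ _ _ (by decide) a2
      have a5 := st _ _ _ (by decide) a3
      have a6 := st _ _ _ (by decide) a4
      fin_cases i <;> fin_cases j <;>
        first | exact absurd rfl hij | exact a1 | exact a2 | exact a3 | exact a4 | exact a5 | exact a6)
    fun J _ ψ ξ e => by
      obtain ⟨⟨⟨r1, r3, r4⟩, r5⟩, r6⟩ := (rl_iff ..).1 e
      obtain ⟨σ, h1, h2⟩ := core h0 hζ ψ (ξ 0) S hS (fun s => (hs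
        (((MulAut.conj (ξ 0 * ψ (hd ζ) * (ξ 0)⁻¹)).toMonoidHom.comp ψ).eqLocus (ψ.comp (cd h0)))
          (r1 _ (by simp)) (r1 _ (by simp))).ge (mem_top s)) r3 r4 r5 r6
      exact ⟨σ, h1, fun i => by rw [h2, Subsingleton.elim i 0]⟩
  exact this.mono (by simp [rl]; omega)

/-- `SL₃(q)` has a presentation with 4 generators and 14 relations -/
theorem pres_sl3 [Finite F] : Pres 4 14 SL(3, F) := by
  obtain ⟨ζ, h0, hζ, ho⟩ := exists_gen F
  by_cases h : Nat.card F = 4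
  · have h2 : (2 : F) = 0 := by
      have := Fintype.ofFinite F
      have := FiniteField.cast_card_eq_zero F
      rw [← Nat.card_eq_fintype_card, h] at this
      exact pow_eq_zero_iff (n := 2) two_ne_zero |>.1 (by linear_combination this)
    refine (of_list (pres_sl2.2 (CharTwo.of_one_ne_zero_of_two_eq_zero one_ne_zero h2)) h0 hζ [1, ζ] fun A hA a => ?_).mono
      (by simp)
    have h3 : ζ ^ 3 = 1 := (ho 3).2 (by simp [h])
    have h1 : ζ - 1 ≠ 0 := fun e => by simpa [h] using (ho 1).1 (by linear_combination e)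
    have h4 : ζ ^ 2 = ζ + 1 := mul_left_cancel₀ h1 (by linear_combination h3 - (ζ ^ 2 - 1) * h2)
    have : ∀ i : ℕ, ζ ^ i ∈ A ∧ ζ ^ (i + 1) ∈ A := fun i => by
      induction i with
      | zero => exact ⟨by simpa using hA 1 (by simp) 1 one_ne_zero, by simpa using hA ζ (by simp) 1 one_ne_zero⟩
      | succ i ih =>
        refine ⟨ih.2, ?_⟩
        rw [add_assoc, pow_add, h4, mul_add, mul_one, ← pow_succ]
        exact add_mem ih.2 ih.1
    by_cases ha : a = 0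
    · exact ha ▸ zero_mem A
    · obtain ⟨i, rfl⟩ := hζ a ha; exact (this i).1
  · refine of_list pres_sl2.1 h0 hζ [1] fun A hA a => ?_
    refine (span (closure_pow ho three_ne_zero (.inr ⟨rfl, h⟩) h0) ⟨⟨⟨{a | a ∈ A ∧ -a ∈ A}, fun hx hy =>
      ⟨add_mem hx.1 hy.1, by rw [neg_add]; exact add_mem hx.2 hy.2⟩⟩, ⟨zero_mem _, by simp⟩⟩, fun hx =>
      ⟨hx.2, by simpa using hx.1⟩⟩ (fun n => ⟨?_, ?_⟩) a).1
    · convert hA 1 (by simp) (ζ ^ n) (pow_ne_zero _ h0) using 1; ring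
    · convert hA 1 (by simp) (-ζ ^ n) (neg_ne_zero.2 (pow_ne_zero _ h0)) using 1; ring

end CA.H13Pr
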