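/-
`SU₃(q)`: a group with the Borel relations and three "triangle" relations is `SU₃(q)`.
-/
import Cfsg.Agent.Lib.Lin.H13Pr3
import Cfsg.Agent.Lib.Lin.SU3

set_option autoImplicit false

namespace CA.H13Su

open Matrix Subgroup CA.Prs CA.CForm CA.SU3 CA.H13Pr Monoid
open scoped MatrixGroups commutatorElement

theorem ext_inj {N G : Type*} [Group N] [Group G] [Finite G] {d r k : ℕ} (hN : Pres d r N) (π : N →* G) (x : Fin k → G)
    (W : List (Coprod N (FreeGroup (Fin k)))) (hW : ∀ w ∈ W, Coprod.lift π (FreeGroup.lift x) w = 1)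
    (hgen : closure (Set.range π ∪ Set.range x) = ⊤)
    (H : ∀ (J : Type) [Group J] (ψ : N →* J) (ξ : Fin k → J) (ρ : J →* G),
      (∀ w ∈ W, Coprod.lift ψ (FreeGroup.lift ξ) w = 1) → (∀ n, ρ (ψ n) = π n) → (∀ i, ρ (ξ i) = x i) →
      ∀ g ∈ closure (Set.range ψ ∪ Set.range ξ), ρ g = 1 → g = 1) : Pres (d + k) (r + W.length) G := by
  refine hN.ext π x W hW hgen fun J _ ψ ξ e => ?_
  let s : Shrink.{0} G ≃* G := Shrink.mulEquiv
  let ψ' : N →* Shrink.{0} G × J := (s.symm.toMonoidHom.comp π).prod ψ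
  let ξ' : Fin k → Shrink.{0} G × J := fun i => (s.symm (x i), ξ i)
  let ρ : Shrink.{0} G × J →* G := s.toMonoidHom.comp (MonoidHom.fst _ J)
  let Γ := closure (Set.range ψ' ∪ Set.range ξ')
  have l : Coprod.lift ψ' (FreeGroup.lift ξ') =
      (s.symm.toMonoidHom.comp (Coprod.lift π (FreeGroup.lift x))).prod (Coprod.lift ψ (FreeGroup.lift ξ)) := by
    ext <;> simp [ψ', ξ']
  have r1 : ∀ n, ρ (ψ' n) = π n := fun n => by simp [ρ, ψ']
  have r2 : ∀ i, ρ (ξ' i) = x i := fun i => by simp [ρ, ξ']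
  have inj := H _ ψ' ξ' ρ (fun w hw => by rw [l]; simp [hW w hw, e w hw]) r1 r2
  have m1 : ∀ n, ψ' n ∈ Γ := fun n => subset_closure (.inl ⟨n, rfl⟩)
  have m2 : ∀ n, ξ' n ∈ Γ := fun n => subset_closure (.inr ⟨n, rfl⟩)
  have bij : Function.Bijective (ρ.comp Γ.subtype) :=
    ⟨(injective_iff_map_eq_one _).2 fun g hg => Subtype.ext (inj g.1 g.2 hg),
      MonoidHom.range_eq_top.1 (top_unique (hgen.ge.trans ((closure_le _).2 (by
        rintro _ (⟨n, rfl⟩ | ⟨i, rfl⟩)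
        exacts [⟨⟨_, m1 n⟩, r1 n⟩, ⟨⟨_, m2 i⟩, r2 i⟩]))))⟩
  let E := MulEquiv.ofBijective _ bij
  have key : ∀ (g : Γ) a, ρ g = a → E.symm a = g := fun g a h => E.symm_apply_eq.2 h.symm
  refine ⟨(MonoidHom.snd _ _).comp (Γ.subtype.comp E.symm.toMonoidHom), MonoidHom.ext fun n => ?_, fun i => ?_⟩
  · change (E.symm _).1.2 = _
    rw [key ⟨_, m1 n⟩ _ (r1 n)]; rfl
  · change (E.symm _).1.2 = _
    rw [key ⟨_, m2 i⟩ _ (r2 i)]

variable {F : Type*} [Field F] [Fintype F] {q : ℕ} {hF : Fintype.card F = q ^ 2}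

local notation "σ" => conj hF

variable (hF) in
/-- the fixed field -/
abbrev Kf := (conj hF).eqLocusField (RingHom.id F)

theorem fx (a : Kf hF) : σ a = a := a.2

variable (hF) in
theorem exists_su2 : ∃ δ : F, δ ≠ 0 ∧ σ δ = -δ ∧ ∃ φ : SL(2, Kf hF) →* SJ hF, ∀ g,
    en hF (φ g) = !![(g.1 0 0 : F), 0, δ * g.1 0 1; 0, 1, 0; δ⁻¹ * g.1 1 0, 0, g.1 1 1] := by
  obtain ⟨δ, h0, hδ⟩ : ∃ δ : F, δ ≠ 0 ∧ conj hF δ = -δ := by
    obtain ⟨t, ht⟩ : ∃ t, conj hF t ≠ t := by_contra fun e => conj_ne_id hF (RingHom.ext (by simpa using e))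
    exact ⟨conj hF t - t, sub_ne_zero.2 ht, by simp [CForm.conj_conj]⟩
  have key : ∀ a b c d : F, conj hF a = a → conj hF b = b → conj hF c = c → conj hF d = d → a * d - b * c = 1 →
      ∃ x : SJ hF, en hF x = !![a, 0, δ * b; 0, 1, 0; δ⁻¹ * c, 0, d] := fun a b c d ha hb hc hd dt =>
    ⟨mkS !![a, 0, δ * b; 0, 1, 0; δ⁻¹ * c, 0, d] (by simp [det_fin_three]; field_simp; linear_combination dt) (by
        ext i j
        fin_cases i <;> fin_cases j <;>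
          simp [SU3.J, Matrix.mul_apply, Fin.sum_univ_three, vecMul, dotProduct, ha, hb, hc, hd, hδ] <;> field_simp <;>
          first | ring1 | linear_combination dt), rfl⟩
  have key2 := fun g : SL(2, Kf hF) => key (g.1 0 0) (g.1 0 1) (g.1 1 0) (g.1 1 1) (fx _) (fx _) (fx _) (fx _) (by
    exact_mod_cast (det_fin_two _).symm.trans g.2)
  choose φ hφ using key2
  refine ⟨δ, h0, hδ, MonoidHom.mk' φ fun g h => en_inj ?_, hφ⟩
  rw [en_mul, hφ, hφ, hφ]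
  ext i j
  fin_cases i <;> fin_cases j <;> simp [Matrix.mul_apply, Fin.sum_univ_three] <;> field_simp

variable {δ : F} {t : SJ hF}

theorem bruhat3 (h0 : δ ≠ 0) (ht : en hF t = !![0, 0, δ; 0, 1, 0; -δ⁻¹, 0, 0]) (g : SJ hF) :
    (en hF g 2 0 = 0 ∧ ∃ x l, g = ι hF x * d hF l) ∨ ∃ y x l, g = ι hF y * t * (ι hF x * d hF l) := by
  have e := eqs g 0 0
  by_cases h : en hF g 2 0 = 0
  · exact .inl ⟨h, exists_ι_d (by simpa [SU3.J, h] using e) h⟩
  have h' : σ (en hF g 2 0) ≠ 0 := (map_ne_zero _).2 h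
  let y : Hs hF := ⟨σ (en hF g 1 0 / en hF g 2 0),
    -(en hF g 0 0 + σ (en hF g 1 0 / en hF g 2 0) * en hF g 1 0) / en hF g 2 0, by
      simp only [map_div₀, map_neg, map_add, map_mul, CForm.conj_conj]
      simp only [SU3.J, of_apply, cons_val', cons_val_zero, cons_val_fin_one] at e
      field_simp
      linear_combination -e⟩
  have t1 : t * t = d hF (-1) := en_inj (by rw [en_mul, ht, en_d]; simp [h0])
  obtain ⟨x, l, e'⟩ := exists_ι_d (g := t * (ι hF y * g))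
    (by rw [en_mul, en_mul, ht, en_ι]; simp [Matrix.mul_apply, Fin.sum_univ_three, y, CForm.conj_conj, vecMul, dotProduct, h])
    (by rw [en_mul, en_mul, ht, en_ι]; simp [Matrix.mul_apply, Fin.sum_univ_three, y, CForm.conj_conj, h0, vecMul, dotProduct]
        field_simp; ring)
  refine .inr ⟨y⁻¹, sc (-1) x, -1 * l, ?_⟩
  rw [map_mul, ← mul_assoc (ι hF _), ← d_mul_ι, mul_assoc (d hF _), ← e', ← t1, map_inv]
  have : t * t * (t * t) = 1 := by rw [t1, ← map_mul]; simp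
  calc g = (ι hF y)⁻¹ * (t * t * (t * t)) * (ι hF y * g) := by rw [this]; group
    _ = _ := by group

theorem coord (h0 : δ ≠ 0) (ht : en hF t = !![0, 0, δ; 0, 1, 0; -δ⁻¹, 0, 0]) {x y z : Hs hF} {l : Fˣ}
    (e : t * ι hF x * t⁻¹ = ι hF y * d hF l * t * ι hF z) : z.b * x.b = -δ ^ 2 := by
  rw [mul_inv_eq_iff_eq_mul] at e
  have e' := congrArg (en hF) e
  simp only [en_mul, ht, en_ι, en_d] at e'
  have e0 := congrFun (congrFun e' 2) 0
  have e2 := congrFun (congrFun e' 2) 2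
  have := conj_ne (hF := hF) l
  simp [Matrix.mul_apply, Fin.sum_univ_three, vecMul, dotProduct] at e0 e2
  field_simp at e0 e2
  linear_combination -x.b * e0 - δ * e2

theorem core {J : Type*} [Group J] (h0 : δ ≠ 0) (hδ : σ δ = -δ) (ρ : J →* SJ hF) (X : Hs hF →* J) (H : Fˣ →* J) (τ : J)
    (ρX : ∀ x, ρ (X x) = ι hF x) (ρH : ∀ l, ρ (H l) = d hF l) (ρτ : en hF (ρ τ) = !![0, 0, δ; 0, 1, 0; -δ⁻¹, 0, 0])
    (HX : ∀ l x, H l * X x = X (sc l x) * H l) (τH : ∀ l, ∃ m, τ * H l = H m * τ) (ττ : τ * τ = H (-1))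
    (hZ : ∀ c : Hs hF, c.a = 0 → c.b ≠ 0 → ∃ (c₁ : Hs hF) (l : Fˣ) (c₂ : Hs hF), c₁.a = 0 ∧ c₁.b * c.b = -δ ^ 2 ∧
      τ * X c * τ⁻¹ = X c₁ * H l * τ * X c₂)
    {ω : F} (hω : ∀ a : F, a ≠ 0 → ∃ i : ℕ, ω ^ i = a) (a0 : Hs hF) (ha : a0.b = δ * ω)
    (h3 : ∀ i : ℕ, i < 3 → ∀ x : Hs hF, x.a = (ω / σ ω) ^ i * a0.a → x.b = δ * ω →
      ∃ y z l, τ * X x * τ⁻¹ = X y * τ * (X z * H l))
    {M : Subgroup J} (hM : ∀ N : Subgroup J, (∀ x, X x ∈ N) → (∀ l, H l ∈ N) → τ ∈ N → M ≤ N) :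
    ∀ g ∈ M, ρ g = 1 → g = 1 := by
  let B : Subgroup J :=
    { carrier := {g | ∃ x l, g = X x * H l}
      one_mem' := ⟨1, 1, by simp⟩
      mul_mem' := by
        rintro _ _ ⟨x, l, rfl⟩ ⟨y, m, rfl⟩
        exact ⟨x * sc l y, l * m, by rw [mul_assoc, ← mul_assoc (H l), HX, map_mul, map_mul]; group⟩
      inv_mem' := by
        rintro _ ⟨x, l, rfl⟩
        exact ⟨sc l⁻¹ x⁻¹, l⁻¹, by rw [← HX, map_inv, map_inv, _root_.mul_inv_rev]⟩ }
  have bX : ∀ x, X x ∈ B := fun x => ⟨x, 1, by simp⟩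
  have bH : ∀ l, H l ∈ B := fun l => ⟨1, l, by simp⟩
  obtain ⟨D, hD⟩ : ∃ D : J → Prop, ∀ g, D g ↔ ∃ β ∈ B, ∃ β' ∈ B, g = β * τ * β' := ⟨_, fun _ => Iff.rfl⟩
  have dl : ∀ β ∈ B, ∀ g, D g → D (β * g) := fun β hβ g hg => by
    obtain ⟨a, ha, b, hb, rfl⟩ := (hD _).1 hg
    exact (hD _).2 ⟨_, mul_mem hβ ha, _, hb, by group⟩
  have dr : ∀ β ∈ B, ∀ g, D g → D (g * β) := fun β hβ g hg => by
    obtain ⟨a, ha, b, hb, rfl⟩ := (hD _).1 hg
    exact (hD _).2 ⟨_, ha, _, mul_mem hb hβ, by group⟩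
  have nf : ∀ g, D g → ∃ β ∈ B, ∃ z, g = β * τ * X z := fun g hg => by
    obtain ⟨a, ha, _, ⟨x, l, rfl⟩, rfl⟩ := (hD _).1 hg
    obtain ⟨m, hm⟩ := τH l
    refine ⟨_, mul_mem ha (bH m), sc l⁻¹ x, ?_⟩
    rw [mul_assoc a (H m), ← hm, mul_assoc, mul_assoc, mul_assoc, HX, ← sc_mul, mul_inv_cancel, sc_one]
  have inv : ∀ l x, D (τ * X x * τ⁻¹) → D (τ * X (sc l x) * τ⁻¹) := fun l x h => by
    obtain ⟨m, hm⟩ := τH l
    have e : H m = τ * H l * τ⁻¹ := by rw [hm, mul_inv_cancel_right]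
    have : τ * X (sc l x) * τ⁻¹ = H m * (τ * X x * τ⁻¹) * (H m)⁻¹ := by
      rw [e, ← mul_inv_cancel_right (X _) (H l), ← HX]; group
    exact this ▸ dr _ (inv_mem (bH m)) _ (dl _ (bH m) _ h)
  obtain ⟨G, hG⟩ : ∃ G : F → Prop, ∀ b, G b ↔ ∀ x : Hs hF, x.b = b → D (τ * X x * τ⁻¹) := ⟨_, fun _ => Iff.rfl⟩
  have scal : ∀ s b, σ s = s → s ≠ 0 → G b → G (s * b) := fun s b hs s0 h => (hG _).2 fun x hx => by
    obtain ⟨ε, hε⟩ := exists_norm_eq σ (CForm.conj_conj hF) (conj_ne_id hF) s hs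
    have ε0 : ε ≠ 0 := left_ne_zero_of_mul (hε ▸ s0)
    have := inv (Units.mk0 ε ε0) _ ((hG _).1 h (sc (Units.mk0 ε ε0)⁻¹ x) (by
      have : σ ε ≠ 0 := (map_ne_zero _).2 ε0
      simp [hx, ← hε]; field_simp))
    rwa [← sc_mul, mul_inv_cancel, sc_one] at this
  have step : ∀ b₁ b₂ e, σ e = -e → e ≠ 0 → b₁ ≠ 0 → b₂ * (b₁ * e) = -δ ^ 2 * (b₁ + e) → G b₁ → G b₂ → G (b₁ + e) :=
    fun b₁ b₂ e he e0 b0 hb g1 g2 => (hG _).2 fun x hx => by
      let c : Hs hF := ⟨0, e, by simp [he]⟩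
      have hx1 : (x * c⁻¹).b = b₁ := by simp [hx, c, he]
      obtain ⟨_, ⟨y, l, rfl⟩, z, e1⟩ := nf _ ((hG _).1 g1 _ hx1)
      obtain ⟨c₁, l₁, c₂, a1, a2, e2⟩ := hZ c rfl e0
      have a3 : z.b * b₁ = -δ ^ 2 := hx1 ▸ coord h0 ρτ (by simpa only [map_mul, map_inv, ρX, ρH] using congrArg ρ e1)
      have a4 := (hG _).1 g2 (z * c₁) (mul_right_cancel₀ (mul_ne_zero b0 e0) (by
        rw [hb, mul_b, a1, map_zero]; change _ * e = _ at a2; linear_combination e * a3 + b₁ * a2))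
      obtain ⟨m, hm⟩ := τH l₁
      have : τ * X x * τ⁻¹ = X y * H l * (τ * X (z * c₁) * τ⁻¹) * (H m * H (-1) * X c₂) := by
        calc _ = (τ * X (x * c⁻¹) * τ⁻¹) * (τ * X c * τ⁻¹) := by rw [map_mul, map_inv]; group
          _ = X y * H l * (τ * X (z * c₁) * τ⁻¹) * (τ * H l₁ * τ * X c₂) := by rw [e1, e2, map_mul]; group
          _ = _ := by rw [hm, ← ττ, mul_assoc (H m)]
      exact this ▸ dr _ (mul_mem (mul_mem (bH _) (bH _)) (bX _)) _ (dl _ (mul_mem (bX _) (bH _)) _ a4)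
  have ω1 : σ ω ≠ ω := fun e => conj_ne_id hF (RingHom.ext fun a => by
    by_cases h : a = 0
    · simp [h]
    · obtain ⟨i, rfl⟩ := hω a h; simp [e])
  have ω0 : ω ≠ 0 := fun e => ω1 (by simp [e])
  have ω2 : σ ω ≠ 0 := (map_ne_zero _).2 ω0
  have base : G (δ * ω) := (hG _).2 fun x hx => by
    have n1 : a0.a * σ a0.a = δ * (σ ω - ω) := by have := a0.h; rw [ha, map_mul, hδ] at this; linear_combination this
    have n2 : x.a * σ x.a = δ * (σ ω - ω) := by have := x.h; rw [hx, map_mul, hδ] at this; linear_combination this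
    have n0 : a0.a ≠ 0 := left_ne_zero_of_mul (n1 ▸ mul_ne_zero h0 (sub_ne_zero.2 ω1))
    have n3 : σ a0.a ≠ 0 := (map_ne_zero _).2 n0
    obtain ⟨v, v0, hv⟩ : ∃ v : F, v ≠ 0 ∧ v * a0.a = x.a * σ v := by
      by_cases h : a0.a + x.a = 0
      · exact ⟨δ, h0, by rw [hδ]; linear_combination δ * h⟩
      · exact ⟨(a0.a + x.a) / a0.a, div_ne_zero h n0, by
          rw [map_div₀, map_add]; field_simp; linear_combination n1 - n2⟩
    obtain ⟨j, rfl⟩ := hω v v0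
    let l : Fˣ := Units.mk0 ((ω / σ ω) ^ (j / 3)) (pow_ne_zero _ (div_ne_zero ω0 ω2))
    have l1 : σ (l : F) = (l : F)⁻¹ := by simp [l, CForm.conj_conj, ← inv_pow]
    obtain ⟨y, z, m, e⟩ := h3 (j % 3) (Nat.mod_lt _ (by simp)) (sc l⁻¹ x) (by
      have e1 : x.a = (ω / σ ω) ^ j * a0.a := by rw [map_pow] at hv; rw [div_pow]; field_simp; exact hv.symm
      have e2 : (ω / σ ω) ^ j = (l : F) ^ 3 * (ω / σ ω) ^ (j % 3) := by
        change _ = (_ ^ _) ^ 3 * _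
        rw [← pow_mul, ← pow_add, Nat.div_add_mod']
      rw [sc_a, e1, e2, Units.val_inv_eq_inv_val, map_inv₀, l1]; field_simp) (by
      rw [sc_b, hx, Units.val_inv_eq_inv_val, map_inv₀, l1]; field_simp)
    have := inv l _ ((hD _).2 ⟨_, bX y, _, mul_mem (bX z) (bH m), e⟩)
    rwa [← sc_mul, mul_inv_cancel, sc_one] at this
  have ind : ∀ n : ℕ, σ (ω ^ n) ≠ ω ^ n → G (δ * ω ^ n) := fun n => by
    induction n with
    | zero => simp
    | succ n ih =>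
      intro h
      by_cases h' : σ (ω ^ n) = ω ^ n
      · convert scal _ _ h' (pow_ne_zero _ ω0) base using 1; ring
      have ω3 : ω - σ ω ≠ 0 := sub_ne_zero.2 ω1.symm
      obtain ⟨s, hs⟩ : ∃ s, s = (ω ^ (n + 1) - σ (ω ^ (n + 1))) / (ω - σ ω) := ⟨_, rfl⟩
      have s0 : s ≠ 0 := hs ▸ div_ne_zero (sub_ne_zero.2 h.symm) ω3
      have s1 : σ s = s := by
        rw [hs, map_div₀, map_sub, map_sub, CForm.conj_conj, CForm.conj_conj, ← neg_div_neg_eq, neg_sub, neg_sub]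
      have s2 : s * (ω - σ ω) = ω ^ (n + 1) - σ (ω ^ (n + 1)) := by rw [hs, div_mul_cancel₀ _ ω3]
      obtain ⟨e, he⟩ : ∃ e, e = δ * ω ^ (n + 1) - s * (δ * ω) := ⟨_, rfl⟩
      have e1 : σ e = -e := by rw [he, map_sub, map_mul, map_mul, map_mul, s1, hδ]; linear_combination -δ * s2
      have e0 : e ≠ 0 := fun e0 => h' (by
        rw [show ω ^ n = s from mul_right_cancel₀ (mul_ne_zero h0 ω0) (by linear_combination e0 - he), s1])
      have := step (s * (δ * ω)) (-δ / (s * e) * (δ * ω ^ n)) e e1 e0 (by positivity)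
        (by field_simp; linear_combination he) (scal _ _ s1 s0 base)
        (scal _ _ (by rw [map_div₀, map_neg, map_mul, hδ, s1, e1, mul_neg, neg_div_neg_eq])
          (div_ne_zero (neg_ne_zero.2 h0) (mul_ne_zero s0 e0)) (ih h'))
      convert this using 1; rw [he]; ring
  have all : ∀ x : Hs hF, x ≠ 1 → D (τ * X x * τ⁻¹) := fun x hx => by
    have b0 : x.b ≠ 0 := fun e => hx (Hs.ext (by simpa [e] using x.h) e)
    by_cases h : x.a = 0
    · obtain ⟨c₁, l, c₂, -, -, e⟩ := hZ x h b0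
      exact (hD _).2 ⟨_, mul_mem (bX _) (bH _), _, bX _, e⟩
    · obtain ⟨n, hn⟩ := hω (x.b / δ) (div_ne_zero b0 h0)
      refine (hG _).1 (ind n fun e => h ?_) x (by rw [hn]; field_simp)
      rw [hn, map_div₀, hδ] at e
      have := x.h
      field_simp at e
      simpa using (show x.a * σ x.a = 0 by linear_combination this + e)
  have sB : ∀ β ∈ B, ∀ g, g ∈ B ∨ D g → g * β ∈ B ∨ D (g * β) := fun β hβ g h =>
    h.imp (fun h => mul_mem h hβ) (dr β hβ g)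
  have sτ : ∀ g, g ∈ B ∨ D g → g * τ ∈ B ∨ D (g * τ) := by
    rintro g (h | h)
    · exact .inr ((hD _).2 ⟨g, h, 1, one_mem _, by simp⟩)
    obtain ⟨β, hβ, z, rfl⟩ := nf _ h
    by_cases hz : z = 1
    · exact .inl (by rw [hz, map_one, mul_one, mul_assoc, ττ]; exact mul_mem hβ (bH _))
    · refine .inr ?_
      rw [show β * τ * X z * τ = β * (τ * X z * τ⁻¹) * H (-1) by rw [← ττ]; group]
      exact dr _ (bH _) _ (dl _ hβ _ (all z hz))
  let N : Subgroup J :=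
    { carrier := {m | (∀ g, g ∈ B ∨ D g → g * m ∈ B ∨ D (g * m)) ∧ ∀ g, g ∈ B ∨ D g → g * m⁻¹ ∈ B ∨ D (g * m⁻¹)}
      one_mem' := by simp
      mul_mem' := fun ha hb => ⟨fun g h => by rw [← mul_assoc]; exact hb.1 _ (ha.1 _ h),
        fun g h => by rw [_root_.mul_inv_rev, ← mul_assoc]; exact ha.2 _ (hb.2 _ h)⟩
      inv_mem' := fun ha => ⟨ha.2, by simpa using ha.1⟩ }
  have nB : ∀ β ∈ B, β ∈ N := fun β h => ⟨sB β h, sB _ (inv_mem h)⟩
  intro g hg e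
  have := (hM N (fun x => nB _ (bX x)) (fun x => nB _ (bH x)) ⟨sτ, fun g h => by
    rw [show g * τ⁻¹ = g * τ * (H (-1))⁻¹ by rw [← ττ]; group]
    exact sB _ (inv_mem (bH _)) _ (sτ g h)⟩ hg).1 1 (.inl (one_mem _))
  rw [one_mul] at this
  rcases this with ⟨x, l, rfl⟩ | h
  · rw [map_mul, ρX, ρH] at e
    have e1 := congrFun (congrFun (congrArg (en hF) e) 0) 0
    rw [en_mul, en_ι, en_d, en_one] at e1
    obtain rfl : l = 1 := Units.ext (by simpa [Matrix.mul_apply, Fin.sum_univ_three] using e1)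
    rw [map_one, mul_one, ← (ι hF).map_one] at e
    rw [ι_injective e]; simp
  · obtain ⟨_, ⟨x, l, rfl⟩, z, rfl⟩ := nf _ h
    have e1 := congrFun (congrFun (congrArg (en hF) e) 2) 0
    simp only [map_mul, ρX, ρH, en_mul, en_ι, en_d, en_one, ρτ] at e1
    simp [Matrix.mul_apply, Fin.sum_univ_three, h0, vecMul, dotProduct] at e1

end CA.H13Su
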