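/-
`SU₃(q)`: the unipotent radical of the Borel subgroup from boundedly many relations.
-/
import Cfsg.Agent.Lib.Lin.H13Su1

set_option autoImplicit false

namespace CA.H13Su

open Matrix Subgroup CA.Prs CA.CForm CA.SU3 CA.H13Pr Monoid
open scoped MatrixGroups commutatorElement

section Abs

variable {J : Type} [Group J]

theorem coe_cj {N : Subgroup J} (a b : N) (i : ℤ) : (cj a b i).1 = cj a.1 b.1 i := map_cj N.subtype a b i
theorem coe_wd {N : Subgroup J} (a b : N) (L : List ℕ) : (wd a b L).1 = wd a.1 b.1 L := map_wd N.subtype a b L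

theorem wd_mem {J : Type*} [Group J] {A : Subgroup J} {η υ : J} (h : ∀ i : ℕ, cj η υ i ∈ A) (L : List ℕ) : wd η υ L ∈ A :=
  A.list_prod_mem fun x hx => by obtain ⟨i, -, rfl⟩ := List.mem_map.1 hx; exact h i

theorem exists_quot (Z : Subgroup J) : ∃ (Q : Type) (_ : Group Q) (π : normalizer (Z : Set J) →* Q),
    ∀ a b, π a = π b ↔ a.1⁻¹ * b.1 ∈ Z :=
  ⟨_ ⧸ Z.subgroupOf _, inferInstance, QuotientGroup.mk' _, fun _ _ => QuotientGroup.eq⟩

/-- Baumslag's trick modulo `Z` -/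
theorem stepA (Z : Subgroup J) {η υ z : J} {m n : ℕ} {L : List ℕ} (hη : η ∈ normalizer (Z : Set J))
    (hz : ∀ g ∈ Z, g ≠ 1 → ∃ j : ℕ, η ^ j * g * (η ^ j)⁻¹ = z) (h0 : Commute (η ^ m) z) (hZ : ∀ g ∈ Z, Commute g z)
    (a1 : Commute υ z) (a2 : (η ^ n * υ * (η ^ n)⁻¹)⁻¹ * (υ * cj (η ^ m) υ 1) ∈ Z)
    (a3 : ⁅υ, cj (η ^ m) υ 1⁆ ∈ Z) (a4 : (wd (η ^ m) υ L)⁻¹ * (η * υ * η⁻¹) ∈ Z) :
    (∀ g ∈ Z, Commute υ g) ∧ ∀ i : ℕ, ⁅υ, cj η υ i⁆ ∈ Z := by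
  let A := closure (Set.range (fun i : ℕ => cj (η ^ m) υ i) ∪ Z)
  have m1 : ∀ i : ℕ, cj (η ^ m) υ i ∈ A := fun i => subset_closure (.inl ⟨i, rfl⟩)
  have m2 : Z ≤ A := fun g hg => subset_closure (.inr hg)
  have cl : ∀ e ∈ normalizer (Z : Set J), (∀ i : ℕ, e * cj (η ^ m) υ i * e⁻¹ ∈ A) → ∀ g ∈ A, e * g * e⁻¹ ∈ A :=
    fun e he h => (closure_le (A.comap (MulAut.conj e).toMonoidHom)).2 (by
      rintro _ (⟨i, rfl⟩ | hg)
      exacts [h i, m2 ((he _).1 hg)])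
  have b0 := cl _ (pow_mem hη m) fun i => by rw [← cj_succ]; exact m1 (i + 1)
  have b1 : ∀ i : ℕ, ∀ g ∈ A, cj (η ^ m) g i ∈ A := fun i g hg => by
    induction i with
    | zero => simpa [cj_zero]
    | succ i ih => rw [Nat.cast_succ, cj_succ]; exact b0 _ ih
  have b2 := cl η hη fun i => by
    have : η * υ * η⁻¹ ∈ A := (A.mul_mem_cancel_left (inv_mem (wd_mem m1 L))).1 (m2 a4)
    convert b1 i _ this using 1
    simp only [cj]; group
  have b3 : ∀ i : ℕ, cj η υ i ∈ A := fun i => by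
    induction i with
    | zero => simpa [cj_zero] using m1 0
    | succ i ih => rw [Nat.cast_succ, cj_succ]; exact b2 _ ih
  have c1 : A ≤ centralizer {z} := (closure_le _).2 (by
    rintro _ (⟨i, rfl⟩ | hg)
    · exact mem_centralizer_singleton_iff.2 (((h0.zpow_left i).mul_left a1).mul_left (h0.zpow_left i).inv_left)
    · exact mem_centralizer_singleton_iff.2 (hZ _ hg))
  have s1 : ∀ g ∈ Z, Commute υ g := fun g hg => by
    by_cases h : g = 1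
    · simp [h]
    obtain ⟨j, hj⟩ := hz g hg h
    have := mem_centralizer_singleton_iff.1 (c1 (b3 j))
    rw [← hj, cj, zpow_natCast, conj_mul, conj_mul] at this
    change _ = _
    simpa using this
  refine ⟨s1, fun i => ?_⟩
  obtain ⟨Q, _, π, hπ⟩ := exists_quot Z
  have hυ : υ ∈ normalizer (Z : Set J) := fun g => ⟨fun h => by rw [(s1 g h).eq, mul_inv_cancel_right]; exact h,
    fun h => by
      have := (s1 _ h).eq
      rw [mul_assoc υ g, mul_assoc, mul_assoc, inv_mul_cancel, mul_one, mul_right_inj, ← mul_assoc] at this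
      exact this ▸ h⟩
  let η' : normalizer (Z : Set J) := ⟨η, hη⟩
  let υ' : normalizer (Z : Set J) := ⟨υ, hυ⟩
  have p1 : ∀ a, π a = 1 ↔ a.1 ∈ Z := fun a => by rw [eq_comm, ← π.map_one, hπ]; simp
  have bm := baumslag (η := π (η' ^ m)) (θ := π (η' ^ n)) (ξ := π υ') (((Commute.refl _).pow_pow _ _).map π)
    (by rw [← map_cj, ← map_mul, ← map_inv, ← map_mul, ← map_mul, hπ]; simpa [coe_cj] using a2)
    (by rw [← map_cj, ← commutatorElement_eq_one_iff_commute, ← map_commutatorElement, p1]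
        simpa [coe_cj, commutatorElement_def] using a3)
  have c2 : A ≤ ((centralizer {π υ'}).comap π).map (Subgroup.subtype _) := (closure_le _).2 (by
    rintro _ (⟨i, rfl⟩ | hg)
    · exact ⟨cj (η' ^ m) υ' i, mem_centralizer_singleton_iff.2 (by rw [map_cj]; exact (bm i).symm), coe_cj ..⟩
    · exact ⟨⟨_, le_normalizer hg⟩, mem_centralizer_singleton_iff.2 (by rw [(p1 _).2 hg]; simp), rfl⟩)
  obtain ⟨g, h1, h2⟩ := c2 (b3 i)
  rw [← h2]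
  exact (p1 ⁅υ', g⁆).1 (by
    rw [map_commutatorElement, commutatorElement_eq_one_iff_commute]
    exact (mem_centralizer_singleton_iff.1 h1).symm)

end Abs

variable {F : Type*} [Field F] [Fintype F] {q : ℕ} {hF : Fintype.card F = q ^ 2}

local notation "σ" => conj hF

variable (hF) in
/-- the character of the torus on `U/Z` -/
def ch (l : Fˣ) : F := l * l * (σ l)⁻¹

theorem cj_G (l : Fˣ) (u : Hs hF) (i : ℤ) : cj (d hF l) (ι hF u) i = ι hF (sc (l ^ i) u) := by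
  rw [cj, ← map_zpow, d_conj]

theorem sc_pow (l : Fˣ) (u : Hs hF) (i : ℕ) : (sc (l ^ (i : ℤ)) u).a = ch hF l ^ i * u.a := by
  simp [ch, mul_pow]

theorem wd_G (l : Fˣ) {u : Hs hF} (hu : u.a = 1) (L : List ℕ) :
    ∃ x, wd (d hF l) (ι hF u) L = ι hF x ∧ x.a = (L.map (ch hF l ^ ·)).sum := by
  induction L with
  | nil => exact ⟨1, by simp [wd], rfl⟩
  | cons i L ih =>
    obtain ⟨x, h1, h2⟩ := ih
    exact ⟨sc (l ^ (i : ℤ)) u * x, by rw [map_mul, ← h1, ← cj_G]; simp [wd], by rw [mul_a, sc_pow, hu, h2]; simp⟩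

theorem borel {J : Type} [Group J] (ρ : J →* SJ hF) (Z : Subgroup J) (z1 : ∀ g ∈ Z, ρ g = 1 → g = 1)
    (z2 : ∀ g ∈ Z, ∃ x, ρ g = ι hF x ∧ x.a = 0) (z3 : ∀ x : Hs hF, x.a = 0 → ∃ g ∈ Z, ρ g = ι hF x)
    {η υ : J} {ω : Fˣ} {u : Hs hF} (hu : u.a = 1) (ρη : ρ η = d hF ω) (ρυ : ρ υ = ι hF u)
    (hη : η ∈ normalizer (Z : Set J)) (hυ : υ ∈ normalizer (Z : Set J)) {p k : ℕ} {L : List ℕ}
    (b : ∀ a : F, ∃ L : List ℕ, (∀ i ∈ L, i < k) ∧ a = (L.map (ch hF ω ^ ·)).sum)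
    (M : ∀ (J : Type) [Group J] (η ξ : J), (∀ i : ℕ, i < k → Commute ξ (cj η ξ i)) → ξ ^ p = 1 → cj η ξ k = wd η ξ L →
      ∃ Ψ : F → J, (∀ a b, Ψ (a + b) = Ψ a * Ψ b) ∧ (∀ i : ℤ, Ψ (ch hF ω ^ i) = cj η ξ i) ∧
        ∀ a, η * Ψ a * η⁻¹ = Ψ (ch hF ω * a))
    (c1 : ∀ i : ℕ, i < k → ⁅υ, cj η υ i⁆ ∈ Z) (c2 : υ ^ p ∈ Z) (c3 : (cj η υ k)⁻¹ * wd η υ L ∈ Z) :
    ∃ X : Hs hF →* J, (∀ x, ρ (X x) = ι hF x) ∧ (∀ x, η * X x = X (sc ω x) * η) ∧ (∀ L, wd η υ L ∈ X.range) ∧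
      Z ≤ X.range := by
  obtain ⟨Q, _, π, hπ⟩ := exists_quot Z
  let η' : normalizer (Z : Set J) := ⟨η, hη⟩
  let υ' : normalizer (Z : Set J) := ⟨υ, hυ⟩
  have p1 : ∀ a, π a = 1 ↔ a.1 ∈ Z := fun a => by rw [eq_comm, ← π.map_one, hπ]; simp
  obtain ⟨Ψ, h1, h2, h3⟩ := M Q (π η') (π υ') (fun i hi => by
      rw [← map_cj, ← commutatorElement_eq_one_iff_commute, ← map_commutatorElement, p1]
      simpa [coe_cj, commutatorElement_def] using c1 i hi) (by rw [← map_pow, p1]; exact c2)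
    (by rw [← map_cj, ← map_wd, hπ, coe_cj, coe_wd]; exact c3)
  let V : Subgroup J := ((MonoidHom.mk' (fun a : Multiplicative F => Ψ a.toAdd) fun a b => h1 _ _).range.comap π).map
    (Subgroup.subtype _)
  have v1 : ∀ g a, π g = Ψ a → g.1 ∈ V := fun g a h => ⟨g, ⟨.ofAdd a, h.symm⟩, rfl⟩
  have w1 : ∀ L, π (wd η' υ' L) = Ψ (L.map (ch hF ω ^ ·)).sum := fun L => by rw [map_wd, wd_eq h1 h2]
  have w2 : ∀ L, wd η υ L ∈ V := fun L => coe_wd η' υ' L ▸ v1 _ _ (w1 L)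
  have w3 : Z ≤ V := fun g hg => v1 ⟨g, le_normalizer hg⟩ 0 (by rw [zero_of_add h1, p1]; exact hg)
  have key : ∀ g a, π g = Ψ a → ∃ x, ρ g = ι hF x ∧ x.a = a := fun g a h => by
    obtain ⟨L, -, rfl⟩ := b a
    rw [← w1, eq_comm, hπ, coe_wd] at h
    obtain ⟨y, e1, e2⟩ := z2 _ h
    obtain ⟨x, e3, e4⟩ := wd_G ω hu L
    rw [map_mul, map_inv, map_wd, ρη, ρυ, e3, inv_mul_eq_iff_eq_mul, ← map_mul] at e1
    exact ⟨_, e1, by simp [e2, e4]⟩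
  have inj : ∀ g ∈ V, ∀ g' ∈ V, ρ g = ρ g' → g = g' := fun g hg g' hg' e => by
    obtain ⟨c, ⟨a, ha⟩, e'⟩ := mul_mem (inv_mem hg) hg'
    have e1 : ρ c = 1 := by change c.1 = _ at e'; rw [e', map_mul, map_inv, e, inv_mul_cancel]
    obtain ⟨x, e2, e3⟩ := key c _ ha.symm
    rw [e1, ← (ι hF).map_one] at e2
    change Ψ _ = _ at ha
    rw [← e3, ← ι_injective e2, one_a, zero_of_add h1, eq_comm, p1] at ha
    exact inv_mul_eq_one.1 (e'.symm.trans (z1 _ ha e1))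
  have sur : ∀ x, ∃ g ∈ V, ρ g = ι hF x := fun x => by
    obtain ⟨L, -, e⟩ := b x.a
    obtain ⟨y, e3, e4⟩ := wd_G ω hu L
    obtain ⟨g, hg, e5⟩ := z3 (y⁻¹ * x) (by simp [e4, ← e])
    exact ⟨_, mul_mem (w2 L) (w3 hg), by rw [map_mul, map_wd, ρη, ρυ, e3, e5, ← map_mul, mul_inv_cancel_left]⟩
  choose X hX eX using sur
  have rg : V ≤ (MonoidHom.mk' X fun x y => inj _ (hX _) _ (mul_mem (hX _) (hX _)) (by simp [eX])).range := by
    rintro _ ⟨c, ⟨a, ha⟩, rfl⟩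
    obtain ⟨x, e2, -⟩ := key c _ ha.symm
    exact ⟨x, inj _ (hX _) _ (v1 _ _ ha.symm) ((eX x).trans e2.symm)⟩
  refine ⟨_, eX, fun x => ?_, fun L => rg (w2 L), w3.trans rg⟩
  rw [← mul_inv_eq_iff_eq_mul]
  obtain ⟨c, ⟨a, ha⟩, e⟩ := hX x
  refine inj _ ?_ _ (hX _) (by simp [eX, ρη, d_conj])
  change η * X x * η⁻¹ ∈ V
  rw [← e]
  exact v1 (η' * c * η'⁻¹) _ (by rw [map_mul, map_mul, map_inv, ← ha]; exact h3 _)

end CA.H13Su
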