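/-
A bounded presentation of `SU₃(q)`.
-/
import Cfsg.Agent.Lib.Lin.H13Su2

set_option autoImplicit false
set_option maxHeartbeats 400000

namespace CA.H13Su

open Matrix Subgroup CA.Prs CA.CForm CA.SU3 CA.H13Pr Monoid
open scoped MatrixGroups commutatorElement

theorem frob' {F : Type*} [Field F] [Finite F] (p : ℕ) [Fact p.Prime] [CharP F p] {K : Subring F} (h : K ≠ ⊤) :
    ∃ r m : ℕ, r + 1 = p ^ (m + 1) ∧ (r + 1) ^ 2 ≤ Nat.card F ∧ ∀ a ∈ K, a ≠ 0 → a ^ r = 1 := by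
  have := Fintype.ofFinite F
  have hi : ∀ a ∈ K, a⁻¹ ∈ K := fun a ha => by
    rcases eq_or_ne a 0 with rfl | h0
    · simp
    · have : a⁻¹ = a ^ (Fintype.card F - 2) := by
        have := Fintype.one_lt_card (α := F)
        rw [eq_comm, ← mul_eq_one_iff_eq_inv₀ h0, ← pow_succ, ← FiniteField.pow_card_sub_one_eq_one a h0]
        congr 1; omega
      exact this ▸ K.pow_mem ha _
  let L : Subfield F := { K with inv_mem' := hi }
  have := Fintype.ofFinite L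
  obtain ⟨n, -, hn⟩ := FiniteField.card L p
  have h1 : Fintype.card L - 1 + 1 = Fintype.card L := Nat.sub_add_cancel Fintype.card_pos
  refine ⟨Fintype.card L - 1, n - 1, by rw [h1, hn, Nat.sub_add_cancel (show 1 ≤ (n : ℕ) from n.2)], ?_, fun a ha h0 =>
    congrArg Subtype.val (FiniteField.pow_card_sub_one_eq_one (⟨a, ha⟩ : L) fun e => h0 (congrArg Subtype.val e))⟩
  rw [h1, Nat.card_eq_fintype_card, Module.card_eq_pow_finrank (K := L) (V := F)]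
  refine Nat.pow_le_pow_right Fintype.card_pos ?_
  by_contra e
  have h2 : Module.finrank L F = 1 := by have := Module.finrank_pos (R := L) (M := F); omega
  refine h (top_unique fun a _ => ?_)
  obtain ⟨c, hc⟩ := (finrank_eq_one_iff_of_nonzero' (1 : F) one_ne_zero).1 h2 a
  rw [← hc, Subfield.smul_def, smul_eq_mul, mul_one]
  exact c.2

theorem arith {p n m r q : ℕ} (hp : p.Prime) (hq : q = p ^ (n + 1)) (hr : r + 1 = p ^ (m + 1)) (h1 : r + 1 ≤ q)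
    (h2 : q + 1 ∣ 3 * r) : q = 2 ∨ q = 5 ∨ q = 8 := by
  obtain ⟨t, ht⟩ := h2
  have := hp.two_le
  have r1 : 1 ≤ r := by have := Nat.one_lt_pow (n := m + 1) (by simp) hp.one_lt; omega
  obtain rfl | rfl : t = 1 ∨ t = 2 := by
    rcases t with _ | _ | _ | t
    · omega
    · simp
    · simp
    · nlinarith
  · obtain rfl : p = 2 := (Nat.prime_dvd_prime_iff_eq hp Nat.prime_two).1 (hp.dvd_of_dvd_pow (n := 2)
      ((Nat.dvd_add_right (b := q) (hq ▸ dvd_pow_self p (by simp))).1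
        (by rw [show q + 2 ^ 2 = 3 * p ^ (m + 1) by omega]; exact (dvd_pow_self p (by simp)).mul_left _)))
    rcases m with _ | _ | m <;> rcases n with _ | _ | n <;> simp only [pow_succ] at hr hq <;> omega
  · obtain rfl : p = 5 := (Nat.prime_dvd_prime_iff_eq hp Nat.prime_five).1
      ((Nat.dvd_add_right (b := 2 * q) (hq ▸ (dvd_pow_self p (by simp)).mul_left _)).1
        (by rw [show 2 * q + 5 = 3 * p ^ (m + 1) by omega]; exact (dvd_pow_self p (by simp)).mul_left _))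
    rcases m with _ | m <;> rcases n with _ | n <;> simp only [pow_succ] at hr hq <;> omega

variable {F : Type*} [Field F] [Fintype F] {q : ℕ} {hF : Fintype.card F = q ^ 2}

local notation "σ" => conj hF
local notation "gη" => (Coprod.inr (FreeGroup.of 0) : Coprod SL(2, Kf hF) (FreeGroup (Fin 2)))
local notation "gυ" => (Coprod.inr (FreeGroup.of 1) : Coprod SL(2, Kf hF) (FreeGroup (Fin 2)))
local notation "gz" c:max => (Coprod.inl (xu c) : Coprod SL(2, Kf hF) (FreeGroup (Fin 2)))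

/-- the long root subgroup -/
def ZZ {k J : Type*} [Field k] [Group J] (ψ : SL(2, k) →* J) : Subgroup J :=
  (MonoidHom.mk' (fun c : Multiplicative k => ψ (xu c.toAdd)) fun a b => by rw [toAdd_mul, r2_sl.add, map_mul]).range

theorem mem_ZZ {k J : Type*} [Field k] [Group J] (ψ : SL(2, k) →* J) (c : k) : ψ (xu c) ∈ ZZ ψ := ⟨.ofAdd c, rfl⟩

/-- the data -/
structure Dat (hF : Fintype.card F = q ^ 2) where
  δ : F
  φ : SL(2, Kf hF) →* SJ hF
  ω : Fˣ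
  ζ : Kf hF
  u : Hs hF
  h0 : δ ≠ 0
  hδ : conj hF δ = -δ
  eφ : ∀ g, en hF (φ g) = !![(g.1 0 0 : F), 0, δ * g.1 0 1; 0, 1, 0; δ⁻¹ * g.1 1 0, 0, g.1 1 1]
  hω : ∀ a : F, a ≠ 0 → ∃ i : ℕ, (ω : F) ^ i = a
  ho : ∀ i : ℕ, (ω : F) ^ i = 1 ↔ Nat.card F - 1 ∣ i
  eζ : (ζ : F) = ω * conj hF ω
  hu : u.a = 1

variable (hF) in
theorem exists_dat : Nonempty (Dat hF) := by
  obtain ⟨δ, h0, hδ, φ, eφ⟩ := exists_su2 hF
  obtain ⟨ω, ω0, hω, ho⟩ := exists_gen F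
  obtain ⟨t, ht⟩ := Kind.exists_trace_eq _ (CForm.conj_conj hF) (conj_ne_id hF) (-1) (by simp)
  exact ⟨δ, φ, Units.mk0 ω ω0, ⟨ω * σ ω, show σ _ = _ by simp [CForm.conj_conj, mul_comm]⟩,
    ⟨1, t, by simp [ht]⟩, h0, hδ, eφ, hω, ho, rfl, rfl⟩

namespace Dat

variable (D : Dat hF)

/-- central elements -/
def zc (c : Kf hF) : Hs hF := ⟨0, D.δ * c, by simp [D.hδ, fx]⟩

theorem φxu (c : Kf hF) : D.φ (xu c) = ι hF (D.zc c) := en_inj (by rw [D.eφ, en_ι]; simp [xu_val, zc])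
theorem ht : en hF (D.φ (tw _)) = !![0, 0, D.δ; 0, 1, 0; -D.δ⁻¹, 0, 0] := by rw [D.eφ]; simp [tw_val]
theorem ζ0 : D.ζ ≠ 0 := fun e => mul_ne_zero D.ω.ne_zero (conj_ne D.ω) (by rw [← D.eζ, e]; rfl)

theorem unit (l : Fˣ) : ∃ i : ℕ, D.ω ^ i = l := (D.hω l l.ne_zero).imp fun _ h => Units.ext (by simpa using h)

theorem hζ (c : Kf hF) (h : c ≠ 0) : ∃ j : ℕ, D.ζ ^ j = c := by
  obtain ⟨ε, hε⟩ := exists_norm_eq σ (CForm.conj_conj hF) (conj_ne_id hF) c (fx c)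
  obtain ⟨j, rfl⟩ := D.hω ε (left_ne_zero_of_mul (hε ▸ fun e => h (Subtype.ext e)))
  exact ⟨j, Subtype.ext (by rw [← hε, SubmonoidClass.coe_pow, D.eζ, mul_pow, map_pow])⟩

theorem ex0 {x : Hs hF} (h : x.a = 0) : ∃ c, x = D.zc c :=
  ⟨⟨x.b / D.δ, show σ _ = _ by
    have := x.h
    rw [map_div₀, D.hδ, show σ x.b = -x.b by rw [h] at this; linear_combination this, neg_div_neg_eq]; rfl⟩,
    Hs.ext h (by simp [zc, mul_div_cancel₀ _ D.h0])⟩

theorem exc {x y : Hs hF} (h : x.a = y.a) : ∃ c, ι hF x = ι hF y * D.φ (xu c) := by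
  obtain ⟨c, e⟩ := D.ex0 (x := y⁻¹ * x) (by simp [h])
  exact ⟨c, by rw [D.φxu, ← e, ← map_mul, mul_inv_cancel_left]⟩

theorem exw {l : Fˣ} {k : ℕ} (b : ∀ a : F, ∃ L : List ℕ, (∀ i ∈ L, i < k) ∧ a = (L.map (ch hF l ^ ·)).sum) (x : Hs hF) :
    ∃ L c, ι hF x = wd (d hF l) (ι hF D.u) L * D.φ (xu c) := by
  obtain ⟨L, -, e⟩ := b x.a
  obtain ⟨y, e1, e2⟩ := wd_G l D.hu L
  obtain ⟨c, e3⟩ := D.exc (e.trans e2.symm)
  exact ⟨L, c, e1 ▸ e3⟩

theorem excm (x y : Hs hF) : ∃ c, ⁅ι hF x, ι hF y⁆ = D.φ (xu c) := by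
  obtain ⟨c, e⟩ := D.exc (x := ⁅x, y⁆) (y := 1) (by simp [commutatorElement_def])
  exact ⟨c, by simpa using e⟩

theorem comm (x : Hs hF) (c : Kf hF) : Commute (ι hF x) (D.φ (xu c)) :=
  D.φxu c ▸ Commute.map (mem_center_iff.1 (mem_center_Hs.2 rfl) x) _

theorem dφ (s : SL(2, Kf hF)) : d hF D.ω * D.φ s * (d hF D.ω)⁻¹ = D.φ (cd (inv_ne_zero D.ζ0) s) := by
  rw [mul_inv_eq_iff_eq_mul]
  refine en_inj ?_
  have := conj_ne (hF := hF) D.ω
  have := D.h0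
  rw [en_mul, en_mul, D.eφ, D.eφ, en_d, cd_val]
  ext i j
  fin_cases i <;> fin_cases j <;> simp [Matrix.mul_apply, Fin.sum_univ_three, D.eζ] <;> field_simp

theorem φhd : d hF D.ω ^ (q + 1) = D.φ (hd D.ζ) := by
  rw [← map_pow]
  refine en_inj ?_
  have e : (D.ω : F) ^ (q + 1) = D.ζ := by rw [D.eζ, conj_apply, pow_succ']
  have : (D.ζ : F) ≠ 0 := fun e => D.ζ0 (Subtype.ext e)
  rw [D.eφ, en_d, hd_val D.ζ0, Units.val_pow_eq_pow_val, e, fx]
  simp [this]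

/-- extra relators -/
def Ex (p k : ℕ) (c : Kf hF) : Prop := ∃ (r : ℕ) (E : List (Coprod SL(2, Kf hF) (FreeGroup (Fin 2)))),
  Pres 3 r SL(2, Kf hF) ∧ r + E.length ≤ 12 ∧ (∀ w ∈ E, Coprod.lift D.φ (FreeGroup.lift ![d hF D.ω, ι hF D.u]) w = 1) ∧
  ∀ (J : Type) [Group J] (ψ : SL(2, Kf hF) →* J) (ξ : Fin 2 → J), (∀ w ∈ E, Coprod.lift ψ (FreeGroup.lift ξ) w = 1) →
    (∀ (i : ℕ) c, ξ 0 ^ i * ψ (xu c) * (ξ 0 ^ i)⁻¹ = ψ (xu (D.ζ ^ i * c))) → ξ 0 ∈ normalizer (ZZ ψ : Set J) →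
    ξ 1 ^ p = ψ (xu c) → (∀ g ∈ ZZ ψ, Commute (ξ 1) g) ∧ ∀ i : ℕ, i < k → ⁅ξ 1, cj (ξ 0) (ξ 1) i⁆ ∈ ZZ ψ

theorem ex_gen (p : ℕ) [Fact p.Prime] [CharP F p] (h2 : q ≠ 2) (h5 : q ≠ 5) (h8 : q ≠ 8) (k : ℕ) (c : Kf hF) :
    D.Ex p k c := by
  have q2 := two_le_of_card_sq hF
  have ω0 := D.ω.ne_zero
  have ω1 := conj_ne (hF := hF) D.ω
  let μ : Fˣ := Units.mk0 (D.ω / σ D.ω) (div_ne_zero ω0 ω1)
  have eμ : ch hF μ = (D.ω / σ D.ω) ^ 3 := by simp [ch, μ, CForm.conj_conj]; ring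
  have μ0 : ch hF μ ≠ 0 := eμ ▸ pow_ne_zero _ μ.ne_zero
  have gen : Subring.closure {ch hF μ} = ⊤ := by
    by_contra e
    obtain ⟨r, m, e1, e2, e3⟩ := frob' p e
    have := Fintype.ofFinite (Kf hF)
    obtain ⟨n, -, hn⟩ := FiniteField.card (Kf hF) p
    rw [← Nat.card_eq_fintype_card, show Nat.card (Kf hF) = q from card_conj_fixed hF] at hn
    have e4 := e3 _ (Subring.subset_closure rfl) μ0
    obtain ⟨s, rfl⟩ : ∃ s, q = s + 1 := ⟨q - 1, by omega⟩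
    rw [eμ, conj_apply, pow_succ (D.ω : F), div_mul_cancel_right₀ ω0, inv_pow, inv_pow, inv_eq_one, ← pow_mul, ← pow_mul,
      D.ho, Nat.card_eq_fintype_card, hF, show (s + 1) ^ 2 - 1 = s * (s + 1 + 1) from Nat.sub_eq_of_eq_add (by ring),
      Nat.mul_dvd_mul_iff_left (by omega)] at e4
    rw [Nat.card_eq_fintype_card, hF] at e2
    have := arith (n := n - 1) Fact.out (by rw [hn, Nat.sub_add_cancel (show 1 ≤ (n : ℕ) from n.2)]) e1
      ((Nat.pow_le_pow_iff_left two_ne_zero).1 e2) e4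
    omega
  have s0 : (D.ω : F) ^ 3 + σ D.ω ^ 3 ≠ 0 := fun e => conj_ne_id hF (RingHom.ext fun a =>
    (gen.ge.trans (Subring.closure_le.2 (show _ ⊆ ((RingHom.eqLocus σ (.id F) : Subring F) : Set F) by
      rintro _ rfl
      rw [show ch hF μ = -1 by rw [eμ]; field_simp; linear_combination e]
      exact neg_mem (one_mem _)))) (Subring.mem_top a))
  let θ : Fˣ := Units.mk0 ((D.ω ^ 3 + σ D.ω ^ 3) / (D.ω * σ D.ω ^ 2)) (div_ne_zero s0 (by positivity))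
  have eθ : ch hF θ = 1 + ch hF μ := by
    rw [eμ]; simp [ch, θ, CForm.conj_conj, add_comm (σ D.ω ^ 3)]; field_simp; ring
  obtain ⟨m, hm⟩ := D.unit μ
  obtain ⟨n, hn⟩ := D.unit θ
  obtain ⟨k', -, b, -⟩ := modl p μ0 gen
  obtain ⟨c2, e2⟩ := D.exc (x := D.u * sc (μ ^ (1 : ℤ)) D.u) (y := sc θ D.u) (by
    change _ = ch hF θ * _
    rw [eθ, mul_a, zpow_one, add_mul, one_mul]; rfl)
  obtain ⟨c3, e3⟩ := D.excm D.u (sc (μ ^ (1 : ℤ)) D.u)
  obtain ⟨L, c4, e4⟩ := D.exw b (sc D.ω D.u)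
  refine ⟨8, [⁅gυ, gz 1⁆, (gη ^ n * gυ * (gη ^ n)⁻¹)⁻¹ * (gυ * cj (gη ^ m) gυ 1) * (gz c2)⁻¹,
    ⁅gυ, cj (gη ^ m) gυ 1⁆ * (gz c3)⁻¹, (wd (gη ^ m) gυ L)⁻¹ * (gη * gυ * gη⁻¹) * (gz c4)⁻¹], pres_sl2.1, by simp,
    ?_, fun J _ ψ ξ e hz hη _ => ?_⟩ <;>
  simp only [List.forall_mem_cons, map_mul, map_inv, map_pow, map_cj, map_wd, Coprod.lift_apply_inl,
    Coprod.lift_apply_inr, FreeGroup.lift_apply_of, mul_inv_eq_one, map_commutatorElement,
    commutatorElement_eq_one_iff_commute, List.not_mem_nil, false_imp_iff, implies_true, and_true,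
    cons_val_zero, cons_val_one] at *
  · rw [← map_pow, ← map_pow, hm, hn, cj_G, d_conj, d_conj, e2, e4]
    exact ⟨D.comm _ _, by simp, e3, by simp⟩
  · obtain ⟨a1, a2, a3, a4⟩ := e
    have := stepA (ZZ ψ) hη (z := ψ (xu 1)) (by
        rintro _ ⟨c, rfl⟩ h
        obtain ⟨j, hj⟩ := D.hζ c.toAdd⁻¹ (inv_ne_zero fun e => h (by
          change ψ (xu _) = 1
          rw [e, zero_of_add (r2_sl (F := Kf hF)).add, map_one]))
        have c0 : c.toAdd ≠ 0 := fun e => pow_ne_zero j D.ζ0 (by rw [hj, e, _root_.inv_zero])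
        exact ⟨j, (hz j _).trans (by rw [hj, inv_mul_cancel₀ c0])⟩)
      (by
        have := hz m 1
        rw [show D.ζ ^ m = 1 from Subtype.ext (by
          rw [SubmonoidClass.coe_pow, D.eζ, mul_pow, ← map_pow, ← Units.val_pow_eq_pow_val, hm]
          simp [μ, CForm.conj_conj, ω1]), one_mul, mul_inv_eq_iff_eq_mul] at this
        exact this)
      (by rintro _ ⟨c, rfl⟩; exact (same r2_sl.add _ _).map ψ) a1 (a2 ▸ mem_ZZ ψ _) (a3 ▸ mem_ZZ ψ _) (a4 ▸ mem_ZZ ψ _)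
    exact ⟨this.1, fun i _ => this.2 i⟩

theorem ex_eight [CharP F 2] (h8 : q = 8) {c : Kf hF} (hc : ι hF D.u ^ 2 = D.φ (xu c)) : D.Ex 2 6 c := by
  have c0 : c ≠ 0 := fun e => by
    rw [D.φxu, ← map_pow, pow_two] at hc
    have := congrArg Hs.b (ι_injective hc)
    simp [zc, e, D.hu, CharTwo.add_self_eq_zero] at this
  obtain ⟨k, hk, b, -⟩ := modl 2 D.ζ0 (top_unique fun a _ => by
    by_cases h : a = 0
    · exact h ▸ zero_mem _
    · obtain ⟨j, rfl⟩ := D.hζ a h; exact pow_mem (Subring.subset_closure (Set.mem_singleton _)) j)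
  obtain rfl : k = 3 := Nat.pow_right_injective le_rfl
    (hk.trans ((show Nat.card (Kf hF) = q from card_conj_fixed hF).trans h8))
  choose f hf using fun i : ℤ => D.excm D.u (sc (D.ω ^ i) D.u)
  refine ⟨5, [⁅gυ, gz (D.ζ ^ 1 * c)⁆, ⁅gυ, gz (D.ζ ^ 2 * c)⁆] ++
    [1, 2, 3, 4, 5].map fun i : ℕ => ⁅gυ, cj gη gυ i⁆ * (gz (f i))⁻¹, pres_sl2.2 inferInstance, by simp,
    ?_, fun J _ ψ ξ e _ _ a0 => ?_⟩ <;>
  simp only [List.forall_mem_append, List.forall_mem_map, List.forall_mem_cons (a := ⁅_, _⁆), map_mul, map_inv, map_cj,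
    Coprod.lift_apply_inl, Coprod.lift_apply_inr, FreeGroup.lift_apply_of, mul_inv_eq_one, map_commutatorElement,
    commutatorElement_eq_one_iff_commute, List.not_mem_nil, false_imp_iff, implies_true, and_true,
    cons_val_zero, cons_val_one] at *
  · exact ⟨⟨D.comm _ _, D.comm _ _⟩, fun i _ => by rw [cj_G, hf]⟩
  · obtain ⟨⟨a1, a2⟩, a3⟩ := e
    refine ⟨?_, fun i hi => ?_⟩
    · rintro _ ⟨a, rfl⟩
      obtain ⟨L, l1, l2⟩ := b (a.toAdd / c)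
      have : (L.map (D.ζ ^ ·)).sum ∈ xuA ((centralizer {ξ 1}).comap ψ) c := list_sum_mem fun x hx => by
        obtain ⟨i, hi, rfl⟩ := List.mem_map.1 hx
        refine mem_centralizer_singleton_iff.2 (Commute.symm ?_)
        have := l1 i hi
        interval_cases i
        exacts [by rw [pow_zero, one_mul, ← a0]; exact (Commute.refl _).pow_right _, a1, a2]
      rw [← l2] at this
      have := mem_centralizer_singleton_iff.1 this
      rw [div_mul_cancel₀ _ c0] at this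
      exact this.symm
    · by_cases h : i = 0
      · simp [h, cj_zero]
      · exact a3 i (by interval_cases i <;> simp at h ⊢) ▸ mem_ZZ ψ _

theorem gen_ch (h2 : q ≠ 2) : Subring.closure {ch hF D.ω} = ⊤ := by
  by_contra e
  have q2 := two_le_of_card_sq hF
  have ω0 := D.ω.ne_zero
  obtain ⟨r, r2, e2, e3, -⟩ := exists_frob e
  obtain ⟨r, rfl⟩ : ∃ s, r = s + 2 := ⟨r - 2, by omega⟩
  obtain ⟨s, rfl⟩ : ∃ s, q = s + 3 := ⟨q - 3, by omega⟩
  have e4 := e3 _ (Subring.subset_closure (Set.mem_singleton _))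
  rw [show ch hF D.ω = ((D.ω : F) ^ (s + 1))⁻¹ by rw [ch, conj_apply]; field_simp; ring, pow_succ _ (r + 1),
    mul_eq_right₀ (by positivity), inv_pow, inv_eq_one, ← pow_mul, D.ho] at e4
  rw [Nat.card_eq_fintype_card, hF] at e2 e4
  have h1 := (Nat.pow_le_pow_iff_left two_ne_zero).1 e2
  have h3 := Nat.le_of_dvd (by positivity) e4
  have : (s + 3) ^ 2 ≤ (s + 1) * (r + 1) + 1 := by omega
  nlinarith

include D in
theorem pres5 (h2 : q ≠ 2) (h5 : q ≠ 5) : Pres 5 20 (SJ hF) := by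
  have q2 := two_le_of_card_sq hF
  have : Finite (SJ hF) := Nat.finite_of_card_ne_zero (by
    rw [card_SJ]; have : 1 < q ^ 2 := by nlinarith
    exact mul_ne_zero (by positivity) (mul_ne_zero (by omega) (by positivity)))
  obtain ⟨p, hp⟩ := CharP.exists F
  have := Fact.mk (CharP.char_is_prime F p)
  have ω0 := D.ω.ne_zero
  have ω1 := conj_ne (hF := hF) D.ω
  obtain ⟨k, hk, b, M⟩ := modl p (show ch hF D.ω ≠ 0 by rw [ch]; positivity) (D.gen_ch h2)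
  obtain ⟨L, l1, l2⟩ := b (ch hF D.ω ^ k)
  obtain ⟨c5, e5⟩ : ∃ c, ι hF D.u ^ p = D.φ (xu c) := by
    obtain ⟨c, e⟩ := D.exc (x := D.u ^ p) (y := 1) (by
      have : ∀ n : ℕ, (D.u ^ n).a = n := fun n => by
        induction n with
        | zero => simp
        | succ n ih => simp [pow_succ, ih, D.hu]
      simp [this])
    exact ⟨c, by simpa using e⟩
  obtain ⟨r, E, hr, hE, eE, HE⟩ : D.Ex p k c5 := by
    by_cases h8 : q = 8
    · rw [Nat.card_eq_fintype_card, hF, h8] at hk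
      obtain rfl : p = 2 := (Nat.prime_dvd_prime_iff_eq Fact.out Nat.prime_two).1
        ((Fact.out : p.Prime).dvd_of_dvd_pow (n := 6) (by
          rw [show 2 ^ 6 = p ^ k by rw [hk]; rfl]; exact dvd_pow_self _ (by rintro rfl; simp at hk)))
      obtain rfl : k = 6 := Nat.pow_right_injective le_rfl hk
      exact D.ex_eight h8 e5
    · exact D.ex_gen p h2 h5 h8 _ _
  obtain ⟨c6, e6⟩ : ∃ c, (cj (d hF D.ω) (ι hF D.u) k)⁻¹ * wd (d hF D.ω) (ι hF D.u) L = D.φ (xu c) := by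
    obtain ⟨y, e1, e2⟩ := wd_G D.ω D.hu L
    obtain ⟨c, e⟩ := D.exc (x := y) (y := sc (D.ω ^ (k : ℤ)) D.u) (by rw [sc_pow, D.hu, mul_one, l2, e2])
    exact ⟨c, by rw [e1, e, cj_G, inv_mul_cancel_left]⟩
  choose Lx cx ex using D.exw b
  obtain ⟨a0, ha0⟩ := exists_norm_eq σ (CForm.conj_conj hF) (conj_ne_id hF) (-(D.δ * D.ω + σ (D.δ * D.ω)))
    (by simp only [map_neg, map_add, CForm.conj_conj, add_comm])
  let x0 : ℕ → Hs hF := fun i => ⟨(D.ω / σ D.ω) ^ i * a0, D.δ * D.ω, by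
    have : (D.ω / σ D.ω) ^ i * σ ((D.ω / σ D.ω) ^ i) = 1 := by
      rw [map_pow, ← mul_pow, map_div₀, CForm.conj_conj, div_mul_div_cancel₀ ω1, div_self ω0, one_pow]
    rw [map_mul σ _ a0]; linear_combination (a0 * σ a0) * this + ha0⟩
  have tri : ∀ i, ∃ (y z : Hs hF) (m : ℕ), D.φ (tw _) * ι hF (x0 i) * (D.φ (tw _))⁻¹ =
      ι hF y * D.φ (tw _) * (ι hF z * d hF D.ω ^ m) := fun i => by
    rcases bruhat3 D.h0 D.ht (D.φ (tw _) * ι hF (x0 i) * (D.φ (tw _))⁻¹) with ⟨-, x, l, e⟩ | ⟨y, z, l, e⟩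
    · rw [mul_inv_eq_iff_eq_mul] at e
      have e1 := congrFun (congrFun (congrArg (en hF) e) 2) 2
      simp only [en_mul, en_ι, en_d, D.ht] at e1
      simp [Matrix.mul_apply, Fin.sum_univ_three, D.h0, vecMul, dotProduct, x0] at e1
    · obtain ⟨m, rfl⟩ := D.unit l
      exact ⟨y, z, m, by rw [e, map_pow]⟩
  choose y z m tri using tri
  obtain ⟨s1, s2, hs⟩ := pair (Kf hF)
  refine (ext_inj hr D.φ ![d hF D.ω, ι hF D.u]
    ([s1, s2].map (fun s => gη * Coprod.inl s * gη⁻¹ * (Coprod.inl (cd (inv_ne_zero D.ζ0) s))⁻¹) ++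
      [gη ^ (q + 1) * (Coprod.inl (hd D.ζ))⁻¹, gυ ^ p * (gz c5)⁻¹, (cj gη gυ k)⁻¹ * wd gη gυ L * (gz c6)⁻¹] ++
      [0, 1, 2].map (fun i => Coprod.inl (tw _) * (wd gη gυ (Lx (x0 i)) * gz (cx (x0 i))) * (Coprod.inl (tw _))⁻¹ *
        (wd gη gυ (Lx (y i)) * gz (cx (y i)) * Coprod.inl (tw _) *
          (wd gη gυ (Lx (z i)) * gz (cx (z i)) * gη ^ m i))⁻¹) ++ E) ?_ (top_unique fun g _ => ?_)
    fun J _ ψ ξ ρ e ρψ ρξ => ?_).mono (by simp; omega)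
  · simp only [List.forall_mem_append, List.forall_mem_map, List.forall_mem_cons (a := _ * _), map_mul, map_inv, map_cj,
      map_wd, map_pow, Coprod.lift_apply_inl, Coprod.lift_apply_inr, FreeGroup.lift_apply_of, mul_inv_eq_one,
      List.not_mem_nil, false_imp_iff, implies_true, and_true, cons_val_zero, cons_val_one, ← ex]
    exact ⟨⟨⟨fun s _ => D.dφ s, D.φhd, e5, e6⟩, fun i _ => tri i⟩, eE⟩
  · set N := closure (Set.range D.φ ∪ Set.range ![d hF D.ω, ι hF D.u])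
    have a1 : ∀ s, D.φ s ∈ N := fun s => subset_closure (.inl ⟨s, rfl⟩)
    have a2 : d hF D.ω ∈ N := subset_closure (.inr ⟨0, rfl⟩)
    have a3 : ι hF D.u ∈ N := subset_closure (.inr ⟨1, rfl⟩)
    have a4 : ∀ x, ι hF x ∈ N := fun x => ex x ▸ mul_mem (wd_mem (fun i =>
      mul_mem (mul_mem (zpow_mem a2 _) a3) (inv_mem (zpow_mem a2 _))) _) (a1 _)
    have a5 : ∀ l, d hF l ∈ N := fun l => by obtain ⟨i, rfl⟩ := D.unit l; rw [map_pow]; exact pow_mem a2 _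
    rcases bruhat3 D.h0 D.ht g with ⟨-, x, l, rfl⟩ | ⟨y, z, l, rfl⟩
    exacts [mul_mem (a4 _) (a5 _), mul_mem (mul_mem (a4 _) (a1 _)) (mul_mem (a4 _) (a5 _))]
  simp only [List.forall_mem_append, List.forall_mem_map, List.forall_mem_cons (a := _ * _), map_mul, map_inv, map_cj,
    map_wd, map_pow, Coprod.lift_apply_inl, Coprod.lift_apply_inr, FreeGroup.lift_apply_of, mul_inv_eq_one,
    List.not_mem_nil, false_imp_iff, implies_true, and_true] at e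
  obtain ⟨⟨⟨r0, r3, r5, r6⟩, r7⟩, r8⟩ := e
  have ρη : ρ (ξ 0) = d hF D.ω := ρξ 0
  have ρυ : ρ (ξ 1) = ι hF D.u := ρξ 1
  have r1 : ∀ s, ξ 0 * ψ s * (ξ 0)⁻¹ = ψ (cd (inv_ne_zero D.ζ0) s) := fun s => (hs
    (((MulAut.conj (ξ 0)).toMonoidHom.comp ψ).eqLocus (ψ.comp (cd _))) (r0 _ (by simp)) (r0 _ (by simp))).ge (mem_top s)
  have hz : ∀ (i : ℕ) c, ξ 0 ^ i * ψ (xu c) * (ξ 0 ^ i)⁻¹ = ψ (xu (D.ζ ^ i * c)) := fun i c => by
    induction i with
    | zero => simp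
    | succ i ih => rw [pow_succ', pow_succ', mul_assoc D.ζ, ← inv_inv D.ζ, ← cd_xu (inv_ne_zero D.ζ0), ← r1, inv_inv, ← ih]; group
  have hη : ξ 0 ∈ normalizer (ZZ ψ : Set J) := by
    have : Finite (ZZ ψ : Set J) := Set.finite_range _
    refine mem_normalizer_fintype ?_
    rintro _ ⟨c, rfl⟩
    have := mem_ZZ ψ (D.ζ ^ 1 * c.toAdd)
    rwa [← hz, pow_one] at this
  obtain ⟨S1, S2⟩ := HE J ψ ξ r8 hz hη r5
  obtain ⟨X, ρX, ηX, m1, m2⟩ := borel ρ (ZZ ψ) (by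
      rintro _ ⟨c, rfl⟩ h
      change ρ (ψ (xu _)) = 1 at h
      rw [ρψ, D.φxu, ← (ι hF).map_one] at h
      have : c.toAdd = 0 := by simpa [zc, D.h0] using congrArg Hs.b (ι_injective h)
      change ψ (xu _) = 1
      rw [this, zero_of_add (r2_sl (F := Kf hF)).add, map_one])
    (by rintro _ ⟨c, rfl⟩; exact ⟨D.zc c.toAdd, (ρψ _).trans (D.φxu _), rfl⟩)
    (fun x h => by obtain ⟨c, rfl⟩ := D.ex0 h; exact ⟨_, mem_ZZ ψ c, (ρψ _).trans (D.φxu _)⟩) D.hu ρη ρυ hη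
    (by
      have : Finite (ZZ ψ : Set J) := Set.finite_range _
      exact mem_normalizer_fintype fun g hg => by rw [(S1 g hg).eq, mul_inv_cancel_right]; exact hg)
    b (M L l1 l2) S2 (r5 ▸ mem_ZZ ψ _) (r6 ▸ mem_ZZ ψ _)
  have eX : ∀ g ∈ X.range, ∀ x, ρ g = ι hF x → g = X x := by
    rintro _ ⟨x, rfl⟩ y h; rw [ι_injective ((ρX x).symm.trans h)]
  have w1 : ∀ x, wd (ξ 0) (ξ 1) (Lx x) * ψ (xu (cx x)) = X x := fun x => eX _ (mul_mem (m1 _) (m2 (mem_ZZ ψ _))) _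
    (by rw [map_mul, map_wd, ρη, ρυ, ρψ, ← ex])
  have w2 : ∀ c, ψ (xu c) = X (D.zc c) := fun c => eX _ (m2 (mem_ZZ ψ _)) _ ((ρψ _).trans (D.φxu _))
  obtain ⟨H0, H1, H2⟩ := exists_log ω0 D.hω D.ho (η := ξ 0) (by
    have e : Nat.card F - 1 = (q + 1) * (q - 1) := by rw [Nat.card_eq_fintype_card, hF, ← Nat.sq_sub_sq, one_pow]
    rw [e, pow_mul, r3, ← map_pow, hd_pow D.ζ0, show D.ζ ^ (q - 1) = D.ζ ^ 0 from Subtype.ext (by
      rw [pow_zero, SubmonoidClass.coe_pow, D.eζ, conj_apply, ← pow_succ', ← pow_mul, ← e]; exact (D.ho _).2 dvd_rfl),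
      ← hd_pow D.ζ0, pow_zero, map_one])
  let H : Fˣ →* J := MonoidHom.mk' (fun l => H0 l) fun a b => H2 _ _ a.ne_zero b.ne_zero
  have Hω : ∀ i : ℕ, H (D.ω ^ i) = ξ 0 ^ i := fun i => (congrArg H0 (Units.val_pow_eq_pow_val _ _)).trans (H1 i)
  have Hhd : ∀ (c : Kf hF) (l : Fˣ), (l : F) = c → ψ (hd c) = H l := fun c l h => by
    obtain ⟨j, rfl⟩ := D.hζ c fun e => l.ne_zero (by rw [h, e]; rfl)
    rw [← hd_pow D.ζ0, map_pow, ← r3, ← pow_mul, ← Hω]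
    congr 1
    exact Units.ext (by
      rw [h, SubmonoidClass.coe_pow, D.eζ, conj_apply, ← pow_succ', ← pow_mul, Units.val_pow_eq_pow_val])
  refine core D.h0 D.hδ ρ X H (ψ (tw _)) ρX (fun l => ?_) (by rw [ρψ, D.ht]) (fun l x => ?_) (fun l => ?_)
    (by rw [← map_mul, r2_sl.t2]; exact Hhd _ _ (by simp)) (fun c c0 c1 => ?_) D.hω (x0 0) rfl (fun i hi x h1 h2 => ?_)
    fun N n1 n2 n3 => (closure_le _).2 ?_
  · obtain ⟨i, rfl⟩ := D.unit l
    rw [Hω, map_pow, map_pow, ρη]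
  · obtain ⟨i, rfl⟩ := D.unit l
    rw [Hω]
    induction i with
    | zero => simp [sc_one]
    | succ i ih => rw [pow_succ', pow_succ', mul_assoc, ih, ← mul_assoc, ηX, sc_mul, mul_assoc]
  · obtain ⟨i, rfl⟩ := D.unit l
    have := r1 (tw _)
    rw [show cd (inv_ne_zero D.ζ0) (tw _) = hd D.ζ * tw _ from Subtype.ext (by simp [cd_val, tw_val, hd_val D.ζ0]),
      map_mul, ← r3, pow_succ', mul_assoc, mul_assoc, mul_right_inj] at this
    refine ⟨((D.ω ^ q)⁻¹) ^ i, ?_⟩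
    rw [map_pow H _⁻¹, map_inv, Hω, Hω, ← mul_inv_eq_iff_eq_mul, ← conj_pow, eq_mul_inv_of_mul_eq this.symm]
    group
  · obtain ⟨a, rfl⟩ := D.ex0 c0
    have a0 : a ≠ 0 := fun e => c1 (by simp [zc, e])
    have a1 : (a : F) ≠ 0 := fun e => a0 (Subtype.ext e)
    refine ⟨D.zc (-a⁻¹), Units.mk0 _ (inv_ne_zero a1), D.zc (-a⁻¹), rfl, by simp [zc]; field_simp, ?_⟩
    have := congrArg ψ (r2_sl.hR a⁻¹ (inv_ne_zero a0))
    simp only [map_mul, map_inv, inv_inv] at this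
    rw [← Hhd a⁻¹ _ (by simp), ← w2, ← w2, neg_of_add (r2_sl (F := Kf hF)).add, map_inv, mul_assoc _ (ψ (hd _)), ← this]
    group
  · obtain rfl : x = x0 i := Hs.ext (by simpa [x0] using h1) h2
    exact ⟨y i, z i, D.ω ^ m i, by rw [Hω, ← w1, ← w1, ← w1]; exact r7 i (by interval_cases i <;> simp)⟩
  · rintro _ (⟨s, rfl⟩ | ⟨i, rfl⟩)
    · exact (gen2 (M := N.comap ψ) (fun a => show ψ _ ∈ N from w2 a ▸ n1 _) n3).ge (mem_top s)
    · fin_cases i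
      · exact pow_one (ξ 0) ▸ Hω 1 ▸ n2 _
      · obtain ⟨x, e⟩ := m1 [0]
        simpa [e, wd, cj_zero] using n1 x

end Dat

theorem pres_su3' (hF : Fintype.card F = q ^ 2) (h2 : q ≠ 2) (h5 : q ≠ 5) : Pres 5 20 (Cfsg.SU 3 F q) := by
  obtain ⟨D⟩ := exists_dat hF
  obtain ⟨e⟩ := nonempty_equiv hF
  exact (D.pres5 h2 h5).congr e.symm

end CA.H13Su
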