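/-
A bounded presentation of `SU₃(q)`, including `q = 5`.
-/
import Cfsg.Agent.Lib.Lin.H13Su3

set_option autoImplicit false
set_option maxHeartbeats 400000

namespace CA.H13Su

open Matrix Subgroup CA.Prs CA.CForm CA.SU3 CA.H13Pr Monoid
open scoped MatrixGroups commutatorElement

variable {F : Type*} [Field F] [Fintype F] {q : ℕ} {hF : Fintype.card F = q ^ 2}

local notation "σ" => conj hF
local notation "gη" => (Coprod.inr (FreeGroup.of 0) : Coprod SL(2, Kf hF) (FreeGroup (Fin 2)))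
local notation "gυ" => (Coprod.inr (FreeGroup.of 1) : Coprod SL(2, Kf hF) (FreeGroup (Fin 2)))
local notation "gz" c:max => (Coprod.inl (xu c) : Coprod SL(2, Kf hF) (FreeGroup (Fin 2)))

namespace Dat

variable (D : Dat hF)

theorem ex_five [Fact (Nat.Prime 5)] [CharP F 5] (h5 : q = 5) (c : Kf hF) : D.Ex 5 2 c := by
  obtain ⟨k, hk, b, -⟩ := modl 5 D.ζ0 (top_unique fun a _ => by
    by_cases h : a = 0
    · exact h ▸ zero_mem _
    · obtain ⟨j, rfl⟩ := D.hζ a h; exact pow_mem (Subring.subset_closure (Set.mem_singleton _)) j)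
  obtain rfl : k = 1 := Nat.pow_right_injective (show 2 ≤ 5 by simp)
    (hk.trans ((show Nat.card (Kf hF) = q from card_conj_fixed hF).trans h5))
  obtain ⟨c3, e3⟩ := D.excm D.u (sc (D.ω ^ (1 : ℤ)) D.u)
  refine ⟨8, [⁅gυ, gz 1⁆, ⁅gυ, cj gη gυ 1⁆ * (gz c3)⁻¹], pres_sl2.1, by simp, ?_, fun J _ ψ ξ e _ _ _ => ?_⟩ <;>
  simp only [List.forall_mem_cons, map_mul, map_inv, map_cj,
    Coprod.lift_apply_inl, Coprod.lift_apply_inr, FreeGroup.lift_apply_of, mul_inv_eq_one, map_commutatorElement,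
    commutatorElement_eq_one_iff_commute, List.not_mem_nil, false_imp_iff, implies_true, and_true,
    cons_val_zero, cons_val_one] at *
  · exact ⟨D.comm _ _, by rw [cj_G, e3]⟩
  · obtain ⟨a1, a3⟩ := e
    refine ⟨?_, fun i hi => ?_⟩
    · rintro _ ⟨a, rfl⟩
      obtain ⟨L, l1, l2⟩ := b a.toAdd
      have : (L.map (D.ζ ^ ·)).sum ∈ xuA ((centralizer {ξ 1}).comap ψ) 1 := list_sum_mem fun x hx => by
        obtain ⟨i, hi, rfl⟩ := List.mem_map.1 hx
        refine mem_centralizer_singleton_iff.2 (Commute.symm ?_)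
        rw [Nat.lt_one_iff.1 (l1 i hi), pow_zero, one_mul]; exact a1
      rw [← l2] at this
      have := mem_centralizer_singleton_iff.1 this
      rw [mul_one] at this
      exact this.symm
    · interval_cases i
      · simp [cj_zero]
      · exact a3 ▸ mem_ZZ ψ _

include D in
theorem pres5' (h2 : q ≠ 2) : Pres 5 20 (SJ hF) := by
  have q2 := two_le_of_card_sq hF
  have : Finite (SJ hF) := Nat.finite_of_card_ne_zero (by
    rw [card_SJ]; have : 1 < q ^ 2 := by nlinarith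
    exact mul_ne_zero (by positivity) (mul_ne_zero (by omega) (by positivity)))
  obtain ⟨p, hp⟩ := CharP.exists F
  have := Fact.mk (CharP.char_is_prime F p)
  have ω0 := D.ω.ne_zero
  have ω1 := conj_ne (hF := hF) D.ω
  obtain ⟨k, hk, b, M⟩ := modl p (show ch hF D.ω ≠ 0 by rw [ch]; positivity) (D.gen_ch h2)
  obtain ⟨L, l1, l2⟩ := b (ch hF D.ω ^ k)
  obtain ⟨c5, e5⟩ : ∃ c, ι hF D.u ^ p = D.φ (xu c) := by
    obtain ⟨c, e⟩ := D.exc (x := D.u ^ p) (y := 1) (by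
      have : ∀ n : ℕ, (D.u ^ n).a = n := fun n => by
        induction n with
        | zero => simp
        | succ n ih => simp [pow_succ, ih, D.hu]
      simp [this])
    exact ⟨c, by simpa using e⟩
  obtain ⟨r, E, hr, hE, eE, HE⟩ : D.Ex p k c5 := by
    by_cases h5 : q = 5
    · rw [Nat.card_eq_fintype_card, hF, h5] at hk
      obtain rfl : p = 5 := (Nat.prime_dvd_prime_iff_eq Fact.out Nat.prime_five).1
        ((Fact.out : p.Prime).dvd_of_dvd_pow (n := 2) (by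
          rw [← hk]; exact dvd_pow_self _ (by rintro rfl; simp at hk)))
      obtain rfl : k = 2 := Nat.pow_right_injective (by simp) hk
      exact D.ex_five h5 _
    by_cases h8 : q = 8
    · rw [Nat.card_eq_fintype_card, hF, h8] at hk
      obtain rfl : p = 2 := (Nat.prime_dvd_prime_iff_eq Fact.out Nat.prime_two).1
        ((Fact.out : p.Prime).dvd_of_dvd_pow (n := 6) (by
          rw [show 2 ^ 6 = p ^ k by rw [hk]; rfl]; exact dvd_pow_self _ (by rintro rfl; simp at hk)))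
      obtain rfl : k = 6 := Nat.pow_right_injective le_rfl hk
      exact D.ex_eight h8 e5
    · exact D.ex_gen p h2 h5 h8 _ _
  obtain ⟨c6, e6⟩ : ∃ c, (cj (d hF D.ω) (ι hF D.u) k)⁻¹ * wd (d hF D.ω) (ι hF D.u) L = D.φ (xu c) := by
    obtain ⟨y, e1, e2⟩ := wd_G D.ω D.hu L
    obtain ⟨c, e⟩ := D.exc (x := y) (y := sc (D.ω ^ (k : ℤ)) D.u) (by rw [sc_pow, D.hu, mul_one, l2, e2])
    exact ⟨c, by rw [e1, e, cj_G, inv_mul_cancel_left]⟩
  choose Lx cx ex using D.exw b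
  obtain ⟨a0, ha0⟩ := exists_norm_eq σ (CForm.conj_conj hF) (conj_ne_id hF) (-(D.δ * D.ω + σ (D.δ * D.ω)))
    (by simp only [map_neg, map_add, CForm.conj_conj, add_comm])
  let x0 : ℕ → Hs hF := fun i => ⟨(D.ω / σ D.ω) ^ i * a0, D.δ * D.ω, by
    have : (D.ω / σ D.ω) ^ i * σ ((D.ω / σ D.ω) ^ i) = 1 := by
      rw [map_pow, ← mul_pow, map_div₀, CForm.conj_conj, div_mul_div_cancel₀ ω1, div_self ω0, one_pow]
    rw [map_mul σ _ a0]; linear_combination (a0 * σ a0) * this + ha0⟩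
  have tri : ∀ i, ∃ (y z : Hs hF) (m : ℕ), D.φ (tw _) * ι hF (x0 i) * (D.φ (tw _))⁻¹ =
      ι hF y * D.φ (tw _) * (ι hF z * d hF D.ω ^ m) := fun i => by
    rcases bruhat3 D.h0 D.ht (D.φ (tw _) * ι hF (x0 i) * (D.φ (tw _))⁻¹) with ⟨-, x, l, e⟩ | ⟨y, z, l, e⟩
    · rw [mul_inv_eq_iff_eq_mul] at e
      have e1 := congrFun (congrFun (congrArg (en hF) e) 2) 2
      simp only [en_mul, en_ι, en_d, D.ht] at e1
      simp [Matrix.mul_apply, Fin.sum_univ_three, D.h0, vecMul, dotProduct, x0] at e1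
    · obtain ⟨m, rfl⟩ := D.unit l
      exact ⟨y, z, m, by rw [e, map_pow]⟩
  choose y z m tri using tri
  obtain ⟨s1, s2, hs⟩ := pair (Kf hF)
  refine (ext_inj hr D.φ ![d hF D.ω, ι hF D.u]
    ([s1, s2].map (fun s => gη * Coprod.inl s * gη⁻¹ * (Coprod.inl (cd (inv_ne_zero D.ζ0) s))⁻¹) ++
      [gη ^ (q + 1) * (Coprod.inl (hd D.ζ))⁻¹, gυ ^ p * (gz c5)⁻¹, (cj gη gυ k)⁻¹ * wd gη gυ L * (gz c6)⁻¹] ++
      [0, 1, 2].map (fun i => Coprod.inl (tw _) * (wd gη gυ (Lx (x0 i)) * gz (cx (x0 i))) * (Coprod.inl (tw _))⁻¹ *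
        (wd gη gυ (Lx (y i)) * gz (cx (y i)) * Coprod.inl (tw _) *
          (wd gη gυ (Lx (z i)) * gz (cx (z i)) * gη ^ m i))⁻¹) ++ E) ?_ (top_unique fun g _ => ?_)
    fun J _ ψ ξ ρ e ρψ ρξ => ?_).mono (by simp; omega)
  · simp only [List.forall_mem_append, List.forall_mem_map, List.forall_mem_cons (a := _ * _), map_mul, map_inv, map_cj,
      map_wd, map_pow, Coprod.lift_apply_inl, Coprod.lift_apply_inr, FreeGroup.lift_apply_of, mul_inv_eq_one,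
      List.not_mem_nil, false_imp_iff, implies_true, and_true, cons_val_zero, cons_val_one, ← ex]
    exact ⟨⟨⟨fun s _ => D.dφ s, D.φhd, e5, e6⟩, fun i _ => tri i⟩, eE⟩
  · set N := closure (Set.range D.φ ∪ Set.range ![d hF D.ω, ι hF D.u])
    have a1 : ∀ s, D.φ s ∈ N := fun s => subset_closure (.inl ⟨s, rfl⟩)
    have a2 : d hF D.ω ∈ N := subset_closure (.inr ⟨0, rfl⟩)
    have a3 : ι hF D.u ∈ N := subset_closure (.inr ⟨1, rfl⟩)
    have a4 : ∀ x, ι hF x ∈ N := fun x => ex x ▸ mul_mem (wd_mem (fun i =>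
      mul_mem (mul_mem (zpow_mem a2 _) a3) (inv_mem (zpow_mem a2 _))) _) (a1 _)
    have a5 : ∀ l, d hF l ∈ N := fun l => by obtain ⟨i, rfl⟩ := D.unit l; rw [map_pow]; exact pow_mem a2 _
    rcases bruhat3 D.h0 D.ht g with ⟨-, x, l, rfl⟩ | ⟨y, z, l, rfl⟩
    exacts [mul_mem (a4 _) (a5 _), mul_mem (mul_mem (a4 _) (a1 _)) (mul_mem (a4 _) (a5 _))]
  simp only [List.forall_mem_append, List.forall_mem_map, List.forall_mem_cons (a := _ * _), map_mul, map_inv, map_cj,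
    map_wd, map_pow, Coprod.lift_apply_inl, Coprod.lift_apply_inr, FreeGroup.lift_apply_of, mul_inv_eq_one,
    List.not_mem_nil, false_imp_iff, implies_true, and_true] at e
  obtain ⟨⟨⟨r0, r3, r5, r6⟩, r7⟩, r8⟩ := e
  have ρη : ρ (ξ 0) = d hF D.ω := ρξ 0
  have ρυ : ρ (ξ 1) = ι hF D.u := ρξ 1
  have r1 : ∀ s, ξ 0 * ψ s * (ξ 0)⁻¹ = ψ (cd (inv_ne_zero D.ζ0) s) := fun s => (hs
    (((MulAut.conj (ξ 0)).toMonoidHom.comp ψ).eqLocus (ψ.comp (cd _))) (r0 _ (by simp)) (r0 _ (by simp))).ge (mem_top s)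
  have hz : ∀ (i : ℕ) c, ξ 0 ^ i * ψ (xu c) * (ξ 0 ^ i)⁻¹ = ψ (xu (D.ζ ^ i * c)) := fun i c => by
    induction i with
    | zero => simp
    | succ i ih => rw [pow_succ', pow_succ', mul_assoc D.ζ, ← inv_inv D.ζ, ← cd_xu (inv_ne_zero D.ζ0), ← r1, inv_inv, ← ih]; group
  have hη : ξ 0 ∈ normalizer (ZZ ψ : Set J) := by
    have : Finite (ZZ ψ : Set J) := Set.finite_range _
    refine mem_normalizer_fintype ?_
    rintro _ ⟨c, rfl⟩
    have := mem_ZZ ψ (D.ζ ^ 1 * c.toAdd)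
    rwa [← hz, pow_one] at this
  obtain ⟨S1, S2⟩ := HE J ψ ξ r8 hz hη r5
  obtain ⟨X, ρX, ηX, m1, m2⟩ := borel ρ (ZZ ψ) (by
      rintro _ ⟨c, rfl⟩ h
      change ρ (ψ (xu _)) = 1 at h
      rw [ρψ, D.φxu, ← (ι hF).map_one] at h
      have : c.toAdd = 0 := by simpa [zc, D.h0] using congrArg Hs.b (ι_injective h)
      change ψ (xu _) = 1
      rw [this, zero_of_add (r2_sl (F := Kf hF)).add, map_one])
    (by rintro _ ⟨c, rfl⟩; exact ⟨D.zc c.toAdd, (ρψ _).trans (D.φxu _), rfl⟩)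
    (fun x h => by obtain ⟨c, rfl⟩ := D.ex0 h; exact ⟨_, mem_ZZ ψ c, (ρψ _).trans (D.φxu _)⟩) D.hu ρη ρυ hη
    (by
      have : Finite (ZZ ψ : Set J) := Set.finite_range _
      exact mem_normalizer_fintype fun g hg => by rw [(S1 g hg).eq, mul_inv_cancel_right]; exact hg)
    b (M L l1 l2) S2 (r5 ▸ mem_ZZ ψ _) (r6 ▸ mem_ZZ ψ _)
  have eX : ∀ g ∈ X.range, ∀ x, ρ g = ι hF x → g = X x := by
    rintro _ ⟨x, rfl⟩ y h; rw [ι_injective ((ρX x).symm.trans h)]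
  have w1 : ∀ x, wd (ξ 0) (ξ 1) (Lx x) * ψ (xu (cx x)) = X x := fun x => eX _ (mul_mem (m1 _) (m2 (mem_ZZ ψ _))) _
    (by rw [map_mul, map_wd, ρη, ρυ, ρψ, ← ex])
  have w2 : ∀ c, ψ (xu c) = X (D.zc c) := fun c => eX _ (m2 (mem_ZZ ψ _)) _ ((ρψ _).trans (D.φxu _))
  obtain ⟨H0, H1, H2⟩ := exists_log ω0 D.hω D.ho (η := ξ 0) (by
    have e : Nat.card F - 1 = (q + 1) * (q - 1) := by rw [Nat.card_eq_fintype_card, hF, ← Nat.sq_sub_sq, one_pow]
    rw [e, pow_mul, r3, ← map_pow, hd_pow D.ζ0, show D.ζ ^ (q - 1) = D.ζ ^ 0 from Subtype.ext (by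
      rw [pow_zero, SubmonoidClass.coe_pow, D.eζ, conj_apply, ← pow_succ', ← pow_mul, ← e]; exact (D.ho _).2 dvd_rfl),
      ← hd_pow D.ζ0, pow_zero, map_one])
  let H : Fˣ →* J := MonoidHom.mk' (fun l => H0 l) fun a b => H2 _ _ a.ne_zero b.ne_zero
  have Hω : ∀ i : ℕ, H (D.ω ^ i) = ξ 0 ^ i := fun i => (congrArg H0 (Units.val_pow_eq_pow_val _ _)).trans (H1 i)
  have Hhd : ∀ (c : Kf hF) (l : Fˣ), (l : F) = c → ψ (hd c) = H l := fun c l h => by
    obtain ⟨j, rfl⟩ := D.hζ c fun e => l.ne_zero (by rw [h, e]; rfl)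
    rw [← hd_pow D.ζ0, map_pow, ← r3, ← pow_mul, ← Hω]
    congr 1
    exact Units.ext (by
      rw [h, SubmonoidClass.coe_pow, D.eζ, conj_apply, ← pow_succ', ← pow_mul, Units.val_pow_eq_pow_val])
  refine core D.h0 D.hδ ρ X H (ψ (tw _)) ρX (fun l => ?_) (by rw [ρψ, D.ht]) (fun l x => ?_) (fun l => ?_)
    (by rw [← map_mul, r2_sl.t2]; exact Hhd _ _ (by simp)) (fun c c0 c1 => ?_) D.hω (x0 0) rfl (fun i hi x h1 h2 => ?_)
    fun N n1 n2 n3 => (closure_le _).2 ?_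
  · obtain ⟨i, rfl⟩ := D.unit l
    rw [Hω, map_pow, map_pow, ρη]
  · obtain ⟨i, rfl⟩ := D.unit l
    rw [Hω]
    induction i with
    | zero => simp [sc_one]
    | succ i ih => rw [pow_succ', pow_succ', mul_assoc, ih, ← mul_assoc, ηX, sc_mul, mul_assoc]
  · obtain ⟨i, rfl⟩ := D.unit l
    have := r1 (tw _)
    rw [show cd (inv_ne_zero D.ζ0) (tw _) = hd D.ζ * tw _ from Subtype.ext (by simp [cd_val, tw_val, hd_val D.ζ0]),
      map_mul, ← r3, pow_succ', mul_assoc, mul_assoc, mul_right_inj] at this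
    refine ⟨((D.ω ^ q)⁻¹) ^ i, ?_⟩
    rw [map_pow H _⁻¹, map_inv, Hω, Hω, ← mul_inv_eq_iff_eq_mul, ← conj_pow, eq_mul_inv_of_mul_eq this.symm]
    group
  · obtain ⟨a, rfl⟩ := D.ex0 c0
    have a0 : a ≠ 0 := fun e => c1 (by simp [zc, e])
    have a1 : (a : F) ≠ 0 := fun e => a0 (Subtype.ext e)
    refine ⟨D.zc (-a⁻¹), Units.mk0 _ (inv_ne_zero a1), D.zc (-a⁻¹), rfl, by simp [zc]; field_simp, ?_⟩
    have := congrArg ψ (r2_sl.hR a⁻¹ (inv_ne_zero a0))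
    simp only [map_mul, map_inv, inv_inv] at this
    rw [← Hhd a⁻¹ _ (by simp), ← w2, ← w2, neg_of_add (r2_sl (F := Kf hF)).add, map_inv, mul_assoc _ (ψ (hd _)), ← this]
    group
  · obtain rfl : x = x0 i := Hs.ext (by simpa [x0] using h1) h2
    exact ⟨y i, z i, D.ω ^ m i, by rw [Hω, ← w1, ← w1, ← w1]; exact r7 i (by interval_cases i <;> simp)⟩
  · rintro _ (⟨s, rfl⟩ | ⟨i, rfl⟩)
    · exact (gen2 (M := N.comap ψ) (fun a => show ψ _ ∈ N from w2 a ▸ n1 _) n3).ge (mem_top s)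
    · fin_cases i
      · exact pow_one (ξ 0) ▸ Hω 1 ▸ n2 _
      · obtain ⟨x, e⟩ := m1 [0]
        simpa [e, wd, cj_zero] using n1 x

end Dat

/-- `SU₃(q)`, `q ≠ 2`: 5 generators, 20 relations -/
theorem pres_su3 (hF : Fintype.card F = q ^ 2) (h2 : q ≠ 2) : Pres 5 20 (Cfsg.SU 3 F q) := by
  obtain ⟨D⟩ := exists_dat hF
  obtain ⟨e⟩ := nonempty_equiv hF
  exact (D.pres5' h2).congr e.symm

end CA.H13Su
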