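/-
Presentations from coset enumerations; central extensions.
-/
import Cfsg.Agent.Lib.Lin.H13Su1
import Cfsg.Agent.Lib.Comp.CPres

set_option autoImplicit false
set_option maxHeartbeats 400000

namespace CA.H13Su

open Subgroup CA.Prs Monoid CA.CWord CA.CTodd
open scoped commutatorElement

theorem pres_of_bound {k N : ℕ} {rels gens : List Word} (hb : Bound.{0} rels gens N)
    (hl : ∀ r ∈ rels, ∀ a ∈ r, a < 2 * k) (hg : gens = (List.range k).map fun i => [2 * i])
    {G : Type*} [Group G] (g : ℕ → G) (hr : ∀ r ∈ rels, ev g r = 1) (hN : N ≤ Nat.card (grp g gens)) (h0 : 0 < N) :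
    Pres k rels.length (grp g gens) := by
  classical
  let f : ℕ → FreeGroup (Fin k) := fun i => if h : i < k then .of ⟨i, h⟩ else 1
  let R : Finset (FreeGroup (Fin k)) := (rels.map (ev f)).toFinset
  let mk := PresentedGroup.mk (R : Set (FreeGroup (Fin k)))
  obtain ⟨h1, h2⟩ := hb _ (fun i => mk (f i)) fun r hr => by
    rw [← map_ev]
    exact PresentedGroup.one_of_mem (by simpa [R] using ⟨r, hr, rfl⟩)
  have top : grp (fun i => mk (f i)) gens = ⊤ := top_unique ((PresentedGroup.closure_range_of _).ge.trans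
    ((closure_le _).2 (by
      rintro _ ⟨i, rfl⟩
      have := ev_gen (fun i => mk (f i)) i ▸ mem_grp (fun i => mk (f i)) (hg ▸ List.mem_map.2 ⟨i, by simp, rfl⟩ :
        [2 * (i : ℕ)] ∈ gens)
      simp only [f, i.2, dif_pos] at this
      exact this)))
  let φ : PresentedGroup (R : Set (FreeGroup (Fin k))) →* G := PresentedGroup.toGroup (f := fun i : Fin k => g i) fun w hw => by
    obtain ⟨r, h, rfl⟩ : ∃ r ∈ rels, ev f r = w := by simpa [R] using hw
    rw [map_ev, ← hr r h]
    exact CPres.ev_congr (fun i hi => by simp [f, hi]) (hl r h)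
  have rg : φ.range = grp g gens := by
    rw [MonoidHom.range_eq_map, ← top, map_grp]
    exact CPres.grp_congr (k := k) (fun i hi => by simp only [f, hi, dif_pos]; exact PresentedGroup.toGroup.of _)
      fun w hw a ha => by
        obtain ⟨i, hi, rfl⟩ := List.mem_map.1 (hg ▸ hw)
        simp at ha hi; omega
  rw [top] at h1 h2
  rw [card_top] at h2
  have : Finite (PresentedGroup (R : Set (FreeGroup (Fin k)))) := Finite.of_equiv _ topEquiv.toEquiv
  exact ⟨R, (List.toFinset_card_le _).trans (by simp), ⟨(MulEquiv.ofBijective φ.rangeRestrict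
    ((Nat.bijective_iff_surjective_and_card _).2 ⟨φ.rangeRestrict_surjective, le_antisymm (h2.trans (rg ▸ hN))
      (Nat.card_le_card_of_surjective _ φ.rangeRestrict_surjective)⟩)).trans (MulEquiv.subgroupCongr rg)⟩⟩

/-- central extensions by a cyclic group -/
theorem cext {G : Type*} [Group G] [Finite G] {d r : ℕ} (h : Pres d r (G ⧸ center G)) [IsCyclic (center G)] :
    Pres (d + 1) (r + d + 1) G := by
  classical
  obtain ⟨R, hR, ⟨e⟩⟩ := h
  obtain ⟨⟨z, hz⟩, hz'⟩ := IsCyclic.exists_generator (α := center G)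
  have zp : ∀ g ∈ center G, ∃ m : ℤ, z ^ m = g := fun g hg => (hz' ⟨g, hg⟩).imp fun _ h => congrArg Subtype.val h
  choose x hx using fun i : Fin d => QuotientGroup.mk'_surjective (center G) (e (.of i))
  have e1 : (QuotientGroup.mk' _).comp (FreeGroup.lift x) = e.toMonoidHom.comp (PresentedGroup.mk _) := by
    ext i; simp only [MonoidHom.comp_apply, FreeGroup.lift_apply_of]; exact hx i
  have e2 : ∀ w, FreeGroup.lift x w ∈ center G ↔ w ∈ normalClosure (R : Set (FreeGroup (Fin d))) := fun w => by
    rw [← QuotientGroup.eq_one_iff, ← PresentedGroup.mk_eq_one_iff, ← e.map_eq_one_iff]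
    exact Eq.congr_left (DFunLike.congr_fun e1 w)
  choose! m hm using fun w (hw : w ∈ R) => zp _ ((e2 w).2 (subset_normalClosure hw))
  let ι : FreeGroup (Fin d) →* Coprod Unit (FreeGroup (Fin (d + 1))) := Coprod.inr.comp (FreeGroup.map Fin.castSucc)
  let ζ : Coprod Unit (FreeGroup (Fin (d + 1))) := Coprod.inr (.of (Fin.last d))
  have l : ∀ (ψ : Unit →* G) (ξ : Fin (d + 1) → G) w,
      Coprod.lift ψ (FreeGroup.lift ξ) (ι w) = FreeGroup.lift (fun i => ξ i.castSucc) w := fun ψ ξ w =>
    DFunLike.congr_fun (show (Coprod.lift ψ (FreeGroup.lift ξ)).comp ι = _ by ext i; simp [ι]) w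
  have l' : ∀ {J : Type} [Group J] (ψ : Unit →* J) (ξ : Fin (d + 1) → J) w,
      Coprod.lift ψ (FreeGroup.lift ξ) (ι w) = FreeGroup.lift (fun i => ξ i.castSucc) w := fun ψ ξ w =>
    DFunLike.congr_fun (show (Coprod.lift ψ (FreeGroup.lift ξ)).comp ι = _ by ext i; simp [ι]) w
  have := ext_inj pres_unit (1 : Unit →* G) (Fin.snoc x z)
    (R.toList.map (fun w => ζ ^ m w * (ι w)⁻¹) ++ (List.finRange d).map (fun i => ⁅ι (.of i), ζ⁆) ++ [ζ ^ orderOf z])
    (by
      simp only [List.forall_mem_append, List.forall_mem_map, List.forall_mem_cons, map_mul, map_inv, map_zpow, map_pow,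
        map_commutatorElement, l, ζ, Coprod.lift_apply_inr, FreeGroup.lift_apply_of, Fin.snoc_last, Fin.snoc_castSucc,
        mul_inv_eq_one, commutatorElement_eq_one_iff_commute, Finset.mem_toList]
      exact ⟨⟨hm, fun i _ => mem_center_iff.1 hz _⟩, pow_orderOf_eq_one z, by simp⟩)
    (top_unique fun g _ => by
      obtain ⟨w, hw⟩ := (e.surjective.comp (PresentedGroup.mk_surjective _)) (QuotientGroup.mk' _ g)
      obtain ⟨n, hn⟩ := zp _ (QuotientGroup.eq.1 ((DFunLike.congr_fun e1 w).trans hw))
      rw [eq_inv_mul_iff_mul_eq] at hn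
      refine hn ▸ mul_mem ?_ (zpow_mem (subset_closure (.inr ⟨Fin.last d, by simp⟩)) _)
      refine (show (FreeGroup.lift x).range ≤ _ from ?_) ⟨w, rfl⟩
      rw [FreeGroup.range_lift_eq_closure]
      exact closure_mono (by rintro _ ⟨i, rfl⟩; exact .inr ⟨i.castSucc, by simp⟩))
    fun J _ ψ ξ ρ h _ ρξ g hg h1 => by
      simp only [List.forall_mem_append, List.forall_mem_map, List.forall_mem_cons, map_mul, map_inv, map_zpow, map_pow,
        map_commutatorElement, l', ζ, Coprod.lift_apply_inr, FreeGroup.lift_apply_of,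
        mul_inv_eq_one, commutatorElement_eq_one_iff_commute, Finset.mem_toList] at h
      obtain ⟨⟨a1, a2⟩, a3, -⟩ := h
      set f := FreeGroup.lift fun i : Fin d => ξ i.castSucc
      set c := ξ (Fin.last d)
      have ρc : ρ c = z := by simpa using ρξ (Fin.last d)
      have ρf : ∀ w, ρ (f w) = FreeGroup.lift x w := DFunLike.congr_fun (show ρ.comp f = _ by ext i; simp [f, ρξ])
      have cm : ∀ w, Commute (f w) c := fun w => mem_centralizer_singleton_iff.1
        ((show f.range ≤ centralizer {c} by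
          rw [FreeGroup.range_lift_eq_closure, closure_le]
          rintro _ ⟨i, rfl⟩
          exact mem_centralizer_singleton_iff.2 (by simpa [f] using (a2 i (by simp)).eq)) ⟨w, rfl⟩)
      obtain ⟨w, n, rfl⟩ : ∃ (w : _) (n : ℤ), g = f w * c ^ n := by
        clear h1
        induction hg using closure_induction with
        | mem g hg =>
          obtain ⟨n, rfl⟩ | ⟨i, rfl⟩ := hg
          · exact ⟨1, 0, by rw [Subsingleton.elim n 1, map_one, map_one, zpow_zero, one_mul]⟩
          · induction i using Fin.lastCases with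
            | last => exact ⟨1, 1, by simp [c]⟩
            | cast i => exact ⟨.of i, 0, by simp [f]⟩
        | one => exact ⟨1, 0, by simp⟩
        | mul a b _ _ ha hb =>
          obtain ⟨w, n, rfl⟩ := ha
          obtain ⟨v, k, rfl⟩ := hb
          exact ⟨w * v, n + k, by
            rw [map_mul, zpow_add, mul_assoc, ← mul_assoc (c ^ n), ← ((cm v).zpow_right n).eq]; group⟩
        | inv a _ ha =>
          obtain ⟨w, n, rfl⟩ := ha
          exact ⟨w⁻¹, -n, by rw [((cm w).zpow_right n).eq, _root_.mul_inv_rev, map_inv, _root_.zpow_neg]⟩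
      have : ((zpowers c).comap f).Normal := ⟨fun a ⟨k, hk⟩ b => ⟨k, by
        change c ^ k = f a at hk
        change c ^ k = _
        rw [map_mul, map_mul, ← hk, ((cm b).zpow_right k).eq, map_inv, mul_inv_cancel_right]⟩⟩
      rw [map_mul, ρf, map_zpow, ρc] at h1
      obtain ⟨k, hk⟩ := normalClosure_le_normal (N := (zpowers c).comap f) (fun w hw => ⟨_, a1 w hw⟩)
        ((e2 w).1 (eq_inv_of_mul_eq_one_left h1 ▸ inv_mem (zpow_mem hz _)))
      change c ^ k = f w at hk
      rw [← ρf, ← hk, map_zpow, ρc, ← zpow_add, ← orderOf_dvd_iff_zpow_eq_one] at h1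
      obtain ⟨j, hj⟩ := h1
      rw [← hk, ← zpow_add, hj, zpow_mul, zpow_natCast, a3, one_zpow]
  rw [zero_add] at this
  exact this.mono (by simp; omega)

end CA.H13Su
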