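import Cfsg.Agent.Lib.Perm.H19Bin2
import Cfsg.Agent.Lib.Lin.PSL2Four
import Cfsg.Agent.Lib.Lin.SL2Prod

/-! Binary actions of `PSL₂(q)`: the obstructions. -/

set_option autoImplicit false

namespace CA.BinL2
open Matrix MulAction CA.SL2Basic CA.Mat2 CA.SL2Torus CA.SL2Embed CA.SL2Class CA.SL2Unip CA.SL2Reps
  CA.PSL2Struct CA.PSL2Sub CA.PSL2Max CA.PSL2Four CA.SL2Prod CA.Bin CA.TorusCount OnePoint
open scoped MatrixGroups

theorem Bin_comm {G Ω : Type*} [Group G] [MulAction G Ω] [Finite Ω] (h : Bin G Ω)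
    (hab : ∀ (ω : Ω) (g k : G), g • ω = ω → k • ω = ω → g * k = k * g)
    (hc : ∀ (ω : Ω) (s g k : G), s • ω = ω → s ≠ 1 → g * s = s * g → k * s = s * k → g * k = k * g)
    {g k : G} {α β γ : Ω} (hα : g • α = α) (hβ : k • β = β) (hγ : g • γ = k • γ) :
    g * k = k * g := by
  obtain ⟨s, h1, h2, h3⟩ := h.star g k
  by_cases s1 : s = 1
  · have e : g • γ = γ := by rw [← h3 γ hγ, s1, one_smul]
    exact hab γ g k e (hγ ▸ e)
  · exact hc α s g k (h1 α hα) s1 (hab α _ _ hα (h1 α hα)) (hab β _ _ hβ (h2 β hβ))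

theorem inv2 {G : Type*} [Group G] {s : G} (k : G) (hs : s * s = 1) :
    k * s * k⁻¹ * (k * s * k⁻¹) = 1 := by
  calc _ = k * (s * s) * k⁻¹ := by group
    _ = 1 := by rw [hs]; group

variable {F : Type*} [Field F] [Finite F]

theorem hone (s t : PSL(2, F)) (s1 : s ≠ 1) (s2 : s * s = 1) (t1 : t ≠ 1) (t2 : t * t = 1) :
    IsConj s t := isConj_involution s1 s2 t1 t2

theorem card_Tb_ge (h2 : (2 : F) ≠ 0) (h7 : 7 ≤ Nat.card F) {g : SL(2, F)} (h : g.1.trace = 0) :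
    4 ≤ Nat.card (Tb g) ∧ Nat.card F ≤ 2 * Nat.card (Tb g) + 1 := by
  rw [card_Tb_trace_zero h2 h]
  have := Nat.odd_iff.1 (odd_card_of_two_ne_zero h2)
  have h3 := card_Tb_w0 (F := F)
  omega

/-- A subgroup closed under commuting involutions is everything (`q` odd). -/
theorem eq_top_odd (h2 : (2 : F) ≠ 0) (h7 : 7 ≤ Nat.card F) {H : Subgroup PSL(2, F)}
    (hH : ∀ s ∈ H, s ≠ 1 → s * s = 1 → ∀ t, t ≠ 1 → t * t = 1 → s * t = t * s → t ∈ H)
    {s : PSL(2, F)} (hs : s ∈ H) (s1 : s ≠ 1) (s2 : s * s = 1) : H = ⊤ := by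
  have key : ∀ s ∈ H, s ≠ 1 → s * s = 1 → ∃ g : SL(2, F), g.1.trace = 0 ∧ SS g ∧ pr F g = s ∧ Db g ≤ H := by
    intro s hs s1 s2
    obtain ⟨g, h0, hg, rfl, hC⟩ := exists_of_involution h2 s1 s2
    have h1 : ∀ x ∈ Db g, x ∉ Tb g → x ∈ H := fun x hx hx' =>
      hH _ hs s1 s2 x (fun e => hx' (e ▸ one_mem _)) (sq_of_mem_Db hg hx hx')
        (mem_C_iff.1 (hC ▸ hx : x ∈ C (pr F g))).symm
    refine ⟨g, h0, hg, rfl, fun x hx => ?_⟩
    by_cases hx' : x ∈ Tb g
    · obtain ⟨w, hw, hw'⟩ := exists_mem_Db hg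
      have := h1 (w * x) (mul_mem hw hx) (fun e => hw' (by simpa using mul_mem e (inv_mem hx')))
      simpa using mul_mem (inv_mem (h1 w hw hw')) this
    · exact h1 x hx hx'
  have key2 : ∀ s ∈ H, s ≠ 1 → s * s = 1 → ∃ y ∈ H, ∃ j, y ^ j = s ∧ orderOf y = 2 * j ∧ 2 ≤ j ∧
      Nat.card F ≤ 4 * j + 1 ∧ 4 * j ∣ Nat.card H := by
    intro s hs s1 s2
    obtain ⟨g, h0, hg, rfl, hD⟩ := key s hs s1 s2
    obtain ⟨y, hy⟩ := exists_gen_Tb hg
    have hc : orderOf y = Nat.card (Tb g) := by rw [← hy, Nat.card_zpowers]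
    have hyT : y ∈ Tb g := hy ▸ Subgroup.mem_zpowers y
    have he : Even (orderOf y) := by
      rw [hc]
      by_contra ho
      exact s1 (eq_one_of_odd (Nat.not_even_iff_odd.1 ho) (self_mem_Tb g) s2)
    obtain ⟨j, hj⟩ := he
    have h4 := card_Tb_ge h2 h7 h0
    refine ⟨y, hD (Tb_le_Db g hyT), j, ?_, by omega, by omega, by omega, ?_⟩
    · refine eq_of_sq_eq_one (isCyclic_Tb hg) (pow_mem hyT j) (self_mem_Tb g) (fun e => ?_) s1 ?_ s2
      · have := Nat.le_of_dvd (by omega) (orderOf_dvd_of_pow_eq_one e)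
        omega
      · rw [← pow_add, ← hj, pow_orderOf_eq_one]
    · have := Subgroup.card_dvd_of_le hD
      rw [card_Db hg] at this
      convert this using 1
      omega
  obtain ⟨g, h0, hg, rfl, hD⟩ := key s hs s1 s2
  obtain ⟨w, hw, hw'⟩ := exists_mem_Db hg
  have w1 : w ≠ 1 := fun e => hw' (e ▸ one_mem _)
  have w2 := sq_of_mem_Db hg hw hw'
  obtain ⟨y, hy, j, yj, oy, j2, jq, jd⟩ := key2 _ hs s1 s2
  rcases dickson_PSL H with ⟨hc, -⟩ | ⟨-, z, hz⟩ | ⟨n, n2, n0, ⟨e⟩⟩ | ⟨-, ⟨e⟩⟩ | ⟨-, ⟨e⟩⟩ | ⟨-, ⟨e⟩⟩ |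
    ⟨K, _, _, m, m1, K3, Km, hK⟩
  · exact absurd (eq_of_sq_eq_one hc (hD hw) hs w1 s1 w2 s2 ▸ self_mem_Tb g) hw'
  · exfalso
    obtain ⟨t, ht⟩ := exists_gen_Tb hg
    have := sq_eq_one_of_Borel hg (ht ▸ Subgroup.mem_zpowers t) (fun x hx => hz x (hD hx))
    have h3 := Nat.le_of_dvd (by norm_num) (orderOf_dvd_of_pow_eq_one (x := t) (n := 2) (by rwa [sq]))
    rw [← Nat.card_zpowers, ht] at h3
    have := (card_Tb_ge h2 h7 h0).1
    omega
  · exfalso
    obtain ⟨g', hg', -, -, hle⟩ := le_Db_of_dihedral n2 n0 e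
    have : ∀ s ∈ H, s ≠ 1 → s * s = 1 → s ∈ Tb g' := by
      intro s hs s1 s2
      obtain ⟨y, hy, j, rfl, oy, j2, -⟩ := key2 _ hs s1 s2
      refine pow_mem ?_ j
      by_contra hn
      have := Nat.le_of_dvd (by norm_num) (orderOf_dvd_of_pow_eq_one (x := y) (n := 2)
        (by rw [sq]; exact sq_of_mem_Db hg' (hle hy) hn))
      omega
    exact hw' (eq_of_sq_eq_one (isCyclic_Tb hg') (this _ (hD hw) w1 w2) (this _ hs s1 s2) w1 s1 w2 s2 ▸
      self_mem_Tb g)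
  · have := orderOf_le_of_equiv e orderOf_A4_le hy
    omega
  · exfalso
    obtain ⟨y, hy, j, yj, oy, j2, -⟩ := key2 _ (e.symm (Equiv.swap 0 1)).2
      (fun h => by
        have : e.symm (Equiv.swap 0 1) = 1 := Subtype.ext h
        rw [map_eq_one_iff _ e.symm.injective] at this
        exact absurd this (by decide))
      (by rw [← Subgroup.coe_mul, ← map_mul, Equiv.swap_mul_self, map_one]; rfl)
    have := orderOf_le_of_equiv e orderOf_S4_le hy
    obtain rfl : j = 2 := by omega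
    have h3 : e ⟨y, hy⟩ ^ 2 = Equiv.swap 0 1 := by
      rw [← map_pow, ← e.apply_symm_apply (Equiv.swap 0 1)]
      exact congrArg e (Subtype.ext yj)
    have := congrArg Equiv.Perm.sign h3
    rw [map_pow, Equiv.Perm.sign_swap (by decide), Int.units_sq] at this
    exact absurd this (by decide)
  · exfalso
    have h3 : ∀ n, e ⟨y, hy⟩ ^ n = 1 → 2 * j ∣ n := fun n hn => by
      rw [← oy, orderOf_dvd_iff_pow_eq_one]
      rw [← map_pow, map_eq_one_iff _ e.injective] at hn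
      exact congrArg Subtype.val hn
    rcases A5_pow (e ⟨y, hy⟩) with h | h | h
    · have := Nat.le_of_dvd (by norm_num) (h3 _ h); omega
    · have := (Dvd.intro _ rfl).trans (h3 _ h); omega
    · have := (Dvd.intro _ rfl).trans (h3 _ h); omega
  · have hK' := hK.imp_right And.right
    rcases Nat.lt_or_ge 1 m with hm | hm
    swap
    · obtain rfl : m = 1 := by omega
      exact eq_top_of_sub (by simpa using Km) hK'
    exfalso
    have h3 := orderOf_le_of_sub hK' hy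
    have h4 : Nat.card K ^ 2 ≤ Nat.card F := Km ▸ Nat.pow_le_pow_right (by omega) hm
    have h5 : Nat.card K = 3 := by nlinarith
    have k2 : (2 : K) ≠ 0 := two_ne_zero_of_odd (by rw [h5]; decide)
    obtain rfl : j = 2 := by omega
    rcases hK' with ⟨⟨e⟩⟩ | ⟨⟨e⟩⟩
    · have a1 : PGL2Act.A (-1 : Kˣ) 0 ≠ 1 := fun h => k2 (by
        have := congrArg Units.val (PGL2Act.A_eq_one_iff.1 h).1
        simp only [Units.val_neg, Units.val_one] at this
        linear_combination -this)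
      obtain ⟨y, hy, j, yj, oy, j2, -⟩ := key2 _ (e.symm (PGL2Act.A (-1) 0)).2
        (fun h => a1 (by
          have : e.symm (PGL2Act.A (-1) 0) = 1 := Subtype.ext h
          rwa [map_eq_one_iff _ e.symm.injective] at this))
        (by rw [← Subgroup.coe_mul, ← map_mul, PGL2Act.A_mul]; simp [PGL2Act.A_one])
      have := orderOf_le_of_sub (Or.inl ⟨e⟩) hy
      obtain rfl : j = 2 := by omega
      have h3 : e ⟨y, hy⟩ ^ 2 = PGL2Act.A (-1) 0 := by
        rw [← map_pow, ← e.apply_symm_apply (PGL2Act.A (-1) 0)]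
        exact congrArg e (Subtype.ext yj)
      obtain ⟨Y, hY⟩ := ProjGenLinGroup.mk_surjective (e ⟨y, hy⟩)
      rw [← hY, ← map_pow, PGL2Act.A, ProjGenLinGroup.mk_eq_mk_iff] at h3
      obtain ⟨c, hc⟩ := h3
      have h6 := congrArg (fun g : GL (Fin 2) K => g.1.det) hc
      simp only [Units.val_mul, det_mul, Units.val_pow_eq_pow_val, det_pow, PGL2Act.affGL_val,
        det_fin_two_of] at h6
      have h7 : IsSquare (-1 : K) := ⟨Y.1.det * c, by
        simp [GeneralLinearGroup.scalar] at h6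
        linear_combination -h6⟩
      rw [FiniteField.isSquare_neg_one_iff, ← Nat.card_eq_fintype_card, h5] at h7
      exact h7 rfl
    · have h6 := card_PSL (F := K)
      rw [dd_odd k2, h5, ← Nat.card_congr e.toEquiv] at h6
      omega

variable {Ω : Type*} [MulAction PSL(2, F) Ω] [Finite Ω] [IsPretransitive PSL(2, F) Ω]

omit [IsPretransitive PSL(2, F) Ω] in
theorem even_odd (h : Bin PSL(2, F) Ω) (h2 : (2 : F) ≠ 0) (h7 : 7 ≤ Nat.card F) {ω : Ω}
    (he : Even (Nat.card (stabilizer PSL(2, F) ω))) : stabilizer PSL(2, F) ω = ⊤ := by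
  obtain ⟨t, ht, t1, t2⟩ := exists_inv_of_even he
  exact eq_top_odd h2 h7 (fun s hs s1 s2 t t1 t2 hc => h.fix_of_comm hone s1 s2 t1 t2 hc hs) ht t1 t2

omit [Finite F] [IsPretransitive PSL(2, F) Ω] in
theorem borel_odd (h : Bin PSL(2, F) Ω) (h2 : (2 : F) ≠ 0) {ω : Ω}
    (ho : Odd (Nat.card (stabilizer PSL(2, F) ω))) (hB : stabilizer PSL(2, F) ω ≤ Bb F) {b : F}
    (hb : b ≠ 0) (hu : pr F (u b) • ω = ω) : False := by
  have hu' : pr F (u (-b)) • ω = ω := by
    rw [← u_inv, map_inv, inv_smul_eq_iff, hu]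
  let a : Fˣ := Units.mk0 (2 / b) (div_ne_zero h2 hb)
  have e1 : l (-4 / b) = w0 * dg a * u b * (w0 * dg a)⁻¹ := by
    calc _ = w0 * u (a ^ 2 * b) * w0⁻¹ := by
          rw [w0_conj_u]; congr 1; simp only [a, Units.val_mk0]; field_simp; norm_num
      _ = _ := by rw [← dg_conj_u]; group
  have e2 : l (-4 / b) = u (-b) * -(l (2 / b) * u (-b) * (l (2 / b))⁻¹) := by
    rw [l_inv]
    simp only [u, l, mk2_mul, neg_mk2, mk2_eq_iff]
    refine ⟨?_, ?_, ?_, ?_⟩ <;> field_simp <;> ring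
  obtain ⟨s, h1, h3, h4⟩ := h.star (pr F (u (-b))) (pr F (l (-4 / b)))
  have f1 : pr F (l (-4 / b)) • pr F (w0 * dg a) • ω = pr F (w0 * dg a) • ω := by
    rw [e1, map_mul, map_mul, map_inv]; exact fix_conj.2 hu
  have f2 : pr F (u (-b)) • pr F (l (2 / b)) • ω = pr F (l (-4 / b)) • pr F (l (2 / b)) • ω := by
    rw [e2, map_mul, pr_neg, map_mul, map_mul, map_inv, SemigroupAction.mul_smul, fix_conj.2 hu']
  obtain ⟨S, rfl⟩ := pr_surj s
  have b1 := mem_B.1 (mem_Bb.1 (hB (h1 ω hu')))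
  have b2 := hB (stab_smul_mem.1 (h3 _ f1))
  have b3 := hB (stab_smul_mem.1 (show ((pr F (u (-b)))⁻¹ * pr F S) • pr F (l (2 / b)) • ω = _ by
    rw [SemigroupAction.mul_smul, h4 _ f2, inv_smul_smul]))
  rw [← map_inv, ← map_mul, ← map_mul, mem_Bb, mem_B] at b2
  rw [← map_inv, ← map_inv, ← map_mul, ← map_mul, ← map_mul, mem_Bb, mem_B] at b3
  obtain ⟨p, q, r, t, hd, rfl⟩ := sl_ex4 S
  simp only [u, l, w0, dg, mk2_mul, mk2_inv, mk2_coe, a] at b1 b2 b3
  simp at b1 b2 b3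
  have q0 : q = 0 := by tauto
  subst b1 q0
  have tr : p + t = 0 := by
    field_simp at b3
    have : (2 * b) * (p + t) = 0 := by linear_combination -b3
    exact (mul_eq_zero.1 this).resolve_left (mul_ne_zero h2 hb)
  have := eq_one_of_odd ho (h1 ω hu') (pr_mul_self_of_trace (by rw [trace_mk2, tr]))
  rcases pr_eq_one_iff.1 this with e | e
  · rw [one_eq_mk2, mk2_eq_iff] at e
    exact h2 (by linear_combination tr - e.1 - e.2.2.2)
  · rw [one_eq_mk2, neg_mk2, mk2_eq_iff] at e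
    exact h2 (by linear_combination -tr + e.1 + e.2.2.2)

end CA.BinL2
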