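import Cfsg.Agent.Lib.Lin.H19BinL2

/-! Binary actions of `PSL₂(q)`: the classification. -/

set_option autoImplicit false

namespace CA.BinL2
open Matrix MulAction CA.SL2Basic CA.Mat2 CA.SL2Torus CA.SL2Embed CA.SL2Class CA.SL2Unip CA.SL2Reps
  CA.PSL2Struct CA.PSL2Sub CA.PSL2Max CA.PSL2Four CA.SL2Prod CA.Bin CA.TorusCount OnePoint
open scoped MatrixGroups

variable {F : Type*} [Field F] [Finite F]
variable {Ω : Type*} [MulAction PSL(2, F) Ω] [Finite Ω] [IsPretransitive PSL(2, F) Ω]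

omit [Finite F] in
theorem u_sq (h2 : (2 : F) = 0) (b : F) : pr F (u b) * pr F (u b) = 1 := by
  rw [← map_mul, ← u_add, ← two_mul, h2, zero_mul, u_zero, map_one]

theorem le_Ub (h : Bin PSL(2, F) Ω) (h2 : (2 : F) = 0) {ω : Ω}
    (hU : Ub F ≤ stabilizer PSL(2, F) ω) (hB : stabilizer PSL(2, F) ω ≤ Bb F) :
    stabilizer PSL(2, F) ω ≤ Ub F := by
  classical
  intro x hx
  obtain ⟨X, rfl⟩ := pr_surj x
  obtain ⟨a, b, rfl⟩ := exists_of_mem_B (mem_Bb.1 (hB hx))
  have hd : pr F (dg a) • ω = ω := by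
    have := mul_mem (inv_mem (hU (mem_Ub.2 ⟨b, rfl⟩))) hx
    rwa [map_mul, inv_mul_cancel_left] at this
  by_cases ha : a = 1
  · refine mem_Ub.2 ⟨b, ?_⟩
    rw [ha]; congr 1
    simp [u, dg, mk2_mul]
  exfalso
  letI : MulAction PSL(2, F) (OnePoint F) := MulAction.compHom _ ProjectiveSpecialLinearGroup.toPGL
  have sm : ∀ (g : SL(2, F)) (p : OnePoint F), pr F g • p = SpecialLinearGroup.toGL g • p :=
    fun _ _ => rfl
  have fixinv : ∀ s : PSL(2, F), s ≠ 1 → s * s = 1 → ∃ α : Ω, s • α = α := by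
    intro s s1 s2
    obtain ⟨c, hc⟩ := isConj_iff.1 (hone _ _ (pr_u_ne_one one_ne_zero) (u_sq h2 1) s1 s2)
    exact ⟨c • ω, hc ▸ fix_conj.2 (hU (mem_Ub.2 ⟨1, rfl⟩))⟩
  have w2 : pr F w0 * pr F w0 = 1 := by rw [← sq, pr_w0_sq]
  have k2 : pr F (w0 * dg a) * pr F (w0 * dg a) = 1 :=
    pr_mul_self_of_trace (by simp [w0, dg, mk2_mul, trace_mk2])
  have k1 : pr F (w0 * dg a) ≠ 1 := pr_ne_one_iff.2 (Or.inl (by simp [w0, dg, mk2_mul]))
  obtain ⟨α, hα⟩ := fixinv _ pr_w0_ne_one w2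
  obtain ⟨β, hβ⟩ := fixinv _ k1 k2
  obtain ⟨p, h1, h3⟩ := h.zas (X := OnePoint F) (fun ω' => by
      obtain ⟨k, rfl⟩ := exists_smul_eq PSL(2, F) ω ω'
      refine ⟨k • ∞, fun g hg => stab_smul_mem.2 ?_⟩
      have := hB (stab_smul_mem.1 hg)
      obtain ⟨Y, hY⟩ := pr_surj (k⁻¹ * g * k)
      rw [← hY] at this ⊢
      rw [mem_stabilizer_iff, sm, smul_infty_eq_self_iff]
      exact mem_B.1 (mem_Bb.1 this))
    (fun g a b c hab hbc hac ha hb hc => ProjectiveSpecialLinearGroup.toPGL_injective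
      ((PGL2Act.three _ a b c hab hac hbc ha hb hc).trans (map_one _).symm))
    (fun s a b s2 hab ha hb => by
      obtain ⟨γ, rfl, rfl⟩ := PGL2Act.exists_smul_two hab
      obtain ⟨c, d, e⟩ := PGL2Act.exists_conj_A ha
      have hb' : ProjectiveSpecialLinearGroup.toPGL s • γ • ((0 : F) : OnePoint F) = γ • ((0 : F) : OnePoint F) := hb
      rw [e, fix_conj, PGL2Act.A_smul_coe, mul_zero, zero_add, OnePoint.coe_eq_coe] at hb'
      subst hb'
      have s2' := congrArg ProjectiveSpecialLinearGroup.toPGL s2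
      rw [map_mul, map_one, e] at s2'
      have e2 : PGL2Act.A c 0 * PGL2Act.A c 0 = 1 := by
        have : PGL2Act.A c 0 * PGL2Act.A c 0 = γ⁻¹ * (γ * PGL2Act.A c 0 * γ⁻¹ * (γ * PGL2Act.A c 0 * γ⁻¹)) * γ := by
          group
        rw [this, s2']; group
      rw [PGL2Act.A_mul, PGL2Act.A_eq_one_iff] at e2
      have e3 : (c : F) * c = 1 := by simpa using congrArg Units.val e2.1
      have e4 : c = 1 := Units.ext (by
        have : ((c : F) - 1) ^ 2 = 0 := by linear_combination e3 + (1 - (c : F)) * h2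
        simpa [sub_eq_zero] using this)
      apply ProjectiveSpecialLinearGroup.toPGL_injective
      rw [e, e4, PGL2Act.A_one, map_one]; group)
    w2 k2 hα hβ (γ := ω) (by rw [map_mul, SemigroupAction.mul_smul, hd])
  rw [map_mul, SemigroupAction.mul_smul, ← h1, smul_left_cancel_iff, h1] at h3
  rw [sm] at h1 h3
  induction p using OnePoint.rec with
  | infty => simp [smul_infty_eq_self_iff, w0] at h1
  | coe z =>
    rw [smul_some_eq_ite] at h1 h3
    simp [w0, dg] at h1 h3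
    by_cases hz : z = 0
    · simp [hz] at h1
    · apply ha
      apply Units.ext
      have : ((a : F) - 1) ^ 2 * z = 0 := by linear_combination h3 + (1 - (a : F)) * z * h2
      simpa [sub_eq_zero, hz] using this

theorem even_even (h : Bin PSL(2, F) Ω) (h2 : (2 : F) = 0) {ω : Ω} (hω : stabilizer PSL(2, F) ω ≠ ⊤)
    (he : Even (Nat.card (stabilizer PSL(2, F) ω))) :
    ∃ k : PSL(2, F), stabilizer PSL(2, F) (k • ω) = Ub F := by
  obtain ⟨t, ht, t1, t2⟩ := exists_inv_of_even he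
  obtain ⟨k, hk⟩ := isConj_iff.1 (hone _ _ t1 t2 (pr_u_ne_one one_ne_zero) (u_sq h2 1))
  have h1 : pr F (u 1) • k • ω = k • ω := hk ▸ fix_conj.2 ht
  have hU : Ub F ≤ stabilizer PSL(2, F) (k • ω) := by
    intro x hx
    obtain ⟨b, rfl⟩ := mem_Ub.1 hx
    by_cases hb : b = 0
    · rw [hb, u_zero, map_one]; exact one_mem _
    exact h.fix_of_comm hone (pr_u_ne_one one_ne_zero) (u_sq h2 1) (pr_u_ne_one hb) (u_sq h2 b)
      (Ub_comm (mem_Ub.2 ⟨1, rfl⟩) hx) h1
  have hB : stabilizer PSL(2, F) (k • ω) ≤ Bb F := by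
    intro x hx
    obtain ⟨X, rfl⟩ := pr_surj x
    by_contra hX
    apply hω
    have := eq_top_of_U_le' (H := (stabilizer PSL(2, F) (k • ω)).comap (pr F))
      (fun y hy => hU ⟨y, hy, rfl⟩) (fun e => hX (mem_Bb.2 e)) hx
    rw [eq_top_iff]
    intro g _
    obtain ⟨Y, hY⟩ := pr_surj (k * g * k⁻¹)
    have h3 : Y ∈ (stabilizer PSL(2, F) (k • ω)).comap (pr F) := this ▸ Subgroup.mem_top _
    rw [Subgroup.mem_comap, hY] at h3
    exact fix_conj.1 h3
  exact ⟨k, le_antisymm (le_Ub h h2 hU hB) hU⟩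

omit [Finite Ω] [Finite F] in
theorem bin_Ub (h2 : (2 : F) = 0) {ω : Ω} (hω : stabilizer PSL(2, F) ω = Ub F) : Bin PSL(2, F) Ω := by
  have key : ∀ (k g : PSL(2, F)), g • k • ω = k • ω → ∃ b, g = k * pr F (u b) * k⁻¹ := by
    intro k g hg
    have := stab_smul_mem.1 hg
    rw [hω] at this
    obtain ⟨b, hb⟩ := mem_Ub.1 this
    exact ⟨b, by rw [hb]; group⟩
  refine bin_of_inv (fun α g hg => ?_) fun α β g g' hg hg' g1 g1' hc => ?_
  · obtain ⟨k, rfl⟩ := exists_smul_eq PSL(2, F) ω α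
    obtain ⟨b, rfl⟩ := key k g hg
    exact inv2 _ (u_sq h2 b)
  · have : ∀ (α : Ω) (g : PSL(2, F)), g • α = α → g ≠ 1 → stabilizer PSL(2, F) α = C g := by
      intro α g hg g1
      obtain ⟨k, rfl⟩ := exists_smul_eq PSL(2, F) ω α
      obtain ⟨b, rfl⟩ := key k g hg
      have hb : b ≠ 0 := by rintro rfl; simp at g1
      rw [C_conj, C_pr_u hb, stabilizer_smul_eq_stabilizer_map_conj, hω]
    have h3 : g' • α = α := by
      have h4 : g' ∈ C g := mem_C_iff.2 hc.symm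
      rwa [← this α g hg g1] at h4
    rw [this α g' h3 g1', this β g' hg' g1']

theorem torus_comm (h : Bin PSL(2, F) Ω) {ω : Ω} (ho : Odd (Nat.card (stabilizer PSL(2, F) ω)))
    {g₀ : SL(2, F)} (hg : SS g₀) (hT : stabilizer PSL(2, F) ω ≤ Tb g₀) {g k : PSL(2, F)} {α β γ : Ω}
    (hα : g • α = α) (hβ : k • β = β) (hγ : g • γ = k • γ) : g * k = k * g := by
  refine Bin_comm h (fun ω' g k h1 h2 => ?_) (fun ω' s g k h1 s1 h2 h3 => ?_) hα hβ hγ
  · obtain ⟨y, rfl⟩ := exists_smul_eq PSL(2, F) ω ω'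
    have := Tb_comm hg.ns (hT (stab_smul_mem.1 h1)) (hT (stab_smul_mem.1 h2))
    have e : g * k = y * (y⁻¹ * g * y * (y⁻¹ * k * y)) * y⁻¹ := by group
    rw [e, this]; group
  · obtain ⟨y, rfl⟩ := exists_smul_eq PSL(2, F) ω ω'
    have h4 := stab_smul_mem.1 h1
    have h5 := C_eq_Tb hg (hT h4) (fun e => conj_ne_one s1 y⁻¹ (by simpa using eq_one_of_odd ho h4 e))
    have h6 : ∀ g, g * s = s * g → y⁻¹ * g * y ∈ Tb g₀ := fun g e => by
      rw [← h5, mem_C_iff]
      calc _ = y⁻¹ * (g * s) * y := by group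
        _ = _ := by rw [e]; group
    have := Tb_comm hg.ns (h6 g h2) (h6 k h3)
    have e : g * k = y * (y⁻¹ * g * y * (y⁻¹ * k * y)) * y⁻¹ := by group
    rw [e, this]; group

theorem torus_tr (h : Bin PSL(2, F) Ω) {ω : Ω} (ho : Odd (Nat.card (stabilizer PSL(2, F) ω)))
    {g₀ : SL(2, F)} (hg : SS g₀) (hT : stabilizer PSL(2, F) ω ≤ Tb g₀) {X : SL(2, F)}
    (hX : pr F X • ω = ω) (X1 : pr F X ≠ 1) {c : F} (hc : c = X.1.trace ∨ c = -X.1.trace) :
    X.1.trace ^ 2 - 2 = c := by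
  have hs : SS X := hg.of_mem (mem_Tb.1 (hT hX)) (pr_ne_one_iff.1 X1)
  obtain ⟨Z, z1, z2⟩ := exists_tr hs.ns X.1.trace c (Or.inl hs)
  obtain ⟨a, ha⟩ := conj_of_tr (Y := Z⁻¹) hs (Or.inl (by rw [trace_inv, z1]))
  obtain ⟨b, hb⟩ := conj_of_tr (Y := Z * X) hs (by rw [z2]; exact hc)
  have := torus_comm h ho hg hT (g := pr F Z⁻¹) (α := a • ω) (ha ▸ fix_conj.2 hX) hX (γ := b • ω)
    (by rw [map_inv, inv_smul_eq_iff, ← SemigroupAction.mul_smul, ← map_mul, hb, fix_conj.2 hX])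
  have h3 : pr F Z⁻¹ ∈ Tb X := by
    rw [← C_eq_Tb hs (self_mem_Tb X) (fun e => X1 (eq_one_of_odd ho hX e)), mem_C_iff]
    exact this
  rcases hs.eq_or_inv (inv_mem_iff.1 (mem_Tb.1 h3)) z1.symm with rfl | rfl
  · rw [← z2, ← sq, pow_two_coe, trace_lin]; ring
  · exfalso
    apply hs
    rw [inv_mul_cancel] at z2
    have : c = 2 := by rw [← z2]; simp
    rcases hc with hc | hc
    · rw [← hc, this]; norm_num
    · rw [← neg_sq, ← hc, this]; norm_num

theorem torus_case (h : Bin PSL(2, F) Ω) {ω : Ω} (ho : Odd (Nat.card (stabilizer PSL(2, F) ω)))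
    (hc : IsCyclic (stabilizer PSL(2, F) ω))
    {g₀ : SL(2, F)} (hg : SS g₀) (hT : stabilizer PSL(2, F) ω ≤ Tb g₀)
    (hne : stabilizer PSL(2, F) ω ≠ ⊥) :
    (2 : F) = 0 ∧ (∀ s : F, s ^ 2 + s + 1 ≠ 0) ∧ Nat.card (stabilizer PSL(2, F) ω) = 3 := by
  have key : ∀ X : SL(2, F), pr F X • ω = ω → pr F X ≠ 1 → (2 : F) = 0 ∧ X.1.trace = 1 := by
    intro X hX X1
    have hs : SS X := hg.of_mem (mem_Tb.1 (hT hX)) (pr_ne_one_iff.1 X1)
    have h1 := torus_tr h ho hg hT hX X1 (Or.inl rfl)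
    have h2 := torus_tr h ho hg hT hX X1 (Or.inr rfl)
    have h3 : X.1.trace - 2 ≠ 0 := fun e => hs (by rw [sub_eq_zero.1 e]; norm_num)
    have h4 : X.1.trace + 2 ≠ 0 := fun e => hs (by rw [eq_neg_of_add_eq_zero_left e]; norm_num)
    have h5 : X.1.trace + 1 = 0 := (mul_eq_zero.1 (show (X.1.trace - 2) * (X.1.trace + 1) = 0 by
      linear_combination h1)).resolve_left h3
    have h6 : X.1.trace - 1 = 0 := (mul_eq_zero.1 (show (X.1.trace + 2) * (X.1.trace - 1) = 0 by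
      linear_combination h2)).resolve_left h4
    exact ⟨by linear_combination h5 - h6, by linear_combination h6⟩
  obtain ⟨⟨x, hx⟩, hgen⟩ := hc.exists_generator
  obtain ⟨X, rfl⟩ := pr_surj x
  have X1 : pr F X ≠ 1 := by
    intro e
    apply hne
    rw [eq_bot_iff]
    intro y hy
    obtain ⟨n, hn⟩ := hgen ⟨y, hy⟩
    have := congrArg Subtype.val hn
    simp only [SubgroupClass.coe_zpow, e, _root_.one_zpow] at this
    exact this ▸ one_mem _
  obtain ⟨h2, hX⟩ := key X hx X1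
  refine ⟨h2, fun s hs => ?_, ?_⟩
  · have s0 : s ≠ 0 := by rintro rfl; simp at hs
    have hs' : SS X := hg.of_mem (mem_Tb.1 (hT hx)) (pr_ne_one_iff.1 X1)
    have d1 : (s + 1) * s - 0 * 0 = 1 := by linear_combination hs - h2
    have d2 : s * (s + 1) - 1 * 0 = 1 := by linear_combination hs - h2
    have d3 : s * (s + 1) - 0 * 0 = 1 := by linear_combination hs - h2
    have d4 : (s + 1) * s - s * 0 = 1 := by linear_combination hs - h2
    have t1 : ∀ {Y : SL(2, F)}, Y.1.trace = 1 → ∃ a : PSL(2, F), pr F Y • a • ω = a • ω := by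
      intro Y hY
      obtain ⟨a, ha⟩ := conj_of_tr (Y := Y) hs' (Or.inl (by rw [hY, hX]))
      exact ⟨a, ha ▸ fix_conj.2 hx⟩
    obtain ⟨a, ha⟩ := t1 (Y := mk2 _ _ _ _ d1) (by rw [trace_mk2]; linear_combination s * h2)
    obtain ⟨b, hb⟩ := t1 (Y := mk2 _ _ _ _ d2) (by rw [trace_mk2]; linear_combination s * h2)
    obtain ⟨c, hc⟩ := t1 (Y := mk2 _ _ _ _ d4) (by rw [trace_mk2]; linear_combination s * h2)
    have e : mk2 _ _ _ _ d2 = mk2 _ _ _ _ d1 * mk2 _ _ _ _ d4 := by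
      rw [mk2_mul, mk2_eq_iff]
      refine ⟨by linear_combination -hs, by linear_combination -hs + h2, by ring, ?_⟩
      linear_combination -hs + (s + 1) * h2
    have := torus_comm h ho hg hT ha hb (γ := c • ω)
      (by rw [e, map_mul, SemigroupAction.mul_smul, hc])
    rw [← map_mul, ← map_mul] at this
    have := pr_injective h2 this
    rw [mk2_mul, mk2_mul, mk2_eq_iff] at this
    exact one_ne_zero (α := F) (by linear_combination this.2.1)
  · rw [← orderOf_eq_card_of_forall_mem_zpowers hgen]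
    haveI : Fact (Nat.Prime 3) := ⟨Nat.prime_three⟩
    refine orderOf_eq_prime (Subtype.ext ?_) (fun e => X1 (congrArg Subtype.val e))
    change pr F X ^ 3 = 1
    rw [← map_pow, pow_three_of_trace hX, pr_neg, map_one]

omit [Finite Ω] in
theorem bin_three (h2 : (2 : F) = 0) (hs : ∀ s : F, s ^ 2 + s + 1 ≠ 0) {ω : Ω}
    (h3 : Nat.card (stabilizer PSL(2, F) ω) = 3) : Bin PSL(2, F) Ω := by
  haveI : Fact (Nat.Prime 3) := ⟨Nat.prime_three⟩
  have c3 : ∀ α : Ω, Nat.card (stabilizer PSL(2, F) α) = 3 := by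
    intro α
    obtain ⟨k, rfl⟩ := exists_smul_eq PSL(2, F) ω α
    rw [stabilizer_smul_eq_stabilizer_map_conj, Subgroup.card_map_of_injective (MulAut.conj k).injective, h3]
  have p3 : ∀ (α : Ω) (g : PSL(2, F)), g • α = α → g ^ 3 = 1 := fun α g hg => by
    have := pow_card_eq_one' (G := stabilizer PSL(2, F) α) (x := ⟨g, hg⟩)
    rw [c3] at this
    exact congrArg Subtype.val this
  have st : ∀ (α : Ω) (g : PSL(2, F)), g • α = α → g ≠ 1 →
      stabilizer PSL(2, F) α = Subgroup.zpowers g := fun α g hg g1 => by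
    refine (Subgroup.eq_of_le_of_card_ge (Subgroup.zpowers_le_of_mem hg) ?_).symm
    rw [c3, Nat.card_zpowers, orderOf_eq_prime (p3 α g hg) g1]
  have tr : ∀ (α : Ω) (X : SL(2, F)), pr F X • α = α → pr F X ≠ 1 → X.1.trace = 1 := by
    intro α X hX X1
    have := pr_injective h2 (a₁ := X ^ 3) (a₂ := 1) (by
      change pr F (X ^ 3) = pr F 1
      rw [map_pow, p3 α _ hX, map_one])
    have h4 := pow_three_coe X
    rw [this] at h4
    have h5 := ((pr_ne_one_iff.1 X1).lin_inj ((lin_one_zero X.1).trans h4)).1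
    linear_combination h5 - h2
  refine bin_of fun α β γ g k hg hk hγ => ?_
  by_cases g1 : g = 1
  · right; simp [g1]
  by_cases k1 : k = 1
  · right; simpa [k1] using hγ
  left
  by_cases gk : g⁻¹ * k = 1
  · rw [st α g hg g1, st β k hk k1, inv_mul_eq_one.1 gk]
  obtain ⟨X, rfl⟩ := pr_surj g
  obtain ⟨Y, rfl⟩ := pr_surj k
  have t1 := tr α X hg g1
  have t2 := tr β Y hk k1
  have t3 := tr γ (X⁻¹ * Y) (by rw [map_mul, map_inv, SemigroupAction.mul_smul, ← hγ, inv_smul_smul])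
    (by rwa [map_mul, map_inv])
  have : Y = X⁻¹ := by
    obtain ⟨c, hc⟩ := isConj_iff.1 (isConj_of_trace_even h2 (NS_inv (pr_ne_one_iff.1 g1)) (NS_compS 1)
      (by rw [trace_inv, t1, trace_compS]))
    rw [← trace_conj c] at t2 t3
    have e : c * (X⁻¹ * Y) * c⁻¹ = compS 1 * (c * Y * c⁻¹) := by rw [← hc]; group
    rw [e] at t3
    suffices c * Y * c⁻¹ = compS 1 by
      rw [← hc] at this
      simpa using this
    obtain ⟨p, q, r, t, hd, e'⟩ := sl_ex4 (c * Y * c⁻¹)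
    have e1 : compS (1 : F) = mk2 0 (-1) 1 1 (by simp) := rfl
    rw [e', e1] at t3 ⊢
    rw [e', trace_mk2] at t2
    rw [mk2_mul, trace_mk2] at t3
    obtain rfl : t = 1 - p := by linear_combination t2
    obtain rfl : p = q - r := by linear_combination -t3
    have e3 : (q + 1) ^ 2 + (q + 1) * (r + 1) + (r + 1) ^ 2 = 0 := by
      linear_combination -hd + (q * r + 2 * q + r + 1) * h2
    have r1 : r + 1 = 0 := by
      by_contra hr
      apply hs ((q + 1) / (r + 1))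
      field_simp
      linear_combination e3
    have q1 : q + 1 = 0 := by
      rw [r1] at e3
      simpa using e3
    rw [mk2_eq_iff]
    exact ⟨by linear_combination q1 - r1, by linear_combination q1, by linear_combination r1 - h2,
      by linear_combination r1 - q1⟩
  rw [st α _ hg g1, st β _ hk k1, this, map_inv, Subgroup.zpowers_inv]

omit [Finite F] in
theorem even_card_of {H : Subgroup PSL(2, F)} {Γ : Type*} [Group Γ] (e : H ≃* Γ) {t : Γ} (t1 : t ≠ 1)
    (t2 : t * t = 1) (ho : Odd (Nat.card H)) : False := by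
  have := eq_one_of_odd ho (e.symm t).2 (by rw [← Subgroup.coe_mul, ← map_mul, t2, map_one]; rfl)
  exact t1 ((map_eq_one_iff _ e.symm.injective).1 (Subtype.ext this))

theorem odd_case (h : Bin PSL(2, F) Ω) {ω : Ω} (ho : Odd (Nat.card (stabilizer PSL(2, F) ω)))
    (hne : stabilizer PSL(2, F) ω ≠ ⊥) :
    (2 : F) = 0 ∧ (∀ s : F, s ^ 2 + s + 1 ≠ 0) ∧ Nat.card (stabilizer PSL(2, F) ω) = 3 := by
  classical
  have hodd := Nat.odd_iff.1 ho
  rcases dickson_PSL (stabilizer PSL(2, F) ω) with ⟨hc, h0⟩ | ⟨h0, z, hz⟩ | ⟨n, n2, n0, ⟨e⟩⟩ | ⟨-, ⟨e⟩⟩ |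
    ⟨-, ⟨e⟩⟩ | ⟨-, ⟨e⟩⟩ | ⟨K, _, _, m, m1, K3, Km, ⟨⟨e⟩⟩ | ⟨-, ⟨e⟩⟩⟩
  · obtain ⟨g, hg, hT⟩ := le_Tb_of_cyclic hc h0
    exact torus_case h ho hc hg hT hne
  · exfalso
    obtain ⟨p, hp⟩ := CharP.exists F
    haveI : Fact p.Prime := ⟨CharP.char_is_prime F p⟩
    have hd := (CharP.cast_eq_zero_iff F p _).1 h0
    have h2 : (2 : F) ≠ 0 := two_ne_zero_of_char p (by rintro rfl; omega)
    obtain ⟨x, hx⟩ := exists_prime_orderOf_dvd_card' p hd
    rw [← Subgroup.orderOf_coe] at hx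
    have x1 : (x : PSL(2, F)) ≠ 1 := fun e => (Fact.out : p.Prime).one_lt.ne (by rw [← hx, e, orderOf_one])
    obtain ⟨y, b, hb, hy⟩ := exists_conj_u_of_cast x1 (by rw [hx]; simp)
    have h3 : z * y⁻¹ ∈ Bb F := mem_Bb_of_conj hb (by
      have := hz x x.2
      rw [← hy]; convert this using 1; group)
    refine borel_odd h h2 (ω := y • ω) ?_ (fun g hg => ?_) hb (hy ▸ fix_conj.2 x.2)
    · rwa [stabilizer_smul_eq_stabilizer_map_conj, Subgroup.card_map_of_injective (MulAut.conj y).injective]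
    · have := mul_mem (mul_mem (inv_mem h3) (hz _ (stab_smul_mem.1 hg))) h3
      convert this using 1; group
  · rw [Nat.card_congr e.toEquiv, DihedralGroup.nat_card] at hodd; omega
  · rw [Nat.card_congr e.toEquiv, card_A4] at hodd; omega
  · rw [Nat.card_congr e.toEquiv, card_S4] at hodd; omega
  · rw [Nat.card_congr e.toEquiv, card_A5] at hodd; omega
  · refine (even_card_of e (t := PGL2Act.W) (fun e => ?_) PGL2Act.W_mul_W ho).elim
    have := PGL2Act.W_smul_zero (k := K)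
    rw [e, one_smul] at this
    exact OnePoint.coe_ne_infty _ this
  · exact (even_card_of e pr_w0_ne_one (by rw [← sq, pr_w0_sq]) ho).elim

theorem no_root (h2 : (2 : F) = 0) :
    (∀ s : F, s ^ 2 + s + 1 ≠ 0) ↔ ¬ 3 ∣ Nat.card F - 1 := by
  haveI : Fact (Nat.Prime 3) := ⟨Nat.prime_three⟩
  classical
  haveI := Fintype.ofFinite F
  have hc : Nat.card Fˣ = Nat.card F - 1 := Nat.card_units F
  constructor
  · intro h hd
    obtain ⟨x, hx⟩ := exists_prime_orderOf_dvd_card' (G := Fˣ) 3 (hc ▸ hd)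
    have h3 : (x : F) ^ 3 = 1 := by
      have := pow_orderOf_eq_one x
      rw [hx] at this
      simpa using congrArg Units.val this
    have x1 : (x : F) - 1 ≠ 0 := fun e => by
      have : x = 1 := Units.ext (sub_eq_zero.1 e)
      simp [this] at hx
    exact h x ((mul_eq_zero.1 (show ((x : F) - 1) * (x ^ 2 + x + 1) = 0 by
      linear_combination h3)).resolve_left x1)
  · intro h s hs
    have s0 : s ≠ 0 := by rintro rfl; simp at hs
    apply h
    have : orderOf (Units.mk0 s s0) = 3 := orderOf_eq_prime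
      (Units.ext (by simp; linear_combination (s - 1) * hs))
      (fun e => by
        have : s = 1 := congrArg Units.val e
        rw [this] at hs
        exact one_ne_zero (α := F) (by linear_combination hs - h2))
    rw [← hc, ← this]
    exact orderOf_dvd_natCard _

theorem three_dvd (a : ℕ) : ¬ 3 ∣ 2 ^ a - 1 ↔ Odd a := by
  have h : ∀ k, 2 ^ (2 * k) % 3 = 1 := fun k => by rw [pow_mul, Nat.pow_mod]; simp
  rcases Nat.even_or_odd' a with ⟨k, rfl | rfl⟩
  · have := h k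
    simp only [Nat.not_odd_iff_even.2 (even_two_mul k), iff_false, not_not]
    omega
  · have := h k
    simp only [odd_two_mul_add_one, iff_true, pow_succ]
    omega

theorem two_iff : (2 : F) = 0 ↔ ∃ a, Nat.card F = 2 ^ a := by
  constructor
  · intro h2
    haveI : CharP F 2 := CharTwo.of_one_ne_zero_of_two_eq_zero one_ne_zero h2
    obtain ⟨n, -, h⟩ := exists_card_eq_pow (F := F) 2
    exact ⟨n, h⟩
  · rintro ⟨a, ha⟩
    refine two_eq_zero_of_even ?_
    have : 1 < Nat.card F := Finite.one_lt_card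
    rw [ha] at this ⊢
    exact (Nat.even_pow' (by rintro rfl; simp at this)).2 even_two

omit [Finite Ω] [IsPretransitive PSL(2, F) Ω] in
theorem syl_iff (h2 : (2 : F) = 0) {ω : Ω} : (∃ k : PSL(2, F), stabilizer PSL(2, F) (k • ω) = Ub F) ↔
    ∃ P : Sylow 2 PSL(2, F), stabilizer PSL(2, F) ω = P := by
  haveI : CharP F 2 := CharTwo.of_one_ne_zero_of_two_eq_zero one_ne_zero h2
  constructor
  · rintro ⟨k, hk⟩
    obtain ⟨P, hP⟩ := exists_sylow_equiv (MulAut.conj k).symm (sylowUb F 2)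
    refine ⟨P, Subgroup.ext fun g => ?_⟩
    have := hP (k * g * k⁻¹)
    rw [sylowUb_coe, ← hk] at this
    refine (fix_conj.symm.trans this).trans ?_
    simp [mul_assoc]
  · rintro ⟨P, hP⟩
    obtain ⟨k, hk⟩ := exists_smul_eq PSL(2, F) P (sylowUb F 2)
    refine ⟨k, ?_⟩
    rw [stabilizer_smul_eq_stabilizer_map_conj, hP, ← sylowUb_coe 2, ← hk]
    rfl

theorem main (h4 : 4 ≤ Nat.card F) (h5 : Nat.card F ≠ 5) {ω : Ω} (hω : stabilizer PSL(2, F) ω ≠ ⊤) :
    Bin PSL(2, F) Ω ↔ stabilizer PSL(2, F) ω = ⊥ ∨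
      ((∃ a, Nat.card F = 2 ^ a) ∧ ∃ P : Sylow 2 PSL(2, F), stabilizer PSL(2, F) ω = P) ∨
      ((∃ a, Odd a ∧ Nat.card F = 2 ^ a) ∧ Nat.card (stabilizer PSL(2, F) ω) = 3) := by
  constructor
  · intro h
    by_cases hb : stabilizer PSL(2, F) ω = ⊥
    · exact Or.inl hb
    right
    rcases Nat.even_or_odd (Nat.card (stabilizer PSL(2, F) ω)) with he | ho
    · by_cases h2 : (2 : F) = 0
      · exact Or.inl ⟨two_iff.1 h2, (syl_iff h2).1 (even_even h h2 hω he)⟩
      · have := Nat.odd_iff.1 (odd_card_of_two_ne_zero h2)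
        exact absurd (even_odd h h2 (by omega) he) hω
    · obtain ⟨h2, hs, h3⟩ := odd_case h ho hb
      obtain ⟨a, ha⟩ := two_iff.1 h2
      rw [no_root h2, ha, three_dvd] at hs
      exact Or.inr ⟨⟨a, hs, ha⟩, h3⟩
  · rintro (h | ⟨h2, h⟩ | ⟨⟨a, ha, ha'⟩, h⟩)
    · refine bin_of fun α β _ _ _ _ _ _ => Or.inl ?_
      have : ∀ α : Ω, stabilizer PSL(2, F) α = ⊥ := by
        intro α
        obtain ⟨k, rfl⟩ := exists_smul_eq PSL(2, F) ω α
        rw [stabilizer_smul_eq_stabilizer_map_conj, h, Subgroup.map_bot]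
      rw [this, this]
    · obtain ⟨k, hk⟩ := (syl_iff (two_iff.2 h2)).2 h
      exact bin_Ub (two_iff.2 h2) hk
    · have h2 := two_iff.2 ⟨a, ha'⟩
      exact bin_three h2 (by rw [no_root h2, ha', three_dvd]; exact ha) h

end CA.BinL2
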