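import Cfsg.Agent.Lib.Perm.H19Bin3
import Cfsg.Agent.Lib.Suz.U3Rec

/-! Binary actions of `U₃(q)`, `q` even: matrix computations. -/

set_option autoImplicit false

namespace CA.BinU
open Matrix Subgroup CA.CForm CA.SU3 CA.U3Rec CA.Bin

variable {F : Type*} [Field F] [Fintype F] {q : ℕ} {hF : Fintype.card F = q ^ 2} [CharP F 2]

local notation "σ" => conj hF
local notation "Γ" => SJ hF

theorem two : (2 : F) = 0 := CharTwo.two_eq_zero

/-- Central elements of the unipotent group. -/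
def zz (b : F) (hb : σ b = b) : Hs hF := ⟨0, b, by rw [hb]; simp [CharTwo.add_self_eq_zero]⟩

theorem eq_zz {x : Hs hF} (h : x.a = 0) : ∃ b hb, x = zz b hb := by
  have := x.h
  rw [h, zero_mul, add_zero] at this
  exact ⟨x.b, by linear_combination this - x.b * two (F := F), Hs.ext h rfl⟩

omit [CharP F 2] in
theorem a_comm {x : Hs hF} (h : x.a = 0) (y : Hs hF) : ι hF y * ι hF x = ι hF x * ι hF y := by
  rw [← map_mul, ← map_mul, mem_center_iff.1 (mem_center_Hs.2 h)]

theorem ww : w hF * w hF = 1 := en_inj J_mul_J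

theorem w_inv : (w hF)⁻¹ = w hF := inv_eq_of_mul_eq_one_right ww

theorem key' {M : Γ} (h : en hF M 2 0 ≠ 0) : ∃ p x : Hs hF, ∃ l : Fˣ,
    p.a = σ (en hF M 1 0 / en hF M 2 0) ∧ M = ι hF p * w hF * (ι hF x * d hF l) := by
  have e := eqs M 0 0
  have h' : σ (en hF M 2 0) ≠ 0 := (map_ne_zero _).2 h
  let p : Hs hF := ⟨σ (en hF M 1 0 / en hF M 2 0), σ (en hF M 0 0 / en hF M 2 0), by
    simp only [CForm.conj_conj, map_div₀]
    field_simp
    simp only [SU3.J, of_apply, cons_val', cons_val_zero, cons_val_fin_one] at e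
    linear_combination e⟩
  obtain ⟨x, l, e1⟩ := exists_ι_d (g := w hF * ι hF p * M) (by
      simp [en_mul, en_w, en_ι, Matrix.mul_apply, Fin.sum_univ_three, p, CForm.conj_conj, vecMul, dotProduct, h]) (by
      simp [en_mul, en_w, en_ι, Matrix.mul_apply, Fin.sum_univ_three, p, CForm.conj_conj, vecMul, dotProduct]
      simp only [SU3.J, of_apply, cons_val', cons_val_zero, cons_val_fin_one] at e
      field_simp
      linear_combination e)
  refine ⟨p⁻¹, x, l, CharTwo.neg_eq _, ?_⟩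
  rw [← e1, map_inv]
  calc M = (ι hF p)⁻¹ * (w hF * w hF) * ι hF p * M := by rw [ww]; group
    _ = _ := by group

omit [CharP F 2] in
theorem borel {M : Γ} (h : en hF M 2 0 = 0) : ∃ x l, M = ι hF x * d hF l :=
  exists_ι_d (by simpa [SU3.J, h] using eqs M 0 0) h

theorem dw (l : Fˣ) (hl : σ (l : F) = l) : ι hF (zz l hl) * (w hF * ι hF (zz (l⁻¹ : Fˣ) (by simp [hl])) * w hF) *
    ι hF (zz l hl) = d hF l * w hF := by
  apply en_inj
  simp only [en_mul, en_ι, en_w, en_d, zz]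
  ext i j
  fin_cases i <;> fin_cases j <;> simp [Matrix.mul_apply, Fin.sum_univ_three, hl, CharTwo.add_self_eq_zero]

theorem wd (l : Fˣ) (hl : σ (l : F) = l) : w hF * d hF l * (w hF * d hF l) = 1 := by
  apply en_inj
  simp only [en_mul, en_w, en_d, en_one]
  ext i j
  fin_cases i <;> fin_cases j <;> simp [Matrix.mul_apply, Fin.sum_univ_three, hl]

/-- `g` fixes the line through `v`. -/
def Fx (g : Γ) (v : Fin 3 → F) : Prop := ∃ c : F, en hF g *ᵥ v = c • v

omit [CharP F 2] in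
theorem en_conj {g k : Γ} {v : Fin 3 → F} {c : F} (h : en hF (k⁻¹ * g * k) *ᵥ v = c • v) :
    en hF g *ᵥ (en hF k *ᵥ v) = c • (en hF k *ᵥ v) := by
  rw [← mulVec_smul, ← h, mulVec_mulVec, mulVec_mulVec, ← en_mul, ← en_mul]
  congr 2; group

omit [CharP F 2] in
theorem en_conj' {g k : Γ} {v : Fin 3 → F} (h : en hF g *ᵥ (en hF k *ᵥ v) = en hF k *ᵥ v) :
    en hF (k⁻¹ * g * k) *ᵥ v = v := by
  rw [en_mul, en_mul, ← mulVec_mulVec, ← mulVec_mulVec, h, mulVec_mulVec, ← en_mul, inv_mul_cancel, en_one,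
    one_mulVec]

omit [CharP F 2] in
theorem Fx.conj {g k : Γ} {v : Fin 3 → F} (h : Fx (k⁻¹ * g * k) v) : Fx g (en hF k *ᵥ v) :=
  h.imp fun _ => en_conj

omit [CharP F 2] in
theorem Fx.mul {g k : Γ} {v : Fin 3 → F} (h : Fx g v) (h' : Fx k v) : Fx (g * k) v := by
  obtain ⟨c, h⟩ := h
  obtain ⟨c', h'⟩ := h'
  exact ⟨c' * c, by rw [en_mul, ← mulVec_mulVec, h', mulVec_smul, h, smul_smul]⟩

omit [CharP F 2] in
theorem en_pow {g : Γ} {v : Fin 3 → F} {c : F} (h : en hF g *ᵥ v = c • v) (n : ℕ) :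
    en hF (g ^ n) *ᵥ v = c ^ n • v := by
  induction n with
  | zero => simp [en_one]
  | succ n ih => rw [pow_succ', en_mul, ← mulVec_mulVec, ih, mulVec_smul, h, smul_smul, pow_succ]

theorem not_cen {x k : Γ} {v : Fin 3 → F} {c c' : F} (hv : en hF k *ᵥ v ≠ 0)
    (h1 : en hF x *ᵥ v = c • v) (h2 : en hF x *ᵥ (en hF k *ᵥ v) = c' • (en hF k *ᵥ v)) (hc : c ≠ c')
    (n : ℕ) : x ^ 2 ^ n ∉ center Γ := by
  intro h
  have e1 := en_pow h1 (2 ^ n)
  have e2 := en_pow h2 (2 ^ n)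
  rw [mulVec_mulVec, ← en_mul, ← mem_center_iff.1 h, en_mul, ← mulVec_mulVec, e1, mulVec_smul] at e2
  have := smul_left_injective F hv e2
  exact hc ((iterateFrobenius F 2 n).injective this)

omit [CharP F 2] in
theorem d_central {l : Fˣ} (h : (l : F) * l = σ l) : d hF l ∈ center Γ := by
  have h1 : σ (l : F) * σ l = l := by rw [← map_mul, h, CForm.conj_conj]
  have h3 : (l : F) * l * l = 1 := by
    apply mul_left_cancel₀ l.ne_zero
    rw [← h] at h1
    linear_combination h1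
  have e : en hF (d hF l) = (l : F) • (1 : Matrix (Fin 3) (Fin 3) F) := by
    rw [en_d, ← h]
    ext i j
    fin_cases i <;> fin_cases j <;> simp
    rw [← mul_inv]; exact inv_eq_of_mul_eq_one_right h3
  rw [mem_center_iff]
  intro g
  apply en_inj
  rw [en_mul, en_mul, e]
  simp

/-- The transvection interchanging `e₁` and `(1,0,c)`. -/
def τ (c : F) (hc : σ c = c + 1) : Γ :=
  mkS !![c, 1, 1; c + 1, 0, 1; c * (c + 1), c, c + 1] (by
    have := two (F := F)
    simp [det_fin_three]; grind) (by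
    have := two (F := F)
    ext i j
    fin_cases i <;> fin_cases j <;> simp [SU3.J, Matrix.mul_apply, Fin.sum_univ_three, hc] <;> grind)

theorem en_τ (c : F) (hc : σ c = c + 1) :
    en hF (τ c hc) = !![c, 1, 1; c + 1, 0, 1; c * (c + 1), c, c + 1] := rfl

theorem ττ (c : F) (hc : σ c = c + 1) : τ c hc * τ c hc = 1 := by
  have := two (F := F)
  apply en_inj
  simp only [en_mul, en_τ, en_one]
  ext i j
  fin_cases i <;> fin_cases j <;> simp [Matrix.mul_apply, Fin.sum_univ_three] <;> grind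

/-- Diagonal element with eigenvalues `μ, μ⁻¹, 1` on `e₁, (1,0,c), (1,0,c+1)`. -/
def X (c : F) (hc : σ c = c + 1) (μ : F) (hμ : μ * σ μ = 1) : Γ :=
  mkS !![1 + (σ μ + 1) * (c + 1), 0, σ μ + 1; 0, μ, 0; (σ μ + 1) * c * (c + 1), 0, 1 + (σ μ + 1) * c] (by
    have := two (F := F)
    simp [det_fin_three]; grind) (by
    have := two (F := F)
    ext i j
    fin_cases i <;> fin_cases j <;>
      simp [SU3.J, Matrix.mul_apply, Fin.sum_univ_three, hc, CForm.conj_conj] <;> grind)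

theorem en_X (c : F) (hc : σ c = c + 1) (μ : F) (hμ : μ * σ μ = 1) : en hF (X c hc μ hμ) =
    !![1 + (σ μ + 1) * (c + 1), 0, σ μ + 1; 0, μ, 0; (σ μ + 1) * c * (c + 1), 0, 1 + (σ μ + 1) * c] := rfl

theorem τX (c : F) (hc : σ c = c + 1) (μ : F) (hμ : μ * σ μ = 1) :
    τ c hc * X c hc μ hμ * (τ c hc * X c hc μ hμ) = 1 := by
  have := two (F := F)
  apply en_inj
  simp only [en_mul, en_τ, en_X, en_one]
  ext i j
  fin_cases i <;> fin_cases j <;> simp [Matrix.mul_apply, Fin.sum_univ_three] <;> grind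

theorem X_e1 (c : F) (hc : σ c = c + 1) (μ : F) (hμ : μ * σ μ = 1) :
    en hF (X c hc μ hμ) *ᵥ ![0, 1, 0] = μ • ![0, 1, 0] := by
  rw [en_X]; ext i; fin_cases i <;> simp [mulVec, dotProduct, Fin.sum_univ_three]

theorem X_f (c : F) (hc : σ c = c + 1) (μ : F) (hμ : μ * σ μ = 1) :
    en hF (X c hc μ hμ) *ᵥ ![1, 0, c + 1] = ![1, 0, c + 1] := by
  have := two (F := F)
  rw [en_X]; ext i; fin_cases i <;> simp [mulVec, dotProduct, Fin.sum_univ_three] <;> grind

theorem τ_e1 (c : F) (hc : σ c = c + 1) : en hF (τ c hc) *ᵥ ![0, 1, 0] = ![1, 0, c] := by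
  rw [en_τ]; ext i; fin_cases i <;> simp [mulVec, dotProduct, Fin.sum_univ_three]

theorem τ_e0 (c : F) (hc : σ c = c + 1) : en hF (τ c hc) *ᵥ ![1, 0, 0] = ![c, c + 1, c * (c + 1)] := by
  rw [en_τ]; ext i; fin_cases i <;> simp [mulVec, dotProduct, Fin.sum_univ_three]

theorem hc' {c : F} (hc : σ c = c + 1) : σ (c + 1) = c + 1 + 1 := by rw [map_add, hc, map_one]

theorem hom3 (c : F) (hc : σ c = c + 1) (l : Fˣ) (hl : l * σ (l : F) = 1) :
    τ c hc * d hF l * τ c hc * d hF l * (τ _ (hc' hc) * d hF l * τ _ (hc' hc)) = 1 := by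
  have := two (F := F)
  have h1 : (σ (l : F))⁻¹ = l := inv_eq_of_mul_eq_one_left hl
  have h2 : (l : F)⁻¹ = σ l := inv_eq_of_mul_eq_one_right hl
  apply en_inj
  simp only [en_mul, en_τ, en_d, en_one, h1, h2]
  generalize σ (l : F) = m at *
  generalize (l : F) = n at *
  ext i j
  fin_cases i <;> fin_cases j <;> simp [Matrix.mul_apply, Fin.sum_univ_three] <;> grind

end CA.BinU
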