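import Cfsg.Agent.Lib.Lin.H19BinU

/-! Binary actions of `U₃(q)`, `q` even: stabilizers of even order. -/

set_option autoImplicit false

namespace CA.BinU
open Matrix Subgroup CA.CForm CA.SU3 CA.U3Rec CA.Bin MulAction

variable {F : Type*} [Field F] [Fintype F] {q : ℕ} {hF : Fintype.card F = q ^ 2} [CharP F 2]

local notation "σ" => conj hF
local notation "Γ" => SJ hF

omit [CharP F 2] in
theorem ex_l (h4 : 4 ≤ q) : ∃ l : Fˣ, σ (l : F) ^ 3 ≠ (l : F) ^ 3 := by
  by_contra h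
  push Not at h
  have : ∀ x : Fˣ, x ^ (3 * (q - 1)) = 1 := fun x => by
    have e := h x
    rw [conj_apply, ← pow_mul] at e
    have e2 : x ^ (3 * (q - 1)) * x ^ 3 = x ^ 3 := by
      rw [← pow_add, show 3 * (q - 1) + 3 = q * 3 by omega]
      exact Units.ext (by simpa using e)
    exact mul_eq_right.1 e2
  rw [FiniteField.forall_pow_eq_one_iff, hF] at this
  have := Nat.le_of_dvd (by omega) this
  obtain ⟨r, rfl⟩ : ∃ r, q = r + 1 := ⟨q - 1, by omega⟩
  have e : (r + 1) ^ 2 = r * r + 2 * r + 1 := by ring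
  have : 3 * r ≤ r * r := Nat.mul_le_mul_right r (by omega)
  simp only [add_tsub_cancel_right] at *
  omega

omit [CharP F 2] in
theorem ex_lam (h4 : 4 ≤ q) : ∃ l : Fˣ, σ (l : F) = l ∧ l ≠ 1 := by
  have : ∃ x : Fˣ, x ^ (q + 1) ≠ 1 := by
    by_contra h
    push Not at h
    rw [FiniteField.forall_pow_eq_one_iff, hF] at h
    have := Nat.le_of_dvd (by omega) h
    have : 4 * q ≤ q * q := Nat.mul_le_mul_right q h4
    rw [sq] at *
    omega
  obtain ⟨x, hx⟩ := this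
  refine ⟨x ^ (q + 1), ?_, hx⟩
  rw [Units.val_pow_eq_pow_val, pow_succ, ← conj_apply hF, map_mul, CForm.conj_conj, mul_comm]

theorem ex_c (h4 : 4 ≤ q) : ∃ c : F, σ c = c + 1 := by
  obtain ⟨l, hl⟩ := ex_l (hF := hF) h4
  have h2 := two (F := F)
  have : (l : F) + σ l ≠ 0 := fun e => hl (by rw [show σ (l : F) = l by linear_combination e - l * h2])
  refine ⟨l / (l + σ l), ?_⟩
  rw [map_div₀, map_add, CForm.conj_conj, add_comm (σ (l : F))]
  field_simp
  linear_combination (-(l : F)) * h2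

theorem mem_cm {G : Type*} [Group G] {M : Subgroup G} {u g : G} :
    g ∈ M.comap (MulAut.conj u).toMonoidHom ↔ u * g * u⁻¹ ∈ M := Iff.rfl

theorem cell_id {G : Type*} [Group G] {p w x y : G} (h : x * y = y * x) (hw : w⁻¹ = w) (d : G) :
    p * (w * y * w) * p⁻¹ = p * w * (x * d) * (d⁻¹ * y * d⁻¹⁻¹) * (p * w * (x * d))⁻¹ := by
  calc _ = p * w * (y * x) * x⁻¹ * w⁻¹ * p⁻¹ := by rw [hw]; group
    _ = _ := by rw [← h]; group

theorem cell_id2 {G : Type*} [Group G] {x d m : G} (h : d * m = m * d) :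
    x * m * x⁻¹ = x * d * m * (x * d)⁻¹ := by
  rw [mul_assoc x d, h]; group

theorem cell_id3 {G : Type*} [Group G] {p w x : G} (hw : w⁻¹ = w) : x = w * p⁻¹ * (p * w * x) := by
  nth_rw 1 [← hw]; group

section sub
variable {M : Subgroup (SJ hF)} (hZ : ∀ x : Hs hF, x.a = 0 → ι hF x ∈ M)
  (hW : ∀ x : Hs hF, x.a = 0 → w hF * ι hF x * w hF ∈ M)
include hZ hW

theorem w_mem : w hF ∈ M := by
  have := dw (hF := hF) 1 (by simp)
  rw [map_one, one_mul] at this
  exact this ▸ mul_mem (mul_mem (hZ _ rfl) (hW _ rfl)) (hZ _ rfl)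

theorem d_mem {l : Fˣ} (hl : σ (l : F) = l) : d hF l ∈ M := by
  have := mul_mem (dw l hl ▸ mul_mem (mul_mem (hZ _ rfl) (hW _ rfl)) (hZ _ rfl)) (inv_mem (w_mem hZ hW))
  simpa using this

omit hW in
theorem mem_of_a {x y : Hs hF} (hx : ι hF x ∈ M) (h : y.a = x.a) : ι hF y ∈ M := by
  have := mul_mem hx (hZ (x⁻¹ * y) (by simp [h]))
  rwa [← map_mul, mul_inv_cancel_left] at this

theorem scale {x y : Hs hF} (hx : ι hF x ∈ M) {c : F} (hc : σ c = c) (h : y.a = c * x.a) : ι hF y ∈ M := by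
  by_cases c0 : c = 0
  · exact hZ y (by rw [h, c0, zero_mul])
  have h1 := d_mem hZ hW (l := Units.mk0 c c0) hc
  have := mul_mem (mul_mem h1 hx) (inv_mem h1)
  rw [d_conj] at this
  refine mem_of_a hZ this ?_
  simp only [sc_a, Units.val_mk0, hc, h]
  field_simp

theorem of_comm (h4 : 4 ≤ q) {x : Hs hF} (h : ∀ l : Fˣ, σ (l : F) = l → ι hF x * d hF l * (ι hF x)⁻¹ ∈ M) :
    ι hF x ∈ M := by
  obtain ⟨l, hl, l1⟩ := ex_lam (hF := hF) h4
  have h1 := mul_mem (h l hl) (inv_mem (d_mem hZ hW hl))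
  rw [mul_assoc (ι hF x), mul_assoc (ι hF x), ← map_inv, d_conj, ← map_mul] at h1
  have h2 := two (F := F)
  have l2 : 1 + (l : F) ≠ 0 := fun e => l1 (Units.ext (by
    simp only [Units.val_one]; linear_combination e - h2))
  refine scale hZ hW h1 (c := (1 + l)⁻¹) (by rw [map_inv₀, map_add, map_one, hl]) ?_
  simp only [mul_a, sc_a, inv_a, hl]
  field_simp
  linear_combination l * x.a * h2

theorem of_cell (h4 : 4 ≤ q) {p x : Hs hF} {l : Fˣ} (h : ι hF p * w hF * (ι hF x * d hF l) ∈ M) :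
    ι hF p ∈ M := by
  refine of_comm hZ hW h4 fun m hm => ?_
  refine mem_cm.1 (d_mem (M := M.comap (MulAut.conj (ι hF p)).toMonoidHom) (fun y hy => mem_cm.2 ?_)
    (fun y hy => mem_cm.2 ?_) hm)
  · rw [a_comm hy, mul_inv_cancel_right]; exact hZ y hy
  · have := mul_mem (mul_mem h (hZ (sc l⁻¹ y) (by simp [hy]))) (inv_mem h)
    rw [← d_conj, map_inv] at this
    rw [cell_id (a_comm hy x) w_inv (d hF l)]
    exact this

theorem top_of_a (h4 : 4 ≤ q) {x : Hs hF} (hx : ι hF x ∈ M) (ha : x.a ≠ 0) : M = ⊤ := by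
  have h2 := two (F := F)
  have hw := w_mem hZ hW
  have hh := x.h
  have hσa : σ x.a ≠ 0 := (map_ne_zero _).2 ha
  have t0 : x.b + σ x.b ≠ 0 := fun e => mul_ne_zero ha hσa (by linear_combination hh - e)
  have b0 : x.b ≠ 0 := fun e => t0 (by simp [e])
  have hσb : σ x.b ≠ 0 := (map_ne_zero _).2 b0
  have e20 : en hF (w hF * ι hF x * w hF) 2 0 = x.b := by
    simp [en_mul, en_w, en_ι, Matrix.mul_apply, Fin.sum_univ_three, vecMul, dotProduct]
  have e10 : en hF (w hF * ι hF x * w hF) 1 0 = σ x.a := by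
    simp [en_mul, en_w, en_ι, Matrix.mul_apply, Fin.sum_univ_three, vecMul, dotProduct, CharTwo.neg_eq]
  obtain ⟨p, y, l, pa, e⟩ := key' (e20 ▸ b0)
  rw [e20, e10, map_div₀, CForm.conj_conj] at pa
  have hp : ι hF p ∈ M := of_cell hZ hW h4 (e ▸ mul_mem (mul_mem hw hx) hw)
  have all : ∀ y, ι hF y ∈ M := by
    intro y
    obtain ⟨c, hc⟩ := ex_c (hF := hF) h4
    let mk : F → Hs hF := fun a => ⟨a, c * (a * σ a), by
      simp only [map_mul, hc, CForm.conj_conj]; linear_combination (c + 1) * (a * σ a) * h2⟩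
    let β := (y.a / x.a + σ (y.a / x.a)) * (x.b * σ x.b) / (x.b + σ x.b)
    have hβ : σ β = β := by
      simp only [β, map_div₀, map_mul, map_add, CForm.conj_conj]; ring
    have m1 := scale hZ hW hp hβ (y := mk (β * p.a)) rfl
    have m2 := scale hZ hW hx (c := y.a / x.a + β / σ x.b) (y := mk ((y.a / x.a + β / σ x.b) * x.a)) (by
      rw [map_add, map_div₀ _ β, hβ, CForm.conj_conj]
      simp only [β]
      generalize σ (y.a / x.a) = u, y.a / x.a = v
      field_simp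
      grind) rfl
    have := mul_mem m1 m2
    rw [← map_mul] at this
    refine mem_of_a hZ this ?_
    simp only [mul_a, mk, pa]
    field_simp
    linear_combination (-(β * x.a)) * h2
  rw [eq_top_iff]
  intro g _
  exact gen (P := (· ∈ M)) (fun _ _ => mul_mem) all hw g

omit hZ hW in
theorem fix_B {x : Hs hF} {l : Fˣ} {c : F} (h : en hF (ι hF x * d hF l) *ᵥ ![0, 1, 0] = c • ![0, 1, 0]) :
    x.a = 0 ∧ σ (l : F) = c * l := by
  have h0 := congrFun h 0
  have h1 := congrFun h 1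
  simp [en_mul, en_ι, en_d, mulVec, dotProduct, Fin.sum_univ_three] at h0 h1
  exact ⟨h0, by rw [← h1]; field_simp⟩

theorem fix_e1 {g : Γ} (h : en hF g *ᵥ ![0, 1, 0] = ![0, 1, 0]) : g ∈ M := by
  have hB : ∀ x l, en hF (ι hF x * d hF l) *ᵥ ![0, 1, 0] = ![0, 1, 0] → ι hF x * d hF l ∈ M := by
    intro x l h
    obtain ⟨h1, h2⟩ := fix_B (x := x) (l := l) (c := 1) (by rwa [one_smul])
    exact mul_mem (hZ x h1) (d_mem hZ hW (by rwa [one_mul] at h2))
  by_cases h20 : en hF g 2 0 = 0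
  · obtain ⟨x, l, rfl⟩ := borel h20
    exact hB x l h
  obtain ⟨p, x, l, pa, e⟩ := key' h20
  have h10 : en hF g 1 0 = 0 := by
    have := eqs g 0 1
    have h0 := congrFun h 0
    have h1 := congrFun h 1
    have h2 := congrFun h 2
    simp [mulVec, dotProduct, Fin.sum_univ_three] at h0 h1 h2
    simpa [h0, h1, h2, SU3.J] using this
  rw [h10, zero_div, map_zero] at pa
  rw [e]
  refine mul_mem (mul_mem (hZ p pa) (w_mem hZ hW)) (hB x l ?_)
  have : ι hF x * d hF l = w hF * ι hF p⁻¹ * g := by rw [e, map_inv]; exact cell_id3 w_inv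
  rw [this, en_mul, ← mulVec_mulVec, h, en_mul, en_w, en_ι]
  ext i; fin_cases i <;> simp [mulVec, dotProduct, Fin.sum_univ_three, pa]

theorem le_e1 (h4 : 4 ≤ q) (hM : M ≠ ⊤) {g : Γ} (hg : g ∈ M) : Fx g ![0, 1, 0] := by
  have hA : ∀ x, ι hF x ∈ M → x.a = 0 := fun x hx => by
    by_contra ha
    exact hM (top_of_a hZ hW h4 hx ha)
  have f1 : ∀ x : Hs hF, x.a = 0 → Fx (ι hF x) ![0, 1, 0] := fun x hx => ⟨1, by
    rw [en_ι]; ext i; fin_cases i <;> simp [mulVec, dotProduct, Fin.sum_univ_three, hx]⟩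
  have hB : ∀ x l, ι hF x * d hF l ∈ M → Fx (ι hF x * d hF l) ![0, 1, 0] := by
    intro x l h
    refine (f1 x (hA x (of_comm hZ hW h4 fun m hm => ?_))).mul ⟨σ (l : F) * (l : F)⁻¹, ?_⟩
    · have := mul_mem (mul_mem h (d_mem hZ hW hm)) (inv_mem h)
      rwa [cell_id2 (d := d hF l) (by rw [← map_mul, mul_comm l, map_mul])]
    · rw [en_d]; ext i; fin_cases i <;> simp [mulVec, dotProduct, Fin.sum_univ_three]
  by_cases h20 : en hF g 2 0 = 0
  · obtain ⟨x, l, rfl⟩ := borel h20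
    exact hB x l hg
  obtain ⟨p, x, l, -, rfl⟩ := key' h20
  have hp := of_cell hZ hW h4 hg
  have hw := w_mem hZ hW
  refine ((f1 p (hA p hp)).mul ⟨1, ?_⟩).mul (hB x l ?_)
  · rw [en_w]; ext i; fin_cases i <;> simp [mulVec, dotProduct, Fin.sum_univ_three]
  · have := mul_mem (inv_mem (mul_mem hp hw)) hg
    rwa [inv_mul_cancel_left] at this

end sub

/-- The hypotheses on the action of `SU₃(q)`. -/
structure Hy (hF : Fintype.card F = q ^ 2) (Ω : Type*) [MulAction (SJ hF) Ω] : Prop where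
  h4 : 4 ≤ q
  bin : Bin (SJ hF) Ω
  cen : ∀ z ∈ center (SJ hF), ∀ x : Ω, z • x = x
  pI : ∀ (g x : SJ hF) (γ : Ω), g * g = 1 → g * x * (g * x) = 1 → (∀ n : ℕ, x ^ 2 ^ n ∉ center (SJ hF)) →
    x • γ = γ → g • γ = γ

variable {Ω : Type*} [MulAction (SJ hF) Ω] [Finite Ω]

theorem Hy.line (h : Hy hF Ω) {ω : Ω} (hZ : ∀ x : Hs hF, x.a = 0 → ι hF x ∈ stabilizer Γ ω)
    (hW : ∀ x : Hs hF, x.a = 0 → w hF * ι hF x * w hF ∈ stabilizer Γ ω) : stabilizer Γ ω = ⊤ := by
  by_contra hM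
  have h2 := two (F := F)
  obtain ⟨c, hc⟩ := ex_c (hF := hF) h.h4
  have E : ∀ m : Γ, m • ω = ω → en hF m *ᵥ ![0, 1, 0] = ![0, 1, 0] := by
    intro m hm
    obtain ⟨μ, hμ⟩ := le_e1 hZ hW h.h4 hM hm
    have hn : μ * σ μ = 1 := by
      have := eqs m 1 1
      have h0 := congrFun hμ 0
      have h1 := congrFun hμ 1
      have h2 := congrFun hμ 2
      simp [mulVec, dotProduct, Fin.sum_univ_three] at h0 h1 h2
      simpa [h0, h1, h2, SU3.J] using this
    by_cases μ1 : μ = 1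
    · rw [hμ, μ1, one_smul]
    exfalso
    have μ0 : μ ≠ 0 := left_ne_zero_of_mul_eq_one hn
    have m1 : X c hc μ hn ∈ stabilizer Γ ω := by
      have := fix_e1 hZ hW (g := m⁻¹ * X c hc μ hn) (by
        rw [en_mul, ← mulVec_mulVec, X_e1, ← hμ, mulVec_mulVec, ← en_mul, inv_mul_cancel, en_one, one_mulVec])
      simpa using mul_mem hm this
    have m2 := h.pI _ _ ω (ττ c hc) (τX c hc μ hn) (not_cen (k := τ _ (hc' hc)) (c' := 1)
      (by rw [τ_e1]; simp) (X_e1 c hc μ hn) (by rw [τ_e1, X_f, one_smul]) μ1) m1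
    obtain ⟨a, ha⟩ := le_e1 hZ hW h.h4 hM m2
    rw [τ_e1] at ha
    simpa using congrFun ha 0
  obtain ⟨l, hl⟩ := ex_l (hF := hF) h.h4
  have hσ := conj_ne (hF := hF) l
  have hn : (l / σ l : F) * σ (l / σ l : F) = 1 := by
    rw [map_div₀, CForm.conj_conj]; field_simp
  have μ1 : (l / σ l : F) ≠ 1 := fun e => hl (by rw [(div_eq_one_iff_eq hσ).1 e, CForm.conj_conj, ← (div_eq_one_iff_eq hσ).1 e])
  generalize (l / σ l : F) = μ at hn μ1
  have cc : c + 1 + 1 = c := by linear_combination h2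
  obtain ⟨s, h1, h3, h4⟩ := h.bin.star (X _ (hc' hc) μ hn) (X c hc μ hn)
  have f1 := en_conj (c := 1) ((E _ (stab_smul_mem.1 (h1 (τ c hc • ω) (stab_smul_mem.2 (fix_e1 hZ hW
    (en_conj' (by rw [τ_e1]; simpa [cc] using X_f _ (hc' hc) μ hn))))))).trans (one_smul _ _).symm)
  have f2 := en_conj (c := 1) ((E _ (stab_smul_mem.1 (h3 (τ _ (hc' hc) • ω) (stab_smul_mem.2 (fix_e1 hZ hW
    (en_conj' (by rw [τ_e1]; exact X_f c hc μ hn))))))).trans (one_smul _ _).symm)
  have f3 := h4 ω (by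
    have := fix_e1 hZ hW (g := (X c hc μ hn)⁻¹ * X _ (hc' hc) μ hn) (by
      rw [en_mul, ← mulVec_mulVec, X_e1, ← X_e1 c hc μ hn, mulVec_mulVec, ← en_mul, inv_mul_cancel, en_one,
        one_mulVec])
    rw [mem_stabilizer_iff, SemigroupAction.mul_smul, inv_smul_eq_iff] at this
    exact this)
  have f4 := E ((X _ (hc' hc) μ hn)⁻¹ * s) (by rw [SemigroupAction.mul_smul, f3, inv_smul_smul])
  have f5 : en hF s *ᵥ ![0, 1, 0] = μ • ![0, 1, 0] := by
    rw [← X_e1 _ (hc' hc) μ hn]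
    conv_rhs => rw [← f4, mulVec_mulVec, ← en_mul, mul_inv_cancel_left]
  rw [τ_e1] at f1 f2
  have hd := en_det s
  have a0 := congrFun f1 0
  have a1 := congrFun f1 1
  have a2 := congrFun f1 2
  have b0 := congrFun f2 0
  have b1 := congrFun f2 1
  have b2 := congrFun f2 2
  have c0 := congrFun f5 0
  have c1 := congrFun f5 1
  have c2 := congrFun f5 2
  simp [mulVec, dotProduct, Fin.sum_univ_three, det_fin_three] at a0 a1 a2 b0 b1 b2 c0 c1 c2 hd
  apply μ1
  grind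

end CA.BinU
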