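import Cfsg.Agent.Lib.Lin.H19BinU2

/-! Binary actions of `U₃(q)`, `q` even: the Borel case. -/

set_option autoImplicit false

namespace CA.BinU
open Matrix Subgroup CA.CForm CA.SU3 CA.U3Rec CA.Bin MulAction

variable {F : Type*} [Field F] [Fintype F] {q : ℕ} {hF : Fintype.card F = q ^ 2} [CharP F 2]

local notation "σ" => conj hF
local notation "Γ" => SJ hF

theorem w_e0 : en hF (w hF) *ᵥ ![1, 0, 0] = ![0, 0, 1] := by
  rw [en_w]; ext i; fin_cases i <;> simp [mulVec, dotProduct, Fin.sum_univ_three]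

omit [CharP F 2] in
theorem B_of_fx {g : Γ} (h : Fx g ![1, 0, 0]) : ∃ x l, g = ι hF x * d hF l := by
  obtain ⟨c, h⟩ := h
  exact borel (by simpa [mulVec, dotProduct, Fin.sum_univ_three] using congrFun h 2)

omit [CharP F 2] in
theorem one_of_fx {x : Hs hF} {l : Fˣ} (h : Fx (ι hF x * d hF l) ![0, 0, 1]) : x = 1 := by
  obtain ⟨c, h⟩ := h
  have h0 := congrFun h 0
  have h1 := congrFun h 1
  have := conj_ne (hF := hF) l
  simp [en_mul, en_ι, en_d, mulVec, dotProduct, Fin.sum_univ_three] at h0 h1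
  exact Hs.ext h1 h0

theorem wd_comm {l : Fˣ} (hl : l * σ (l : F) = 1) : w hF * d hF l = d hF l * w hF := by
  have h1 : (σ (l : F))⁻¹ = l := inv_eq_of_mul_eq_one_left hl
  apply en_inj
  simp only [en_mul, en_w, en_d, h1]
  ext i j
  fin_cases i <;> fin_cases j <;> simp [Matrix.mul_apply, Fin.sum_univ_three]

theorem zd_comm {l : Fˣ} (hl : l * σ (l : F) = 1) :
    ι hF (zz 1 (map_one _)) * d hF l = d hF l * ι hF (zz 1 (map_one _)) := by
  rw [d_mul_ι]
  congr 2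
  exact Hs.ext (by simp [zz]) (by simp [zz, hl])

theorem fix_comm {G Ω : Type*} [Group G] [MulAction G Ω] {g c : G} {ω : Ω} (h : c * g = g * c)
    (hg : g • ω = ω) : g • c • ω = c • ω := by
  rw [← SemigroupAction.mul_smul, ← h, SemigroupAction.mul_smul, hg]

theorem hom_id {G Ω : Type*} [Group G] [MulAction G Ω] {t t' d : G} {ω : Ω} (ht : t * t = 1)
    (ht' : t' * t' = 1) (h : t * d * t * d * (t' * d * t') = 1) (hd : d • ω = ω) :
    (t * d * t)⁻¹ • t • ω = t • ω ∧ d • t' • ω = (t * d * t)⁻¹ • t' • ω := by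
  have e1 : t⁻¹ = t := inv_eq_of_mul_eq_one_right ht
  have e2 : t'⁻¹ = t' := inv_eq_of_mul_eq_one_right ht'
  constructor
  · rw [inv_smul_eq_iff]; nth_rw 3 [← e1]; exact (fix_conj.2 hd).symm
  · rw [eq_inv_smul_iff, ← SemigroupAction.mul_smul, eq_inv_of_mul_eq_one_left h, inv_smul_eq_iff]
    nth_rw 3 [← e2]; exact (fix_conj.2 hd).symm

variable {Ω : Type*} [MulAction (SJ hF) Ω] [Finite Ω]

theorem Hy.no_d (h : Hy hF Ω) {ω : Ω} (hB : ∀ g : Γ, g • ω = ω → Fx g ![1, 0, 0]) {l : Fˣ}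
    (hl : d hF l • ω = ω) : (l : F) * l = σ l := by
  have h2 := two (F := F)
  have hσ := conj_ne (hF := hF) l
  have hn : l * σ (l : F) = 1 := by
    by_contra hn
    have e : ((l ^ (q + 1) : Fˣ) : F) = l * σ l := by
      rw [Units.val_pow_eq_pow_val, pow_succ', conj_apply]
    have e2 : σ ((l ^ (q + 1) : Fˣ) : F) = (l ^ (q + 1) : Fˣ) := by
      rw [e, map_mul, CForm.conj_conj, mul_comm]
    have m1 : d hF (l ^ (q + 1)) • ω = ω := by rw [map_pow]; exact pow_fix hl _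
    rw [← e] at hn
    generalize l ^ (q + 1) = m at e2 m1 hn
    have := h.pI _ _ ω ww (wd m e2) (not_cen (k := w hF) (v := ![1, 0, 0]) (c := m) (c' := (m : F)⁻¹)
      (by rw [w_e0]; simp) (by rw [en_d]; ext i; fin_cases i <;> simp [mulVec, dotProduct, Fin.sum_univ_three])
      (by rw [w_e0, en_d, e2]; ext i; fin_cases i <;> simp [mulVec, dotProduct, Fin.sum_univ_three])
      (fun e => hn (by
        have : (m : F) * m = 1 := by nth_rw 2 [e]; simp
        have : ((m : F) - 1) ^ 2 = 0 := by linear_combination this + (1 - (m : F)) * h2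
        simpa [sub_eq_zero] using this))) m1
    obtain ⟨a, ha⟩ := hB _ this
    rw [w_e0] at ha
    simpa using congrFun ha 2
  obtain ⟨c, hc⟩ := ex_c (hF := hF) h.h4
  have c0 : c ≠ 0 := by rintro rfl; simp at hc
  have c1 : c + 1 ≠ 0 := by rw [← hc]; exact (map_ne_zero _).2 c0
  obtain ⟨i1, i2⟩ := hom_id (ττ c hc) (ττ _ (hc' hc)) (hom3 c hc l hn) hl
  obtain ⟨s, h1, h3, h4⟩ := h.bin.star (d hF l) (τ c hc * d hF l * τ c hc)⁻¹
  obtain ⟨x, a, rfl⟩ := B_of_fx (hB s (h1 ω hl))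
  have f1 := (hB _ (stab_smul_mem.1 (h1 _ (fix_comm (wd_comm hn) hl)))).conj
  rw [w_e0] at f1
  obtain rfl := one_of_fx f1
  rw [map_one, one_mul] at h1 h3 h4
  have f2 := (hB _ (stab_smul_mem.1 (h1 _ (fix_comm (c := ι hF (zz 1 (map_one _)) * w hF)
    (by rw [mul_assoc, wd_comm hn, ← mul_assoc, zd_comm hn, mul_assoc]) hl)))).conj
  have f3 := (hB _ (stab_smul_mem.1 (h3 _ i1))).conj
  rw [τ_e0] at f3
  have hcen : d hF a ∈ center Γ := by
    obtain ⟨u, f3⟩ := f3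
    have a0 := congrFun f3 0
    have a1 := congrFun f3 1
    simp [en_d, mulVec, dotProduct, Fin.sum_univ_three, c0, c1] at a0 a1
    refine d_central ?_
    rw [← a0] at a1
    field_simp at a1
    linear_combination -a1
  have f4 := (hB _ (stab_smul_mem.1 ((h4 _ i2).symm.trans (h.cen _ hcen _)))).conj
  rw [τ_e0] at f4
  obtain ⟨u, f4⟩ := f4
  have a0 := congrFun f4 0
  have a1 := congrFun f4 1
  have cc : c + 1 + 1 = c := by linear_combination h2
  simp [en_d, mulVec, dotProduct, Fin.sum_univ_three, c0, c1, cc] at a0 a1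
  rw [← a0] at a1
  field_simp at a1
  linear_combination -a1

theorem Hy.le_QZ (h : Hy hF Ω) {ω : Ω} (hZ : ∀ x : Hs hF, x.a = 0 → ι hF x • ω = ω)
    (hB : ∀ g : Γ, g • ω = ω → Fx g ![1, 0, 0]) {g : Γ} (hg : g • ω = ω) :
    ∃ x l, g = ι hF x * d hF l ∧ d hF l ∈ center Γ := by
  obtain ⟨x, l, rfl⟩ := B_of_fx (hB g hg)
  refine ⟨x, l, rfl, d_central ?_⟩
  by_contra hl
  have h2 := two (F := F)
  have hσ := conj_ne (hF := hF) l
  obtain ⟨c, hc⟩ := ex_c (hF := hF) h.h4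
  have k1 : σ (l : F) + l * l ≠ 0 := fun e => hl (by linear_combination e - σ (l : F) * h2)
  let a := x.a * σ l / (σ l + l * l)
  let y : Hs hF := ⟨a, c * (a * σ a), by
    simp only [map_mul, hc, CForm.conj_conj]; linear_combination (c + 1) * (a * σ a) * h2⟩
  have e : (ι hF y)⁻¹ * (ι hF x * d hF l) * ι hF y = ι hF (y⁻¹ * x * sc l y) * d hF l := by
    rw [map_mul, map_mul, map_inv, mul_assoc _ (ι hF (sc l y)), ← d_mul_ι]
    simp only [mul_assoc]
  have ha : (y⁻¹ * x * sc l y).a = 0 := by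
    have k2 : σ (l : F) + l ^ 2 ≠ 0 := by rwa [sq]
    simp only [mul_a, inv_a, sc_a, y, a]
    field_simp
    linear_combination (x.a * l ^ 2) * h2
  have m1 : (ι hF (y⁻¹ * x * sc l y) * d hF l) • (ι hF y)⁻¹ • ω = (ι hF y)⁻¹ • ω := by
    rw [← e]
    have := (fix_conj (k := (ι hF y)⁻¹)).2 hg
    rwa [inv_inv] at this
  have m2 : ι hF (y⁻¹ * x * sc l y) • (ι hF y)⁻¹ • ω = (ι hF y)⁻¹ • ω := by
    rw [← map_inv]
    exact fix_comm (a_comm ha _) (hZ _ ha)
  refine hl (h.no_d (ω := (ι hF y)⁻¹ • ω) (fun g hg => ?_) ?_)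
  · have := (hB _ (stab_smul_mem.1 hg)).conj
    rw [← map_inv, en_ι] at this
    convert this using 1
    ext i; fin_cases i <;> simp [mulVec, dotProduct, Fin.sum_univ_three]
  · rw [SemigroupAction.mul_smul] at m1
    exact smul_left_cancel _ (m1.trans m2.symm)

theorem tri (x y z : Hs hF) {θ : F} (θ0 : θ ≠ 0) (a0 : x.a ≠ 0)
    (hθ : θ * σ θ * (x.b * σ x.b) = x.a * σ x.a * (θ + σ θ))
    (ya : y.a = x.a * θ) (yb : y.b = θ * σ θ * σ x.b) (za : z.a = x.b / σ x.a) (zb : z.b = (σ θ)⁻¹) :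
    ∃ u : Hs hF, u.a = x.a * σ θ ∧
      (ι hF z * w hF)⁻¹ * (ι hF x * (w hF * ι hF y * (w hF)⁻¹)) * (ι hF z * w hF) = ι hF u := by
  have h2 := two (F := F)
  have hx := x.h
  have σθ : σ θ ≠ 0 := (map_ne_zero _).2 θ0
  have σa : σ x.a ≠ 0 := (map_ne_zero _).2 a0
  have e : en hF ((ι hF z * w hF)⁻¹ * (ι hF x * (w hF * ι hF y * (w hF)⁻¹)) * (ι hF z * w hF)) =
      en hF (w hF) * en hF (ι hF z⁻¹) * (en hF (ι hF x) * (en hF (w hF) * en hF (ι hF y) * en hF (w hF))) *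
        (en hF (ι hF z) * en hF (w hF)) := by
    rw [_root_.mul_inv_rev, w_inv, ← map_inv]; simp only [en_mul]
  simp only [en_w, en_ι, inv_a, inv_b, ya, yb, za, zb, map_neg, map_div₀, map_mul, map_inv₀,
    CForm.conj_conj] at e
  generalize (ι hF z * w hF)⁻¹ * (ι hF x * (w hF * ι hF y * (w hF)⁻¹)) * (ι hF z * w hF) = g at e
  generalize σ θ = θ' at *
  generalize σ x.a = a' at *
  generalize σ x.b = b' at *
  generalize x.a = a at *
  generalize x.b = b at *
  obtain ⟨u, rfl⟩ := exists_ι (g := g)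
    (by rw [e]; simp [Matrix.mul_apply, Fin.sum_univ_three]; field_simp; grind)
    (by rw [e]; simp [Matrix.mul_apply, Fin.sum_univ_three]; field_simp; grind)
    (by rw [e]; simp [Matrix.mul_apply, Fin.sum_univ_three]; field_simp; grind)
  refine ⟨u, ?_, rfl⟩
  have := congrFun (congrFun e 0) 1
  simp [en_ι, Matrix.mul_apply, Fin.sum_univ_three] at this
  rw [this]
  field_simp
  grind

theorem Hy.a_zero (h : Hy hF Ω) {ω : Ω} (hZ : ∀ x : Hs hF, x.a = 0 → ι hF x • ω = ω)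
    (hB : ∀ g : Γ, g • ω = ω → Fx g ![1, 0, 0]) {x : Hs hF} (hx : ι hF x • ω = ω) : x.a = 0 := by
  by_contra a0
  have h2 := two (F := F)
  have hh := x.h
  have σa : σ x.a ≠ 0 := (map_ne_zero _).2 a0
  have t0 : x.b + σ x.b ≠ 0 := fun e => mul_ne_zero a0 σa (by linear_combination hh - e)
  have b0 : x.b ≠ 0 := fun e => t0 (by simp [e])
  have σb : σ x.b ≠ 0 := (map_ne_zero _).2 b0
  have fixA : ∀ (y : Hs hF) (l : Fˣ), y.a = l * l * (σ (l : F))⁻¹ * x.a → ι hF y • d hF l • ω = d hF l • ω := by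
    intro y l hy
    have : ι hF (sc l⁻¹ y) ∈ stabilizer Γ ω := mem_of_a hZ hx (by
      have := conj_ne (hF := hF) l
      simp only [sc_a, hy, Units.val_inv_eq_inv_val, map_inv₀]
      field_simp)
    rw [← d_conj, map_inv, inv_inv] at this
    exact stab_smul_mem.2 this
  obtain ⟨l, hl⟩ := ex_l (hF := hF) h.h4
  have σl := conj_ne (hF := hF) l
  have l0 := l.ne_zero
  have t1 : (l : F) ^ 3 + σ l ^ 3 ≠ 0 := fun e => hl (by linear_combination e - (l : F) ^ 3 * h2)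
  let lam : F := x.a * σ x.a * (l ^ 3 + σ l ^ 3) / ((l * σ l) ^ 2 * (x.b * σ x.b))
  have lam0 : lam ≠ 0 := by simp only [lam]; positivity
  have σlam : σ lam = lam := by
    simp only [lam, map_div₀, map_mul, map_add, map_pow, CForm.conj_conj]; ring
  let m : Fˣ := Units.mk0 lam lam0 * l
  let θ : F := lam * (l * l * (σ (l : F))⁻¹)
  have θ0 : θ ≠ 0 := by simp only [θ]; positivity
  have σθ : σ θ = lam * (σ l * σ l * (l : F)⁻¹) := by
    simp only [θ, map_mul, σlam, map_inv₀, CForm.conj_conj]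
  have σθ0 : σ θ ≠ 0 := (map_ne_zero _).2 θ0
  have hθ : θ * σ θ * (x.b * σ x.b) = x.a * σ x.a * (θ + σ θ) := by
    rw [σθ]; simp only [θ]
    have : lam * ((l * σ l) ^ 2 * (x.b * σ x.b)) = x.a * σ x.a * (l ^ 3 + σ l ^ 3) := by
      simp only [lam]; field_simp
    field_simp
    linear_combination this
  let y : Hs hF := ⟨x.a * θ, θ * σ θ * σ x.b, by
    simp only [map_mul, CForm.conj_conj]; linear_combination θ * σ θ * hh⟩
  let z : Hs hF := ⟨x.b / σ x.a, (σ θ)⁻¹, by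
    simp only [map_div₀, map_inv₀, CForm.conj_conj]
    field_simp
    linear_combination -hθ + (θ * σ θ * (x.b * σ x.b)) * h2⟩
  obtain ⟨u, ua, hu⟩ := tri x y z θ0 a0 hθ rfl rfl rfl rfl
  have f1 := fixA y m (by
    simp only [y, m, θ, Units.val_mul, Units.val_mk0, map_mul, σlam]; field_simp)
  have f2 := fixA u (Units.map (conj hF : F →* F) m) (by
    rw [ua, σθ]
    simp only [m, Units.coe_map, MonoidHom.coe_coe, Units.val_mul, Units.val_mk0, map_mul, σlam,
      CForm.conj_conj]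
    field_simp)
  rw [← hu] at f2
  have f3 := stab_smul_mem.2 f2
  obtain ⟨s, h1, h3, h4⟩ := h.bin.star (ι hF x)⁻¹ (w hF * ι hF y * (w hF)⁻¹)
  obtain ⟨x', l', rfl, hcen⟩ := h.le_QZ hZ hB (h1 ω (by rw [inv_smul_eq_iff, hx]))
  have f4 := h3 _ (fix_conj.2 f1)
  rw [← SemigroupAction.mul_smul (w hF)] at f4
  have f5 := (hB _ (stab_smul_mem.1 f4)).conj
  have f6 : Fx (ι hF x' * d hF l') ![0, 0, 1] := by
    obtain ⟨c, f5⟩ := f5
    refine ⟨c, smul_right_injective _ m.ne_zero ?_⟩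
    have e : en hF (w hF * d hF m) *ᵥ ![1, 0, 0] = (m : F) • ![0, 0, 1] := by
      rw [en_mul, en_w, en_d]; ext i; fin_cases i <;> simp [mulVec, dotProduct, Fin.sum_univ_three]
    rw [e, mulVec_smul, smul_comm] at f5
    exact f5
  obtain rfl := one_of_fx f6
  rw [map_one, one_mul] at h4
  have f7 := (h4 _ (by rw [inv_smul_eq_iff, ← SemigroupAction.mul_smul]; exact f3.symm)).symm.trans
    (h.cen _ hcen _)
  rw [inv_smul_eq_iff, ← SemigroupAction.mul_smul (ι hF z * w hF)] at f7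
  obtain ⟨c, f8⟩ := (hB _ (stab_smul_mem.1 f7.symm)).conj
  generalize Units.map (conj hF : F →* F) m = n at f8
  have a1 := congrFun f8 1
  have a2 := congrFun f8 2
  simp [en_mul, en_ι, en_w, en_d, mulVec, dotProduct, Fin.sum_univ_three, Matrix.mul_apply] at a1 a2
  rw [a2] at a1
  exact mul_ne_zero σa n.ne_zero (by linear_combination -a1)

theorem Hy.main (h : Hy hF Ω) {ω : Ω} (hω : stabilizer Γ ω ≠ ⊤)
    (hZ : ∀ x : Hs hF, x.a = 0 → ι hF x • ω = ω) {g : Γ} (hg : g • ω = ω) :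
    ∃ x : Hs hF, x.a = 0 ∧ ∃ z ∈ center Γ, g = ι hF x * z := by
  have hB : ∀ g : Γ, g • ω = ω → Fx g ![1, 0, 0] := by
    intro g hg
    by_cases h20 : en hF g 2 0 = 0
    · obtain ⟨x, l, rfl⟩ := borel h20
      refine ⟨l, ?_⟩
      rw [en_mul, en_ι, en_d]; ext i; fin_cases i <;> simp [mulVec, dotProduct, Fin.sum_univ_three]
    exfalso
    obtain ⟨p, x, l, -, rfl⟩ := key' h20
    have := h.line (ω := (ι hF p)⁻¹ • ω) (fun y hy => by
        rw [← map_inv]; exact fix_comm (a_comm hy _) (hZ _ hy))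
      (fun y hy => stab_smul_mem.2 (by
        rw [inv_inv, cell_id (a_comm hy x) w_inv (d hF l), ← map_inv (d hF), d_conj]
        exact mul_mem (mul_mem hg (hZ _ (by simp [hy]))) (inv_mem hg)))
    apply hω
    rw [stabilizer_smul_eq_stabilizer_map_conj] at this
    rw [eq_top_iff]
    intro g _
    obtain ⟨y, hy, e⟩ := this.ge (mem_top (MulAut.conj (ι hF p)⁻¹ g))
    exact (MulAut.conj (ι hF p)⁻¹).injective e ▸ hy
  obtain ⟨x, l, rfl, hc⟩ := h.le_QZ hZ hB hg
  refine ⟨x, h.a_zero hZ hB ?_, _, hc, rfl⟩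
  rwa [SemigroupAction.mul_smul, h.cen _ hc] at hg

end CA.BinU
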