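import Cfsg.Agent.Lib.Lin.H19BinU3

/-! Binary actions of `U₃(q)`, `q` even: the classification for even stabilizers. -/

set_option autoImplicit false

namespace CA.BinU
open Matrix Subgroup CA.CForm CA.SU3 CA.U3Rec CA.Bin MulAction CA.SylIn

variable {F : Type*} [Field F] [Fintype F] {n : ℕ}
variable {G : Type*} [Group G] [Finite G] {Ω : Type*} [MulAction G Ω] [Finite Ω] [IsPretransitive G Ω]

omit [Finite G] [Finite Ω] [IsPretransitive G Ω] in
theorem cen_smul {ω : Ω} {k : G} {P : Sylow 2 G}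
    (h : stabilizer G ω = (center (P : Subgroup G)).map (P : Subgroup G).subtype) :
    stabilizer G (k • ω) = (center ((k • P : Sylow 2 G) : Subgroup G)).map ((k • P : Sylow 2 G) : Subgroup G).subtype := by
  ext g
  rw [stab_smul_mem, h, cen_equiv (MulAut.conj k) (P' := ((k • P : Sylow 2 G) : Subgroup G))]
  · simp [mul_assoc]
  · intro y
    exact (mem_map_iff_mem (f := (MulAut.conj k).toMonoidHom) (K := (P : Subgroup G))
      (MulAut.conj k).injective).symm

theorem fwd [IsSimpleGroup G] (hone : Bin.One G) (n2 : 2 ≤ n) (hF : Fintype.card F = (2 ^ n) ^ 2)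
    (e : G ≃* Cfsg.PSU 3 F (2 ^ n)) (h : Bin G Ω) {ω : Ω} (hω : stabilizer G ω ≠ ⊤) {t : G} (t1 : t ≠ 1)
    (t2 : t * t = 1) (ht : t • ω = ω) :
    ∃ P : Sylow 2 G, stabilizer G ω = (center (P : Subgroup G)).map (P : Subgroup G).subtype := by
  haveI : CharP F 2 := charP_of_card_eq_prime_pow (f := n * 2) (by rw [hF, pow_mul])
  obtain ⟨π₀, h0, hk0⟩ := exists_π hF
  obtain ⟨π, hs, hk⟩ : ∃ π : SJ hF →* G, Function.Surjective π ∧ π.ker = center (SJ hF) :=
    ⟨e.symm.toMonoidHom.comp π₀, e.symm.surjective.comp h0, by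
      rw [← hk0]; ext x; simp⟩
  letI := MulAction.compHom Ω π
  have sm : ∀ (g : SJ hF) (x : Ω), g • x = π g • x := fun _ _ => rfl
  have hy : Hy hF Ω := ⟨Nat.pow_le_pow_right (n := 2) (by norm_num) n2, (bin_comp π hs).2 h,
    fun z hz x => by rw [sm, (show π z = 1 from hk.ge hz), one_smul],
    fun g x γ g2 gx hx hγ => h.pI hone hω t1 t2 ht (x := π x) (by rw [← map_mul, g2, map_one])
      (by rw [← map_mul, ← map_mul, gx, map_one]) (fun m e => hx m (hk.le (by rwa [← map_pow] at e))) hγ⟩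
  have inj := π_ι_injective hk
  have i2 : ∀ x : Hs hF, x.a = 0 → π (ι hF x) * π (ι hF x) = 1 := fun x hx => by
    rw [← map_mul, ← map_mul, show x * x = 1 from Hs.ext (by simp [hx]) (by
      simp [hx, CharTwo.add_self_eq_zero]), map_one, map_one]
  have i1 : ∀ x : Hs hF, x ≠ 1 → π (ι hF x) ≠ 1 := fun x hx e => hx (inj (e.trans (map_one _).symm))
  have z1 : zz (hF := hF) 1 (map_one _) ≠ 1 := fun e => one_ne_zero (congrArg Hs.b e)
  obtain ⟨c, hc⟩ := isConj_iff.1 (hone _ _ t1 t2 (i1 _ z1) (i2 _ rfl))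
  have hZ : ∀ x : Hs hF, x.a = 0 → ι hF x • c • ω = c • ω := fun x hx => by
    by_cases x1 : x = 1
    · rw [x1, map_one, one_smul]
    exact h.fix_of_comm hone (i1 _ z1) (i2 _ rfl) (i1 _ x1) (i2 _ hx)
      (by rw [← map_mul, a_comm hx, map_mul]) (hc ▸ fix_conj.2 ht)
  have hne : stabilizer (SJ hF) (c • ω) ≠ ⊤ := by
    intro e
    apply hω
    rw [eq_top_iff]
    intro g _
    obtain ⟨y, hy⟩ := hs (c * g * c⁻¹)
    have : y • c • ω = c • ω := e.ge (mem_top y)
    rw [sm, hy] at this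
    exact fix_conj.1 this
  have h1 : IsSylowIn 2 ((ι hF).range.map π) ((⊤ : Subgroup _).map π) :=
    AmbSyl.sylIn_iff.1 ((AmbSyl.sylIn_iff.2 (isSylowIn_range rfl)).map π)
  rw [map_top_of_surjective _ hs, ← MonoidHom.range_comp] at h1
  obtain ⟨P, hP⟩ := h1.exists_sylow_eq
  have : stabilizer G (c • ω) = (center (P : Subgroup G)).map (P : Subgroup G).subtype := by
    ext g
    rw [mem_cen, hP]
    constructor
    · intro hg
      obtain ⟨y, rfl⟩ := hs g
      obtain ⟨x, hx, z, hz, rfl⟩ := hy.main hne hZ hg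
      rw [map_mul, (show π z = 1 from hk.ge hz), mul_one]
      refine ⟨⟨x, rfl⟩, ?_⟩
      rintro _ ⟨y, rfl⟩
      simp only [MonoidHom.comp_apply]
      rw [← map_mul, a_comm hx, map_mul]
    · rintro ⟨⟨x, rfl⟩, h2⟩
      refine hZ x (mem_center_Hs.1 (mem_center_iff.2 fun y => inj ?_))
      rw [map_mul, map_mul]
      exact h2 _ ⟨y, rfl⟩
  refine ⟨c⁻¹ • P, ?_⟩
  rw [← cen_smul this, inv_smul_smul]

omit [Finite Ω] in
theorem bwd (hF : Fintype.card F = (2 ^ n) ^ 2) (e : G ≃* Cfsg.PSU 3 F (2 ^ n)) {ω : Ω} {P : Sylow 2 G}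
    (hP : stabilizer G ω = (center (P : Subgroup G)).map (P : Subgroup G).subtype) : Bin G Ω := by
  haveI : CharP F 2 := charP_of_card_eq_prime_pow (f := n * 2) (by rw [hF, pow_mul])
  have hT : TIS 2 G := (tis_PSU hF rfl).of_injective e.toMonoidHom e.injective
  have st : ∀ α : Ω, ∃ P : Sylow 2 G,
      stabilizer G α = (center (P : Subgroup G)).map (P : Subgroup G).subtype := fun α => by
    obtain ⟨k, rfl⟩ := exists_smul_eq G ω α
    exact ⟨_, cen_smul hP⟩
  have sq : ∀ (α : Ω) (g : G), g • α = α → g * g = 1 := by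
    intro α g hg
    obtain ⟨P, hP⟩ := st α
    obtain ⟨P', hP'⟩ := exists_sylow_equiv e P
    obtain ⟨φ⟩ := sylow_equiv hF rfl P'
    obtain ⟨x, hx, e1⟩ := (cen_equiv e hP' g).1 (hP.le hg)
    have h1 : (φ x).a = 0 := mem_center_Hs.1 (mem_center_iff.2 fun y => by
      obtain ⟨y, rfl⟩ := φ.surjective y
      rw [← map_mul, mem_center_iff.1 hx y, map_mul])
    have h2 : x * x = 1 := φ.injective (by
      rw [map_mul, map_one]
      exact Hs.ext (by simp [h1]) (by simp [h1, CharTwo.add_self_eq_zero]))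
    apply e.injective
    rw [map_mul, map_one, ← e1, ← map_mul, h2, map_one]
  refine bin_of_inv sq fun α β g k hg hk g1 k1 hc => ?_
  obtain ⟨P, hP⟩ := st α
  obtain ⟨Q, hQ⟩ := st β
  have gP := (mem_cen.1 (hP.le hg)).1
  have kQ := (mem_cen.1 (hQ.le hk)).1
  have eq : ∀ (P : Sylow 2 G) (R : Subgroup G), IsPGroup 2 R → ∀ g ∈ (P : Subgroup G), g ∈ R → g ≠ 1 →
      R ≤ P := fun P R hR g h1 h2 g1 =>
    le_sup_right.trans (P.is_maximal' (hT _ _ P.isPGroup' hR fun e =>
      g1 (mem_bot.1 (e ▸ mem_inf.2 ⟨h1, h2⟩))) le_sup_left).le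
  have g2 := sq α g hg
  have k2 := sq β k hk
  let R : Subgroup G :=
    { carrier := {x | x * x = 1 ∧ x * g = g * x ∧ x * k = k * x ∧ x ∈ closure {g, k}}
      one_mem' := by simp [one_mem]
      inv_mem' := by
        rintro x ⟨h1, h2, h3, h4⟩
        rw [inv_eq_of_mul_eq_one_right h1]; exact ⟨h1, h2, h3, h4⟩
      mul_mem' := by
        rintro x y ⟨h1, h2, h3, h4⟩ ⟨h1', h2', h3', h4'⟩
        have hxy : x * y = y * x := by
          have : closure {g, k} ≤ centralizer {x} := by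
            rw [closure_le]
            rintro _ (rfl | rfl)
            · exact mem_centralizer_singleton_iff.2 h2.symm
            · exact mem_centralizer_singleton_iff.2 h3.symm
          exact (mem_centralizer_singleton_iff.1 (this h4')).symm
        refine ⟨?_, by rw [mul_assoc, h2', ← mul_assoc, h2, mul_assoc],
          by rw [mul_assoc, h3', ← mul_assoc, h3, mul_assoc], mul_mem h4 h4'⟩
        calc x * y * (x * y) = x * (y * x) * y := by group
          _ = (x * x) * (y * y) := by rw [← hxy]; group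
          _ = 1 := by rw [h1, h1', one_mul] }
  have hR : IsPGroup 2 R := fun x => ⟨1, Subtype.ext (by simpa [pow_two] using x.2.1)⟩
  have kP : k ∈ (P : Subgroup G) := eq P R hR g gP ⟨g2, rfl, hc, subset_closure (by simp)⟩ g1
    ⟨k2, hc.symm, rfl, subset_closure (by simp)⟩
  have : Q = P := Sylow.ext (Q.is_maximal' P.isPGroup' (eq P Q Q.isPGroup' k kP kQ k1)).symm
  rw [hP, hQ, this]

end CA.BinU
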