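import Mathlib.LinearAlgebra.Matrix.ToLinearEquiv
import Mathlib.LinearAlgebra.Matrix.Determinant.Basic
import Mathlib.Algebra.Module.PID
import Mathlib.Algebra.Polynomial.Module.AEval
import Mathlib.LinearAlgebra.FiniteDimensional.Defs
import Mathlib.Tactic.LinearCombination
import Mathlib.Tactic.FieldSimp
import Mathlib.Tactic.Module

/-! Siegel-type normal forms for isometries of a 4-dimensional symplectic space. -/

set_option autoImplicit false

namespace CA.H19Sp4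

variable {F V : Type*} [Field F] [AddCommGroup V] [Module F V]

/-- symplectic basis -/
structure Bas (ω : V →ₗ[F] V →ₗ[F] F) (e1 e2 f1 f2 : V) : Prop where
  ee : ω e1 e2 = 0
  ff : ω f1 f2 = 0
  h11 : ω f1 e1 = 1
  h22 : ω f2 e2 = 1
  h12 : ω f1 e2 = 0
  h21 : ω f2 e1 = 0

structure Sy (F V : Type*) [Field F] [AddCommGroup V] [Module F V] where
  ω : V →ₗ[F] V →ₗ[F] F
  alt : ∀ v, ω v v = 0
  E1 : V
  E2 : V
  F1 : V
  F2 : V
  std : Bas ω E1 E2 F1 F2
  exp0 : ∀ v, v = ω F1 v • E1 + ω F2 v • E2 - ω E1 v • F1 - ω E2 v • F2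

namespace Sy

variable (S : Sy F V)

theorem skew (u v : V) : S.ω u v = - S.ω v u := by
  have h := S.alt (u + v)
  simp only [map_add, LinearMap.add_apply, S.alt] at h
  linear_combination h

theorem nd {v : V} (h : ∀ z, S.ω z v = 0) : v = 0 := by
  rw [S.exp0 v]; simp [h]

theorem coord (x y : V) : S.ω x y = S.ω S.F1 x * S.ω S.E1 y + S.ω S.F2 x * S.ω S.E2 y
    - S.ω S.E1 x * S.ω S.F1 y - S.ω S.E2 x * S.ω S.F2 y := by
  conv_lhs => rw [S.exp0 x]
  simp only [map_add, map_sub, map_smul, LinearMap.add_apply, LinearMap.sub_apply,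
    LinearMap.smul_apply, smul_eq_mul]

/-- coordinate matrix -/
def cm (x0 x1 x2 x3 : V) : Matrix (Fin 4) (Fin 4) F :=
  !![S.ω S.F1 x0, S.ω S.F1 x1, S.ω S.F1 x2, S.ω S.F1 x3;
     S.ω S.F2 x0, S.ω S.F2 x1, S.ω S.F2 x2, S.ω S.F2 x3;
     S.ω S.E1 x0, S.ω S.E1 x1, S.ω S.E1 x2, S.ω S.E1 x3;
     S.ω S.E2 x0, S.ω S.E2 x1, S.ω S.E2 x2, S.ω S.E2 x3]

theorem det_cm (x0 x1 x2 x3 : V) : (S.cm x0 x1 x2 x3).det =
    -(S.ω x0 x1 * S.ω x2 x3 - S.ω x0 x2 * S.ω x1 x3 + S.ω x0 x3 * S.ω x1 x2) := by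
  rw [S.coord x0 x1, S.coord x2 x3, S.coord x0 x2, S.coord x1 x3, S.coord x0 x3, S.coord x1 x2]
  simp [cm, Matrix.det_succ_row_zero, Fin.sum_univ_succ, Fin.succAbove]
  ring

theorem dep (x0 x1 x2 x3 : V)
    (h : S.ω x0 x1 * S.ω x2 x3 - S.ω x0 x2 * S.ω x1 x3 + S.ω x0 x3 * S.ω x1 x2 = 0) :
    ∃ c0 c1 c2 c3 : F, ¬ (c0 = 0 ∧ c1 = 0 ∧ c2 = 0 ∧ c3 = 0) ∧
      c0 • x0 + c1 • x1 + c2 • x2 + c3 • x3 = 0 := by
  classical
  have hd : (S.cm x0 x1 x2 x3).det = 0 := by rw [det_cm, h, neg_zero]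
  obtain ⟨c, hc, hm⟩ := Matrix.exists_mulVec_eq_zero_iff.2 hd
  refine ⟨c 0, c 1, c 2, c 3, fun ⟨a0, a1, a2, a3⟩ => hc ?_, ?_⟩
  · funext i; fin_cases i <;> simpa
  · have r0 := congrFun hm 0
    have r1 := congrFun hm 1
    have r2 := congrFun hm 2
    have r3 := congrFun hm 3
    simp [cm, Matrix.mulVec, dotProduct, Fin.sum_univ_succ] at r0 r1 r2 r3
    rw [S.exp0 (c 0 • x0 + c 1 • x1 + c 2 • x2 + c 3 • x3)]
    simp only [map_add, map_smul, smul_eq_mul]
    have e0 : c 0 * S.ω S.F1 x0 + c 1 * S.ω S.F1 x1 + c 2 * S.ω S.F1 x2 + c 3 * S.ω S.F1 x3 = 0 := by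
      linear_combination r0
    have e1 : c 0 * S.ω S.F2 x0 + c 1 * S.ω S.F2 x1 + c 2 * S.ω S.F2 x2 + c 3 * S.ω S.F2 x3 = 0 := by
      linear_combination r1
    have e2 : c 0 * S.ω S.E1 x0 + c 1 * S.ω S.E1 x1 + c 2 * S.ω S.E1 x2 + c 3 * S.ω S.E1 x3 = 0 := by
      linear_combination r2
    have e3 : c 0 * S.ω S.E2 x0 + c 1 * S.ω S.E2 x1 + c 2 * S.ω S.E2 x2 + c 3 * S.ω S.E2 x3 = 0 := by
      linear_combination r3
    rw [e0, e1, e2, e3]; simp

theorem zero_of_orth {e1 e2 f1 f2 : V} (B : Bas S.ω e1 e2 f1 f2) {r : V} (a1 : S.ω e1 r = 0)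
    (a2 : S.ω e2 r = 0) (b1 : S.ω f1 r = 0) (b2 : S.ω f2 r = 0) : r = 0 := by
  classical
  have hd : (S.cm e1 e2 f1 f2).det ≠ 0 := by
    rw [det_cm, B.ee, B.ff, S.skew e1 f1, S.skew e2 f2, S.skew e1 f2, S.skew e2 f1, B.h11, B.h22,
      B.h12, B.h21]
    simp
  by_contra hr
  apply hd
  apply Matrix.exists_vecMul_eq_zero_iff.1
  refine ⟨![S.ω S.E1 r, S.ω S.E2 r, -S.ω S.F1 r, -S.ω S.F2 r], fun h => hr ?_, ?_⟩
  · have r0 := congrFun h 0
    have r1 := congrFun h 1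
    have r2 := congrFun h 2
    have r3 := congrFun h 3
    simp at r0 r1 r2 r3
    rw [S.exp0 r, r0, r1, r2, r3]; simp
  · rw [S.coord] at a1 a2 b1 b2
    funext i
    fin_cases i <;> simp [cm, Matrix.vecMul, dotProduct, Fin.sum_univ_succ]
    · linear_combination a1
    · linear_combination a2
    · linear_combination b1
    · linear_combination b2

theorem exp {e1 e2 f1 f2 : V} (B : Bas S.ω e1 e2 f1 f2) (v : V) :
    v = S.ω f1 v • e1 + S.ω f2 v • e2 - S.ω e1 v • f1 - S.ω e2 v • f2 := by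
  rw [← sub_eq_zero]
  have k1 := S.skew e1 f1
  have k2 := S.skew e2 f2
  have k3 := S.skew e1 f2
  have k4 := S.skew e2 f1
  have k5 := S.skew e2 e1
  have k6 := S.skew f2 f1
  rw [B.h11] at k1
  rw [B.h22] at k2
  rw [B.h21, neg_zero] at k3
  rw [B.h12, neg_zero] at k4
  rw [B.ee, neg_zero] at k5
  rw [B.ff, neg_zero] at k6
  apply S.zero_of_orth B <;>
    simp [map_add, map_sub, map_smul, S.alt, B.ee, B.ff, B.h11, B.h22, B.h12, B.h21, k1, k2, k3, k4,
      k5, k6]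

theorem complete {e f : V} (h : S.ω f e = 1) : ∃ e' f', Bas S.ω e e' f f' := by
  have h' : S.ω e f = -1 := by rw [S.skew, h]
  let π : V → V := fun u => u - S.ω f u • e + S.ω e u • f
  have p1 : ∀ u, S.ω f (π u) = 0 := fun u => by simp [π, h, S.alt]
  have p2 : ∀ u, S.ω e (π u) = 0 := fun u => by simp [π, h', S.alt]
  have p3 : ∀ u v, S.ω (π u) (π v) = S.ω u v - S.ω f v * S.ω u e + S.ω e v * S.ω u f := by
    intro u v
    have : S.ω (π u) (π v) = S.ω u (π v) := by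
      have q1 := p1 v
      have q2 := p2 v
      generalize π v = z at q1 q2
      simp [π, q1, q2]
    rw [this]; simp [π]
  by_cases hz : ∀ u v, S.ω (π u) (π v) = 0
  · exfalso
    have B := S.std
    have a1 := hz S.E1 S.E2
    have a2 := hz S.F1 S.F2
    have a3 := hz S.F1 S.E1
    have a4 := hz S.F2 S.E2
    have a5 := hz S.F1 S.E2
    have a6 := hz S.F2 S.E1
    rw [p3] at a1 a2 a3 a4 a5 a6
    rw [B.ee] at a1
    rw [B.ff] at a2
    rw [B.h11] at a3
    rw [B.h22] at a4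
    rw [B.h12] at a5
    rw [B.h21] at a6
    simp only [S.skew f S.E1, S.skew f S.E2, S.skew f S.F1, S.skew f S.F2, S.skew e S.E1,
      S.skew e S.E2, S.skew e S.F1, S.skew e S.F2] at a1 a2 a3 a4 a5 a6
    have : (1 : F) = 0 := by
      generalize S.ω S.E1 e = x1 at *
      generalize S.ω S.E2 e = x2 at *
      generalize S.ω S.F1 e = x3 at *
      generalize S.ω S.F2 e = x4 at *
      generalize S.ω S.E1 f = y1 at *
      generalize S.ω S.E2 f = y2 at *
      generalize S.ω S.F1 f = y3 at *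
      generalize S.ω S.F2 f = y4 at *
      linear_combination a3 + (x1 * y3 - x3 * y1) * a4 + (x3 * y4 - x4 * y3) * a1
        - (x1 * y4 - x4 * y1) * a5
    exact one_ne_zero this
  · push Not at hz
    obtain ⟨u, v, huv⟩ := hz
    refine ⟨π v, (S.ω (π u) (π v))⁻¹ • π u, p2 v, by simp [p1], h, by simp [huv], p1 v, ?_⟩
    simp [S.skew (π u) e, p2]

end Sy

/-- some symplectic basis gives upper-left block `!![a, b; c, d]` -/
def Nice (ω : V →ₗ[F] V →ₗ[F] F) (g : V →ₗ[F] V) (a b c d : F) : Prop :=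
  ∃ e1 e2 f1 f2, Bas ω e1 e2 f1 f2 ∧ ω f1 (g e1) = a ∧ ω f1 (g e2) = b ∧ ω f2 (g e1) = c ∧
    ω f2 (g e2) = d

def Res (ω : V →ₗ[F] V →ₗ[F] F) (g : V →ₗ[F] V) : Prop :=
  Nice ω g 1 0 0 1 ∨ Nice ω (-g) 1 0 0 1 ∨
    ((2 : F) ≠ 0 ∧ (Nice ω g 0 1 (-1) 0 ∨ Nice ω (-g) 0 1 (-1) 0))

theorem Res.neg {ω : V →ₗ[F] V →ₗ[F] F} {g : V →ₗ[F] V} (h : Res ω (-g)) : Res ω g := by
  unfold Res at h ⊢
  rw [neg_neg] at h
  tauto

namespace Sy

variable (S : Sy F V) {g : V →ₗ[F] V}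

def Iso (g : V →ₗ[F] V) : Prop := ∀ u v, S.ω (g u) (g v) = S.ω u v

theorem Iso.neg {S : Sy F V} (h : S.Iso g) : S.Iso (-g) := fun u v => by simp [h u v]

theorem caseD (hg : S.Iso g) {e1 e2 : V} (h0 : S.ω e1 e2 = 0) (hs : S.ω e1 (g e2) = S.ω e2 (g e1))
    (hΔ : S.ω e1 (g e1) * S.ω e2 (g e2) - S.ω e2 (g e1) ^ 2 ≠ 0) : Nice S.ω g 1 0 0 1 := by
  have h0' : S.ω e2 e1 = 0 := by rw [S.skew, h0, neg_zero]
  have k11 := S.skew (g e1) e1
  have k12 := S.skew (g e1) e2
  have k21 := S.skew (g e2) e1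
  have k22 := S.skew (g e2) e2
  rw [hs] at k21
  set Δ := S.ω e1 (g e1) * S.ω e2 (g e2) - S.ω e2 (g e1) ^ 2 with hΔ'
  refine ⟨e1, e2, Δ⁻¹ • (S.ω e2 (g e1) • (g e2 - e2) - S.ω e2 (g e2) • (g e1 - e1)),
    Δ⁻¹ • (S.ω e2 (g e1) • (g e1 - e1) - S.ω e1 (g e1) • (g e2 - e2)), ⟨h0, ?_, ?_, ?_, ?_, ?_⟩,
    ?_, ?_, ?_, ?_⟩ <;>
  · simp only [map_add, map_sub, map_smul, LinearMap.add_apply, LinearMap.sub_apply,
      LinearMap.smul_apply, smul_eq_mul, hg _ _, S.alt, h0, h0', k11, k12, k21, k22, hs]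
    field_simp
    try rw [hΔ']
    ring

theorem caseT {p1 p2 u u' : V} (g1 : g p1 = p1) (g2 : g p2 = p2) (h0 : S.ω p1 p2 = 0)
    (a1 : S.ω p1 u' = 1) (a2 : S.ω p1 u = 0) (a3 : S.ω p2 u' = 0) (a4 : S.ω p2 u = -1) :
    Nice S.ω g 1 0 0 1 := by
  have b1 : S.ω u' p1 = -1 := by rw [S.skew, a1]
  have b2 : S.ω u p1 = 0 := by rw [S.skew, a2, neg_zero]
  have b3 : S.ω u' p2 = 0 := by rw [S.skew, a3, neg_zero]
  have b4 : S.ω u p2 = 1 := by rw [S.skew, a4, neg_neg]
  refine ⟨p1, p2, -u', u + S.ω u' u • p1, ⟨h0, ?_, ?_, ?_, ?_, ?_⟩, ?_, ?_, ?_, ?_⟩ <;>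
    simp [g1, g2, b1, b2, b3, b4, h0, S.alt]

theorem plane (hg : S.Iso g) {e f : V} (h : S.ω f e = 1) {a b c d : F} (he : g e = a • e + c • f)
    (hf : g f = b • e + d • f) : (∃ x y : F, S.ω (x • e + y • f) (g (x • e + y • f)) ≠ 0) ∨
      (g e = e ∧ g f = f) ∨ (g e = -e ∧ g f = -f) := by
  have h' : S.ω e f = -1 := by rw [S.skew, h]
  by_cases hq : ∃ x y : F, S.ω (x • e + y • f) (g (x • e + y • f)) ≠ 0
  · exact Or.inl hq
  right
  push Not at hq
  have q1 := hq 1 0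
  have q2 := hq 0 1
  have q3 := hq 1 1
  have q4 := hg f e
  simp [he, hf, h, h', S.alt] at q1 q2 q3 q4
  subst q1 q2
  have had : d = a := by linear_combination -q3
  subst had
  have : (d - 1) * (d + 1) = 0 := by linear_combination q4
  rcases mul_eq_zero.1 this with h1 | h1
  · left
    have : d = 1 := by linear_combination h1
    subst this
    exact ⟨by simpa using he, by simpa using hf⟩
  · right
    have : d = -1 := by linear_combination h1
    subst this
    exact ⟨by simpa using he, by simpa using hf⟩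

theorem mixed (hg : S.Iso g) {e1 f1 v : V} (h : S.ω f1 e1 = 1) (g1 : g e1 = e1) (g2 : g f1 = f1)
    (o1 : S.ω e1 v = 0) (o2 : S.ω f1 v = 0) (hq : S.ω v (g v) ≠ 0) : Nice S.ω g 1 0 0 1 := by
  have o3 : S.ω e1 (g v) = 0 := by rw [← g1, hg, o1]
  have o4 : S.ω f1 (g v) = 0 := by rw [← g2, hg, o2]
  have o5 : S.ω v e1 = 0 := by rw [S.skew, o1, neg_zero]
  have o6 : S.ω (g v) e1 = 0 := by rw [S.skew, o3, neg_zero]
  have o7 := S.skew (g v) v
  refine ⟨e1, v, f1, (S.ω v (g v))⁻¹ • (v - g v), ⟨o1, ?_, h, ?_, o2, ?_⟩, ?_, ?_, ?_, ?_⟩ <;>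
    simp [g1, h, o1, o2, o3, o4, o5, o6, o7, S.alt, hq]

theorem invol {e1 e2 f1 f2 : V} (B : Bas S.ω e1 e2 f1 f2) (h2 : (2 : F) ≠ 0) (g1 : g e1 = e1)
    (g2 : g f1 = f1) (g3 : g e2 = -e2) (g4 : g f2 = -f2) : Nice S.ω g 0 1 (-1) 0 := by
  have k1 := S.skew e1 f1
  have k2 := S.skew e2 f2
  have k3 := S.skew e1 f2
  have k4 := S.skew e2 f1
  have k5 := S.skew e2 e1
  have k6 := S.skew f2 f1
  rw [B.h11] at k1
  rw [B.h22] at k2
  rw [B.h21, neg_zero] at k3
  rw [B.h12, neg_zero] at k4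
  rw [B.ee, neg_zero] at k5
  rw [B.ff, neg_zero] at k6
  refine ⟨e1 + f2, f1 + e2, (2 : F)⁻¹ • (f1 - f2 - (e1 + e2)), (2 : F)⁻¹ • (-(e1 + e2) - (f1 - f2)),
    ⟨?_, ?_, ?_, ?_, ?_, ?_⟩, ?_, ?_, ?_, ?_⟩ <;>
  · simp only [map_add, map_sub, map_neg, map_smul, LinearMap.add_apply, LinearMap.sub_apply,
      LinearMap.neg_apply, LinearMap.smul_apply, smul_eq_mul, S.alt, g1, g2, g3, g4, k1, k2, k3,
      k4, k5, k6, B.ee, B.ff, B.h11, B.h22, B.h12, B.h21]
    field_simp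
    ring

theorem split (hg : S.Iso g) (hn : ¬ ∀ v, g v = v) (hn' : ¬ ∀ v, g v = -v) {e f : V}
    (h : S.ω f e = 1) {a b c d : F} (he : g e = a • e + c • f) (hf : g f = b • e + d • f) :
    Res S.ω g := by
  obtain ⟨e', f', B⟩ := S.complete h
  have h' : S.ω e f = -1 := by rw [S.skew, h]
  have hdet : a * d - b * c = 1 := by
    have q4 := hg f e
    simp [he, hf, h, h', S.alt] at q4
    linear_combination q4
  have ie : e = g (d • e - c • f) := by
    rw [map_sub, map_smul, map_smul, he, hf]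
    have : e = (a * d - b * c) • e := by rw [hdet, one_smul]
    conv_lhs => rw [this]
    module
  have jf : f = g (a • f - b • e) := by
    rw [map_sub, map_smul, map_smul, he, hf]
    have : f = (a * d - b * c) • f := by rw [hdet, one_smul]
    conv_lhs => rw [this]
    module
  have k3 : S.ω e f' = 0 := by rw [S.skew, B.h21, neg_zero]
  have inv : ∀ v, S.ω e v = 0 → S.ω f v = 0 → S.ω e (g v) = 0 ∧ S.ω f (g v) = 0 := by
    intro v h1 h2
    constructor
    · rw [ie, hg]; simp [h1, h2]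
    · rw [jf, hg]; simp [h1, h2]
  have he' : g e' = S.ω f' (g e') • e' + (-S.ω e' (g e')) • f' := by
    have := S.exp B (g e')
    rw [(inv e' B.ee B.h12).1, (inv e' B.ee B.h12).2] at this
    conv_lhs => rw [this]
    module
  have hf' : g f' = S.ω f' (g f') • e' + (-S.ω e' (g f')) • f' := by
    have := S.exp B (g f')
    rw [(inv f' k3 B.ff).1, (inv f' k3 B.ff).2] at this
    conv_lhs => rw [this]
    module
  have oe : ∀ x y : F, S.ω e (x • e' + y • f') = 0 := fun x y => by simp [B.ee, k3]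
  have of : ∀ x y : F, S.ω f (x • e' + y • f') = 0 := fun x y => by simp [B.ff, B.h12]
  have oe' : ∀ x y : F, S.ω e' (x • e + y • f) = 0 := fun x y => by
    simp [S.skew e' e, S.skew e' f, B.ee, B.h12]
  have of' : ∀ x y : F, S.ω f' (x • e + y • f) = 0 := fun x y => by
    simp [S.skew f' f, B.ff, B.h21]
  have B' : Bas S.ω e' e f' f :=
    ⟨by rw [S.skew, B.ee, neg_zero], by rw [S.skew, B.ff, neg_zero], B.h22, B.h11, B.h21, B.h12⟩
  have all : ∀ t : F, g e = t • e → g f = t • f → g e' = t • e' → g f' = t • f' → ∀ v, g v = t • v := by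
    intro t h1 h2 h3 h4 v
    rw [S.exp B v]
    simp only [map_add, map_sub, map_smul, h1, h2, h3, h4]
    module
  have two : (∀ v : V, -v = v) ∨ (2 : F) ≠ 0 := by
    by_cases h2 : (2 : F) = 0
    · left
      intro v
      have : (2 : F) • v = 0 := by rw [h2, zero_smul]
      rw [two_smul] at this
      exact neg_eq_of_add_eq_zero_left this
    · exact Or.inr h2
  rcases S.plane hg h he hf with ⟨x, y, hq⟩ | ⟨g1, g2⟩ | ⟨g1, g2⟩ <;>
    rcases S.plane hg B.h22 he' hf' with ⟨x', y', hq'⟩ | ⟨g3, g4⟩ | ⟨g3, g4⟩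
  · left
    have lin : ∀ (u w z : V) (s t : F), S.ω u z = 0 → S.ω w z = 0 → S.ω (s • u + t • w) z = 0 :=
      fun u w z s t h1 h2 => by simp [h1, h2]
    have z1 : S.ω (x • e + y • f) (g (x' • e' + y' • f')) = 0 :=
      lin _ _ _ _ _ (inv _ (oe x' y') (of x' y')).1 (inv _ (oe x' y') (of x' y')).2
    have z2 : S.ω (x' • e' + y' • f') (g (x • e + y • f)) = 0 := by
      have : g (x • e + y • f) = (x * a + y * b) • e + (x * c + y * d) • f := by
        rw [map_add, map_smul, map_smul, he, hf]; module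
      rw [this]
      exact lin _ _ _ _ _ (oe' _ _) (of' _ _)
    refine S.caseD hg (e1 := x • e + y • f) (e2 := x' • e' + y' • f')
      (lin _ _ _ _ _ (oe _ _) (of _ _)) (by rw [z1, z2]) ?_
    rw [z2, zero_pow two_ne_zero, sub_zero]
    exact mul_ne_zero hq hq'
  · exact Or.inl (S.mixed hg B.h22 g3 g4 (oe' x y) (of' x y) hq)
  · refine Or.inr (Or.inl (S.mixed hg.neg B.h22 (by simp [g3]) (by simp [g4]) (oe' x y) (of' x y) ?_))
    rw [LinearMap.neg_apply, map_neg]; exact neg_ne_zero.2 hq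
  · exact Or.inl (S.mixed hg h g1 g2 (oe x' y') (of x' y') hq')
  · exact absurd (fun v => by simpa using all 1 (by simpa) (by simpa) (by simpa) (by simpa) v) hn
  · rcases two with h2 | h2
    · rw [h2] at g3 g4
      exact absurd (fun v => by simpa using all 1 (by simpa) (by simpa) (by simpa) (by simpa) v) hn
    · exact Or.inr (Or.inr ⟨h2, Or.inl (S.invol B h2 g1 g2 g3 g4)⟩)
  · refine Or.inr (Or.inl (S.mixed hg.neg h (by simp [g1]) (by simp [g2]) (oe x' y') (of x' y') ?_))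
    rw [LinearMap.neg_apply, map_neg]; exact neg_ne_zero.2 hq'
  · rcases two with h2 | h2
    · rw [h2] at g1 g2
      exact absurd (fun v => by simpa using all 1 (by simpa) (by simpa) (by simpa) (by simpa) v) hn
    · exact Or.inr (Or.inr ⟨h2, Or.inl (S.invol B' h2 g3 g4 g1 g2)⟩)
  · exact absurd (fun v => by simpa using all (-1) (by simpa) (by simpa) (by simpa) (by simpa) v) hn'

theorem caseTT (hg : S.Iso g) (hn : ¬ ∀ v, g v = v) (hn' : ¬ ∀ v, g v = -v) (T : V →ₗ[F] V)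
    (gT : ∀ u, g (T u) = T u) (sa : ∀ u w, S.ω (T u) w = S.ω u (T w)) (al : ∀ u, S.ω (T u) u = 0)
    (κ : F) (hk : ∀ u w, S.ω (T u) (T w) = κ * S.ω (T u) w) (hT : ∃ u, T u ≠ 0) : Res S.ω g := by
  obtain ⟨u, hu⟩ := hT
  obtain ⟨z, hz⟩ : ∃ z, S.ω z (T u) ≠ 0 := by
    by_contra! h
    exact hu (S.nd h)
  obtain ⟨u', hu'⟩ : ∃ u', S.ω (T u) u' = 1 :=
    ⟨(-S.ω z (T u))⁻¹ • z, by rw [map_smul, S.skew (T u) z, smul_eq_mul, inv_mul_cancel₀ (neg_ne_zero.2 hz)]⟩
  by_cases h0 : κ = 0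
  · refine Or.inl (S.caseT (gT u) (gT u') (by rw [hk, h0, zero_mul]) hu' (al u) (al u') ?_)
    rw [sa, S.skew, hu']
  · refine S.split hg hn hn' (e := T u') (f := κ⁻¹ • T u) ?_ (a := 1) (b := 0) (c := 0) (d := 1)
      (by simp [gT]) (by simp [gT])
    rw [map_smul, LinearMap.smul_apply, hk, hu', mul_one, smul_eq_mul, inv_mul_cancel₀ h0]

theorem noncyc (hg : S.Iso g) (hn : ¬ ∀ v, g v = v) (hn' : ¬ ∀ v, g v = -v) (c : F)
    (hc : ∀ v, g (g (g v) - c • g v + v) = g (g v) - c • g v + v) : Res S.ω g := by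
  let T : V →ₗ[F] V := g ∘ₗ g - c • g + LinearMap.id
  have hT : ∀ v, T v = g (g v) - c • g v + v := fun v => rfl
  by_cases h0 : ∃ u, T u ≠ 0
  · have gT : ∀ u, g (T u) = T u := hc
    refine S.caseTT hg hn hn' T gT (fun u w => ?_) (fun u => ?_) (2 - c) (fun u w => ?_) h0
    · have : S.ω (T u) w = S.ω (T u) (g (g w)) := by
        conv_rhs => rw [← gT u, ← gT u, hg, hg]
      rw [this, hT, hT]
      simp only [map_add, map_sub, map_smul, LinearMap.add_apply, LinearMap.sub_apply,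
        LinearMap.smul_apply, smul_eq_mul, hg _ _]
      ring
    · have : S.ω (T u) u = S.ω (T u) (g u) := by
        conv_rhs => rw [← gT u, hg]
      rw [this, hT]
      simp only [map_add, map_sub, map_smul, LinearMap.add_apply, LinearMap.sub_apply,
        LinearMap.smul_apply, smul_eq_mul, hg _ _, S.alt, S.skew (g u) u]
      ring
    · have e1 : S.ω (T u) (g w) = S.ω (T u) w := by
        conv_lhs => rw [← gT u, hg]
      have e2 : S.ω (T u) (g (g w)) = S.ω (T u) w := by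
        conv_lhs => rw [← gT u, hg, e1]
      rw [hT w]
      simp only [map_add, map_sub, map_smul, smul_eq_mul, e1, e2]
      ring
  push Not at h0
  have hq : ∀ v, g (g v) = c • g v - v := fun v => by
    have := h0 v
    rw [hT] at this
    rw [← sub_eq_zero, ← this]; abel
  by_cases h1 : ∃ e, S.ω e (g e) ≠ 0
  · obtain ⟨e, he⟩ := h1
    refine S.split hg hn hn' (e := e) (f := (-S.ω e (g e))⁻¹ • g e) ?_ (a := 0)
      (b := (S.ω e (g e))⁻¹) (c := -S.ω e (g e)) (d := c) ?_ ?_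
    · rw [map_smul, LinearMap.smul_apply, S.skew (g e) e, smul_eq_mul,
        inv_mul_cancel₀ (neg_ne_zero.2 he)]
    · rw [smul_smul, mul_inv_cancel₀ (neg_ne_zero.2 he)]; simp
    · rw [map_smul, hq, inv_neg]; module
  push Not at h1
  have h2 : ∀ v w, S.ω (g v) w = S.ω v (g w) := fun v w => by
    have := h1 (v + w)
    simp only [map_add, LinearMap.add_apply, h1] at this
    rw [S.skew]; linear_combination -this
  have h3 : ∀ w, g (g w) = w := fun w => by
    rw [← sub_eq_zero]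
    apply S.nd
    intro z
    rw [map_sub, ← h2, hg, sub_self]
  have h4 : ∀ w, c • g w = (2 : F) • w := fun w => by
    have := hq w
    rw [h3] at this
    rw [two_smul, ← sub_eq_iff_eq_add, ← this]
  by_cases hc0 : c = 0
  · have h5 : ∀ w : V, -w = w := fun w => by
      have := h4 w
      rw [hc0, zero_smul, two_smul] at this
      exact neg_eq_of_add_eq_zero_left this.symm
    refine S.caseTT hg hn hn' (g - LinearMap.id) (fun u => ?_) (fun u w => ?_) (fun u => ?_) 0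
      (fun u w => ?_) ?_
    · simp only [LinearMap.sub_apply, LinearMap.id_apply, map_sub, h3]
      rw [← h5 (u - g u), neg_sub]
    · simp [h2]
    · simp [h2, h1, S.alt]
    · have a1 : S.ω (-u) w = S.ω u w := by rw [h5]
      have a2 : S.ω (-u) (g w) = S.ω u (g w) := by rw [h5]
      simp only [map_neg, LinearMap.neg_apply] at a1 a2
      simp only [LinearMap.sub_apply, LinearMap.id_apply, map_sub, hg _ _, h2]
      linear_combination a2 - a1
    · by_contra! h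
      exact hn fun v => by simpa [sub_eq_zero] using h v
  · exfalso
    have h6 : ∀ w, g w = (c⁻¹ * 2) • w := fun w => by
      rw [mul_smul, ← h4, smul_smul, inv_mul_cancel₀ hc0, one_smul]
    have h7 := hg S.F1 S.E1
    rw [h6, h6] at h7
    simp only [map_smul, LinearMap.smul_apply, smul_eq_mul, S.std.h11] at h7
    have : (c⁻¹ * 2 - 1) * (c⁻¹ * 2 + 1) = 0 := by linear_combination h7
    rcases mul_eq_zero.1 this with h8 | h8
    · exact hn fun v => by rw [h6, sub_eq_zero.1 h8, one_smul]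
    · exact hn' fun v => by rw [h6, eq_neg_of_add_eq_zero_left h8, neg_smul, one_smul]

theorem Iso.inj {S : Sy F V} (hg : S.Iso g) {v : V} (h : g v = 0) : v = 0 :=
  S.nd fun z => by rw [← hg, h, map_zero]

theorem rel (hg : S.Iso g) (hn : ¬ ∀ v, g v = v) (hn' : ¬ ∀ v, g v = -v) {a b : F}
    (hab : ¬ (a = 0 ∧ b = 0)) (h : ∀ v, a • (v - g (g (g v))) + b • (g v - g (g v)) = 0) :
    Res S.ω g := by
  by_cases ha : a = 0
  · exfalso
    have hb : b ≠ 0 := fun e => hab ⟨ha, e⟩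
    refine hn fun v => ?_
    have := h v
    rw [ha, zero_smul, zero_add, smul_eq_zero, ← map_sub] at this
    exact (sub_eq_zero.1 (hg.inj (this.resolve_left hb))).symm
  · refine S.noncyc hg hn hn' (-1 - a⁻¹ * b) fun v => ?_
    have := congrArg (fun z => a⁻¹ • z) (h v)
    simp only [smul_add, smul_smul, inv_mul_cancel₀ ha, one_smul, smul_zero] at this
    rw [← sub_eq_zero, ← neg_eq_zero, ← this]
    simp only [map_add, map_sub, map_smul]
    module

open Polynomial in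
theorem main [FiniteDimensional F V] (hg : S.Iso g) (hn : ¬ ∀ v, g v = v) (hn' : ¬ ∀ v, g v = -v) :
    Res S.ω g := by
  obtain ⟨x, hx⟩ := Module.exists_ker_toSpanSingleton_eq_annihilator F[X] (Module.AEval' g)
  obtain ⟨x, rfl⟩ := (Module.AEval'.of _).surjective x
  by_cases hΔ : S.ω x (g x) * S.ω (g (g x)) (g (g (g x))) - S.ω x (g (g x)) * S.ω (g x) (g (g (g x)))
      + S.ω x (g (g (g x))) * S.ω (g x) (g (g x)) = 0
  swap
  · left
    refine S.caseD hg (e1 := g x) (e2 := g (g x) + x) ?_ ?_ ?_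
    · simp [hg _ _, S.skew (g x) x]
    · simp [hg _ _, S.alt]
    · intro h
      apply hΔ
      simp only [map_add, LinearMap.add_apply, hg _ _, S.alt, S.skew (g x) x] at h ⊢
      linear_combination h
  obtain ⟨c0, c1, c2, c3, hc, hd⟩ := S.dep _ _ _ _ hΔ
  have key : ∀ y, (C c0 + C c1 * X + C c2 * X ^ 2 + C c3 * X ^ 3 : F[X]) • Module.AEval'.of g y =
      Module.AEval'.of g (c0 • y + c1 • g y + c2 • g (g y) + c3 • g (g (g y))) := by
    intro y
    rw [← Module.AEval.of_aeval_smul]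
    congr 1
    simp [pow_succ, Algebra.algebraMap_eq_smul_one]
  have R : ∀ y, c0 • y + c1 • g y + c2 • g (g y) + c3 • g (g (g y)) = 0 := by
    intro y
    have h1 : (C c0 + C c1 * X + C c2 * X ^ 2 + C c3 * X ^ 3 : F[X]) ∈
        Module.annihilator F[X] (Module.AEval' g) := by
      rw [← hx, LinearMap.mem_ker, LinearMap.toSpanSingleton_apply, key, hd, map_zero]
    have h2 := Module.mem_annihilator.1 h1 (Module.AEval'.of g y)
    rw [key] at h2
    exact (Module.AEval'.of g).map_eq_zero_iff.1 h2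
  have R' : ∀ y, c3 • y + c2 • g y + c1 • g (g y) + c0 • g (g (g y)) = 0 := by
    intro y
    apply S.nd
    intro z
    have := congrArg (fun w => S.ω w (g (g (g y)))) (R z)
    simp only [map_add, map_smul, LinearMap.add_apply, LinearMap.smul_apply, smul_eq_mul, hg _ _,
      map_zero, LinearMap.zero_apply] at this ⊢
    linear_combination this
  by_cases h1 : c0 + c3 = 0 ∧ c1 + c2 = 0
  · have e3 : c3 = -c0 := by linear_combination h1.1
    have e2 : c2 = -c1 := by linear_combination h1.2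
    subst e3 e2
    refine S.rel hg hn hn' (a := c0) (b := c1) (fun ⟨a, b⟩ => hc (by simp [a, b])) fun v => ?_
    rw [← R v]; module
  · refine Res.neg (S.rel hg.neg (by simpa [neg_eq_iff_eq_neg] using hn') (by simpa using hn)
      (a := c0 + c3) (b := -(c1 + c2)) (fun ⟨a, b⟩ => h1 ⟨a, neg_eq_zero.1 b⟩) fun v => ?_)
    simp only [LinearMap.neg_apply, map_neg, neg_neg]
    have := congrArg₂ (· + ·) (R v) (R' v)
    simp only [add_zero] at this
    rw [← this]
    module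

end Sy

end CA.H19Sp4
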