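import Mathlib.LinearAlgebra.BilinearForm.Orthogonal
import Mathlib.FieldTheory.Minpoly.Field
import Mathlib.LinearAlgebra.Eigenspace.Minpoly
import Mathlib.RingTheory.UniqueFactorizationDomain.Multiplicity
import Mathlib.Tactic.LinearCombination
import Mathlib.Tactic.Module

/-! Symplectic isometries: Lagrangian pairs with diagonal block (part 1). -/

set_option autoImplicit false

namespace CA.H19SpD

open Module Polynomial

universe u
variable {F : Type*} [Field F] {V : Type u} [AddCommGroup V] [Module F V]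

theorem aeval_comm {t a : End F V} (h : ∀ v, a (t v) = t (a v)) (p : F[X]) (v : V) :
    a (aeval t p v) = aeval t p (a v) := by
  have hp : ∀ n : ℕ, ∀ v, a ((t ^ n) v) = (t ^ n) (a v) := by
    intro n
    induction n with
    | zero => simp
    | succ n ih => intro v; rw [pow_succ, End.mul_apply, End.mul_apply, ih, h]
  induction p using Polynomial.induction_on' with
  | add p q hp hq => simp [hp, hq]
  | monomial n c => simp [aeval_monomial, hp]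

theorem aeval_mul' (t : End F V) (p q : F[X]) (v : V) :
    aeval t (p * q) v = aeval t p (aeval t q v) := by rw [map_mul, End.mul_apply]

/-- cyclic submodule -/
noncomputable def orb (t : End F V) (v : V) : Submodule F V where
  carrier := {x | ∃ p : F[X], aeval t p v = x}
  add_mem' := by rintro _ _ ⟨p, rfl⟩ ⟨q, rfl⟩; exact ⟨p + q, by simp⟩
  zero_mem' := ⟨0, by simp⟩
  smul_mem' := by rintro c _ ⟨p, rfl⟩; exact ⟨c • p, by simp⟩

theorem self_mem (t : End F V) (v : V) : v ∈ orb t v := ⟨1, by simp⟩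

theorem t_mem {t : End F V} {v x : V} (h : x ∈ orb t v) : t x ∈ orb t v := by
  obtain ⟨p, rfl⟩ := h
  exact ⟨X * p, by rw [aeval_mul', aeval_X]⟩

theorem pow_mem' {t : End F V} {v x : V} (h : x ∈ orb t v) (n : ℕ) : (t ^ n) x ∈ orb t v := by
  induction n with
  | zero => simpa
  | succ n ih => rw [pow_succ', End.mul_apply]; exact t_mem ih

theorem orb_dec {t : End F V} {v x : V} (h : x ∈ orb t v) : ∃ (a : F) (y : V), y ∈ orb t v ∧
    x = a • v + t y := by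
  obtain ⟨p, rfl⟩ := h
  refine ⟨p.coeff 0, aeval t p.divX v, ⟨_, rfl⟩, ?_⟩
  conv_lhs => rw [← X_mul_divX_add p]
  rw [map_add, LinearMap.add_apply, aeval_mul', aeval_X, add_comm]
  simp

theorem orb_zero {t : End F V} {v : V} (φ : V →ₗ[F] F) (h : ∀ i : ℕ, φ ((t ^ i) v) = 0) {x : V}
    (hx : x ∈ orb t v) : φ x = 0 := by
  obtain ⟨p, rfl⟩ := hx
  induction p using Polynomial.induction_on' with
  | add p q hp hq => simp [hp, hq]
  | monomial n c => simp [aeval_monomial, h]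

structure Sg (F : Type*) (V : Type u) [Field F] [AddCommGroup V] [Module F V] where
  ω : LinearMap.BilinForm F V
  alt : ∀ v, ω v v = 0
  nd : ∀ v, (∀ z, ω z v = 0) → v = 0
  g : End F V
  h : End F V
  gh : ∀ v, g (h v) = v
  hg : ∀ v, h (g v) = v
  iso : ∀ u v, ω (g u) (g v) = ω u v

namespace Sg

variable (S : Sg F V)

theorem skew (u v : V) : S.ω u v = - S.ω v u := by
  have h := S.alt (u + v)
  simp only [map_add, LinearMap.add_apply, S.alt] at h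
  linear_combination h

theorem refl : S.ω.IsRefl := fun u v h => by rw [S.skew, h, neg_zero]

theorem nondeg : S.ω.Nondegenerate :=
  ⟨fun v h => S.nd v fun z => S.refl _ _ (h z), fun v h => S.nd v h⟩

theorem adj (u v : V) : S.ω (S.g u) v = S.ω u (S.h v) := by rw [← S.iso u, S.gh]

theorem adj' (u v : V) : S.ω (S.h u) v = S.ω u (S.g v) := by rw [← S.iso (S.h u), S.gh]

def neg : Sg F V where
  ω := S.ω
  alt := S.alt
  nd := S.nd
  g := -S.g
  h := -S.h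
  gh v := by simp [S.gh]
  hg v := by simp [S.hg]
  iso u v := by simp [S.iso]

def Inv (U : Submodule F V) : Prop := (∀ x ∈ U, S.g x ∈ U) ∧ ∀ x ∈ U, S.h x ∈ U

def Ndg (U : Submodule F V) : Prop := ∀ x ∈ U, (∀ z ∈ U, S.ω z x = 0) → x = 0

def res (U : Submodule F V) (hi : S.Inv U) (hn : S.Ndg U) : Sg F U where
  ω := S.ω.restrict U
  alt v := S.alt v
  nd v h := Subtype.ext (hn v v.2 fun z hz => h ⟨z, hz⟩)
  g := S.g.restrict hi.1
  h := S.h.restrict hi.2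
  gh v := Subtype.ext (S.gh v)
  hg v := Subtype.ext (S.hg v)
  iso u v := S.iso u v

structure Dat0 (U Wp Wm W' : Submodule F V) : Prop where
  sup : Wp ⊔ Wm ⊔ W' = U
  pp : ∀ x ∈ Wp, ∀ y ∈ Wp, S.ω x y = 0
  pm : ∀ x ∈ Wp, ∀ y ∈ Wm, S.ω x y = 0
  mm : ∀ x ∈ Wm, ∀ y ∈ Wm, S.ω x y = 0
  ww : ∀ x ∈ W', ∀ y ∈ W', S.ω x y = 0
  hp : ∀ x ∈ Wp, S.g x - x ∈ W'
  hm : ∀ x ∈ Wm, S.g x + x ∈ W'

def Dat (U : Submodule F V) : Prop := ∃ Wp Wm W', S.Dat0 U Wp Wm W' ∧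
  (∀ x ∈ Wp, ∀ y ∈ Wm, S.ω x (S.g y) = 0 ∧ S.ω y (S.g x) = 0) ∧
  ((∀ x ∈ Wp, ∀ y ∈ Wp, S.ω x (S.g y) = 0) → (∀ x ∈ Wm, ∀ y ∈ Wm, S.ω x (S.g y) = 0) →
    ∀ v ∈ U, S.g (S.g v) = v)

variable {S}

theorem Dat0.neg {U Wp Wm W' : Submodule F V} (h : S.neg.Dat0 U Wp Wm W') : S.Dat0 U Wm Wp W' where
  sup := by rw [sup_comm Wm]; exact h.sup
  pp := h.mm
  pm x hx y hy := S.refl _ _ (h.pm y hy x hx)
  mm := h.pp
  ww := h.ww
  hp x hx := by
    have := W'.neg_mem (h.hm x hx)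
    convert this using 1
    simp only [Sg.neg, LinearMap.neg_apply]; abel
  hm x hx := by
    have := W'.neg_mem (h.hp x hx)
    convert this using 1
    simp only [Sg.neg, LinearMap.neg_apply]; abel

theorem Dat0.neg' {U Wp Wm W' : Submodule F V} (h : S.Dat0 U Wp Wm W') : S.neg.Dat0 U Wm Wp W' := by
  refine Dat0.neg (S := S.neg) ⟨h.sup, h.pp, h.pm, h.mm, h.ww, fun x hx => ?_, fun x hx => ?_⟩
  · simpa [Sg.neg] using h.hp x hx
  · simpa [Sg.neg] using h.hm x hx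

theorem Dat.neg {U : Submodule F V} (h : S.neg.Dat U) : S.Dat U := by
  obtain ⟨Wp, Wm, W', h0, h1, h2⟩ := h
  refine ⟨Wm, Wp, W', h0.neg, fun x hx y hy => ?_, fun a b v hv => ?_⟩
  · simpa [Sg.neg, and_comm] using h1 y hy x hx
  · simpa [Sg.neg] using h2 (by simpa [Sg.neg] using b) (by simpa [Sg.neg] using a) v hv

theorem dat_of (W W' : Submodule F V) (h1 : ∀ x ∈ W, ∀ y ∈ W, S.ω x y = 0)
    (h2 : ∀ x ∈ W', ∀ y ∈ W', S.ω x y = 0) (h3 : W ⊔ W' = ⊤) (h4 : ∀ x ∈ W, S.g x - x ∈ W')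
    (h5 : (∀ x ∈ W, ∀ y ∈ W, S.ω x (S.g y) = 0) → ∀ v, S.g (S.g v) = v) : S.Dat ⊤ :=
  ⟨W, ⊥, W', ⟨by simpa, h1, by simp, by simp, h2, h4, by simp⟩, by simp, fun a _ v _ => h5 a v⟩

theorem sup_all {A B : Submodule F V} {P : V → Prop} (h0 : ∀ x y, P x → P y → P (x + y))
    (ha : ∀ x ∈ A, P x) (hb : ∀ x ∈ B, P x) : ∀ x ∈ A ⊔ B, P x := by
  intro x hx
  obtain ⟨a, h1, b, h2, rfl⟩ := Submodule.mem_sup.1 hx
  exact h0 _ _ (ha a h1) (hb b h2)

theorem sup_bil (φ : V →ₗ[F] V →ₗ[F] F) {A B C D : Submodule F V} (h1 : ∀ x ∈ A, ∀ y ∈ C, φ x y = 0)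
    (h2 : ∀ x ∈ A, ∀ y ∈ D, φ x y = 0) (h3 : ∀ x ∈ B, ∀ y ∈ C, φ x y = 0)
    (h4 : ∀ x ∈ B, ∀ y ∈ D, φ x y = 0) : ∀ x ∈ A ⊔ B, ∀ y ∈ C ⊔ D, φ x y = 0 := by
  intro x hx y hy
  obtain ⟨a, ha, b, hb, rfl⟩ := Submodule.mem_sup.1 hx
  obtain ⟨c, hc, d, hd, rfl⟩ := Submodule.mem_sup.1 hy
  simp [h1 a ha c hc, h2 a ha d hd, h3 b hb c hc, h4 b hb d hd]

theorem Dat.sup {U1 U2 : Submodule F V} (h1 : S.Dat U1) (h2 : S.Dat U2)
    (ho : ∀ x ∈ U1, ∀ y ∈ U2, S.ω x y = 0) (i1 : S.Inv U1) (i2 : S.Inv U2) : S.Dat (U1 ⊔ U2) := by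
  obtain ⟨Ap, Am, A', a0, a1, a2⟩ := h1
  obtain ⟨Bp, Bm, B', b0, b1, b2⟩ := h2
  have l1 : Ap ≤ U1 := a0.sup ▸ le_sup_left.trans le_sup_left
  have l2 : Am ≤ U1 := a0.sup ▸ le_sup_right.trans le_sup_left
  have l3 : A' ≤ U1 := a0.sup ▸ le_sup_right
  have m1 : Bp ≤ U2 := b0.sup ▸ le_sup_left.trans le_sup_left
  have m2 : Bm ≤ U2 := b0.sup ▸ le_sup_right.trans le_sup_left
  have m3 : B' ≤ U2 := b0.sup ▸ le_sup_right
  have ho' : ∀ x ∈ U2, ∀ y ∈ U1, S.ω x y = 0 := fun x hx y hy => S.refl _ _ (ho y hy x hx)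
  refine ⟨Ap ⊔ Bp, Am ⊔ Bm, A' ⊔ B', ⟨?_, ?_, ?_, ?_, ?_, ?_, ?_⟩, fun x hx y hy => ⟨?_, ?_⟩,
    fun p q => ?_⟩
  · rw [← a0.sup, ← b0.sup]; ac_rfl
  · exact sup_bil _ a0.pp (fun x hx y hy => ho x (l1 hx) y (m1 hy))
      (fun x hx y hy => ho' x (m1 hx) y (l1 hy)) b0.pp
  · exact sup_bil _ a0.pm (fun x hx y hy => ho x (l1 hx) y (m2 hy))
      (fun x hx y hy => ho' x (m1 hx) y (l2 hy)) b0.pm
  · exact sup_bil _ a0.mm (fun x hx y hy => ho x (l2 hx) y (m2 hy))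
      (fun x hx y hy => ho' x (m2 hx) y (l2 hy)) b0.mm
  · exact sup_bil _ a0.ww (fun x hx y hy => ho x (l3 hx) y (m3 hy))
      (fun x hx y hy => ho' x (m3 hx) y (l3 hy)) b0.ww
  · refine sup_all (fun x y hx hy => ?_) (fun x hx => Submodule.mem_sup_left (a0.hp x hx))
      (fun x hx => Submodule.mem_sup_right (b0.hp x hx))
    convert add_mem hx hy using 1
    rw [map_add]; abel
  · refine sup_all (fun x y hx hy => ?_) (fun x hx => Submodule.mem_sup_left (a0.hm x hx))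
      (fun x hx => Submodule.mem_sup_right (b0.hm x hx))
    convert add_mem hx hy using 1
    rw [map_add]; abel
  · exact sup_bil (S.ω.compl₂ S.g) (fun x hx y hy => (a1 x hx y hy).1)
      (fun x hx y hy => ho x (l1 hx) _ (i2.1 _ (m2 hy)))
      (fun x hx y hy => ho' x (m1 hx) _ (i1.1 _ (l2 hy))) (fun x hx y hy => (b1 x hx y hy).1) x hx y hy
  · exact sup_bil (S.ω.compl₂ S.g) (fun x hx y hy => (a1 y hy x hx).2)
      (fun x hx y hy => ho x (l2 hx) _ (i2.1 _ (m1 hy)))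
      (fun x hx y hy => ho' x (m2 hx) _ (i1.1 _ (l1 hy))) (fun x hx y hy => (b1 y hy x hx).2) y hy x hx
  · refine sup_all (fun x y hx hy => by rw [map_add, map_add, hx, hy]) (a2 ?_ ?_) (b2 ?_ ?_)
    · exact fun x hx y hy => p x (Submodule.mem_sup_left hx) y (Submodule.mem_sup_left hy)
    · exact fun x hx y hy => q x (Submodule.mem_sup_left hx) y (Submodule.mem_sup_left hy)
    · exact fun x hx y hy => p x (Submodule.mem_sup_right hx) y (Submodule.mem_sup_right hy)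
    · exact fun x hx y hy => q x (Submodule.mem_sup_right hx) y (Submodule.mem_sup_right hy)

theorem Dat.up {U : Submodule F V} {hi : S.Inv U} {hn : S.Ndg U} (h : (S.res U hi hn).Dat ⊤) :
    S.Dat U := by
  obtain ⟨Wp, Wm, W', h0, h1, h2⟩ := h
  refine ⟨Wp.map U.subtype, Wm.map U.subtype, W'.map U.subtype, ⟨?_, ?_, ?_, ?_, ?_, ?_, ?_⟩, ?_, ?_⟩
  · rw [← Submodule.map_sup, ← Submodule.map_sup, h0.sup, Submodule.map_subtype_top]
  · rintro _ ⟨x, hx, rfl⟩ _ ⟨y, hy, rfl⟩; exact h0.pp x hx y hy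
  · rintro _ ⟨x, hx, rfl⟩ _ ⟨y, hy, rfl⟩; exact h0.pm x hx y hy
  · rintro _ ⟨x, hx, rfl⟩ _ ⟨y, hy, rfl⟩; exact h0.mm x hx y hy
  · rintro _ ⟨x, hx, rfl⟩ _ ⟨y, hy, rfl⟩; exact h0.ww x hx y hy
  · rintro _ ⟨x, hx, rfl⟩; exact ⟨_, h0.hp x hx, rfl⟩
  · rintro _ ⟨x, hx, rfl⟩; exact ⟨_, h0.hm x hx, rfl⟩
  · rintro _ ⟨x, hx, rfl⟩ _ ⟨y, hy, rfl⟩; exact h1 x hx y hy
  · intro p q v hv
    exact congrArg Subtype.val (h2 (fun x hx y hy => p _ ⟨x, hx, rfl⟩ _ ⟨y, hy, rfl⟩)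
      (fun x hx y hy => q _ ⟨x, hx, rfl⟩ _ ⟨y, hy, rfl⟩) ⟨v, hv⟩ trivial)

variable (S)

/-- `g + g⁻¹ - c` -/
def t (c : F) : End F V := S.g + S.h - c • 1

theorem t_apply (c : F) (v : V) : S.t c v = S.g v + S.h v - c • v := rfl

theorem g_t (c : F) (v : V) : S.g (S.t c v) = S.t c (S.g v) := by
  simp [t_apply, S.gh, S.hg]

theorem h_t (c : F) (v : V) : S.h (S.t c v) = S.t c (S.h v) := by
  simp [t_apply, S.gh, S.hg]

theorem t_adj (c : F) (u v : V) : S.ω (S.t c u) v = S.ω u (S.t c v) := by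
  simp only [t_apply, map_add, map_sub, map_smul, LinearMap.add_apply, LinearMap.sub_apply,
    LinearMap.smul_apply, S.adj, S.adj']
  ring

theorem pow_adj (c : F) (n : ℕ) (u v : V) : S.ω ((S.t c ^ n) u) v = S.ω u ((S.t c ^ n) v) := by
  induction n generalizing u v with
  | zero => simp
  | succ n ih => rw [pow_succ, End.mul_apply, ih, t_adj, ← End.mul_apply, ← pow_succ', pow_succ]

theorem aeval_adj (c : F) (p : F[X]) (u v : V) :
    S.ω (aeval (S.t c) p u) v = S.ω u (aeval (S.t c) p v) := by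
  induction p using Polynomial.induction_on' with
  | add p q hp hq => simp [hp, hq]
  | monomial n a => simp [aeval_monomial, pow_adj]

theorem pow_alt (c : F) (n : ℕ) (u : V) : S.ω ((S.t c ^ n) u) u = 0 := by
  rcases Nat.even_or_odd' n with ⟨k, rfl | rfl⟩
  · rw [two_mul, pow_add, End.mul_apply, pow_adj, S.alt]
  · rw [show 2 * k + 1 = k + (1 + k) by ring, pow_add, pow_add, pow_one, End.mul_apply, End.mul_apply,
      pow_adj]
    generalize (S.t c ^ k) u = z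
    simp only [t_apply, map_add, map_sub, map_smul, LinearMap.add_apply, LinearMap.sub_apply,
      LinearMap.smul_apply, S.adj', S.alt, S.skew (S.g z) z]
    simp

theorem orb_iso (c : F) (v : V) : ∀ x ∈ orb (S.t c) v, ∀ y ∈ orb (S.t c) v, S.ω x y = 0 := by
  rintro x hx _ ⟨p, rfl⟩
  rw [← aeval_adj]
  obtain ⟨q, rfl⟩ := hx
  rw [← aeval_mul']
  exact orb_zero (S.ω.flip v) (fun i => S.pow_alt c i v) ⟨_, rfl⟩

theorem orb_orth (c : F) {v w : V} (h : ∀ i : ℕ, S.ω ((S.t c ^ i) v) w = 0) :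
    ∀ x ∈ orb (S.t c) v, ∀ y ∈ orb (S.t c) w, S.ω x y = 0 := by
  rintro x hx _ ⟨p, rfl⟩
  rw [← aeval_adj]
  obtain ⟨q, rfl⟩ := hx
  rw [← aeval_mul']
  exact orb_zero (S.ω.flip w) h ⟨_, rfl⟩

/-- `(g - 1) W` is isotropic for a `t`-invariant isotropic `W` -/
theorem n_iso (c : F) {W : Submodule F V} (h1 : ∀ x ∈ W, ∀ y ∈ W, S.ω x y = 0)
    (h2 : ∀ x ∈ W, S.t c x ∈ W) :
    ∀ x ∈ W.map (S.g - 1), ∀ y ∈ W.map (S.g - 1), S.ω x y = 0 := by
  rintro _ ⟨x, hx, rfl⟩ _ ⟨y, hy, rfl⟩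
  have := h1 _ (h2 x hx) y hy
  simp only [t_apply, map_add, map_sub, map_smul, LinearMap.add_apply, LinearMap.sub_apply,
    LinearMap.smul_apply, S.adj', End.one_apply, S.iso, h1 x hx y hy] at this ⊢
  linear_combination -this

theorem inv_n (c : F) {W : Submodule F V} (h2 : ∀ x ∈ W, S.t c x ∈ W) :
    S.Inv (W ⊔ W.map (S.g - 1)) := by
  have gm : ∀ x ∈ W, S.g x ∈ W ⊔ W.map (S.g - 1) := fun x hx => by
    have : S.g x = x + (S.g - 1) x := by simp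
    rw [this]
    exact Submodule.add_mem_sup hx ⟨x, hx, rfl⟩
  constructor
  · refine sup_all (fun x y hx hy => by rw [map_add]; exact add_mem hx hy) gm ?_
    rintro _ ⟨x, hx, rfl⟩
    have : S.g ((S.g - 1) x) = S.g (S.t c x) - x + c • S.g x - S.g x := by
      simp [t_apply, S.gh]; abel
    rw [this]
    exact sub_mem (add_mem (sub_mem (gm _ (h2 x hx)) (Submodule.mem_sup_left hx))
      (Submodule.smul_mem _ _ (gm x hx))) (gm x hx)
  · have hm : ∀ x ∈ W, S.h x ∈ W ⊔ W.map (S.g - 1) := fun x hx => by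
      have : S.h x = S.t c x - S.g x + c • x := by rw [t_apply]; abel
      rw [this]
      exact add_mem (sub_mem (Submodule.mem_sup_left (h2 x hx)) (gm x hx))
        (Submodule.mem_sup_left (W.smul_mem _ hx))
    refine sup_all (fun x y hx hy => by rw [map_add]; exact add_mem hx hy) hm ?_
    rintro _ ⟨x, hx, rfl⟩
    have : S.h ((S.g - 1) x) = x - S.h x := by simp [S.hg]
    rw [this]
    exact sub_mem (Submodule.mem_sup_left hx) (hm x hx)

def Ind : Prop := ∀ U, S.Inv U → S.Ndg U → U ≠ ⊥ → U = ⊤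

theorem loc {r : F[X]} (hr : Irreducible r) {k : ℕ} (φ : F[X] →ₗ[F] F)
    (h0 : ∀ c, φ (r ^ (k + 1) * c) = 0) {a0 : F[X]} (h1 : φ (r ^ k * a0) ≠ 0) {a : F[X]}
    (h2 : ∀ c, φ (a * c) = 0) : r ^ (k + 1) ∣ a := by
  classical
  obtain ⟨j, hj, ha⟩ := (dvd_prime_pow hr.prime _).1 (EuclideanDomain.gcd_dvd_right a (r ^ (k + 1)))
  rcases hj.eq_or_lt with rfl | hj
  · exact ha.symm.dvd.trans (EuclideanDomain.gcd_dvd_left _ _)
  · exfalso
    obtain ⟨e, he⟩ : EuclideanDomain.gcd a (r ^ (k + 1)) ∣ r ^ k :=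
      ha.dvd.trans (pow_dvd_pow r (by omega))
    apply h1
    rw [he, EuclideanDomain.gcd_eq_gcd_ab, add_mul, add_mul, map_add, mul_assoc, mul_assoc, h2,
      mul_assoc, mul_assoc, h0, add_zero]

theorem typeI (hI : S.Ind) {r : F[X]} (hr : Irreducible r) {k : ℕ}
    (hk : aeval (S.t 0) (r ^ (k + 1)) = 0) {v : V} {a0 : F[X]}
    (hv : S.ω (aeval (S.t 0) (r ^ k * a0) v) (S.g v) ≠ 0) : S.Dat ⊤ := by
  have hW : ∀ x ∈ orb (S.t 0) v, S.t 0 x ∈ orb (S.t 0) v := fun x => t_mem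
  let φ : F[X] →ₗ[F] F := (S.ω.flip (S.g v)) ∘ₗ (LinearMap.applyₗ v) ∘ₗ (aeval (S.t 0)).toLinearMap
  have hφ : ∀ p, φ p = S.ω (aeval (S.t 0) p v) (S.g v) := fun p => rfl
  have key : ∀ a : F[X], (∀ c, φ (a * c) = 0) → aeval (S.t 0) a v = 0 := by
    intro a ha
    obtain ⟨e, rfl⟩ := loc hr φ (fun c => by rw [hφ, aeval_mul', hk]; simp) hv ha
    rw [aeval_mul', hk]; rfl
  have hC := hI _ (S.inv_n 0 hW) ?_ ?_
  · refine dat_of _ _ (S.orb_iso 0 v) (S.n_iso 0 (S.orb_iso 0 v) hW) hC (fun x hx => ⟨x, hx, rfl⟩)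
      fun h => absurd (h _ ⟨_, rfl⟩ v (self_mem _ _)) hv
  · intro x hx hz
    obtain ⟨_, ⟨a, rfl⟩, _, ⟨_, ⟨b, rfl⟩, rfl⟩, rfl⟩ := Submodule.mem_sup.1 hx
    have hb : aeval (S.t 0) b v = 0 := key b fun c => by
      have := hz (aeval (S.t 0) c v) (Submodule.mem_sup_left ⟨c, rfl⟩)
      rw [map_add, S.orb_iso 0 v _ ⟨c, rfl⟩ _ ⟨a, rfl⟩, zero_add, LinearMap.sub_apply, map_sub,
        End.one_apply, S.orb_iso 0 v _ ⟨c, rfl⟩ _ ⟨b, rfl⟩, sub_zero, aeval_comm (S.g_t 0),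
        ← aeval_adj, ← aeval_mul'] at this
      exact this
    rw [hb, map_zero, add_zero] at hz ⊢
    refine key a fun c => ?_
    have := hz (S.g (aeval (S.t 0) c v)) ((S.inv_n 0 hW).1 _ (Submodule.mem_sup_left ⟨c, rfl⟩))
    rw [S.skew, neg_eq_zero, aeval_comm (S.g_t 0), ← aeval_adj, ← aeval_mul', mul_comm] at this
    exact this
  · intro h
    have : v = 0 := by
      rw [← Submodule.mem_bot F, ← h]; exact Submodule.mem_sup_left (self_mem _ _)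
    apply hv
    rw [this]; simp

theorem primary [FiniteDimensional F V] [Nontrivial V] (hI : S.Ind) : ∃ (r : F[X]) (k : ℕ),
    Irreducible r ∧ aeval (S.t 0) (r ^ (k + 1)) = 0 ∧ aeval (S.t 0) (r ^ k) ≠ 0 := by
  classical
  have hi : IsIntegral F (S.t 0) := Algebra.IsIntegral.isIntegral _
  obtain ⟨r, hr, hd⟩ := Polynomial.exists_irreducible_of_degree_pos (minpoly.degree_pos hi)
  obtain ⟨k, c, hc, e⟩ := WfDvdMonoid.max_power_factor (minpoly.ne_zero hi) hr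
  obtain ⟨x, y, hxy⟩ := (hr.coprime_iff_not_dvd.2 hc).pow_left (m := k)
  have h0 : ∀ v, aeval (S.t 0) (r ^ k) (aeval (S.t 0) c v) = 0 := fun v => by
    rw [← aeval_mul', ← e, minpoly.aeval]; rfl
  have dec : ∀ v, v = aeval (S.t 0) (r ^ k) (aeval (S.t 0) x v) +
      aeval (S.t 0) c (aeval (S.t 0) y v) := fun v => by
    rw [← aeval_mul', ← aeval_mul', ← LinearMap.add_apply, ← map_add, mul_comm, mul_comm c, hxy]
    simp
  have hU := hI (LinearMap.ker (aeval (S.t 0) (r ^ k))) ⟨fun u hu => ?_, fun u hu => ?_⟩ ?_ ?_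
  · have hex : ∃ j, aeval (S.t 0) (r ^ j) = 0 := ⟨k, LinearMap.ker_eq_top.1 hU⟩
    have h1 := Nat.find_spec hex
    have h2 : Nat.find hex ≠ 0 := fun h => by
      rw [h, pow_zero, map_one] at h1
      exact one_ne_zero h1
    obtain ⟨j, hj⟩ := Nat.exists_eq_succ_of_ne_zero h2
    exact ⟨r, j, hr, by rw [← Nat.succ_eq_add_one, ← hj]; exact h1, Nat.find_min hex (by omega)⟩
  · rw [LinearMap.mem_ker] at hu ⊢
    rw [← aeval_comm (S.g_t 0), hu, map_zero]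
  · rw [LinearMap.mem_ker] at hu ⊢
    rw [← aeval_comm (S.h_t 0), hu, map_zero]
  · intro u hu hz
    refine S.nd u fun z => ?_
    rw [dec z, map_add, LinearMap.add_apply, aeval_adj, LinearMap.mem_ker.1 hu, map_zero, zero_add]
    exact hz _ (h0 _)
  · intro h
    have : aeval (S.t 0) c = 0 := LinearMap.ext fun v => by
      have : aeval (S.t 0) c v ∈ LinearMap.ker (aeval (S.t 0) (r ^ k)) := h0 v
      rw [h] at this
      exact this
    exact hc (hd.trans (minpoly.dvd F _ this))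

end Sg

end CA.H19SpD
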