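import Cfsg.Agent.Lib.Lin.H19SpD

/-! Symplectic isometries: Lagrangian pairs with diagonal block (part 2). -/

set_option autoImplicit false

namespace CA.H19SpD

open Module Polynomial

universe u
variable {F : Type*} [Field F] {V : Type u} [AddCommGroup V] [Module F V]

namespace Sg

variable (S : Sg F V)

theorem nn (v : V) : (S.g - 1) ((S.g - 1) v) = S.t 2 (S.g v) := by
  simp [t_apply, S.hg, two_smul]; abel

theorem n_t (v : V) : (S.g - 1) (S.t 2 v) = S.t 2 ((S.g - 1) v) := by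
  simp [S.g_t]

theorem n_pow (i : ℕ) (v : V) : (S.g - 1) ((S.t 2 ^ i) v) = (S.t 2 ^ i) ((S.g - 1) v) := by
  simpa using aeval_comm S.n_t (X ^ i) v

theorem t_eq (v : V) : S.t 2 v = (S.g - 1) (S.h ((S.g - 1) v)) := by
  simp [t_apply, S.hg, S.gh, two_smul]; abel

theorem npow (k : ℕ) (v : V) : ((S.g - 1) ^ (2 * k)) v = (S.g ^ k) ((S.t 2 ^ k) v) := by
  induction k generalizing v with
  | zero => simp
  | succ k ih =>
    rw [show 2 * (k + 1) = 2 * k + 1 + 1 by ring, pow_succ, pow_succ, End.mul_apply, End.mul_apply,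
      nn, ih, ← S.g_t, pow_succ S.g, End.mul_apply, pow_succ, End.mul_apply]
    congr 1
    simpa using (aeval_comm (S.g_t 2) (X ^ k) (S.t 2 v)).symm

theorem gpow_fix {x : V} (h : S.g x = x) (k : ℕ) : (S.g ^ k) x = x := by
  induction k with
  | zero => simp
  | succ k ih => rw [pow_succ, End.mul_apply, h, ih]

theorem adjust {a z d : V} {m : ℕ} (hb : S.ω ((S.t 2 ^ m) a) d ≠ 0)
    (h1 : ∀ i, m < i → S.ω ((S.t 2 ^ i) a) d = 0) (h2 : ∀ i, m < i → S.ω ((S.t 2 ^ i) a) z = 0) :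
    ∃ p : F[X], ∀ i : ℕ, S.ω ((S.t 2 ^ i) a) (z + aeval (S.t 2) p d) = 0 := by
  have key : ∀ j, j ≤ m + 1 → ∃ p : F[X], ∀ i : ℕ, m + 1 ≤ i + j →
      S.ω ((S.t 2 ^ i) a) (z + aeval (S.t 2) p d) = 0 := by
    intro j
    induction j with
    | zero => exact fun _ => ⟨0, fun i hi => by simpa using h2 i (by omega)⟩
    | succ j ih =>
      intro hj
      obtain ⟨p, hp⟩ := ih (by omega)
      refine ⟨p + C (-S.ω ((S.t 2 ^ (m - j)) a) (z + aeval (S.t 2) p d) / S.ω ((S.t 2 ^ m) a) d) * X ^ j,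
        fun i hi => ?_⟩
      rw [map_add (aeval (S.t 2)), LinearMap.add_apply, ← add_assoc, map_add, aeval_mul', aeval_C,
        aeval_X_pow, Module.algebraMap_end_apply, map_smul, ← pow_adj, ← End.mul_apply, ← pow_add]
      rcases (show m ≤ i + j by omega).eq_or_lt with h | h
      · rw [show j + i = m by omega, show m - j = i by omega, smul_eq_mul, div_mul_cancel₀ _ hb,
          add_neg_cancel]
      · rw [hp i (by omega), h1 (j + i) (by omega), smul_zero, add_zero]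
  obtain ⟨p, hp⟩ := key (m + 1) le_rfl
  exact ⟨p, fun i => hp i (by omega)⟩

theorem ndg2 {v w : V} {e : ℕ} (he : (S.g - 1) ^ (e + 1) = 0)
    (h1 : S.ω v (((S.g - 1) ^ e) v) = 0) (h2 : S.ω w (((S.g - 1) ^ e) w) = 0)
    (h3 : S.ω w (((S.g - 1) ^ e) v) ≠ 0) (h4 : S.ω v (((S.g - 1) ^ e) w) ≠ 0) (hI : S.Ind) :
    (orb (S.t 2) v ⊔ orb (S.t 2) w) ⊔ (orb (S.t 2) v ⊔ orb (S.t 2) w).map (S.g - 1) = ⊤ := by
  set W := orb (S.t 2) v ⊔ orb (S.t 2) w
  have hW : ∀ x ∈ W, S.t 2 x ∈ W := sup_all (fun x y hx hy => by rw [map_add]; exact add_mem hx hy)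
    (fun x hx => Submodule.mem_sup_left (t_mem hx)) (fun x hx => Submodule.mem_sup_right (t_mem hx))
  have hi := S.inv_n 2 hW
  set Cc := W ⊔ W.map (S.g - 1)
  have hv : v ∈ Cc := Submodule.mem_sup_left (Submodule.mem_sup_left (self_mem _ _))
  have hw : w ∈ Cc := Submodule.mem_sup_left (Submodule.mem_sup_right (self_mem _ _))
  have hn : ∀ x ∈ Cc, (S.g - 1) x ∈ Cc := fun x hx => sub_mem (hi.1 x hx) hx
  have dec : ∀ x ∈ Cc, ∃ (a b : F) (y : V), y ∈ Cc ∧ x = a • v + b • w + (S.g - 1) y := by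
    have ad : ∀ x y : V, (∃ (a b : F) (z : V), z ∈ Cc ∧ x = a • v + b • w + (S.g - 1) z) →
        (∃ (a b : F) (z : V), z ∈ Cc ∧ y = a • v + b • w + (S.g - 1) z) →
        ∃ (a b : F) (z : V), z ∈ Cc ∧ x + y = a • v + b • w + (S.g - 1) z := by
      rintro _ _ ⟨a, b, z, hz, rfl⟩ ⟨a', b', z', hz', rfl⟩
      exact ⟨a + a', b + b', z + z', add_mem hz hz', by rw [map_add]; module⟩
    refine sup_all ad (sup_all ad (fun x hx => ?_) (fun x hx => ?_)) ?_
    · obtain ⟨a, y, hy, rfl⟩ := orb_dec hx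
      exact ⟨a, 0, _, hi.2 _ (hn _ (Submodule.mem_sup_left (Submodule.mem_sup_left hy))),
        by rw [← t_eq]; simp⟩
    · obtain ⟨a, y, hy, rfl⟩ := orb_dec hx
      exact ⟨0, a, _, hi.2 _ (hn _ (Submodule.mem_sup_left (Submodule.mem_sup_right hy))),
        by rw [← t_eq]; simp⟩
    · rintro _ ⟨x, hx, rfl⟩
      exact ⟨0, 0, x, Submodule.mem_sup_left hx, by simp⟩
  refine hI _ hi (fun x hx hz => ?_) (fun h => h4 ?_)
  · have rad : ∀ j : ℕ, ∀ z ∈ Cc, S.ω z (((S.g - 1) ^ j) x) = 0 := by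
      intro j
      induction j with
      | zero => simpa using hz
      | succ j ih =>
        intro z hz'
        rw [pow_succ', End.mul_apply, LinearMap.sub_apply, map_sub, End.one_apply, ← S.adj',
          ih _ (hi.2 z hz'), ih z hz', sub_zero]
    have key : ∀ j, j ≤ e + 1 → ∃ y ∈ Cc, x = ((S.g - 1) ^ j) y := by
      intro j
      induction j with
      | zero => exact fun _ => ⟨x, hx, by simp⟩
      | succ j ih =>
        intro hj
        obtain ⟨y, hy, e1⟩ := ih (by omega)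
        obtain ⟨a, b, y', hy', rfl⟩ := dec y hy
        have e2 : ((S.g - 1) ^ (e - j)) x = a • ((S.g - 1) ^ e) v + b • ((S.g - 1) ^ e) w := by
          rw [e1, ← End.mul_apply, ← pow_add, show e - j + j = e by omega, map_add, map_add, map_smul,
            map_smul, ← End.mul_apply _ (S.g - 1), ← pow_succ, he]
          simp
        have r1 := rad (e - j) w hw
        have r2 := rad (e - j) v hv
        rw [e2, map_add, map_smul, map_smul] at r1 r2
        rw [h2, smul_zero, add_zero, smul_eq_zero] at r1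
        rw [h1, smul_zero, zero_add, smul_eq_zero] at r2
        refine ⟨y', hy', ?_⟩
        rw [e1, r1.resolve_right h3, r2.resolve_right h4, pow_succ, End.mul_apply]
        simp
    obtain ⟨y, -, e1⟩ := key (e + 1) le_rfl
    rw [e1, he]; rfl
  · rw [h] at hv
    rw [(Submodule.mem_bot F).1 hv]; simp

theorem typeII (hI : S.Ind) {k : ℕ} (hk : S.t 2 ^ (k + 1) = 0)
    (h0 : ∀ v, S.ω ((S.t 2 ^ k) v) (S.g v) = 0) {w : V} (hw : (S.g - 1) ((S.t 2 ^ k) w) ≠ 0) :
    S.Dat ⊤ := by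
  have tz : ∀ i, k < i → ∀ x, (S.t 2 ^ i) x = 0 := fun i hi x => by
    rw [pow_eq_zero_of_le hi hk]; rfl
  obtain ⟨v, hv⟩ : ∃ v, S.ω ((S.t 2 ^ k) v) ((S.g - 1) w) ≠ 0 := by
    by_contra! h
    exact hw (S.nd _ fun z => by rw [n_pow, ← pow_adj, h])
  obtain ⟨p, hp⟩ := S.adjust (z := w) hv (fun i hi => by simp [tz i hi]) (fun i hi => by simp [tz i hi])
  set w' := w + aeval (S.t 2) p ((S.g - 1) w) with hw'
  have hb : S.ω ((S.t 2 ^ k) v) ((S.g - 1) w') ≠ 0 := by
    rw [hw', map_add, map_add, aeval_comm S.n_t, nn, ← aeval_comm (a := S.t 2) (fun _ => rfl),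
      ← t_adj, ← End.mul_apply, ← pow_succ', hk]
    simpa using hv
  have e1 : ∀ x, ((S.g - 1) ^ (2 * k + 1)) x = (S.t 2 ^ k) ((S.g - 1) x) := fun x => by
    rw [pow_succ, End.mul_apply, npow, gpow_fix]
    rw [← sub_eq_zero, ← n_pow]
    have := S.nn ((S.t 2 ^ k) x)
    rw [← S.g_t, ← End.mul_apply (S.t 2), ← pow_succ', hk] at this
    simpa using this
  have al : ∀ x, S.ω x (((S.g - 1) ^ (2 * k + 1)) x) = 0 := fun x => by
    rw [e1, ← pow_adj, LinearMap.sub_apply, map_sub, h0, End.one_apply, pow_alt, sub_zero]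
  have hb' : S.ω v (((S.g - 1) ^ (2 * k + 1)) w') ≠ 0 := by rwa [e1, ← pow_adj]
  have hC := S.ndg2 (v := v) (w := w') (e := 2 * k + 1) (LinearMap.ext fun x => by
    rw [show 2 * k + 1 + 1 = 2 * (k + 1) by ring, npow, hk]; simp) (al v) (al w') (fun h => by
      have := al (v + w')
      simp only [map_add, LinearMap.add_apply, al, h] at this
      exact hb' (by simpa using this)) hb' hI
  have iso : ∀ x ∈ orb (S.t 2) v ⊔ orb (S.t 2) w', ∀ y ∈ orb (S.t 2) v ⊔ orb (S.t 2) w',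
      S.ω x y = 0 := sup_bil _ (S.orb_iso 2 v) (S.orb_orth 2 hp)
        (fun x hx y hy => S.refl _ _ (S.orb_orth 2 hp y hy x hx)) (S.orb_iso 2 w')
  refine dat_of _ _ iso (S.n_iso 2 iso (sup_all (fun x y hx hy => by rw [map_add]; exact add_mem hx hy)
    (fun x hx => Submodule.mem_sup_left (t_mem hx)) (fun x hx => Submodule.mem_sup_right (t_mem hx))))
    hC (fun x hx => ⟨x, hx, rfl⟩) fun h => absurd ?_ hb
  rw [LinearMap.sub_apply, map_sub, End.one_apply, hp, sub_zero]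
  exact h _ (Submodule.mem_sup_left (pow_mem' (self_mem _ _) k)) _
    (Submodule.mem_sup_right (self_mem _ _))

theorem two_le [FiniteDimensional F V] {W : Submodule F V} (h : ∀ x ∈ W, ∀ y ∈ W, S.ω x y = 0) :
    2 * finrank F W ≤ finrank F V := by
  have h1 : W ≤ S.ω.orthogonal W := fun y hy x hx => h x hx y hy
  have h2 := Submodule.finrank_mono h1
  rw [LinearMap.BilinForm.finrank_orthogonal S.nondeg] at h2
  have := Submodule.finrank_le W
  omega

theorem typeIII [FiniteDimensional F V] (hI : S.Ind) {k : ℕ} (hT : S.t 2 ^ k ≠ 0)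
    (hn : ∀ w, (S.g - 1) ((S.t 2 ^ k) w) = 0) : S.Dat ⊤ := by
  have gT : ∀ x, S.g ((S.t 2 ^ k) x) = (S.t 2 ^ k) x := fun x => by simpa [sub_eq_zero] using hn x
  have fix : ∀ x y, S.ω ((S.t 2 ^ k) x) (S.g y) = S.ω ((S.t 2 ^ k) x) y := fun x y => by
    conv_lhs => rw [← gT, S.iso]
  have fix' : ∀ i, k ≤ i → ∀ x y, S.ω ((S.t 2 ^ i) x) ((S.g - 1) y) = 0 := fun i hi x y => by
    obtain ⟨j, rfl⟩ := Nat.exists_eq_add_of_le hi
    rw [pow_add, End.mul_apply, LinearMap.sub_apply, map_sub, fix, End.one_apply, sub_self]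
  obtain ⟨w, hw⟩ : ∃ w, (S.t 2 ^ k) w ≠ 0 := by
    by_contra! h
    exact hT (LinearMap.ext h)
  obtain ⟨v, hv⟩ : ∃ v, S.ω ((S.t 2 ^ k) v) w ≠ 0 := by
    by_contra! h
    exact hw (S.nd _ fun z => by rw [← pow_adj, h])
  have top : ∀ j, k = j + 1 → ∀ y, S.ω ((S.t 2 ^ j) v) ((S.g - 1) ((S.g - 1) y)) =
      S.ω ((S.t 2 ^ k) v) y := fun j hj y => by
    rw [nn, ← t_adj, ← End.mul_apply, ← pow_succ', ← hj, fix]
  obtain ⟨w', hb, hp⟩ : ∃ w', S.ω ((S.t 2 ^ k) v) w' ≠ 0 ∧
      ∀ i : ℕ, S.ω ((S.t 2 ^ i) v) ((S.g - 1) w') = 0 := by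
    rcases k with _ | j
    · exact ⟨w, hv, fun i => fix' i (by omega) _ _⟩
    · obtain ⟨p, hp⟩ := S.adjust (z := (S.g - 1) w) (d := (S.g - 1) ((S.g - 1) w)) (m := j) (a := v)
        (by rwa [top j rfl]) (fun i hi => fix' i hi _ _) (fun i hi => fix' i hi _ _)
      refine ⟨w + aeval (S.t 2) p ((S.g - 1) w), ?_, fun i => ?_⟩
      · rwa [map_add, ← aeval_comm S.n_t, fix' _ le_rfl, add_zero]
      · rw [map_add, aeval_comm S.n_t, hp]
  have e1 : ∀ x, ((S.g - 1) ^ (2 * k)) x = (S.t 2 ^ k) x := fun x => by rw [npow, gpow_fix _ (gT x)]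
  have hC := S.ndg2 (v := v) (w := w') (e := 2 * k) (LinearMap.ext fun x => by
    rw [pow_succ', End.mul_apply, e1, hn]; rfl) (by rw [e1, ← pow_adj, pow_alt])
    (by rw [e1, ← pow_adj, pow_alt]) (by rw [e1, S.skew]; exact neg_ne_zero.2 hb)
    (by rwa [e1, ← pow_adj]) hI
  set W := orb (S.t 2) v ⊔ orb (S.t 2) ((S.g - 1) w') with hWd
  have iso : ∀ x ∈ W, ∀ y ∈ W, S.ω x y = 0 := sup_bil _ (S.orb_iso 2 v) (S.orb_orth 2 hp)
        (fun x hx y hy => S.refl _ _ (S.orb_orth 2 hp y hy x hx)) (S.orb_iso 2 _)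
  have hW : ∀ x ∈ W, S.t 2 x ∈ W := sup_all (fun x y hx hy => by rw [map_add]; exact add_mem hx hy)
    (fun x hx => Submodule.mem_sup_left (t_mem hx)) (fun x hx => Submodule.mem_sup_right (t_mem hx))
  have hi := S.inv_n 2 hW
  have niso := S.n_iso 2 iso hW
  have nw : ∀ y ∈ orb (S.t 2) w', (S.g - 1) y ∈ W := by
    rintro _ ⟨p, rfl⟩
    exact Submodule.mem_sup_right ⟨p, (aeval_comm S.n_t p w').symm⟩
  have hH : (W ⊔ W.map (S.g - 1)) ⊔ Submodule.span F {w'} = ⊤ := by
    rw [eq_top_iff, ← hC]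
    refine sup_le (sup_le (fun x hx => ?_) fun x hx => ?_) ?_
    · exact Submodule.mem_sup_left (Submodule.mem_sup_left (Submodule.mem_sup_left hx))
    · obtain ⟨a, y, hy, rfl⟩ := orb_dec hx
      rw [add_comm]
      refine Submodule.add_mem_sup ?_ (Submodule.smul_mem _ _ (Submodule.mem_span_singleton_self _))
      have := hi.2 _ (Submodule.mem_sup_left (nw y hy))
      rw [t_eq]
      exact sub_mem (hi.1 _ this) this
    · rw [Submodule.map_sup]
      refine sup_le ?_ ?_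
      · rintro _ ⟨x, hx, rfl⟩
        exact Submodule.mem_sup_left (Submodule.mem_sup_right ⟨x, Submodule.mem_sup_left hx, rfl⟩)
      · rintro _ ⟨x, hx, rfl⟩
        exact Submodule.mem_sup_left (Submodule.mem_sup_left (nw x hx))
  have tv : (S.t 2 ^ k) v ∈ W := Submodule.mem_sup_left (pow_mem' (self_mem _ _) k)
  have tv0 : (S.t 2 ^ k) v ≠ 0 := fun h => hb (by rw [h]; simp)
  have dis : W ⊓ W.map (S.g - 1) = ⊥ := by
    have d1 := S.two_le iso
    have d2 := LinearMap.finrank_range_add_finrank_ker ((S.g - 1).domRestrict W)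
    rw [LinearMap.range_domRestrict] at d2
    have d3 : finrank F (LinearMap.ker ((S.g - 1).domRestrict W)) ≠ 0 := fun h => by
      have : (⟨_, tv⟩ : W) ∈ LinearMap.ker ((S.g - 1).domRestrict W) := hn v
      rw [Submodule.finrank_eq_zero.1 h] at this
      exact tv0 (congrArg Subtype.val ((Submodule.mem_bot F).1 this))
    have d4 := Submodule.finrank_add_le_finrank_add_finrank (W ⊔ W.map (S.g - 1))
      (Submodule.span F {w'})
    rw [hH, finrank_top, finrank_span_singleton (fun h => hb (by rw [h]; simp))] at d4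
    have d5 := Submodule.finrank_sup_add_finrank_inf_eq W (W.map (S.g - 1))
    exact Submodule.finrank_eq_zero.1 (by omega)
  obtain ⟨z, hz, hz'⟩ : ∃ z ∈ S.ω.orthogonal (W.map (S.g - 1)), z ∉ W ⊔ W.map (S.g - 1) := by
    by_contra! h
    have h1 := LinearMap.BilinForm.orthogonal_le (B := S.ω) (show _ ≤ W ⊔ W.map (S.g - 1) from h)
    rw [LinearMap.BilinForm.orthogonal_orthogonal S.nondeg S.refl] at h1
    have h2 : (S.t 2 ^ k) v ∈ W ⊓ W.map (S.g - 1) := ⟨tv, h1 (sup_all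
      (P := fun x => S.ω x ((S.t 2 ^ k) v) = 0) (fun x y hx hy => by simp [hx, hy])
      (fun x hx => iso x hx _ tv) (by
        rintro _ ⟨x, -, rfl⟩
        exact S.refl _ _ (fix' k le_rfl _ _)))⟩
    rw [dis] at h2
    exact tv0 h2
  refine dat_of W (W.map (S.g - 1) ⊔ Submodule.span F {z}) iso (sup_bil _ niso ?_ ?_ ?_) ?_
    (fun x hx => Submodule.mem_sup_left ⟨x, hx, rfl⟩) fun h => ?_
  · intro x hx y hy
    obtain ⟨a, rfl⟩ := Submodule.mem_span_singleton.1 hy
    rw [map_smul, hz x hx, smul_zero]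
  · intro y hy x hx
    obtain ⟨a, rfl⟩ := Submodule.mem_span_singleton.1 hy
    rw [map_smul, LinearMap.smul_apply, S.refl _ _ (hz x hx), smul_zero]
  · intro x hx y hy
    obtain ⟨a, rfl⟩ := Submodule.mem_span_singleton.1 hy
    obtain ⟨b, rfl⟩ := Submodule.mem_span_singleton.1 hx
    simp [S.alt]
  · rw [← sup_assoc, eq_top_iff, ← hH]
    refine sup_le le_sup_left ((Submodule.span_singleton_le_iff_mem _ _).2 ?_)
    obtain ⟨y, hy, y', hy', e⟩ := Submodule.mem_sup.1 (hH ▸ Submodule.mem_top : z ∈ _)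
    obtain ⟨a, rfl⟩ := Submodule.mem_span_singleton.1 hy'
    have ha : a ≠ 0 := fun h => hz' (by rw [← e, h, zero_smul, add_zero]; exact hy)
    have : w' = a⁻¹ • (z - y) := by rw [← e, add_sub_cancel_left, smul_smul, inv_mul_cancel₀ ha, one_smul]
    rw [this]
    exact Submodule.smul_mem _ _ (sub_mem (Submodule.mem_sup_right (Submodule.mem_span_singleton_self _))
      (Submodule.mem_sup_left hy))
  · rcases k with _ | j
    · intro x
      have := gT
      simp only [pow_zero, End.one_apply] at this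
      rw [this, this]
    · exfalso
      apply hb
      rw [← top j rfl, LinearMap.sub_apply, map_sub, End.one_apply, hp, sub_zero]
      exact h _ (Submodule.mem_sup_left (pow_mem' (self_mem _ _) j)) _
        (Submodule.mem_sup_right (self_mem _ _))

theorem unip [FiniteDimensional F V] (hI : S.Ind) {k : ℕ} (hk : S.t 2 ^ (k + 1) = 0)
    (hT : S.t 2 ^ k ≠ 0) (h0 : ∀ v, S.ω ((S.t 2 ^ k) v) (S.g v) = 0) : S.Dat ⊤ := by
  by_cases h : ∃ w, (S.g - 1) ((S.t 2 ^ k) w) ≠ 0
  · obtain ⟨w, hw⟩ := h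
    exact S.typeII hI hk h0 hw
  · push Not at h
    exact S.typeIII hI hT h

theorem indec [FiniteDimensional F V] [Nontrivial V] (hI : S.Ind) : S.Dat ⊤ := by
  obtain ⟨r, k, hr, hk, hT⟩ := S.primary hI
  by_cases h : ∃ v a, S.ω (aeval (S.t 0) (r ^ k * a) v) (S.g v) ≠ 0
  · obtain ⟨v, a, hv⟩ := h
    exact S.typeI hI hr hk hv
  push Not at h
  have h1 : ∀ w, aeval (S.t 0) (r ^ k) (S.g w - S.h w) = 0 := fun w => S.nd _ fun v => by
    have a1 := h (v + w) 1
    have a2 := h v 1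
    have a3 := h w 1
    rw [mul_one] at a1 a2 a3
    simp only [map_add, LinearMap.add_apply, a2, a3, zero_add, add_zero] at a1
    rw [aeval_adj, aeval_adj, S.skew w, aeval_adj, S.adj, aeval_comm (S.h_t 0)] at a1
    rw [map_sub, map_sub]
    linear_combination a1
  have ev : ∀ c : F, aeval (S.t 0) (X - C c) = S.t c := fun c => by
    ext v; simp [t_apply]
  have hd : r ∣ (X - C 2) * (X - C (-2)) := by
    by_contra hd
    obtain ⟨x, y, hxy⟩ := hr.coprime_iff_not_dvd.2 hd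
    apply hT
    rw [← mul_one (r ^ k), ← hxy, mul_add, map_add, mul_left_comm, ← pow_succ, map_mul, hk, mul_zero,
      zero_add, mul_left_comm, map_mul]
    refine mul_eq_zero_of_right _ (LinearMap.ext fun w => ?_)
    rw [aeval_mul', aeval_mul', ev, ev, LinearMap.zero_apply, ← h1 (S.g w - S.h w)]
    congr 1
    simp only [t_apply, map_add, map_sub, map_smul, S.gh, S.hg]
    module
  have tr : ∀ c : F, r ∣ X - C c → S.t c ^ (k + 1) = 0 ∧ S.t c ^ k ≠ 0 ∧
      ∀ v, S.ω ((S.t c ^ k) v) (S.g v) = 0 := by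
    intro c hc
    have ha := hr.associated_of_dvd (irreducible_X_sub_C c) hc
    refine ⟨?_, fun e => hT ?_, fun v => ?_⟩
    · obtain ⟨a, e⟩ := pow_dvd_pow_of_dvd hc (k + 1)
      rw [← ev, ← map_pow, e, map_mul, hk, zero_mul]
    · obtain ⟨a, e'⟩ := pow_dvd_pow_of_dvd ha.symm.dvd k
      rw [e', map_mul, map_pow, ev, e, zero_mul]
    · obtain ⟨a, e⟩ := pow_dvd_pow_of_dvd hc k
      rw [← ev, ← map_pow, e, h]
  rcases hr.prime.dvd_or_dvd hd with hc | hc
  · obtain ⟨a, b, c⟩ := tr 2 hc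
    exact S.unip hI a b c
  · obtain ⟨a, b, c⟩ := tr (-2) hc
    have e : S.neg.t 2 = -S.t (-2) := by
      ext v; simp [t_apply, neg]; abel
    refine Dat.neg (S.neg.unip (k := k) (fun U hU => hI U ⟨fun x hx => ?_, fun x hx => ?_⟩) ?_ ?_ ?_)
    · simpa [neg] using hU.1 x hx
    · simpa [neg] using hU.2 x hx
    · rw [e, neg_pow, a, mul_zero]
    · rw [e, neg_pow]
      rcases neg_one_pow_eq_or (End F V) k with h | h <;> simpa [h] using b
    · intro v
      rw [e, neg_pow]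
      rcases neg_one_pow_eq_or (End F V) k with h | h <;> simpa [h, neg] using c v

end Sg

theorem main (n : ℕ) : ∀ {V : Type u} [AddCommGroup V] [Module F V] [FiniteDimensional F V]
    (S : Sg F V), finrank F V = n → S.Dat ⊤ := by
  induction n using Nat.strong_induction_on with | _ n ih => ?_
  intro V _ _ _ S hn
  rcases subsingleton_or_nontrivial V with hs | hs
  · exact Sg.dat_of ⊥ ⊥ (by simp) (by simp) (Subsingleton.elim _ _) (by simp)
      fun _ _ => Subsingleton.elim _ _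
  by_cases hI : S.Ind
  · exact S.indec hI
  unfold Sg.Ind at hI
  push Not at hI
  obtain ⟨U, hi, hd, h0, h1⟩ := hI
  have hc : IsCompl U (S.ω.orthogonal U) :=
    (LinearMap.BilinForm.isCompl_orthogonal_iff_disjoint S.refl).2
      (Submodule.disjoint_def.2 fun x hx hx' => hd x hx hx')
  have hi' : S.Inv (S.ω.orthogonal U) :=
    ⟨fun x hx z hz => by rw [← S.adj']; exact hx _ (hi.2 z hz),
     fun x hx z hz => by rw [← S.adj]; exact hx _ (hi.1 z hz)⟩
  have hd' : S.Ndg (S.ω.orthogonal U) := fun x hx hz => S.nd x fun z => by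
    obtain ⟨a, ha, b, hb, rfl⟩ := Submodule.mem_sup.1 (hc.sup_eq_top ▸ Submodule.mem_top : z ∈ _)
    rw [map_add, LinearMap.add_apply, hx a ha, hz b hb, add_zero]
  have f1 := Submodule.finrank_add_eq_of_isCompl hc
  have f2 : finrank F U < n := hn ▸ Submodule.finrank_lt h1
  have f3 : finrank F U ≠ 0 := fun h => h0 (Submodule.finrank_eq_zero.1 h)
  rw [← hc.sup_eq_top]
  exact (ih _ f2 (S.res U hi hd) rfl).up.sup (ih _ (by omega) (S.res _ hi' hd') rfl).up
    (fun x hx y hy => hy x hx) hi hi'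

end CA.H19SpD
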