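import Cfsg.Agent.Lib.Lin.H19SpD2

/-! Symplectic isometries: symplectic bases with upper-left block `diag (1,…,1,-1,…,-1)`. -/

set_option autoImplicit false

namespace CA.H19SpD

open Module

universe u
variable {F : Type*} [Field F] {V : Type u} [AddCommGroup V] [Module F V]

def sg (F : Type*) [Field F] (a : ℕ) (j : ℕ) : F := if j < a then 1 else -1

namespace Sg

variable {S : Sg F V} {Wp Wm W' : Submodule F V}

theorem Dat0.flip (h : S.Dat0 ⊤ Wp Wm W') (cr : ∀ x ∈ Wp, ∀ y ∈ Wm, S.ω x (S.g y) = 0)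
    {x0 : V} (hx : x0 ∈ Wp) (hd : S.ω x0 (S.g x0) ≠ 0) :
    ∃ A B, S.Dat0 ⊤ A (Wm ⊔ Submodule.span F {x0}) B := by
  have sp : ∀ {v x : V}, x ∈ Submodule.span F {v} → ∃ a : F, a • v = x :=
    fun h => Submodule.mem_span_singleton.1 h
  have ms := fun v : V => Submodule.mem_span_singleton_self (R := F) v
  refine ⟨Wp ⊓ LinearMap.ker (S.ω x0 ∘ₗ S.g), (W' ⊓ LinearMap.ker (S.ω x0)) ⊔
    Submodule.span F {S.g x0 + x0}, ?_, fun x hx y hy => h.pp x hx.1 y hy.1, ?_, ?_, ?_, ?_, ?_⟩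
  · rw [eq_top_iff, ← h.sup]
    refine sup_le (sup_le (fun y hy => ?_) fun y hy => ?_) fun z hz => ?_
    · have : y = (y - (S.ω x0 (S.g y) / S.ω x0 (S.g x0)) • x0) +
        (S.ω x0 (S.g y) / S.ω x0 (S.g x0)) • x0 := by abel
      rw [this]
      refine Submodule.mem_sup_left (Submodule.add_mem_sup ⟨sub_mem hy (Wp.smul_mem _ hx), ?_⟩
        (Submodule.mem_sup_right (Submodule.smul_mem _ _ (ms _))))
      simp [hd]
    · exact Submodule.mem_sup_left (Submodule.mem_sup_right (Submodule.mem_sup_left hy))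
    · have : z = (-(2 * (S.ω x0 z / S.ω x0 (S.g x0)))) • x0 +
        ((z - (S.ω x0 z / S.ω x0 (S.g x0)) • (S.g x0 - x0)) +
        (S.ω x0 z / S.ω x0 (S.g x0)) • (S.g x0 + x0)) := by module
      rw [this]
      refine Submodule.add_mem_sup (Submodule.mem_sup_right (Submodule.mem_sup_right
        (Submodule.smul_mem _ _ (ms _)))) (Submodule.add_mem_sup
        ⟨sub_mem hz (W'.smul_mem _ (h.hp _ hx)), ?_⟩ (Submodule.smul_mem _ _ (ms _)))
      simp [hd, S.alt]
  · intro x hx'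
    refine sup_all (fun a b ha hb => by rw [map_add, ha, hb, add_zero]) (h.pm x hx'.1) fun y hy => ?_
    obtain ⟨a, rfl⟩ := sp hy
    rw [map_smul, h.pp x hx'.1 x0 hx, smul_zero]
  · refine sup_bil _ h.mm (fun x hx' y hy => ?_) (fun y hy x hx' => ?_) (fun x hx' y hy => ?_)
    · obtain ⟨a, rfl⟩ := sp hy
      rw [map_smul, S.refl _ _ (h.pm x0 hx x hx'), smul_zero]
    · obtain ⟨a, rfl⟩ := sp hy
      rw [map_smul, LinearMap.smul_apply, h.pm x0 hx x hx', smul_zero]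
    · obtain ⟨a, rfl⟩ := sp hy
      obtain ⟨b, rfl⟩ := sp hx'
      simp [S.alt]
  · have k : ∀ z ∈ W' ⊓ LinearMap.ker (S.ω x0), S.ω z (S.g x0 + x0) = 0 := fun z hz => by
      have a1 := h.ww z hz.1 _ (h.hp _ hx)
      have a2 := S.refl _ _ (LinearMap.mem_ker.1 hz.2)
      rw [map_sub, a2, sub_zero] at a1
      rw [map_add, a1, a2, add_zero]
    refine sup_bil _ (fun x hx' y hy => h.ww x hx'.1 y hy.1) (fun x hx' y hy => ?_)
      (fun y hy x hx' => ?_) (fun x hx' y hy => ?_)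
    · obtain ⟨a, rfl⟩ := sp hy
      rw [map_smul, k x hx', smul_zero]
    · obtain ⟨a, rfl⟩ := sp hy
      rw [map_smul, LinearMap.smul_apply, S.refl _ _ (k x hx'), smul_zero]
    · obtain ⟨a, rfl⟩ := sp hy
      obtain ⟨b, rfl⟩ := sp hx'
      rw [map_smul, map_smul, LinearMap.smul_apply, S.alt, smul_zero, smul_zero]
  · intro y hy
    refine Submodule.mem_sup_left ⟨h.hp y hy.1, ?_⟩
    have : S.ω x0 (S.g y) = 0 := hy.2
    simp [this, h.pp x0 hx y hy.1]
  · refine sup_all (fun x y hx hy => ?_) (fun y hy => Submodule.mem_sup_left ⟨h.hm y hy, ?_⟩)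
      fun y hy => ?_
    · convert add_mem hx hy using 1
      rw [map_add]; abel
    · simp [cr x0 hx y hy, h.pm x0 hx y hy]
    · obtain ⟨a, rfl⟩ := sp hy
      rw [map_smul, ← smul_add]
      exact Submodule.mem_sup_right (Submodule.smul_mem _ _ (ms _))

theorem Dat0.dzero (h : S.Dat0 ⊤ Wp Wm W') (h2 : (2 : F) ≠ 0) (hz : ∀ x ∈ Wp, S.ω x (S.g x) = 0) :
    ∀ x ∈ Wp, ∀ y ∈ Wp, S.ω x (S.g y) = 0 := by
  intro x hx y hy
  have a1 := h.ww _ (h.hp x hx) _ (h.hp y hy)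
  have a2 := hz _ (add_mem hx hy)
  simp only [map_add, map_sub, LinearMap.add_apply, LinearMap.sub_apply, S.iso, h.pp x hx y hy,
    hz x hx, hz y hy, S.skew (S.g x) y] at a1 a2
  exact (mul_eq_zero.1 (show 2 * S.ω x (S.g y) = 0 by linear_combination a2 - a1)).resolve_left h2

theorem Dat0.zero (h : S.Dat0 ⊤ Wp Wm W') {v : V} (h1 : ∀ x ∈ Wp, S.ω x v = 0)
    (h2 : ∀ x ∈ Wm, S.ω x v = 0) (h3 : ∀ x ∈ W', S.ω x v = 0) : v = 0 :=
  S.nd v fun z => sup_all (P := fun x => S.ω x v = 0) (fun x y hx hy => by simp [hx, hy])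
    (sup_all (fun x y hx hy => by simp [hx, hy]) h1 h2) h3 z (h.sup ▸ Submodule.mem_top)

theorem Dat0.disj (h : S.Dat0 ⊤ Wp Wm W') (h2 : (2 : F) ≠ 0) : Disjoint Wp Wm := by
  refine Submodule.disjoint_def.2 fun x hx hx' => h.zero (fun y hy => h.pp y hy x hx)
    (fun y hy => h.mm y hy x hx') fun y hy => h.ww y hy x ?_
  have : x = (2 : F)⁻¹ • ((S.g x + x) - (S.g x - x)) := by
    rw [show S.g x + x - (S.g x - x) = (2 : F) • x by rw [two_smul]; abel, smul_smul,
      inv_mul_cancel₀ h2, one_smul]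
  rw [this]
  exact W'.smul_mem _ (sub_mem (h.hm x hx') (h.hp x hx))

theorem Dat0.merge (h : S.Dat0 ⊤ Wp Wm W') (h2 : (2 : F) = 0) : S.Dat0 ⊤ (Wp ⊔ Wm) ⊥ W' := by
  refine ⟨by rw [sup_bot_eq]; exact h.sup, sup_bil _ h.pp h.pm
    (fun x hx y hy => S.refl _ _ (h.pm y hy x hx)) h.mm, by simp, by simp, h.ww,
    sup_all (fun x y hx hy => ?_) h.hp fun x hx => ?_, by simp⟩
  · convert add_mem hx hy using 1
    rw [map_add]; abel
  · have : S.g x - x = S.g x + x - (2 : F) • x := by rw [two_smul]; abel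
    rw [this, h2, zero_smul, sub_zero]
    exact h.hm x hx

variable (S) in
def Nb (m a : ℕ) (Z : Prop) : Prop := ∃ e f : Fin m → V, (∀ i j, S.ω (e i) (e j) = 0) ∧
  (∀ i j, S.ω (f i) (f j) = 0) ∧ (∀ i j, S.ω (f i) (e j) = if i = j then 1 else 0) ∧
  (∀ i j, S.ω (f i) (S.g (e j)) = if i = j then sg F a j else 0) ∧
  (Z → ∀ i j, S.ω (e i) (S.g (e j)) = 0)

variable [FiniteDimensional F V]

theorem Dat0.dim (h : S.Dat0 ⊤ Wp Wm W') (hd : Disjoint Wp Wm) {m : ℕ} (hm : finrank F V = 2 * m) :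
    finrank F Wp + finrank F Wm = m ∧ finrank F W' = m := by
  have d1 := S.two_le (sup_bil _ h.pp h.pm (fun x hx y hy => S.refl _ _ (h.pm y hy x hx)) h.mm)
  have d2 := S.two_le h.ww
  have d3 := Submodule.finrank_add_le_finrank_add_finrank (Wp ⊔ Wm) W'
  rw [h.sup, finrank_top] at d3
  have d4 := Submodule.finrank_sup_add_finrank_inf_eq Wp Wm
  rw [hd.eq_bot, finrank_bot] at d4
  omega

theorem Dat0.bas (h : S.Dat0 ⊤ Wp Wm W') (hd : Disjoint Wp Wm) {m : ℕ} (hm : finrank F V = 2 * m) :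
    S.Nb m (finrank F Wp) (∀ x ∈ Wp ⊔ Wm, ∀ y ∈ Wp ⊔ Wm, S.ω x (S.g y) = 0) := by
  obtain ⟨d1, d2⟩ := h.dim hd hm
  let bp := finBasis F Wp
  let bm := finBasis F Wm
  let e : Fin m → V := fun j => if hj : (j : ℕ) < finrank F Wp then (bp ⟨j, hj⟩ : V) else
    (bm ⟨j - finrank F Wp, by omega⟩ : V)
  have ep : ∀ j : Fin m, (j : ℕ) < finrank F Wp → e j ∈ Wp := fun j hj => by
    simp only [e, dif_pos hj]; exact Subtype.prop _
  have em : ∀ j : Fin m, ¬ (j : ℕ) < finrank F Wp → e j ∈ Wm := fun j hj => by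
    simp only [e, dif_neg hj]; exact Subtype.prop _
  have ew : ∀ j, e j ∈ Wp ⊔ Wm := fun j => by
    by_cases hj : (j : ℕ) < finrank F Wp
    · exact Submodule.mem_sup_left (ep j hj)
    · exact Submodule.mem_sup_right (em j hj)
  let Φ : W' →ₗ[F] (Fin m → F) := LinearMap.pi fun j => S.ω.flip (e j) ∘ₗ W'.subtype
  have hΦ : Function.Injective Φ := by
    refine (injective_iff_map_eq_zero _).2 fun f hf => Subtype.ext ?_
    have hf' : ∀ j, S.ω f (e j) = 0 := fun j => congrFun hf j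
    refine h.zero (fun x hx => S.refl _ _ ?_) (fun x hx => S.refl _ _ ?_) fun x hx => h.ww x hx f f.2
    · have : S.ω f ∘ₗ Wp.subtype = 0 := bp.ext fun i => by
        have := hf' ⟨i, by omega⟩
        simp only [e, dif_pos i.2] at this
        exact this
      exact LinearMap.congr_fun this ⟨x, hx⟩
    · have : S.ω f ∘ₗ Wm.subtype = 0 := bm.ext fun i => by
        have := hf' ⟨finrank F Wp + i, by omega⟩
        simp only [e, dif_neg (show ¬ finrank F Wp + i < finrank F Wp by omega),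
          Nat.add_sub_cancel_left] at this
        exact this
      exact LinearMap.congr_fun this ⟨x, hx⟩
  have hs := (LinearMap.injective_iff_surjective_of_finrank_eq_finrank (by simp [d2])).1 hΦ
  choose f hf using fun i : Fin m => hs (Pi.single i 1)
  have hf' : ∀ i j, S.ω (f i) (e j) = if i = j then 1 else 0 := fun i j => by
    have : S.ω (f i) (e j) = (Pi.single i 1 : Fin m → F) j := congrFun (hf i) j
    rw [this, Pi.single_apply]
    simp only [eq_comm]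
  refine ⟨e, fun i => f i, fun i j => sup_bil _ h.pp h.pm
    (fun x hx y hy => S.refl _ _ (h.pm y hy x hx)) h.mm _ (ew i) _ (ew j),
    fun i j => h.ww _ (f i).2 _ (f j).2, hf', fun i j => ?_, fun hz i j => hz _ (ew i) _ (ew j)⟩
  by_cases hj : (j : ℕ) < finrank F Wp
  · have := h.ww _ (f i).2 _ (h.hp _ (ep j hj))
    rw [map_sub, sub_eq_zero, hf'] at this
    rw [this, sg, if_pos hj]
  · have := h.ww _ (f i).2 _ (h.hm _ (em j hj))
    rw [map_add, add_eq_zero_iff_eq_neg, hf'] at this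
    rw [this, sg, if_neg hj]
    split_ifs <;> simp

theorem Nb.mono {m a : ℕ} {Z Z' : Prop} (h : S.Nb m a Z) (hz : Z' → Z) : S.Nb m a Z' := by
  obtain ⟨e, f, h1, h2, h3, h4, h5⟩ := h
  exact ⟨e, f, h1, h2, h3, h4, fun z => h5 (hz z)⟩

variable (S) in
theorem norm {m : ℕ} (hm : finrank F V = 2 * m) :
    (∃ a b, a + 2 * b = m ∧ ((2 : F) = 0 → b = 0) ∧ S.Nb m a False) ∨
      ((2 : F) ≠ 0 ∧ (∀ v, S.g (S.g v) = v) ∧ ∃ a, S.Nb m a True) := by
  obtain ⟨Wp, Wm, W', h0, h1, h2⟩ := main _ S rfl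
  by_cases hc : (2 : F) = 0
  · have h := h0.merge hc
    have := (h.dim disjoint_bot_right hm).1
    rw [finrank_bot] at this
    exact Or.inl ⟨_, 0, this, fun _ => rfl, (h.bas disjoint_bot_right hm).mono False.elim⟩
  have d0 := (h0.dim (h0.disj hc) hm).1
  have ev : ∀ {A B C : Submodule F V}, S.Dat0 ⊤ A B C → Even (finrank F B) →
      ∃ a b, a + 2 * b = m ∧ ((2 : F) = 0 → b = 0) ∧ S.Nb m a False := by
    intro A B C h ⟨b, hb⟩
    exact ⟨_, b, by have := (h.dim (h.disj hc) hm).1; omega, fun e => absurd e hc,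
      (h.bas (h.disj hc) hm).mono False.elim⟩
  rcases Nat.even_or_odd (finrank F Wm) with he | ho
  · exact Or.inl (ev h0 he)
  by_cases hp : ∃ x ∈ Wp, S.ω x (S.g x) ≠ 0
  · obtain ⟨x, hx, hd⟩ := hp
    obtain ⟨A, B, h⟩ := h0.flip (fun x hx y hy => (h1 x hx y hy).1) hx hd
    refine Or.inl (ev h ?_)
    rw [Submodule.finrank_sup_span_singleton fun e => hd (h1 x hx x e).1]
    exact ho.add_one
  by_cases hq : ∃ x ∈ Wm, S.ω x (S.g x) ≠ 0
  · obtain ⟨x, hx, hd⟩ := hq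
    obtain ⟨A, B, h⟩ := h0.neg'.flip (fun x hx y hy => by simpa [neg] using (h1 y hy x hx).2) hx
      (by simpa [neg] using hd)
    have h' := h.neg
    refine Or.inl (ev h' ?_)
    have := (h'.dim (h'.disj hc) hm).1
    rw [Submodule.finrank_sup_span_singleton fun e => hd (h1 x e x hx).1] at this
    obtain ⟨c, hc⟩ := ho
    exact ⟨c, by omega⟩
  push Not at hp hq
  have z1 := h0.dzero hc hp
  have z2 : ∀ x ∈ Wm, ∀ y ∈ Wm, S.ω x (S.g y) = 0 := by
    simpa [neg] using h0.neg'.dzero hc (by simpa [neg] using hq)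
  exact Or.inr ⟨hc, fun v => h2 z1 z2 v trivial, _, (h0.bas (h0.disj hc) hm).mono fun _ =>
    sup_bil (S.ω.compl₂ S.g) z1 (fun x hx y hy => (h1 x hx y hy).1)
      (fun x hx y hy => (h1 y hy x hx).2) z2⟩

end Sg

end CA.H19SpD
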