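/-
Character degrees of odd orthogonal groups: weight spaces and projectors.
-/
import Cfsg.Agent.Lib.Lin.DegO5

set_option autoImplicit false
set_option linter.unusedSectionVars false

namespace CA.DegO

open Cfsg CA.Wt CA.DegSp CA.CForm CA.CForm.Form CA.AutForm CChar.CharFun CChar.CharKer CChar.CharRep Finset Module

universe u
variable {F : Type*} [Field F] [Fintype F] [DecidableEq F] {V : Type u} [AddCommGroup V] [Module F V] {f : Form (Kind.orth F) V}
  [FiniteDimensional F V] {M : Type*} [AddCommGroup M] [Module ℂ M] (ρ : Representation ℂ f.Eich M) (ψ : AddChar F ℂ)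

/-- the weight space of the unipotent radical at `x` -/
def W (x u : V) : Submodule ℂ M where
  carrier := {v | ∀ w, f.B x w = 0 → ρ (E f x w) v = ψ (f.B u w) • v}
  add_mem' ha hb w hw := by rw [map_add, ha w hw, hb w hw, smul_add]
  zero_mem' w _ := by simp
  smul_mem' c v hv w hw := by rw [map_smul, hv w hw, smul_comm]

/-- the weight projector -/
noncomputable def P [Fintype V] (x u : V) : End ℂ M :=
  ((#{w | f.B x w = 0} : ℕ) : ℂ)⁻¹ • ∑ w with f.B x w = 0, ψ (-f.B u w) • ρ (E f x w)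

variable {ρ ψ} {x y u w a b : V} {v : M}

theorem rmul (g k : f.Eich) (v : M) : ρ (g * k) v = ρ g (ρ k v) := by rw [map_mul, End.mul_apply]

theorem W_map (hx : f.Q x = 0) (g : f.Eich) (hv : v ∈ W ρ ψ x u) : ρ g v ∈ W ρ ψ (g ▹ x) (g ▹ u) := fun w hw => by
  obtain ⟨w, rfl⟩ := g.1.1.surjective w
  rw [f.B_coe_map] at hw ⊢
  rw [← E_conj g hx hw, ← rmul, inv_mul_cancel_right, rmul, hv w hw, map_smul]

theorem W_smul (hx : f.Q x = 0) {t : F} (t0 : t ≠ 0) (hv : v ∈ W ρ ψ x u) : v ∈ W ρ ψ (t • x) (t • u) := fun w hw => by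
  have h1 : f.B x w = 0 := by simpa [t0] using hw
  rw [E_smul t hx h1, hv _ (by simp [h1])]; simp

theorem W_congr {u' : V} (h : ∀ w, f.B x w = 0 → f.B u' w = f.B u w) (hv : v ∈ W ρ ψ x u) : v ∈ W ρ ψ x u' :=
  fun w hw => by rw [hv w hw, h w hw]

theorem W_Ws (h : f.IsHyp x y) (hu : f.B x u = 0) : v ∈ W ρ ψ x u ↔ v ∈ Ws ρ (X h) (lam ψ x y u) :=
  ⟨fun hv w => hv w (Bx w), fun hv w hw => by
    have h1 : f.B x (w - f.B y w • x) = 0 := by simp [hw, h.B_xx]
    have := hv ⟨w - f.B y w • x, mem_Up h1 (by simp [h.B_yx])⟩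
    rw [X_apply, lam_apply] at this
    rw [← sub_add_cancel w (f.B y w • x), E_add h.Q_x h1 (by simp [h.B_xx]), E_self _ h.Q_x, mul_one, this]
    simp [f.eq_zero_symm hu]⟩

variable [Fintype V]

theorem E_P (hx : f.Q x = 0) (hw : f.B x w = 0) (v : M) : ρ (E f x w) (P ρ ψ x u v) = ψ (f.B u w) • P ρ ψ x u v := by
  simp only [P, LinearMap.smul_apply, LinearMap.sum_apply, map_smul, map_sum]
  rw [smul_comm (ψ _)]
  congr 1
  rw [smul_sum]
  refine (sum_nbij' (fun z => w + z) (fun z => z - w) (fun z hz => by simpa [hw] using hz) (fun z hz => by simpa [hw] using hz)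
    (by simp) (by simp) fun z hz => ?_)
  rw [E_add hx hw (mem_filter.1 hz).2, rmul, smul_smul, ← AddChar.map_add_eq_mul]; simp

theorem P_mem (hx : f.Q x = 0) (u : V) (v : M) : P ρ ψ x u v ∈ W ρ ψ x u := fun _ hw => E_P hx hw v

theorem P_E (hx : f.Q x = 0) (hw : f.B x w = 0) (v : M) : P ρ ψ x u (ρ (E f x w) v) = ψ (f.B u w) • P ρ ψ x u v := by
  rw [← E_P hx hw]
  simp only [P, LinearMap.smul_apply, LinearMap.sum_apply, map_smul, map_sum]
  refine congrArg _ (sum_congr rfl fun z hz => ?_)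
  rw [← rmul, ← rmul, ← E_add hx hw (mem_filter.1 hz).2, ← E_add hx (mem_filter.1 hz).2 hw, add_comm]

theorem P_of_mem (hv : v ∈ W ρ ψ x u) : P ρ ψ x u v = v := by
  have : ((#{w | f.B x w = 0} : ℕ) : ℂ) ≠ 0 := Nat.cast_ne_zero.2 (card_ne_zero_of_mem (a := 0) (by simp))
  simp only [P, LinearMap.smul_apply, LinearMap.sum_apply]
  rw [sum_congr rfl (g := fun _ => v) fun z hz => by
    rw [hv z (mem_filter.1 hz).2, smul_smul, ← AddChar.map_add_eq_mul]; simp, sum_const, ← Nat.cast_smul_eq_nsmul ℂ, inv_smul_smul₀ this]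

theorem P_map (hx : f.Q x = 0) (g : f.Eich) (u : V) (v : M) : ρ g (P ρ ψ x u v) = P ρ ψ (g ▹ x) (g ▹ u) (ρ g v) := by
  simp only [P, LinearMap.smul_apply, LinearMap.sum_apply, map_smul, map_sum]
  congr 1
  · congr 2
    exact card_bijective _ g.1.1.bijective (by simp)
  · refine sum_bijective _ g.1.1.bijective (by simp) fun z hz => ?_
    rw [f.B_coe_map, ← E_conj g hx (mem_filter.1 hz).2, ← rmul, ← rmul, inv_mul_cancel_right]

theorem P_smul (hx : f.Q x = 0) {t : F} (t0 : t ≠ 0) (u : V) (v : M) : P ρ ψ (t • x) (t • u) v = P ρ ψ x u v := by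
  simp only [P, LinearMap.smul_apply, LinearMap.sum_apply]
  congr 1
  · simp [t0]
  · refine sum_bijective _ (MulAction.bijective (Units.mk0 t t0)) (by simp [t0, Units.smul_def]) fun z hz => ?_
    rw [E_smul t hx (by simpa [t0] using hz)]; simp [Units.smul_def]

theorem P_congr {u' : V} (h : ∀ w, f.B x w = 0 → f.B u' w = f.B u w) : P ρ ψ x u' v = P ρ ψ x u v := by
  simp only [P, LinearMap.smul_apply, LinearMap.sum_apply]
  exact congrArg _ (sum_congr rfl fun z hz => by rw [h z (mem_filter.1 hz).2])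

variable (hψ : ψ ≠ 0)
include hψ

omit [Fintype V] in
theorem zero_of {k k' : F} (hk : k ≠ k') (h : ∀ t : F, ψ (t * k) • v = ψ (t * k') • v) : v = 0 := by
  obtain ⟨t, ht⟩ := psi_ne hψ (sub_ne_zero.2 hk)
  refine eq_zero_of (c := ψ (t * (k - k'))) ?_ ht
  have := congrArg (ψ (-(t * k')) • ·) (h t)
  simp only [smul_smul, ← AddChar.map_add_eq_mul] at this
  rw [show t * (k - k') = -(t * k') + t * k by ring, this]; simp

theorem kill (hx : f.Q x = 0) (hw : f.B x w = 0) {k : F} (h : ∀ t : F, ρ (E f x (t • w)) v = ψ (t * k) • v) (hk : f.B u w ≠ k) :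
    P ρ ψ x u v = 0 := zero_of hψ hk fun t => by
  have := P_E (ρ := ρ) (ψ := ψ) (u := u) hx (w := t • w) (by simp [hw]) v
  rw [h, map_smul] at this
  simpa using this.symm

theorem sum_P (hf : f.Nondeg) (h : f.IsHyp x y) (v : M) : ∑ u with f.B x u = 0 ∧ f.B y u = 0, P ρ ψ x u v = v := by
  classical
  have := Fintype.ofFinite (Up f x y)
  have h1 := sum_pj (ρ := ρ) (x := X h) (PP hf h hψ) v
  rw [sum_subtype (p := (· ∈ Up f x y)) _ fun u => by simp [mem_perp_span_pair], ← h1]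
  refine sum_congr rfl fun u _ => ?_
  have h2 : ∀ u : Up f x y, pj ρ (X h) ((PP hf h hψ).e u) v ∈ W ρ ψ x u := fun u => (W_Ws h (Bx u)).2 (pj_mem _ _ _ _)
  rw [h1, ← h1, map_sum, sum_eq_single u (fun u' _ e => ?_) (by simp), P_of_mem (h2 u), h1]
  obtain ⟨w, hw⟩ := (h.nondeg_perp hf).exists_B_ne_zero (sub_ne_zero.2 e)
  exact kill hψ h.Q_x (Bx w) (k := f.B u' w) (fun t => by rw [h2 u' _ (by simp [Bx w])]; simp) fun e => hw (by simp [e])

theorem ext_P (hf : f.Nondeg) (h : f.IsHyp x y) (H : ∀ u, f.B x u = 0 → f.B y u = 0 → P ρ ψ x u v = 0) : v = 0 := by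
  rw [← sum_P (ρ := ρ) hψ hf h v]
  exact sum_eq_zero fun u hu => H u (mem_filter.1 hu).2.1 (mem_filter.1 hu).2.2

end CA.DegO
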