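/-
Character degrees of odd orthogonal groups: small modules and two independent vectors.
-/
import Cfsg.Agent.Lib.Lin.H25Deg1

set_option autoImplicit false
set_option linter.unusedSectionVars false

namespace CA.DegO

open Cfsg CA.Wt CA.DegSp CA.CForm CA.CForm.Form CA.AutForm CChar.CharFun CChar.CharKer CChar.CharRep Finset Module

universe u
variable {F : Type*} [Field F] [Fintype F] [DecidableEq F] {V : Type u} [AddCommGroup V] [Module F V] {f : Form (Kind.orth F) V}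
  [FiniteDimensional F V] {M : Type*} [AddCommGroup M] [Module ℂ M] (ρ : Representation ℂ f.Eich M) (ψ : AddChar F ℂ)

/-- small modules -/
structure Sm : Prop where
  t0 : ∀ x u, f.Q x = 0 → x ≠ 0 → f.B x u = 0 → f.Q u ≠ 0 → ∀ v ∈ W ρ ψ x u, v = 0
  t1 : ∀ x u, LP f x u → ∃ v ∈ W ρ ψ x u, v ≠ 0 ∧ ∀ v' ∈ W ρ ψ x u, ∃ c : ℂ, v' = c • v
  t2 : ∀ x u, LP f x u → ∀ g : f.Eich, g ▹ x = x → g ▹ u = u → ∀ v ∈ W ρ ψ x u, ρ g v = v

variable (f) in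
/-- two orthogonal hyperbolic pairs -/
structure H4 (x y a b : V) : Prop where
  h : f.IsHyp x y
  k : f.IsHyp a b
  xa : f.B x a = 0
  xb : f.B x b = 0
  ya : f.B y a = 0
  yb : f.B y b = 0

variable {ρ ψ} {x y u w a b : V} {v : M}

theorem hsymm (h : f.IsHyp x y) : f.IsHyp y x := ⟨h.Q_y, h.Q_x, by rw [orth_symm, h.B_xy]⟩

theorem H4.sw (H : H4 f x y a b) : H4 f a b x y :=
  ⟨H.k, H.h, f.eq_zero_symm H.xa, f.eq_zero_symm H.ya, f.eq_zero_symm H.xb, f.eq_zero_symm H.yb⟩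
theorem H4.s1 (H : H4 f x y a b) : H4 f y x a b := ⟨hsymm H.h, H.k, H.ya, H.yb, H.xa, H.xb⟩
theorem H4.s2 (H : H4 f x y a b) : H4 f x y b a := ⟨H.h, hsymm H.k, H.xb, H.xa, H.yb, H.ya⟩

theorem H4.tab (H : H4 f x y a b) : (f.Q x = 0 ∧ f.Q y = 0 ∧ f.Q a = 0 ∧ f.Q b = 0) ∧ (f.B x x = 0 ∧ f.B x y = 1 ∧ f.B x a = 0 ∧ f.B x b = 0) ∧
    (f.B y x = 1 ∧ f.B y y = 0 ∧ f.B y a = 0 ∧ f.B y b = 0) ∧ (f.B a x = 0 ∧ f.B a y = 0 ∧ f.B a a = 0 ∧ f.B a b = 1) ∧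
    (f.B b x = 0 ∧ f.B b y = 0 ∧ f.B b a = 1 ∧ f.B b b = 0) :=
  ⟨⟨H.h.Q_x, H.h.Q_y, H.k.Q_x, H.k.Q_y⟩, ⟨H.h.B_xx, H.h.B_xy, H.xa, H.xb⟩, ⟨(hsymm H.h).B_xy, H.h.B_yy, H.ya, H.yb⟩,
    ⟨H.sw.xa, H.sw.xb, H.k.B_xx, H.k.B_xy⟩, H.sw.ya, H.sw.yb, (hsymm H.k).B_xy, H.k.B_yy⟩

theorem lp_of (hx : f.Q x = 0) (hu : f.Q u = 0) (h : f.B x u = 0) (x0 : x ≠ 0) (h1 : f.B x w = 0) (h2 : f.B u w ≠ 0) : LP f x u :=
  ⟨hx, hu, h, x0, fun e => by
    obtain ⟨t, rfl⟩ := Submodule.mem_span_singleton.1 e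
    simp [h1] at h2⟩

theorem H4.lp (H : H4 f x y a b) {c : F} (c0 : c ≠ 0) : LP f x (c • a) :=
  lp_of H.h.Q_x (f.Q_smul_of_Q H.k.Q_x _) (by simp [H.xa]) H.h.x_ne_zero H.xb (by simp [c0, H.k.B_xy])

variable [Fintype V]

variable (f x y a b) in
/-- the complement of two hyperbolic pairs -/
def S4 : Finset V := {w | f.B x w = 0 ∧ f.B y w = 0 ∧ f.B a w = 0 ∧ f.B b w = 0}

variable (f x y a b) in
/-- sizes of its level sets -/
def N4 (c : F) : ℕ := #{w ∈ S4 f x y a b | f.Q w = c}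

theorem mem_S4 : w ∈ S4 f x y a b ↔ f.B x w = 0 ∧ f.B y w = 0 ∧ f.B a w = 0 ∧ f.B b w = 0 := by simp [S4]

variable (hψ : ψ ≠ 0) (hf : f.Nondeg) (hS : Sm ρ ψ) (H : H4 f x y a b)
include hψ hf hS H

theorem A2 {c : F} (c0 : c ≠ 0) (hv : v ∈ W ρ ψ x (c • a)) :
    ∑ w ∈ S4 f x y a b, ρ (E f x w) (P ρ ψ b (-c • y) v) = v := by
  obtain ⟨⟨qx, qy, qa, qb⟩, ⟨xx, xy, xa, xb⟩, ⟨yx, yy, ya, yb⟩, ⟨ax, ay, aa, ab⟩, bx, by', ba, bb⟩ := H.tab
  refine Eq.trans ?_ (sum_P (ρ := ρ) hψ hf (hsymm H.k) v)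
  have e1 : ∀ w ∈ S4 f x y a b, E f x w ▹ (-c • y) = -c • (y + w - f.Q w • x) := fun w hw => by
    obtain ⟨w1, w2, w3, w4⟩ := mem_S4.1 hw
    rw [map_smul, E_apply qx w1, xy, f.eq_zero_symm w2]; simp
  refine sum_of_injOn (fun w => -c • (y + w - f.Q w • x)) (fun w hw w' hw' e => ?_) (fun w hw => ?_) (fun u hu hn => ?_) fun w hw => ?_
  · have e := smul_right_injective _ (neg_ne_zero.2 c0) e
    have e' := congrArg (f.B y) e
    simp only [map_sub, map_add, map_smul, yy, yx, (mem_S4.1 hw).2.1, (mem_S4.1 hw').2.1, smul_eq_mul, mul_one, sub_right_inj] at e'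
    simpa [e'] using e
  · obtain ⟨w1, w2, w3, w4⟩ := mem_S4.1 hw
    simp [*]
  · obtain ⟨u1, u2⟩ := (mem_filter.1 hu).2
    by_cases e : f.B u x = -c
    swap
    · refine kill hψ qb bx (fun t => ?_) e
      rw [E_swap qb (f.Q_smul_of_Q qx t) (by simp [bx]), E_smul t qx (by simp [xb]), hv _ (by simp [xb])]
      simp [ab, mul_comm]
    by_cases e' : f.Q u = 0
    swap
    · exact hS.t0 b u qb H.k.y_ne_zero u1 e' _ (P_mem qb _ _)
    have e2 : f.B x u = -c := by rw [orth_symm, e]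
    have e3 : f.B u y = f.B y u := orth_symm _ _ _
    refine (hn ⟨-c⁻¹ • (u - f.B y u • x + c • y), mem_S4.2 (by simp [*]), ?_⟩).elim
    have : f.Q (-c⁻¹ • (u - f.B y u • x + c • y)) = c⁻¹ * f.B y u := by
      simp only [orth_Q_smul, orth_Q_add, orth_Q_sub, B_sub_left, B_smul_left, map_smul, smul_eq_mul, Kind.orth_σ, *]
      field_simp; ring
    simp only [this]
    match_scalars <;> field_simp <;> ring
  · obtain ⟨w1, w2, w3, w4⟩ := mem_S4.1 hw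
    rw [P_map qb, e1 w hw, E_fix qx w1 xb (f.eq_zero_symm w4), hv w w1]
    simp [w3]

theorem A2' {c : F} (c0 : c ≠ 0) (hv : v ∈ W ρ ψ x (c • a)) (h : P ρ ψ b (-c • y) v = 0) : v = 0 := by
  rw [← A2 hψ hf hS H c0 hv, h]; simp

theorem A3 {c e : F} (c0 : c ≠ 0) (e0 : e ≠ 0) (hv : v ∈ W ρ ψ x (c • a)) : ∃ g : f.Eich,
    (N4 f x y a b (-e / c) : ℂ) • ρ g (P ρ ψ b (-c • y) v) ∈ W ρ ψ b (-e • x) ∧
      P ρ ψ y (e • a) v = P ρ ψ y (e • a) ((N4 f x y a b (-e / c) : ℂ) • ρ g (P ρ ψ b (-c • y) v)) := by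
  obtain ⟨⟨qx, qy, qa, qb⟩, ⟨xx, xy, xa, xb⟩, ⟨yx, yy, ya, yb⟩, ⟨ax, ay, aa, ab⟩, bx, by', ba, bb⟩ := H.tab
  have h1 := congrArg (P ρ ψ y (e • a)) (A2 hψ hf hS H c0 hv)
  have hξ := P_mem (ρ := ρ) (ψ := ψ) qb (-c • y) v
  generalize P ρ ψ b (-c • y) v = ξ at *
  have e1 : ∀ w ∈ S4 f x y a b, E f x w ▹ (-c • y) = -c • (y + w - f.Q w • x) ∧ E f x w ▹ b = b := fun w hw => by
    obtain ⟨w1, w2, w3, w4⟩ := mem_S4.1 hw
    refine ⟨?_, E_fix qx w1 xb (f.eq_zero_symm w4)⟩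
    rw [map_smul, E_apply qx w1, xy, f.eq_zero_symm w2]; simp
  rw [map_sum, ← sum_filter_add_sum_filter_not _ (fun w => f.Q w = -e / c), sum_eq_zero (s := filter (fun w => ¬_) _) fun w hw => ?_, add_zero] at h1
  · let g : V → f.Eich := fun w => E f y (-(c / e) • w) * E f x w
    have e2 : ∀ w ∈ S4 f x y a b, f.Q w = -e / c → g w ▹ b = b ∧ g w ▹ (-c • y) = -e • x := fun w hw hq => by
      obtain ⟨w1, w2, w3, w4⟩ := mem_S4.1 hw
      have : f.B y (-(c / e) • w) = 0 := by simp [w2]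
      change E f y _ ▹ (E f x w ▹ b) = b ∧ E f y _ ▹ (E f x w ▹ _) = _
      rw [(e1 w hw).1, (e1 w hw).2]
      refine ⟨E_fix qy this yb (by simp [f.eq_zero_symm w4]), ?_⟩
      rw [E_apply qy this]
      simp only [orth_Q_smul, B_smul_left, map_smul, map_sub, map_add, smul_eq_mul, Kind.orth_σ, orth_B_self _ w, f.eq_zero_symm w1,
        f.eq_zero_symm w2, *]
      match_scalars <;> field_simp <;> ring
    by_cases hn : ∃ w ∈ S4 f x y a b, f.Q w = -e / c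
    · obtain ⟨w0, hw0, hq0⟩ := hn
      refine ⟨g w0, Submodule.smul_mem _ _ (by simpa only [e2 w0 hw0 hq0] using W_map qb (g w0) hξ), ?_⟩
      rw [← h1, map_smul, N4, Nat.cast_smul_eq_nsmul, ← sum_const]
      refine sum_congr rfl fun w hw => ?_
      obtain ⟨hw, hq⟩ := mem_filter.1 hw
      have e3 := hS.t2 b _ (H.sw.s1.s2.lp (neg_ne_zero.2 c0)) ((g w)⁻¹ * g w0) (by
        change (g w).1⁻¹.1 (g w0 ▹ b) = b
        rw [(e2 w0 hw0 hq0).1, ← (e2 w hw hq).1, isom_inv_apply_apply, (e2 w hw hq).1]) (by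
        change (g w).1⁻¹.1 (g w0 ▹ _) = _
        rw [(e2 w0 hw0 hq0).2, ← (e2 w hw hq).2, isom_inv_apply_apply]) ξ hξ
      rw [← mul_inv_cancel_left (g w) (g w0), rmul, e3, rmul, P_E qy (by simp [(mem_S4.1 hw).2.1])]
      simp [(mem_S4.1 hw).2.2.1]
    · have : {w ∈ S4 f x y a b | f.Q w = -e / c} = ∅ := filter_eq_empty_iff.2 fun w hw hq => hn ⟨w, hw, hq⟩
      rw [this] at h1
      exact ⟨1, by simp [N4, this], by simpa [N4, this] using h1.symm⟩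
  · obtain ⟨hw, hq⟩ := mem_filter.1 hw
    obtain ⟨w1, w2, w3, w4⟩ := mem_S4.1 hw
    have h2 := W_map qb (E f x w) hξ
    rw [(e1 w hw).1, (e1 w hw).2] at h2
    refine kill hψ qy yb (k := -(c * f.Q w)) (fun t => ?_) fun h => hq ?_
    · rw [E_swap qy (f.Q_smul_of_Q qb t) (by simp [yb]), E_smul t qb (by simp [by']), h2 _ (by simp [by'])]
      simp [yy, xy, f.eq_zero_symm w2, mul_comm, mul_left_comm]
    · simp only [B_smul_left, ab, Kind.orth_σ, mul_one] at h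
      rw [h]; field_simp

theorem A1 {c : F} (c0 : c ≠ 0) (e : F) (hv : v ∈ W ρ ψ x (c • a)) : P ρ ψ y (e • a) (P ρ ψ a 0 v) = P ρ ψ y (e • a) v := by
  obtain ⟨⟨qx, qy, qa, qb⟩, ⟨xx, xy, xa, xb⟩, ⟨yx, yy, ya, yb⟩, ⟨ax, ay, aa, ab⟩, bx, by', ba, bb⟩ := H.tab
  have : ((#{w | f.B a w = 0} : ℕ) : ℂ) ≠ 0 := Nat.cast_ne_zero.2 (card_ne_zero_of_mem (a := 0) (by simp))
  rw [P.eq_1 ρ ψ a]
  simp only [LinearMap.smul_apply, LinearMap.sum_apply, map_smul, map_sum]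
  rw [sum_congr rfl (g := fun _ => P ρ ψ y (e • a) v) fun z hz => ?_, sum_const, ← Nat.cast_smul_eq_nsmul ℂ, inv_smul_smul₀ this]
  have h0 := (mem_filter.1 hz).2
  have h1 : f.B a (z - f.B x z • y) = 0 := by simp [h0, ay]
  rw [← add_sub_cancel (f.B x z • y) z, E_add qa (by simp [ay]) h1, rmul, hS.t2 x _ (H.lp c0) _ (E_fix qa h1 ax (by
    rw [orth_symm]; simp [xy])) (E_fix qa h1 (by simp [aa]) (by simp [f.eq_zero_symm h0, ya])) v hv,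
    E_swap qa (f.Q_smul_of_Q qy _) (by simp [ay]), E_smul _ qy (by simp [ya]), P_E qy (by simp [ya])]
  simp [aa]

end CA.DegO
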