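/-
Character degrees of odd orthogonal groups: independence and inheritance.
-/
import Cfsg.Agent.Lib.Lin.H25Deg2

set_option autoImplicit false
set_option linter.unusedSectionVars false

namespace CA.DegO

open Cfsg CA.Wt CA.DegSp CA.CForm CA.CForm.Form CA.AutForm CChar.CharFun CChar.CharKer CChar.CharRep Finset Module

universe u
variable {F : Type*} [Field F] [Fintype F] [DecidableEq F]

theorem lev_ne {δ : F} (hδ : ¬IsSquare δ) (m : ℕ) : ∀ {V : Type u} [AddCommGroup V] [Module F V] [FiniteDimensional F V]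
    {f : Form (Kind.orth F) V}, f.Nondeg → finrank F V = 2 * m + 1 →
    ∃ γ ≠ 0, Nat.card {v // f.Q v = γ} ≠ Nat.card {v // f.Q v = δ * γ} := by
  induction m with
  | zero =>
    intro V _ _ _ f hf h
    have : Finite V := Module.finite_of_finite F
    obtain ⟨v, v0, hv⟩ := finrank_eq_one_iff'.1 h
    have q0 : f.Q v ≠ 0 := fun e => v0 (hf v fun w => by obtain ⟨c, rfl⟩ := hv w; simp [orth_B_self, e])
    have : Nonempty {w // f.Q w = f.Q v} := ⟨⟨v, rfl⟩⟩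
    have : IsEmpty {w // f.Q w = δ * f.Q v} := ⟨fun ⟨w, hw⟩ => by
      obtain ⟨c, rfl⟩ := hv w
      rw [orth_Q_smul] at hw
      exact hδ ⟨c, by rw [← sq, mul_right_cancel₀ q0 hw]⟩⟩
    exact ⟨_, q0, by rw [Nat.card_of_isEmpty (α := {w // f.Q w = δ * f.Q v})]; exact Nat.card_pos.ne'⟩
  | succ m ih =>
    intro V _ _ _ f hf h
    obtain ⟨x, x0, hx⟩ := exists_singular' f (by omega)
    obtain ⟨y, hy⟩ := hf.exists_isHyp hx x0
    obtain ⟨γ, g0, hg⟩ := ih (hy.nondeg_perp hf) (by have := hy.finrank_perp; omega)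
    refine ⟨γ, g0, fun e => hg ?_⟩
    rwa [hy.card_Q_eq hf (c := γ) ⟨γ, rfl⟩ (r := 2 * m + 1) (by omega), hy.card_Q_eq hf (c := δ * γ) ⟨δ * γ, rfl⟩ (r := 2 * m + 1) (by omega), add_left_inj,
      mul_right_inj' Nat.card_pos.ne'] at e

variable {V : Type u} [AddCommGroup V] [Module F V] {f : Form (Kind.orth F) V}
  [FiniteDimensional F V] {M : Type*} [AddCommGroup M] [Module ℂ M] {ρ : Representation ℂ f.Eich M} {ψ : AddChar F ℂ}
  {x y u w a b : V} {v : M}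

theorem H4.res (H : H4 f x y a b) : (f.restrict (Up f x y)).IsHyp ⟨a, mem_Up H.xa H.ya⟩ ⟨b, mem_Up H.xb H.yb⟩ := ⟨H.k.1, H.k.2, H.k.3⟩

theorem ι_apply (h : f.IsHyp x y) (g : (f.restrict (Up f x y)).Eich) (w : Up f x y) : ι h g ▹ w.1 = (g ▹ w : Up f x y) :=
  f.extRight_apply_right _ _ w

variable [Fintype V]

theorem N4_ne (hf : f.Nondeg) (H : H4 f x y a b) {δ : F} (hδ : ¬IsSquare δ) {m : ℕ} (hm : finrank F V = 2 * m + 5) :
    ∃ γ ≠ 0, N4 f x y a b γ ≠ N4 f x y a b (δ * γ) := by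
  have key : ∀ c, N4 f x y a b c = Nat.card {w // ((f.restrict (Up f x y)).restrict (Up _ ⟨a, mem_Up H.xa H.ya⟩ ⟨b, mem_Up H.xb H.yb⟩)).Q w = c} :=
    fun c => by
    rw [N4, ← Nat.subtype_card _ fun _ => Iff.rfl]
    exact Nat.card_congr ⟨fun w => have h := mem_S4.1 (mem_filter.1 w.2).1
      ⟨⟨⟨w.1, mem_Up h.1 h.2.1⟩, mem_Up h.2.2.1 h.2.2.2⟩, (mem_filter.1 w.2).2⟩,
      fun w => ⟨w.1.1.1, mem_filter.2 ⟨mem_S4.2 ⟨Bx w.1.1, By w.1.1, Bx (f := f.restrict (Up f x y)) w.1, By (f := f.restrict (Up f x y)) w.1⟩, w.2⟩⟩, fun _ => rfl, fun _ => rfl⟩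
  simp only [key]
  exact lev_ne hδ m (H.res.nondeg_perp (H.h.nondeg_perp hf)) (by
    have h1 : finrank F (Up (f.restrict (Up f x y)) ⟨a, mem_Up H.xa H.ya⟩ ⟨b, mem_Up H.xb H.yb⟩) + 2 = _ := H.res.finrank_perp
    have h2 : finrank F (Up f x y) + 2 = _ := H.h.finrank_perp
    omega)

theorem N4_sq {t : F} (t0 : t ≠ 0) (c : F) : N4 f x y a b (t ^ 2 * c) = N4 f x y a b c :=
  (card_bijective _ (MulAction.bijective (Units.mk0 t t0)) (by simp [mem_S4, t0, Units.smul_def, orth_Q_smul])).symm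

theorem nat_eq {A B : ℕ} {g : f.Eich} (v0 : v ≠ 0) (h : (A : ℂ) • v = (B : ℂ) • ρ g v) : A = B := by
  have : ∀ k : ℕ, (A : ℂ) ^ k • v = (B : ℂ) ^ k • ρ (g ^ k) v := fun k => by
    induction k with
    | zero => simp
    | succ k ih => rw [pow_succ', mul_smul, ih, smul_comm, ← map_smul, h, map_smul, ← rmul, smul_smul, ← pow_succ, ← pow_succ]
  have h1 := this (orderOf g)
  rw [pow_orderOf_eq_one, map_one, End.one_apply] at h1
  exact Nat.pow_left_injective (orderOf_pos g).ne' (by exact_mod_cast smul_left_injective ℂ v0 h1)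

variable (hψ : ψ ≠ 0) (hf : f.Nondeg) (hS : Sm ρ ψ)
include hψ hf hS

theorem indep (H : H4 f x y a b) {c δ : F} (c0 : c ≠ 0) (hδ : ¬IsSquare δ) {m : ℕ} (hm : finrank F V = 2 * m + 5) {v' : M}
    (hv : v ∈ W ρ ψ x (c • a)) (hv' : v' ∈ W ρ ψ x ((δ * c) • a)) (v0 : v ≠ 0) (v0' : v' ≠ 0) {r s : ℂ}
    (h : ∀ e : F, e ≠ 0 → P ρ ψ y (e • a) (r • P ρ ψ a 0 v + s • P ρ ψ a 0 v') = 0) : r = 0 ∧ s = 0 := by
  have d0 : δ ≠ 0 := by rintro rfl; exact hδ IsSquare.zero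
  have c1 := mul_ne_zero d0 c0
  obtain ⟨γ, g0, hg⟩ := N4_ne hf H hδ hm
  have x0 : P ρ ψ b (-c • y) v ≠ 0 := mt (A2' hψ hf hS H c0 hv) v0
  have x1 : P ρ ψ b (-(δ * c) • y) v' ≠ 0 := mt (A2' hψ hf hS H c1 hv') v0'
  have key : ∀ e : F, e ≠ 0 → ∃ g : f.Eich, (N4 f x y a b (-e / c) : ℂ) • ρ g (r • P ρ ψ b (-c • y) v) =
      -(N4 f x y a b (-e / (δ * c)) : ℂ) • s • P ρ ψ b (-(δ * c) • y) v' := fun e e0 => by
    obtain ⟨g, h1, h2⟩ := A3 hψ hf hS H c0 e0 hv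
    obtain ⟨g', h1', h2'⟩ := A3 hψ hf hS H c1 e0 hv'
    have := h e e0
    rw [map_add, map_smul, map_smul, A1 hψ hf hS H c0 e hv, A1 hψ hf hS H c1 e hv', h2, h2', ← map_smul (P ρ ψ y (e • a)), ← map_smul (P ρ ψ y (e • a)),
      ← map_add] at this
    have := congrArg (ρ g'⁻¹) (A2' hψ hf hS H.sw.s1 (neg_ne_zero.2 e0) (add_mem (Submodule.smul_mem _ r h1) (Submodule.smul_mem _ s h1'))
      (by rwa [neg_neg]))
    refine ⟨g'⁻¹ * g, ?_⟩
    simp only [map_add, map_smul, ← rmul, inv_mul_cancel, map_one, End.one_apply, map_zero] at this ⊢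
    linear_combination (norm := module) this
  obtain ⟨g, h1⟩ := key (-(c * (δ * γ))) (by simp [*])
  obtain ⟨g', h2⟩ := key (-(c * (δ ^ 2 * γ))) (by simp [*])
  rw [show - -(c * (δ * γ)) / c = δ * γ by field_simp, show - -(c * (δ * γ)) / (δ * c) = γ by field_simp] at h1
  rw [show - -(c * (δ ^ 2 * γ)) / c = δ ^ 2 * γ by field_simp, show - -(c * (δ ^ 2 * γ)) / (δ * c) = δ * γ by field_simp, N4_sq d0] at h2
  generalize N4 f x y a b γ = A, N4 f x y a b (δ * γ) = B, P ρ ψ b (-c • y) v = ξ, P ρ ψ b (-(δ * c) • y) v' = ξ' at *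
  have r0 : r = 0 := by_contra fun r0 => hg (Nat.pow_left_injective two_ne_zero (nat_eq (ρ := ρ) (g := g * g'⁻¹) (v := ρ g' (r • ξ)) (fun e => by
    have := congrArg (ρ g'⁻¹) e
    rw [← rmul, inv_mul_cancel, map_one, End.one_apply, map_zero] at this
    exact smul_ne_zero r0 x0 this) (by
      rw [← rmul, inv_mul_cancel_right]
      push_cast
      linear_combination (norm := module) (A : ℂ) • h2 - (B : ℂ) • h1)))
  refine ⟨r0, by_contra fun s0 => hg ?_⟩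
  simp only [r0, zero_smul, map_zero, smul_zero, neg_smul, zero_eq_neg, smul_eq_zero, s0, x1, or_false, Nat.cast_eq_zero] at h1 h2
  rw [h1, h2]

section
variable (h : f.IsHyp a b) (qx : f.Q x = 0) (x0 : x ≠ 0) (ax : f.B a x = 0) (bx : f.B b x = 0) (au : f.B a u = 0) (bu : f.B b u = 0)
  (xu : f.B x u = 0)
include h qx x0 ax bx

omit hψ hS [Fintype V] in
theorem exists_H4 : ∃ y, H4 f x y a b := by
  obtain ⟨y, h1, h2, h3⟩ := hf.exists_partner_perp (H := Submodule.span F {a, b}) qx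
    (fun e => x0 (Submodule.disjoint_def.1 h.isCompl.disjoint _ e (mem_Up ax bx))) (mem_Up ax bx)
  exact ⟨y, ⟨qx, h2, h3⟩, h, f.eq_zero_symm ax, f.eq_zero_symm bx, f.eq_zero_symm (Bx ⟨y, h1⟩), f.eq_zero_symm (By ⟨y, h1⟩)⟩

include au bu xu

omit hS in
theorem C1 (h1 : v ∈ W ρ ψ a 0) (h2 : ∀ w, f.B a w = 0 → f.B b w = 0 → f.B x w = 0 → ρ (E f x w) v = ψ (f.B u w) • v)
    (h3 : ∀ t : F, P ρ ψ x (u + t • a) v = 0) : v = 0 := by
  obtain ⟨y, H⟩ := exists_H4 hf h qx x0 ax bx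
  obtain ⟨⟨qx, qy, qa, qb⟩, ⟨xx, xy, xa, xb⟩, ⟨yx, yy, ya, yb⟩, ⟨ax, ay, aa, ab⟩, bx, by', ba, bb⟩ := H.tab
  refine ext_P (ρ := ρ) hψ hf H.h fun z z1 z2 => ?_
  by_cases e : f.B z a = 0
  swap
  · refine kill hψ qx xa (k := 0) (fun t => ?_) e
    rw [E_swap qx (f.Q_smul_of_Q qa t) (by simp [xa]), E_smul t qa (by simp [ax]), h1 _ (by simp [ax])]; simp
  by_cases hc : ∀ w, f.B x w = 0 → f.B z w = f.B (u + f.B z b • a) w
  · rw [P_congr hc, h3]
  push Not at hc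
  obtain ⟨w, w1, w2⟩ := hc
  refine kill hψ qx (w := w - f.B b w • a - f.B a w • b) (by simp [*]) (k := f.B u w) (fun t => ?_) fun e' => w2 ?_
  · rw [h2 _ (by simp [*]) (by simp [*]) (by simp [*])]
    simp [f.eq_zero_symm au, f.eq_zero_symm bu]
  · simp only [map_sub, map_smul, e, smul_eq_mul, B_add_left, B_smul_left, Kind.orth_σ] at e' ⊢
    linear_combination e'

variable (aw : f.B a w = 0) (xw : f.B x w = 0) (uw : f.B u w = 1)
include aw xw uw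

omit hS in
theorem C2 (h1 : v ∈ W ρ ψ a 0) (h2 : ∀ w, f.B a w = 0 → f.B b w = 0 → f.B x w = 0 → ρ (E f x w) v = ψ (f.B u w) • v)
    (h3 : P ρ ψ x u v = 0) : v = 0 := C1 hψ hf h qx x0 ax bx au bu xu h1 h2 fun t => by
  have e : f.B a (-t • w) = 0 := by simp [aw]
  have := P_map (ρ := ρ) (ψ := ψ) qx (E f a (-t • w)) u v
  rw [h3, map_zero, h1 _ e, E_fix h.Q_x e ax (by simp [f.eq_zero_symm xw]), E_apply h.Q_x e] at this
  simpa [au, orth_symm f u w, uw] using this.symm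

theorem C3 (qu : f.Q u = 0) (hv : v ∈ W ρ ψ x u) (h3 : P ρ ψ a 0 v = 0) : v = 0 := by
  obtain ⟨y, H⟩ := exists_H4 hf h qx x0 ax bx
  obtain ⟨⟨qx, qy, qa, qb⟩, ⟨xx, xy, xa, xb⟩, ⟨yx, yy, ya, yb⟩, ⟨ax, ay, aa, ab⟩, bx, by', ba, bb⟩ := H.tab
  have lp : LP f x u := lp_of qx qu xu x0 xw (by simp [uw])
  have e : ∀ t : F, f.B a (t • w) = 0 := fun t => by simp [aw]
  have wu : f.B w u = 1 := by rw [orth_symm, uw]
  have h4 : ∑ t : F, ρ (E f a (t • w)) v = 0 := ext_P (ρ := ρ) hψ hf h fun z z1 z2 => by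
    simp only [map_sum, P_E qa (e _), ← sum_smul, map_smul, smul_eq_mul]
    by_cases e1 : f.B z w = 0
    swap
    · rw [show ∑ t : F, ψ (t * f.B z w) = 0 from (Equiv.sum_comp (Equiv.mulRight₀ _ e1) ψ).trans (AddChar.sum_eq_zero_iff_ne_zero.2 hψ),
        zero_smul]
    refine smul_eq_zero_of_right _ ?_
    by_cases hc : ∀ w', f.B a w' = 0 → f.B x w' = 0 → f.B z w' = 0
    · rw [P_congr (u := f.B z y • x) fun w' hw' => by
        have := hc (w' - f.B x w' • y) (by simp [*]) (by simp [*])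
        simp only [map_sub, map_smul, smul_eq_mul, B_smul_left, Kind.orth_σ] at this ⊢
        linear_combination this]
      by_cases e2 : f.B z y = 0
      · rw [e2, zero_smul, h3]
      refine zero_of hψ (k := 1) (k' := 0) one_ne_zero fun t => ?_
      have e3 : f.B x (t • w) = 0 := by simp [xw]
      have k1 := E_fix qx e3 xa (by simp [f.eq_zero_symm aw])
      have k2 : E f x (t • w) ▹ (f.B z y • x) = f.B z y • x := E_fix qx e3 (by simp [xx]) (by simp [f.eq_zero_symm xw])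
      have := P_map (ρ := ρ) (ψ := ψ) qa (E f x (t • w)) (f.B z y • x) v
      rw [hS.t2 a _ (H.sw.lp e2) _ k1 k2 _ (P_mem qa _ _), k1, k2, hv _ e3, map_smul] at this
      simpa [uw] using this.symm
    push Not at hc
    obtain ⟨w', w1, w2, w3⟩ := hc
    refine kill hψ qa (w := w' - f.B u w' • w) (by simp [*]) (k := 0) (fun t => ?_) (by simpa [e1])
    have e3 : f.B a (t • (w' - f.B u w' • w)) = 0 := by simp [*]
    rw [hS.t2 x u lp _ (E_fix qa e3 ax (by rw [orth_symm]; simp [*])) (E_fix qa e3 au (by rw [orth_symm]; simp [*])) v hv]; simp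
  have := congrArg (P ρ ψ x u) h4
  rw [map_sum, sum_eq_single 0 (fun t _ t0 => ?_) (by simp), zero_smul, E_zero, map_one, End.one_apply, P_of_mem hv, map_zero] at this
  · exact this
  have h5 := W_map qx (E f a (t • w)) hv
  rw [E_fix qa (e t) ax (by simp [f.eq_zero_symm xw]), E_apply qa (e t)] at h5
  refine kill hψ qx xb (k := -t) (fun s => ?_) (by simpa [f.eq_zero_symm bu])
  rw [h5 _ (by simp [xb])]
  simp [au, wu, ab, f.eq_zero_symm bu, mul_comm]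

end

theorem Sm.sub (h : f.IsHyp a b) {T : Submodule ℂ M} (hT : ∀ v, v ∈ T ↔ v ∈ W ρ ψ a 0) {σ : Representation ℂ (f.restrict (Up f a b)).Eich T}
    (hσ : ∀ s v, (σ s v : M) = ρ (ι h s) v) : Sm σ ψ := by
  have hU := h.nondeg_perp hf
  have mem : ∀ (x u : Up f a b) (v : T), f.Q x = 0 → (v ∈ W σ ψ x u ↔
      ∀ w, f.B a w = 0 → f.B b w = 0 → f.B x w = 0 → ρ (E f x w) v = ψ (f.B u w) • v) := fun x u v qx =>
    ⟨fun hv w h1 h2 h3 => by
      have := congrArg Subtype.val (hv ⟨w, mem_Up h1 h2⟩ h3)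
      rwa [hσ, ι_E h qx h3] at this, fun hv w hw => Subtype.ext (by rw [hσ, ι_E h qx hw]; exact hv w (Bx w) (By w) hw)⟩
  have ex : ∀ x u : Up f a b, LP (f.restrict _) x u → ∃ w : Up f a b, f.B x w = 0 ∧ f.B u w = 1 := fun x u lp => by
    obtain ⟨w, hw⟩ := hU.exists_B_eq_of_linearIndependent lp.li ![0, 1]
    exact ⟨w, hw 0, hw 1⟩
  refine ⟨fun x u qx x0 xu qu v hv => Subtype.ext (C1 hψ hf h qx (by simpa) (Bx x) (By x) (Bx u) (By u) xu ((hT _).1 v.2) ((mem x u v qx).1 hv)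
    fun t => hS.t0 x (u + t • a) qx (by simpa) (by simp [show f.B x u = 0 from xu, f.eq_zero_symm (Bx x)]) (by
      rw [f.Q_add_smul_of_Q h.Q_x]; simpa [f.eq_zero_symm (Bx u)] using qu) _ (P_mem (f := f) qx _ _)), fun x u lp => ?_, fun x u lp g g1 g2 v hv => ?_⟩
  all_goals
    obtain ⟨w, xw, uw⟩ := ex x u lp
    have x0 : x.1 ≠ 0 := by simpa using lp.a0
    have lp' : LP f x u := lp_of lp.Qa lp.Qb lp.B x0 xw (by simp [uw])
    have inj : ∀ v : T, v ∈ W σ ψ x u → P ρ ψ x u v = 0 → v = 0 := fun v hv e => Subtype.ext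
      (C2 hψ hf h lp.Qa x0 (Bx x) (By x) (Bx u) (By u) lp.B (Bx w) xw uw ((hT _).1 v.2) ((mem x u v lp.Qa).1 hv) e)
  · obtain ⟨ξ, h1, h2, h3⟩ := hS.t1 x u lp'
    let v : T := ⟨P ρ ψ a 0 ξ, (hT _).2 (P_mem h.Q_x _ _)⟩
    have hv : v ∈ W σ ψ x u := (mem x u v lp.Qa).2 fun w w1 w2 w3 => by
      change ρ _ (P ρ ψ a 0 ξ) = _ • P ρ ψ a 0 ξ
      rw [P_map h.Q_x, map_zero, E_fix lp'.Qa w3 (f.eq_zero_symm (Bx x)) (f.eq_zero_symm w1), h1 w w3, map_smul]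
    have v0 : v ≠ 0 := fun e => h2 (C3 hψ hf hS h lp.Qa x0 (Bx x) (By x) (Bx u) (By u) lp.B (Bx w) xw uw lp.Qb h1 (congrArg Subtype.val e))
    refine ⟨v, hv, v0, fun v' hv' => ?_⟩
    obtain ⟨c, hc⟩ := h3 _ (P_mem lp'.Qa u.1 v.1)
    obtain ⟨c', hc'⟩ := h3 _ (P_mem lp'.Qa u.1 v'.1)
    have c0 : c ≠ 0 := fun e => v0 (inj v hv (by rw [hc, e, zero_smul]))
    exact ⟨c' / c, sub_eq_zero.1 (inj _ (sub_mem hv' (Submodule.smul_mem _ _ hv)) (by
      rw [Submodule.coe_sub, Submodule.coe_smul, map_sub, map_smul, hc, hc', smul_smul, div_mul_cancel₀ _ c0, sub_self]))⟩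
  · have k1 : ι h g ▹ x.1 = x := by rw [ι_apply, g1]
    have k2 : ι h g ▹ u.1 = u := by rw [ι_apply, g2]
    refine sub_eq_zero.1 (inj _ (sub_mem (by simpa only [g1, g2] using W_map lp.Qa g hv) hv) ?_)
    have := P_map (ρ := ρ) (ψ := ψ) lp'.Qa (ι h g) u v
    rw [hS.t2 x u lp' _ k1 k2 _ (P_mem lp'.Qa _ _), k1, k2] at this
    rw [Submodule.coe_sub, map_sub, hσ, ← this, sub_self]

end CA.DegO
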