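/-
Character degrees of odd orthogonal groups: a new fixed vector, and the induction.
-/
import Cfsg.Agent.Lib.Lin.H25Deg3

set_option autoImplicit false
set_option linter.unusedSectionVars false

namespace CA.DegO

open Cfsg CA.Wt CA.DegSp CA.CForm CA.CForm.Form CA.AutForm CChar.CharFun CChar.CharKer CChar.CharRep Finset Module

universe u v
variable {F : Type*} [Field F] [Fintype F] [DecidableEq F] {V : Type u} [AddCommGroup V] [Module F V] {f : Form (Kind.orth F) V}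
  [FiniteDimensional F V] {M : Type v} [AddCommGroup M] [Module ℂ M] {ρ : Representation ℂ f.Eich M} {ψ : AddChar F ℂ}
  {x y u w a b : V} {v : M}

theorem act_mul (g k : f.Eich) (v : V) : (g * k) ▹ v = g ▹ (k ▹ v) := rfl

theorem act_inv {g : f.Eich} {v w : V} (h : g ▹ v = w) : g⁻¹ ▹ w = v := by
  rw [← h, ← act_mul, inv_mul_cancel]; rfl

theorem move {y' : V} (h : f.IsHyp x y) (h' : f.IsHyp x y') : ∃ w, f.B x w = 0 ∧ f.B y w = 0 ∧ E f x w ▹ y = y' ∧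
    ∀ u, f.B u x = 0 → f.B u y = 0 → f.B u y' = 0 → f.B u w = 0 := by
  have e1 := h.B_xy; have e2 := h'.B_xy; have e3 := h.B_xx; have e4 := h.B_yy; have e5 := (hsymm h).B_xy; have e6 := (hsymm h').B_xy
  have e : f.B x (y' - y - f.B y y' • x) = 0 := by simp [*]
  have e' : f.B y (y' - y - f.B y y' • x) = 0 := by simp [*]
  refine ⟨_, e, e', ?_, fun u a b c => by simp [*]⟩
  rw [E_apply h.Q_x e, f.eq_zero_symm e', e1, show f.Q (y' - y - f.B y y' • x) = -f.B y y' by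
    simp [orth_Q_sub, orth_Q_smul, h.Q_x, h.Q_y, h'.Q_y, orth_symm f y y', *]]
  module

theorem gen (hf : f.Nondeg) (h2 : (2 : F) ≠ 0) (h : f.IsHyp x y) (h3 : 3 ≤ finrank F V) (K : Subgroup f.Eich) (k1 : ∀ g : f.Eich, g ▹ x = x → g ∈ K)
    (k2 : ∀ w, f.B x w = 0 → f.B y w = 0 → E f y w ∈ K) (g : f.Eich) : g ∈ K := by
  have c : ∀ g ∈ K, ∀ p, f.Q p = 0 → (∀ w, f.B p w = 0 → E f p w ∈ K) → ∀ w, f.B (g ▹ p) w = 0 → E f (g ▹ p) w ∈ K := fun g hg p hp H w hw => by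
    obtain ⟨w, rfl⟩ := g.1.1.surjective w
    rw [f.B_coe_map] at hw
    exact E_conj g hp hw ▸ mul_mem (mul_mem hg (H w hw)) (inv_mem hg)
  have s1 : ∀ p, f.Q p = 0 → f.B y p ≠ 0 → ∀ w, f.B p w = 0 → E f p w ∈ K := fun p hp e w hw => by
    have hq := f.Q_smul_of_Q hp (f.B y p)⁻¹
    obtain ⟨z, z1, z2, z3, -⟩ := move (hsymm h) (y' := (f.B y p)⁻¹ • p) ⟨h.Q_y, hq, by simp [e]⟩
    have := c _ (k2 z z2 z1) x h.Q_x (fun w hw => k1 _ (E_fix h.Q_x hw h.B_xx (f.eq_zero_symm hw))) (f.B y p • w) (by simp [z3, hw])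
    rwa [z3, ← E_smul _ hq (by simp [hw]), smul_inv_smul₀ e] at this
  have s2 : ∀ p, f.Q p = 0 → ∀ w, f.B p w = 0 → E f p w ∈ K := fun p hp w hw => by
    by_cases p0 : p = 0
    · rw [show E f p w = 1 from Subtype.ext (f.isom_ext fun v => by rw [E_apply hp hw]; simp [p0])]; exact one_mem _
    by_cases e : f.B y p = 0
    swap
    · exact s1 p hp e w hw
    obtain ⟨z, z1, z2, z3⟩ : ∃ z, f.B x z = 0 ∧ f.B y z = 0 ∧ f.B z p + f.Q z * f.B x p ≠ 0 := by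
      by_cases e' : f.B x p = 0
      · obtain ⟨z, hz⟩ := (h.nondeg_perp hf).exists_B_ne_zero (x := ⟨p, mem_Up e' e⟩) (by simpa)
        exact ⟨z, Bx z, By z, by rw [e', mul_zero, add_zero]; exact mt f.eq_zero_symm hz⟩
      obtain ⟨z, hz, hq⟩ := f.exists_nonsingular (hf.disjoint_perp_perp h.isCompl.disjoint) fun e => by
        have := h.finrank_perp; rw [e, finrank_bot] at this; omega
      by_cases e2 : f.B z p + f.Q z * f.B x p = 0
      · refine ⟨-z, by simp [Bx ⟨z, hz⟩], by simp [By ⟨z, hz⟩], fun e3 => mul_ne_zero h2 (mul_ne_zero hq e') ?_⟩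
        simp only [B_neg_left, Q_neg] at e3
        linear_combination e2 + e3
      · exact ⟨z, Bx ⟨z, hz⟩, By ⟨z, hz⟩, e2⟩
    have hk := k1 _ (E_fix h.Q_x z1 h.B_xx (f.eq_zero_symm z1))
    have := c _ (inv_mem hk) (E f x z ▹ p) (by simp [hp]) (s1 _ (by simp [hp]) (by
      rw [E_apply h.Q_x z1, map_sub, map_add, map_smul, map_smul, e, z2, (hsymm h).B_xy]
      intro e'
      exact z3 (by simp only [smul_eq_mul] at e'; linear_combination -e'))) w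
    rw [act_inv rfl] at this
    exact this hw
  obtain ⟨k, hk, e⟩ := f.Eich_le (G := K.map f.Eich.subtype) (fun p w c hc => ⟨E f p w, s2 p hc.1 w hc.2,
    (coe_E hc.1 hc.2).trans (f.eichler_congr _ _ rfl rfl hc.3.symm)⟩) g.2
  exact Subtype.ext e ▸ hk

theorem exists_tor (hf : f.Nondeg) (h3 : 3 ≤ finrank F V) (H : H4 f x y a b) {t : F} (t0 : t ≠ 0) : ∃ g : f.Eich, g ▹ x = t • x ∧ g ▹ y = t⁻¹ • y ∧
    g ▹ a = t • a ∧ ∀ w, f.B x w = 0 → f.B y w = 0 → f.B a w = 0 → f.B b w = 0 → g ▹ w = w := by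
  obtain ⟨⟨qx, qy, qa, qb⟩, ⟨xx, xy, xa, xb⟩, ⟨yx, yy, ya, yb⟩, ⟨ax, ay, aa, ab⟩, bx, by', ba, bb⟩ := H.tab
  have h' := hsymm H.k
  have k0 : ∀ v, (⟨_, torus_mul_inv_mem hf (Or.inl h3) H.h h' (.mk0 t t0)⟩ : f.Eich) ▹ v =
      (H.h.torus (.mk0 t t0)).1 ((h'.torus (Units.mk0 t t0)⁻¹).1 v) := fun v => by rw [h'.torus_inv]; rfl
  refine ⟨_, (k0 x).trans ?_, (k0 y).trans ?_, (k0 a).trans ?_, fun w w1 w2 w3 w4 => (k0 w).trans ?_⟩
  · rw [h'.torus_apply_of_B _ bx ax, H.h.torus_apply_x]; rfl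
  · rw [h'.torus_apply_of_B _ by' ay, H.h.torus_apply_y]; rfl
  · rw [h'.torus_apply_y, map_smul, H.h.torus_apply_of_B _ xa ya]; simp
  · rw [h'.torus_apply_of_B _ w4 w3, H.h.torus_apply_of_B _ w1 w2]

theorem Sm.scalar (hf : f.Nondeg) (hS : Sm ρ ψ) (h6 : 6 ≤ finrank F V) {t : F} (t0 : t ≠ 0) (lp : LP f x a) {g : f.Eich} (g1 : g ▹ x = t • x)
    (g2 : g ▹ a = t • a) : ∃ s : ℂ, ∀ y u, LP f y u → ∀ k : f.Eich, k ▹ y = t • y → k ▹ u = t • u → ∀ v ∈ W ρ ψ y u, ρ k v = s • v := by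
  obtain ⟨v0, h1, -, h2⟩ := hS.t1 x a lp
  obtain ⟨s, hs⟩ := h2 (ρ g v0) (by simpa [g1, g2, t0] using W_smul (by simp [lp.Qa]) (inv_ne_zero t0) (W_map lp.Qa g h1))
  refine ⟨s, fun y u lp' k k1 k2 v hv => ?_⟩
  obtain ⟨l, l1, l2⟩ := lp_conj hf h6 lp lp'
  have h3 : ρ l⁻¹ v ∈ W ρ ψ x a := by simpa only [act_inv l1, act_inv l2] using W_map lp'.Qa l⁻¹ hv
  have h4 := hS.t2 x a lp (g⁻¹ * (l⁻¹ * k * l)) (act_inv (w := (l⁻¹ * k * l) ▹ x) (by rw [act_mul, act_mul, l1, k1, map_smul, act_inv l1, g1]))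
    (act_inv (w := (l⁻¹ * k * l) ▹ a) (by rw [act_mul, act_mul, l2, k2, map_smul, act_inv l2, g2])) _ h3
  obtain ⟨c, hc⟩ := h2 _ h3
  have h5 : ρ g (ρ l⁻¹ v) = s • ρ l⁻¹ v := by rw [hc, map_smul, hs, smul_comm]
  rw [← h4, ← rmul, mul_inv_cancel_left, h4, ← rmul] at h5
  have := congrArg (ρ l) h5
  rw [map_smul, ← rmul, ← rmul] at this
  simpa [mul_assoc] using this

variable [Fintype V] (hψ : ψ ≠ 0) (hf : f.Nondeg) (hS : Sm ρ ψ) (H : H4 f x y a b)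
include hψ

include H in
theorem kill_fix (hv : ∀ g, ρ g v = v) {e : F} (e0 : e ≠ 0) : P ρ ψ y (e • a) v = 0 :=
  kill hψ H.h.Q_y H.yb (k := 0) (fun t => by simp [hv]) (by simp [H.k.B_xy, e0])

include hf hS H

theorem S3 (h2 : (2 : F) ≠ 0) {m : ℕ} (hm : finrank F V = 2 * m + 7) :
    ∃ z ∈ W ρ ψ a 0, (∀ g, ρ (ι H.k g) z = z) ∧ ∃ e : F, e ≠ 0 ∧ P ρ ψ y (e • a) z ≠ 0 := by
  obtain ⟨⟨qx, qy, qa, qb⟩, ⟨xx, xy, xa, xb⟩, ⟨yx, yy, ya, yb⟩, ⟨ax, ay, aa, ab⟩, bx, by', ba, bb⟩ := H.tab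
  obtain ⟨δ, hδ⟩ := exists_not_isSquare h2
  have d0 : δ ≠ 0 := by rintro rfl; exact hδ IsSquare.zero
  have hU := H.k.nondeg_perp hf
  have fr : finrank F (Up f a b) + 2 = _ := H.k.finrank_perp
  have tor : ∀ u, u ≠ 0 → f.Q u = 0 → f.B x u = 0 → f.B y u = 0 → f.B a u = 0 → f.B b u = 0 → LP f y u ∧
      ∃ g : f.Eich, g ▹ y = δ • y ∧ g ▹ x = δ⁻¹ • x ∧ g ▹ u = δ • u ∧ g ▹ a = a := fun u u0 qu u1 u2 u3 u4 => by
    obtain ⟨u', H'⟩ := exists_H4 (x := (⟨u, mem_Up u3 u4⟩ : Up f a b)) hU H.sw.res qu (by simpa) u1 u2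
    have H2 : H4 f y x u u' := ⟨hsymm H.h, ⟨qu, H'.h.2, H'.h.3⟩, u2, H'.sw.yb, u1, H'.sw.xb⟩
    obtain ⟨g, g1, g2, g3, g4⟩ := exists_tor hf (by omega) H2 d0
    exact ⟨by simpa using H2.lp one_ne_zero, g, g1, g2, g3, g4 a ya xa (f.eq_zero_symm u3) (f.eq_zero_symm (Bx u'))⟩
  obtain ⟨u0, b0, hb⟩ := exists_singular' ((f.restrict (Up f a b)).restrict
      (Up (f.restrict (Up f a b)) ⟨x, mem_Up ax bx⟩ ⟨y, mem_Up ay by'⟩)) (by
    have : finrank F (Up (f.restrict (Up f a b)) ⟨x, mem_Up ax bx⟩ ⟨y, mem_Up ay by'⟩) + 2 = _ := H.sw.res.finrank_perp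
    omega)
  obtain ⟨l0, τ, t1, t2, t3, t4⟩ := tor u0 (by simpa using b0) hb (Bx (f := f.restrict _) u0) (By (f := f.restrict _) u0) (Bx u0.1) (By u0.1)
  obtain ⟨s, hs⟩ := hS.scalar hf (by omega) d0 l0 t1 t3
  have lp := H.lp one_ne_zero
  obtain ⟨v, hv, v0, -⟩ := hS.t1 x _ lp
  have hv' : ρ τ v ∈ W ρ ψ x ((δ * 1) • a) := by simpa [t2, t4, d0] using W_smul (by simp [qx]) d0 (W_map qx τ hv)
  have v0' : ρ τ v ≠ 0 := fun e => v0 (by simpa [← rmul] using congrArg (ρ τ⁻¹) e)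
  let z := (-s) • P ρ ψ a 0 v + (1 : ℂ) • P ρ ψ a 0 (ρ τ v)
  have hz : z ∈ W ρ ψ a 0 := add_mem (Submodule.smul_mem _ _ (P_mem qa _ _)) (Submodule.smul_mem _ _ (P_mem qa _ _))
  have z1 : ∀ g : f.Eich, g ▹ a = a → g ▹ x = x → ρ g z = z := fun g g1 g2 => by
    simp only [z, map_add, map_smul, P_map qa, g1, map_zero]
    rw [hS.t2 x _ lp g g2 (by simp [g1]) _ hv, hS.t2 x _ (H.lp (mul_ne_zero d0 one_ne_zero)) g g2 (by simp [g1]) _ hv']
  have z2 : ∀ u, u ≠ 0 → f.Q u = 0 → f.B x u = 0 → f.B y u = 0 → f.B a u = 0 → f.B b u = 0 → P ρ ψ y u z = 0 := fun u u0 qu u1 u2 u3 u4 => by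
    obtain ⟨l, g, g1, g2, g3, g4⟩ := tor u u0 qu u1 u2 u3 u4
    have e1 : ρ τ v = ρ g v := by
      rw [← mul_inv_cancel_left g τ, rmul, hS.t2 x _ lp (g⁻¹ * τ) (act_inv (g2.trans t2.symm)) (act_inv (by simp [g4, t4])) v hv]
    have e2 := P_map (ρ := ρ) (ψ := ψ) qy g u (P ρ ψ a 0 v)
    rw [hs y u l g g1 g3 _ (P_mem qy _ _), g1, g3, P_smul qy d0, P_map qa, g4, map_zero, ← e1] at e2
    simp [z, ← e2]
  have z3 : ∀ w, f.B x w = 0 → f.B y w = 0 → f.B a w = 0 → f.B b w = 0 → ρ (E f y w) z = z := fun w w1 w2 w3 w4 =>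
    sub_eq_zero.1 (ext_P (ρ := ρ) hψ hf (hsymm H.h) fun u u1 u2 => by
      rw [map_sub, P_E qy w2]
      by_cases e : f.B u w = 0
      · simp [e]
      suffices P ρ ψ y u z = 0 by simp [this]
      by_cases e1 : f.B u a = 0
      swap
      · refine kill hψ qy ya (k := 0) (fun t => ?_) e1
        rw [E_swap qy (f.Q_smul_of_Q qa t) (by simp [ya]), E_smul t qa (by simp [ay]), hz _ (by simp [ay])]; simp
      by_cases e2 : f.Q u = 0
      swap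
      · exact hS.t0 y u qy H.h.y_ne_zero u1 e2 _ (P_mem qy _ _)
      have e3 : f.B a (-(f.B b u / f.B u w) • w) = 0 := by simp [w3]
      have e4 := f.eq_zero_symm e1
      have := P_map (ρ := ρ) (ψ := ψ) qy (E f a (-(f.B b u / f.B u w) • w)) (u - f.B b u • a) z
      rw [z2 _ (fun e' => e (by simpa [w3] using congrArg (f.B · w) e')) (by simp [orth_Q_sub, orth_Q_smul, *]) (by simp [*]) (by simp [*])
        (by simp [*]) (by simp [*]), map_zero, hz _ e3, E_fix qa e3 ay (by simp [f.eq_zero_symm w2]), E_apply qa e3] at this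
      simpa [e4, aa, f.eq_zero_symm w3, orth_symm f u w, e] using this.symm)
  refine ⟨z, hz, gen hU h2 H.sw.res (by have := H.k.finrank_perp; omega) ⟨⟨⟨{g | ρ (ι H.k g) z = z}, fun {g k} hg hk => ?_⟩, by simp⟩, fun {g} hg => ?_⟩
    (fun g hg => z1 _ (ι_x _ _) ((ι_apply H.k g ⟨x, mem_Up ax bx⟩).trans (congrArg Subtype.val hg))) fun w w1 w2 => ?_, by_contra fun e => ?_⟩
  · change ρ _ z = z
    rw [map_mul, rmul, hk, hg]
  · change ρ _ z = z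
    rw [← show ρ _ z = z from hg, ← rmul, ← map_mul, inv_mul_cancel, map_one, map_one, End.one_apply, hg]
  · change ρ _ z = z
    rw [ι_E H.k (a := ⟨y, mem_Up ay by'⟩) qy w2]
    exact z3 w w1 w2 (Bx w) (By w)
  · push Not at e
    exact one_ne_zero (indep hψ hf hS H one_ne_zero hδ (m := m + 1) (by omega) hv hv' v0 v0' e).2

end CA.DegO
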