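/-
Character degrees of odd orthogonal groups: the bound.
-/
import Cfsg.Agent.Lib.Lin.H25Deg4

set_option autoImplicit false
set_option linter.unusedSectionVars false

namespace CA.DegO

open Cfsg CA.Wt CA.DegSp CA.CForm CA.CForm.Form CA.AutForm CChar.CharFun CChar.CharKer CChar.CharRep Finset Module
open scoped commutatorElement

universe u v
variable {F : Type*} [Field F] [Fintype F] [DecidableEq F] {ψ : AddChar F ℂ}

section
variable {V : Type u} [AddCommGroup V] [Module F V] {f : Form (Kind.orth F) V}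
  [FiniteDimensional F V] {M : Type v} [AddCommGroup M] [Module ℂ M] {ρ : Representation ℂ f.Eich M} {x y u w a b : V} {v : M}

theorem sing_odd (hf : f.Nondeg) {m : ℕ} (hm : finrank F V = 2 * m + 1) : Nat.card {v // f.Q v = 0} = Nat.card F ^ (2 * m) := by
  have := IsIndex.card_singular m 1 (hf.isIndex_odd hm) hf hm
  rwa [add_comm, add_right_inj, pow_succ', mul_right_inj' Nat.card_pos.ne'] at this

theorem count [FiniteDimensional ℂ M] (hψ : ψ ≠ 0) (hf : f.Nondeg) (hS : Sm ρ ψ) (h : f.IsHyp a b) {m : ℕ} (hm : finrank F V = 2 * m + 3) :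
    finrank ℂ (Ws ρ (X h) (lam ψ a b 0)) + Nat.card F ^ (2 * m) ≤ finrank ℂ M + 1 := by
  classical
  have : Finite V := Module.finite_of_finite F
  have := Fintype.ofFinite (Up f a b)
  have hU := h.nondeg_perp hf
  have h1 : ∑ u : Up f a b, finrank ℂ (Ws ρ (X h) (lam ψ a b u)) = finrank ℂ M := by
    have := (sum_wt (χ := ρ.character) (x := X h) (PP hf h hψ) 1).trans ρ.char_one
    simp only [PP, ← finrank_Ws (X_inj h)] at this
    exact_mod_cast this
  have h2 := N_zero (f := f) (x := a) (y := b)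
  rw [sing_odd hU (m := m) (by have := h.finrank_perp; omega), N] at h2
  have h3 : #{u : Up f a b | u ≠ 0 ∧ f.Q u = 0} ≤ ∑ u ∈ univ.erase (0 : Up f a b), finrank ℂ (Ws ρ (X h) (lam ψ a b u)) := by
    rw [card_eq_sum_ones]
    refine (sum_le_sum fun u hu => ?_).trans (sum_le_sum_of_subset fun u hu => by simpa using (mem_filter.1 hu).2.1)
    obtain ⟨u0, qu⟩ := (mem_filter.1 hu).2
    obtain ⟨w, hw⟩ := hU.exists_B_ne_zero u0
    obtain ⟨v, h1, h2, -⟩ := hS.t1 a u (lp_of h.Q_x qu (Bx u) h.x_ne_zero (Bx w) hw)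
    exact Submodule.one_le_finrank_iff.2 fun e => h2 ((Submodule.mem_bot ℂ).1 (e ▸ (W_Ws h (Bx u)).1 h1))
  rw [← add_sum_erase _ _ (mem_univ 0)] at h1
  have h4 : 0 < Nat.card F ^ (2 * m) := pow_pos Nat.card_pos _
  have h5 : #{u : Up f a b | u ≠ 0 ∧ f.Q u = 0} = Nat.card F ^ (2 * m) - 1 := by convert h2
  change finrank ℂ (Ws ρ (X h) (lam ψ a b 0)) + _ = _ at h1
  omega

theorem lt_sup [FiniteDimensional ℂ M] {I : Submodule ℂ M} (hv : v ∉ I) : finrank ℂ I + 1 ≤ finrank ℂ (I ⊔ (ℂ ∙ v) : Submodule ℂ M) :=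
  Submodule.finrank_lt_finrank_of_lt (lt_of_le_of_ne le_sup_left fun e => hv (e ▸ Submodule.mem_sup_right (Submodule.mem_span_singleton_self v)))

theorem exH4 (hf : f.Nondeg) (h5 : 5 ≤ finrank F V) : ∃ x y a b, H4 f x y a b := by
  obtain ⟨a, a0, ha⟩ := exists_singular' f (by omega)
  obtain ⟨b, h⟩ := hf.exists_isHyp ha a0
  obtain ⟨x, x0, hx⟩ := exists_singular' (f.restrict (Up f a b)) (by have : finrank F (Up f a b) + 2 = _ := h.finrank_perp; omega)
  obtain ⟨y, H⟩ := exists_H4 (f := f) (x := x.1) hf h hx (by simpa) (Bx x) (By x)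
  exact ⟨_, _, _, _, H⟩

end

theorem bound_odd (hψ : ψ ≠ 0) (h2 : (2 : F) ≠ 0) (m : ℕ) : ∀ {V : Type u} [AddCommGroup V] [Module F V] [FiniteDimensional F V]
    {f : Form (Kind.orth F) V} {M : Type v} [AddCommGroup M] [Module ℂ M] [FiniteDimensional ℂ M] (ρ : Representation ℂ f.Eich M),
    f.Nondeg → finrank F V = 2 * m + 5 → Sm ρ ψ → ∀ I : Submodule ℂ M, (∀ i ∈ I, ∀ g, ρ g i = i) →
    ∑ i ∈ range (m + 2), (Nat.card F ^ 2) ^ i + finrank ℂ I ≤ finrank ℂ M := by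
  induction m with
  | zero =>
    intro V _ _ _ f M _ _ _ ρ hf hm hS I hI
    have : Finite V := Module.finite_of_finite F
    have := Fintype.ofFinite V
    obtain ⟨x, y, a, b, H⟩ := exH4 hf (by omega)
    obtain ⟨δ, hδ⟩ := exists_not_isSquare h2
    have d0 : δ ≠ 0 := by rintro rfl; exact hδ IsSquare.zero
    obtain ⟨v, hv, v0, -⟩ := hS.t1 x _ (H.lp one_ne_zero)
    obtain ⟨v', hv', v0', -⟩ := hS.t1 x _ (H.lp (mul_ne_zero d0 one_ne_zero))
    have key := fun r s h => indep hψ hf hS H one_ne_zero hδ hm hv hv' v0 v0' (r := r) (s := s) h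
    have c1 := count hψ hf hS H.k (m := 1) hm
    have c2 := lt_sup (I := I) (v := P ρ ψ a 0 v) fun e => one_ne_zero (key 1 0 fun e' e0 => by
      simpa using kill_fix hψ H (hI _ e) e0).1
    have c3 := lt_sup (I := I ⊔ ℂ ∙ P ρ ψ a 0 v) (v := P ρ ψ a 0 v') fun e => by
      obtain ⟨i, hi, z, hz, e⟩ := Submodule.mem_sup.1 e
      obtain ⟨r, rfl⟩ := Submodule.mem_span_singleton.1 hz
      exact one_ne_zero (key (-r) 1 fun e' e0 => by simpa [← e] using kill_fix hψ H (hI _ hi) e0).2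
    have c4 := Submodule.finrank_mono (t := Ws ρ (X H.k) (lam ψ a b 0)) (s := (I ⊔ ℂ ∙ P ρ ψ a 0 v) ⊔ ℂ ∙ P ρ ψ a 0 v') (by
      simp only [sup_le_iff, Submodule.span_singleton_le_iff_mem]
      exact ⟨⟨fun i hi w => by simp [hI i hi, lam_apply], (W_Ws H.k (map_zero _)).1 (P_mem H.k.Q_x _ _)⟩,
        (W_Ws H.k (map_zero _)).1 (P_mem H.k.Q_x _ _)⟩)
    simp only [sum_range_succ, range_zero, sum_empty, pow_zero, pow_one, zero_add, mul_one] at c1 ⊢
    omega
  | succ m ih =>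
    intro V _ _ _ f M _ _ _ ρ hf hm hS I hI
    have : Finite V := Module.finite_of_finite F
    have := Fintype.ofFinite V
    obtain ⟨x, y, a, b, H⟩ := exH4 hf (by omega)
    have := Fintype.ofFinite (Up f a b)
    obtain ⟨z, z1, z2, e, e0, z3⟩ := S3 hψ hf hS H h2 (m := m) hm
    have c1 := count hψ hf hS H.k (m := m + 2) hm
    have c2 := lt_sup (I := I) (v := z) fun e => z3 (kill_fix hψ H (hI _ e) e0)
    obtain ⟨σ, hσ, -⟩ := exists_sub (ρ := ρ) (ψ := lam ψ a b 0) (X_inj H.k) (ι H.k) fun g => mem_stab H.k (ι_x H.k g) (ι_y H.k g) (map_zero _)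
    have le : I ⊔ (ℂ ∙ z) ≤ Ws ρ (X H.k) (lam ψ a b 0) := by
      simp only [sup_le_iff, Submodule.span_singleton_le_iff_mem]
      exact ⟨fun i hi w => by simp [hI i hi, lam_apply], (W_Ws H.k (map_zero _)).1 z1⟩
    have c3 := ih σ (H.k.nondeg_perp hf) (by have : finrank F (Up f a b) + 2 = _ := H.k.finrank_perp; omega) (hS.sub hψ hf H.k (fun _ => (W_Ws H.k (map_zero _)).symm) hσ)
      ((I ⊔ ℂ ∙ z).comap (Submodule.subtype _)) fun i hi g => Subtype.ext (by
        obtain ⟨j, hj, z', hz, e⟩ := Submodule.mem_sup.1 hi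
        obtain ⟨r, rfl⟩ := Submodule.mem_span_singleton.1 hz
        rw [hσ, ← show _ = i.1 from e, map_add, map_smul, z2, hI j hj])
    rw [(Submodule.comapSubtypeEquivOfLe le).finrank_eq] at c3
    rw [sum_range_succ, ← pow_mul]
    omega

variable {V : Type u} [AddCommGroup V] [Module F V] {f : Form (Kind.orth F) V}
  [FiniteDimensional F V] {M : Type v} [AddCommGroup M] [Module ℂ M] {ρ : Representation ℂ f.Eich M} {x y u w a b : V} {v : M}

theorem ι_surj (hf : f.Nondeg) (h2 : (2 : F) ≠ 0) (h : f.IsHyp x y) (h5 : 5 ≤ finrank F V) {g : f.Eich} (g1 : g ▹ x = x) (g2 : g ▹ y = y) :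
    ∃ k, ι h k = g := by
  obtain ⟨k, hk⟩ : g.1 ∈ (f.extRight h.isCompl).range := by
    rw [range_extRight, mem_fix_span]; simp [g1, g2]
  have hU := h.nondeg_perp hf
  have := (hf.mem_commutator_comp_iff (f.good_of_two_ne_zero h2) hU (good_of_two_ne_zero _ h2) (f.extRight h.isCompl) (↑) (fun _ => rfl)
    (f.extRight_refl _) k).1 (by rw [hk, hf.commutator_eq_Eich (f.good_of_two_ne_zero h2) (by omega)]; exact g.2)
  rw [hU.commutator_eq_Eich (good_of_two_ne_zero _ h2) (by have := h.finrank_perp; omega)] at this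
  exact ⟨⟨k, this⟩, Subtype.ext hk⟩

theorem stab_triv [FiniteDimensional ℂ M] (hf : f.Nondeg) (h2 : (2 : F) ≠ 0) (hq : ∃ t : F, t ≠ 0 ∧ t * t ≠ 1) (h7 : 7 ≤ finrank F V)
    (H : H4 f x y a b) [Fintype (Up f x y)] (h1 : wt ρ.character (X H.h) (lam ψ x y a) 1 = 1) (hχ : IsCharacter _ ρ.character)
    (hv : v ∈ W ρ ψ x a) {g : f.Eich} (g1 : g ▹ x = x) (g2 : g ▹ a = a) : ρ g v = v := by
  obtain ⟨⟨qx, qy, qa, qb⟩, ⟨xx, xy, xa, xb⟩, ⟨yx, yy, ya, yb⟩, ⟨ax, ay, aa, ab⟩, bx, by', ba, bb⟩ := H.tab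
  have : Finite V := Module.finite_of_finite F
  have key : ∀ g ∈ ⁅Wt.stab (X H.h) (X_inj H.h) (lam ψ x y a), Wt.stab (X H.h) (X_inj H.h) (lam ψ x y a)⁆, ρ g v = v := fun g hg =>
    fix_of_wt (X_inj H.h) (Subgroup.commutator_le_self _ hg) ((wt_comm hχ _ h1 hg).trans h1.symm) ((W_Ws H.h xa).1 hv)
  obtain ⟨w, w1, w2, w3, w4⟩ := move H.h (y' := g ▹ y) (by simpa [g1] using H.h.map g.1)
  have w5 : f.B a w = 0 := w4 a ax ay (by rw [← g2, f.B_coe_map, ay])
  obtain ⟨k, rfl⟩ : ∃ k, g = E f x w * k := ⟨_, (mul_inv_cancel_left _ _).symm⟩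
  have inj : ∀ (g k : f.Eich) (z : V), (g * k) ▹ z = g ▹ z → k ▹ z = z := fun g k z e => g.1.1.injective e
  have k1 : k ▹ x = x := inj _ _ _ (g1.trans (E_fix qx w1 xx (f.eq_zero_symm w1)).symm)
  have k2 : k ▹ y = y := inj _ _ _ w3.symm
  have k3 : k ▹ a = a := inj _ _ _ (g2.trans (E_fix qx w1 xa (f.eq_zero_symm w5)).symm)
  suffices ρ k v = v by rw [rmul, this, hv w w1]; simp [w5]
  obtain ⟨z, z1, z2, z3, z4⟩ := move H.k (y' := k ▹ b) (by simpa [k3] using H.k.map k.1)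
  have z5 : f.B x z = 0 := z4 x xa xb (by rw [← k1, f.B_coe_map, xb])
  have z6 : f.B y z = 0 := z4 y ya yb (by rw [← k2, f.B_coe_map, yb])
  obtain ⟨l, rfl⟩ : ∃ l, k = E f a z * l := ⟨_, (mul_inv_cancel_left _ _).symm⟩
  have l1 : l ▹ x = x := inj _ _ _ (k1.trans (E_fix qa z1 ax (f.eq_zero_symm z5)).symm)
  have l2 : l ▹ y = y := inj _ _ _ (k2.trans (E_fix qa z1 ay (f.eq_zero_symm z6)).symm)
  have l3 : l ▹ a = a := inj _ _ _ (k3.trans (E_fix qa z1 aa (f.eq_zero_symm z1)).symm)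
  have l4 : l ▹ b = b := inj _ _ _ z3.symm
  rw [rmul, key l, key]
  · obtain ⟨τ, t1, t2, t3, t4⟩ := exists_tor hf (by omega) H (neg_ne_zero.2 one_ne_zero)
    have e : f.B a ((-2 : F)⁻¹ • z) = 0 := by simp [z1]
    refine (?_ : ⁅τ, E f a ((-2 : F)⁻¹ • z)⁆ = E f a z) ▸ Subgroup.commutator_mem_commutator
      (fun w => ⟨_, conjX H.h (neg_ne_zero.2 one_ne_zero) t1 t2 w, ?_⟩)
      (E_stab H.h qa e (mem_Up xa ya) (mem_Up (by simp [z5]) (by simp [z6])) aa (f.eq_zero_symm e))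
    · rw [commutatorElement_def, E_conj _ qa e, t3, map_smul, t4 z z5 z6 z1 z2, E_smul _ qa e, ← E_neg qa e, ← E_add qa (by simp [z1]) (by simp [z1])]
      congr 1
      match_scalars; field_simp; ring
    · rw [lam_apply, lam_apply, ← f.B_coe_map τ.1 a w, t3]; simp
  · have fr : finrank F (Up f x y) + 2 = _ := H.h.finrank_perp
    have fr' : finrank F (f.restrict _ |>.perp _) + 2 = _ := H.res.finrank_perp
    have hU := H.h.nondeg_perp hf
    obtain ⟨l, rfl⟩ := ι_surj hf h2 H.h (by omega) l1 l2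
    obtain ⟨l, rfl⟩ := ι_surj hU h2 H.res (by have := H.h.finrank_perp; omega) (g := l) (Subtype.ext ((ι_apply H.h l _).symm.trans l3))
      (Subtype.ext ((ι_apply H.h l _).symm.trans l4))
    obtain ⟨t, t0, ht⟩ := hq
    obtain ⟨p, p0, hp⟩ := exists_singular' ((f.restrict (Up f x y)).restrict ((f.restrict (Up f x y)).perp
      (Submodule.span F {⟨a, mem_Up xa ya⟩, ⟨b, mem_Up xb yb⟩}))) (by omega)
    obtain ⟨p', h'⟩ := (H.res.nondeg_perp hU).exists_isHyp hp p0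
    have := commutator_eq_top_of_le (h'.orth_Eich_perfect (H.res.nondeg_perp hU) (by omega) t0 ht)
    have hl := Subgroup.mem_map_of_mem ((ι H.h).comp (ι H.res)) (this.ge (Subgroup.mem_top l))
    rw [commutator_def, Subgroup.map_commutator] at hl
    have le : Subgroup.map ((ι H.h).comp (ι H.res)) ⊤ ≤ Wt.stab (X H.h) (X_inj H.h) (lam ψ x y a) := by
      rintro _ ⟨l, -, rfl⟩
      exact mem_stab H.h (ι_x H.h _) (ι_y H.h _) ((ι_apply H.h _ ⟨a, mem_Up xa ya⟩).trans (congrArg Subtype.val (ι_x H.res l)))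
    exact Subgroup.commutator_mono le le hl

theorem geo {q : ℕ} (hq : 4 ≤ q) (k : ℕ) : ∑ i ∈ range (k + 2), (q ^ 2) ^ i ≤ 2 * ((q - 1) * q ^ (2 * k + 1)) := by
  obtain ⟨p, rfl⟩ := Nat.exists_eq_add_of_le' hq
  rw [show p + 4 - 1 = p + 3 from rfl]
  induction k with
  | zero => simp [sum_range_succ]; nlinarith
  | succ k ih =>
    rw [sum_range_succ, ← pow_mul, show 2 * (k + 2) = 2 * k + 1 + 3 by ring, show 2 * (k + 1) + 1 = 2 * k + 1 + 2 by ring, pow_add _ (2 * k + 1) 3,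
      pow_add _ (2 * k + 1) 2]
    refine (Nat.add_le_add_right ih _).trans ?_
    generalize (p + 4) ^ (2 * k + 1) = A
    have : 2 * (p + 3) + (p + 4) ^ 3 ≤ 2 * (p + 3) * (p + 4) ^ 2 := by nlinarith [Nat.zero_le (p ^ 3), Nat.zero_le (p ^ 2)]
    nlinarith [Nat.mul_le_mul_left A this]

theorem odd_bound (hf : f.Nondeg) (h2 : (2 : F) ≠ 0) (hq : 3 < Fintype.card F) {m : ℕ} (hm : finrank F V = 2 * m + 7) {χ : f.Eich → ℂ}
    (hχ : IsCharacter _ χ) (hne : charKer χ ≠ ⊤) {D : ℕ} (hD : χ 1 = D) : ∑ i ∈ range (m + 3), (Nat.card F ^ 2) ^ i ≤ D := by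
  obtain ⟨n, ρ, rfl⟩ := id hχ
  by_contra hlt
  have : Finite V := Module.finite_of_finite F
  have (x y : V) : Fintype (Up f x y) := Fintype.ofFinite _
  obtain ⟨ψ, hψ⟩ := exists_psi0 (F := F)
  have hq' := exists_sq_ne_one hq
  have A : ∀ x y (h : f.IsHyp x y) (u : Up f x y), u ≠ 0 → wt ρ.character (X h) (lam ψ x y u) 1 = if f.Q u = 0 then 1 else 0 := fun x y h => by
    obtain ⟨c, hc⟩ | ⟨c, t, -, -, a1, -, a2, -⟩ := core hf h hψ hχ hne (r := 2 * m + 3) hm (by omega) hD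
    · refine (hlt ((geo (q := Nat.card F) (by rw [Nat.card_eq_fintype_card]; omega) (m + 1)).trans (le_trans (Nat.mul_le_mul_left _ ?_) hc))).elim
      have hU := h.nondeg_perp hf
      have fr := h.finrank_perp
      obtain ⟨p, p0, hp⟩ := exists_singular' (f.restrict (f.perp (Submodule.span F {x, y}))) (by omega)
      obtain ⟨p', h'⟩ := hU.exists_isHyp hp p0
      have h1 := h'.card_Q_eq hU (c := c) ⟨c, rfl⟩ (r := 2 * (m + 1) + 1) (by omega)
      rw [card_ker_π_orth, mul_one] at h1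
      by_cases e : c = 0
      · subst e
        have : Nonempty {w // ((f.restrict _).restrict ((f.restrict _).perp (Submodule.span F {p, p'}))).Q w = 0} := ⟨⟨0, Q_zero _⟩⟩
        have := Nat.mul_pos (Nat.card_pos (α := F)) (Nat.card_pos (α := {w // ((f.restrict _).restrict ((f.restrict _).perp (Submodule.span F {p, p'}))).Q w = 0}))
        rw [N_zero, h1]; omega
      · rw [N_ne e, h1]; omega
    · obtain ⟨t, t0, ht⟩ := hq'
      obtain rfl : c = 0 := by_contra fun e => ht (by simpa [e, sq] using a2 t t0)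
      exact a1
  have B : ∀ x u, LP f x u → ∃ y b, ∃ H : H4 f x y u b, wt ρ.character (X H.h) (lam ψ x y u) 1 = 1 := fun x u lp => by
    have u0 : u ≠ 0 := fun e => lp.nb (e ▸ zero_mem _)
    obtain ⟨b, hb1, hb2, hb3⟩ := hf.exists_partner_perp (H := F ∙ x) lp.Qb lp.nb (f.mem_perp_span_singleton.2 lp.B)
    obtain ⟨y, H⟩ := exists_H4 hf ⟨lp.Qb, hb2, hb3⟩ lp.Qa lp.a0 (f.eq_zero_symm lp.B) (f.eq_zero_symm (f.mem_perp_span_singleton.1 hb1))
    exact ⟨y, b, H, (A x y H.h ⟨u, mem_Up H.xa H.ya⟩ (by simpa)).trans (if_pos lp.Qb)⟩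
  have hS : Sm ρ ψ := ⟨fun x u qx x0 xu qu v hv => ?_, fun x u lp => ?_, fun x u lp g g1 g2 v hv => ?_⟩
  · have := bound_odd hψ h2 (m + 1) ρ hf hm hS ⊥ (by simp)
    rw [ρ.char_one] at hD
    exact hlt ((Nat.le_add_right _ _).trans (this.trans_eq (by exact_mod_cast hD)))
  · obtain ⟨y, h⟩ := hf.exists_isHyp qx x0
    have e : f.B x (u - f.B y u • x) = 0 := by simp [xu, h.B_xx]
    have e' : f.Q (u - f.B y u • x) ≠ 0 := by simpa [orth_Q_sub, orth_Q_smul, qx, f.eq_zero_symm xu]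
    exact eq_zero_of_wt (X_inj h) ((A x y h ⟨u - f.B y u • x, mem_Up e (by simp [(hsymm h).B_xy])⟩ fun e => e' (by
      rw [show u - _ = 0 from congrArg Subtype.val e, Q_zero])).trans (if_neg e')) ((W_Ws h e).1 (W_congr (fun w hw => by simp [hw]) hv))
  · obtain ⟨y, b, H, h1⟩ := B x u lp
    rw [← finrank_Ws (X_inj _), Nat.cast_eq_one] at h1
    obtain ⟨v, v0, hv⟩ := finrank_eq_one_iff'.1 h1
    exact ⟨v, (W_Ws H.h H.xa).2 v.2, by simpa using v0, fun v' hv' => (hv ⟨v', (W_Ws H.h H.xa).1 hv'⟩).imp fun c e => (congrArg Subtype.val e).symm⟩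
  · obtain ⟨y, b, H, h1⟩ := B x u lp
    exact stab_triv hf h2 hq' (by omega) H h1 hχ hv g1 g2

end CA.DegO
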