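/-
The universal property of `Sp_{2n}` over a finite field: block embeddings and the Curtis-Tits theorem.
-/
import Cfsg.Agent.Lib.Lie.H22CT
import Cfsg.Agent.Lib.Lie.H22ModZ
import Cfsg.Agent.Lib.Lin.H22Embed
import Cfsg.Agent.Lib.Grp.Prs

set_option autoImplicit false

namespace CA.H25Pr

open Matrix Subgroup Monoid Function
open scoped MatrixGroups

section CT
open CA.Chev Cfsg.Lie Cfsg.Lie.ChevalleyDatum

theorem ct_up {D : ChevalleyDatum} [Good D] {K : Type*} [Field K] {G J : Type*} [Group G] [Group J]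
    (e : D.SteinbergCover K ≃* G) (a b : Nd D → K → J)
    (h : ∀ i j : Nd D, ∃ Q : Subgroup (G × J), (∀ q ∈ Q, q.1 = 1 → q.2 = 1) ∧ ∀ k ∈ ({i, j} : Set (Nd D)), ∀ t,
      (e ((stC D K).x (sim k) t), a k t) ∈ Q ∧ (e ((stC D K).x (ng (sim k)) t), b k t) ∈ Q) :
    ∃ f : G →* J, ∀ k t, f (e ((stC D K).x (sim k) t)) = a k t ∧ f (e ((stC D K).x (ng (sim k)) t)) = b k t := by
  let A := stC D K
  let Γ : Set (Nd D) → Subgroup (D.SteinbergCover K × J) := fun S =>
    closure {p | ∃ k ∈ S, ∃ t, p = (A.x (sim k) t, a k t) ∨ p = (A.x (ng (sim k)) t, b k t)}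
  have h1 : ∀ r t, ∃ p ∈ Γ {k | rt r k ≠ 0}, p.1 = A.x r t := fun r t =>
    A.x_mem_J (J := {k | rt r k ≠ 0}) (M := (Γ {k | rt r k ≠ 0}).map (MonoidHom.fst _ J)) (fun j hj t =>
      ⟨⟨_, subset_closure ⟨j, hj, t, Or.inl rfl⟩, rfl⟩, ⟨_, subset_closure ⟨j, hj, t, Or.inr rfl⟩, rfl⟩⟩)
      (fun _ => not_not.1) t
  choose z hz hz' using h1
  have h2 : ∀ {S r}, r ∈ Phi S → ∀ t, z r t ∈ Γ S := fun hr t => closure_mono (by
    rintro _ ⟨k, hk, h⟩; exact ⟨k, by_contra fun e => hk (hr k e), h⟩) (hz _ t)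
  have h3 : ∀ {S p q}, Two S → p ∈ Γ S → q ∈ Γ S → p.1 = q.1 → p = q := by
    rintro _ p q ⟨i, j, rfl⟩ hp hq e'
    obtain ⟨Q, hQ, h⟩ := h i j
    have : Γ {i, j} ≤ Q.comap (e.toMonoidHom.prodMap (MonoidHom.id J)) := (closure_le _).2 (by
      rintro _ ⟨k, hk, t, rfl | rfl⟩
      exacts [(h k hk t).1, (h k hk t).2])
    exact Prod.ext e' (inv_mul_eq_one.1 (hQ _ (this (mul_mem (inv_mem hp) hq)) (by simp [e'])))
  obtain ⟨φ, hφ⟩ := exists_ct_hom z (A.θ.comp (MonoidHom.fst _ _))
    (fun hJ hr t u => h3 hJ (h2 hr _) (mul_mem (h2 hr _) (h2 hr _)) (by simp [hz', A.add]))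
    (fun hJ hr hs c d t u => h3 hJ (mul_mem (h2 hs _) (h2 hr _)) (mul_mem (mul_mem (h2 hr _) (h2 hs _))
      (Subgroup.list_prod_mem _ fun y hy => by
        obtain ⟨l, hl, rfl⟩ := List.mem_map.1 hy
        exact h2 (cmb_mem_Phi hr hs (cmb_of_mem hl)) _))
      (by simp only [Prod.fst_mul, hz', A.comm c d]
          exact congrArg _ (map_cw (MonoidHom.fst (D.SteinbergCover K) J) hz' _ _ t u).symm))
    fun _ _ t => (congrArg A.θ (hz' _ t)).trans (A.θx _ t)
  refine ⟨((MonoidHom.snd _ _).comp φ).comp e.symm.toMonoidHom, fun i t => ⟨?_, ?_⟩⟩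
  · simpa using congrArg Prod.snd ((hφ _ _ (two_pair i i) (CT.sim_mem i) t).trans (h3 (q := (_, _)) (two_pair i i)
      (h2 (CT.sim_mem i) t) (subset_closure ⟨i, by simp, t, Or.inl rfl⟩) (hz' _ _)))
  · simpa using congrArg Prod.snd ((hφ _ _ (two_pair i i) (ng_mem_Phi.2 (CT.sim_mem i)) t).trans (h3 (q := (_, _))
      (two_pair i i) (h2 (ng_mem_Phi.2 (CT.sim_mem i)) t) (subset_closure ⟨i, by simp, t, Or.inr rfl⟩) (hz' _ _)))

open CA.CForm CA.CForm.Form in
theorem exists_spC {l : ℕ} (hl : 2 ≤ l) (F : Type*) [Field F] [Finite F] :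
    ∃ e : (clC l hl).model.D.SteinbergCover F →* symplecticGroup (Fin l) F, Surjective e ∧ (3 ≤ l → Injective e) ∧
      ∀ g, (e g).1 = (clC l hl).model.ρ F g := by
  let M := (clC l hl).model
  obtain ⟨π, hs, h0, -⟩ := (fits_C (K := F) hl).exists_π
  let e := ((spEquiv F l).trans ((MulEquiv.subgroupCongr (sympStd_nondeg F l).symp_Eich_eq_top).trans topEquiv).symm).symm
  have h1 : ∀ g, (e (π g)).1 = M.ρ F g := fun g => mulVec_injective (funext fun v =>
    (spEquiv_symm_mulVec l _ v).trans (h0 g v))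
  refine ⟨e.toMonoidHom.comp π, e.surjective.comp hs, fun h3 => (injective_iff_map_eq_one _).2 fun g hg => ?_, h1⟩
  have hg' : π g = 1 := e.map_eq_one_iff.1 hg
  obtain ⟨c, -, rfl⟩ := mem_center_st.1 (ker_le_center (Model.perfect_C
    (fun v => (clC l hl).mem_Φ.trans (ro_C (v := v))) stC_G fun _ => h3) π (fun e => (fits_C (K := F) hl).center_ne
      (top_unique fun x _ => by
        obtain ⟨x, rfl⟩ := hs x
        rw [show π x = 1 from e.ge (mem_top x)]; exact one_mem _)) hg')
  have h4 : ∀ a, chiR 1 c (μS a) = 1 := fun a => Units.ext (by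
    have := congrFun (congrFun ((M.ρ_torH c).symm.trans ((h1 _).symm.trans (congrArg Subtype.val hg))) a) a
    rw [diagonal_apply_eq, (clC l hl).prod_eq] at this
    exact this.trans (one_apply_eq a))
  rw [show c = 1 from funext fun j => ?_, map_one]
  have := chiR_eq 1 c (u := 1) (fun k hk => (ep_eq ⟨k, hk⟩).symm ▸ h4 (.inl ⟨k, hk⟩)) (fw l j)
  simpa [chiR_fw _ _ hl, δR] using this

end CT

variable {ι κ μ : Type*} [Fintype ι] [DecidableEq ι] [Fintype κ] [DecidableEq κ] [Fintype μ] [DecidableEq μ]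
  {F : Type*} [Field F]

variable (F) in
/-- the matrix of an embedding of index sets -/
def em (f : κ ↪ ι) : Matrix ι κ F := of fun i k => if i = f k then 1 else 0

theorem em_em (f : κ ↪ ι) : (em F f)ᵀ * em F f = 1 := by
  ext a b; simp [em, mul_apply, one_apply, eq_comm]

theorem em_disj {f : κ ↪ ι} {g : μ ↪ ι} (h : ∀ a b, f a ≠ g b) : (em F f)ᵀ * em F g = 0 := by
  ext a b; simp [em, mul_apply, (h a b).symm]

theorem em_single (f : κ ↪ ι) (a b : κ) (t : F) : em F f * single a b t * (em F f)ᵀ = single (f a) (f b) t := by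
  ext x y
  rw [mul_apply, Finset.sum_eq_single b (fun k _ h => by simp [h]) (by simp)]
  simp [em, single_apply, ite_and, eq_comm]; grind

/-- extension by the identity -/
def ex (f : κ ↪ ι) : Matrix κ κ F →* Matrix ι ι F where
  toFun A := 1 + em F f * (A - 1) * (em F f)ᵀ
  map_one' := by simp
  map_mul' A B := by
    have : ∀ X : Matrix κ ι F, (em F f)ᵀ * (em F f * X) = X := fun X => by rw [← Matrix.mul_assoc, em_em, Matrix.one_mul]
    simp only [Matrix.mul_sub, Matrix.sub_mul, mul_add, add_mul, Matrix.mul_assoc, this, Matrix.one_mul, Matrix.mul_one]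
    abel

theorem ex_def (f : κ ↪ ι) (A : Matrix κ κ F) : ex f A = 1 + em F f * (A - 1) * (em F f)ᵀ := rfl

theorem ex_det (f : κ ↪ ι) (A : Matrix κ κ F) : (ex f A).det = A.det := by
  rw [ex_def, Matrix.mul_assoc, det_one_add_mul_comm, Matrix.mul_assoc, em_em]; simp

theorem ex_one_add (f : κ ↪ ι) (X : Matrix κ κ F) : ex f (1 + X) = 1 + em F f * X * (em F f)ᵀ := by simp [ex_def]

theorem ex_comm {f : κ ↪ ι} {g : μ ↪ ι} (h : ∀ a b, f a ≠ g b) (A : Matrix κ κ F) (B : Matrix μ μ F) :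
    ex f A * ex g B = ex g B * ex f A := by
  have h1 : ∀ X : Matrix μ ι F, (em F f)ᵀ * (em F g * X) = 0 := fun X => by
    rw [← Matrix.mul_assoc, em_disj h, Matrix.zero_mul]
  have h2 : ∀ X : Matrix κ ι F, (em F g)ᵀ * (em F f * X) = 0 := fun X => by
    rw [← Matrix.mul_assoc, em_disj fun a b => (h b a).symm, Matrix.zero_mul]
  simp only [ex_def, mul_add, add_mul, Matrix.mul_assoc, h1, h2, Matrix.one_mul, Matrix.mul_one, Matrix.mul_zero]
  abel

theorem ex_res {f : κ ↪ ι} {g : μ ↪ ι} (h : ∀ a b, f a ≠ g b) (A : Matrix κ κ F) (B : Matrix μ μ F) :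
    (em F f)ᵀ * (ex f A * ex g B) * em F f = A := by
  have h0 : ∀ X : Matrix κ κ F, (em F f)ᵀ * (em F f * X) = X := fun X => by
    rw [← Matrix.mul_assoc, em_em, Matrix.one_mul]
  have h2 := em_disj (F := F) fun a b => (h b a).symm
  simp only [ex_def, mul_add, add_mul, Matrix.mul_add, Matrix.add_mul, Matrix.mul_assoc, h0, h2, em_em, Matrix.one_mul,
    Matrix.mul_one, Matrix.mul_zero]
  abel

theorem ex_inj (f : κ ↪ ι) {A : Matrix κ κ F} (h : ex f A = 1) : A = 1 := by
  have := ex_res (f := f) (g := (Embedding.ofIsEmpty : Empty ↪ ι)) (fun _ b => b.elim) A 1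
  rwa [h, map_one, mul_one, Matrix.mul_one, em_em, eq_comm] at this

theorem ex_form (f : κ ↪ ι) {S : Matrix ι ι F} {T : Matrix κ κ F} (h1 : S * em F f = em F f * T)
    (h2 : (em F f)ᵀ * S = T * (em F f)ᵀ) {A : Matrix κ κ F} (h : A * T * Aᵀ = T) : ex f A * S * (ex f A)ᵀ = S := by
  have h0 : ∀ X : Matrix κ ι F, (em F f)ᵀ * (em F f * X) = X := fun X => by
    rw [← Matrix.mul_assoc, em_em, Matrix.one_mul]
  have h3 : ∀ X : Matrix κ ι F, S * (em F f * X) = em F f * (T * X) := fun X => by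
    rw [← Matrix.mul_assoc, h1, Matrix.mul_assoc]
  have h4 : A * (T * (Aᵀ * (em F f)ᵀ)) = T * (em F f)ᵀ := by simp only [← Matrix.mul_assoc, h]
  simp only [ex_def, transpose_add, transpose_mul, transpose_sub, transpose_one, transpose_transpose, mul_add, add_mul,
    Matrix.mul_sub, Matrix.sub_mul, Matrix.mul_assoc, h0, h2, h3, h4, Matrix.one_mul, Matrix.mul_one]
  abel

/-- block embedding of special linear groups -/
def blk (f : κ ↪ ι) : SpecialLinearGroup κ F →* SpecialLinearGroup ι F :=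
  ((ex f).comp (Submonoid.subtype _ : (MonoidHom.mker (detMonoidHom : Matrix κ κ F →* F)) →* _)).codRestrict
    (MonoidHom.mker (detMonoidHom : Matrix ι ι F →* F)) fun g => (ex_det f _).trans g.2

theorem blk_val (f : κ ↪ ι) (g : SpecialLinearGroup κ F) : (blk f g).1 = ex f g.1 := rfl

theorem blk_tr (f : κ ↪ ι) {a b : κ} (h : a ≠ b) (t : F) : blk f (SpecialLinearGroup.transvection h t) =
    SpecialLinearGroup.transvection (f.injective.ne h) t :=
  Subtype.ext ((ex_one_add f _).trans (by rw [em_single]; rfl))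

theorem em_sum (f : κ ↪ ι) : em F (f.sumMap f) = fromBlocks (em F f) 0 0 (em F f) := by
  ext (a | a) (b | b) <;> simp [em]

/-- block embedding of symplectic groups -/
def spb (f : κ ↪ ι) : symplecticGroup κ F →* symplecticGroup ι F where
  toFun g := ⟨ex (f.sumMap f) g.1, SymplecticGroup.mem_iff.2
    (ex_form _ (by rw [em_sum]; simp [J, fromBlocks_multiply])
      (by rw [em_sum]; simp [J, fromBlocks_multiply, fromBlocks_transpose]) (SymplecticGroup.mem_iff.1 g.2))⟩
  map_one' := Subtype.ext (map_one _)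
  map_mul' _ _ := Subtype.ext (map_mul _ _ _)

theorem spb_val (f : κ ↪ ι) (g : symplecticGroup κ F) : (spb f g).1 = ex (f.sumMap f) g.1 := rfl

theorem spb_inj (f : κ ↪ ι) {g : symplecticGroup κ F} (h : spb f g = 1) : g = 1 :=
  Subtype.ext (ex_inj _ (congrArg Subtype.val h))

/-- a hyperbolic pair -/
def hp (i : ι) : Fin 2 ↪ ι ⊕ ι := ⟨![.inl i, .inr i], by intro a b; fin_cases a <;> fin_cases b <;> simp⟩

omit [Fintype ι] [DecidableEq ι] in
theorem hp0 (i : ι) : hp i 0 = .inl i := rfl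
omit [Fintype ι] [DecidableEq ι] in
theorem hp1 (i : ι) : hp i 1 = .inr i := rfl

/-- the long root subgroup -/
def lon (i : ι) : SL(2, F) →* symplecticGroup ι F where
  toFun g := ⟨ex (hp i) g.1, SymplecticGroup.mem_iff.2 (ex_form _ (T := !![0, -1; 1, 0])
    (by ext (a | a) b <;> fin_cases b <;> simp [em, J, mul_apply, one_apply, hp0, hp1]; split_ifs <;> simp)
    (by ext b (a | a) <;> fin_cases b <;> simp [em, J, mul_apply, one_apply, hp0, hp1]; split_ifs <;> simp)
    (by have := g.2; rw [det_fin_two] at this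
        ext a b; fin_cases a <;> fin_cases b <;> simp [mul_apply] <;> grind))⟩
  map_one' := Subtype.ext (map_one _)
  map_mul' _ _ := Subtype.ext (map_mul _ _ _)

theorem lon_val (i : ι) (g : SL(2, F)) : (lon i g).1 = ex (hp i) g.1 := rfl

theorem lon_tr (i : ι) {a b : Fin 2} (h : a ≠ b) (t : F) :
    (lon i (SpecialLinearGroup.transvection h t)).1 = 1 + single (hp i a) (hp i b) t :=
  (ex_one_add _ _).trans (by rw [em_single])

/-- the Levi subgroup -/
def lev : SpecialLinearGroup ι F →* symplecticGroup ι F := (CA.H22Embed.leviSp ι F).comp SpecialLinearGroup.toGL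

theorem lev_inj : Injective (lev : SpecialLinearGroup ι F →* _) :=
  (CA.H22Embed.leviSp_injective ι).comp SpecialLinearGroup.toGL_injective

theorem lev_val (g : SpecialLinearGroup ι F) : (lev g).1 = fromBlocks g.1 0 0 (g⁻¹).1ᵀ := rfl

theorem lev_tr {a b : ι} (h : a ≠ b) (t : F) : (lev (SpecialLinearGroup.transvection h t)).1 =
    1 + (single (.inl a) (.inl b) t + single (.inr b) (.inr a) (-t)) := by
  have : (SpecialLinearGroup.transvection h t)⁻¹ = SpecialLinearGroup.transvection h (-t) :=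
    inv_eq_of_mul_eq_one_right (Subtype.ext ((transvection_mul_transvection_same a b h t (-t)).trans (by simp)))
  rw [lev_val, this]
  ext (x | x) (y | y) <;> simp [SpecialLinearGroup.transvection, transvection, one_apply, single_apply, and_comm, eq_comm]

theorem sl_ext {G : Type*} [Group G] {φ ψ : SpecialLinearGroup ι F →* G}
    (h : ∀ a b (h : a ≠ b) t, φ (SpecialLinearGroup.transvection h t) = ψ (SpecialLinearGroup.transvection h t)) :
    φ = ψ := MonoidHom.ext fun g => (CA.SLnGen.eq_top_of_transvection (H := φ.eqLocus ψ) h).ge (mem_top g)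

theorem spb_lev (f : κ ↪ ι) : (spb f).comp lev = (lev (F := F)).comp (blk f) := sl_ext fun a b h t => Subtype.ext (by
  simp only [MonoidHom.comp_apply, spb_val, blk_tr, lev_tr, ex_one_add, Matrix.mul_add, Matrix.add_mul, em_single]; rfl)

theorem spb_lon (f : κ ↪ ι) (i : κ) : (spb f).comp (lon i) = lon (F := F) (f i) := sl_ext fun a b h t => Subtype.ext (by
  simp only [MonoidHom.comp_apply, spb_val, lon_tr, ex_one_add, em_single]
  fin_cases a <;> fin_cases b <;> rfl)

theorem lev_blk (f : κ ↪ ι) (g : SpecialLinearGroup κ F) : (lev (blk f g)).1 = ex (f.sumMap f) (lev g).1 :=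
  congrArg Subtype.val (DFunLike.congr_fun (spb_lev f) g).symm

theorem disj {f : κ ↪ ι} {i : ι} (h : ∀ a, f a ≠ i) (a : κ ⊕ κ) (b : Fin 2) : f.sumMap f a ≠ hp i b := by
  rcases a with a | a <;> fin_cases b <;> simp [hp0, hp1, h]

theorem lev_lon_comm {f : κ ↪ ι} {i : ι} (h : ∀ a, f a ≠ i) (g : SpecialLinearGroup κ F) (y : SL(2, F)) :
    Commute (lev (blk f g)) (lon i y) :=
  Subtype.ext (by simp only [Submonoid.coe_mul, lev_blk, lon_val]; exact ex_comm (disj h) _ _)

theorem lev_lon_inj {f : κ ↪ ι} {i : ι} (h : ∀ a, f a ≠ i) {g : SpecialLinearGroup κ F} {y : SL(2, F)}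
    (e : lev (blk f g) * lon i y = 1) : g = 1 ∧ y = 1 := by
  have e' : ex (f.sumMap f) (lev g).1 * ex (hp i) y.1 = 1 := by rw [← lev_blk]; exact congrArg Subtype.val e
  have h1 := ex_res (disj h) (lev g).1 y.1
  rw [e', Matrix.mul_one, em_em] at h1
  obtain rfl : g = 1 := lev_inj (Subtype.ext (h1.symm.trans (by simp)))
  exact ⟨rfl, Subtype.ext (ex_inj _ (by simpa using e'))⟩

section UP
open CA.Chev Cfsg.Lie Cfsg.Lie.ChevalleyDatum

variable {l : ℕ}

theorem xC (hl : 2 ≤ l) {a d : Fin l ⊕ Fin l} (h : a ≠ d) (t : F) : (clC l hl).model.x (μS a - μS d) t =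
    1 + (single a d (t * (clC l hl).s a d) +
      single d.swap a.swap (if a = d.swap then 0 else t * (clC l hl).s d.swap a.swap)) := by
  have hs : ∀ a : Fin l ⊕ Fin l, a.swap ≠ a := by rintro (a | a) <;> simp
  have h2 : (clC l hl).s a d ≠ 0 := by simp only [clC]; split_ifs <;> simp
  have e1 : (clC l hl).model.e (μS a - μS d) = _ := (clC l hl).e_eq h
  have e2 : (clC l hl).model.q (μS a - μS d) = 0 := by
    have := ((clC l hl).model.sq_eq ((clC l hl).mem_Φ'.2 ⟨a, d, h, h2, rfl⟩)).symm.trans ((clC l hl).e_sq h (hs d))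
    rw [if_neg (show ¬ (clC l hl).σ a = a from hs a), single_zero] at this
    exact cancel_smul 2 two_ne_zero this
  have e3 : ∀ a d (c : ℤ), Model.cm F (single a d c) = single (a : Fin l ⊕ Fin l) d (c : F) := fun a d c =>
    map_single _ _ _ (Int.castRingHom F)
  have w1 : ∀ d, (clC l hl).w d = 1 := fun d => if_neg (hs d)
  rw [Model.x, e1, e2, map_add, e3, e3, w1, w1, map_zero, smul_zero, add_zero, smul_add, smul_single, smul_single]
  congr 3
  · simp
  · change _ * ((if a = d.swap then _ else _ : ℤ) : F) = _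
    split_ifs <;> simp [clC]

/-- the upper or lower root element attached to a node -/
def rel (hl : 2 ≤ l) (s : Bool) (k : Fin l) (t : F) : Coprod (SpecialLinearGroup (Fin l) F) SL(2, F) :=
  if h : k.val + 1 < l then Coprod.inl (if s then SpecialLinearGroup.transvection (i := k) (j := ⟨k + 1, h⟩)
    (by simp [Fin.ext_iff]) (-t) else SpecialLinearGroup.transvection (i := ⟨k + 1, h⟩) (j := k) (by simp [Fin.ext_iff]) (-t))
  else Coprod.inr (if s then SpecialLinearGroup.transvection (i := 0) (j := 1) (by simp) t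
    else SpecialLinearGroup.transvection (i := 1) (j := 0) (by simp) t)

theorem rel_eq (hl : 2 ≤ l) [Finite F] {e : (clC l hl).model.D.SteinbergCover F →* symplecticGroup (Fin l) F}
    (he : ∀ g, (e g).1 = (clC l hl).model.ρ F g) (k : Fin l) (t : F) :
    e ((stC _ F).x (sim (D := (clC l hl).model.D) k) t) = Coprod.lift lev (lon (clC l hl).lst) (rel hl true k t) ∧
    e ((stC _ F).x (ng (sim (D := (clC l hl).model.D) k)) t) =
      Coprod.lift lev (lon (clC l hl).lst) (rel hl false k t) := by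
  let M := (clC l hl).model
  have h1 : ∀ a d, a ≠ d → (e ((stC _ F).x (M.ι (μS a - μS d)) t)).1 = M.x (μS a - μS d) t := fun a d h =>
    (he _).trans (M.ρ_x ((clC l hl).mem_Φ'.2 ⟨a, d, h, by simp only [clC]; split_ifs <;> simp, rfl⟩) t)
  rw [M.sim_ι, M.ng_ι (M.p_mem k), rel, rel]
  have hp : M.p k = pR 1 k := rfl
  split_ifs with h h' h' <;> try contradiction
  · have h2 : M.p k = μS (.inl k) - μS (.inl ⟨k + 1, h⟩) := by simp [hp, pR, h.ne, μS, ← ep_eq]
    have h3 : k ≠ ⟨k + 1, h⟩ := by simp [Fin.ext_iff]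
    rw [h2, neg_sub]
    constructor <;> refine Subtype.ext ((h1 _ _ (by simp [h3, h3.symm])).trans ((xC hl (by simp [h3, h3.symm]) t).trans ?_)) <;>
      simp [lev_tr, clC]
  · obtain rfl : k = (clC l hl).lst := Fin.ext (by simp; omega)
    have h2 : M.p (clC l hl).lst = μS (.inl (clC l hl).lst) - μS (.inr (clC l hl).lst) := by
      simp [hp, pR, μS, ← ep_eq, show l - 1 + 1 = l by omega, ep_ge]
    rw [h2, neg_sub]
    constructor <;> refine Subtype.ext ((h1 _ _ (by simp)).trans ((xC hl (by simp) t).trans ?_)) <;>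
      simp [lon_tr, clC, hp0, hp1]

theorem sp_gen (hl : 2 ≤ l) [Finite F] : Surjective (Coprod.lift lev (lon (clC l hl).lst) :
    Coprod (SpecialLinearGroup (Fin l) F) SL(2, F) →* _) := by
  obtain ⟨e, hs, -, he⟩ := exists_spC hl F
  intro g
  obtain ⟨g, rfl⟩ := hs g
  exact (stC _ F).G_le_of_sim (M := (Coprod.lift lev (lon (clC l hl).lst)).range.comap e)
    (fun i t => ⟨_, (rel_eq hl he i t).1.symm⟩) (fun i t => ⟨_, (rel_eq hl he i t).2.symm⟩) (stC_G.ge (mem_top g))

theorem eq_top_adj {H : Subgroup (SpecialLinearGroup (Fin l) F)} (h : ∀ (a b : Fin l) (e : a ≠ b), b.val = a + 1 → ∀ t,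
    SpecialLinearGroup.transvection e t ∈ H ∧ SpecialLinearGroup.transvection e.symm t ∈ H) : H = ⊤ := by
  have key : ∀ (m : ℕ) (a b : Fin l) (e : a ≠ b), b.val = a + m + 1 → ∀ t,
      SpecialLinearGroup.transvection e t ∈ H ∧ SpecialLinearGroup.transvection e.symm t ∈ H := fun m => by
    induction m with
    | zero => exact h
    | succ m ih =>
      intro a b e hb t
      have e1 : a ≠ ⟨a + m + 1, by omega⟩ := by simp [Fin.ext_iff]; omega
      have e2 : (⟨a + m + 1, by omega⟩ : Fin l) ≠ b := by simp [Fin.ext_iff]; omega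
      have h1 := ih _ _ e1 rfl
      have h2 := h _ _ e2 hb
      rw [← mul_one t, ← CA.SLnGen.commutator_transvection e e1 e2, ← CA.SLnGen.commutator_transvection e.symm e2.symm e1.symm]
      exact ⟨mul_mem (mul_mem (mul_mem (h1 _).1 (h2 _).1) (inv_mem (h1 _).1)) (inv_mem (h2 _).1),
        mul_mem (mul_mem (mul_mem (h2 _).2 (h1 _).2) (inv_mem (h2 _).2)) (inv_mem (h1 _).2)⟩
  refine CA.SLnGen.eq_top_of_transvection fun a b e t => ?_
  rcases lt_or_gt_of_ne (Fin.val_ne_of_ne e) with h | h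
  exacts [(key (b - a - 1) a b e (by omega) t).1, (key (a - b - 1) b a e.symm (by omega) t).2]

/-- the universal property of the symplectic group -/
theorem sp_up [Finite F] {n : ℕ} (hn : 1 ≤ n) {J : Type*} [Group J] (ψ : SpecialLinearGroup (Fin (n + 2)) F →* J)
    (lam : SL(2, F) →* J) (hc : ∀ g y, Commute (ψ (blk Fin.castSuccEmb g)) (lam y))
    (Φ : symplecticGroup (Fin 2) F →* J) (h1 : Φ.comp lev = ψ.comp (blk (Fin.natAddEmb n))) (h2 : Φ.comp (lon 1) = lam) :
    ∃ σ : symplecticGroup (Fin (n + 2)) F →* J, σ.comp lev = ψ ∧ σ.comp (lon (Fin.last _)) = lam := by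
  have hl : 2 ≤ n + 2 := by omega
  obtain ⟨e, hs, hi, he⟩ := exists_spC hl F
  have hr := rel_eq hl he
  change ∀ k t, _ = Coprod.lift lev (lon (Fin.last _)) _ ∧ _ = Coprod.lift lev (lon (Fin.last _)) _ at hr
  let T := (Coprod.lift (lev (F := F)) (lon (Fin.last (n + 1)))).prod (Coprod.lift ψ lam)
  obtain ⟨σ, hσ⟩ := ct_up (MulEquiv.ofBijective e ⟨hi (by omega), hs⟩) (fun k t => Coprod.lift ψ lam (rel hl true k t))
    (fun k t => Coprod.lift ψ lam (rel hl false k t)) fun (i j : Fin (n + 2)) => by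
      suffices h : ∃ Q : Subgroup (_ × J), (∀ q ∈ Q, q.1 = 1 → q.2 = 1) ∧ ∀ k : Fin (n + 2), k = i ∨ k = j → ∀ s t,
          T (rel hl s k t) ∈ Q by
        obtain ⟨Q, a, b⟩ := h
        exact ⟨Q, a, fun k hk t => ⟨(congrArg (fun x => (x, _) ∈ Q) (hr k t).1).mpr (b k hk true t),
          (congrArg (fun x => (x, _) ∈ Q) (hr k t).2).mpr (b k hk false t)⟩⟩
      by_cases c1 : i.val ≠ n + 1 ∧ j.val ≠ n + 1
      · refine ⟨(lev.prod ψ).range, ?_, fun k hk s t => ?_⟩
        · rintro _ ⟨g, rfl⟩ h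
          rw [show g = 1 from lev_inj (h.trans (map_one _).symm), map_one]; rfl
        · rw [rel, dif_pos (by rcases hk with rfl | rfl <;> omega)]
          exact ⟨_, rfl⟩
      by_cases c2 : i.val ≠ n ∧ j.val ≠ n
      · have hd : ∀ a : Fin (n + 1), Fin.castSuccEmb a ≠ Fin.last _ := fun a => (Fin.castSucc_lt_last a).ne
        refine ⟨(((lev.prod ψ).comp (blk Fin.castSuccEmb)).noncommCoprod ((lon (Fin.last _)).prod lam) fun g y =>
          (lev_lon_comm hd g y).prod (hc g y)).range, ?_, fun k hk s t => ?_⟩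
        · rintro _ ⟨⟨g, y⟩, rfl⟩ h
          obtain ⟨rfl, rfl⟩ := lev_lon_inj hd h
          exact congrArg Prod.snd (map_one _)
        rw [rel]
        split_ifs with h h' h'
        · have h3 : k.val + 1 < n + 1 := by rcases hk with rfl | rfl <;> omega
          refine ⟨(SpecialLinearGroup.transvection (i := ⟨k, by omega⟩) (j := ⟨k + 1, h3⟩) (by simp) (-t), 1), ?_⟩
          simp [blk_tr, T]
        · have h3 : k.val + 1 < n + 1 := by rcases hk with rfl | rfl <;> omega
          refine ⟨(SpecialLinearGroup.transvection (j := ⟨k, by omega⟩) (i := ⟨k + 1, h3⟩) (by simp) (-t), 1), ?_⟩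
          simp [blk_tr, T]
        all_goals exact ⟨(1, _), by simp [T]; exact ⟨rfl, rfl⟩⟩
      refine ⟨((spb (Fin.natAddEmb n)).prod Φ).range, ?_, fun k hk s t => ?_⟩
      · rintro _ ⟨g, rfl⟩ h
        rw [spb_inj _ h, map_one]; rfl
      have a1 : ∀ g, ((spb (Fin.natAddEmb n)).prod Φ) (lev g) = T (Coprod.inl (blk (Fin.natAddEmb n) g)) := fun g =>
        Prod.ext (DFunLike.congr_fun (spb_lev _) g) (DFunLike.congr_fun h1 g)
      have a2 : ∀ g, ((spb (Fin.natAddEmb n)).prod Φ) (lon 1 g) = T (Coprod.inr g) := fun g =>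
        Prod.ext (DFunLike.congr_fun (spb_lon _ _) g) (DFunLike.congr_fun h2 g)
      rw [rel]
      split_ifs with h h' h'
      · obtain rfl : k = (Fin.last n).castSucc := Fin.ext (by rcases hk with rfl | rfl <;> simp <;> omega)
        exact ⟨_, (a1 (SpecialLinearGroup.transvection (i := 0) (j := 1) (by simp) (-t))).trans (by rw [blk_tr]; rfl)⟩
      · obtain rfl : k = (Fin.last n).castSucc := Fin.ext (by rcases hk with rfl | rfl <;> simp <;> omega)
        exact ⟨_, (a1 (SpecialLinearGroup.transvection (i := 1) (j := 0) (by simp) (-t))).trans (by rw [blk_tr]; rfl)⟩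
      all_goals exact ⟨_, a2 _⟩
  have h3 : ∀ s k t, σ (Coprod.lift lev (lon (Fin.last _)) (rel hl s k t)) = Coprod.lift ψ lam (rel hl s k t) := by
    rintro (_ | _) k t
    exacts [(congrArg σ (hr k t).2).symm.trans (hσ k t).2, (congrArg σ (hr k t).1).symm.trans (hσ k t).1]
  refine ⟨σ, MonoidHom.ext fun g => (eq_top_adj (H := (σ.comp lev).eqLocus ψ) fun a b e h t => ?_).ge (mem_top g),
    sl_ext fun a b e t => ?_⟩
  · have h4 : a.val + 1 < n + 2 := h ▸ b.2
    obtain rfl : b = ⟨a + 1, h4⟩ := Fin.ext h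
    refine ⟨(?_ : σ (lev _) = ψ _), (?_ : σ (lev _) = ψ _)⟩
    exacts [by simpa [rel, h4] using h3 true a (-t), by simpa [rel, h4] using h3 false a (-t)]
  · fin_cases a <;> fin_cases b <;> try exact absurd rfl e
    exacts [by simpa [rel] using h3 true (Fin.last _) t, by simpa [rel] using h3 false (Fin.last _) t]

end UP

end CA.H25Pr
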