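/-
Coordinate blocks and permutation matrices in `SU_n`.
-/
import Cfsg.Agent.Lib.Lin.Phan5
import Cfsg.Agent.Lib.Lin.H25Pr2

set_option autoImplicit false

namespace CA.H25Su

open Matrix Subgroup Monoid Function Equiv Cfsg CA.Phan CA.Prs CA.H25Pr
open scoped commutatorElement

variable {F : Type*} [Field F] {q k n : ℕ}

theorem exists_perm {κ ι : Type*} [Finite κ] (f g : κ → ι) (hf : Injective f) (h : ∀ a, ∃ b, f a = g b) :
    ∃ τ : Perm κ, ∀ a, f a = g (τ a) := by
  choose t ht using h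
  have : Injective t := fun a b e => hf (by rw [ht, ht, e])
  exact ⟨.ofBijective t (Finite.injective_iff_bijective.1 this), ht⟩

/-- `A` is the matrix `x` placed on the coordinates `f` -/
def IsB (f : Fin k → Fin n) (x : SU k F q) (A : SU n F q) : Prop :=
  (∀ a b, A.1.1 (f a) (f b) = x.1.1 a b) ∧
    ∀ i, (∀ a, i ≠ f a) → ∀ j, A.1.1 i j = (1 : Matrix _ _ F) i j ∧ A.1.1 j i = (1 : Matrix _ _ F) j i

theorem IsB.eq {f : Fin k → Fin n} {x : SU k F q} {A B : SU n F q} (h : IsB f x A) (h' : IsB f x B) : A = B := by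
  refine Subtype.ext (Subtype.ext (Matrix.ext fun i j => ?_))
  by_cases hi : ∀ a, i ≠ f a
  · rw [(h.2 i hi j).1, (h'.2 i hi j).1]
  by_cases hj : ∀ a, j ≠ f a
  · rw [(h.2 j hj i).2, (h'.2 j hj i).2]
  push Not at hi hj
  obtain ⟨a, rfl⟩ := hi; obtain ⟨b, rfl⟩ := hj
  rw [h.1, h'.1]

theorem IsB.inj {f : Fin k → Fin n} {x y : SU k F q} {A : SU n F q} (h : IsB f x A) (h' : IsB f y A) : x = y :=
  Subtype.ext (Subtype.ext (Matrix.ext fun a b => (h.1 a b).symm.trans (h'.1 a b)))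

theorem IsB.congr {f g : Fin k → Fin n} {x : SU k F q} {A : SU n F q} (h : IsB f x A) (e : ∀ a, (f a).1 = (g a).1) :
    IsB g x A := (funext fun a => Fin.ext (e a) : f = g) ▸ h

theorem IsB.comp {l : ℕ} {f : Fin k → Fin l} {g : Fin l → Fin n} {x : SU k F q} {A : SU l F q} {B : SU n F q}
    (h : IsB f x A) (h' : IsB g A B) (hg : Injective g) : IsB (g ∘ f) x B := by
  refine ⟨fun a b => (h'.1 _ _).trans (h.1 a b), fun i hi j => ?_⟩
  by_cases h1 : ∀ a, i ≠ g a
  · exact h'.2 i h1 j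
  by_cases h2 : ∀ a, j ≠ g a
  · exact (h'.2 j h2 i).symm
  push Not at h1 h2
  obtain ⟨a, rfl⟩ := h1; obtain ⟨b, rfl⟩ := h2
  have := h.2 a (fun c e => hi c (congrArg g e)) b
  rw [h'.1, h'.1, this.1, this.2]
  simp [one_apply, hg.eq_iff]

theorem isB_id (x : SU n F q) : IsB id x x := ⟨fun _ _ => rfl, fun i h => (h i rfl).elim⟩

theorem isB_emb (m : Fin (n + 1)) (x : SU n F q) : IsB m.succAbove x (emb m x) := by
  refine ⟨fun a b => by rw [emb_coe, E_ss], fun i hi j => ?_⟩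
  obtain rfl : i = m := by
    by_contra h; obtain ⟨a, e⟩ := Fin.exists_succAbove_eq h; exact hi a e.symm
  rw [emb_coe]
  rcases eq_or_ne j i with rfl | h
  · simp
  obtain ⟨a, rfl⟩ := Fin.exists_succAbove_eq h
  simp [one_apply_ne h, one_apply_ne h.symm]

theorem IsB.up {f : Fin k → Fin n} {x : SU k F q} {A : SU n F q} (h : IsB f x A) :
    IsB (fun a => (f a).castSucc) x (up n A) :=
  (h.comp (isB_emb (Fin.last n) A) Fin.succAbove_right_injective).congr fun a => by simp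

theorem IsB.lo {f : Fin k → Fin n} {x : SU k F q} {A : SU n F q} (h : IsB f x A) :
    IsB (fun a => (f a).succ) x (lo n A) :=
  (h.comp (isB_emb 0 A) Fin.succAbove_right_injective).congr fun a => by simp

theorem isB_blk3 : ∀ (m i : ℕ) (h : i ≤ m) (x : SU 3 F q),
    IsB (fun a : Fin 3 => (⟨i + a, by omega⟩ : Fin (m + 3))) x (blk3 m i x)
  | 0, 0, _, x => (isB_id x).congr fun a => by simp
  | m + 1, 0, _, x => (isB_blk3 m 0 (by omega) x).up.congr fun a => by simp
  | m + 1, i + 1, _, x => (isB_blk3 m i (by omega) x).lo.congr fun a => by simp; omega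

theorem IsB.comm {l : ℕ} {f : Fin k → Fin n} {g : Fin l → Fin n} {x : SU k F q} {y : SU l F q} {A B : SU n F q}
    (h : IsB f x A) (h' : IsB g y B) (e : ∀ a b, f a ≠ g b) : Commute A B := by
  refine comm_of_supp fun i => ?_
  by_cases hi : ∀ a, i ≠ f a
  · exact Or.inl fun j => by simpa [sub_eq_zero] using h.2 i hi j
  push Not at hi
  obtain ⟨a, rfl⟩ := hi
  exact Or.inr fun j => by simpa [sub_eq_zero] using h'.2 _ (e a) j

theorem herm_perm (σ : Perm (Fin n)) (u v : Fin n → F) : hermForm n F q (u ∘ σ) (v ∘ σ) = hermForm n F q u v :=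
  Equiv.sum_comp σ fun i => u i * v i ^ q

/-- simultaneous permutation of rows and columns -/
def cj (σ : Perm (Fin n)) (x : SU n F q) : SU n F q :=
  ⟨⟨x.1.1.submatrix σ σ, by rw [det_submatrix_equiv_self]; exact x.1.2⟩, mem_SU.2 fun u v => by
    simp only [submatrix_mulVec_equiv]
    rw [herm_perm, mem_SU.1 x.2, herm_perm]⟩

theorem exists_cj {f g : Fin k → Fin n} (hf : Injective f) (h : ∀ a, ∃ b, f a = g b) (y : SU k F q) :
    (∃ x : SU k F q, ∀ A, IsB f y A → IsB g x A) := by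
  obtain ⟨τ, hτ⟩ := exists_perm f g hf h
  refine ⟨cj τ.symm y, fun A hA => ⟨fun a b => ?_, fun i hi => hA.2 i fun a => hτ a ▸ hi _⟩⟩
  have := hA.1 (τ.symm a) (τ.symm b)
  rw [hτ, hτ] at this
  simpa [cj] using this

variable (F q) in
/-- permutation matrices -/
def pm (n : ℕ) : alternatingGroup (Fin n) →* SU n F q :=
  MonoidHom.mk' (fun σ => ⟨⟨permMatrixHom σ.1, by
      simp [det_permutation, Perm.mem_alternatingGroup.1 σ.2]⟩, mem_SU.2 fun u v => by
      simp only [permMatrixHom_apply, permMatrix_mulVec, herm_perm]⟩)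
    fun a b => Subtype.ext (Subtype.ext (map_mul permMatrixHom a.1 b.1))

theorem pm_val (σ : alternatingGroup (Fin n)) (i j : Fin n) : (pm F q n σ).1.1 i j = if i = σ.1 j then 1 else 0 := by
  change σ.1⁻¹.permMatrix F i j = _
  simp [Perm.permMatrix, PEquiv.toMatrix_apply, Equiv.symm_apply_eq, eq_comm, Perm.inv_def, Equiv.eq_symm_apply]

theorem pm_conj (σ : alternatingGroup (Fin n)) (A : SU n F q) (i j : Fin n) :
    (pm F q n σ * A * (pm F q n σ)⁻¹).1.1 (σ.1 i) (σ.1 j) = A.1.1 i j := by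
  rw [← map_inv]
  change ((pm F q n σ).1.1 * A.1.1 * (pm F q n σ⁻¹).1.1) _ _ = _
  simp only [mul_apply, pm_val]
  simp [Perm.eq_inv_iff_eq]

theorem IsB.conj {f : Fin k → Fin n} {x : SU k F q} {A : SU n F q} (h : IsB f x A) (σ : alternatingGroup (Fin n)) :
    IsB (fun a => σ.1 (f a)) x (pm F q n σ * A * (pm F q n σ)⁻¹) := by
  refine ⟨fun a b => (pm_conj σ A _ _).trans (h.1 a b), fun i hi j => ?_⟩
  obtain ⟨i, rfl⟩ := σ.1.surjective i
  obtain ⟨j, rfl⟩ := σ.1.surjective j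
  have := h.2 i (fun a e => hi a (congrArg _ e)) j
  rw [pm_conj, pm_conj, this.1, this.2]
  simp [one_apply]

end CA.H25Su
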