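/-
A presentation of `SU_5` from one of `SU_4`.
-/
import Cfsg.Agent.Lib.Lin.H25Su0
import Cfsg.Agent.Lib.Lin.SuTwo

set_option autoImplicit false

namespace CA.H25Su

open Matrix Subgroup Monoid Function Equiv Cfsg CA.Phan CA.Prs CA.H25Pr
open scoped commutatorElement

variable {F : Type*} [Field F] {q k n : ℕ}

variable [Fintype F] (hF : Fintype.card F = q ^ 2)
include hF

theorem pres5 {d r : ℕ} (h : Pres d r (SU 4 F q)) : Pres (d + 1) (r + 11) (SU 5 F q) := by
  obtain ⟨a, b, hab⟩ := CA.SuTwo.su2_two hF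
  obtain ⟨c, e, hce⟩ := CA.SuTwo.su3_two hF
  obtain ⟨g, hg⟩ : ∃ g : SU 5 F q, ∀ x, g * up 4 x * g⁻¹ = lo 4 x :=
    ⟨pm F q 5 ⟨finRotate 5, Perm.mem_alternatingGroup.2 (by decide)⟩, fun x =>
      (((isB_id x).up.conj _).congr fun a => by fin_cases a <;> rfl).eq (isB_id x).lo⟩
  obtain ⟨w, hw⟩ : g ∈ (Coprod.lift (up 4) (lo 4) : Coprod (SU 4 F q) (SU 4 F q) →* _).range := by
    rw [Coprod.range_lift, gen4 (n := 1) hF]; trivial
  let t : Coprod (SU 4 F q) (FreeGroup (Fin 1)) := Coprod.inr (.of 0)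
  let μ : SU 4 F q →* Coprod (SU 4 F q) (FreeGroup (Fin 1)) := (MulAut.conj t).toMonoidHom.comp Coprod.inl
  let r1 : SU 3 F q → Coprod (SU 4 F q) (FreeGroup (Fin 1)) := fun x => μ (up 3 x) * (Coprod.inl (lo 3 x))⁻¹
  let r2 : SU 2 F q × SU 3 F q → Coprod (SU 4 F q) (FreeGroup (Fin 1)) := fun x =>
    ⁅(Coprod.inl (up 3 (up 2 x.1)) : Coprod (SU 4 F q) (FreeGroup (Fin 1))), μ (lo 3 x.2)⁆
  let r3 : SU 2 F q × SU 3 F q → Coprod (SU 4 F q) (FreeGroup (Fin 1)) := fun x =>
    ⁅(Coprod.inl (up 3 x.2) : Coprod (SU 4 F q) (FreeGroup (Fin 1))), μ (lo 3 (lo 2 x.1))⁆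
  let L := [(a, c), (a, e), (b, c), (b, e)]
  have key : ∀ x, Coprod.lift (up 4) (FreeGroup.lift fun _ => g) (μ x) = lo 4 x := fun x => by
    rw [← hg]; simp [μ, t]
  refine (h.ext (up 4) (fun _ => g) (([c, e].map r1 ++ L.map r2) ++ (L.map r3 ++ [Coprod.lift Coprod.inl μ w * t⁻¹]))
    (fun v hv => ?_) ?_ fun J _ ψ ξ hW => ?_).mono (by simp [L])
  · have a1 : ∀ x, Coprod.lift (up 4) (FreeGroup.lift fun _ => g) (r1 x) = 1 := fun x => by
      simp only [r1, map_mul, map_inv, key, Coprod.lift_apply_inl]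
      exact mul_inv_eq_one.2 (up_lo x).symm
    have a2 : ∀ x, Coprod.lift (up 4) (FreeGroup.lift fun _ => g) (r2 x) = 1 := fun x => by
      simp only [r2, map_commutatorElement, key, Coprod.lift_apply_inl]
      exact (blk3_comm (m := 2) (i := 0) (j := 2) le_rfl (Or.inl ⟨le_rfl, Or.inl ⟨x.1, rfl⟩⟩)).commutator_eq
    have a3 : ∀ x, Coprod.lift (up 4) (FreeGroup.lift fun _ => g) (r3 x) = 1 := fun x => by
      simp only [r3, map_commutatorElement, key, Coprod.lift_apply_inl]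
      exact (blk3_comm (m := 2) (i := 0) (j := 2) le_rfl (Or.inl ⟨le_rfl, Or.inr ⟨x.1, rfl⟩⟩)).commutator_eq
    have a4 : Coprod.lift (up 4) (FreeGroup.lift fun _ => g) (Coprod.lift Coprod.inl μ w * t⁻¹) = 1 := by
      have : (Coprod.lift (up 4) (FreeGroup.lift fun _ => g)).comp (Coprod.lift Coprod.inl μ) =
          Coprod.lift (up 4) (lo 4) := Coprod.hom_ext rfl (MonoidHom.ext key)
      rw [map_mul, show Coprod.lift _ _ (Coprod.lift _ _ w) = _ from DFunLike.congr_fun this w, hw]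
      simp [t]
    simp only [List.mem_append, List.mem_map, List.mem_singleton] at hv
    rcases hv with (⟨x, -, rfl⟩ | ⟨x, -, rfl⟩) | ⟨x, -, rfl⟩ | rfl
    exacts [a1 _, a2 _, a3 _, a4]
  · rw [eq_top_iff, ← gen4 (n := 1) hF]
    refine sup_le (by rintro _ ⟨x, rfl⟩; exact subset_closure (Or.inl ⟨x, rfl⟩)) ?_
    rintro _ ⟨x, rfl⟩
    rw [← hg]
    exact mul_mem (mul_mem (subset_closure (Or.inr ⟨0, rfl⟩)) (subset_closure (Or.inl ⟨x, rfl⟩)))
      (inv_mem (subset_closure (Or.inr ⟨0, rfl⟩)))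
  · let ψ' := (Coprod.lift ψ (FreeGroup.lift ξ)).comp μ
    have b1 : ψ'.comp (up 3) = ψ.comp (lo 3) := MonoidHom.eq_of_eqOn_dense hce fun x hx => by
      have := hW (r1 x) (List.mem_append_left _ (List.mem_append_left _ (List.mem_map_of_mem (by simpa using hx))))
      rwa [map_mul, map_inv, mul_inv_eq_one] at this
    have hL : ∀ x ∈ ({a, b} : Set _), ∀ y ∈ ({c, e} : Set _), (x, y) ∈ L := by
      rintro _ (rfl | rfl) _ (rfl | rfl) <;> simp [L]
    have b2 := comm_of_gen hab hce ((ψ.comp (up 3)).comp (up 2)) (ψ'.comp (lo 3)) fun x hx y hy => by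
      have := hW _ (List.mem_append_left _ (List.mem_append_right _ (List.mem_map_of_mem (hL x hx y hy))))
      rwa [map_commutatorElement, commutatorElement_eq_one_iff_commute] at this
    have b3 := comm_of_gen hce hab (ψ.comp (up 3)) ((ψ'.comp (lo 3)).comp (lo 2)) fun y hy x hx => by
      have := hW _ (List.mem_append_right _ (List.mem_append_left _ (List.mem_map_of_mem (hL x hx y hy))))
      rwa [map_commutatorElement, commutatorElement_eq_one_iff_commute] at this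
    obtain ⟨Φ, hΦ⟩ := univ5 hF 1 (fun i => match i with | 0 => ψ.comp (up 3) | 1 => ψ.comp (lo 3) | _ => ψ'.comp (lo 3))
      (fun i hi => by
        interval_cases i
        exacts [⟨ψ, rfl, rfl⟩, ⟨ψ', b1, rfl⟩])
      (fun i j h1 h2 x y => by
        obtain ⟨rfl, rfl⟩ : i = 0 ∧ j = 2 := by omega
        exact ⟨b2 x y, b3 y x⟩) (fun i j h1 h2 => by omega)
    have c1 : Φ.comp (up 4) = ψ := blk3_ext hF 1 _ _ fun i hi => by
      interval_cases i
      · exact hΦ 0 (by omega)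
      · exact (MonoidHom.ext fun x => (congrArg Φ (up_lo x) : Φ (up 4 (lo 3 x)) = Φ (lo 4 (up 3 x)))).trans
          (hΦ 1 (by omega))
    have c2 : Φ.comp (lo 4) = ψ' := blk3_ext hF 1 _ _ fun i hi => by
      interval_cases i
      · exact (hΦ 1 (by omega)).trans b1.symm
      · exact hΦ 2 (by omega)
    refine ⟨Φ, c1, fun i => ?_⟩
    have := hW _ (List.mem_append_right _ (List.mem_append_right _ (List.mem_singleton_self _)))
    rw [map_mul, map_inv, mul_inv_eq_one] at this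
    rw [← hw, Subsingleton.elim i 0, show ξ 0 = Coprod.lift ψ (FreeGroup.lift ξ) t by simp [t], ← this]
    exact DFunLike.congr_fun (show Φ.comp (Coprod.lift (up 4) (lo 4)) =
      (Coprod.lift ψ (FreeGroup.lift ξ)).comp (Coprod.lift Coprod.inl μ) from Coprod.hom_ext c1 c2) w

end CA.H25Su
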