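/-
`SU_n` as a quotient of the free product of `SU_4` and `A_n`.
-/
import Cfsg.Agent.Lib.Lin.H25Su0
import Cfsg.Agent.Lib.Lin.SuTwo
import Cfsg.Agent.Lib.Solv.AltD

set_option autoImplicit false

namespace CA.H25Su

open Matrix Subgroup Monoid Function Equiv Equiv.Perm Cfsg CA.Phan CA.Prs CA.H25Pr
open scoped commutatorElement

theorem alt_top {n : ℕ} (E : Subgroup (alternatingGroup (Fin (n + 2))))
    (h : ∀ (i : Fin n) (c : alternatingGroup (Fin (n + 2))),
      c.1 = swap i.castSucc.castSucc i.succ.castSucc * swap i.castSucc.succ i.succ.succ → c ∈ E) : E = ⊤ := by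
  let s : Fin (n + 1) → Perm (Fin (n + 2)) := fun i => swap i.castSucc i.succ
  let E' := E.map (alternatingGroup _).subtype
  have a : ∀ i, s 0 * s i ∈ E' := fun i => by
    induction i using Fin.induction with
    | zero => simp [s]
    | succ i ih =>
      have : s i.castSucc * s i.succ ∈ E' := ⟨⟨_, by simp [s, Fin.ext_iff]⟩, h i _ rfl, rfl⟩
      simpa [s, mul_assoc] using mul_mem ih this
  have b : ∀ σ : Perm (Fin (n + 2)), σ ∈ E' ∨ s 0 * σ ∈ E' := fun σ => by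
    induction (mclosure_swap_castSucc_succ (n + 1)).ge (Submonoid.mem_top σ) using Submonoid.closure_induction_left with
    | one => exact .inl (one_mem _)
    | mul_left x hx y _ ih =>
      obtain ⟨i, rfl⟩ := hx
      rcases ih with ih | ih
      · exact .inr (by rw [← mul_assoc]; exact mul_mem (a i) ih)
      · exact .inl (by simpa [s, mul_assoc] using mul_mem (inv_mem (a i)) (show s 0 * s 0 * (s 0 * y) ∈ E' by
          simpa [s] using ih))
  refine top_unique fun σ _ => ?_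
  rcases b σ with ⟨τ, h, e⟩ | ⟨τ, -, e⟩
  · rwa [← Subtype.ext e]
  · have := congrArg sign e
    simp [s, mem_alternatingGroup.1 τ.2, mem_alternatingGroup.1 σ.2] at this

variable {F : Type*} [Field F] {q k n : ℕ}

theorem sign_via (f : Fin k ↪ Fin n) (s : Perm (Fin k)) : sign (s.viaEmbedding f) = sign s := by
  classical
  unfold viaEmbedding
  convert sign_extendDomain s (ofInjective f.1 f.2)

/-- extension of even permutations by the identity -/
noncomputable def ia (f : Fin k ↪ Fin n) : alternatingGroup (Fin k) →* alternatingGroup (Fin n) :=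
  ((viaEmbeddingHom f).comp (alternatingGroup _).subtype).codRestrict _ fun s =>
    mem_alternatingGroup.2 ((sign_via f s.1).trans (mem_alternatingGroup.1 s.2))

theorem ia_in (f : Fin k ↪ Fin n) (s : alternatingGroup (Fin k)) (a : Fin k) : (ia f s).1 (f a) = f (s.1 a) :=
  viaEmbedding_apply _ _ _

theorem ia_out (f : Fin k ↪ Fin n) (s : alternatingGroup (Fin k)) {i : Fin n} (h : ∀ a, i ≠ f a) : (ia f s).1 i = i :=
  viaEmbedding_apply_of_notMem _ _ _ fun ⟨a, e⟩ => h a e.symm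

theorem isB_pm {f : Fin k → Fin n} (hf : Injective f) {s : alternatingGroup (Fin k)} {σ : alternatingGroup (Fin n)}
    (h1 : ∀ a, σ.1 (f a) = f (s.1 a)) (h2 : ∀ i, (∀ a, i ≠ f a) → σ.1 i = i) : IsB f (pm F q k s) (pm F q n σ) := by
  refine ⟨fun a b => by simp [pm_val, h1, hf.eq_iff], fun i hi j => ?_⟩
  rw [pm_val, pm_val, h2 i hi]
  exact ⟨if_congr (by rw [← σ.1.injective.eq_iff (a := i) (b := j), h2 i hi]) rfl rfl, rfl⟩

theorem pm_inj : Injective (pm F q n) := fun a b h => Subtype.ext (Equiv.ext fun i => by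
  have := pm_val (F := F) (q := q) a (a.1 i) i
  rw [h, pm_val, if_pos rfl] at this
  by_contra e
  exact zero_ne_one (by rwa [if_neg e] at this))

theorem exa {f g : Fin k → Fin n} (hf : Injective f) (hg : Injective g) (h : k + 2 ≤ n) :
    ∃ σ : alternatingGroup (Fin n), ∀ a, σ.1 (f a) = g a := by
  have := alternatingGroup.isMultiplyPretransitive (Fin n)
  have : MulAction.IsMultiplyPretransitive (alternatingGroup (Fin n)) (Fin n) k :=
    MulAction.isMultiplyPretransitive_of_le (n := Nat.card (Fin n) - 2) (by simp; omega) (by simp)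
  obtain ⟨σ, hσ⟩ := MulAction.isMultiplyPretransitive_iff.1 this ⟨f, hf⟩ ⟨g, hg⟩
  exact ⟨σ, fun a => DFunLike.congr_fun hσ a⟩

theorem exs (σ : Perm (Fin (n + 2))) : ∃ τ : alternatingGroup (Fin (n + 2)),
    ∀ i, ∃ z, τ.1 z = σ i ∧ (2 ≤ i.1 → z = i) ∧ (i.1 < 2 → z.1 < 2) := by
  rcases Int.units_eq_one_or (sign σ) with h | h
  · exact ⟨⟨σ, mem_alternatingGroup.2 h⟩, fun i => ⟨i, rfl, fun _ => rfl, id⟩⟩
  refine ⟨⟨σ * swap 0 1, mem_alternatingGroup.2 (by simp [h])⟩, fun i => ⟨swap 0 1 i, by simp, fun h => ?_, fun h => ?_⟩⟩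
  · exact swap_apply_of_ne_of_ne (by rintro rfl; simp at h) (by rintro rfl; simp at h)
  · rw [swap_apply_def]; split_ifs <;> simp [h]

/-- the upper left block of size four -/
def b4 : (m : ℕ) → (SU 4 F q →* SU (m + 4) F q)
  | 0 => MonoidHom.id _
  | m + 1 => (up (m + 4)).comp (b4 m)

/-- the first coordinates -/
def ee (k m : ℕ) : Fin k ↪ Fin (m + k) := Fin.castLEEmb (by omega)

theorem isB_b4 : ∀ (m : ℕ) (x : SU 4 F q), IsB (ee 4 m) x (b4 m x)
  | 0, x => (isB_id x).congr fun _ => rfl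
  | m + 1, x => (isB_b4 m x).up.congr fun _ => rfl

/-- the first three coordinates -/
def e3 (m : ℕ) (a : Fin 3) : Fin (m + 4) := ee 4 m a.castSucc

theorem e3_inj (m : ℕ) : Injective (e3 m) := (ee 4 m).injective.comp (Fin.castSucc_injective 3)

theorem isB_b3 (m : ℕ) (x : SU 3 F q) : IsB (e3 m) x (b4 m (up 3 x)) :=
  (isB_id x).up.comp (isB_b4 m _) (ee 4 m).injective

section UP

variable {m : ℕ} {J : Type*} [Group J] (ψ : SU 4 F q →* J) (α : alternatingGroup (Fin (m + 4)) →* J)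

/-- the graph of `ψ`, conjugated -/
def KK (σ : alternatingGroup (Fin (m + 4))) : SU 4 F q →* SU (m + 4) F q × J :=
  (MulAut.conj ((pm F q (m + 4)).prod α σ)).toMonoidHom.comp ((b4 m).prod ψ)

theorem KK_mul (σ τ) (x : SU 4 F q) : KK ψ α (σ * τ) x = MulAut.conj ((pm F q (m + 4)).prod α σ) (KK ψ α τ x) := by
  simp [KK, mul_assoc]

theorem KK_snd (σ) (x : SU 4 F q) : (KK ψ α σ x).2 = α σ * ψ x * (α σ)⁻¹ := rfl

theorem KK_fst (σ) (x : SU 4 F q) : (KK ψ α σ x).1 = pm F q _ σ * b4 m x * (pm F q _ σ)⁻¹ := rfl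

theorem IsB.kk {f : Fin k → Fin 4} {x : SU k F q} {A : SU 4 F q} (h : IsB f x A) (σ) :
    IsB (fun a => σ.1 (ee 4 m (f a))) x (KK ψ α σ A).1 := (h.comp (isB_b4 m _) (ee 4 m).injective).conj σ

theorem isB_K (σ) (x : SU 3 F q) : IsB (fun a => σ.1 (e3 m a)) x (KK ψ α σ (up 3 x)).1 := (isB_b3 m x).conj σ

variable {ψ α}

theorem KK_ia (H1 : ∀ s, α (ia (ee 4 m) s) = ψ (pm F q 4 s)) (σ s) (x : SU 4 F q) :
    KK ψ α (σ * ia (ee 4 m) s) x = KK ψ α σ (pm F q 4 s * x * (pm F q 4 s)⁻¹) := by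
  have : pm F q _ (ia (ee 4 m) s) = b4 m (pm F q 4 s) :=
    (isB_pm (ee 4 m).injective (ia_in _ s) fun _ => ia_out _ s).eq (isB_b4 m _)
  refine Prod.ext ?_ ?_ <;> simp [KK_fst, KK_snd, this, H1, mul_assoc]

theorem stab [Finite F] (H1 : ∀ s, α (ia (ee 4 m) s) = ψ (pm F q 4 s)) {S : Set (Perm (Fin (m + 1)))}
    (hS : closure S = ⊤) {T : Set (SU 3 F q)} (hT : closure T = ⊤)
    (H2 : ∀ s ∈ S, ∃ σ : alternatingGroup (Fin (m + 4)), (∀ j, σ.1 (j.addNat 3) = (s j).addNat 3) ∧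
      ∀ y ∈ T, ∃ x, KK ψ α σ (up 3 y) = KK ψ α 1 (up 3 x))
    (σ : alternatingGroup (Fin (m + 4))) (h : ∀ a, ∃ b, σ.1 (e3 m a) = e3 m b) (y : SU 3 F q) :
    ∃ x, KK ψ α σ (up 3 y) = KK ψ α 1 (up 3 x) := by
  let β := (KK ψ α 1).comp (up 3)
  let D := (normalizer (β.range : Set (SU (m + 4) F q × J))).comap ((pm F q (m + 4)).prod α)
  have a0 : ∀ σ y, KK ψ α σ (up 3 y) = (pm F q (m + 4)).prod α σ * β y * ((pm F q (m + 4)).prod α σ)⁻¹ := fun σ y => by
    rw [← mul_one σ, KK_mul, mul_one]; rfl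
  have a1 : ∀ σ, (∀ y ∈ T, ∃ x, KK ψ α σ (up 3 y) = KK ψ α 1 (up 3 x)) → σ ∈ D := fun σ h => by
    have : Finite (β.range : Set (SU (m + 4) F q × J)) := Set.finite_range β
    refine mem_normalizer_fintype ?_
    rintro _ ⟨y, rfl⟩
    rw [← a0]
    have : closure T ≤ β.range.comap ((KK ψ α σ).comp (up 3)) :=
      (closure_le _).2 fun y hy => (h y hy).imp fun x e => e.symm
    exact this (hT.ge (mem_top y))
  have a2 : ∀ σ : alternatingGroup (Fin (m + 4)), (∀ j : Fin (m + 1), σ.1 (j.addNat 3) = j.addNat 3) → σ ∈ D :=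
    fun σ h => by
      have b0 : ∀ z : Fin (m + 4), 3 ≤ z.1 → σ.1 z = z := fun z hz => by
        have := h ⟨z.1 - 3, by omega⟩
        rwa [show (⟨z.1 - 3, by omega⟩ : Fin (m + 1)).addNat 3 = z from Fin.ext (by simp; omega)] at this
      have b1 : ∀ z, (σ.1 z).1 < 3 ∨ σ.1 z = z := fun z =>
        (lt_or_ge (σ.1 z).1 3).imp_right fun hz => σ.1.injective (b0 _ hz)
      obtain ⟨τ, hτ⟩ := exists_perm (fun a => σ.1 (ee 4 m a)) (ee 4 m) (σ.1.injective.comp (ee 4 m).injective)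
        fun a => (b1 (ee 4 m a)).elim (fun h => ⟨⟨_, h.trans (by omega)⟩, rfl⟩) fun h => ⟨a, h⟩
      have b2 : σ.1 = τ.viaEmbedding (ee 4 m) := Equiv.ext fun z => by
        by_cases hz : z.1 < 4
        · exact (hτ ⟨z, hz⟩).trans (viaEmbedding_apply τ _ ⟨z, hz⟩).symm
        · rw [b0 z (by omega), viaEmbedding_apply_of_notMem _ _ _ fun ⟨a, e⟩ => hz (e ▸ a.2)]
      let s : alternatingGroup (Fin 4) := ⟨τ, mem_alternatingGroup.2 (by
        rw [← sign_via (ee 4 m), ← b2]; exact mem_alternatingGroup.1 σ.2)⟩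
      refine a1 σ fun y _ => ?_
      obtain ⟨x, hx⟩ := exists_cj (f := fun a : Fin 3 => τ a.castSucc) (g := Fin.castSucc)
        (τ.injective.comp (Fin.castSucc_injective 3)) (fun a => by
          have h1 : (τ a.castSucc).1 = (σ.1 (ee 4 m a.castSucc)).1 := congrArg Fin.val (hτ _).symm
          have h2 : (τ a.castSucc).1 < 3 := (b1 (ee 4 m a.castSucc)).elim (h1 ▸ id) fun h => by
            rw [h1, h]; exact a.2
          exact ⟨⟨_, h2⟩, rfl⟩) y
      refine ⟨x, ?_⟩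
      rw [show σ = 1 * ia (ee 4 m) s from Subtype.ext (by rw [one_mul]; exact b2), KK_ia H1]
      exact congrArg _ ((hx _ ((isB_id y).up.conj s)).eq (isB_id x).up)
  let D' : Subgroup (Perm (Fin (m + 1))) :=
    { carrier := {s | ∃ σ ∈ D, ∀ j, σ.1 (j.addNat 3) = (s j).addNat 3}
      one_mem' := ⟨1, one_mem _, fun _ => rfl⟩
      mul_mem' := by
        rintro s t ⟨σ, h1, h2⟩ ⟨τ, h3, h4⟩
        exact ⟨σ * τ, mul_mem h1 h3, fun j => (congrArg σ.1 (h4 j)).trans (h2 _)⟩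
      inv_mem' := by
        rintro s ⟨σ, h1, h2⟩
        exact ⟨σ⁻¹, inv_mem h1, fun j => Perm.inv_eq_iff_eq.2 ((h2 _).trans (by simp)).symm⟩ }
  have a3 : closure S ≤ D' := (closure_le _).2 fun s hs => (H2 s hs).imp fun σ h => ⟨a1 σ h.2, h.1⟩
  obtain ⟨τ, hτ⟩ := exists_perm _ _ (σ.1.injective.comp (e3_inj m)) h
  obtain ⟨s, hs⟩ := exists_perm (fun j : Fin (m + 1) => σ.1 (j.addNat 3)) (fun j : Fin (m + 1) => j.addNat 3)
    (σ.1.injective.comp fun a b e => Fin.ext (by simpa using congrArg Fin.val e)) fun j => by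
      by_cases hz : (σ.1 (j.addNat 3)).1 < 3
      · have : σ.1 (e3 m (τ.symm ⟨_, hz⟩)) = σ.1 (j.addNat 3) := (hτ _).trans (by rw [apply_symm_apply]; rfl)
        have h1 : (τ.symm ⟨_, hz⟩).1 = j.1 + 3 := congrArg Fin.val (σ.1.injective this)
        omega
      · exact ⟨⟨(σ.1 (j.addNat 3)).1 - 3, by omega⟩, Fin.ext (by simp; omega)⟩
  obtain ⟨σ', h1, h2⟩ := a3 (hS.ge (mem_top s))
  have : σ ∈ D := by
    simpa using mul_mem h1 (a2 (σ'⁻¹ * σ) fun j => Perm.inv_eq_iff_eq.2 ((hs j).trans (h2 j).symm))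
  obtain ⟨x, hx⟩ := (mem_normalizer_iff.1 this (β y)).1 ⟨y, rfl⟩
  exact ⟨x, (a0 σ y).trans hx.symm⟩

theorem univ_alt [Fintype F] (hF : Fintype.card F = q ^ 2) (hm : 2 ≤ m)
    (H1 : ∀ s, α (ia (ee 4 m) s) = ψ (pm F q 4 s))
    (H2 : ∀ σ : alternatingGroup (Fin (m + 4)), (∀ a, ∃ b, σ.1 (e3 m a) = e3 m b) →
      ∀ y, ∃ x, KK ψ α σ (up 3 y) = KK ψ α 1 (up 3 x))
    {c : alternatingGroup (Fin (m + 4))} (hc : ∀ a, (c.1 (e3 m a)).1 = 3 + a)
    (H3 : ∀ x y, Commute (KK ψ α 1 (up 3 x)).2 (KK ψ α c (up 3 y)).2) :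
    ∃ Φ : SU (m + 4) F q →* J, Φ.comp (b4 m) = ψ ∧ Φ.comp (pm F q _) = α := by
  have L1 : ∀ σ τ : alternatingGroup (Fin (m + 4)), (∀ a, ∃ b, τ.1 (e3 m a) = σ.1 (e3 m b)) →
      ∀ y, ∃ x, KK ψ α τ (up 3 y) = KK ψ α σ (up 3 x) := fun σ τ h y => by
    obtain ⟨x, hx⟩ := H2 (σ⁻¹ * τ) (fun a => (h a).imp fun b e => Perm.inv_eq_iff_eq.2 e) y
    exact ⟨x, by rw [← mul_inv_cancel_left σ τ, KK_mul, hx, ← KK_mul, mul_one]⟩
  have L2 : ∀ σ τ : alternatingGroup (Fin (m + 4)), (∀ a, ∃ b, τ.1 (e3 m a) = σ.1 (e3 m b)) →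
      ∀ x y, (KK ψ α τ (up 3 y)).1 = (KK ψ α σ (up 3 x)).1 → (KK ψ α τ (up 3 y)).2 = (KK ψ α σ (up 3 x)).2 :=
    fun σ τ h x y e => by
      obtain ⟨z, hz⟩ := L1 σ τ h y
      rw [hz] at e ⊢
      rw [(isB_K ψ α σ z).inj (e ▸ isB_K ψ α σ x)]
  have C3 : ∀ σ τ : alternatingGroup (Fin (m + 4)), (∀ a, ∃ b, τ.1 (e3 m a) = σ.1 (c.1 (e3 m b))) →
      ∀ x y, Commute (KK ψ α σ (up 3 x)).2 (KK ψ α τ (up 3 y)).2 := fun σ τ h x y => by
    obtain ⟨z, hz⟩ := L1 (σ * c) τ h y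
    rw [hz, ← mul_one σ, KK_mul, mul_one, KK_mul]
    exact (H3 x z).map (MulAut.conj (α σ))
  have C2 : ∀ σ τ : alternatingGroup (Fin (m + 4)), (∀ a, ∃ z, τ.1 (e3 m a) = σ.1 z ∧ (z.1 = 2 ∨ z.1 = 4 ∨ z.1 = 5)) →
      ∀ x y, Commute (KK ψ α σ (up 3 (up 2 x))).2 (KK ψ α τ (up 3 y)).2 := fun σ τ h x y => by
    let d : alternatingGroup (Fin 4) := ⟨swap 0 1 * swap 2 3, mem_alternatingGroup.2 (by decide)⟩
    obtain ⟨z, hz⟩ := exists_cj (f := fun a : Fin 2 => a.castSucc.castSucc) (g := fun a => d.1 a.castSucc.castSucc)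
      (by decide) (by decide) x
    rw [(hz _ (isB_id x).up.up).eq ((isB_id z).up.up.conj d), ← KK_ia H1]
    refine C3 _ τ (fun a => ?_) _ y
    obtain ⟨z, h1, h2⟩ := h a
    have o : ∀ b : Fin 3, b.1 ≠ 0 → (ia (ee 4 m) d).1 (c.1 (e3 m b)) = c.1 (e3 m b) := fun b hb =>
      ia_out _ _ fun a e => by
        have h1 : (c.1 (e3 m b)).1 = a.1 := congrArg Fin.val e
        rw [hc] at h1; omega
    rcases h2 with h2 | h2 | h2
    · refine ⟨0, h1.trans (congrArg σ.1 ?_)⟩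
      rw [show c.1 (e3 m 0) = ee 4 m 3 from Fin.ext (hc 0), ia_in]
      exact Fin.ext h2
    · exact ⟨1, h1.trans (congrArg σ.1 ((o 1 (by decide)).trans (Fin.ext ((hc 1).trans h2.symm))).symm)⟩
    · exact ⟨2, h1.trans (congrArg σ.1 ((o 2 (by decide)).trans (Fin.ext ((hc 2).trans h2.symm))).symm)⟩
  have hs : ∀ i, ∃ σ : alternatingGroup (Fin (m + 4)), i ≤ m + 1 → ∀ a, (σ.1 (e3 m a)).1 = i + a := fun i => by
    by_cases h : i ≤ m + 1
    · obtain ⟨σ, hσ⟩ := exa (g := fun a : Fin 3 => (⟨i + a, by omega⟩ : Fin (m + 4))) (e3_inj m)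
        (fun a b e => Fin.ext (by simpa using e)) (by omega)
      exact ⟨σ, fun _ a => congrArg Fin.val (hσ a)⟩
    · exact ⟨1, fun e => (h e).elim⟩
  choose s hs using hs
  let π : ℕ → (SU 3 F q →* J) := fun i => ((MonoidHom.snd _ _).comp (KK ψ α (s i))).comp (up 3)
  have sB : ∀ i ≤ m + 1, ∀ x, (KK ψ α (s i) (up 3 x)).1 = blk3 (m + 1) i x := fun i hi x =>
    ((isB_K ψ α _ x).congr (hs i hi)).eq (isB_blk3 _ i hi x)
  have L3 : ∀ i ≤ m + 1, ∀ σ : alternatingGroup (Fin (m + 4)), (∀ a, ∃ b : Fin 3, (σ.1 (e3 m a)).1 = i + b) →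
      ∀ x y, (KK ψ α σ (up 3 y)).1 = blk3 (m + 1) i x → (KK ψ α σ (up 3 y)).2 = π i x := fun i hi σ h x y e =>
    L2 (s i) σ (fun a => (h a).imp fun b e => Fin.ext (e.trans (hs i hi b).symm)) x y (e.trans (sB i hi x).symm)
  have h4 : ∀ i ≤ m, ∀ σ : alternatingGroup (Fin (m + 4)), (∀ a, (σ.1 (ee 4 m a)).1 = i + a) →
      ((MonoidHom.snd _ _).comp (KK ψ α σ)).comp (up 3) = π i ∧
        ((MonoidHom.snd _ _).comp (KK ψ α σ)).comp (lo 3) = π (i + 1) := fun i hi σ h => by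
    refine ⟨MonoidHom.ext fun x => L3 i (by omega) σ (fun a => ⟨a, h _⟩) x x
      (((isB_K ψ α _ x).congr fun a => h _).eq (isB_blk3 _ i (by omega) x)), MonoidHom.ext fun x => ?_⟩
    let d : alternatingGroup (Fin 4) := ⟨swap 0 3 * swap 1 2, mem_alternatingGroup.2 (by decide)⟩
    obtain ⟨z, hz⟩ := exists_cj (f := fun a : Fin 3 => a.succ) (g := fun a => d.1 a.castSucc) (by decide) (by decide) x
    have e := KK_ia H1 σ d (up 3 z)
    rw [← (hz _ (isB_id x).lo).eq ((isB_id z).up.conj d)] at e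
    refine (congrArg Prod.snd e).symm.trans (L3 (i + 1) (by omega) _ (fun a => ?_) x z ?_)
    · obtain ⟨b, hb⟩ : ∃ b : Fin 3, d.1 a.castSucc = b.succ := by revert a; decide
      refine ⟨b, (congrArg (fun z => (σ.1 z).1) (ia_in _ d _)).trans ?_⟩
      rw [h, hb, Fin.val_succ]; omega
    · rw [e]
      exact (((isB_id x).lo.kk ψ α σ).congr fun a => (h _).trans (by simp; omega)).eq (isB_blk3 _ _ (by omega) x)
  have ex6 : ∀ g : Fin 6 → ℕ, Injective g → (∀ a, g a < m + 4) → ∃ τ : alternatingGroup (Fin (m + 4)), ∀ a : Fin 6,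
      ∃ z, (τ.1 z).1 = g a ∧ (2 ≤ a.1 → z.1 = a) ∧ (a.1 < 2 → z.1 < 2) := fun g hg h => by
    obtain ⟨σ, hσ⟩ := exists_extending_pair (Fin.castLE (by omega) : Fin 6 → Fin (m + 4)) (fun a => ⟨g a, h a⟩)
      (Fin.castLE_injective _) fun a b e => hg (congrArg Fin.val e)
    obtain ⟨τ, hτ⟩ := exs (n := m + 2) σ
    refine ⟨τ, fun a => (hτ (a.castLE (by omega))).imp fun z h => ⟨?_, fun e => congrArg Fin.val (h.2.1 e), h.2.2⟩⟩
    rw [h.1, hσ]
  have hc3 : ∀ i j, i + 3 ≤ j → j ≤ m + 1 → ∀ x y, Commute (π i x) (π j y) := fun i j h1 h2 x y => by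
    obtain ⟨τ, hτ⟩ := ex6 (fun a => if a.1 < 3 then i + a else j + a - 3)
      (fun a b e => Fin.ext (by simp only at e; split_ifs at e <;> omega)) fun a => by split_ifs <;> omega
    obtain ⟨x', hx⟩ := L1 τ (s i) (fun a => by
      obtain ⟨z, z1, z2, z3⟩ := hτ (a.castLE (by omega))
      simp only [Fin.val_castLE, a.2, if_true] at z1 z2 z3
      exact ⟨⟨z, by omega⟩, Fin.ext ((hs i (by omega) a).trans z1.symm)⟩) x
    change Commute (KK ψ α _ _).2 _
    rw [hx]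
    refine C3 τ (s j) (fun a => ?_) _ y
    obtain ⟨z, z1, z2, -⟩ := hτ ⟨3 + a, by omega⟩
    rw [if_neg (by simp)] at z1
    refine ⟨a, Fin.ext ?_⟩
    rw [show c.1 (e3 m a) = z from Fin.ext ((hc a).trans (z2 (by change 2 ≤ 3 + a.1; omega)).symm), hs j h2, z1]
    change j + a.1 = j + (3 + a.1) - 3
    omega
  have hc2 : ∀ (i j : ℕ) (g : Fin 6 → ℕ) (x : SU 2 F q) (w y : SU 3 F q), i ≤ m + 1 → j ≤ m + 1 → Injective g →
      (∀ a, g a < m + 4) → (∀ a : Fin 6, a.1 < 3 → ∃ b : Fin 3, g a = i + b) →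
      (∀ b : Fin 3, ∃ a : Fin 6, (a.1 = 2 ∨ a.1 = 4 ∨ a.1 = 5) ∧ g a = j + b) →
      (∃ f : Fin 2 → Fin (m + 4), (∀ a, (f a).1 = g (a.castLE (by omega))) ∧ IsB f x (blk3 (m + 1) i w)) →
      Commute (π i w) (π j y) := by
    rintro i j g x w y hi hj hg h0 h1 h2 ⟨f, h3, h4⟩
    obtain ⟨τ, hτ⟩ := ex6 g hg h0
    have hf : Injective f := fun a b e => Fin.castLE_injective _ (hg (by rw [← h3, ← h3, e]))
    have u : ∀ a, ∃ b : Fin 2, f a = τ.1 (ee 4 m b.castSucc.castSucc) := fun a => by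
      obtain ⟨z, z1, -, z3⟩ := hτ (a.castLE (by omega))
      exact ⟨⟨z, z3 a.2⟩, Fin.ext ((h3 a).trans z1.symm)⟩
    obtain ⟨z, hz⟩ := exists_cj hf u x
    rw [← L3 i hi τ (fun a => ?_) w (up 2 z) (((isB_id z).up.up.kk ψ α τ).eq (hz _ h4))]
    · refine C2 τ (s j) (fun b => ?_) z y
      obtain ⟨a, a1, a2⟩ := h2 b
      obtain ⟨z, z1, z2, -⟩ := hτ a
      exact ⟨z, Fin.ext ((hs j hj b).trans (a2.symm.trans z1.symm)), by rw [z2 (by omega)]; exact a1⟩
    · by_cases ha : a.1 < 2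
      · obtain ⟨ρ, hρ⟩ := exists_perm _ _ hf u
        have := hρ (ρ.symm ⟨a, ha⟩)
        rw [apply_symm_apply] at this
        exact (h1 _ (by simp; omega)).imp fun b e => (congrArg Fin.val this).symm.trans ((h3 _).trans e)
      · obtain ⟨z, z1, z2, -⟩ := hτ 2
        rw [show e3 m a = z from Fin.ext ((show a.1 = 2 by omega).trans (z2 le_rfl).symm), z1]
        exact h1 2 (by decide)
  obtain ⟨Φ, hΦ⟩ := univ5 hF m π (fun i hi => by
      obtain ⟨σ, hσ⟩ := exa (g := fun a : Fin 4 => (⟨i + a, by omega⟩ : Fin (m + 4))) (ee 4 m).injective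
        (fun a b e => Fin.ext (by simpa using e)) (by omega)
      exact ⟨_, h4 i hi σ fun a => congrArg Fin.val (hσ a)⟩)
    (fun i j h1 h2 x y => by
      rcases h1.eq_or_lt with rfl | h
      swap
      · exact ⟨hc3 i j h h2 _ _, hc3 i j h h2 _ _⟩
      obtain ⟨k, hk, hk'⟩ : ∃ k, k < m + 4 ∧ (k < i ∨ i + 4 < k) := by
        rcases i with _ | i
        exacts [⟨5, by omega⟩, ⟨0, by omega⟩]
      refine ⟨hc2 i (i + 2) ![i, i + 1, i + 2, k, i + 3, i + 4] x _ y (by omega) h2 ?_ ?_ ?_ ?_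
          ⟨_, ?_, (isB_id x).up.comp (isB_blk3 _ i (by omega) _) fun a b e => Fin.ext (by simpa using e)⟩,
        (hc2 (i + 2) i ![i + 3, i + 4, i + 2, k, i, i + 1] x _ y h2 (by omega) ?_ ?_ ?_ ?_
          ⟨_, ?_, (isB_id x).lo.comp (isB_blk3 _ _ h2 _) fun a b e => Fin.ext (by simpa using e)⟩).symm⟩
      · intro a b; fin_cases a <;> fin_cases b <;> simp <;> omega
      · intro a; fin_cases a <;> simp <;> omega
      · intro a; fin_cases a <;> simp [Fin.exists_fin_succ]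
      · intro b; fin_cases b
        exacts [⟨2, by simp⟩, ⟨4, by simp⟩, ⟨5, by simp⟩]
      · intro a; fin_cases a <;> rfl
      · intro a b; fin_cases a <;> fin_cases b <;> simp <;> omega
      · intro a; fin_cases a <;> simp <;> omega
      · intro a; fin_cases a <;> simp [Fin.exists_fin_succ]
      · intro b; fin_cases b
        exacts [⟨4, by simp⟩, ⟨5, by simp⟩, ⟨2, by simp⟩]
      · intro a; fin_cases a <;> rfl) hc3
  refine ⟨Φ, blk3_ext hF 1 _ _ fun i hi => MonoidHom.ext fun x => ?_, ?_⟩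
  · have h := h4 0 (by omega) 1 fun a => (zero_add _).symm
    have e : (MonoidHom.snd _ _).comp (KK ψ α 1) = ψ := MonoidHom.ext fun x => by simp [KK_snd]
    rw [e] at h
    interval_cases i
    · exact (congrArg Φ (((isB_b3 m x).congr fun a => (zero_add _).symm).eq (isB_blk3 _ 0 (by omega) x))).trans
        ((DFunLike.congr_fun (hΦ 0 (by omega)) x).trans (DFunLike.congr_fun h.1 x).symm)
    · exact (congrArg Φ ((((isB_id x).lo.comp (isB_b4 m _) (ee 4 m).injective).congr fun a => add_comm _ _).eq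
        (isB_blk3 _ 1 (by omega) x))).trans
        ((DFunLike.congr_fun (hΦ 1 (by omega)) x).trans (DFunLike.congr_fun h.2 x).symm)
  · refine MonoidHom.ext fun σ => (alt_top (n := m + 2) ((Φ.comp (pm F q _)).eqLocus α) fun i t ht => ?_).ge (mem_top σ)
    let u : alternatingGroup (Fin 3) := ⟨swap 0 1 * swap 1 2, mem_alternatingGroup.2 (by decide)⟩
    let v : alternatingGroup (Fin 4) := ⟨swap 0 1 * swap 1 2, mem_alternatingGroup.2 (by decide)⟩
    have e1 : pm F q 4 v = up 3 (pm F q 3 u) :=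
      (isB_pm (Fin.castSucc_injective 3) (by decide) (by decide)).eq (isB_id _).up
    have e2 : pm F q _ t = blk3 (m + 1) i (pm F q 3 u) := by
      refine (isB_pm (fun a b e => Fin.ext (by simpa using e)) (fun a => ?_) fun z hz => ?_).eq
        (isB_blk3 _ i (by omega) _)
      · rw [ht]
        have n1 : i.1 ≠ i.1 + 1 + 1 := by omega
        have n2 : i.1 ≠ i.1 + 2 := by omega
        fin_cases a <;> simp [u, swap_apply_def, Fin.ext_iff, n1, n1.symm, n2, n2.symm]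
      · have h0 := hz 0; have h1 := hz 1; have h2 := hz 2
        simp only [ne_eq, Fin.ext_iff] at h0 h1 h2
        rw [ht, Perm.mul_apply, swap_apply_of_ne_of_ne (x := z), swap_apply_of_ne_of_ne] <;>
          exact fun e => by have := congrArg Fin.val e; simp at this h0 h1 h2; omega
    have e4 : t = s i * ia (ee 4 m) v * (s i)⁻¹ := pm_inj (F := F) (q := q) (by
      rw [e2, ← sB i (by omega), ← e1, KK_fst, map_mul, map_mul, map_inv,
        (isB_pm (ee 4 m).injective (ia_in _ v) fun _ => ia_out _ v).eq (isB_b4 m _)])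
    change Φ (pm F q _ t) = α t
    rw [e2, show Φ _ = _ from DFunLike.congr_fun (hΦ i (by omega)) _, e4, map_mul, map_mul, map_inv, H1, e1]
    rfl

end UP

variable [Fintype F] (hF : Fintype.card F = q ^ 2)
include hF

theorem blk3_top : ∀ (m : ℕ) (M : Subgroup (SU (m + 3) F q)), (∀ i ≤ m, ∀ x, blk3 m i x ∈ M) → M = ⊤
  | 0, M, h => top_unique fun x _ => h 0 le_rfl x
  | m + 1, M, h => top_unique ((gen4 hF).ge.trans (sup_le
    (by
      rintro _ ⟨x, rfl⟩
      exact (blk3_top m (M.comap (up _)) fun i hi x => by simpa [blk3_up m i hi] using h i (by omega) x).ge (mem_top x))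
    (by rintro _ ⟨x, rfl⟩; exact (blk3_top m (M.comap (lo _)) fun i hi x => h (i + 1) (by omega) x).ge (mem_top x))))

theorem presn {d r : ℕ} (hn : 6 ≤ n) (h : Pres d r (SU 4 F q)) : Pres (d + 3) (r + 17) (SU n F q) := by
  obtain ⟨m, rfl⟩ : ∃ m, n = m + 4 := ⟨n - 4, by omega⟩
  have hm : 2 ≤ m := by omega
  obtain ⟨a, b, hab⟩ := CA.SuTwo.su3_two hF
  obtain ⟨gA, hA⟩ := (CA.AltP.three (n := m + 4) (by omega)).2
  obtain ⟨g4, h4⟩ := (CA.AltP.two 4).2
  obtain ⟨gS, hS⟩ := (CA.AltP.two (m + 1)).1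
  have ht : ∀ s : Perm (Fin (m + 1)), ∃ t : alternatingGroup (Fin (m + 4)), (∀ j, t.1 (j.addNat 3) = (s j).addNat 3) ∧
      ∀ y : SU 3 F q, ∃ x, pm F q _ t * b4 m (up 3 y) * (pm F q _ t)⁻¹ = b4 m (up 3 x) := fun s => by
    obtain ⟨t, ht⟩ := exs (n := m + 2) (s.viaEmbedding (Fin.addNatEmb 3))
    have o : ∀ z : Fin (m + 4), z.1 < 3 → s.viaEmbedding (Fin.addNatEmb 3) z = z := fun z hz =>
      viaEmbedding_apply_of_notMem _ _ _ fun ⟨j, e⟩ => by
        have : j.1 + 3 = z.1 := congrArg Fin.val e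
        omega
    refine ⟨t, fun j => ?_, fun y => ?_⟩
    · obtain ⟨z, z1, z2, -⟩ := ht (j.addNat 3)
      rw [z2 (by simp)] at z1
      exact z1.trans (viaEmbedding_apply s (Fin.addNatEmb 3) j)
    · obtain ⟨ρ, hρ⟩ := exists_perm (e3 m) (fun a => t.1 (e3 m a)) (e3_inj m) fun a => by
        obtain ⟨z, z1, z2, z3⟩ := ht (e3 m a)
        rw [o _ a.2] at z1
        have : (e3 m a).1 = a.1 := rfl
        have h3 : z.1 < 3 := by
          by_cases h : (e3 m a).1 < 2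
          · exact (z3 h).trans (by omega)
          · rw [z2 (by omega)]; exact a.2
        exact ⟨⟨z, h3⟩, z1.symm⟩
      obtain ⟨x, hx⟩ := exists_cj (f := fun a => t.1 (e3 m a)) (g := e3 m) (t.1.injective.comp (e3_inj m))
        (fun a => ⟨ρ.symm a, by have := hρ (ρ.symm a); rw [apply_symm_apply] at this; exact this.symm⟩) y
      exact ⟨x, (hx _ ((isB_b3 m y).conj t)).eq (isB_b3 m x)⟩
  choose t ht X hX using ht
  obtain ⟨c, hc⟩ := exa (g := fun a : Fin 3 => (⟨3 + a, by omega⟩ : Fin (m + 4))) (e3_inj m)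
    (fun a b e => Fin.ext (by simpa using e)) (by omega)
  let C := Coprod (SU 4 F q) (alternatingGroup (Fin (m + 4)))
  let μ : alternatingGroup (Fin (m + 4)) → SU 3 F q → C := fun σ y =>
    Coprod.inr σ * Coprod.inl (up 3 y) * (Coprod.inr σ)⁻¹
  let r1 : Fin 2 → C := fun i => Coprod.inr (ia (ee 4 m) (g4 i)) * (Coprod.inl (pm F q 4 (g4 i)))⁻¹
  let r2 : Fin 2 × SU 3 F q → C := fun p => μ (t (gS p.1)) p.2 * (Coprod.inl (up 3 (X (gS p.1) p.2)))⁻¹
  let r3 : SU 3 F q × SU 3 F q → C := fun p => ⁅(Coprod.inl (up 3 p.1) : C), μ c p.2⁆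
  let L2 : List (Fin 2 × SU 3 F q) := [(0, a), (0, b), (1, a), (1, b)]
  let L3 := [(a, a), (a, b), (b, a), (b, b)]
  refine (pres_am h hA.fp (b4 m) (pm F q _) ([0, 1].map r1 ++ (L2.map r2 ++ L3.map r3)) (fun v hv => ?_) ?_
    fun J _ ψ α hW => ?_).mono (by simp [L2, L3])
  · simp only [List.mem_append, List.mem_map] at hv
    rcases hv with ⟨x, -, rfl⟩ | ⟨x, -, rfl⟩ | ⟨x, -, rfl⟩
    · simp only [r1, map_mul, map_inv, Coprod.lift_apply_inl, Coprod.lift_apply_inr]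
      exact mul_inv_eq_one.2 ((isB_pm (ee 4 m).injective (ia_in _ _) fun _ => ia_out _ _).eq (isB_b4 m _))
    · simp only [r2, μ, map_mul, map_inv, Coprod.lift_apply_inl, Coprod.lift_apply_inr]
      exact mul_inv_eq_one.2 (hX _ _)
    · simp only [r3, μ, map_commutatorElement, map_mul, map_inv, Coprod.lift_apply_inl, Coprod.lift_apply_inr]
      refine ((isB_b3 m _).comm ((isB_b3 m _).conj c) fun x y e => ?_).commutator_eq
      have : x.1 = 3 + y.1 := congrArg Fin.val (e.trans (hc y))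
      omega
  · refine MonoidHom.range_eq_top.1 (blk3_top hF (m + 1) _ fun i hi x => ?_)
    obtain ⟨σ, hσ⟩ := exa (g := fun a : Fin 3 => (⟨i + a, by omega⟩ : Fin (m + 4))) (e3_inj m)
      (fun a b e => Fin.ext (by simpa using e)) (by omega)
    refine ⟨μ σ x, ?_⟩
    simp only [μ, map_mul, map_inv, Coprod.lift_apply_inl, Coprod.lift_apply_inr]
    exact (((isB_b3 m x).conj σ).congr fun a => congrArg Fin.val (hσ a)).eq (isB_blk3 _ i hi x)
  · have H1 : ∀ s, α (ia (ee 4 m) s) = ψ (pm F q 4 s) := fun s =>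
      DFunLike.congr_fun (MonoidHom.eq_of_eqOn_dense h4.gen (f := α.comp (ia _)) (g := ψ.comp (pm F q 4)) (by
        rintro _ ⟨i, rfl⟩
        have := hW _ (List.mem_append_left _ (List.mem_map_of_mem (a := i) (by fin_cases i <;> simp)))
        rwa [map_mul, map_inv, mul_inv_eq_one] at this)) s
    have k1 : ∀ x, (KK ψ α 1 x).2 = ψ x := fun x => by simp [KK_snd]
    have k2 : ∀ σ y, Coprod.lift ψ α (μ σ y) = (KK ψ α σ (up 3 y)).2 := fun σ y => by simp [μ, KK_snd]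
    refine univ_alt hF hm H1 (stab H1 hS.gen hab ?_) (fun a => congrArg Fin.val (hc a)) ?_
    · rintro _ ⟨i, rfl⟩
      refine ⟨t (gS i), ht _, fun y hy => ⟨X (gS i) y, Prod.ext (by simp [KK_fst, hX]) ?_⟩⟩
      have := hW _ (List.mem_append_right _ (List.mem_append_left _ (List.mem_map_of_mem (a := (i, y)) (by
        rcases hy with rfl | rfl <;> fin_cases i <;> simp [L2]))))
      rw [map_mul, map_inv, mul_inv_eq_one, k2] at this
      rw [this, k1]; rfl
    · refine comm_of_gen hab hab (((MonoidHom.snd _ _).comp (KK ψ α 1)).comp (up 3))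
        (((MonoidHom.snd _ _).comp (KK ψ α c)).comp (up 3)) fun x hx y hy => ?_
      have := hW _ (List.mem_append_right _ (List.mem_append_right _ (List.mem_map_of_mem (a := (x, y)) (by
        rcases hx with rfl | rfl <;> rcases hy with rfl | rfl <;> simp [L3]))))
      rw [map_commutatorElement, commutatorElement_eq_one_iff_commute, k2, Coprod.lift_apply_inl, ← k1] at this
      exact this

end CA.H25Su
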