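/-
Steinberg generators of type `A` from a torus and one root element in each root subgroup.
-/
import Cfsg.Agent.Lib.Grp.Prs

set_option autoImplicit false
set_option linter.unusedSectionVars false

namespace CA.H29Pr

open CA.Prs Subgroup
open scoped commutatorElement

variable {ι J : Type*} [DecidableEq ι] [Group J]

/-- the weight of a root on a basis vector -/
def wt (i j k : ι) : ℤ := (if k = i then 1 else 0) - if k = j then 1 else 0

/-- relations between torus elements and root elements -/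
structure Tor (H U : ι → ι → J) (κ : ι → ι → ι) : Prop where
  four : ∀ i j k : ι, ∃ l, l ≠ i ∧ l ≠ j ∧ l ≠ k
  h0 : ∀ i, H i i = 1
  h1 : ∀ i j k, i ≠ j → j ≠ k → i ≠ k → H i j * H j k = H i k
  hc : ∀ j k i, j ≠ k → k ≠ i → j ≠ i → Commute (H i j) (H i k)
  s1 : ∀ i j k l, i ≠ j → i ≠ k → i ≠ l → j ≠ k → j ≠ l → k ≠ l → Commute (U i j) (H k l)
  k1 : ∀ i j, i ≠ j → κ i j ≠ i
  k2 : ∀ i j, i ≠ j → κ i j ≠ j
  s2 : ∀ i j, i ≠ j → Commute (U i j) (H i (κ i j) * H j (κ i j))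
  r1 : ∀ j k i, j ≠ k → k ≠ i → j ≠ i → Commute (U i j) (U i k)
  r2 : ∀ i k j, i ≠ k → k ≠ j → i ≠ j → Commute (U i j) (U k j)
  r3 : ∀ i j k, i ≠ j → j ≠ k → i ≠ k → ⁅U i j, U j k⁆ = U i k
  r4 : ∀ i j k l, i ≠ j → i ≠ k → i ≠ l → j ≠ k → j ≠ l → k ≠ l → Commute (U i j) (U k l)

/-- the conjugates of the root elements -/
def Y (H U : ι → ι → J) (κ : ι → ι → ι) (i j : ι) (m : ℤ) : J := cj (H i (κ i j)) (U i j) m

namespace Tor
variable {H U : ι → ι → J} {κ : ι → ι → ι} (T : Tor H U κ) {i j k l : ι}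
include T

theorem inv (i j : ι) : H i j * H j i = 1 := by
  by_cases h : i = j
  · subst h; simp [T.h0]
  obtain ⟨k, h1, h2, -⟩ := T.four i j j
  have e1 := T.h1 i j k h h2.symm h1.symm
  have e2 := T.h1 j i k (Ne.symm h) h1.symm h2.symm
  rw [← e2, ← mul_assoc] at e1
  simpa using e1

theorem mul (i j k : ι) : H i j * H j k = H i k := by
  by_cases h1 : i = j
  · subst h1; simp [T.h0]
  by_cases h2 : j = k
  · subst h2; simp [T.h0]
  by_cases h3 : i = k
  · subst h3; rw [T.inv, T.h0]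
  exact T.h1 i j k h1 h2 h3

theorem eq (r i j : ι) : H i j = (H r i)⁻¹ * H r j := by rw [← T.mul r i j]; simp

theorem comm0 (r i j : ι) : Commute (H r i) (H r j) := by
  by_cases h1 : i = j
  · subst h1; rfl
  by_cases h2 : j = r
  · subst h2; simp [T.h0]
  by_cases h3 : i = r
  · subst h3; simp [T.h0]
  exact T.hc i j r h1 h2 h3

theorem comm (i j k l : ι) : Commute (H i j) (H k l) := by
  rw [T.eq i k l]
  exact (T.comm0 i j k).inv_right.mul_right (T.comm0 i j l)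

omit T in
theorem cY {g : J} (h : Commute (U i j) g) (h' : Commute (H i (κ i j)) g) (m : ℤ) :
    g * Y H U κ i j m * g⁻¹ = Y H U κ i j m := by
  rw [mul_inv_eq_iff_eq_mul]
  exact (((h'.zpow_left m).mul_left h).mul_left (h'.zpow_left m).inv_left).symm.eq

theorem act0 (h : i ≠ j) (k : ι) (m : ℤ) :
    H k (κ i j) * Y H U κ i j m * (H k (κ i j))⁻¹ = Y H U κ i j (m + wt i j k) := by
  by_cases h1 : k = i
  · subst h1
    simp only [wt, if_true, if_neg h, sub_zero, Y, cj_succ]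
  by_cases h2 : k = j
  · subst h2
    have e := cY (κ := κ) (T.s2 i k h) (((T.comm _ _ _ _).mul_right (T.comm _ _ _ _))) m
    have e2 : Y H U κ i k m = H i (κ i k) * Y H U κ i k (m - 1) * (H i (κ i k))⁻¹ := by
      simp only [Y, ← cj_succ, sub_add_cancel]
    rw [show m + wt i k k = m - 1 by simp [wt, h1]; ring]
    rw [mul_inv_rev, e2] at e
    have : H i (κ i k) * (H k (κ i k) * Y H U κ i k m * (H k (κ i k))⁻¹) * (H i (κ i k))⁻¹ =
        H i (κ i k) * Y H U κ i k (m - 1) * (H i (κ i k))⁻¹ := by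
      rw [← e, ← e2]; simp only [mul_assoc]
    simpa using this
  rw [show m + wt i j k = m by simp [wt, h1, h2]]
  by_cases h3 : k = κ i j
  · rw [← h3, T.h0]; simp
  exact cY (T.s1 i j k _ h (Ne.symm h1) (T.k1 i j h).symm (Ne.symm h2) (T.k2 i j h).symm h3) (T.comm _ _ _ _) m

theorem act (h : i ≠ j) (k l : ι) (m : ℤ) :
    H k l * Y H U κ i j m * (H k l)⁻¹ = Y H U κ i j (m + (wt i j k - wt i j l)) := by
  have e : H k l = H k (κ i j) * (H l (κ i j))⁻¹ := by rw [← T.mul k l (κ i j)]; simp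
  have e1 := T.act0 h l (m - wt i j l)
  rw [sub_add_cancel] at e1
  rw [e, show m + (wt i j k - wt i j l) = m - wt i j l + wt i j k by ring, ← T.act0 h k, ← e1]
  simp only [mul_assoc, mul_inv_rev, inv_inv, inv_mul_cancel_left]

theorem actz (h : i ≠ j) (k l : ι) (s m : ℤ) :
    H k l ^ s * Y H U κ i j m * (H k l ^ s)⁻¹ = Y H U κ i j (m + s * (wt i j k - wt i j l)) := by
  induction s using Int.induction_on with
  | zero => simp
  | succ s ih =>
    rw [show m + (s + 1 : ℤ) * (wt i j k - wt i j l) = m + s * (wt i j k - wt i j l) + (wt i j k - wt i j l) by ring,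
      ← T.act h, ← ih]
    group
  | pred s ih =>
    have := T.act h k l (m + (-s - 1 : ℤ) * (wt i j k - wt i j l))
    rw [show m + (-s - 1 : ℤ) * (wt i j k - wt i j l) + (wt i j k - wt i j l) = m + (-s : ℤ) * (wt i j k - wt i j l) by
      ring, ← ih] at this
    rw [← mul_left_cancel_iff (a := H k l), ← mul_right_cancel_iff (a := (H k l)⁻¹), this]
    group

theorem two (k l k' l' : ι) (s s' : ℤ) : ∃ f : J →* J, ∀ i j, i ≠ j → f (U i j) =
    Y H U κ i j (s' * (wt i j k' - wt i j l') + s * (wt i j k - wt i j l)) := by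
  refine ⟨(MulAut.conj (H k l ^ s * H k' l' ^ s')).toMonoidHom, fun i j h => ?_⟩
  have := T.actz h k' l' s' 0
  rw [zero_add] at this
  rw [← T.actz h, ← this, MulEquiv.coe_toMonoidHom, MulAut.conj_apply]
  simp only [Y, cj_zero, mul_assoc, mul_inv_rev]

theorem R1 (h1 : j ≠ k) (h2 : k ≠ i) (h3 : j ≠ i) (m m' : ℤ) : Commute (Y H U κ i j m) (Y H U κ i k m') := by
  obtain ⟨l, a1, a2, a3⟩ := T.four i j k
  obtain ⟨f, hf⟩ := T.two l j l k m m'
  have := (T.r1 j k i h1 h2 h3).map f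
  rw [hf _ _ h3.symm, hf _ _ h2.symm] at this
  simpa [wt, a1, a2, a3, h1, h2, h3, h1.symm] using this

theorem R2 (h1 : i ≠ k) (h2 : k ≠ j) (h3 : i ≠ j) (m m' : ℤ) : Commute (Y H U κ i j m) (Y H U κ k j m') := by
  obtain ⟨l, a1, a2, a3⟩ := T.four i j k
  obtain ⟨f, hf⟩ := T.two i l k l m m'
  have := (T.r2 i k j h1 h2 h3).map f
  rw [hf _ _ h3, hf _ _ h2] at this
  simpa [wt, a1, a2, a3, h1, h2, h3, h1.symm] using this

theorem R3 (h1 : i ≠ j) (h2 : j ≠ k) (h3 : i ≠ k) (m m' : ℤ) :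
    ⁅Y H U κ i j m, Y H U κ j k m'⁆ = Y H U κ i k (m + m') := by
  obtain ⟨l, a1, a2, a3⟩ := T.four i j k
  obtain ⟨f, hf⟩ := T.two i l l k m m'
  have := congrArg f (T.r3 i j k h1 h2 h3)
  rw [map_commutatorElement, hf _ _ h1, hf _ _ h2, hf _ _ h3] at this
  simpa [wt, a1, a2, a3, h1, h2, h3, h2.symm, h3.symm, add_comm] using this

theorem R4 (h1 : i ≠ j) (h2 : i ≠ k) (h3 : i ≠ l) (h4 : j ≠ k) (h5 : j ≠ l) (h6 : k ≠ l) (m s : ℤ) :
    Commute (Y H U κ i j m) (Y H U κ k l (m + s * 2)) := by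
  obtain ⟨f, hf⟩ := T.two k l i l s m
  have := (T.r4 i j k l h1 h2 h3 h4 h5 h6).map f
  rw [hf _ _ h1, hf _ _ h6] at this
  simpa [wt, h1, h2, h3, h6, h2.symm, h3.symm, h4.symm, h5.symm, h6.symm, one_add_one_eq_two] using this

theorem R0 (h : i ≠ j) (m m' : ℤ) : Commute (Y H U κ i j m) (Y H U κ i j m') := by
  obtain ⟨k, a1, a2, -⟩ := T.four i j j
  have e := T.R3 a1.symm a2 h m' 0
  rw [add_zero] at e
  have c1 := T.R1 a2.symm a1 h.symm m m'
  have c2 := T.R2 a1.symm a2 h m 0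
  rw [← e, commutatorElement_def]
  exact ((c1.mul_right c2).mul_right c1.inv_right).mul_right c2.inv_right

theorem Y_eq (h : i ≠ j) (h1 : k ≠ i) (h2 : k ≠ j) (m : ℤ) : Y H U κ i j m = cj (H i k) (U i j) m := by
  have := T.actz h i k m 0
  simp only [wt, if_true, if_neg h, if_neg h1, if_neg h2, sub_zero, mul_one, zero_add] at this
  rw [← this]; simp [Y, cj]

end Tor

theorem sq_sub {F : Type*} [Field F] [Finite F] (y : F) : ∃ u v : F, y = u * u - v * v := by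
  by_cases h : ringChar F = 2
  · obtain ⟨u, hu⟩ := FiniteField.isSquare_of_char_two h y
    exact ⟨u, 0, by simpa using hu⟩
  · have h2 : (2 : F) ≠ 0 := Ring.two_ne_zero h
    exact ⟨(y + 1) / 2, (y - 1) / 2, by field_simp; ring⟩

theorem Tor.root {F : Type*} [Field F] [Finite F] {ζ : F} (h0 : ζ ≠ 0) (hζ : ∀ a : F, a ≠ 0 → ∃ i : ℕ, ζ ^ i = a)
    {H U : ι → ι → J} {κ : ι → ι → ι} (T : Tor H U κ) (X : ι → ι → F → J)
    (add : ∀ i j, i ≠ j → ∀ a b, X i j (a + b) = X i j a * X i j b)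
    (hX : ∀ i j, i ≠ j → ∀ m : ℤ, X i j (ζ ^ m) = Y H U κ i j m) :
    (∀ i j k, i ≠ j → j ≠ k → i ≠ k → ∀ a b, ⁅X i j a, X j k b⁆ = X i k (a * b)) ∧
    (∀ i j k l, i ≠ j → k ≠ l → j ≠ k → i ≠ l → ∀ a b, Commute (X i j a) (X k l b)) := by
  have cs : ∀ a : F, a = 0 ∨ ∃ m : ℤ, a = ζ ^ m := fun a => by
    by_cases h : a = 0
    · exact .inl h
    · obtain ⟨i, rfl⟩ := hζ a h
      exact .inr ⟨i, (zpow_natCast _ _).symm⟩
  have z : ∀ i j, i ≠ j → X i j 0 = 1 := fun i j h => zero_of_add (add i j h)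
  refine ⟨fun i j k h1 h2 h3 a b => ?_, fun i j k l h1 h2 h3 h4 a b => ?_⟩
  · rcases cs a with rfl | ⟨m, rfl⟩
    · simp [z _ _ h1, z _ _ h3]
    rcases cs b with rfl | ⟨m', rfl⟩
    · simp [z _ _ h2, z _ _ h3]
    rw [← zpow_add₀ h0, hX _ _ h1, hX _ _ h2, hX _ _ h3, T.R3 h1 h2 h3]
  rcases cs a with rfl | ⟨m, rfl⟩
  · simp [z _ _ h1]
  by_cases e1 : i = k
  · subst e1
    rcases cs b with rfl | ⟨m', rfl⟩
    · simp [z _ _ h2]
    rw [hX _ _ h1, hX _ _ h2]
    by_cases e2 : j = l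
    · subst e2; exact T.R0 h1 _ _
    · exact T.R1 e2 h2.symm h1.symm _ _
  by_cases e2 : j = l
  · subst e2
    rcases cs b with rfl | ⟨m', rfl⟩
    · simp [z _ _ h2]
    rw [hX _ _ h1, hX _ _ h2]
    exact T.R2 e1 h2 h1 _ _
  have c : ∀ u : F, Commute (X i j (ζ ^ m)) (X k l (ζ ^ m * (u * u))) := fun u => by
    rcases cs u with rfl | ⟨s, rfl⟩
    · simp [z _ _ h2]
    rw [← zpow_add₀ h0, ← zpow_add₀ h0, hX _ _ h1, hX _ _ h2, ← mul_two]
    exact T.R4 h1 e1 h4 h3 e2 h2 _ _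
  obtain ⟨u, v, e⟩ := sq_sub (b / ζ ^ m)
  have hm := zpow_ne_zero m h0
  rw [show b = ζ ^ m * (u * u) + -(ζ ^ m * (v * v)) by rw [← sub_eq_add_neg, ← mul_sub, ← e]; field_simp,
    add _ _ h2, neg_of_add (add _ _ h2)]
  exact (c u).mul_right (c v).inv_right

end CA.H29Pr
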