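/-
Orbits of alternating groups on tuples; diagonal matrices, transvections and permutation matrices in `SL_n`.
-/
import Cfsg.Agent.Lib.Lin.H29Pr1
import Cfsg.Agent.Lib.Lin.H22Embed
import Cfsg.Agent.Lib.Lin.SLnGen
import Cfsg.Agent.Lib.Solv.AltD

set_option autoImplicit false
set_option linter.unusedSectionVars false

namespace CA.H29Pr

open CA.Prs Subgroup Equiv Equiv.Perm Function Matrix
open scoped commutatorElement MatrixGroups

section
variable {ι : Type*} [DecidableEq ι] [Fintype ι] {a b c d i j k l : ι}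

theorem ex_alt {m : ℕ} (f g : Fin m → ι) (hf : Injective f) (hg : Injective g) (hab : a ≠ b) :
    ∃ σ : alternatingGroup ι, (∀ x, σ.1 (f x) = g x) ∨ ∀ x, σ.1 (swap a b (f x)) = g x := by
  obtain ⟨π, hπ⟩ := Perm.exists_extending_pair f g hf hg
  rcases Int.units_eq_one_or (sign π) with h | h
  · exact ⟨⟨π, h⟩, .inl hπ⟩
  · exact ⟨⟨π * swap a b, by simp [mem_alternatingGroup, h, hab]⟩, .inr fun x => by simp [hπ]⟩

theorem inj2 (h : a ≠ b) : Injective ![a, b] := by
  intro x y; fin_cases x <;> fin_cases y <;> simp [h, h.symm]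

theorem inj3 (h1 : a ≠ b) (h2 : b ≠ c) (h3 : a ≠ c) : Injective ![a, b, c] := by
  intro x y; fin_cases x <;> fin_cases y <;> simp [h1, h1.symm, h2, h2.symm, h3, h3.symm]

theorem inj4 (h1 : a ≠ b) (h2 : a ≠ c) (h3 : a ≠ d) (h4 : b ≠ c) (h5 : b ≠ d) (h6 : c ≠ d) :
    Injective ![a, b, c, d] := by
  intro x y; fin_cases x <;> fin_cases y <;>
    simp [h1, h1.symm, h2, h2.symm, h3, h3.symm, h4, h4.symm, h5, h5.symm, h6, h6.symm]

theorem pair (h1 : a ≠ b) (h2 : a ≠ c) (h3 : a ≠ d) (h4 : b ≠ c) (h5 : b ≠ d) (h6 : c ≠ d) (h : i ≠ j) :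
    ∃ σ : alternatingGroup ι, σ.1 a = i ∧ σ.1 b = j := by
  obtain ⟨σ, e | e⟩ := ex_alt _ _ (inj2 h1) (inj2 h) h6
  · exact ⟨σ, e 0, e 1⟩
  · exact ⟨σ, by simpa [swap_apply_of_ne_of_ne h2 h3] using e 0, by simpa [swap_apply_of_ne_of_ne h4 h5] using e 1⟩

theorem tri (h1 : a ≠ b) (h2 : b ≠ c) (h3 : a ≠ c) {P : ι → ι → ι → Prop}
    (hP : ∀ (σ : alternatingGroup ι) i j k, P i j k → P (σ.1 i) (σ.1 j) (σ.1 k)) (p0 : P a b c) (p1 : P b a c)
    (i j k : ι) (e1 : i ≠ j) (e2 : j ≠ k) (e3 : i ≠ k) : P i j k := by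
  obtain ⟨σ, e | e⟩ := ex_alt _ _ (inj3 h1 h2 h3) (inj3 e1 e2 e3) h1
  · have := hP σ _ _ _ p0
    rwa [show σ.1 a = i from e 0, show σ.1 b = j from e 1, show σ.1 c = k from e 2] at this
  · have := hP σ _ _ _ p1
    rwa [show σ.1 b = i by simpa using e 0, show σ.1 a = j by simpa using e 1,
      show σ.1 c = k by simpa [swap_apply_of_ne_of_ne h3.symm h2.symm] using e 2] at this

theorem quad (h1 : a ≠ b) (h2 : a ≠ c) (h3 : a ≠ d) (h4 : b ≠ c) (h5 : b ≠ d) (h6 : c ≠ d) {P : ι → ι → ι → ι → Prop}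
    (hP : ∀ (σ : alternatingGroup ι) i j k l, P i j k l → P (σ.1 i) (σ.1 j) (σ.1 k) (σ.1 l)) (p0 : P a b c d)
    (p1 : P a b d c) (i j k l : ι) (e1 : i ≠ j) (e2 : i ≠ k) (e3 : i ≠ l) (e4 : j ≠ k) (e5 : j ≠ l) (e6 : k ≠ l) :
    P i j k l := by
  obtain ⟨σ, e | e⟩ := ex_alt _ _ (inj4 h1 h2 h3 h4 h5 h6) (inj4 e1 e2 e3 e4 e5 e6) h6
  · have := hP σ _ _ _ _ p0
    rwa [show σ.1 a = i from e 0, show σ.1 b = j from e 1, show σ.1 c = k from e 2, show σ.1 d = l from e 3] at this
  · have := hP σ _ _ _ _ p1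
    rwa [show σ.1 a = i by simpa [swap_apply_of_ne_of_ne h2 h3] using e 0,
      show σ.1 b = j by simpa [swap_apply_of_ne_of_ne h4 h5] using e 1,
      show σ.1 d = k by simpa using e 2, show σ.1 c = l by simpa using e 3] at this

theorem exists_ngen (h : 3 ≤ Fintype.card ι) : ∃ c : alternatingGroup ι, ∀ E : Subgroup (alternatingGroup ι),
    E.Normal → c ∈ E → E = ⊤ := by
  obtain ⟨a, b, c, h1, h2, h3⟩ := Fintype.two_lt_card_iff.1 h
  have hc : IsThreeCycle (swap a b * swap a c) := isThreeCycle_swap_mul_swap_same h1 h2 h3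
  refine ⟨⟨_, hc.mem_alternatingGroup⟩, fun E hE hm => ?_⟩
  have key : alternatingGroup ι ≤ E.map (alternatingGroup ι).subtype := by
    refine closure_three_cycles_eq_alternating.ge.trans ((closure_le _).2 ?_)
    intro τ (hτ : IsThreeCycle τ)
    obtain ⟨π, rfl⟩ := isConj_iff.1 (isConj_iff_cycleType_eq.2 (hc.cycleType.trans hτ.cycleType.symm))
    rcases Int.units_eq_one_or (sign π) with e | e
    · exact ⟨_, hE.conj_mem _ hm ⟨π, e⟩, rfl⟩
    · refine ⟨_, hE.conj_mem _ (inv_mem hm) ⟨π * swap a b, by simp [mem_alternatingGroup, e, h1]⟩, ?_⟩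
      simp [mul_assoc]
  refine top_unique fun τ _ => ?_
  obtain ⟨τ', h, e⟩ := key τ.2
  exact Subtype.ext e ▸ h

theorem alt_gens {β : Type*} [DecidableEq β] [Fintype β] : ∃ s : List (alternatingGroup β),
    s.length ≤ min 2 (Fintype.card β - 2) ∧ closure {x | x ∈ s} = ⊤ := by
  rcases Nat.lt_or_ge (Fintype.card β) 4 with h | h
  · by_cases h3 : Fintype.card β = 3
    · have : Nontrivial β := Fintype.one_lt_card_iff_nontrivial.1 (by omega)
      have hc : Nat.card (alternatingGroup β) = 3 := by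
        have := two_mul_nat_card_alternatingGroup (α := β)
        rw [Nat.card_perm, Nat.card_eq_fintype_card (α := β), h3] at this
        change _ = 6 at this; omega
      have := Fact.mk Nat.prime_three
      obtain ⟨g, hg⟩ := (isCyclic_of_prime_card hc).exists_generator
      exact ⟨[g], by simp [h3], top_unique fun x _ => by simpa [← zpowers_eq_closure] using hg x⟩
    · refine ⟨[], by simp, top_unique fun x _ => ?_⟩
      have := closure_three_cycles_eq_alternating.ge x.2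
      rw [show {σ : Perm β | IsThreeCycle σ} = ∅ from
        Set.eq_empty_of_forall_notMem fun σ (hσ : IsThreeCycle σ) => by
          have := hσ.card_support ▸ Finset.card_le_univ σ.support
          omega, Subgroup.closure_empty, mem_bot] at this
      rw [show x = 1 from Subtype.ext this]; exact one_mem _
  · obtain ⟨g, hg⟩ := (CA.AltP.two (Fintype.card β)).2
    let e := (Fintype.equivFin β).symm.altCongrHom
    refine ⟨[e (g 0), e (g 1)], by simp; omega, ?_⟩
    have := (hg.congr e).gen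
    rw [← this]; congr 1; ext; simp [eq_comm]

theorem stab_gens (h : a ≠ b) : ∃ s : List (alternatingGroup ι), s.length ≤ min 2 (Fintype.card ι - 4) ∧
    (∀ x ∈ s, x.1 a = a ∧ x.1 b = b) ∧ ∀ σ : alternatingGroup ι, σ.1 a = a → σ.1 b = b → σ ∈ closure {x | x ∈ s} := by
  obtain ⟨s, h1, h2⟩ := alt_gens (β := {x // x ≠ a ∧ x ≠ b})
  have hc : Fintype.card {x // x ≠ a ∧ x ≠ b} = Fintype.card ι - 2 := by
    rw [Fintype.card_subtype, show Finset.univ.filter (fun x => x ≠ a ∧ x ≠ b) = {a, b}ᶜ by ext; simp,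
      Finset.card_compl, Finset.card_pair h]
  let f : alternatingGroup {x // x ≠ a ∧ x ≠ b} →* alternatingGroup ι :=
    (ofSubtype.comp (alternatingGroup _).subtype).codRestrict _ fun x => by
      simpa [mem_alternatingGroup] using mem_alternatingGroup.1 x.2
  refine ⟨s.map f, by simp only [List.length_map]; omega, fun x hx => ?_, fun σ ha hb => ?_⟩
  · obtain ⟨y, -, rfl⟩ := List.mem_map.1 hx
    exact ⟨ofSubtype_apply_of_not_mem _ (by simp), ofSubtype_apply_of_not_mem _ (by simp)⟩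
  have e1 : ∀ x, (σ.1 x ≠ a ∧ σ.1 x ≠ b) ↔ (x ≠ a ∧ x ≠ b) := fun x => by
    conv_lhs => rw [← ha, ← hb]
    simp
  have e2 : ofSubtype (σ.1.subtypePerm (p := fun x => x ≠ a ∧ x ≠ b) e1) = σ.1 := ofSubtype_subtypePerm _ fun x hx =>
    ⟨fun e => hx (e ▸ ha), fun e => hx (e ▸ hb)⟩
  have e3 : f ⟨σ.1.subtypePerm e1, by rw [mem_alternatingGroup, ← sign_ofSubtype, e2]; exact σ.2⟩ = σ := Subtype.ext e2
  rw [← e3]
  refine (show closure {x | x ∈ s} ≤ (closure {x | x ∈ s.map f}).comap f from (closure_le _).2 fun x hx =>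
    subset_closure (List.mem_map_of_mem hx)) (h2.ge (mem_top _))

variable {F : Type*} [Field F] {ζ : F}

/-- transvections -/
def tv (i j : ι) (a : F) : SpecialLinearGroup ι F := if h : i ≠ j then SpecialLinearGroup.transvection h a else 1

/-- diagonal matrices -/
def hh (h : ζ ≠ 0) (i j : ι) : SpecialLinearGroup ι F :=
  ⟨diagonal fun r => ζ ^ wt i j r, by
    rw [det_diagonal, show (fun r => ζ ^ wt i j r) = fun r => (if r = i then ζ else 1) * if r = j then ζ⁻¹ else 1 by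
      funext r; unfold wt; split_ifs <;> simp [h]]
    rw [Finset.prod_mul_distrib]; simp [h]⟩

theorem tv_eq (h : i ≠ j) (x : F) : tv i j x = SpecialLinearGroup.transvection h x := dif_pos h

theorem tv_coe (h : i ≠ j) (x : F) : (tv i j x).1 = 1 + single i j x := by rw [tv_eq h]; rfl

theorem tv_add (i j : ι) (x y : F) : tv i j (x + y) = tv i j x * tv i j y := by
  unfold tv; split_ifs
  · exact SpecialLinearGroup.transvection_add _ _ _
  · simp

theorem tv_comm (h1 : i ≠ j) (h2 : k ≠ l) (h3 : j ≠ k) (h4 : i ≠ l) (x y : F) : Commute (tv i j x) (tv k l y) := by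
  refine Subtype.ext (show (tv i j x).1 * (tv k l y).1 = (tv k l y).1 * (tv i j x).1 from ?_)
  simp only [tv_coe h1, tv_coe h2, mul_add, add_mul, mul_one, one_mul,
    single_mul_single_of_ne _ _ _ _ h3, single_mul_single_of_ne _ _ _ _ h4.symm]
  abel

theorem tv_br (h1 : i ≠ j) (h2 : j ≠ k) (h3 : i ≠ k) (x y : F) : ⁅tv i j x, tv j k y⁆ = tv i k (x * y) := by
  rw [tv_eq h1, tv_eq h2, tv_eq h3, CA.SLnGen.commutator_transvection]

theorem hh_mul (h : ζ ≠ 0) (i j k : ι) : hh h i j * hh h j k = hh h i k := by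
  refine Subtype.ext (show (hh h i j).1 * (hh h j k).1 = _ from ?_)
  simp only [hh, diagonal_mul_diagonal, ← zpow_add₀ h, wt, sub_add_sub_cancel]

theorem hh_self (h : ζ ≠ 0) (i : ι) : hh h i i = 1 := Subtype.ext (by simp [hh, wt])

theorem hh_comm (h : ζ ≠ 0) (i j k l : ι) : Commute (hh h i j) (hh h k l) := by
  refine Subtype.ext (show (hh h i j).1 * (hh h k l).1 = (hh h k l).1 * (hh h i j).1 from ?_)
  simp only [hh, diagonal_mul_diagonal, mul_comm]

theorem hh_tv (h : ζ ≠ 0) (hij : i ≠ j) (k l : ι) (x : F) :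
    hh h k l * tv i j x * (hh h k l)⁻¹ = tv i j (ζ ^ (wt i j k - wt i j l) * x) := by
  rw [mul_inv_eq_iff_eq_mul]
  refine Subtype.ext (show (hh h k l).1 * (tv i j x).1 = (tv i j _).1 * (hh h k l).1 from ?_)
  simp only [tv_coe hij, hh, mul_add, add_mul, mul_one, one_mul, add_right_inj]
  ext r s
  simp only [diagonal_mul, mul_diagonal, single_apply]
  split_ifs with e
  · obtain ⟨rfl, rfl⟩ := e
    rw [mul_right_comm, ← zpow_add₀ h]
    congr 2
    simp only [wt, eq_comm]; ring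
  · simp

end

variable {F : Type*} [Field F] {ζ : F} {n : ℕ}
open CA.H22Embed

theorem pm_conj (τ : alternatingGroup (Fin n)) {g g' : SL(n, F)} (h : ∀ a b, g.1 a b = g'.1 (τ.1 a) (τ.1 b)) :
    permSL n F τ * g * (permSL n F τ)⁻¹ = g' := by
  rw [mul_inv_eq_iff_eq_mul]
  refine Subtype.ext ?_
  change (τ.1⁻¹).toPEquiv.toMatrix * g.1 = g'.1 * (τ.1⁻¹).toPEquiv.toMatrix
  rw [PEquiv.toMatrix_toPEquiv_mul, PEquiv.mul_toMatrix_toPEquiv]
  ext a b
  simp [h, Perm.inv_def]

theorem pm_tv (τ : alternatingGroup (Fin n)) (i j : Fin n) (x : F) :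
    permSL n F τ * tv i j x * (permSL n F τ)⁻¹ = tv (τ.1 i) (τ.1 j) x := by
  by_cases h : i = j
  · simp [tv, h]
  exact pm_conj τ fun a b => by simp [tv_coe h, tv_coe (τ.1.injective.ne h), Matrix.one_apply, single_apply]

theorem pm_hh (h : ζ ≠ 0) (τ : alternatingGroup (Fin n)) (i j : Fin n) :
    permSL n F τ * hh h i j * (permSL n F τ)⁻¹ = hh h (τ.1 i) (τ.1 j) :=
  pm_conj τ fun a b => by simp [hh, diagonal_apply, wt]

end CA.H29Pr
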