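import Cfsg.Agent.Lib.Lin.PrsSL1
import Cfsg.Agent.Lib.Lie.H22ModA

/-! The Steinberg presentation of `SL_n(q)` in terms of transvections. -/

namespace CA.Prs

open Matrix Subgroup CA.Chev
open scoped MatrixGroups commutatorElement

variable {F J : Type*} [Field F] [Finite F] [Group J]

theorem sl_lift {l : ℕ} (hl : 2 ≤ l) (X : Fin (l + 1) → Fin (l + 1) → F → J)
    (add : ∀ i j, i ≠ j → ∀ a b, X i j (a + b) = X i j a * X i j b)
    (c1 : ∀ i j k, i ≠ j → j ≠ k → i ≠ k → ∀ a b, ⁅X i j a, X j k b⁆ = X i k (a * b))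
    (c0 : ∀ i j k m, i ≠ j → k ≠ m → j ≠ k → i ≠ m → ∀ a b, Commute (X i j a) (X k m b)) :
    ∃ φ : SpecialLinearGroup (Fin (l + 1)) F →* J, ∀ i j (h : i ≠ j) a, φ (SpecialLinearGroup.transvection h a) = X i j a := by
  let M := modA l hl
  choose a d h1 h2 using fun r : Rt M.D => mem_modA.1 (M.R_mem r.2)
  have e : ∀ i j, i ≠ j → X (a (M.ι (rA i j))) (d (M.ι (rA i j))) = X i j := fun i j h => by
    obtain ⟨e1, e2⟩ := (rA_inj h).1 ((h2 _).symm.trans (M.R_ι (rA_mem h)))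
    rw [e1, e2]
  have z : ∀ i j, i ≠ j → X i j 0 = 1 := fun i j h => zero_of_add (add i j h)
  have n2 : ∀ i j k m, i ≠ j → k ≠ m → rA i j + rA k m ≠ 0 → M.N2 (rA i j) (rA k m) = 0 := fun i j k m h h' h0 =>
    M.N2_zero fun c => by
      obtain ⟨x, y, -, c⟩ := mem_modA.1 c
      have c1 := congrFun c i
      have c2 := congrFun c j
      simp only [Pi.add_apply, Pi.sub_apply, Pi.single_apply] at c1 c2
      obtain ⟨rfl, rfl⟩ : m = i ∧ k = j := by grind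
      simp at h0
  have ee : ∀ i j, i ≠ j → M.e (rA i j) = single i j 1 := fun i j h => eA_eq h
  obtain ⟨φ, hφ⟩ := exists_liftC (D := M.D) (x := fun r => X (a r) (d r)) (fun r => add _ _ (h1 r)) fun {r s} _ h0 t u => by
    obtain ⟨i, j, h, rfl⟩ : ∃ i j, i ≠ j ∧ r = M.ι (rA i j) := ⟨_, _, h1 r, by rw [← h2, M.ι_R]⟩
    obtain ⟨k, m, h', rfl⟩ : ∃ i j, i ≠ j ∧ s = M.ι (rA i j) := ⟨_, _, h1 s, by rw [← h2, M.ι_R]⟩
    rw [M.ne_ng (rA_mem h) (rA_mem h')] at h0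
    rw [M.cw_ι (fun r => z _ _ (h1 r)) (rA_mem h) (rA_mem h') h0, n2 _ _ _ _ h h' h0, n2 _ _ _ _ h' h (by rwa [add_comm (rA k m)])]
    simp only [Int.cast_zero, zero_mul, z _ _ (h1 _), mul_one, pow_one, e _ _ h, e _ _ h']
    by_cases e1 : j = k
    · subst e1
      have e2 : i ≠ m := by rintro rfl; simp at h0
      have e3 : rA i j + rA j m = rA i m := by simp
      rw [M.N_of_br (rA_mem h) (rA_mem h') h0 (c := 1) (by simp [e3, ee, *, e2.symm]) (.inl (e3 ▸ rA_mem e2)), e3, e _ _ e2,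
        show ((1 : ℤ) : F) * -t * u = -(t * u) by simp, neg_of_add (add _ _ e2), eq_mul_inv_iff_mul_eq,
        ← ((c0 _ _ _ _ e2 h' h'.symm e2 _ _).mul_right (c0 _ _ _ _ e2 h e2.symm h _ _)).eq, ← c1 _ _ _ h h' e2, commutatorElement_def]
      group
    by_cases e2 : i = m
    · subst e2
      have e3 : rA i j + rA k i = rA k j := by simp [add_comm]
      rw [M.N_of_br (rA_mem h) (rA_mem h') h0 (c := -1) (by simp [e3, ee, *, Ne.symm e1]) (.inl (e3 ▸ rA_mem (Ne.symm e1))), e3,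
        e _ _ (Ne.symm e1), show ((-1 : ℤ) : F) * -t * u = u * t by simp [mul_comm],
        ← ((c0 _ _ _ _ (Ne.symm e1) h h.symm (Ne.symm e1) _ _).mul_right (c0 _ _ _ _ (Ne.symm e1) h' e1 h' _ _)).eq,
        ← c1 _ _ _ h' h (Ne.symm e1), commutatorElement_def]
      group
    · rw [M.N_of_br (rA_mem h) (rA_mem h') h0 (c := 0) (by simp [ee, *, Ne.symm e2]) (.inr rfl)]
      simp [z _ _ (h1 _), (c0 _ _ _ _ h h' e1 e2 t u).eq]
  obtain ⟨E, hE⟩ := exists_slA (hl := hl) (K := F)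
  exact ⟨φ.comp E.symm.toMonoidHom, fun i j h t => by
    rw [← hE]; simp only [MonoidHom.comp_apply, MulEquiv.coe_toMonoidHom, MulEquiv.symm_apply_apply]; exact (hφ ..).trans (congrFun (e _ _ h) t)⟩

end CA.Prs
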