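/-
Bounded presentations of `SL_n(q)` for `n ≥ 4`.
-/
import Cfsg.Agent.Lib.Lin.H29Pr2
import Cfsg.Agent.Lib.Lin.PrsSL0
import Cfsg.Agent.Lib.Solv.AltD

set_option autoImplicit false
set_option linter.unusedSectionVars false

namespace CA.H29Pr

open CA.Prs Subgroup Equiv Equiv.Perm Function Matrix CA.H22Embed
open scoped commutatorElement MatrixGroups

section
variable {ι J : Type*} [Group J] {a b c d : ι}

/-- the defining relations -/
structure Rel (a b c d : ι) (p e : ℕ) (L : List ℕ) (H U : ι → ι → J) : Prop where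
  t1 : H a b * H b c = H a c
  t2 : Commute (H c a) (H c b)
  t3 : Commute (U a b) (H c d)
  t4 : Commute (U a b) (H a c * H b c)
  t5 : Commute (U c a) (U c b)
  t6 : Commute (U a c) (U b c)
  t7 : ⁅U a b, U b c⁆ = U a c
  t8 : Commute (U a b) (U c d)
  t9 : Commute (U a b) (U d c)
  t10 : U a b ^ p = 1
  t11 : cj (H a c) (U a b) e = wd (H a c) (U a b) L

/-- torus generators -/
abbrev fh (i j : ι) : FreeGroup (Fin 2 × ι × ι) := .of (0, i, j)
/-- root generators -/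
abbrev fu (i j : ι) : FreeGroup (Fin 2 × ι × ι) := .of (1, i, j)

/-- the relators -/
def rels (a b c d : ι) (p e : ℕ) (L : List ℕ) : List (FreeGroup (Fin 2 × ι × ι)) :=
  [fh a b * fh b c * (fh a c)⁻¹, ⁅fh c a, fh c b⁆, ⁅fu a b, fh c d⁆, ⁅fu a b, fh a c * fh b c⁆, ⁅fu c a, fu c b⁆,
    ⁅fu a c, fu b c⁆, ⁅fu a b, fu b c⁆ * (fu a c)⁻¹, ⁅fu a b, fu c d⁆, ⁅fu a b, fu d c⁆, fu a b ^ p,
    cj (fh a c) (fu a b) e * (wd (fh a c) (fu a b) L)⁻¹]

/-- the two extra relators -/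
def rels' (a b c : ι) : List (FreeGroup (Fin 2 × ι × ι)) :=
  [fh b a * fh a c * (fh b c)⁻¹, ⁅fu b a, fu a c⁆ * (fu b c)⁻¹]

theorem rels_iff {p e : ℕ} {L : List ℕ} (χ : Fin 2 × ι × ι → J) : (∀ w ∈ rels a b c d p e L, FreeGroup.lift χ w = 1) ↔
    Rel a b c d p e L (fun i j => χ (0, i, j)) fun i j => χ (1, i, j) := by
  simp only [rels, List.forall_mem_cons, map_mul, map_inv, map_commutatorElement, map_pow, map_cj, map_wd,
    FreeGroup.lift_apply_of, mul_inv_eq_one, commutatorElement_eq_one_iff_commute, List.not_mem_nil, false_imp_iff,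
    implies_true, and_true]
  exact ⟨fun ⟨h1, h2, h3, h4, h5, h6, h7, h8, h9, h10, h11⟩ => ⟨h1, h2, h3, h4, h5, h6, h7, h8, h9, h10, h11⟩,
    fun ⟨h1, h2, h3, h4, h5, h6, h7, h8, h9, h10, h11⟩ => ⟨h1, h2, h3, h4, h5, h6, h7, h8, h9, h10, h11⟩⟩

theorem rels'_iff (χ : Fin 2 × ι × ι → J) : (∀ w ∈ rels' a b c, FreeGroup.lift χ w = 1) ↔
    χ (0, b, a) * χ (0, a, c) = χ (0, b, c) ∧ ⁅χ (1, b, a), χ (1, a, c)⁆ = χ (1, b, c) := by
  simp only [rels', List.forall_mem_cons, map_mul, map_inv, map_commutatorElement,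
    FreeGroup.lift_apply_of, mul_inv_eq_one, List.not_mem_nil, false_imp_iff, implies_true, and_true]

variable [DecidableEq ι] [Fintype ι]

theorem four_of (h1 : a ≠ b) (h2 : a ≠ c) (h3 : a ≠ d) (h4 : b ≠ c) (h5 : b ≠ d) (h6 : c ≠ d) (i j k : ι) :
    ∃ l, l ≠ i ∧ l ≠ j ∧ l ≠ k := by
  by_contra! h
  have H : ∀ l, l = i ∨ l = j ∨ l = k := fun l => by have := h l; tauto
  have := H a; have := H b; have := H c; have := H d
  grind

theorem Rel.tor (h1 : a ≠ b) (h2 : a ≠ c) (h3 : a ≠ d) (h4 : b ≠ c) (h5 : b ≠ d) (h6 : c ≠ d) {p e : ℕ} {L : List ℕ}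
    {H U : ι → ι → J} (R : Rel a b c d p e L H U) (x1 : H b a * H a c = H b c) (x2 : ⁅U b a, U a c⁆ = U b c)
    (h0 : ∀ i, H i i = 1) (eqv : ∀ σ : alternatingGroup ι, ∃ f : J →* J, (∀ i j, f (H i j) = H (σ.1 i) (σ.1 j)) ∧
      ∀ i j, f (U i j) = U (σ.1 i) (σ.1 j)) : ∃ κ, Tor H U κ ∧ ∀ i j, i ≠ j → U i j ^ p = 1 ∧
        cj (H i (κ i j)) (U i j) e = wd (H i (κ i j)) (U i j) L := by
  choose f f1 f2 using eqv
  choose! σ s1 s2 using fun i j (h : i ≠ j) => pair h1 h2 h3 h4 h5 h6 h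
  have k1 : ∀ i j, i ≠ j → (σ i j).1 c ≠ i := fun i j h => by
    conv_rhs => rw [← s1 i j h]
    exact (σ i j).1.injective.ne h2.symm
  have k2 : ∀ i j, i ≠ j → (σ i j).1 c ≠ j := fun i j h => by
    conv_rhs => rw [← s2 i j h]
    exact (σ i j).1.injective.ne h4.symm
  have a1 := tri h1 h4 h2 (P := fun i j k => H i j * H j k = H i k)
    (fun τ i j k h => by rw [← f1, ← f1, ← f1, ← map_mul, h]) R.t1 x1
  have a2 := tri h1 h4 h2 (P := fun j k i => Commute (H i j) (H i k))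
    (fun τ i j k h => by rw [← f1, ← f1]; exact h.map _) R.t2 R.t2.symm
  have T0 : Tor H (fun _ _ => 1) fun i j => (σ i j).1 c :=
    ⟨four_of h1 h2 h3 h4 h5 h6, h0, a1, fun j k i e1 e2 e3 => a2 j k i e1 e2 e3, by simp, k1, k2, by simp, by simp,
      by simp, by simp, by simp⟩
  refine ⟨fun i j => (σ i j).1 c, ⟨T0.four, h0, a1, T0.hc, quad h1 h2 h3 h4 h5 h6
    (P := fun i j k l => Commute (U i j) (H k l)) (fun τ i j k l h => by rw [← f1, ← f2]; exact h.map _) R.t3 ?_,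
    k1, k2, fun i j h => ?_, tri h1 h4 h2 (P := fun j k i => Commute (U i j) (U i k))
    (fun τ i j k h => by rw [← f2, ← f2]; exact h.map _) R.t5 R.t5.symm,
    tri h1 h4 h2 (P := fun i k j => Commute (U i j) (U k j))
    (fun τ i j k h => by rw [← f2, ← f2]; exact h.map _) R.t6 R.t6.symm,
    tri h1 h4 h2 (P := fun i j k => ⁅U i j, U j k⁆ = U i k)
    (fun τ i j k h => by rw [← f2, ← f2, ← f2, ← map_commutatorElement, h]) R.t7 x2,
    quad h1 h2 h3 h4 h5 h6 (P := fun i j k l => Commute (U i j) (U k l))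
    (fun τ i j k l h => by rw [← f2, ← f2]; exact h.map _) R.t8 R.t9⟩, fun i j h => ⟨?_, ?_⟩⟩
  · rw [eq_inv_of_mul_eq_one_left (T0.inv d c)]; exact R.t3.inv_right
  · simpa only [map_mul, f1, f2, s1 i j h, s2 i j h] using R.t4.map (f (σ i j))
  · simpa only [map_pow, map_one, f2, s1 i j h, s2 i j h] using congrArg (f (σ i j)) R.t10
  · simpa only [map_cj, map_wd, f1, f2, s1 i j h, s2 i j h] using congrArg (f (σ i j)) R.t11

variable {F : Type*} [Field F] {ζ : F}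

theorem cj_tv (h : ζ ≠ 0) {i j k : ι} (h1 : i ≠ j) (h2 : k ≠ i) (h3 : k ≠ j) (m : ℤ) :
    tv i j (ζ ^ m) = cj (hh h i k) (tv i j 1) m := by
  simpa using cj_eq (Ψ := tv i j) h (η := hh h i k) (fun x => by simp [hh_tv h h1, wt, h1, h2, h3]) 1 m

theorem rel_sl (h : ζ ≠ 0) (h1 : a ≠ b) (h2 : a ≠ c) (h3 : a ≠ d) (h4 : b ≠ c) (h5 : b ≠ d) (h6 : c ≠ d) {p e : ℕ}
    [CharP F p] {L : List ℕ} (hL : ζ ^ e = (L.map (ζ ^ ·)).sum) : Rel a b c d p e L (hh h) fun i j => tv i j (1 : F) := by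
  have c1 : ∀ g : SpecialLinearGroup ι F, g * tv a b 1 * g⁻¹ = tv a b 1 → Commute (tv a b 1) g := fun g e =>
    (mul_inv_eq_iff_eq_mul.1 e).symm
  refine ⟨hh_mul .., hh_comm .., c1 _ ?_, c1 _ ?_, tv_comm h2.symm h4.symm h2 h4.symm _ _,
    tv_comm h2 h4 h4.symm h2 _ _, by simpa using tv_br h1 h4 h2 (1 : F) 1, tv_comm h1 h6 h4 h3 _ _,
    tv_comm h1 h6.symm h5 h2 _ _, ?_, ?_⟩
  · simp [hh_tv h h1, wt, h2.symm, h3.symm, h4.symm, h5.symm]
  · rw [_root_.mul_inv_rev, ← mul_assoc, mul_assoc (hh h a c), mul_assoc (hh h a c), hh_tv h h1, hh_tv h h1]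
    simp [wt, h1, h1.symm, h2.symm, h4.symm, h]
  · have : ∀ m : ℕ, tv a b (1 : F) ^ m = tv a b (m : F) := fun m => by
      induction m with
      | zero => simpa using (zero_of_add (tv_add a b)).symm
      | succ m ih => rw [pow_succ, ih, ← tv_add, Nat.cast_succ]
    rw [this, CharP.cast_eq_zero, zero_of_add (tv_add a b)]
  · rw [wd_eq (tv_add a b) (cj_tv h h1 h2.symm h4.symm), ← hL, ← cj_tv h h1 h2.symm h4.symm, zpow_natCast]

end

theorem main {F : Type*} [Field F] [Finite F] {l d r : ℕ} (hl : 3 ≤ l) (hA : Pres d r (alternatingGroup (Fin (l + 1)))) :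
    Pres (d + 2) (r + 2 * min 2 (l - 3) + (12 + if 4 ≤ l then 0 else 2)) (SpecialLinearGroup (Fin (l + 1)) F) := by
  obtain ⟨p, hp⟩ := CharP.exists F
  have := Fact.mk (CharP.char_is_prime F p)
  obtain ⟨ζ, h0, hζ, -⟩ := exists_gen F
  have hγ : Subring.closure {ζ} = ⊤ := top_unique fun x _ => by
    by_cases h : x = 0
    · rw [h]; exact zero_mem _
    · obtain ⟨i, rfl⟩ := hζ x h
      exact pow_mem (Subring.subset_closure (Set.mem_singleton ζ)) _
  obtain ⟨e, -, m1, m2⟩ := modl p h0 hγ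
  obtain ⟨L, L1, L2⟩ := m1 (ζ ^ e)
  obtain ⟨a, b, c, d', h1, h2, h3, h4, h5, h6, h7⟩ : ∃ a b c d : Fin (l + 1), a ≠ b ∧ a ≠ c ∧ a ≠ d ∧ b ≠ c ∧ b ≠ d ∧
      c ≠ d ∧ (4 ≤ l → ∃ σ : alternatingGroup (Fin (l + 1)), σ.1 a = b ∧ σ.1 b = a ∧ σ.1 c = c) := by
    refine ⟨⟨0, by omega⟩, ⟨1, by omega⟩, ⟨2, by omega⟩, ⟨3, by omega⟩, by simp, by simp, by simp, by simp, by simp,
      by simp, fun h => ⟨⟨swap ⟨0, by omega⟩ ⟨1, by omega⟩ * swap ⟨3, by omega⟩ ⟨4, by omega⟩, ?_⟩, ?_⟩⟩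
    · simp [mem_alternatingGroup, Fin.ext_iff]
    · simp [swap_apply_def, Fin.ext_iff]
  obtain ⟨s, s1, s2, s3⟩ := stab_gens h1
  obtain ⟨g, hg⟩ := exists_ngen (ι := Fin (l + 1)) (by simp; omega)
  let x : Fin 2 × Fin (l + 1) × Fin (l + 1) → SpecialLinearGroup (Fin (l + 1)) F := fun q =>
    ![hh h0 q.2.1 q.2.2, tv q.2.1 q.2.2 1] q.1
  let NU : Subgroup (FreeGroup (Fin 2 × Fin (l + 1) × Fin (l + 1))) := normalClosure {w | ∃ i j, w = fu i j}
  have cs : ∀ y : F, y = 0 ∨ ∃ m : ℤ, y = ζ ^ m := fun y => by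
    by_cases h : y = 0
    · exact .inl h
    · obtain ⟨i, rfl⟩ := hζ y h
      exact .inr ⟨i, (zpow_natCast _ _).symm⟩
  have n1 : NU.map (FreeGroup.lift x) = ⊤ := CA.SLnGen.eq_top_of_transvection fun i j h y => by
    rw [← tv_eq h]
    rcases cs y with rfl | ⟨m, rfl⟩
    · rw [zero_of_add (tv_add i j)]; exact one_mem _
    obtain ⟨k, k1, k2, -⟩ := four_of h1 h2 h3 h4 h5 h6 i j j
    exact ⟨cj (fh i k) (fu i j) m, normalClosure_normal.conj_mem _ (subset_normalClosure (by exact ⟨i, j, rfl⟩)) _, by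
      rw [map_cj, cj_tv h0 h k1 k2]; simp [x]⟩
  obtain ⟨v, v1, v2⟩ := n1.ge (mem_top (permSL _ F g))
  let W := rels a b c d' p e L ++ if 4 ≤ l then [] else rels' a b c
  have := hA.act (permSL _ F) (fun σ q => (q.1, σ.1 q.2.1, σ.1 q.2.2)) (fun _ => rfl) (fun _ _ _ => rfl) x
    (fun σ ⟨t, i, j⟩ => by fin_cases t <;> simp [x, pm_tv, pm_hh]) (fun t => (t, a, b))
    (fun q => if q.2.1 = q.2.2 then none else some q.1) (by simp [h1]) (by simp)
    (fun ⟨t, i, j⟩ t' h => by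
      simp only [ite_eq_iff, reduceCtorEq, and_false, false_or, Option.some.injEq] at h
      obtain ⟨σ, e1, e2⟩ := pair h1 h2 h3 h4 h5 h6 h.1
      exact ⟨σ, by simp [e1, e2, ← h.2]⟩)
    (fun ⟨t, i, j⟩ h => by
      obtain rfl : i = j := by simpa using h
      fin_cases t <;> simp [x, hh_self, tv])
    (s.map (0, ·) ++ s.map (1, ·)) (by
      simp only [List.forall_mem_append, List.forall_mem_map]
      exact ⟨fun y h => by simp [s2 y h], fun y h => by simp [s2 y h]⟩)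
    (fun t σ h => by
      simp only [Prod.mk.injEq, true_and] at h
      exact closure_mono (fun y (hy : y ∈ s) => by fin_cases t <;> simp [hy]) (s3 σ h.1 h.2))
    ((g, v) :: W.map (1, ·)) (by
      simp only [List.forall_mem_cons, List.forall_mem_map, W, List.forall_mem_append, map_one]
      refine ⟨v2.symm, fun w h => ((rels_iff x).2 (rel_sl h0 h1 h2 h3 h4 h5 h6 L2) w h).symm, ?_⟩
      split_ifs
      · simp
      · exact fun w h => ((rels'_iff (a := a) (b := b) (c := c) x).2 ⟨hh_mul h0 ..,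
          by simpa [x] using tv_br h1.symm h2 h4 (1 : F) 1⟩ w h).symm)
    (top_unique (n1.ge.trans ((map_le_range _ _).trans (by
      rw [FreeGroup.range_lift_eq_closure]; exact closure_mono Set.subset_union_right)))) fun J _ ψ χ e1 e2 e3 => ?_
  · refine this.mono ?_
    simp only [List.length_append, List.length_map, List.length_cons, W, rels, rels', List.length_nil, Fintype.card_fin]
      at s1 ⊢
    split_ifs <;> simp <;> omega
  simp only [List.forall_mem_cons, List.forall_mem_map, W, List.forall_mem_append, map_one] at e3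
  obtain ⟨e3, R, R'⟩ := e3
  replace R := (rels_iff χ).1 fun w h => (R w h).symm
  set H := fun i j => χ (0, i, j)
  set U := fun i j => χ (1, i, j)
  have f1 : ∀ σ i j, (MulAut.conj (ψ σ)).toMonoidHom (H i j) = H (σ.1 i) (σ.1 j) := fun σ i j => (e1 σ (0, i, j)).symm
  have f2 : ∀ σ i j, (MulAut.conj (ψ σ)).toMonoidHom (U i j) = U (σ.1 i) (σ.1 j) := fun σ i j => (e1 σ (1, i, j)).symm
  have R'' : H b a * H a c = H b c ∧ ⁅U b a, U a c⁆ = U b c := by
    split_ifs at R' with h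
    · obtain ⟨σ, a1, a2, a3⟩ := h7 h
      exact ⟨by simpa only [map_mul, f1, a1, a2, a3] using congrArg (MulAut.conj (ψ σ)).toMonoidHom R.t1,
        by simpa only [map_commutatorElement, f2, a1, a2, a3] using congrArg (MulAut.conj (ψ σ)).toMonoidHom R.t7⟩
    · exact (rels'_iff χ).1 fun w h => (R' w h).symm
  obtain ⟨κ, T, hT⟩ := R.tor h1 h2 h3 h4 h5 h6 R''.1 R''.2 (fun i => e2 (0, i, i) (by simp)) fun σ => ⟨_, f1 σ, f2 σ⟩
  choose! X add hX _ using fun i j (h : i ≠ j) => m2 L L1 L2 J (H i (κ i j)) (U i j)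
    (fun m _ => by simpa [Y, cj_zero] using T.R0 h 0 m) (hT i j h).1 (hT i j h).2
  replace hX : ∀ i j, i ≠ j → ∀ m : ℤ, X i j (ζ ^ m) = Y H U κ i j m := hX
  obtain ⟨c1, c0⟩ := T.root h0 hζ X add hX
  obtain ⟨φ, hφ⟩ := sl_lift (by omega) X add c1 c0
  replace hφ : ∀ i j, i ≠ j → ∀ y, φ (tv i j y) = X i j y := fun i j h y => by rw [tv_eq h, hφ]
  have ext : ∀ (γ : SpecialLinearGroup (Fin (l + 1)) F) (y : J), (∀ i j, i ≠ j → ∀ m : ℤ,
      φ (γ * tv i j (ζ ^ m) * γ⁻¹) = y * Y H U κ i j m * y⁻¹) → ∀ z, φ (γ * z * γ⁻¹) = y * φ z * y⁻¹ := fun γ y h z =>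
    (CA.SLnGen.eq_top_of_transvection (H := (φ.comp (MulAut.conj γ).toMonoidHom).eqLocus
      ((MulAut.conj y).toMonoidHom.comp φ)) fun i j h' t => by
      rw [← tv_eq h']
      rcases cs t with rfl | ⟨m, rfl⟩
      · rw [zero_of_add (tv_add i j)]; exact one_mem _
      · exact (h i j h' m).trans (by rw [← hX i j h', ← hφ i j h']; rfl)).ge (mem_top z)
  have q1 : ∀ τ z, φ (permSL _ F τ * z * (permSL _ F τ)⁻¹) = ψ τ * φ z * (ψ τ)⁻¹ := fun τ => ext _ _ fun i j h m => by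
    have h' := τ.1.injective.ne h
    rw [pm_tv, hφ _ _ h', hX _ _ h', T.Y_eq h' (τ.1.injective.ne (T.k1 i j h)) (τ.1.injective.ne (T.k2 i j h)), ← f1,
      ← f2, ← map_cj]
    rfl
  have q2 : ∀ k k' z, φ (hh h0 k k' * z * (hh h0 k k')⁻¹) = H k k' * φ z * (H k k')⁻¹ := fun k k' =>
    ext _ _ fun i j h m => by rw [hh_tv h0 h, ← zpow_add₀ h0, hφ _ _ h, hX _ _ h, T.act h, add_comm m]
  have q3 : ∀ i j, φ (tv i j 1) = U i j := fun i j => by
    by_cases h : i = j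
    · subst h; simpa [tv] using (e2 (1, i, i) (by simp)).symm
    · simpa [Y, cj_zero] using (hφ i j h _).trans (hX i j h 0)
  have q4 : ∀ w z, φ (FreeGroup.lift x w * z * (FreeGroup.lift x w)⁻¹) =
      FreeGroup.lift χ w * φ z * (FreeGroup.lift χ w)⁻¹ := fun w => by
    induction w using FreeGroup.induction_on with
    | C1 => simp
    | of q =>
      obtain ⟨t, i, j⟩ := q
      fin_cases t
      · simpa [x] using q2 i j
      · intro z; simp [x, q3, U]
    | inv_of q ih =>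
      intro z
      have := ih ((FreeGroup.lift x (.of q))⁻¹ * z * FreeGroup.lift x (.of q))
      simp only [mul_assoc, mul_inv_cancel_left, mul_inv_cancel, mul_one] at this
      simp only [map_inv, inv_inv, this, mul_assoc, inv_mul_cancel_left, inv_mul_cancel, mul_one]
    | mul w w' ih ih' =>
      intro z
      have := ih (FreeGroup.lift x w' * z * (FreeGroup.lift x w')⁻¹)
      rw [ih'] at this
      simpa only [map_mul (FreeGroup.lift x), map_mul (FreeGroup.lift χ), _root_.mul_inv_rev, mul_assoc] using this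
  have q5 : ((φ.comp (FreeGroup.lift x)).eqLocus (FreeGroup.lift χ)).Normal :=
    ⟨fun w (hw : φ _ = _) w' => show φ _ = _ by simp only [map_mul (FreeGroup.lift x), map_inv (FreeGroup.lift x),
      map_mul (FreeGroup.lift χ), map_inv (FreeGroup.lift χ), q4, hw]⟩
  have q6 : φ (permSL _ F g) = ψ g := by
    rw [e3, ← v2]
    exact (normalClosure_le_normal (N := (φ.comp (FreeGroup.lift x)).eqLocus (FreeGroup.lift χ))
      (by rintro _ ⟨i, j, rfl⟩; exact show φ _ = _ by simp [x, q3, U])) v1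
  have q7 : ∀ τ, φ (permSL _ F τ) = ψ τ := fun τ => (hg ((φ.comp (permSL _ F)).eqLocus ψ)
    ⟨fun σ (h : φ _ = _) τ => show φ _ = _ by simp only [map_mul (permSL _ F), map_inv (permSL _ F), q1, h, map_mul ψ,
      map_inv ψ]⟩ q6).ge (mem_top τ)
  refine ⟨φ, MonoidHom.ext q7, fun ⟨t, i, j⟩ => ?_⟩
  fin_cases t
  swap
  · exact q3 i j
  change φ (hh h0 i j) = H i j
  by_cases h : i = j
  · subst h; rw [hh_self, T.h0, map_one]
  obtain ⟨k, k1, k2, -⟩ := T.four i j j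
  obtain ⟨k', k3, k4, k5⟩ := T.four i j k
  obtain ⟨τ, t1, t2⟩ := pair (i := j) (j := k) k1.symm h k3.symm k2 k5.symm k4.symm k2.symm
  have u1 := pm_hh h0 τ i k
  have u2 := f1 τ i k
  rw [t1, t2] at u1 u2
  have u3 := q2 i k (permSL _ F τ)
  rw [← mul_right_cancel_iff (a := H j k), T.mul, show hh h0 i j = hh h0 i k * permSL _ F τ * (hh h0 i k)⁻¹ *
    (permSL _ F τ)⁻¹ by rw [← mul_right_cancel_iff (a := hh h0 j k), hh_mul, ← u1]; group, map_mul, u3, map_inv, q7, ← u2]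
  simp [mul_assoc]

end CA.H29Pr

namespace CA.Prs

open Matrix Subgroup
open scoped MatrixGroups

variable {F : Type*} [Field F] [Finite F] {n : ℕ}

theorem pres_sl4' : Pres 4 18 SL(4, F) :=
  (CA.AltP.small (n := 3 + 1) (by omega)).2.elim fun _ h => H29Pr.main (l := 3) le_rfl h.fp

theorem pres_sl5' : Pres 4 19 SL(5, F) :=
  (CA.AltP.small (n := 4 + 1) (by omega)).2.elim fun _ h => H29Pr.main (l := 4) (by omega) h.fp

theorem pres_sln' (hn : 4 ≤ n) : Pres 5 23 SL(n, F) := by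
  obtain ⟨l, rfl⟩ : ∃ l, n = l + 1 := ⟨n - 1, by omega⟩
  refine (CA.AltP.three (n := l + 1) (by omega)).2.elim fun _ h => (H29Pr.main (by omega) h.fp).mono ?_
  split_ifs <;> omega

theorem pres_sl4 : Pres 6 21 SL(4, F) := pres_sl4'.le (by omega) (by omega)

theorem pres_sl5 : Pres 6 22 SL(5, F) := pres_sl5'.le (by omega) (by omega)

theorem pres_sln (hn : 4 ≤ n) : Pres 7 25 SL(n, F) := (pres_sln' hn).le (by omega) (by omega)

omit [Finite F] in
theorem cyc_center_sl : IsCyclic (center SL(n, F)) :=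
  have : NeZero (max (Fintype.card (Fin n)) 1) := ⟨by omega⟩
  isCyclic_of_surjective _ SpecialLinearGroup.center_equiv_rootsOfUnity.symm.surjective

end CA.Prs
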