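/-
Tools for short presentations: a universal form of the Curtis-Tits theorem, and few generators for
`SL₂ × SL_m` inside `SL_n`.
-/
import Cfsg.Agent.Lib.Lie.H22CT
import Cfsg.Agent.Lib.Lin.SLnGen
import Cfsg.Agent.Lib.Lin.SLnCard

set_option autoImplicit false

namespace CA.H6Pr

open Matrix MatrixGroups Cfsg.Lie Cfsg.Lie.ChevalleyDatum Subgroup CA.Chev

section CT
variable {D : ChevalleyDatum} [Good D] {K : Type*} [Field K] {J : Type*} [Group J]

/-- the pair of nodes sits in the graph of a homomorphism -/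
def Gr (a b : Nd D → K → J) (i j : Nd D) : Prop :=
  ∃ (P : Subgroup (D.SteinbergCover K)) (Φ : P →* J), ∀ k ∈ ({i, j} : Set (Nd D)), ∀ t,
    (∃ m, Φ ⟨(stC D K).x (sim k) t, m⟩ = a k t) ∧ ∃ m, Φ ⟨(stC D K).x (ng (sim k)) t, m⟩ = b k t

theorem gr_of {a b : Nd D → K → J} {i j : Nd D} {R : Type*} [Group R] (ι : R →* D.SteinbergCover K)
    (hι : Function.Injective ι) (Φ : R →* J) (h : ∀ k, k = i ∨ k = j → ∀ t,
      (∃ m, ι m = (stC D K).x (sim k) t ∧ Φ m = a k t) ∧ ∃ m, ι m = (stC D K).x (ng (sim k)) t ∧ Φ m = b k t) :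
    Gr a b i j := by
  refine ⟨ι.range, Φ.comp (MonoidHom.ofInjective hι).symm.toMonoidHom, fun k hk t => ⟨?_, ?_⟩⟩
  · obtain ⟨m, h1, h2⟩ := (h k hk t).1
    exact ⟨⟨m, h1⟩, h2 ▸ congrArg Φ ((MulEquiv.symm_apply_eq _).2 (Subtype.ext h1.symm))⟩
  · obtain ⟨m, h1, h2⟩ := (h k hk t).2
    exact ⟨⟨m, h1⟩, h2 ▸ congrArg Φ ((MulEquiv.symm_apply_eq _).2 (Subtype.ext h1.symm))⟩

/-- the pair of nodes is orthogonal and the images commute -/
def Ort (a b : Nd D → K → J) (i j : Nd D) : Prop :=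
  (∀ r ∈ Phi ({i, j} : Set (Nd D)), (r = sim i ∨ r = ng (sim i)) ∨ r = sim j ∨ r = ng (sim j)) ∧ i ≠ j ∧
    ∀ t u, (Commute (a i t) (a j u) ∧ Commute (a i t) (b j u)) ∧ Commute (b i t) (a j u) ∧ Commute (b i t) (b j u)

theorem ct_univ (a b : Nd D → K → J) (h0 : ∀ i, Gr a b i i) (h : ∀ i j, Gr a b i j ∨ Ort a b i j) :
    ∃ φ : D.SteinbergCover K →* J, ∀ i t, φ ((stC D K).x (sim i) t) = a i t ∧
      φ ((stC D K).x (ng (sim i)) t) = b i t := by
  let Γ : Set (Nd D) → Subgroup (D.SteinbergCover K × J) := fun I =>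
    closure {p | ∃ k ∈ I, ∃ t, p = ((stC D K).x (sim k) t, a k t) ∨ p = ((stC D K).x (ng (sim k)) t, b k t)}
  have h1 : ∀ r t, ∃ p ∈ Γ {k | rt r k ≠ 0}, p.1 = (stC D K).x r t := fun r t =>
    (stC D K).x_mem_J (J := {k | rt r k ≠ 0}) (M := (Γ {k | rt r k ≠ 0}).map (MonoidHom.fst _ J)) (fun j hj t =>
      ⟨⟨_, subset_closure ⟨j, hj, t, Or.inl rfl⟩, rfl⟩, ⟨_, subset_closure ⟨j, hj, t, Or.inr rfl⟩, rfl⟩⟩)
      (fun _ => not_not.1) t
  choose z hz hz' using h1
  have h2 : ∀ {I r}, r ∈ Phi I → ∀ t, z r t ∈ Γ I := fun hr t => closure_mono (by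
    rintro _ ⟨k, hk, h⟩; exact ⟨k, by_contra fun e => hk (hr k e), h⟩) (hz _ t)
  have h3 : ∀ {i j p q}, Gr a b i j → p ∈ Γ {i, j} → q ∈ Γ {i, j} → p.1 = q.1 → p = q := by
    rintro i j p q ⟨P, Φ, h⟩ hp hq e
    have : Γ {i, j} ≤ (P.subtype.prod Φ).range := (closure_le _).2 (by
      rintro _ ⟨k, hk, t, rfl | rfl⟩
      · obtain ⟨m, hm⟩ := (h k hk t).1; exact ⟨⟨_, m⟩, Prod.ext rfl hm⟩
      · obtain ⟨m, hm⟩ := (h k hk t).2; exact ⟨⟨_, m⟩, Prod.ext rfl hm⟩)
    obtain ⟨p, rfl⟩ := this hp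
    obtain ⟨q, rfl⟩ := this hq
    rw [Subtype.ext e]
  have za : ∀ i t, z (sim i) t = ((stC D K).x (sim i) t, a i t) := fun i t =>
    h3 (h0 i) (h2 (CT.sim_mem i) t) (subset_closure ⟨i, by simp, t, Or.inl rfl⟩) (hz' _ _)
  have zb : ∀ i t, z (ng (sim i)) t = ((stC D K).x (ng (sim i)) t, b i t) := fun i t =>
    h3 (h0 i) (h2 (ng_mem_Phi.2 (CT.sim_mem i)) t) (subset_closure ⟨i, by simp, t, Or.inr rfl⟩) (hz' _ _)
  have ad : ∀ {i j r}, Gr a b i j → r ∈ Phi {i, j} → ∀ t u, z r (t + u) = z r t * z r u := fun g hr t u =>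
    h3 g (h2 hr _) (mul_mem (h2 hr _) (h2 hr _)) (by simp [hz', (stC D K).add])
  obtain ⟨φ, hφ⟩ := exists_ct_hom z ((stC D K).θ.comp (MonoidHom.fst _ _)) (fun {I r} hI hr t u => by
      obtain ⟨i, j, rfl⟩ := hI
      rcases h i j with g | g
      · exact ad g hr t u
      · rcases g.1 r hr with (rfl | rfl) | rfl | rfl
        exacts [ad (h0 i) (CT.sim_mem i) t u, ad (h0 i) (ng_mem_Phi.2 (CT.sim_mem i)) t u,
          ad (h0 j) (CT.sim_mem j) t u, ad (h0 j) (ng_mem_Phi.2 (CT.sim_mem j)) t u])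
    (fun {I r s} hI hr hs c d t u => by
      obtain ⟨i, j, rfl⟩ := hI
      rcases h i j with g | g
      · exact h3 g (mul_mem (h2 hs _) (h2 hr _)) (mul_mem (mul_mem (h2 hr _) (h2 hs _))
          (Subgroup.list_prod_mem _ fun y hy => by
            obtain ⟨l, hl, rfl⟩ := List.mem_map.1 hy
            exact h2 (cmb_mem_Phi hr hs (cmb_of_mem hl)) _))
          (by simp only [Prod.fst_mul, hz', (stC D K).comm c d]
              exact congrArg _ (map_cw (MonoidHom.fst (D.SteinbergCover K) J) hz' _ _ t u).symm)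
      · have nil : cT r s = [] := List.eq_nil_iff_forall_not_mem.2 fun k hk => by
          obtain ⟨x, y, hx, hy, e⟩ := cmb_of_mem hk
          have e1 := congrFun e i
          have e2 := congrFun e j
          have ij := g.2.1
          rcases g.1 _ (cmb_mem_Phi hr hs (cmb_of_mem hk)) with (e | e) | e | e <;> rw [e] at e1 e2 <;>
            rcases g.1 r hr with (rfl | rfl) | rfl | rfl <;> rcases g.1 s hs with (rfl | rfl) | rfl | rfl <;>
            first | exact c rfl | exact d rfl | exact d (ng_ng _).symm |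
              (simp [rt_sim, ij, ij.symm] at e1 e2 <;> omega)
        have e1 := (stC D K).comm c d t u
        rw [cw, nil] at e1 ⊢
        obtain ⟨⟨c1, c2⟩, c3, c4⟩ := g.2.2 t u
        obtain ⟨⟨d1, d2⟩, d3, d4⟩ := g.2.2 u t
        rcases g.1 r hr with (rfl | rfl) | rfl | rfl <;> rcases g.1 s hs with (rfl | rfl) | rfl | rfl <;>
          first | exact absurd rfl c | exact absurd rfl d | exact absurd (ng_ng _).symm d |
            (simp only [za, zb, List.map_nil, List.prod_nil, mul_one] at e1 ⊢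
             refine Prod.ext e1 ?_
             first
              | exact c1.symm.eq | exact c2.symm.eq | exact c3.symm.eq | exact c4.symm.eq
              | exact d1.eq | exact d2.eq | exact d3.eq | exact d4.eq))
    fun _ _ t => by rw [MonoidHom.comp_apply, MonoidHom.coe_fst, hz', (stC D K).θx]
  exact ⟨(MonoidHom.snd _ _).comp φ, fun i t =>
    ⟨congrArg Prod.snd ((hφ _ _ (two_pair i i) (CT.sim_mem i) t).trans (za i t)),
      congrArg Prod.snd ((hφ _ _ (two_pair i i) (ng_mem_Phi.2 (CT.sim_mem i)) t).trans (zb i t))⟩⟩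

end CT

section Gen
variable {A B : Type*} [Group A] [Group B]

theorem prod_top {K : Subgroup (A × B)} (h1 : K.map (MonoidHom.fst A B) = ⊤) (h : ∀ b, ((1 : A), b) ∈ K) : K = ⊤ :=
  eq_top_iff.2 fun x _ => by
    obtain ⟨y, hy, e⟩ := h1.ge (mem_top x.1)
    have := mul_mem hy (h (y.2⁻¹ * x.2))
    rwa [show y * (1, y.2⁻¹ * x.2) = x from Prod.ext (by simpa using e) (by simp)] at this

theorem comap_inr_normal {K : Subgroup (A × B)} (h2 : K.map (MonoidHom.snd A B) = ⊤) :
    (K.comap (MonoidHom.inr A B)).Normal := ⟨fun n hn g => by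
  obtain ⟨y, hy, rfl⟩ := h2.ge (mem_top g)
  have := mul_mem (mul_mem hy hn) (inv_mem hy)
  rwa [show y * MonoidHom.inr A B n * y⁻¹ = MonoidHom.inr A B (y.2 * n * y.2⁻¹) from Prod.ext (by simp) rfl] at this⟩

theorem card_dvd [Finite A] [Finite B] {K : Subgroup (A × B)} (h2 : K.map (MonoidHom.snd A B) = ⊤) :
    Nat.card B ∣ Nat.card A * Nat.card (K.comap (MonoidHom.inr A B)) := by
  have e1 : Nat.card B ∣ Nat.card K := by rw [← card_top, ← h2]; exact card_map_dvd _ _
  refine e1.trans ?_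
  rw [← ((MonoidHom.fst A B).comp K.subtype).ker.card_mul_index, index_ker, mul_comm]
  refine mul_dvd_mul (card_subgroup_dvd_card _) (dvd_of_eq (Nat.card_congr ⟨fun x => ⟨x.1.1.2, ?_⟩,
    fun y => ⟨⟨(1, y.1), y.2⟩, rfl⟩, fun x => Subtype.ext (Subtype.ext (Prod.ext (Eq.symm x.2) rfl)), fun _ => rfl⟩))
  exact (show x.1.1 = (1, x.1.1.2) from Prod.ext x.2 rfl) ▸ x.1.2

variable {F : Type*} [Field F] [Finite F]

theorem gen_pair {m : ℕ} (hm : 3 ≤ m) {K : Subgroup (SL(2, F) × SpecialLinearGroup (Fin m) F)}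
    (h1 : K.map (MonoidHom.fst _ _) = ⊤) (h2 : K.map (MonoidHom.snd _ _) = ⊤) : K = ⊤ := by
  haveI := comap_inr_normal h2
  rcases SLnGen.normal_le_center_or_eq_top (Or.inl (by simpa)) (K.comap (MonoidHom.inr _ _)) with h | h
  · exfalso
    haveI : Nonempty (Fin m) := ⟨⟨0, by omega⟩⟩
    have e1 := (card_dvd h2).trans (Nat.mul_dvd_mul_left _ ((card_dvd_of_le h).trans
      ((dvd_of_eq SLnCard.card_center_SL).trans (Nat.gcd_dvd_right _ _))))
    have e2 := Nat.mul_dvd_mul_left (Nat.card F - 1) e1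
    rw [← mul_assoc, SLnCard.card_SL m (by omega), SLnCard.card_SL 2 (by omega), Fin.prod_univ_two] at e2
    obtain ⟨q, hq⟩ : ∃ q, Nat.card F = q + 1 := ⟨Nat.card F - 1, by have := Nat.card_pos (α := F); omega⟩
    have q0 : 0 < q := by have := Finite.one_lt_card (α := F); omega
    have e3 : (q + 1) ^ 2 ∣ ∏ i : Fin m, (Nat.card F ^ m - Nat.card F ^ (i : ℕ)) :=
      Dvd.dvd.trans (by rw [hq]; exact Nat.dvd_sub (pow_dvd_pow _ (by omega)) dvd_rfl)
        (Finset.dvd_prod_of_mem _ (Finset.mem_univ (⟨2, by omega⟩ : Fin m)))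
    have e4 := e3.trans e2
    rw [hq] at e4
    simp only [Fin.val_zero, Fin.val_one, pow_zero, pow_one, Nat.add_sub_cancel] at e4
    rw [show (q + 1) ^ 2 - 1 = q * (q + 2) by rw [Nat.sub_eq_iff_eq_add (Nat.one_le_pow _ (q + 1) q.succ_pos)]; ring,
      show (q + 1) ^ 2 - (q + 1) = (q + 1) * q by rw [Nat.sub_eq_iff_eq_add (by nlinarith)]; ring,
      show q * (q + 2) * ((q + 1) * q) * q = (q + 1) * (q ^ 3 * (q + 2)) by ring, sq,
      Nat.mul_dvd_mul_iff_left q.succ_pos] at e4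
    have := Nat.Coprime.eq_one_of_dvd (Nat.Coprime.mul_right (Nat.Coprime.pow_right 3 (by simp))
      (by rw [show q + 2 = 1 + (q + 1) by ring]; simp)) e4
    omega
  · exact prod_top h1 fun b => h.ge (mem_top b)

theorem normal_sl2 (N : Subgroup SL(2, F)) [hN : N.Normal]
    (h : SpecialLinearGroup.transvection (zero_ne_one' (Fin 2)) (1 : F) ∈ N) : N = ⊤ := by
  have h1 : ∀ c : F, SpecialLinearGroup.transvection (zero_ne_one' (Fin 2)) c ∈ N := fun c => by
    have sq : ∀ a : F, SpecialLinearGroup.transvection (zero_ne_one' (Fin 2)) (a ^ 2) ∈ N := fun a => by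
      by_cases ha : a = 0
      · simp [ha, N.one_mem]
      · have := hN.conj_mem _ h (SpecialLinearGroup.diag2n (zero_ne_one' (Fin 2)) a ha)
        rwa [SLnGen.conj_diag2n_transvection, mul_inv_cancel_right, mul_one] at this
    by_cases h2 : ringChar F = 2
    · obtain ⟨a, rfl⟩ := FiniteField.isSquare_of_char_two h2 c
      rw [← pow_two]; exact sq a
    · have := Ring.two_ne_zero h2
      rw [show c = ((c + 1) / 2) ^ 2 + -((c - 1) / 2) ^ 2 by field_simp; ring, SpecialLinearGroup.transvection_add,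
        ← SpecialLinearGroup.transvection_inv]
      exact mul_mem (sq _) (inv_mem (sq _))
  refine SLnGen.eq_top_of_transvection fun i j hij c => ?_
  fin_cases i <;> fin_cases j <;> first | exact absurd rfl hij | exact h1 c | skip
  let w : SL(2, F) := ⟨!![0, 1; -1, 0], by simp [det_fin_two_of]⟩
  have := hN.conj_mem _ (h1 (-c)) w
  convert this using 1
  rw [eq_mul_inv_iff_mul_eq]
  refine Subtype.ext ?_
  change (1 + single 1 0 c) * !![0, 1; -1, 0] = !![0, 1; -1, 0] * (1 + single 0 1 (-c))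
  ext i j
  fin_cases i <;> fin_cases j <;> simp [mul_apply, one_apply]

/-- the index pairs orthogonal to `e_a + e_b` -/
def Pat {n : Type*} (a b i j : n) : Prop := (i = a ∨ i = b) ↔ (j = a ∨ j = b)

variable (F) in
/-- `SL₂ × SL_(n-2)` -/
def Cz {n : ℕ} (a b : Fin n) : Subgroup (SpecialLinearGroup (Fin n) F) :=
  closure {g | ∃ i j h t, Pat a b i j ∧ g = SpecialLinearGroup.transvection (i := i) (j := j) h t}

omit [Finite F] in
theorem exists_mu {m : ℕ} {a b : Fin (m + 2)} (hab : a ≠ b) :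
    ∃ μ : SL(2, F) × SpecialLinearGroup (Fin m) F →* SpecialLinearGroup (Fin (m + 2)) F, μ.range = Cz F a b := by
  have c1 : Fintype.card {i : Fin (m + 2) // i = a ∨ i = b} = 2 := by
    rw [Fintype.card_subtype, Finset.filter_or, Finset.filter_eq', Finset.filter_eq']
    simp [hab]
  have c2 : Fintype.card {i : Fin (m + 2) // ¬ (i = a ∨ i = b)} = m := by
    rw [Fintype.card_subtype_compl, c1]; simp
  let e : Fin 2 ⊕ Fin m ≃ Fin (m + 2) := ((Fintype.equivFinOfCardEq c1).symm.sumCongr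
    (Fintype.equivFinOfCardEq c2).symm).trans (Equiv.sumCompl _)
  have p1 : ∀ x, e (.inl x) = a ∨ e (.inl x) = b := fun x => ((Fintype.equivFinOfCardEq c1).symm x).2
  have p2 : ∀ x, ¬ (e (.inr x) = a ∨ e (.inr x) = b) := fun x => ((Fintype.equivFinOfCardEq c2).symm x).2
  let μ : SL(2, F) × SpecialLinearGroup (Fin m) F →* SpecialLinearGroup (Fin (m + 2)) F := MonoidHom.mk'
    (fun g => ⟨reindexAlgEquiv F F e (fromBlocks g.1.1 0 0 g.2.1), by simp [det_fromBlocks_zero₂₁]⟩) fun g h =>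
      Subtype.ext (by
        change _ = reindexAlgEquiv F F e _ * reindexAlgEquiv F F e _
        rw [← map_mul, fromBlocks_multiply]; simp)
  have hμ : ∀ g x y, (μ g).1 (e x) (e y) = fromBlocks g.1.1 0 0 g.2.1 x y := fun g x y => by
    change reindexAlgEquiv F F e _ _ _ = _
    simp
  have m1 : ∀ i j (h : i ≠ j) t, μ (SpecialLinearGroup.transvection h t, 1) = SpecialLinearGroup.transvection
      (i := e (.inl i)) (j := e (.inl j)) (by simpa using h) t := fun i j h t => by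
    ext x y
    obtain ⟨x, rfl⟩ := e.surjective x
    obtain ⟨y, rfl⟩ := e.surjective y
    rw [hμ]
    rcases x with x | x <;> rcases y with y | y <;>
      simp [SpecialLinearGroup.transvection_coe, one_apply, single_apply]
  have m2 : ∀ i j (h : i ≠ j) t, μ (1, SpecialLinearGroup.transvection h t) = SpecialLinearGroup.transvection
      (i := e (.inr i)) (j := e (.inr j)) (by simpa using h) t := fun i j h t => by
    ext x y
    obtain ⟨x, rfl⟩ := e.surjective x
    obtain ⟨y, rfl⟩ := e.surjective y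
    rw [hμ]
    rcases x with x | x <;> rcases y with y | y <;>
      simp [SpecialLinearGroup.transvection_coe, one_apply, single_apply]
  refine ⟨μ, le_antisymm ?_ ((closure_le _).2 ?_)⟩
  · rintro _ ⟨⟨g, h⟩, rfl⟩
    rw [show (g, h) = (g, 1) * (1, h) by simp, map_mul]
    refine mul_mem ?_ ?_
    · exact (SLnGen.eq_top_of_transvection (H := (Cz F a b).comap (μ.comp (MonoidHom.inl _ _))) fun i j h t =>
        subset_closure ⟨_, _, _, t, iff_of_true (p1 i) (p1 j), m1 i j h t⟩).ge (mem_top g)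
    · exact (SLnGen.eq_top_of_transvection (H := (Cz F a b).comap (μ.comp (MonoidHom.inr _ _))) fun i j h t =>
        subset_closure ⟨_, _, _, t, iff_of_false (p2 i) (p2 j), m2 i j h t⟩).ge (mem_top h)
  · rintro _ ⟨i, j, h, t, hp, rfl⟩
    obtain ⟨x, rfl⟩ := e.surjective i
    obtain ⟨y, rfl⟩ := e.surjective j
    rcases x with x | x <;> rcases y with y | y
    · exact ⟨_, m1 x y (fun e => h (e ▸ rfl)) t⟩
    · exact absurd (hp.1 (p1 x)) (p2 y)
    · exact absurd (hp.2 (p1 y)) (p2 x)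
    · exact ⟨_, m2 x y (fun e => h (e ▸ rfl)) t⟩

theorem gens {m : ℕ} (hm : 2 ≤ m) (h2 : ∃ a b : SL(2, F), closure {a, b} = ⊤)
    (h3 : ∃ a b : SpecialLinearGroup (Fin m) F, closure {a, b} = ⊤) {a b : Fin (m + 2)} (hab : a ≠ b) :
    ∃ L : List (SpecialLinearGroup (Fin (m + 2)) F), L.length ≤ (if m = 2 then 3 else 2) ∧
      closure {x | x ∈ L} = Cz F a b := by
  obtain ⟨μ, hμ⟩ := exists_mu (F := F) hab
  suffices h : ∃ L : List (SL(2, F) × SpecialLinearGroup (Fin m) F), L.length ≤ (if m = 2 then 3 else 2) ∧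
      closure {x | x ∈ L} = ⊤ by
    obtain ⟨L, h1, h⟩ := h
    refine ⟨L.map μ, by simpa using h1, ?_⟩
    rw [← hμ, MonoidHom.range_eq_map, ← h, MonoidHom.map_closure]
    congr 1
    ext x; simp
  obtain ⟨a1, a2, h2⟩ := h2
  split_ifs with e
  · subst e
    refine ⟨[(a1, a1), (a2, a2), (1, SpecialLinearGroup.transvection (zero_ne_one' (Fin 2)) 1)], le_rfl, ?_⟩
    have k : ∀ f : SL(2, F) × SL(2, F) →* SL(2, F), (∀ x, f (x, x) = x) → (closure {x | x ∈ [(a1, a1), (a2, a2),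
        (1, SpecialLinearGroup.transvection (zero_ne_one' (Fin 2)) 1)]}).map f = ⊤ := fun f hf =>
      eq_top_iff.2 (h2 ▸ (closure_le _).2 (by
        rintro _ (rfl | rfl) <;> exact ⟨_, subset_closure (by simp), hf _⟩))
    have := comap_inr_normal (k (MonoidHom.snd _ _) fun _ => rfl)
    exact prod_top (k _ fun _ => rfl) fun b => (@normal_sl2 _ _ _ _ this
      (mem_comap.2 (Subgroup.subset_closure (by simp)))).ge (mem_top b)
  · obtain ⟨b1, b2, h3⟩ := h3
    refine ⟨[(a1, b1), (a2, b2)], le_rfl, gen_pair (by omega) ?_ ?_⟩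
    · exact eq_top_iff.2 (h2 ▸ (closure_le _).2 (by
        rintro _ (rfl | rfl)
        exacts [⟨(_, b1), subset_closure (by simp), rfl⟩, ⟨(_, b2), subset_closure (by simp), rfl⟩]))
    · exact eq_top_iff.2 (h3 ▸ (closure_le _).2 (by
        rintro _ (rfl | rfl)
        exacts [⟨(a1, _), subset_closure (by simp), rfl⟩, ⟨(a2, _), subset_closure (by simp), rfl⟩]))

end Gen

end CA.H6Pr
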