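/-
The Levi subgroup `SL_n` of the spin group of type `D_n`.
-/
import Cfsg.Agent.Lib.Lin.H6Pr1
import Cfsg.Agent.Lib.Lin.PrsSL0
import Cfsg.Agent.Lib.Lie.H23Uni4

set_option autoImplicit false

namespace CA.H6Pr

open Matrix MatrixGroups Cfsg.Lie Cfsg.Lie.ChevalleyDatum Subgroup CA.Chev
open scoped commutatorElement

theorem ort_root {κ μ : Type} [Fintype κ] [Fintype μ] [DecidableEq μ] {l : ℕ} (M : Model κ μ l)
    (hn : ∀ v ∈ M.Φ, v ⬝ᵥ v = 2) {i j : Fin l} (hij : i ≠ j) (h : M.p i ⬝ᵥ M.p j = 0) (r : Rt M.D)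
    (hr : r ∈ Phi (D := M.D) {i, j}) : (r = sim (D := M.D) i ∨ r = ng (sim (D := M.D) i)) ∨
      r = sim (D := M.D) j ∨ r = ng (sim (D := M.D) j) := by
  have z : ∀ k, k ≠ i ∧ k ≠ j → rt r k = 0 := fun k hk => hr k (by simpa [not_or] using hk)
  have e : M.R r = rt r i • M.p i + rt r j • M.p j :=
    (M.sum_rt r).symm.trans (Fintype.sum_eq_add i j hij fun k hk => by rw [z k hk, zero_smul])
  have n := hn _ (M.R_mem r.2)
  rw [e] at n
  simp only [add_dotProduct, dotProduct_add, smul_dotProduct, dotProduct_smul, h, dotProduct_comm (M.p j) (M.p i),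
    hn _ (M.p_mem _), smul_eq_mul] at n
  have b1 : -1 ≤ rt r i ∧ rt r i ≤ 1 := by constructor <;> nlinarith [sq_nonneg (rt r j)]
  have b2 : -1 ≤ rt r j ∧ rt r j ≤ 1 := by constructor <;> nlinarith [sq_nonneg (rt r i)]
  have k : ∀ s : Rt M.D, rt r i = rt s i → rt r j = rt s j → (∀ k, k ≠ i ∧ k ≠ j → rt s k = 0) → r = s :=
    fun s h1 h2 h3 => rt_injective (funext fun k => by
      by_cases a : k = i
      · rw [a, h1]
      · by_cases b : k = j
        · rw [b, h2]
        · rw [z k ⟨a, b⟩, h3 k ⟨a, b⟩])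
  have : (rt r i = 1 ∧ rt r j = 0 ∨ rt r i = -1 ∧ rt r j = 0) ∨ rt r i = 0 ∧ rt r j = 1 ∨ rt r i = 0 ∧ rt r j = -1 := by
    obtain x | x | x : rt r i = -1 ∨ rt r i = 0 ∨ rt r i = 1 := by omega
    all_goals obtain y | y | y : rt r j = -1 ∨ rt r j = 0 ∨ rt r j = 1 := by omega
    all_goals rw [x, y] at n ⊢
    all_goals omega
  refine this.imp (Or.imp ?_ ?_) (Or.imp ?_ ?_) <;> rintro ⟨x, y⟩ <;>
    exact k _ (by simp [x, rt_sim, hij, hij.symm]) (by simp [y, rt_sim, hij, hij.symm]) (by simp +contextual [rt_sim])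

theorem top_of_simple {F : Type*} [Field F] {l : ℕ} {H : Subgroup (SpecialLinearGroup (Fin (l + 1)) F)}
    (h : ∀ (k : Fin l) t, SpecialLinearGroup.transvection k.castSucc_lt_succ.ne t ∈ H ∧
      SpecialLinearGroup.transvection k.castSucc_lt_succ.ne' t ∈ H) : H = ⊤ := by
  have key : ∀ (d : ℕ) (i j : Fin (l + 1)) (hij : i ≠ j), j.val = i + d + 1 → ∀ t,
      SpecialLinearGroup.transvection hij t ∈ H ∧ SpecialLinearGroup.transvection hij.symm t ∈ H := by
    intro d
    induction d with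
    | zero =>
      intro i j hij e t
      obtain ⟨k, rfl, rfl⟩ : ∃ k : Fin l, i = k.castSucc ∧ j = k.succ :=
        ⟨⟨i, by omega⟩, rfl, Fin.ext e⟩
      exact h k t
    | succ d ih =>
      intro i j hij e t
      let k : Fin (l + 1) := ⟨i + d + 1, by omega⟩
      have h1 : i ≠ k := fun c => by simp [k, Fin.ext_iff] at c; omega
      have h2 : k ≠ j := fun c => by simp [k, Fin.ext_iff] at c; omega
      obtain ⟨k', e1, e2⟩ : ∃ k' : Fin l, k = k'.castSucc ∧ j = k'.succ := ⟨⟨k, by simp [k]; omega⟩, rfl, Fin.ext e⟩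
      have h3 : ∀ t, SpecialLinearGroup.transvection h2 t ∈ H ∧ SpecialLinearGroup.transvection h2.symm t ∈ H := by
        clear_value k; subst e1 e2; exact h k'
      rw [← mul_one t, ← SLnGen.commutator_transvection hij h1 h2, ← SLnGen.commutator_transvection hij.symm h2.symm h1.symm]
      have cm : ∀ {a b}, a ∈ H → b ∈ H → ⁅a, b⁆ ∈ H := fun ha hb =>
        mul_mem (mul_mem (mul_mem ha hb) (inv_mem ha)) (inv_mem hb)
      exact ⟨cm (ih i k h1 rfl t).1 (h3 1).1, cm (h3 t).2 (ih i k h1 rfl 1).2⟩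
  refine SLnGen.eq_top_of_transvection fun i j hij t => ?_
  rcases lt_or_gt_of_ne hij with c | c
  · exact (key (j - i - 1) i j hij (by have : i.val < j := c; omega) t).1
  · exact (key (i - j - 1) j i hij.symm (by have : j.val < i := c; omega) t).2

theorem diag_conj {F ι : Type*} [Field F] [Fintype ι] [DecidableEq ι] {a b i j : ι} (hab : a ≠ b) (hij : i ≠ j) {s : F}
    (hs : s ≠ 0) : ∃ c : F, c ≠ 0 ∧ (i ≠ a → i ≠ b → j = a → c = s⁻¹) ∧ (j ≠ a → j ≠ b → i = a → c = s) ∧ ∀ t,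
      SpecialLinearGroup.diag2n hab s hs * SpecialLinearGroup.transvection hij t *
        (SpecialLinearGroup.diag2n hab s hs)⁻¹ = SpecialLinearGroup.transvection hij (c * t) := by
  let d : ι → F := fun k => if k = a then s else if k = b then s⁻¹ else 1
  have d0 : ∀ k, d k ≠ 0 := fun k => by simp only [d]; split_ifs <;> simp [hs]
  refine ⟨d i * (d j)⁻¹, mul_ne_zero (d0 i) (inv_ne_zero (d0 j)), fun h1 h2 h3 => by simp [d, h1, h2, h3, hab.symm],
    fun h1 h2 h3 => by simp [d, h1, h2, h3], fun t => ?_⟩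
  rw [mul_inv_eq_iff_eq_mul]
  refine Subtype.ext ?_
  change diagonal d * (1 + single i j t) = (1 + single i j (d i * (d j)⁻¹ * t)) * diagonal d
  ext x y
  simp only [diagonal_mul, mul_diagonal, Matrix.add_apply, one_apply, single_apply]
  by_cases e : i = x ∧ j = y
  · obtain ⟨rfl, rfl⟩ := e
    simp [hij]; field_simp [d0 j]
  · rw [if_neg e, if_neg e]; split_ifs with h <;> simp [h]

variable {m : ℕ} (hm : 3 ≤ m + 1) {K : Type*} [Field K]

/-- the model -/
noncomputable abbrev MD : Model (Fin (m + 1)) (Fin (m + 1) ⊕ Fin (m + 1)) (m + 1) := (clD (m + 1) hm).model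

variable (K) in
/-- the spin group -/
abbrev SD := (MD hm).D.SteinbergCover K

/-- root elements -/
noncomputable def X (v : Fin (m + 1) → ℤ) (t : K) : SD hm K := (stC (MD hm).D K).x ((MD hm).ι v) t

/-- `e_i + e_j` -/
abbrev sP {n : ℕ} (i j : Fin n) : Fin n → ℤ := Pi.single i 1 + Pi.single j 1

variable {hm} {i j k : Fin (m + 1)} {u v : Fin (m + 1) → ℤ}

theorem U_single (i : Fin (m + 1)) : U (Pi.single i 1) := ⟨i, .inl rfl⟩
theorem rA_memD (h : i ≠ j) : rA i j ∈ (MD hm).Φ :=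
  (clD _ hm).mem_Φ.2 (ro_D.2 (sh' (U_single i) (U_single j) (o_of (by simp [h, h.symm]))))
theorem sP_memD (h : i ≠ j) : sP i j ∈ (MD hm).Φ :=
  (clD _ hm).mem_Φ.2 (ro_D.2 (sh (U_single i) (U_single j) (o_of (by simp [h, h.symm]))))

theorem e_rA (h : i ≠ j) : (MD hm).e (rA i j) = single (.inl i) (.inl j) 1 + single (.inr j) (.inr i) (-1) := by
  have := (clD _ hm).e_eq (a := .inl i) (d := .inl j) (by simpa using h)
  have s1 : ((i : ℤ) + 1 + (j + 1)).sign = 1 := Int.sign_eq_one_of_pos (by omega)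
  have s2 : (-((j : ℤ) + 1) + -(i + 1)).sign = -1 := Int.sign_eq_neg_one_of_neg (by omega)
  exact this.trans (by simp [clD, oS, Cl.w, s1, s2, -neg_add_rev])

theorem X_add (v : Fin (m + 1) → ℤ) (t s : K) : X hm v (t + s) = X hm v t * X hm v s := (stC _ K).add _ t s

theorem X_comm (hu : u ∈ (MD hm).Φ) (hv : v ∈ (MD hm).Φ) (h : 0 ≤ u ⬝ᵥ v) (t s : K) :
    Commute (X hm u t) (X hm v s) :=
  Model.cm_of (A := stC _ K) hu hv (by rw [UD.norm_D u hu, UD.norm_D v hv]; change 2 * (1 : ℤ) < _; omega) t s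

/-- `n_v(1)` -/
noncomputable def nX (v : Fin (m + 1) → ℤ) : SD hm K := X hm v 1 * X hm (-v) (-1) * X hm v 1

theorem nX_conj (hu : u ∈ (MD hm).Φ) (hv : v ∈ (MD hm).Φ) : ∃ c : K, c ≠ 0 ∧ ∀ t,
    nX u * X hm v t * (nX u)⁻¹ = X hm (v - (v ⬝ᵥ u) • u) (c * t) := by
  refine ⟨et ((MD hm).ι u) ((MD hm).ι v), left_ne_zero_of_mul_eq_one (Sys.et_cast_sq _ _), fun t => ?_⟩
  have := (stC (MD hm).D K).n_conj ((MD hm).ι u) ((MD hm).ι v) 1 t
  rw [((MD hm).refl_ι hu hv).2, Model.cp, UD.norm_D u hu, Int.mul_ediv_cancel_left _ two_ne_zero, Sys0.n, nn,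
    (MD hm).ng_ι hu] at this
  simpa [nX, X] using this

theorem exists_lam [Finite K] : ∃ lam : SpecialLinearGroup (Fin (m + 1)) K →* SD hm K, Function.Injective lam ∧
    ∀ i j (h : i ≠ j) t, lam (SpecialLinearGroup.transvection h t) = X hm (rA i j) t := by
  obtain ⟨lam, h⟩ := Prs.sl_lift (l := m) (by omega) (fun i j (t : K) => X hm (rA i j) t) (fun i j _ => X_add _)
    (fun i j k h1 h2 h3 a b => by
      have e : rA i j + rA j k = rA i k := by simp
      have n : (MD hm).N (rA i j) (rA j k) = 1 := (MD hm).N_of_br (rA_memD h1) (rA_memD h2)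
        (e ▸ (MD hm).ne0 (rA_memD h3)) (by
          rw [e, e_rA h1, e_rA h2, e_rA h3]
          simp [add_mul, mul_add, h1, h2, h3, h1.symm, h2.symm, h3.symm, sub_eq_add_neg, single_neg])
        (.inl (e ▸ rA_memD h3))
      have := Model.comm_one (M := MD hm) (A := stC _ K) (rA_memD h1) (rA_memD h2) (e ▸ (MD hm).ne0 (rA_memD h3))
        (by change 2 * (1 : ℤ) < _; simp [h1, h2, h3, h1.symm, h2.symm, h3.symm])
        (by change 2 * (1 : ℤ) < _; simp [h1, h2, h3, h1.symm, h2.symm, h3.symm]) a b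
      rw [e, n] at this
      simpa [X] using this)
    fun i j k l h1 h2 h3 h4 a b => X_comm (rA_memD h1) (rA_memD h2) (by
      simp only [dotProduct_sub, sub_dotProduct, single_dotProduct, Pi.single_apply, h3, h4, if_false]
      split_ifs <;> simp) a b
  refine ⟨lam, (injective_iff_map_eq_one _).2 fun g hg => ?_, h⟩
  obtain ⟨g', e⟩ := SLnGen.transvection_induction (fun g => ∃ g', ((MD hm).ρ K (lam g)).1 = fromBlocks g.1 0 0 g')
    ⟨1, by simp⟩ (fun i j hij t => ⟨1 - single j i t, by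
      rw [h, X, (MD hm).ρ_x (rA_memD hij), Model.x, Model.q, e_rA hij, SpecialLinearGroup.transvection_coe]
      ext (a | a) (b | b) <;>
        simp [Model.cm, add_mul, mul_add, hij, hij.symm, one_apply, single_apply, sub_eq_add_neg]
      split_ifs <;> simp⟩)
    (fun a b ⟨a', ha⟩ ⟨b', hb⟩ => ⟨a' * b', by
      rw [map_mul, map_mul, Units.val_mul, ha, hb, fromBlocks_multiply]; simp⟩) g
  rw [hg, map_one, Units.val_one, ← fromBlocks_one] at e
  exact Subtype.ext (fromBlocks_inj.1 e).1.symm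

theorem p_cs (k : Fin m) : (MD hm).p k.castSucc = rA k.castSucc k.succ := by
  change pR 2 _ = _
  rw [pR, if_neg (by simp; omega), ep_eq, show (k.castSucc : ℕ) + 1 = k.succ from rfl, ep_eq, add_zero]

theorem p_last : (MD hm).p (Fin.last m) = sP ⟨m - 1, by omega⟩ (Fin.last m) := by
  change pR 2 _ = _
  rw [pR, if_pos (by simp), ep_eq, ep_ge (by simp), sub_zero]
  exact (add_comm _ _).trans (congrArg (· + _) (ep_eq (⟨m - 1, by omega⟩ : Fin (m + 1))))

end CA.H6Pr
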