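/-
A short presentation of the spin group of type `D_n` over a presentation of `SL_n`.
-/
import Cfsg.Agent.Lib.Lin.H6Pr2
import Cfsg.Agent.Lib.Grp.Prs

set_option autoImplicit false

namespace CA.H6Pr

open Matrix MatrixGroups Cfsg.Lie Cfsg.Lie.ChevalleyDatum Subgroup CA.Chev Monoid CA.Prs
open scoped commutatorElement

local notation "tv" => SpecialLinearGroup.transvection

theorem refl_swap {n : ℕ} {a d : Fin n} (h : a ≠ d) (v : Fin n → ℤ) : v - (v ⬝ᵥ rA a d) • rA a d = v ∘ Equiv.swap a d := by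
  ext k
  simp only [Pi.sub_apply, Pi.smul_apply, dotProduct_sub, dotProduct_single, Pi.single_apply, Function.comp,
    Equiv.swap_apply_def, smul_eq_mul]
  split_ifs <;> simp_all

theorem single_swap {n : ℕ} (a d i : Fin n) : (Pi.single i (1 : ℤ) : Fin n → ℤ) ∘ Equiv.swap a d =
    Pi.single (Equiv.swap a d i) 1 := by
  ext k
  simp only [Function.comp, Pi.single_apply, Equiv.swap_apply_eq_iff]

theorem Gr.symm {D : ChevalleyDatum} [Good D] {K : Type*} [Field K] {J : Type*} [Group J] {a b : Nd D → K → J}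
    {i j : Nd D} (h : Gr a b i j) : Gr a b j i := by
  rw [Gr, Set.pair_comm]; exact h

theorem Ort.symm {D : ChevalleyDatum} [Good D] {K : Type*} [Field K] {J : Type*} [Group J] {a b : Nd D → K → J}
    {i j : Nd D} (h : Ort a b i j) : Ort a b j i :=
  ⟨fun r hr => (h.1 r (Set.pair_comm j i ▸ hr)).symm, h.2.1.symm, fun t u =>
    ⟨⟨(h.2.2 u t).1.1.symm, (h.2.2 u t).2.1.symm⟩, (h.2.2 u t).1.2.symm, (h.2.2 u t).2.2.symm⟩⟩

theorem comm_Cz {K G : Type*} [Field K] [Group G] {n : ℕ} {a b : Fin n} (f : SpecialLinearGroup (Fin n) K →* G) {g : G}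
    (h : ∀ i j (hij : i ≠ j) t, Pat a b i j → Commute g (f (tv hij t))) {x : SpecialLinearGroup (Fin n) K}
    (hx : x ∈ Cz K a b) : Commute g (f x) :=
  mem_centralizer_singleton_iff.1 ((closure_le ((centralizer {g}).comap f)).2 (by
    rintro _ ⟨i, j, hij, t, hp, rfl⟩
    exact mem_centralizer_singleton_iff.2 (h i j hij t hp).symm) hx) |>.symm

theorem comm_list {K G : Type*} [Field K] [Group G] {n : ℕ} {a b : Fin n} (f : SpecialLinearGroup (Fin n) K →* G) {g : G}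
    {L : List (SpecialLinearGroup (Fin n) K)} (hL : closure {x | x ∈ L} = Cz K a b) (h : ∀ x ∈ L, Commute g (f x))
    {i j : Fin n} (hij : i ≠ j) (t : K) (hp : Pat a b i j) : Commute g (f (tv hij t)) :=
  mem_centralizer_singleton_iff.1 ((closure_le ((centralizer {g}).comap f)).2 (fun x hx =>
    mem_centralizer_singleton_iff.2 (h x hx).symm) (hL.ge (subset_closure ⟨i, j, hij, t, hp, rfl⟩))) |>.symm

theorem pat_dot {n : ℕ} {a b i j : Fin n} (hab : a ≠ b) (h : Pat a b i j) : sP a b ⬝ᵥ rA i j = 0 := by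
  simp only [add_dotProduct, single_dotProduct, Pi.sub_apply, Pi.single_apply, Pat] at h ⊢
  grind

theorem pres_spin {m : ℕ} (hm : 3 ≤ m) (hm' : 3 ≤ m + 1) {K : Type*} [Field K] [Finite K] {d r k : ℕ}
    (hP : Pres d r (SpecialLinearGroup (Fin (m + 1)) K))
    (hg : ∀ a b : Fin (m + 1), a ≠ b → ∃ L : List (SpecialLinearGroup (Fin (m + 1)) K), L.length ≤ k ∧
      closure {x | x ∈ L} = Cz K a b) : Pres (d + 1) (r + (k + k + 1)) (SD hm' K) := by
  obtain ⟨lam, inj, hl⟩ := exists_lam (hm := hm') (K := K)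
  obtain ⟨p, hp⟩ : ∃ p : Fin (m + 1), p = ⟨m - 1, by omega⟩ := ⟨_, rfl⟩
  obtain ⟨z, hz⟩ : ∃ z : Fin (m + 1), z = Fin.last m := ⟨_, rfl⟩
  have p0 : p ≠ 0 := by simp [hp, Fin.ext_iff]; omega
  have z0 : z ≠ 0 := by simp [hz, Fin.ext_iff]; omega
  have pz : p ≠ z := by simp [hp, hz, Fin.ext_iff]; omega
  obtain ⟨L, l1, hL⟩ := hg 0 z z0.symm
  obtain ⟨L', l2, hL'⟩ := hg p z pz
  have mα : sP 0 z ∈ (MD hm').Φ := sP_memD z0.symm
  have mγ : sP p z ∈ (MD hm').Φ := sP_memD pz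
  obtain ⟨c1, n1, e1⟩ := nX_conj (K := K) mα (rA_memD p0)
  obtain ⟨c2, n2, e2⟩ := nX_conj (K := K) mα (rA_memD p0.symm)
  rw [show rA p 0 - (rA p 0 ⬝ᵥ sP 0 z) • sP 0 z = sP p z by
    simp [p0, z0, pz, p0.symm, z0.symm, pz.symm, rA, sP]; abel] at e1
  rw [show rA 0 p - (rA 0 p ⬝ᵥ sP 0 z) • sP 0 z = -sP p z by
    simp [p0, z0, pz, p0.symm, z0.symm, pz.symm, rA, sP]; abel] at e2
  obtain ⟨w, lw⟩ : ∃ w, lam w = nX (rA 0 p) :=
    ⟨tv p0.symm 1 * tv p0 (-1) * tv p0.symm 1, by simp only [map_mul, hl, nX, neg_sub]⟩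
  obtain ⟨c3, n3, e3⟩ := nX_conj (K := K) (rA_memD (hm := hm') p0.symm) mγ
  obtain ⟨c4, n4, e4⟩ := nX_conj (K := K) (rA_memD (hm := hm') p0.symm) ((MD hm').neg _ mγ)
  have sw : sP p z ∘ Equiv.swap 0 p = sP 0 z := by
    rw [Pi.add_comp, single_swap, single_swap, Equiv.swap_apply_right, Equiv.swap_apply_of_ne_of_ne z0 pz.symm]
  rw [refl_swap p0.symm, sw] at e3
  rw [refl_swap p0.symm, Pi.neg_comp, sw] at e4
  have cw : ∀ i j (h : i ≠ j), ∃ c : K, ∀ t, w * tv h t * w⁻¹ = tv ((Equiv.swap 0 p).injective.ne h) (c * t) :=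
    fun i j h => by
      obtain ⟨c, -, e⟩ := nX_conj (K := K) (rA_memD (hm := hm') p0.symm) (rA_memD h)
      rw [refl_swap p0.symm, Pi.sub_comp, single_swap, single_swap] at e
      exact ⟨c, fun t => inj (by rw [map_mul, map_mul, map_inv, lw, hl, hl, e])⟩
  have yc : ∀ i j (h : i ≠ j) t, Pat 0 z i j → Commute (nX (sP 0 z)) (lam (tv h t)) := fun i j h t hp => by
    have d := pat_dot z0.symm hp
    rw [hl]
    exact ((X_comm mα (rA_memD h) d.ge _ _).mul_left (X_comm ((MD hm').neg _ mα) (rA_memD h)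
      (by rw [neg_dotProduct, d, neg_zero]) _ _)).mul_left (X_comm mα (rA_memD h) d.ge _ _)
  have a1 : ∀ t, nX (sP 0 z) * lam (tv p0 (c1⁻¹ * t)) * (nX (sP 0 z))⁻¹ = X hm' (sP p z) t := fun t => by
    rw [hl, e1, mul_inv_cancel_left₀ n1]
  have a2 : ∀ t, nX (sP 0 z) * lam (tv p0.symm (c2⁻¹ * t)) * (nX (sP 0 z))⁻¹ = X hm' (-sP p z) t := fun t => by
    rw [hl, e2, mul_inv_cancel_left₀ n2]
  have y1 : nX (sP 0 z) = lam w * (X hm' (sP p z) c3⁻¹ * X hm' (-sP p z) (-c4⁻¹) * X hm' (sP p z) c3⁻¹) * (lam w)⁻¹ := by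
    rw [Sys.conj3, lw, e3, e4, mul_neg, mul_inv_cancel₀ n3, mul_inv_cancel₀ n4, nX]
  let g : Coprod (SpecialLinearGroup (Fin (m + 1)) K) (FreeGroup (Fin 1)) := Coprod.inr (FreeGroup.of 0)
  let A := g * Coprod.inl (tv p0 (c1⁻¹ * c3⁻¹)) * g⁻¹
  let B := g * Coprod.inl (tv p0.symm (c2⁻¹ * -c4⁻¹)) * g⁻¹
  refine (hP.ext lam ![nX (sP 0 z)] (L.map (fun x => ⁅g, Coprod.inl x⁆) ++ L'.map (fun x => ⁅A, Coprod.inl x⁆) ++
    [g⁻¹ * (Coprod.inl w * (A * B * A) * (Coprod.inl w)⁻¹)]) (fun x hx => ?_) ?_ fun J _ ψ ξ hW => ?_).mono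
    (by simp; omega)
  · simp only [List.mem_append, List.mem_map, List.mem_singleton] at hx
    rcases hx with (⟨x, hx, rfl⟩ | ⟨x, hx, rfl⟩) | rfl
    · simpa [g, commutatorElement_eq_one_iff_commute] using comm_Cz lam yc (hL.le (subset_closure hx))
    · simp only [g, A, map_commutatorElement, map_mul, map_inv, Coprod.lift_apply_inl, Coprod.lift_apply_inr,
        FreeGroup.lift_apply_of, cons_val_zero, a1, commutatorElement_eq_one_iff_commute]
      exact comm_Cz lam (fun i j h t hp => hl i j h t ▸ X_comm mγ (rA_memD h) (pat_dot pz hp).ge _ _)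
        (hL'.le (subset_closure hx))
    · simp only [g, A, B, map_mul, map_inv, Coprod.lift_apply_inl, Coprod.lift_apply_inr,
        FreeGroup.lift_apply_of, cons_val_zero, a1, a2, ← y1, inv_mul_cancel]
  · refine eq_top_iff.2 (stC_G.ge.trans ((stC _ K).X_le.2 fun s _ t => (stC _ K).x_mem_J (J := Set.univ)
      (fun i _ t => ?_) (fun i h => absurd trivial h) t))
    have m1 : ∀ x, lam x ∈ closure (Set.range lam ∪ Set.range ![nX (sP 0 z)]) := fun x =>
      subset_closure (.inl ⟨x, rfl⟩)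
    have m2 : nX (sP 0 z) ∈ closure (Set.range lam ∪ Set.range ![nX (sP 0 z)]) := subset_closure (.inr ⟨0, rfl⟩)
    rw [(MD hm').sim_ι, (MD hm').ng_ι ((MD hm').p_mem _)]
    change X hm' _ t ∈ _ ∧ X hm' _ t ∈ _
    induction i using Fin.lastCases with
    | last =>
      rw [p_last, ← hp, ← hz, ← a1, ← a2]
      exact ⟨mul_mem (mul_mem m2 (m1 _)) (inv_mem m2), mul_mem (mul_mem m2 (m1 _)) (inv_mem m2)⟩
    | cast i =>
      rw [p_cs, neg_sub, ← hl _ _ i.castSucc_lt_succ.ne, ← hl _ _ i.castSucc_lt_succ.ne']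
      exact ⟨m1 _, m1 _⟩
  have r1 : ∀ i j (h : i ≠ j) t, Pat 0 z i j → Commute (ξ 0) (ψ (tv h t)) := fun i j h t =>
    comm_list ψ hL (fun x hx => by
      simpa [g, commutatorElement_eq_one_iff_commute] using hW _ (List.mem_append_left _
        (List.mem_append_left _ (List.mem_map_of_mem hx)))) h t
  let a' : K → J := fun t => ξ 0 * ψ (tv p0 (c1⁻¹ * t)) * (ξ 0)⁻¹
  let b' : K → J := fun t => ξ 0 * ψ (tv p0.symm (c2⁻¹ * t)) * (ξ 0)⁻¹
  have r2 : ∀ i j (h : i ≠ j) t, Pat p z i j → Commute (a' c3⁻¹) (ψ (tv h t)) := fun i j h t =>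
    comm_list ψ hL' (fun x hx => by
      simpa only [g, A, map_commutatorElement, map_mul, map_inv, Coprod.lift_apply_inl, Coprod.lift_apply_inr,
        FreeGroup.lift_apply_of, commutatorElement_eq_one_iff_commute] using hW _ (List.mem_append_left _
        (List.mem_append_right _ (List.mem_map_of_mem hx)))) h t
  have r3 : ξ 0 = ψ w * (a' c3⁻¹ * b' (-c4⁻¹) * a' c3⁻¹) * (ψ w)⁻¹ := by
    have := hW _ (List.mem_append_right _ (List.mem_singleton_self _))
    simp only [g, A, B, map_mul, map_inv, Coprod.lift_apply_inl, Coprod.lift_apply_inr,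
      FreeGroup.lift_apply_of] at this
    exact inv_mul_eq_one.1 this
  have r4 : ∀ i j (h : i ≠ j) t, Pat p z i j → Commute (b' (-c4⁻¹)) (ψ (tv h t)) := fun i j h t hp => by
    obtain ⟨c, e⟩ := cw i j h
    have h1 := r1 _ _ ((Equiv.swap 0 p).injective.ne h) (c * t) (by
      simp only [Pat, Equiv.swap_apply_eq_iff, Equiv.swap_apply_left, Equiv.swap_apply_of_ne_of_ne z0 pz.symm]
      exact hp)
    rw [← e, r3, map_mul, map_mul, map_inv, Commute.conj_iff] at h1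
    have := ((r2 i j h t hp).inv_left.mul_left h1).mul_left (r2 i j h t hp).inv_left
    rwa [mul_assoc (a' c3⁻¹), inv_mul_cancel_left, mul_inv_cancel_right] at this
  have tor : ∀ {s : K} (hs : s ≠ 0) {y : J}, (∀ i j (h : i ≠ j) t, Pat p z i j → Commute y (ψ (tv h t))) →
      ∀ i j (h : i ≠ j) t, Pat p z i j → Commute (ψ (SpecialLinearGroup.diag2n z0.symm s hs) * y *
        (ψ (SpecialLinearGroup.diag2n z0.symm s hs))⁻¹) (ψ (tv h t)) := fun {s} hs y hy i j h t hp => by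
    obtain ⟨c, c0, -, -, e⟩ := diag_conj z0.symm h hs
    rw [← mul_inv_cancel_left₀ c0 t, ← e, map_mul, map_mul, map_inv, Commute.conj_iff]
    exact hy i j h _ hp
  have dc : ∀ {s : K} (hs : s ≠ 0), Commute (ξ 0) (ψ (SpecialLinearGroup.diag2n z0.symm s hs)) := fun hs => by
    have q1 := fun t => r1 0 z z0.symm t (by simp [Pat])
    have q2 := fun t => r1 z 0 z0 t (by simp [Pat])
    simp only [SLnGen.diag2n_decompose, map_mul]
    exact (((q1 _).mul_right (q2 _)).mul_right (q1 _)).mul_right (((q1 _).mul_right (q2 _)).mul_right (q1 _))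
  have mv : ∀ {s : K} (hs : s ≠ 0) x, ψ (SpecialLinearGroup.diag2n z0.symm s hs) * (ξ 0 * ψ x * (ξ 0)⁻¹) *
      (ψ (SpecialLinearGroup.diag2n z0.symm s hs))⁻¹ = ξ 0 * ψ (SpecialLinearGroup.diag2n z0.symm s hs * x *
        (SpecialLinearGroup.diag2n z0.symm s hs)⁻¹) * (ξ 0)⁻¹ := fun hs x => by
    rw [map_mul, map_mul, map_inv, ← mul_assoc, ← mul_assoc, ← (dc hs).eq, mul_assoc _ (ξ 0)⁻¹,
      (dc hs).inv_inv.eq]
    group
  have r5 : ∀ s i j (h : i ≠ j) t, Pat p z i j → Commute (a' s) (ψ (tv h t)) ∧ Commute (b' s) (ψ (tv h t)) := by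
    intro s i j h t hp
    by_cases hs : s = 0
    · simp [a', b', hs]
    constructor
    · obtain ⟨c, -, e, -, e'⟩ := diag_conj z0.symm p0 (s := (s * c3)⁻¹) (by simp [hs, n3])
      have := tor (s := (s * c3)⁻¹) (by simp [hs, n3]) r2 i j h t hp
      rwa [mv, e', e p0 pz rfl, show (s * c3)⁻¹⁻¹ * (c1⁻¹ * c3⁻¹) = c1⁻¹ * s by field_simp] at this
    · obtain ⟨c, -, -, e, e'⟩ := diag_conj z0.symm p0.symm (s := -(s * c4)) (by simp [hs, n4])
      have := tor (s := -(s * c4)) (by simp [hs, n4]) r4 i j h t hp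
      rwa [mv, e', e p0 pz rfl, show -(s * c4) * (c2⁻¹ * -c4⁻¹) = c2⁻¹ * s by field_simp] at this
  let a : Fin (m + 1) → K → J := Fin.lastCases a' fun k t => ψ (tv k.castSucc_lt_succ.ne t)
  let b : Fin (m + 1) → K → J := Fin.lastCases b' fun k t => ψ (tv k.castSucc_lt_succ.ne' t)
  have s1 : ∀ (k : Fin m) t, (stC (MD hm').D K).x (sim (D := (MD hm').D) k.castSucc) t =
      lam (tv k.castSucc_lt_succ.ne t) := fun k t => by rw [(MD hm').sim_ι, p_cs, hl, X]
  have s2 : ∀ (k : Fin m) t, (stC (MD hm').D K).x (ng (sim (D := (MD hm').D) k.castSucc)) t =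
      lam (tv k.castSucc_lt_succ.ne' t) := fun k t => by
    rw [(MD hm').sim_ι, (MD hm').ng_ι ((MD hm').p_mem _), p_cs, hl, X, neg_sub]
  have s3 : ∀ t, (stC (MD hm').D K).x (sim (D := (MD hm').D) (Fin.last m)) t = X hm' (sP p z) t := fun t => by
    rw [(MD hm').sim_ι, p_last, ← hp, ← hz, X]
  have s4 : ∀ t, (stC (MD hm').D K).x (ng (sim (D := (MD hm').D) (Fin.last m))) t = X hm' (-sP p z) t := fun t => by
    rw [(MD hm').sim_ι, (MD hm').ng_ι ((MD hm').p_mem _), p_last, ← hp, ← hz, X]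
  have g1 : ∀ i j : Fin m, Gr (D := (MD hm').D) a b i.castSucc j.castSucc := fun i j => gr_of lam inj ψ (by
    rintro _ (rfl | rfl) t <;> exact ⟨⟨_, (s1 _ t).symm, by simp [a]⟩, _, (s2 _ t).symm, by simp [b]⟩)
  have g2 : ∀ i : Fin (m + 1), (∀ k : Fin m, i = k.castSucc → k.val ≠ 0 ∧ k.val + 1 ≠ m) →
      Gr (D := (MD hm').D) a b i (Fin.last m) := fun i hi =>
    gr_of ((MulAut.conj (nX (sP 0 z))).toMonoidHom.comp lam) ((MulAut.conj _).injective.comp inj)
      ((MulAut.conj (ξ 0)).toMonoidHom.comp ψ) fun k hk t => by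
        induction k using Fin.lastCases with
        | last => exact ⟨⟨_, (a1 t).trans (s3 t).symm, by simp [a, a']⟩, _, (a2 t).trans (s4 t).symm, by simp [b, b']⟩
        | cast k =>
          obtain ⟨k0, k1⟩ := hi k (hk.resolve_right k.castSucc_lt_last.ne).symm
          have pt : Pat 0 z k.castSucc k.succ := by simp [Pat, hz, Fin.ext_iff]; omega
          exact ⟨⟨tv k.castSucc_lt_succ.ne t, ((yc _ _ _ t pt).mul_inv_cancel).trans (s1 k t).symm,
            by simpa [a] using (r1 _ _ _ t pt).mul_inv_cancel⟩, tv k.castSucc_lt_succ.ne' t,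
            ((yc _ _ _ t pt.symm).mul_inv_cancel).trans (s2 k t).symm,
            by simpa [b] using (r1 _ _ _ t pt.symm).mul_inv_cancel⟩
  have g3 : ∀ k : Fin m, Gr (D := (MD hm').D) a b k.castSucc (Fin.last m) ∨
      Ort (D := (MD hm').D) a b k.castSucc (Fin.last m) := fun k => by
    by_cases hk : k.val ≠ 0 ∧ k.val + 1 ≠ m
    · exact .inl (g2 _ fun k' e => Fin.castSucc_injective _ e ▸ hk)
    · have pt : Pat p z k.castSucc k.succ := by simp [Pat, hp, hz, Fin.ext_iff]; omega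
      refine .inr ⟨ort_root (MD hm') UD.norm_D k.castSucc_lt_last.ne (by
        rw [p_cs, p_last, ← hp, ← hz, dotProduct_comm, pat_dot pz pt]), k.castSucc_lt_last.ne, fun t u => ?_⟩
      simp only [a, b, Fin.lastCases_last, Fin.lastCases_castSucc]
      exact ⟨⟨(r5 u _ _ _ t pt).1.symm, (r5 u _ _ _ t pt).2.symm⟩, (r5 u _ _ _ t pt.symm).1.symm,
        (r5 u _ _ _ t pt.symm).2.symm⟩
  have g4 : Gr (D := (MD hm').D) a b (Fin.last m) (Fin.last m) := g2 _ fun k e => absurd e k.castSucc_lt_last.ne'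
  obtain ⟨φ, hφ⟩ := ct_univ (D := (MD hm').D) a b (fun i => Fin.lastCases g4 (fun k => g1 k k) i) fun i j =>
    Fin.lastCases (Fin.lastCases (.inl g4) (fun k => (g3 k).imp Gr.symm Ort.symm) j)
      (fun k => Fin.lastCases (g3 k) (fun k' => .inl (g1 k k')) j) i
  have fl : φ.comp lam = ψ := MonoidHom.ext fun x => (top_of_simple (H := (φ.comp lam).eqLocus ψ) fun k t =>
    ⟨(congrArg φ (s1 k t).symm).trans ((hφ _ t).1.trans (by simp [a])),
      (congrArg φ (s2 k t).symm).trans ((hφ _ t).2.trans (by simp [b]))⟩).ge (mem_top x)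
  refine ⟨φ, fl, fun i => ?_⟩
  obtain rfl : i = 0 := Subsingleton.elim _ _
  have f1 : ∀ t, φ (X hm' (sP p z) t) = a' t := fun t => by rw [← s3, (hφ _ t).1]; simp [a]
  have f2 : ∀ t, φ (X hm' (-sP p z) t) = b' t := fun t => by rw [← s4, (hφ _ t).2]; simp [b]
  rw [cons_val_zero, y1, map_mul, map_mul, map_mul, map_mul, map_inv, f1, f2, show φ (lam w) = ψ w from DFunLike.congr_fun fl w]
  exact r3.symm

theorem cyc_two {G : Type*} [Group G] (Z : Subgroup G) (h : ∀ a ∈ Z, ∀ b ∈ Z, a ≠ 1 → b ≠ 1 → a = b) : IsCyclic Z := by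
  by_cases e : ∃ a ∈ Z, a ≠ 1
  · obtain ⟨a, ha, e⟩ := e
    refine ⟨⟨⟨a, ha⟩, fun b => ?_⟩⟩
    by_cases c : b.1 = 1
    · exact ⟨0, Subtype.ext (by simp [c])⟩
    · exact ⟨1, Subtype.ext (by simpa using h a ha b b.2 e c)⟩
  · push Not at e
    exact ⟨⟨1, fun b => ⟨0, Subtype.ext (by simp [e b b.2])⟩⟩⟩

theorem scal {m : ℕ} (hm : 3 ≤ m + 1) {K : Type*} [Field K] [Finite K] {c : Fin (m + 1) → Kˣ}
    (hc : c ∈ (tor (D := (MD hm).D)).ker) : ∃ u : Kˣ, u ^ 2 = 1 ∧ (∀ j : Fin (m + 1), c j * c (clD _ hm).lst ^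
      δR (m + 1) 2 j = u ^ (j.val + 1)) ∧ ((MD hm).ρ K ((stC _ K).r3_of_finite.torH c)).1 = diagonal fun _ => (u : K) := by
  obtain ⟨u, h1, -, h3⟩ := (clD _ hm).mem_ker.1 hc
  refine ⟨u, h1, h3, ((MD hm).ρ_torH c).trans (congrArg diagonal (funext fun a => congrArg Units.val
    (((clD _ hm).prod_eq _).trans ?_)))⟩
  have h4 : ∀ k < m + 1, chiR 2 c (ep (m + 1) k) = u := fun k hk => by
    rcases k with _ | k
    · rw [show ep (m + 1) 0 = fw (m + 1) 0 by ext; simp [ep, fw]]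
      exact ((chiR_fw _ _ (by omega) ⟨0, hk⟩).trans (h3 _)).trans (by simp)
    · rw [show ep (m + 1) (k + 1) = fw (m + 1) (k + 1) - fw (m + 1) k by ext; simp only [ep, fw, Pi.sub_apply]; grind,
        chiR_sub, chiR_fw _ _ (by omega) ⟨k + 1, hk⟩, chiR_fw _ _ (by omega) ⟨k, by omega⟩]
      exact (congrArg₂ (· / ·) (h3 _) (h3 _)).trans (by simp [pow_succ])
  refine (chiR_eq _ _ h4 _).trans ?_
  rcases a with a | a
  · change u ^ ∑ k, (Pi.single a 1 : Fin (m + 1) → ℤ) k = u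
    simp
  · change u ^ ∑ k, (-Pi.single a 1 : Fin (m + 1) → ℤ) k = u
    simpa [sq, inv_eq_iff_mul_eq_one] using h1

theorem pres_omega {m : ℕ} (hm : 3 ≤ m + 1) {K : Type*} [Field K] [Finite K] {d r : ℕ} (h : Pres d r (SD hm K)) :
    Pres d (r + 1) (Cfsg.Omega K (Cfsg.quadFormPlus (m + 1) K)) ∧
      Pres d (r + 2) (Cfsg.POmega K (Cfsg.quadFormPlus (m + 1) K)) := by
  have pm : ∀ u : Kˣ, u ^ 2 = 1 → u ≠ 1 → u = -1 := fun u h h' => Units.ext ((mul_self_eq_one_iff.1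
    (congrArg Units.val ((sq u).symm.trans h))).resolve_left fun e => h' (Units.ext e))
  haveI : IsCyclic ((MD hm).ρ K).ker := cyc_two _ (by
    have key : ∀ a ∈ ((MD hm).ρ K).ker, a ≠ 1 → a = (stC _ K).r3_of_finite.torH fun j => if m ≤ j.val + 1 then -1 else 1 := by
      intro a ha a1
      obtain ⟨c, hc, rfl⟩ := mem_center_st.1 (((stC _ K).center_eq stC_G).ge (UD.Γ_eq.2 (by
        rwa [MonoidHom.ker_rangeRestrict])))
      obtain ⟨u, -, h2, h3⟩ := scal hm hc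
      rw [show (MD hm).ρ K _ = 1 from ha] at h3
      obtain rfl : u = 1 := Units.ext (by simpa using (congrFun (congrFun h3 (.inl 0)) (.inl 0)).symm)
      have l1 : c (clD _ hm).lst = -1 := pm _ (by simpa [δR, sq] using h2 (clD _ hm).lst) fun e => a1 (by
        rw [show c = 1 from funext fun j => by simpa [e] using h2 j, map_one])
      refine congrArg _ (funext fun j => ?_)
      have := h2 j
      simp only [δR, l1, one_pow] at this
      split_ifs at this ⊢ <;> first | omega | simp_all [neg_eq_iff_eq_neg]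
    exact fun a ha b hb a1 b1 => (key a ha a1).trans (key b hb b1).symm)
  let e1 : SD hm K ⧸ ((MD hm).ρ K).ker ≃* UD.Γ hm K := QuotientGroup.quotientKerEquivRange _
  let e2 : Cfsg.Omega K (Cfsg.quadFormPlus (m + 1) K) ≃* UD.Γ hm K :=
    (Subgroup.equivMapOfInjective _ _ (subtype_injective _)).trans (MulEquiv.subgroupCongr (by
      rw [UD.Γ_eq.1, map_subtype_commutator]; rfl))
  have p1 := (h.quot_cyc _).congr (e1.trans e2.symm)
  haveI : IsCyclic (center (UD.Γ hm K)) := cyc_two _ (by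
    have key : ∀ a ∈ center (UD.Γ hm K), a ≠ 1 → a.1.1 = diagonal fun _ => -1 := by
      intro a ha a1
      obtain ⟨g, rfl⟩ := ((MD hm).ρ K).rangeRestrict_surjective a
      have h1 : (UD.A hm K).θ _ = 1 := ((UD.A hm K).center_eq UD.A_G).le ha
      have h2 : (stC _ K).θ g = 1 := (MonoidHom.liftOfRightInverse_comp_apply _ _ _ _ g).symm.trans h1
      obtain ⟨c, hc, rfl⟩ := mem_center_st.1 (((stC _ K).center_eq stC_G).ge h2)
      obtain ⟨u, u1, -, h3⟩ := scal hm hc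
      rw [pm u u1 fun e => a1 (Subtype.ext (Units.ext (h3.trans (by simp [e]))))] at h3
      exact h3
    exact fun a ha b hb a1 b1 => Subtype.ext (Units.ext ((key a ha a1).trans (key b hb b1).symm)))
  haveI : IsCyclic (center (Cfsg.Omega K (Cfsg.quadFormPlus (m + 1) K))) :=
    isCyclic_of_surjective _ (Subgroup.centerCongr e2.symm).surjective
  exact ⟨p1, p1.quot_cyc _⟩

end CA.H6Pr
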