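import Cfsg.Agent.Lib.Lin.SL2Unip

/-! Representations of `SL₂(2ⁿ)` in which elements of order three have no fixed points (Higman). -/

set_option autoImplicit false
set_option linter.unusedSectionVars false

namespace CA.Hig3

open Matrix MatrixGroups CA.SL2Unip CA.SL2Basic CA.Mat2 CA.SL2Torus CA.SL2Embed CA.SL2Class Subgroup

variable {K : Type*} [Field K] [Finite K] [CharP K 2]

theorem u_sq (b : K) : u b * u b = 1 := by rw [← u_add, CharTwo.add_self_eq_zero, u_zero]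

theorem w_sq : (w0 : SL(2, K)) * w0 = 1 := by
  refine sl_ext4 ?_ ?_ ?_ ?_ <;> simp [sl_mul_apply, w0_coe, CharTwo.neg_eq]

theorem eq_one_of_sq {x : K} (h : x * x = 1) : x = 1 := by
  rcases mul_self_eq_one_iff.1 h with h | h
  · exact h
  · rw [h, CharTwo.neg_eq]

theorem odd_ord {c : K} (hc : c ≠ 0) : ∃ k : ℕ, (u c * w0) ^ k * u c = w0 * (u c * w0) ^ k := by
  have h2 : (2 : K) = 0 := CharTwo.two_eq_zero
  have h1 : Odd (orderOf (u c * w0)) := by
    by_contra h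
    obtain ⟨k, hk⟩ := Nat.not_odd_iff_even.1 h
    have h0 := orderOf_pos (u c * w0)
    have h3 : (u c * w0) ^ k * (u c * w0) ^ k = 1 := by rw [← pow_add, ← hk, pow_orderOf_eq_one]
    have h4 := ((Commute.refl (u c * w0)).pow_left k).eq
    refine pow_ne_one_of_lt_orderOf (x := u c * w0) (n := k) (by omega) (by omega) ?_
    obtain ⟨p, q, r, s, h, e⟩ := sl_ex4 ((u c * w0) ^ k)
    rw [e] at h3 h4 ⊢
    have e1 : u c * w0 = mk2 c 1 1 0 (by simp [CharTwo.neg_eq]) := by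
      refine sl_ext4 ?_ ?_ ?_ ?_ <;> simp [sl_mul_apply, w0_coe, u_coe, CharTwo.neg_eq]
    rw [e1, mk2_mul, mk2_mul, mk2_eq_iff] at h4
    rw [mk2_mul, one_eq_mk2, mk2_eq_iff] at h3
    obtain ⟨a1, a2, -, -⟩ := h4
    obtain ⟨b1, -, -, b4⟩ := h3
    obtain rfl : q = r := by linear_combination a1
    have : (c * q) ^ 2 = 0 := by linear_combination (-(p + c * q - s) - 2 * s) * a2 + b1 + b4 + (1 - q * q - s * s - c * q * s) * h2
    obtain rfl : q = 0 := by simpa [hc] using this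
    rw [one_eq_mk2, mk2_eq_iff]
    exact ⟨eq_one_of_sq (by simpa using b1), rfl, rfl, eq_one_of_sq (by simpa using b4)⟩
  obtain ⟨k, hk⟩ := h1
  refine ⟨k, ?_⟩
  have h3 := pow_orderOf_eq_one (u c * w0)
  have h4 : SemiconjBy (u c) (u c * w0)⁻¹ (u c * w0) := by
    rw [SemiconjBy, _root_.mul_inv_rev, inv_eq_of_mul_eq_one_right (u_sq c), inv_eq_of_mul_eq_one_right w_sq, mul_assoc]
  rw [← (h4.pow_right k).eq, inv_pow, inv_eq_of_mul_eq_one_right (show (u c * w0) ^ k * (u c * w0) ^ (k + 1) = 1 by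
    rw [← pow_add, ← h3, hk]; congr 1; omega), pow_succ', ← mul_assoc, ← mul_assoc, u_sq, one_mul]

theorem gen {a : K} (a0 : a ≠ 0) (ha : ∀ t : K, t ≠ 0 → ∃ i : ℕ, a ^ i = t) {H : Subgroup SL(2, K)} (hw : w0 ∈ H) (h1 : u 1 ∈ H)
    (h2 : u a ∈ H) : H = ⊤ := by
  obtain ⟨k, hk⟩ := odd_ord (one_ne_zero (α := K))
  obtain ⟨m, hm⟩ := odd_ord a0
  have h3 : ((u a * w0) ^ m)⁻¹ * (u 1 * w0) ^ k ∈ H := mul_mem (inv_mem (pow_mem (mul_mem h2 hw) m)) (pow_mem (mul_mem h1 hw) k)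
  have h4 : ((u a * w0) ^ m)⁻¹ * (u 1 * w0) ^ k * u 1 * (((u a * w0) ^ m)⁻¹ * (u 1 * w0) ^ k)⁻¹ = u a := by
    rw [mul_inv_eq_iff_eq_mul, mul_assoc, hk, ← mul_assoc, ← mul_assoc, mul_left_inj, inv_mul_eq_iff_eq_mul, ← mul_assoc, hm,
      mul_inv_cancel_right]
  generalize ((u a * w0) ^ m)⁻¹ * (u 1 * w0) ^ k = g at h3 h4
  have h5 := conj_u_of_mem_B (mem_B_of_conj one_ne_zero (h4 ▸ U_le_B (u_mem_U a)))
  have h6 := u_inj ((h5 1).symm.trans h4)
  rw [mul_one] at h6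
  have h7 : ∀ i : ℕ, u (a ^ i) ∈ H := fun i => by
    induction i with
    | zero => simpa using h1
    | succ i ih => rw [pow_succ', ← h6, ← h5, h6]; exact mul_mem (mul_mem h3 ih) (inv_mem h3)
  refine eq_top_of_U_le' (fun x hx => ?_) w0_not_mem_B hw
  obtain ⟨b, rfl⟩ := mem_U.1 hx
  by_cases h : b = 0
  · rw [h, u_zero]; exact one_mem _
  · obtain ⟨i, rfl⟩ := ha b h
    exact h7 i

variable {R : Type*} [Ring R] (ρ : SL(2, K) →* R)

/-- elements commuting with a ring element -/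
def cm (e : R) : Subgroup SL(2, K) where
  carrier := {g | Commute (ρ g) e}
  one_mem' := by simp
  mul_mem' := fun {a b} ha hb => by rw [Set.mem_ofPred_eq, map_mul]; exact Commute.mul_left ha hb
  inv_mem' := fun {a} ha => Commute.units_inv_left (u := ρ.toHomUnits a) ha

variable (hY : ρ w0 * ρ (u 1) + ρ (u 1) * ρ w0 = -1)
include hY

theorem comm_u (a : K) : Commute (ρ (u (a + 1))) (ρ (u a) * ρ w0 - ρ w0 * ρ (u a)) := by
  have h1 : ρ (u a) * ρ (u a) = 1 := by rw [← map_mul, u_sq, map_one]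
  have h2 : ρ (u a) * ρ (u 1) = ρ (u 1) * ρ (u a) := by rw [← map_mul, ← map_mul, ← u_add, ← u_add, add_comm]
  rw [u_add, map_mul]
  generalize ρ (u a) = A at *
  generalize ρ (u 1) = B at *
  generalize ρ w0 = W at *
  change A * B * (A * W - W * A) = (A * W - W * A) * (A * B)
  linear_combination (norm := noncomm_ring) -(A * h2 * W) + h1 * B * W - A * hY * A + hY - A * W * h2 + W * h1 * B + h1

theorem two_comm {a : K} (ha : a + 1 ≠ 0) : 2 * (ρ (u a) * ρ w0) = 2 * (ρ w0 * ρ (u a)) := by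
  have h1 : ρ w0 * ρ w0 = 1 := by rw [← map_mul, w_sq, map_one]
  have h2 := (comm_u ρ hY a).eq
  obtain ⟨k, hk⟩ := odd_ord ha
  replace hk := congrArg ρ hk
  have h3 : ρ ((u (a + 1) * w0) ^ k) * ρ ((u (a + 1) * w0) ^ k)⁻¹ = 1 := by rw [← map_mul, mul_inv_cancel, map_one]
  have h4 : ρ w0 * (ρ (u a) * ρ w0 - ρ w0 * ρ (u a)) = -((ρ (u a) * ρ w0 - ρ w0 * ρ (u a)) * ρ w0) := by
    linear_combination (norm := noncomm_ring) ρ (u a) * h1 - h1 * ρ (u a)
  rw [← sub_eq_zero, ← mul_sub]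
  simp only [map_mul, map_pow] at hk
  rw [map_pow, map_mul] at h3
  generalize ρ (u a) * ρ w0 - ρ w0 * ρ (u a) = d at *
  generalize ρ (u (a + 1)) = C at *
  generalize ρ ((u (a + 1) * w0) ^ k)⁻¹ = I at *
  generalize ρ w0 = W at *
  have h5 : ∀ j : ℕ, (C * W) ^ j * d = d * (C * W) ^ j ∨ (C * W) ^ j * d = -(d * (C * W) ^ j) := fun j => by
    induction j with
    | zero => simp
    | succ j ih =>
      rw [pow_succ]
      rcases ih with h | h
      · exact .inr (by linear_combination (norm := noncomm_ring) (C * W) ^ j * C * h4 - (C * W) ^ j * h2 * W - h * C * W)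
      · exact .inl (by linear_combination (norm := noncomm_ring) (C * W) ^ j * C * h4 - (C * W) ^ j * h2 * W - h * C * W)
  have h6 := h5 k
  generalize (C * W) ^ k = g at *
  have h7 : (W * d - d * W) * g = 0 := by
    rcases h6 with h | h
    · linear_combination (norm := noncomm_ring) -(W * h) - hk * d + g * h2 + h * C + d * hk
    · linear_combination (norm := noncomm_ring) W * h + hk * d - g * h2 - h * C + d * hk
  linear_combination (norm := noncomm_ring) -(h7 * I * W) + (W * d - d * W) * h3 * W + h4 * W - 2 * d * h1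

theorem two (h3 : ∀ r : R, 3 * r = 0 → r = 0) {a : K} (a0 : a ≠ 0) (a1 : a + 1 ≠ 0) : (2 : R) = 0 := by
  have h1 := two_comm ρ hY a1
  have h2 := two_comm ρ hY (a := a + 1) (by rwa [add_assoc, CharTwo.add_self_eq_zero, add_zero])
  have h4 : ρ (u a) * ρ (u (a + 1)) = ρ (u 1) := by rw [← map_mul, ← u_add, ← add_assoc, CharTwo.add_self_eq_zero, zero_add]
  have h5 : ρ w0 * ρ (u 1) * (ρ (u 1) * ρ w0) = 1 := by
    rw [← map_mul, ← map_mul, ← map_mul, mul_assoc, ← mul_assoc (u 1), u_sq, one_mul, w_sq, map_one]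
  have h6 : 2 * (ρ (u 1) * ρ w0) = 2 * (ρ w0 * ρ (u 1)) := by
    rw [← h4]; linear_combination (norm := noncomm_ring) ρ (u a) * h2 + h1 * ρ (u (a + 1))
  generalize ρ (u 1) * ρ w0 = Z at *
  generalize ρ w0 * ρ (u 1) = Y at *
  have h7 : 4 * Y + 2 = 0 := by linear_combination (norm := (noncomm_ring; norm_num)) 2 * hY - h6
  have h8 : 4 * Z + 2 = 0 := by linear_combination (norm := (noncomm_ring; norm_num)) 2 * hY + h6
  have h9 : (4 : R) = 0 := h3 _ (by linear_combination (norm := (noncomm_ring; norm_num)) -(16 * h5) + h7 * 4 * Z - 2 * h8)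
  linear_combination (norm := noncomm_ring) h7 - h9 * Y

theorem field (h2 : (2 : R) = 0) {a : K} (a0 : a ≠ 0) (a1 : a + 1 ≠ 0) (ha : ∀ t : K, t ≠ 0 → ∃ i : ℕ, a ^ i = t) :
    ∃ φ : K →+* R, (∀ t g, Commute (ρ g) (φ t)) ∧ ∀ t, ρ (u t) = 1 + φ t * (ρ (u 1) + 1) := by
  have hW : ρ w0 * ρ w0 = 1 := by rw [← map_mul, w_sq, map_one]
  have hu : ∀ s t, ρ (u (s + t)) = ρ (u s) * ρ (u t) := fun s t => by rw [u_add, map_mul]
  have hU : ∀ s, ρ (u s) * ρ (u s) = 1 := fun s => by rw [← map_mul, u_sq, map_one]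
  have hc : ∀ s t, Commute (ρ (u s)) (ρ (u t)) := fun s t => by rw [Commute, SemiconjBy, ← hu, ← hu, add_comm]
  have h0 : ∀ r : R, r + r = 0 := fun r => by rw [← two_mul, h2, zero_mul]
  have hn : ∀ r : R, -r = r := fun r => neg_eq_of_add_eq_zero_left (h0 r)
  obtain ⟨e, he⟩ : ∃ e, e = ρ (u a) * ρ w0 + ρ w0 * ρ (u a) := ⟨_, rfl⟩
  have e1 : u a ∈ cm ρ e := by
    change _ * _ = _ * _
    rw [he]; linear_combination (norm := noncomm_ring) hU a * ρ w0 - ρ w0 * hU a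
  have e2 : ∀ g, Commute (ρ g) e := fun g => (gen (H := cm ρ e) a0 ha (by
    change _ * _ = _ * _
    rw [he]; linear_combination (norm := noncomm_ring) hW * ρ (u a) - ρ (u a) * hW) (by
      have := mul_mem e1 (show u (a + 1) ∈ cm ρ e by have := comm_u ρ hY a; rwa [sub_eq_add_neg, hn, ← he] at this)
      rwa [← u_add, ← add_assoc, CharTwo.add_self_eq_zero, zero_add] at this) e1).ge (mem_top g)
  obtain ⟨δ, hδ⟩ : ∃ δ, δ = ρ (u a) + 1 + e * (ρ (u 1) + 1) := ⟨_, rfl⟩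
  have d1 : ∀ s, u s ∈ cm ρ δ := fun s => by
    rw [hδ]
    exact ((hc s a).add_right (Commute.one_right _)).add_right ((e2 _).mul_right ((hc s 1).add_right (Commute.one_right _)))
  have d2 : ∀ g, Commute (ρ g) δ := fun g => (gen (H := cm ρ δ) a0 ha (by
    change _ * _ = _ * _
    rw [hδ]
    linear_combination (norm := noncomm_ring) -he + (e2 w0).eq * (ρ (u 1) + 1) + e * hY - h0 (ρ (u a) * ρ w0) -
      h0 (e * ρ (u 1) * ρ w0)) (d1 1) (d1 a)).ge (mem_top g)
  have d3 : ∀ t, t ≠ 0 → ρ (u (t * a)) + 1 = e * (ρ (u t) + 1) + δ := fun t ht => by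
    obtain ⟨s, rfl⟩ := (Finite.surjective_of_injective (frobenius_inj K 2)) t
    rw [frobenius_def] at ht ⊢
    have h1 := fun b => congrArg ρ (mul_inv_eq_iff_eq_mul.1 (dg_conj_u (Units.mk0 s (ne_zero_pow two_ne_zero ht)) b))
    have h3 : ρ (dg (Units.mk0 s (ne_zero_pow two_ne_zero ht))) * ρ (dg (Units.mk0 s (ne_zero_pow two_ne_zero ht)))⁻¹ = 1 := by
      rw [← map_mul, mul_inv_cancel, map_one]
    have h4 := (e2 (dg (Units.mk0 s (ne_zero_pow two_ne_zero ht)))).eq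
    have h5 := (d2 (dg (Units.mk0 s (ne_zero_pow two_ne_zero ht)))).eq
    simp only [map_mul, Units.val_mk0] at h1
    have h6 := h1 1
    have h7 := h1 a
    rw [mul_one] at h6
    generalize ρ (dg (Units.mk0 s (ne_zero_pow two_ne_zero ht)))⁻¹ = I at *
    generalize ρ (dg (Units.mk0 s (ne_zero_pow two_ne_zero ht))) = D at *
    have h8 : (ρ (u (s ^ 2 * a)) + 1 + e * (ρ (u (s ^ 2)) + 1) - δ) * D = 0 := by
      linear_combination (norm := noncomm_ring) -h7 - e * h6 + h5 - D * hδ - h4 * (ρ (u 1) + 1)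
    linear_combination (norm := noncomm_ring) h8 * I - (ρ (u (s ^ 2 * a)) + 1 + e * (ρ (u (s ^ 2)) + 1) - δ) * h3 -
      h0 (e * (ρ (u (s ^ 2)) + 1))
  have d4 : δ = 0 := by
    have k1 := d3 1 one_ne_zero
    have k2 := d3 a a0
    have k3 := d3 (a + 1) a1
    rw [add_mul, hu, hu] at k3
    rw [one_mul] at k1 k3
    have c1 := (e2 (u 1)).eq
    have c2 := (d2 (u 1)).eq
    have c3 : e * δ = δ * e := by
      rw [he]; exact (((d2 _).mul_left (d2 _)).add_left ((d2 _).mul_left (d2 _))).eq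
    have c4 : δ * δ = 0 := by
      have c5 := (e2 (u a)).eq
      have c6 := (hc a 1).eq
      rw [hδ]
      linear_combination (norm := noncomm_ring) hU a + h0 (ρ (u a) + 1) + c5 * (ρ (u 1) + 1) + e * c6 + e * c1 * (ρ (u 1) + 1) +
        e * e * hU 1 + h0 (e * e * (ρ (u 1) + 1)) + h0 (e * (ρ (u 1) + 1) * (ρ (u a) + 1))
    have c5 : (ρ (u 1) + 1) * (ρ (u 1) + 1) = 0 := by linear_combination (norm := noncomm_ring) hU 1 + h0 (ρ (u 1) + 1)
    obtain ⟨T, hT⟩ : ∃ T, ρ (u 1) = T + 1 := ⟨ρ (u 1) + 1, by rw [add_assoc, h0, add_zero]⟩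
    replace k1 : ρ (u a) = e * T + δ + 1 := by linear_combination (norm := noncomm_ring) k1 + e * hT + h0 e - h0 1
    replace k2 : ρ (u (a * a)) = e * (e * T + δ) + δ + 1 := by linear_combination (norm := noncomm_ring) k2 + e * k1 + h0 e - h0 1
    rw [k1, k2] at k3
    simp only [hT, add_assoc, h0, add_zero, add_mul, mul_add, mul_one, one_mul, add_left_inj] at c1 c2 c5 k3
    have c6 : ∀ r, T * (e * r) = e * (T * r) := fun r => by rw [← mul_assoc, c1, mul_assoc]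
    have c7 : ∀ r, δ * (e * r) = e * (δ * r) := fun r => by rw [← mul_assoc, ← c3, mul_assoc]
    simp only [mul_assoc, c6, c7, c5, c4, mul_zero, ← c2, zero_add, add_zero] at k3
    linear_combination (norm := abel) k3 - h0 (e * (e * (T * δ)))
  have d5 : ∀ i : ℕ, ρ (u (a ^ i)) = 1 + e ^ i * (ρ (u 1) + 1) := fun i => by
    induction i with
    | zero => rw [pow_zero, pow_zero, one_mul, add_comm, add_assoc, h0, add_zero]
    | succ i ih =>
      have := d3 _ (pow_ne_zero i a0)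
      rw [pow_succ, pow_succ']
      linear_combination (norm := noncomm_ring) this + d4 + e * ih + h0 e - h0 1
  obtain ⟨f, hf⟩ : ∃ f : K → R, ∀ t, f t = ρ w0 * (ρ (u t) + 1) + (ρ (u t) + 1) * ρ w0 := ⟨_, fun _ => rfl⟩
  have hY' : ρ w0 * (ρ (u 1) + 1) + (ρ (u 1) + 1) * ρ w0 = 1 := by
    linear_combination (norm := noncomm_ring) hY + h0 (ρ w0) - h0 1
  have f0 : f 0 = 0 := by rw [hf, u_zero, map_one, h0 1, mul_zero, zero_mul, add_zero]
  have f1 : ∀ i : ℕ, f (a ^ i) = e ^ i := fun i => by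
    rw [hf, d5]
    linear_combination (norm := noncomm_ring) h0 (ρ w0) + h0 (ρ w0) + ((e2 w0).pow_right i).eq * (ρ (u 1) + 1) + e ^ i * hY'
  have f2 : ∀ t g, Commute (ρ g) (f t) := fun t g => by
    by_cases h : t = 0
    · rw [h, f0]; exact Commute.zero_right _
    · obtain ⟨i, rfl⟩ := ha t h
      rw [f1]; exact (e2 g).pow_right i
  have f3 : ∀ t, ρ (u t) = 1 + f t * (ρ (u 1) + 1) := fun t => by
    by_cases h : t = 0
    · rw [h, f0, u_zero, map_one, zero_mul, add_zero]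
    · obtain ⟨i, rfl⟩ := ha t h
      rw [f1, d5]
  refine ⟨⟨⟨⟨f, by simpa using f1 0⟩, fun s t => ?_⟩, f0, fun s t => ?_⟩, f2, f3⟩
  · change f _ = f _ * f _
    by_cases h : s = 0
    · rw [h, zero_mul, f0, zero_mul]
    by_cases h' : t = 0
    · rw [h', mul_zero, f0, mul_zero]
    obtain ⟨i, rfl⟩ := ha s h
    obtain ⟨j, rfl⟩ := ha t h'
    rw [← pow_add, f1, f1, f1, pow_add]
  · change f _ = f _ + f _
    have k1 : ρ (u (s + t)) = ρ (u s) + ρ (u t) + 1 := by
      have c5 : (ρ (u 1) + 1) * (ρ (u 1) + 1) = 0 := by linear_combination (norm := noncomm_ring) hU 1 + h0 (ρ (u 1) + 1)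
      rw [hu, f3 s, f3 t]
      linear_combination (norm := noncomm_ring) f s * (f2 t (u 1)).eq * (ρ (u 1) + 1) + f s * f t * c5 - h0 1
    rw [hf, hf, hf, k1]
    noncomm_ring

omit hY in
theorem coords {V : Type*} [AddCommGroup V] [Finite V] (ρ : SL(2, K) →* AddMonoid.End V) (h2 : (2 : AddMonoid.End V) = 0)
    (hY : ρ w0 * ρ (u 1) + ρ (u 1) * ρ w0 = -1) (φ : K →+* AddMonoid.End V) (h3 : ∀ t g, Commute (ρ g) (φ t))
    (h4 : ∀ t, ρ (u t) = 1 + φ t * (ρ (u 1) + 1)) :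
    ∃ (k : ℕ) (θ : V ≃+ (Fin k → Fin 2 → K)), ∀ g v i, θ (ρ g v) i = g.1 *ᵥ θ v i := by
  letI : Module K V := Module.compHom V φ
  have hs : ∀ (t : K) (v : V), t • v = φ t v := fun _ _ => rfl
  have h0 : ∀ r : AddMonoid.End V, r + r = 0 := fun r => by rw [← two_mul, h2, zero_mul]
  obtain ⟨T, hT⟩ : ∃ T, T = ρ (u 1) + 1 := ⟨_, rfl⟩
  rw [← hT] at h4
  have hU : ρ (u 1) * ρ (u 1) = 1 := by rw [← map_mul, u_sq, map_one]
  have hm : ∀ g h v, ρ (g * h) v = ρ g (ρ h v) := fun g h v => by rw [map_mul]; rfl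
  have hW : ∀ v, ρ w0 (ρ w0 v) = v := fun v => by rw [← hm, w_sq, map_one]; rfl
  have t1 : T * T = 0 := by rw [hT]; linear_combination (norm := noncomm_ring) hU + h0 (ρ (u 1) + 1)
  have t2 : ρ w0 * T + T * ρ w0 = 1 := by rw [hT]; linear_combination (norm := noncomm_ring) hY + h0 (ρ w0) - h0 1
  have t3 : T * ρ w0 * T = T := by linear_combination (norm := noncomm_ring) t2 * T - ρ w0 * t1
  replace t1 : ∀ v, T (T v) = 0 := fun v => DFunLike.congr_fun t1 v
  replace t2 : ∀ v, ρ w0 (T v) + T (ρ w0 v) = v := fun v => DFunLike.congr_fun t2 v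
  replace t3 : ∀ v, T (ρ w0 (T v)) = T v := fun v => DFunLike.congr_fun t3 v
  have hl : ∀ g (t : K) (v : V), ρ g (t • v) = t • ρ g v := fun g t v => DFunLike.congr_fun (h3 t g).eq v
  let L : V →ₗ[K] V := ⟨⟨T, map_add T⟩, fun t v => by
    change T _ = t • T _
    rw [hT]
    exact (congrArg (· + t • v) (hl _ t v)).trans (smul_add t _ _).symm⟩
  have := Module.Finite.of_finite (R := K) (M := LinearMap.range L)
  let c : V →ₗ[K] (Fin _ → K) := (Module.finBasis K (LinearMap.range L)).equivFun.toLinearMap ∘ₗ L.rangeRestrict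
  have c1 : ∀ v w, c v = c w ↔ T v = T w := fun v w =>
    (Module.finBasis K (LinearMap.range L)).equivFun.injective.eq_iff.trans Subtype.ext_iff
  have c2 : Function.Surjective c := (Module.finBasis K (LinearMap.range L)).equivFun.surjective.comp L.surjective_rangeRestrict
  have c3 : ∀ v, c v = 0 ↔ T v = 0 := fun v => by rw [← map_zero c, c1, map_zero]
  let θ : V →+ (Fin _ → Fin 2 → K) := AddMonoidHom.mk' (fun v i => ![c (ρ w0 v) i, c v i]) fun v w => by
    ext i j; fin_cases j <;> simp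
  have θ0 : ∀ v i, θ v i 0 = c (ρ w0 v) i := fun _ _ => rfl
  have θ1 : ∀ v i, θ v i 1 = c v i := fun _ _ => rfl
  have hb : Function.Bijective θ := by
    refine ⟨(injective_iff_map_eq_zero θ).2 fun v hv => ?_, fun x => ?_⟩
    · rw [← t2 v, (c3 v).1 (funext fun i => by rw [← θ1, hv]; rfl), (c3 _).1 (funext fun i => by rw [← θ0, hv]; rfl), map_zero,
        add_zero]
    · obtain ⟨v, hv⟩ := c2 fun i => x i 0
      obtain ⟨w, hw⟩ := c2 fun i => x i 1
      refine ⟨T v + ρ w0 (T w), funext fun i => funext fun j => ?_⟩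
      fin_cases j
      · exact (θ0 _ _).trans (congrFun (((c1 _ _).2 (by rw [map_add, hW, map_add, t1, t3, add_zero])).trans hv) i)
      · exact (θ1 _ _).trans (congrFun (((c1 _ _).2 (by rw [map_add, t1, t3, zero_add])).trans hw) i)
  let H : Subgroup SL(2, K) :=
    { carrier := {g | ∀ v i, θ (ρ g v) i = g.1 *ᵥ θ v i}
      one_mem' := fun v i => by rw [map_one]; exact (one_mulVec _).symm
      mul_mem' := fun {a b} ha hb v i => by
        rw [hm, ha, hb, mulVec_mulVec]; rfl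
      inv_mem' := fun {a} ha v i => by
        have := ha (ρ a⁻¹ v) i
        rw [← hm, mul_inv_cancel, map_one] at this
        rw [show θ v i = _ from this, mulVec_mulVec, show (a⁻¹).1 * a.1 = 1 from congrArg Subtype.val (inv_mul_cancel a)]
        exact (one_mulVec _).symm }
  refine ⟨_, AddEquiv.ofBijective θ hb, fun g => (eq_top_of_U_le' (H := H) (fun x hx => ?_) w0_not_mem_B fun v i => ?_).ge (mem_top g)⟩
  · obtain ⟨t, rfl⟩ := mem_U.1 hx
    intro v i
    have e : ρ (u t) v = v + t • T v := by rw [h4]; rfl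
    ext j
    fin_cases j
    · simp [θ0, θ1, e, hl, (c1 _ _).2 (t3 v), u_coe, mulVec, dotProduct]
    · simp [θ0, θ1, e, (c3 _).2 (t1 v), u_coe, mulVec, dotProduct]
  · ext j
    fin_cases j <;> simp [θ0, θ1, hW, w0_coe, mulVec, dotProduct, CharTwo.neg_eq]

omit hY in
theorem neg_one_eq : (-1 : SL(2, K)) = 1 := by
  refine sl_ext4 ?_ ?_ ?_ ?_ <;> simp [CharTwo.neg_eq]

omit hY in
theorem conj3 {y : SL(2, K)} (h3 : y ^ 3 = 1) (h1 : y ≠ 1) : IsConj y (w0 * u 1) := by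
  have key : ∀ y : SL(2, K), y ^ 3 = 1 → y ≠ 1 → y.1.trace = -1 := fun y h3 h1 => by
    have h4 : NS y.1 := (NS_iff_ne y).2 ⟨h1, by rwa [neg_one_eq]⟩
    have h5 : y * y = y⁻¹ := eq_inv_of_mul_eq_one_left (by rw [← h3, pow_succ, pow_two])
    have h6 : y.1 * y.1 = (y⁻¹).1 := congrArg Subtype.val h5
    rw [inv_coe, ← lin_zero_one y.1, lin_mul, lin_zero_one] at h6
    simpa using (h4.lin_inj h6).2
  have h4 : (w0 * u 1 : SL(2, K)).1.trace = -1 := by
    simp [trace_fin_two, sl_mul_apply, w0_coe, u_coe]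
  refine SS.isConj ((SS_iff y).2 ?_) ((key y h3 h1).trans h4.symm)
  rw [disc_eq, key y h3 h1, show (4 : K) = 2 * 2 by norm_num, CharTwo.two_eq_zero (R := K)]
  simp

omit hY in
theorem exists_gen (hK : 4 ≤ Nat.card K) : ∃ a : K, a ≠ 0 ∧ a + 1 ≠ 0 ∧ ∀ t : K, t ≠ 0 → ∃ i : ℕ, a ^ i = t := by
  obtain ⟨a, ha⟩ := IsCyclic.exists_monoid_generator (α := Kˣ)
  have h1 : ∀ t : K, t ≠ 0 → ∃ i : ℕ, (a : K) ^ i = t := fun t ht => by
    obtain ⟨i, hi⟩ := ha (Units.mk0 t ht)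
    exact ⟨i, by simpa using congrArg Units.val hi⟩
  refine ⟨a, a.ne_zero, fun h => ?_, h1⟩
  rw [← CharTwo.sub_eq_add, sub_eq_zero] at h
  have : Subsingleton Kˣ := ⟨fun s t => by
    obtain ⟨i, hi⟩ := h1 s s.ne_zero
    obtain ⟨j, hj⟩ := h1 t t.ne_zero
    exact Units.ext (by rw [← hi, ← hj, h, one_pow, one_pow])⟩
  have h2 := Nat.card_units K
  rw [Nat.card_of_subsingleton (1 : Kˣ)] at h2
  omega

omit hY in
theorem simple (hK : 4 ≤ Nat.card K) : IsSimpleGroup SL(2, K) := by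
  have := ProjectiveSpecialLinearGroup.rank_two_simple hK
  refine (MulEquiv.ofBijective (QuotientGroup.mk' (center SL(2, K))) ⟨(injective_iff_map_eq_one _).2 fun g hg => ?_,
    QuotientGroup.mk'_surjective _⟩).isSimpleGroup
  simpa [neg_one_eq] using (mk_eq_one_iff g).1 hg

end CA.Hig3
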