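import Cfsg.Agent.Lib.Lin.Hig3
import Cfsg.Agent.Lib.Cit.D1

/-! Higman's theorem on extensions of `2`-groups by `SL₂(2ⁿ)` with a fixed-point-free element of order three. -/

set_option autoImplicit false
set_option linter.unusedSectionVars false

namespace CA.Hig3

open Matrix MatrixGroups CA.SL2Unip Subgroup CA.BG CA.Cit
open scoped commutatorElement IsMulCommutative

variable {K : Type*} [Field K] [Finite K] [CharP K 2]
variable {G : Type*} [Group G] [Finite G] {Q : Subgroup G} [hn : Q.Normal]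

theorem fpf_conj {x : G} (hf : Q ⊓ 𝓒₁(x) = ⊥) (g : G) : Q ⊓ 𝓒₁(g * x * g⁻¹) = ⊥ := eq_bot_iff.2 fun v hv => by
  have h1 : g⁻¹ * v * g ∈ Q ⊓ 𝓒₁(x) := ⟨by simpa using hn.conj_mem v hv.1 g⁻¹, mem_centralizer_singleton_iff.2 (by
    have := mem_centralizer_singleton_iff.1 hv.2
    calc _ = g⁻¹ * (v * (g * x * g⁻¹)) * g := by group
      _ = _ := by rw [this]; group)⟩
  rw [hf, mem_bot] at h1
  have : v = g * (g⁻¹ * v * g) * g⁻¹ := by group
  rw [this, h1]; simp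

theorem adj (hQ : IsPGroup 2 Q) {y : G} (h3 : y ^ 3 = 1) (hf : Q ⊓ 𝓒₁(y) = ⊥) {v w : G} (hv : v ∈ Q) (hw : w ∈ Q) :
    y * ⁅v, w⁆ * y⁻¹ = ⁅v, y⁻¹ * w * y⁆ ∧ y * ⁅v, w⁆ * y⁻¹ = ⁅y⁻¹ * v * y, w⁆ := by
  have hy : y ∈ 𝓝(Q) := by rw [normalizer_eq_top]; trivial
  have cc : ∀ {w p q}, w ∈ Q → p ∈ Q → q ∈ Q → Commute w ⁅p, q⁆ := fun hw hp hq =>
    cls2 hy h3 hf (isPi_of_isPGroup Nat.prime_two hQ) (commutator_mem_commutator hp hq) _ hw
  have key : ∀ v ∈ Q, ∀ w ∈ Q, ⁅y * v * y⁻¹, w⁆ = ⁅v, y * w * y⁻¹⁆ := fun v hv w hw => by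
    have h1 := commutatorElement_eq_one_iff_commute.2 (comm3 hy h3 hf (mul_mem hv hw))
    have hv' := hn.conj_mem v hv y
    have hw' := hn.conj_mem w hw y
    rw [← conj_mul, PGClassTwo.comm_mul_left (cc hv hw (mul_mem hv' hw')), PGClassTwo.comm_mul_right (cc hv' hw hw'),
      PGClassTwo.comm_mul_right (cc hv' hv hw'), commutatorElement_eq_one_iff_commute.2 (comm3 hy h3 hf hv),
      commutatorElement_eq_one_iff_commute.2 (comm3 hy h3 hf hw), mul_one, one_mul] at h1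
    rw [← commutatorElement_inv, inv_eq_of_mul_eq_one_right h1]
  have e : ∀ v, y * (y * v * y⁻¹) * y⁻¹ = y⁻¹ * v * y := fun v => by
    have : y⁻¹ = y * y := (eq_inv_of_mul_eq_one_left (by rw [← h3, pow_succ, pow_two])).symm
    calc _ = y * y * v * (y * y)⁻¹ := by group
      _ = _ := by rw [← this, inv_inv]
  rw [conjugate_commutatorElement]
  exact ⟨by rw [key v hv _ (hn.conj_mem w hw y), e], by rw [← key _ (hn.conj_mem v hv y) w hw, e]⟩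

theorem aux (hK : 4 ≤ Nat.card K) {V : Type*} [CommGroup V] [Finite V] (α : SL(2, K) →* MulAut V)
    (hy : ∀ v, v * α (w0 * u 1) v * α (w0 * u 1)⁻¹ v = 1) (h3 : ∀ v : V, v ^ 3 = 1 → v = 1) :
    (∀ v : V, v ^ 2 = 1) ∧ ∃ (k : ℕ) (θ : V ≃* Multiplicative (Fin k → Fin 2 → K)),
      ∀ g v i, (θ (α g v)).toAdd i = g.1 *ᵥ (θ v).toAdd i := by
  obtain ⟨a, a0, a1, ha⟩ := exists_gen hK
  obtain ⟨ρ, hρ⟩ : ∃ ρ : SL(2, K) →* AddMonoid.End (Additive V), ∀ g v, ρ g v = Additive.ofMul (α g v.toMul) :=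
    ⟨MonoidHom.comp ⟨⟨fun f => MonoidHom.toAdditive f.toMonoidHom, rfl⟩, fun _ _ => rfl⟩ α, fun _ _ => rfl⟩
  have hY : ρ w0 * ρ (u 1) + ρ (u 1) * ρ w0 = -1 := by
    have : (u 1 * w0 : SL(2, K)) = (w0 * u 1 : SL(2, K))⁻¹ := by
      rw [_root_.mul_inv_rev, inv_eq_of_mul_eq_one_right (u_sq (1 : K)), inv_eq_of_mul_eq_one_right (w_sq (K := K))]
    rw [← map_mul, ← map_mul, this]
    refine AddMonoidHom.ext fun v => ?_
    change ρ _ v + ρ _ v = -v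
    rw [hρ, hρ, eq_neg_iff_add_eq_zero, add_comm, ← add_assoc]
    exact hy v.toMul
  have h2 := two ρ hY (fun r hr => AddMonoidHom.ext fun v => by
    have h4 : (3 : ℕ) • r v = 0 := DFunLike.congr_fun hr v
    exact h3 _ h4) a0 a1
  obtain ⟨φ, h4, h5⟩ := field ρ hY h2 a0 a1 ha
  obtain ⟨k, θ, hθ⟩ := coords ρ h2 hY φ h4 h5
  refine ⟨fun v => ?_, k, AddEquiv.toMultiplicativeRight θ, fun g v i => ?_⟩
  · have h4 : (2 : ℕ) • Additive.ofMul v = 0 := DFunLike.congr_fun h2 _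
    exact h4
  · have := hθ g (Additive.ofMul v) i
    rwa [hρ] at this

variable (hQ : IsPGroup 2 Q) (hK : 4 ≤ Nat.card K) (π : G →* SL(2, K)) (hπ : Function.Surjective π) (hk : π.ker = Q)
  {x : G} (h3 : x ^ 3 = 1) (h1 : x ≠ 1) (hf : Q ⊓ 𝓒₁(x) = ⊥)
include hQ hK hπ hk h3 h1 hf

theorem exists_std : ∃ y : G, y ^ 3 = 1 ∧ Q ⊓ 𝓒₁(y) = ⊥ ∧ π y = w0 * u 1 := by
  obtain ⟨c, hc⟩ := isConj_iff.1 (conj3 (y := π x) (by rw [← map_pow, h3, map_one]) fun h =>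
    h1 (one_of_cube (isPi_of_isPGroup Nat.prime_two hQ) (hk.le h) h3))
  obtain ⟨g, rfl⟩ := hπ c
  exact ⟨g * x * g⁻¹, by rw [conj_pow, h3]; simp, fpf_conj hf g, by simpa using hc⟩

theorem abel : IsMulCommutative Q := by
  obtain ⟨y, y3, yf, hy⟩ := exists_std hQ hK π hπ hk h3 h1 hf
  obtain ⟨a, a0, a1, -⟩ := exists_gen hK
  obtain ⟨g, hg⟩ := hπ (u a)
  have hC : Q ≤ 𝓒(⁅Q, Q⁆) := le_centralizer_iff.1 (cls2 (by rw [normalizer_eq_top]; trivial) h3 hf (isPi_of_isPGroup Nat.prime_two hQ))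
  have z3 : (g * y * g⁻¹) ^ 3 = 1 := by rw [conj_pow, y3]; simp
  have zf := fpf_conj yf g
  have hz : π (g * y * g⁻¹) = u a * (w0 * u 1) * (u a)⁻¹ := by simp [hg, hy]
  generalize g * y * g⁻¹ = z at *
  have h4 : (z * y)⁻¹ * (y * z) ∈ 𝓒(⁅Q, Q⁆) := by
    rw [← zpowers_le, le_centralizer_iff, commutator_le]
    intro v hv w hw
    rw [zpowers_eq_closure, centralizer_closure, mem_centralizer_singleton_iff]
    have e1 : y * (z * ⁅v, w⁆ * z⁻¹) * y⁻¹ = z * (y * ⁅v, w⁆ * y⁻¹) * z⁻¹ := by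
      rw [(adj hQ z3 zf hv hw).2, (adj hQ y3 yf hv hw).1, (adj hQ y3 yf (by simpa using hn.conj_mem v hv z⁻¹) hw).1,
        (adj hQ z3 zf hv (by simpa using hn.conj_mem w hw y⁻¹)).2]
    calc _ = (z * y)⁻¹ * (z * (y * ⁅v, w⁆ * y⁻¹) * z⁻¹) * (y * z) := by group
      _ = _ := by rw [← e1]; group
  have := simple hK
  rcases (Normal.map (inferInstance : (𝓒(⁅Q, Q⁆)).Normal) π hπ).eq_bot_or_eq_top with h | h
  · have h5 := h.le (mem_map_of_mem π h4)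
    rw [mem_bot, map_mul, map_inv, inv_mul_eq_one, map_mul, map_mul, hz, hy, u_inv] at h5
    have h6 := congrArg (fun m : SL(2, K) => m.1 0 1) h5
    simp [sl_mul_apply, w0_coe, u_coe, CharTwo.neg_eq] at h6
    exact absurd (show a * (a + 1) = 0 by linear_combination h6) (mul_ne_zero a0 a1)
  · have h5 := congrArg (comap π) h
    rw [comap_map_eq, hk, sup_eq_left.2 hC, comap_top] at h5
    have h6 : ⁅Q, Q⁆ ≤ Q ⊓ 𝓒₁(x) := le_inf (commutator_le_left Q Q) fun v hv =>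
      mem_centralizer_singleton_iff.2 (h5.ge (mem_top x) v hv)
    rw [hf, le_bot_iff, commutator_eq_bot_iff_le_centralizer] at h6
    exact ⟨⟨fun a b => Subtype.ext (h6 b.2 a a.2)⟩⟩

theorem main : (IsMulCommutative Q ∧ ∀ a ∈ Q, a ^ 2 = 1) ∧ ∃ (k : ℕ) (θ : Q ≃* Multiplicative (Fin k → Fin 2 → K)),
    ∀ g v i, (θ (MulAut.conjNormal g v)).toAdd i = (π g).1 *ᵥ (θ v).toAdd i := by
  have := abel hQ hK π hπ hk h3 h1 hf
  obtain ⟨y, y3, yf, hy⟩ := exists_std hQ hK π hπ hk h3 h1 hf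
  have hker : π.ker ≤ (MulAut.conjNormal : G →* MulAut Q).ker := fun g hg => MulEquiv.ext fun v => Subtype.ext (by
    have := congrArg Subtype.val (mul_comm (⟨g, hk.le hg⟩ : Q) v)
    exact mul_inv_eq_iff_eq_mul.2 this)
  obtain ⟨α, hα⟩ : ∃ α : SL(2, K) →* MulAut Q, ∀ g, α (π g) = MulAut.conjNormal g :=
    ⟨π.liftOfSurjective hπ ⟨_, hker⟩, fun g => MonoidHom.liftOfRightInverse_comp_apply _ _ _ _ g⟩
  obtain ⟨h2, k, θ, hθ⟩ := aux hK α (fun v => Subtype.ext (by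
      rw [← hy, ← map_inv, hα, hα]
      simpa using tri3 (by rw [normalizer_eq_top]; trivial) y3 yf v.2))
    fun v hv => Subtype.ext (one_of_cube (isPi_of_isPGroup Nat.prime_two hQ) v.2 (congrArg Subtype.val hv))
  exact ⟨⟨this, fun v hv => congrArg Subtype.val (h2 ⟨v, hv⟩)⟩, k, θ, fun g v i => by rw [← hα, hθ]⟩

end CA.Hig3
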