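import Cfsg.Agent.Lib.Lin.Lev5

/-! Cyclic operators: Schur steps and regular unipotent factorisations over any field. -/

set_option autoImplicit false

namespace CA.Lev

open Module Submodule CA.Rcf Polynomial

universe u
variable {K : Type*} [Field K] {V : Type u} [AddCommGroup V] [Module K V] [FiniteDimensional K V]
  {W : Type*} [AddCommGroup W] [Module K W] [FiniteDimensional K W] {g ρ : End K V} {e : V}

/-- `e` is a cyclic vector -/
def CycV (g : End K V) (e : V) : Prop := ∀ S : Submodule K V, e ∈ S → (∀ v ∈ S, g v ∈ S) → S = ⊤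

omit [FiniteDimensional K V] in
theorem CycV.li (h : CycV g e) : ∀ k, k ≤ finrank K V → LinearIndependent K fun i : Fin k => (g ^ (i : ℕ)) e
  | 0, _ => linearIndependent_empty_type
  | k + 1, hk => by
    rw [linearIndependent_finSucc']
    refine ⟨h.li k (by omega), fun H => ?_⟩
    change (g ^ k) e ∈ span K (Set.range fun i : Fin k => (g ^ (i : ℕ)) e) at H
    have key : ∀ i ≤ k, (g ^ i) e ∈ span K (Set.range fun i : Fin k => (g ^ (i : ℕ)) e) := fun i hi =>
      hi.eq_or_lt.elim (fun h => h ▸ H) fun h => subset_span ⟨⟨i, h⟩, rfl⟩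
    have := h _ (key 0 (by omega)) fun v hv => (map_span_le g _ _).2 (by
      rintro _ ⟨i, rfl⟩
      simpa [pow_succ'] using key (i + 1) i.2) ⟨v, hv, rfl⟩
    have h2 := finrank_range_le_card (R := K) fun i : Fin k => (g ^ (i : ℕ)) e
    rw [Set.finrank, this, finrank_top, Fintype.card_fin] at h2
    omega

theorem CycV.exists_phi (h : CycV g e) (c : ℕ → K) :
    ∃ φ : Dual K V, ∀ i < finrank K V, φ ((g ^ i) e) = c i := by
  let b := basisOfLinearIndependentOfCardEqFinrank' _ (h.li _ le_rfl) (by simp)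
  exact ⟨b.constr K fun i => c i, fun i hi => by simpa [b] using b.constr_basis K (fun i => c i) ⟨i, hi⟩⟩

theorem CycV.ns (h : CycV g e) (hn : 2 ≤ finrank K V) : NS g := fun c => by
  obtain ⟨φ, hφ⟩ := h.exists_phi fun i => if i = 0 then 0 else 1
  have h0 := hφ 0 (by omega)
  have h1 := hφ 1 (by omega)
  exact ⟨e, fun H => by simp_all⟩

omit [FiniteDimensional K V] [FiniteDimensional K W] in
theorem CycV.of_sim {g' : End K W} (h : CycV g e) (s : Sim g g') : ∃ e', CycV g' e' := by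
  obtain ⟨E, hE⟩ := s
  refine ⟨E e, fun S h1 h2 => top_unique fun w _ => ?_⟩
  obtain ⟨v, rfl⟩ := E.surjective w
  have := h (S.comap (E : V →ₗ[K] W)) h1 fun v hv => by simpa [hE] using h2 _ hv
  exact (this.ge mem_top : v ∈ S.comap (E : V →ₗ[K] W))

theorem cycV_comp (f : K[X]) (n : ℕ) : CycV (Matrix.toLin' (comp f n)) (SLTv.e n K 0) := fun S h1 h2 => by
  have : ∀ k, (comp f n ^ k).mulVec (SLTv.e n K 0) ∈ S := fun k => by
    induction k with
    | zero => simpa
    | succ k ih => simpa [pow_succ'] using h2 _ ih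
  refine top_unique fun w _ => ?_
  rw [SLTv.eq_sum_e w]
  exact sum_mem fun i _ => smul_mem _ _ (comp_pow_e f i.2 ▸ this i)

omit [FiniteDimensional K V] in
theorem cyc_schur (hρ : ρ * ρ = ρ) (h : ρ * g * ρ = ρ) (he : CycV g e) (e0 : ρ e = e) {x : LinearMap.ker ρ}
    (hx : ∀ S : Submodule K (LinearMap.ker ρ), x ∈ S → (∀ w ∈ S, schur h w ∈ S) →
      ∀ v, g (ρ v) - ρ v ∈ S.map (LinearMap.ker ρ).subtype) : CycV (schur h) x := fun S h1 h2 => by
  have k := hx S h1 h2
  have r : ∀ v, g (ρ v) ∈ S.map (LinearMap.ker ρ).subtype ⊔ LinearMap.range ρ := fun v => by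
    simpa using add_mem (mem_sup_left (k v)) (mem_sup_right (LinearMap.mem_range_self ρ v))
  have := he (S.map (LinearMap.ker ρ).subtype ⊔ LinearMap.range ρ) (mem_sup_right ⟨e, e0⟩) fun v hv => by
    obtain ⟨_, ⟨s, hs, rfl⟩, _, ⟨v, rfl⟩, rfl⟩ := mem_sup.1 hv
    rw [map_add]
    refine add_mem ?_ (r v)
    simpa [schur_apply] using add_mem (mem_sup_left (mem_map_of_mem (h2 s hs))) (r (g s))
  refine top_unique fun w _ => ?_
  obtain ⟨_, ⟨s, hs, rfl⟩, _, ⟨v, rfl⟩, h3⟩ := mem_sup.1 (this.ge (mem_top (x := (w : V))))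
  have h4 := congrArg ρ h3
  rw [map_add, LinearMap.mem_ker.1 w.2, ← End.mul_apply ρ ρ, hρ] at h4
  simp only [subtype_apply, LinearMap.mem_ker.1 s.2, zero_add] at h4 h3
  rw [h4, add_zero] at h3
  exact Subtype.ext h3 ▸ hs

theorem trace_schur (h : ρ * g * ρ = ρ) :
    LinearMap.trace K _ (schur h) = LinearMap.trace K V g - LinearMap.trace K V (g * ρ * g) := by
  rw [← map_sub]
  exact LinearMap.trace_restrict_eq_of_forall_mem _ _ fun w => by
    have := LinearMap.congr_fun h (g w)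
    simp only [End.mul_apply] at this
    simp [this]

theorem trace_rho (φ : Dual K V) : LinearMap.trace K V (g * φ.smulRight e * g) = φ (g (g e)) := by
  rw [show g * φ.smulRight e * g = (φ ∘ₗ g).smulRight (g e) by ext; simp, LinearMap.trace_smulRight]; rfl

omit [FiniteDimensional K V] in
theorem cyc_step (he : CycV g e) {φ : Dual K V} (h1 : φ e = 1) (h2 : φ (g e) = 1)
    {x : LinearMap.ker (φ.smulRight e)} (hx : (x : V) = g e - e) : CycV (schur (rho_g h2)) x :=
  cyc_schur (rho_sq h1) _ he (by simp [h1]) fun S p _ v => ⟨φ v • x, smul_mem _ _ p, by simp [hx, smul_sub]⟩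

theorem cyc_lu : ∀ (n : ℕ) {V : Type u} [AddCommGroup V] [Module K V] [FiniteDimensional K V]
    {g : End K V} {e : V}, finrank K V = n + 1 → LinearMap.det g = 1 → CycV g e →
    (1 ≤ n → LinearMap.trace K V g ≠ 2 ∨ (2 ≤ n ∧ ∃ c : K, c ≠ 0 ∧ c ≠ 1)) →
    ∀ {y : Dual K V}, y e ≠ 0 → ∃ L U : End K V, g = L * U ∧ (L - 1) ^ (n + 1) = 0 ∧
      (U - 1) ^ (n + 1) = 0 ∧ ((L - 1) ^ n) e ≠ 0 ∧ ∃ w, y (((U - 1) ^ n) w) ≠ 0
  | 0, V, _, _, _, g, e, hn, hd, _, _, y, y0 =>
    ⟨1, 1, by simpa using eq_one_of_finrank_one hn hd, by simp, by simp,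
      by simpa using fun h => y0 (by simp [h]), e, by simpa⟩
  | n + 1, V, _, _, _, g, e, hn, hd, he, h, y, q1 => by
    obtain ⟨c, c1, c2⟩ : ∃ c : K, c ≠ 1 ∧ (LinearMap.trace K V g - c ≠ 2) ∧
        (n = 0 → LinearMap.trace K V g ≠ 2) := by
      by_cases ht : LinearMap.trace K V g = 2
      · obtain ⟨h, c, c0, c1⟩ := (h (by omega)).resolve_left (not_not.2 ht)
        exact ⟨c, c1, by simpa [ht], by omega⟩
      · exact ⟨0, zero_ne_one, by simpa, fun _ => ht⟩
    obtain ⟨φ, hφ⟩ := he.exists_phi fun i => if i ≤ 1 then 1 else c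
    have h1 : φ e = 1 := by simpa using hφ 0 (by omega)
    have h2 : φ (g e) = 1 := by simpa using hφ 1 (by omega)
    have h3 : 1 ≤ n → φ (g (g e)) = c := fun h => by simpa [sq] using hφ 2 (by omega)
    have t := trace_schur (rho_g h2)
    have d := (det_schur (rho_sq h1) (rho_g h2)).trans hd
    have f : finrank K (LinearMap.ker (φ.smulRight e)) = n + 1 := by have := finrank_ker_rho h1; omega
    rw [trace_rho] at t
    set W := LinearMap.ker (φ.smulRight e)
    let π : V →ₗ[K] W := (1 - φ.smulRight e).codRestrict W fun v => (mem_ker_rho h1).2 (by simp [h1])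
    have hπ : ∀ v, (π v : V) = v - φ v • e := fun _ => rfl
    have hW : ∀ w : W, φ w = 0 := fun w => (mem_ker_rho h1).1 w.2
    have hπW : ∀ w : W, π w = w := fun w => Subtype.ext (by simp [hπ, hW])
    have hπe : π e = 0 := Subtype.ext (by simp [hπ, h1])
    obtain ⟨L, U, e1, e2, e3, e4, w, e5⟩ := cyc_lu n (g := schur (rho_g h2)) (e := π (g e))
      f d (cyc_step he h1 h2 (by simp [hπ, h2])) (fun h => .inl (by rw [t, h3 h]; exact c2.1))
      (y := φ ∘ₗ g ∘ₗ W.subtype) (by
        suffices φ (g (g e)) ≠ 1 by simpa [hπ, h2, sub_eq_zero]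
        rcases Nat.eq_zero_or_pos n with h0 | h0
        · rw [h0] at f
          rw [eq_one_of_finrank_one f d, LinearMap.trace_one, f] at t
          exact fun h => c2.2 h0 (by rw [h] at t; simp at t; linear_combination -t)
        · rwa [h3 h0])
    let L' : End K V := φ.smulRight (g e) + W.subtype ∘ₗ L ∘ₗ π
    let U' : End K V := (φ ∘ₗ g).smulRight e + W.subtype ∘ₗ U ∘ₗ π
    have l1 : ∀ (k : ℕ) v, ((L' - 1) ^ (k + 1)) v = ((L - 1) ^ k) (φ v • π (g e) + (L - 1) (π v)) := by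
      intro k v
      induction k with
      | zero => simp [L', hπ, h2]; module
      | succ k ih => rw [pow_succ', End.mul_apply, ih, pow_succ', End.mul_apply]; simp [L', hW, hπW]
    have u1 : ∀ (k : ℕ) v, ((U' - 1) ^ (k + 1)) v =
        φ (g (((U - 1) ^ k) (π v))) • e + ((U - 1) ^ (k + 1)) (π v) := by
      intro k v
      induction k with
      | zero => simp [U', hπ, h2]; module
      | succ k ih =>
        rw [pow_succ', End.mul_apply, ih, pow_succ' (U - 1) (k + 1), End.mul_apply]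
        simp [U', hπW, hπe, h2]; module
    refine ⟨L', U', LinearMap.ext fun v => ?_, LinearMap.ext fun v => ?_, LinearMap.ext fun v => ?_,
      ?_, w, ?_⟩
    · have := congrArg Subtype.val (LinearMap.congr_fun e1 (π v))
      simp only [schur_apply, End.mul_apply, hπ, map_sub, map_smul, LinearMap.smulRight_apply, h2] at this
      simp [L', U', hW, hπW, hπe, h1, ← this]
    · rw [l1, e2]; rfl
    · rw [u1, pow_succ (U - 1) (n + 1), e3]; simp
    · rw [l1, map_add, ← End.mul_apply, ← pow_succ, e2]; simpa [h1] using e4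
    · rw [u1, e3, hπW]; simpa [q1] using e5

/-- commutator data with a unipotent element -/
def U0 (g : End K V) : Prop := ∃ u, CD g u ∧ IsNilpotent (u - 1)

theorem u0_le_one (hn : finrank K V ≤ 1) (hd : LinearMap.det g = 1) : U0 g :=
  ⟨1, by rw [eq_one_of_le_one hn hd]; exact cd_one 1, by simp⟩

theorem u0_cyc (he : CycV g e) (hd : LinearMap.det g = 1) (h : 2 ≤ finrank K V →
    LinearMap.trace K V g ≠ 2 ∨ (3 ≤ finrank K V ∧ ∃ c : K, c ≠ 0 ∧ c ≠ 1)) : U0 g := by
  by_cases hn : finrank K V ≤ 1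
  · exact u0_le_one hn hd
  obtain ⟨n, e1⟩ : ∃ n, finrank K V = n + 1 := ⟨finrank K V - 1, by omega⟩
  obtain ⟨y, hy⟩ := he.exists_phi fun _ => 1
  obtain ⟨L, U, p1, p2, p3, p4, w, p5⟩ := cyc_lu n e1 hd he
    (fun _ => (h (by omega)).imp_right fun h => ⟨by omega, h.2⟩) (y := y)
    (by rw [show y e = 1 by simpa using hy 0 (by omega)]; exact one_ne_zero)
  exact cd_of_reg p1 ⟨e1 ▸ p2, fun h => p4 (by rw [e1, Nat.add_sub_cancel] at h; simp [h])⟩
    ⟨e1 ▸ p3, fun h => p5 (by rw [e1, Nat.add_sub_cancel] at h; simp [h])⟩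

theorem u0_cyc3 {c : K} (c0 : c ≠ 0) (c1 : c ≠ 1) (he : CycV g e) (hd : LinearMap.det g = 1) : U0 g := by
  by_cases hn : finrank K V = 2
  · exact cd_two c0 c1 hn hd (he.ns hn.ge)
  · exact u0_cyc he hd fun _ => .inr ⟨by omega, c, c0, c1⟩

omit [FiniteDimensional K V] [FiniteDimensional K W] in
theorem U0.of_sim {g' : End K W} (h : U0 g) (s : Sim g g') : U0 g' := by
  obtain ⟨u, h1, h2⟩ := h
  obtain ⟨u', h3, h4⟩ := h1.of_sim s
  exact ⟨u', h3, h4.isNilpotent h2⟩

omit [FiniteDimensional K V] [FiniteDimensional K W] in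
theorem U0.prod {g' : End K W} (h : U0 g) (h' : U0 g') : U0 (g.prodMap g' : End K (V × W)) := by
  obtain ⟨u, h1, k, h2⟩ := h
  obtain ⟨u', h3, k', h4⟩ := h'
  refine ⟨_, h1.prod h3, k + k', ?_⟩
  simpa [← pow_add] using aeval_prod (aeval_unip h2) (aeval_unip h4)

end CA.Lev
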