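import Cfsg.Agent.Lib.Lin.Lev6

/-! Block Schur steps with unipotent commutator data; gluing cyclic blocks. -/

set_option autoImplicit false

namespace CA.Lev

open Module Submodule CA.Rcf Polynomial

universe u
variable {K : Type*} [Field K] {V : Type u} [AddCommGroup V] [Module K V] [FiniteDimensional K V]
  {W : Type u} [AddCommGroup W] [Module K W] [FiniteDimensional K W] {g ρ : End K V} {e : V}
  {g' : End K W} {r r' : ℕ}

/-- a Schur step of rank at least `r` with unipotent commutator data -/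
def US (r : ℕ) (g : End K V) : Prop :=
  ∃ (ρ : End K V) (_ : ρ * ρ = ρ) (h : ρ * g * ρ = ρ), r ≤ finrank K (LinearMap.range ρ) ∧ U0 (schur h)

omit [FiniteDimensional K V] [FiniteDimensional K W] in
theorem rho_prod {ρ' : End K W} (h : ρ * g * ρ = ρ) (h' : ρ' * g' * ρ' = ρ') :
    (ρ.prodMap ρ' : End K (V × W)) * g.prodMap g' * ρ.prodMap ρ' = ρ.prodMap ρ' := by
  conv_rhs => rw [← h, ← h']
  rfl

omit [FiniteDimensional K V] [FiniteDimensional K W] in
theorem sim_schur_prod {ρ' : End K W} (h : ρ * g * ρ = ρ) (h' : ρ' * g' * ρ' = ρ') :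
    Sim ((schur h).prodMap (schur h') : End K (_ × _)) (schur (rho_prod h h')) :=
  ⟨{ toFun := fun w => ⟨(w.1, w.2), by simp⟩
     map_add' := fun _ _ => rfl
     map_smul' := fun _ _ => rfl
     invFun := fun w => (⟨w.1.1, congrArg Prod.fst (LinearMap.mem_ker.1 w.2)⟩,
       ⟨w.1.2, congrArg Prod.snd (LinearMap.mem_ker.1 w.2)⟩)
     left_inv := fun _ => rfl
     right_inv := fun _ => rfl }, fun _ => rfl⟩

theorem us_prod {ρ' : End K W} (hρ : ρ * ρ = ρ) (h : ρ * g * ρ = ρ) (hρ' : ρ' * ρ' = ρ')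
    (h' : ρ' * g' * ρ' = ρ') (p : r ≤ finrank K (LinearMap.range ρ)) (p' : r' ≤ finrank K (LinearMap.range ρ'))
    (q : U0 ((schur h).prodMap (schur h') : End K (_ × _))) :
    US (r + r') (g.prodMap g' : End K (V × W)) := by
  refine ⟨_, by simpa using rho_prod (g := 1) (g' := 1) (by simpa using hρ) (by simpa using hρ'),
    rho_prod h h', ?_, q.of_sim (sim_schur_prod h h')⟩
  have := (sim_schur_prod h h').finrank_eq
  have := finrank_range_add_ker ρ
  have := finrank_range_add_ker ρ'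
  have := finrank_range_add_ker (ρ.prodMap ρ' : End K (V × W))
  simp only [finrank_prod] at *
  omega

theorem US.prod (h : US r g) (h' : US r' g') : US (r + r') (g.prodMap g' : End K (V × W)) := by
  obtain ⟨ρ, h1, h2, h3, h4⟩ := h
  obtain ⟨ρ', p1, p2, p3, p4⟩ := h'
  exact us_prod h1 h2 p1 p2 h3 p3 (h4.prod p4)

theorem US.of_sim (h : US r g) (s : Sim g g') : US r g' := by
  obtain ⟨E, rfl⟩ := s.eq_conj
  obtain ⟨ρ, h1, h2, h3, h4⟩ := h
  have p1 : ∀ v, ρ (ρ v) = ρ v := LinearMap.congr_fun h1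
  have p2 : ∀ v, ρ (g (ρ v)) = ρ v := LinearMap.congr_fun h2
  have h5 : E.conj ρ * E.conj g * E.conj ρ = E.conj ρ := by ext; simp [p2]
  have s : Sim (schur h2) (schur h5) :=
    ⟨E.ofSubmodules _ _ (by ext w; obtain ⟨v, rfl⟩ := E.surjective w; simp),
      fun w => Subtype.ext (by simp [schur_apply])⟩
  refine ⟨E.conj ρ, by ext; simp [p1], h5, ?_, h4.of_sim s⟩
  have := s.finrank_eq
  have := E.finrank_eq
  have := finrank_range_add_ker ρ
  have := finrank_range_add_ker (E.conj ρ)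
  omega

omit [FiniteDimensional K V] in
theorem US.mono (h : US r g) (hr : r' ≤ r) : US r' g :=
  h.imp fun _ h => h.imp fun _ h => h.imp fun _ h => ⟨hr.trans h.1, h.2⟩

theorem US.cd [Finite K] (h : US r g) : ∃ s, r ≤ s ∧ ∀ χ : K[X], χ.Monic → χ.natDegree = s → s ≠ 0 → χ.coeff 0 ≠ 0 →
    χ.eval 1 ≠ 0 → ∃ a, CD g a ∧ Flex a ∧ (-1) ^ s * LinearMap.det a = χ.coeff 0 := by
  obtain ⟨ρ, h1, h2, h3, u, h4, k, h5⟩ := h
  refine ⟨_, h3, fun χ p1 p2 p3 p4 p5 => ?_⟩
  obtain ⟨α, q1, q2⟩ := exists_ss_equiv p1 p2 p4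
  obtain ⟨a, r1, r2⟩ := cd_block (α := α) h1 h2 h4 (p := χ) (IsCoprime.pow_right
    ((irreducible_X_sub_C 1).coprime_iff_not_dvd.2 (mt dvd_iff_isRoot.1 p5)).symm)
    (q2 ▸ LinearMap.aeval_self_charpoly _) (aeval_unip h5)
  refine ⟨a, r1, (Flex.prod (fun c hc => q1.exists_commute_det p3 hc) u).of_sim r2, ?_⟩
  rw [← r2.det_eq, det_prod, det_unip ⟨k, h5⟩, mul_one, ← coeff_zero_charpoly, q2]

omit [FiniteDimensional K V] in
theorem top_of_cd {s : ℕ} (hs : 2 ≤ s) (H : ∀ χ : K[X], χ.Monic → χ.natDegree = s → s ≠ 0 → χ.coeff 0 ≠ 0 →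
    χ.eval 1 ≠ 0 → ∃ a, CD g a ∧ Flex a ∧ (-1) ^ s * LinearMap.det a = χ.coeff 0) : Top g := by
  have d : (C (-(-1 : K) ^ s) * X + C ((-1) ^ s)).degree < (s : WithBot ℕ) :=
    degree_linear_le.trans_lt (by exact_mod_cast hs)
  have c0 : (X ^ s + (C (-(-1 : K) ^ s) * X + C ((-1) ^ s))).coeff 0 = (-1) ^ s := by
    rw [coeff_add, coeff_add, coeff_X_pow, if_neg (by omega), coeff_C_zero, coeff_mul_X_zero]; simp
  obtain ⟨a, h1, h2, h3⟩ := H _ (monic_X_pow_add d) (natDegree_eq_of_degree_eq_some (by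
    rw [degree_add_eq_left_of_degree_lt (by rwa [degree_X_pow]), degree_X_pow])) (by omega)
    (by rw [c0]; simp) (by simp)
  exact ⟨a, h1, mul_left_cancel₀ (pow_ne_zero s (neg_ne_zero.2 one_ne_zero)) (by rw [h3, c0, mul_one]), h2⟩

theorem US.top [Finite K] (h : US 2 g) : Top g := h.cd.elim fun _ h => top_of_cd h.1 h.2

theorem US.top_odd [Finite K] (h2 : (2 : K) ≠ 0) (h : US 1 g) (hn : Odd (finrank K V)) : Top g := by
  obtain ⟨s, hs, H⟩ := h.cd
  rcases hs.eq_or_lt with rfl | hs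
  · obtain ⟨a, h1, h3, h4⟩ := H (X + C 1) (monic_X_add_C _) (natDegree_X_add_C _) one_ne_zero (by simp)
      (by simpa [one_add_one_eq_two])
    refine ⟨(-1 : K) • a, h1.smul _, ?_, fun c hc => (h3 c hc).imp fun z hz => ⟨by simp [hz.1], hz.2⟩⟩
    rw [LinearMap.det_smul, hn.neg_one_pow]; simpa using h4
  · exact top_of_cd hs H

/-- a Schur step with cyclic complement -/
def CS (r : ℕ) (g : End K V) (t : K → Prop) : Prop :=
  ∃ (ρ : End K V) (_ : ρ * ρ = ρ) (h : ρ * g * ρ = ρ) (e : V) (_ : ρ e = e) (x : LinearMap.ker ρ),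
    (x : V) = g e - e ∧ r ≤ finrank K (LinearMap.range ρ) ∧ CycV (schur h) x ∧
      t (LinearMap.trace K _ (schur h))

theorem exists_step (he : CycV g e) (hn : 2 ≤ finrank K V) (c : K) : ∃ (φ : Dual K V) (_ : φ e = 1)
    (h2 : φ (g e) = 1), 3 ≤ finrank K V → LinearMap.trace K _ (schur (rho_g h2)) = c := by
  obtain ⟨φ, hφ⟩ := he.exists_phi fun i => if i ≤ 1 then 1 else LinearMap.trace K V g - c
  refine ⟨φ, by simpa using hφ 0 (by omega), by simpa using hφ 1 (by omega), fun h => ?_⟩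
  rw [trace_schur, trace_rho, show φ (g (g e)) = _ by simpa [sq] using hφ 2 (by omega)]; simp

theorem cs_one (he : CycV g e) (hn : 2 ≤ finrank K V) (c : K) : CS 1 g fun t => 3 ≤ finrank K V → t = c := by
  obtain ⟨φ, h1, h2, h3⟩ := exists_step he hn c
  exact ⟨_, rho_sq h1, rho_g h2, e, by simp [h1], ⟨g e - e, (mem_ker_rho h1).2 (by simp [h1, h2])⟩, rfl,
    (finrank_range_rho h1).ge, cyc_step he h1 h2 rfl, h3⟩

theorem cs_two (he : CycV g e) (hn : 4 ≤ finrank K V) (c : K) : CS 2 g fun t => 5 ≤ finrank K V → t = c := by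
  obtain ⟨φ, hφ⟩ := he.exists_phi fun i => if i ≤ 1 then 1 else 0
  obtain ⟨ψ, hψ⟩ := he.exists_phi fun i => if i ≤ 1 then 0 else if i ≤ 3 then 1 else LinearMap.trace K V g - c
  have a0 : φ e = 1 := by simpa using hφ 0 (by omega)
  have a1 : φ (g e) = 1 := by simpa using hφ 1 (by omega)
  have a2 : φ (g (g e)) = 0 := by simpa [pow_succ] using hφ 2 (by omega)
  have a3 : φ (g (g (g e))) = 0 := by simpa [pow_succ] using hφ 3 (by omega)
  have b0 : ψ e = 0 := by simpa using hψ 0 (by omega)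
  have b1 : ψ (g e) = 0 := by simpa using hψ 1 (by omega)
  have b2 : ψ (g (g e)) = 1 := by simpa [pow_succ] using hψ 2 (by omega)
  have b3 : ψ (g (g (g e))) = 1 := by simpa [pow_succ] using hψ 3 (by omega)
  let ρ : End K V := φ.smulRight e + ψ.smulRight (g (g e))
  have h1 : ρ * ρ = ρ := by ext; simp [ρ, a0, a2, b0, b2]
  have h2 : ρ * g * ρ = ρ := by ext; simp [ρ, a1, a3, b1, b3]
  have e0 : ρ e = e := by simp [ρ, a0, b0]
  refine ⟨ρ, h1, h2, e, e0, ⟨g e - e, by simp [ρ, a0, a1, b0, b1]⟩, rfl, ?_,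
    cyc_schur h1 h2 he e0 fun S p q v => ⟨_, sub_mem (smul_mem _ (φ v) p) (smul_mem _ (ψ v) (q _ p)), ?_⟩,
    fun h => ?_⟩
  · have li : LinearIndependent K ![(⟨e, e, e0⟩ : LinearMap.range ρ), ⟨g (g e), g (g e), by simp [ρ, a2, b2]⟩] :=
      LinearIndependent.pair_iff.2 fun s t h => by
        have h := congrArg Subtype.val h
        exact ⟨by simpa [a0, a2] using congrArg φ h, by simpa [b0, b2] using congrArg ψ h⟩
    simpa using li.fintype_card_le_finrank
  · simp [schur_apply, ρ, a1, a2, b1, b2]; module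
  · rw [trace_schur, mul_add, add_mul, map_add, trace_rho, trace_rho, a2,
      show ψ (g (g (g (g e)))) = _ by simpa [pow_succ] using hψ 4 (by omega)]; simp

theorem CS.us {t : K → Prop} (h : CS r g t) (hd : LinearMap.det g = 1)
    (H : (∀ c, t c → c ≠ 2) ∨ ∃ c : K, c ≠ 0 ∧ c ≠ 1) : US r g := by
  obtain ⟨ρ, h1, h2, -, -, x, -, h3, h4, h5⟩ := h
  have d := (det_schur h1 h2).trans hd
  exact ⟨ρ, h1, h2, h3, H.elim (fun H => u0_cyc h4 d fun _ => .inl (H _ h5))
    fun ⟨_, c0, c1⟩ => u0_cyc3 c0 c1 h4 d⟩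

theorem us_cyc (he : CycV g e) (hd : LinearMap.det g = 1) (hn : 1 ≤ finrank K V) : US 1 g := by
  by_cases h : finrank K V ≤ 2
  · obtain ⟨φ, hφ⟩ := he.exists_phi fun _ => 1
    have h1 : φ e = 1 := by simpa using hφ 0 (by omega)
    have h2 : φ (g e) = 1 := by
      by_cases h : finrank K V ≤ 1
      · rwa [eq_one_of_le_one h hd]
      · simpa using hφ 1 (by omega)
    exact ⟨_, rho_sq h1, rho_g h2, (finrank_range_rho h1).ge,
      u0_le_one (by have := finrank_ker_rho h1; omega) ((det_schur (rho_sq h1) _).trans hd)⟩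
  · exact (cs_one he (by omega) 3).us hd (.inl fun c hc => by
      rw [hc (by omega)]; exact fun h => one_ne_zero (α := K) (by linear_combination h))

theorem glue {c : K} (c0 : c ≠ 0) (c1 : c ≠ 1) {t : K → Prop} (h : CS r g t) {e' : W} (he : CycV g' e')
    (hn : 1 ≤ finrank K W) (hd : LinearMap.det g * LinearMap.det g' = 1) :
    US r (g.prodMap g' : End K (V × W)) := by
  obtain ⟨ρ, h1, h2, e, e0, x, hx, h3, h4, -⟩ := h
  have p1 : ∀ v, ρ (ρ v) = ρ v := LinearMap.congr_fun h1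
  have p2 : ∀ v, ρ (g (ρ v)) = ρ v := LinearMap.congr_fun h2
  have p3 : ρ (g e) = e := by rw [← e0, p2]
  obtain ⟨y, hy⟩ := he.exists_phi fun i => if i + 1 < finrank K W then 0 else 1
  obtain ⟨B, rfl⟩ := (LinearMap.isUnit_iff_isUnit_det g').2
    (isUnit_iff_ne_zero.2 (right_ne_zero_of_mul_eq_one hd))
  let ψ : Dual K W := y ∘ₗ (B⁻¹ : (End K W)ˣ)
  have hψ : ∀ w, ψ (B.1 w) = y w := fun w => congrArg y (LinearMap.congr_fun B.inv_mul w)
  let σ : End K (V × W) := LinearMap.inl K V W ∘ₗ (ρ ∘ₗ LinearMap.fst K V W + (ψ ∘ₗ LinearMap.snd K V W).smulRight e)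
  have hσ : ∀ z, σ z = (ρ z.1 + ψ z.2 • e, 0) := fun _ => rfl
  have q1 : σ * σ = σ := LinearMap.ext fun z => by simp [hσ, p1, e0]
  have q2 : σ * g.prodMap B.1 * σ = σ := LinearMap.ext fun z => by simp [hσ, p2, p3]
  let i : LinearMap.ker ρ →ₗ[K] LinearMap.ker σ := (LinearMap.inl K V W ∘ₗ (LinearMap.ker ρ).subtype).codRestrict _
    fun v => by simp [hσ, LinearMap.mem_ker.1 v.2]
  let j : W →ₗ[K] LinearMap.ker σ := (LinearMap.prod (-ψ.smulRight e) LinearMap.id).codRestrict _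
    fun w => by simp [hσ, e0]
  have i0 : ∀ v, (i v).1 = (v.1, 0) := fun _ => rfl
  have j0 : ∀ w, (j w).1 = (-(ψ w • e), w) := fun _ => rfl
  have hi : ∀ v, schur q2 (i v) = i (schur h2 v) := fun v => Subtype.ext (by simp [i0, schur_apply, hσ])
  have hj : ∀ w, schur q2 (j w) = j (B.1 w) - y w • i x := fun w => Subtype.ext (by
    simp [i0, j0, schur_apply, hσ, hψ, hx, p3]; module)
  refine ⟨σ, q1, q2, h3.trans ((finrank_mono ?_).trans (finrank_map_le (LinearMap.fst K V W) _)),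
    u0_cyc3 c0 c1 (e := j e') (fun S s1 s2 => ?_) (by rw [det_schur q1, det_prod, hd])⟩
  · rintro _ ⟨v, rfl⟩
    exact ⟨_, ⟨(v, 0), rfl⟩, by simp [hσ]⟩
  have k1 : ∀ k < finrank K W, j ((B.1 ^ k) e') ∈ S := fun k hk => by
    induction k with
    | zero => simpa
    | succ k ih => simpa [hj, hy k (by omega), hk, pow_succ'] using s2 _ (ih (by omega))
  have k2 : ∀ w, j w ∈ S := fun w => by
    have : Nonempty (Fin (finrank K W)) := ⟨⟨0, hn⟩⟩
    have := (he.li _ le_rfl).span_eq_top_of_card_eq_finrank (by simp)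
    exact (span_le (p := S.comap j)).2 (by rintro _ ⟨k, rfl⟩; exact k1 _ k.2) (this.ge mem_top)
  have k3 : i x ∈ S := by
    simpa [hj, hy _ (Nat.sub_one_lt (by omega)), Nat.sub_add_cancel hn] using
      sub_mem (k2 (B.1 ((B.1 ^ (finrank K W - 1)) e'))) (s2 _ (k2 ((B.1 ^ (finrank K W - 1)) e')))
  have k4 := h4 (S.comap i) k3 fun v hv => by simpa [hi] using s2 _ hv
  refine top_unique fun z _ => ?_
  have hz : ρ z.1.1 + ψ z.1.2 • e = 0 := congrArg Prod.fst (LinearMap.mem_ker.1 z.2)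
  have : z = i ⟨z.1.1 + ψ z.1.2 • e, by simpa [e0] using hz⟩ + j z.1.2 := Subtype.ext (by simp [i0, j0])
  exact this ▸ add_mem (k4.ge mem_top) (k2 _)

/-- commutator data of determinant one -/
def W0 (g : End K V) : Prop := ∃ a, CD g a ∧ LinearMap.det a = 1

theorem U0.w0 (h : U0 g) : W0 g := h.imp fun _ h => ⟨h.1, det_unip h.2⟩

omit [FiniteDimensional K V] in
theorem Top.w0 (h : Top g) : W0 g := h.imp fun _ h => ⟨h.1, h.2.1⟩

omit [FiniteDimensional K V] [FiniteDimensional K W] in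
theorem W0.of_sim (h : W0 g) (s : Sim g g') : W0 g' := by
  obtain ⟨a, h1, h2⟩ := h
  obtain ⟨a', h4, h5⟩ := h1.of_sim s
  exact ⟨a', h4, h5.det_eq ▸ h2⟩

theorem Top.prod (h : Top g) (h' : W0 g') : Top (g.prodMap g' : End K (V × W)) := by
  obtain ⟨a, h1, h2, h3⟩ := h
  obtain ⟨a', h4, h5⟩ := h'
  exact ⟨_, h1.prod h4, by rw [det_prod, h2, h5, one_mul], h3.prod _⟩

omit [FiniteDimensional K V] [FiniteDimensional K W] in
theorem sim_swap (g : End K V) (g' : End K W) :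
    Sim (g.prodMap g' : End K (V × W)) (g'.prodMap g : End K (W × V)) :=
  ⟨LinearEquiv.prodComm K V W, fun _ => rfl⟩

theorem W0.prod_top (h : W0 g) (h' : Top g') : Top (g.prodMap g' : End K (V × W)) :=
  (h'.prod h).of_sim (sim_swap _ _)

open Matrix in
theorem cd_matrix' {n : ℕ} {M a u u' v v' : Matrix (Fin n) (Fin n) K} (h1 : u * u' = 1) (h2 : v * v' = 1)
    (h3 : M * (v * a * v') = u * a * u') : ∃ b, CD (toLin' M) b ∧ Sim (toLin' a) b := by
  have key : ∀ {u u' : Matrix (Fin n) (Fin n) K}, u * u' = 1 → Sim (toLin' a) (toLin' (u * a * u')) :=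
    fun {u u'} h => isConj_matrix_iff.1 ⟨⟨u, u', h, mul_eq_one_comm.1 h⟩, by
      change u * a = u * a * u' * u
      rw [Matrix.mul_assoc _ u', mul_eq_one_comm.1 h, Matrix.mul_one]⟩
  exact ⟨_, ⟨_, by rw [End.mul_eq_comp, ← toLin'_mul, h3], (key h1).symm.trans (key h2)⟩, key h1⟩

end CA.Lev
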