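import Cfsg.Agent.Lib.Lin.MaxTv

/-! Transport of overgroup statements; maximality of subfield groups in `SL`. -/

namespace CA.MaxL1

open Cfsg Cfsg.Geo Matrix CA.AschBase CA.AschKron CA.AschFF CA.AschField CA.AschProp CA.AschProp2
  CA.AschDesc CA.AschFG CA.AschSL CA.MaxTv Module
open scoped MatrixGroups

variable {ι : Type} [Fintype ι] [DecidableEq ι] {F : Type*} [Field F]
variable {κ : Type} [Fintype κ] [DecidableEq κ]
variable {X : Subgroup (GL ι F)}

theorem trGL_mem_SL (e : ι ≃ κ) (P : GL ι F) {g : GL κ F} :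
    trGL e P g ∈ specialLinear ι F ↔ g ∈ specialLinear κ F := by
  rw [mem_SL, mem_SL, coe_trGL, det_tr]

theorem over_tr (e : ι ≃ κ) (P : GL ι F) {M : Subgroup (GL ι F)}
    (h : ∀ Y : Subgroup (GL κ F), (∀ g ∈ specialLinear κ F, trGL e P g ∈ M → g ∈ Y) →
      (∀ g ∈ Y, trGL e P g ∈ M) ∨ specialLinear κ F ≤ Y) (hX : M ⊓ specialLinear ι F ≤ X) :
    X ≤ M ∨ specialLinear ι F ≤ X := by
  refine (h (X.comap (trGL e P).toMonoidHom) fun g h1 h2 =>
    hX ⟨h2, (trGL_mem_SL e P).2 h1⟩).imp (fun h g hg => ?_) fun h g hg => ?_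
  · simpa using h ((trGL e P).symm g) (by simpa using hg)
  · simpa using h ((trGL_mem_SL e P (g := (trGL e P).symm g)).1 (by simpa using hg))

omit [DecidableEq ι] in
/-- counting fixed points of a transvection on an invariant set -/
theorem card_modEq [Finite F] (p : ℕ) [Fact p.Prime] [CharP F p] {Ω : Set (ι → F)} {u : ι → F}
    {ψ : Dual F (ι → F)} (h0 : ψ u = 0) (h : ∀ v ∈ Ω, v + ψ v • u ∈ Ω) :
    Nat.card Ω ≡ Nat.card {v | v ∈ Ω ∧ ψ v • u = 0} [MOD p] := by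
  classical
  have := Fintype.ofFinite Ω
  let f : Function.End Ω := fun v => ⟨v.1 + ψ v.1 • u, h _ v.2⟩
  have hf : ∀ (n : ℕ) (v : Ω), ((f ^ n) v).1 = v.1 + ((n : F) * ψ v.1) • u := fun n v => by
    induction n with
    | zero => simp; rfl
    | succ n ih =>
      rw [pow_succ']
      change ((f ^ n) v).1 + ψ ((f ^ n) v).1 • u = _
      rw [ih]; simp [h0]; module
  have h1 := Equiv.Perm.card_fixedPoints_modEq (f := f) (p := p) (n := 1)
    (funext fun v => Subtype.ext (by rw [hf]; simp; rfl))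
  rw [← Nat.card_eq_fintype_card, ← Nat.card_eq_fintype_card] at h1
  refine h1.trans ?_
  rw [Nat.card_congr (β := {v | v ∈ Ω ∧ ψ v • u = 0})
    ⟨fun v => ⟨v.1.1, v.1.2, by simpa [f] using congrArg Subtype.val v.2⟩,
      fun v => ⟨⟨v.1, v.2.1⟩, Subtype.ext (by simp [f, v.2.2])⟩, fun _ => rfl, fun _ => rfl⟩]

/-- two opposite transvections generate an element moving one centre to the other -/
theorem exists_move [Finite F] {a u : ι → F} {χ ψ : Dual F (ι → F)} (hs : Tv X a χ)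
    (ht : Tv X u ψ) (h1 : χ a = 0) (h2 : ψ u = 0) (h3 : χ u ≠ 0) (h4 : ψ a ≠ 0) :
    ∃ k ∈ X, ∃ μ : F, μ ≠ 0 ∧ (k : Matrix ι ι F) *ᵥ u = μ • a ∧
      ∀ z, χ z = 0 → ψ z = 0 → (k : Matrix ι ι F) *ᵥ z = z := by
  obtain ⟨p, hp⟩ := CharP.exists F
  have := Fintype.ofFinite F
  obtain ⟨n, hpp, hn⟩ := FiniteField.card F p
  have := Fact.mk hpp
  have hu0 : u ≠ 0 := fun h => h3 (by simp [h])
  have ha0 : a ≠ 0 := fun h => h4 (by simp [h])
  let Ω : Set (ι → F) := {v | (∃ x y : F, v = x • a + y • u) ∧ ∃ k ∈ X, ∃ μ : F,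
    v = μ • (k : Matrix ι ι F) *ᵥ u ∧ ∀ z, χ z = 0 → ψ z = 0 → (k : Matrix ι ι F) *ᵥ z = z}
  have e1 := card_modEq p (Ω := Ω) h1 <| by
    rintro v ⟨⟨x, y, hv⟩, k, hk, μ, h5, h6⟩
    obtain ⟨s, hs, hs'⟩ := hs
    refine ⟨⟨x + χ v, y, by rw [hv]; module⟩, s * k, X.mul_mem hs hk, μ, ?_, fun z a b => ?_⟩
    · rw [Units.val_mul, ← mulVec_mulVec, ← mulVec_smul, ← h5, hs']
    · rw [Units.val_mul, ← mulVec_mulVec, h6 z a b, hs']; simp [a]
  have e2 := card_modEq p (Ω := Ω) h2 <| by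
    rintro v ⟨⟨x, y, hv⟩, k, hk, μ, h5, h6⟩
    obtain ⟨s, hs, hs'⟩ := ht
    refine ⟨⟨x, y + ψ v, by rw [hv]; module⟩, s * k, X.mul_mem hs hk, μ, ?_, fun z a b => ?_⟩
    · rw [Units.val_mul, ← mulVec_mulVec, ← mulVec_smul, ← h5, hs']
    · rw [Units.val_mul, ← mulVec_mulVec, h6 z a b, hs']; simp [b]
  have e3 : {v | v ∈ Ω ∧ ψ v • u = 0} = Set.range fun c : F => c • u := by
    ext v
    constructor
    · rintro ⟨⟨⟨x, y, rfl⟩, -⟩, h⟩
      have : x = 0 := by simpa [hu0, h2, h4] using h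
      exact ⟨y, by simp [this]⟩
    · rintro ⟨c, rfl⟩
      exact ⟨⟨⟨0, c, by simp⟩, 1, X.one_mem, c, by simp, by simp⟩, by simp [h2]⟩
  rw [e3, Nat.card_range_of_injective (smul_left_injective F hu0), Nat.card_eq_fintype_card (α := F),
    hn] at e2
  by_contra h
  have e4 : {v | v ∈ Ω ∧ χ v • a = 0} = {0} := by
    ext v
    constructor
    · rintro ⟨⟨⟨x, y, rfl⟩, k, hk, μ, h5, h6⟩, h7⟩
      have : y = 0 := by simpa [ha0, h1, h3] using h7
      by_contra h8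
      rw [this, zero_smul, add_zero] at h5 h8
      have hμ : μ ≠ 0 := by rintro rfl; exact h8 (by simpa using h5)
      refine h ⟨k, hk, μ⁻¹ * x, mul_ne_zero (inv_ne_zero hμ) (by rintro rfl; simp at h8), ?_, h6⟩
      rw [mul_smul, h5, inv_smul_smul₀ hμ]
    · rintro rfl
      exact ⟨⟨⟨0, 0, by simp⟩, 1, X.one_mem, 0, by simp, by simp⟩, by simp⟩
  rw [e4, Nat.card_unique (α := ({0} : Set (ι → F)))] at e1
  have := (e1.symm.trans e2).trans (Nat.modEq_zero_iff_dvd.2 (dvd_pow_self p n.ne_zero))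
  exact hpp.one_lt.ne' (Nat.dvd_one.1 (Nat.modEq_zero_iff_dvd.1 this))

theorem exists_third (hn : 3 ≤ Fintype.card ι) (i j : ι) : ∃ k, k ≠ i ∧ k ≠ j := by
  by_contra h
  push Not at h
  have : (Finset.univ : Finset ι) ⊆ {i, j} := fun k _ => by
    by_cases hk : k = i
    · simp [hk]
    · simp [h k hk]
  have := (Finset.card_le_card this).trans Finset.card_le_two
  rw [Finset.card_univ] at this; omega

theorem exists_fourth (hn : 4 ≤ Fintype.card ι) (i j l : ι) : ∃ k, k ≠ i ∧ k ≠ j ∧ k ≠ l := by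
  by_contra h
  push Not at h
  have : (Finset.univ : Finset ι) ⊆ {i, j, l} := fun k _ => by
    by_cases hk : k = i
    · simp [hk]
    by_cases hk' : k = j
    · simp [hk']
    · simp [h k hk hk']
  have := (Finset.card_le_card this).trans Finset.card_le_three
  rw [Finset.card_univ] at this; omega

/-- coordinate functional -/
abbrev pj (i : ι) : Dual F (ι → F) := LinearMap.proj i

/-- basis vector -/
abbrev ev (i : ι) : ι → F := Pi.single i 1

theorem dual_eq_sum (φ : Dual F (ι → F)) (v : ι → F) : φ v = ∑ i, v i * φ (ev i) := by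
  conv_lhs => rw [pi_eq_sum_univ' v]
  simp [map_sum]

theorem SL_le_of_tv' (h : ∀ i j, i ≠ j → ∀ c : F, Tv X (ev i) (c • pj j)) :
    specialLinear ι F ≤ X :=
  SL_le_of_tv fun i j hij c => by
    have := tv_smul.2 (h i j hij c)
    rwa [← Pi.single_smul', smul_eq_mul, mul_one] at this

theorem top_of_prime [Fintype F] {F₀ : Subfield F} {r : ℕ} (hr : r.Prime)
    (hF : Fintype.card F = Nat.card F₀ ^ r) {S : Set F} (h1 : ∀ a ∈ F₀, a ∈ S)
    (h2 : ∀ a b, a ∈ S → b ∈ S → a + b ∈ S) (h3 : ∀ a b, a ∈ S → b ∈ S → a * b ∈ S) {c : F}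
    (hc : c ∉ F₀) (hc' : c ∈ S) (x : F) : x ∈ S := by
  let R : Subalgebra F₀ F :=
    { carrier := S
      mul_mem' := h3 _ _
      add_mem' := h2 _ _
      algebraMap_mem' a := h1 _ a.2 }
  have := Subalgebra.isSimpleOrder_of_finrank_prime F₀ F (finrank_subfield_eq F₀ hF ▸ hr)
  rcases eq_bot_or_eq_top R with e | e
  · obtain ⟨a, rfl⟩ := Algebra.mem_bot.1 (e ▸ hc' : c ∈ (⊥ : Subalgebra F₀ F))
    exact absurd a.2 hc
  · exact (e ▸ Algebra.mem_top : x ∈ R)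

section Sub
variable {F₀ : Subfield F}

/-- rational vectors -/
def Rv (F₀ : Subfield F) (v : ι → F) : Prop := ∀ i, v i ∈ F₀
/-- rational functionals -/
def Rd (F₀ : Subfield F) (φ : Dual F (ι → F)) : Prop := ∀ i, φ (ev i) ∈ F₀

omit [Fintype ι] in
theorem rv_ev (i : ι) : Rv F₀ (ev i : ι → F) := fun j => by
  by_cases h : j = i <;> simp [h, F₀.one_mem, F₀.zero_mem]

omit [Fintype ι] in
theorem rd_pj (i : ι) : Rd F₀ (pj i : Dual F (ι → F)) := fun j => rv_ev j i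

omit [Fintype ι] [DecidableEq ι] in
theorem Rv.smul {v : ι → F} (h : Rv F₀ v) {c : F} (hc : c ∈ F₀) : Rv F₀ (c • v) :=
  fun i => F₀.mul_mem hc (h i)

omit [Fintype ι] [DecidableEq ι] in
theorem Rv.sub {v w : ι → F} (h : Rv F₀ v) (h' : Rv F₀ w) : Rv F₀ (v - w) :=
  fun i => F₀.sub_mem (h i) (h' i)

omit [Fintype ι] in
theorem Rd.smul {v : Dual F (ι → F)} (h : Rd F₀ v) {c : F} (hc : c ∈ F₀) : Rd F₀ (c • v) :=
  fun i => F₀.mul_mem hc (h i)

omit [Fintype ι] in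
theorem Rd.sub {v w : Dual F (ι → F)} (h : Rd F₀ v) (h' : Rd F₀ w) : Rd F₀ (v - w) :=
  fun i => F₀.sub_mem (h i) (h' i)

theorem Rd.apply {φ : Dual F (ι → F)} (h : Rd F₀ φ) {v : ι → F} (hv : Rv F₀ v) : φ v ∈ F₀ := by
  rw [dual_eq_sum]
  exact F₀.sum_mem fun i _ => F₀.mul_mem (hv i) (h i)

theorem entry_of_tv {g : GL ι F} {v : ι → F} {φ : Dual F (ι → F)}
    (h : ∀ x, (g : Matrix ι ι F) *ᵥ x = x + φ x • v) (i j : ι) :
    (g : Matrix ι ι F) i j = (ev j : ι → F) i + φ (ev j) * v i := by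
  simpa using congrFun (h (ev j)) i

variable (hX : ∀ g ∈ specialLinear ι F, Ent F₀ (g : Matrix ι ι F) → g ∈ X)
include hX

theorem tv_rat {v : ι → F} {φ : Dual F (ι → F)} (hv : Rv F₀ v) (hφ : Rd F₀ φ) (h : φ v = 0) :
    Tv X v φ := by
  obtain ⟨g, hg, e⟩ := tv_SL h
  refine ⟨g, hX g hg fun i j => ?_, e⟩
  rw [entry_of_tv e]
  exact F₀.add_mem (rv_ev j i) (F₀.mul_mem (hφ j) (hv i))

variable [Fintype F] {r : ℕ} (hr : r.Prime) (hF : Fintype.card F = Nat.card F₀ ^ r)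
  (hn : 3 ≤ Fintype.card ι)
include hr hF hn

theorem SL_le_of_elem {i₀ j₀ : ι} (hij : i₀ ≠ j₀) {c : F} (hc : c ∉ F₀)
    (h₀ : Tv X (ev i₀) (c • pj j₀)) : specialLinear ι F ≤ X := by
  have l : ∀ {i j : ι} {c : F}, Tv X (ev i) (c • pj j) → ∀ k, k ≠ i → k ≠ j →
      Tv X (ev i) (c • pj k) := fun {i j c} h k h1 h2 => by
    simpa using h.comm (tv_rat hX (rv_ev j) (rd_pj k) (by simp [h2])) (by simp [h2]) (by simp [h1])
  have r : ∀ {i j : ι} {c : F}, i ≠ j → Tv X (ev i) (c • pj j) → ∀ k, k ≠ i → k ≠ j →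
      Tv X (ev k) (c • pj j) := fun {i j c} h0 h k h1 h2 => by
    simpa using (tv_rat hX (rv_ev k) (rd_pj i) (by simp [h1.symm])).comm h (by simp [h0.symm])
      (by simp [h2.symm])
  have l' : ∀ {i j : ι} {c : F}, Tv X (ev i) (c • pj j) → ∀ k, k ≠ i → Tv X (ev i) (c • pj k) :=
    fun {i j c} h k h1 => by
      by_cases h2 : k = j
      · rwa [h2]
      · exact l h k h1 h2
  have r' : ∀ {i j : ι} {c : F}, i ≠ j → Tv X (ev i) (c • pj j) → ∀ k, k ≠ j →
      Tv X (ev k) (c • pj j) := fun {i j c} h0 h k h1 => by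
    by_cases h2 : k = i
    · rwa [h2]
    · exact r h0 h k h2 h1
  refine SL_le_of_tv' fun i j h c' => top_of_prime hr hF
    (S := {c | ∀ i j, i ≠ j → Tv X (ev i) (c • pj j)}) (fun a ha i j h => ?_)
    (fun a b ha hb i j h => ?_) (fun a b ha hb i j h => ?_) hc (fun k l hkl => ?_) c' i j h
  · exact tv_rat hX (rv_ev i) ((rd_pj j).smul ha) (by simp [h.symm])
  · rw [add_smul]; exact (ha i j h).add_right (hb i j h) (by simp [h.symm])
  · obtain ⟨k, h1, h2⟩ := exists_third hn i j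
    simpa [mul_smul] using (ha i k h1.symm).comm (hb k j h2) (by simp [h2.symm]) (by simp [h.symm])
  · obtain ⟨m, h1, h2⟩ := exists_third hn j₀ l
    exact r' h2 (l' (r' hij h₀ m h1) l h2.symm) k hkl

theorem SL_le_of_rv {b : ι → F} (hb : Rv F₀ b) (hb0 : b ≠ 0) {φ : Dual F (ι → F)} (h : Tv X b φ)
    (h0 : φ b = 0) (hφ : ¬ Rd F₀ φ) : specialLinear ι F ≤ X := by
  obtain ⟨j, hj⟩ := not_forall.1 hφ
  obtain ⟨l, hl, hl'⟩ : ∃ l, l ≠ j ∧ b l ≠ 0 := by
    by_contra h1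
    push Not at h1
    have e : b = b j • ev j := by ext i; by_cases hi : i = j <;> simp [hi, h1]
    rw [e, map_smul, smul_eq_zero] at h0
    exact h0.elim (fun h => hb0 (by rw [e, h, zero_smul])) fun h => hj (h ▸ F₀.zero_mem)
  obtain ⟨m, h1, h2⟩ := exists_third hn j l
  have a1 := h.comm (tv_rat hX (rv_ev j) (((rd_pj m).smul (hb l)).sub ((rd_pj l).smul (hb m)))
    (by simp [h1, hl])) (by simp [h1, hl]) (by simp [mul_comm])
  have a2 := (tv_rat hX (rv_ev j) ((rd_pj l).smul (F₀.inv_mem (hb l))) (by simp [hl])).comm a1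
    (by simp [mul_comm]) (by simp [h1, hl])
  have a3 := a2.comm (tv_rat hX (rv_ev m) ((rd_pj l).smul (F₀.inv_mem (hb l))) (by simp [h2.symm]))
    (by simp [h2.symm]) (by simp [hl])
  refine SL_le_of_elem hX hr hF hn hl.symm hj ?_
  convert a3 using 1
  simp [h2.symm, smul_smul, hl']

theorem SL_le_of_rd {χ : Dual F (ι → F)} (hχ : Rd F₀ χ) (hχ0 : χ ≠ 0) {v : ι → F} (h : Tv X v χ)
    (h0 : χ v = 0) (hv : ¬ Rv F₀ v) : specialLinear ι F ≤ X := by
  obtain ⟨j, hj⟩ := not_forall.1 hv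
  obtain ⟨a, a1, a2, a3, a4⟩ : ∃ a, Rv F₀ a ∧ a ≠ 0 ∧ a j = 0 ∧ χ a = 0 := by
    obtain ⟨l, h1, -⟩ := exists_third hn j j
    obtain ⟨m, h2, h3⟩ := exists_third hn j l
    by_cases h4 : χ (ev l) = 0
    · exact ⟨ev l, rv_ev l, by simp, by simp [h1.symm], h4⟩
    · exact ⟨χ (ev l) • ev m - χ (ev m) • ev l, ((rv_ev m).smul (hχ l)).sub ((rv_ev l).smul (hχ m)),
        fun h => h4 (by simpa [h3] using congrFun h m), by simp [h1.symm, h2.symm],
        by simp [mul_comm]⟩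
  refine SL_le_of_rv hX hr hF hn a1 a2 ((tv_rat hX a1 (rd_pj j) a3).comm h h0 a4) (by simp [a4])
    fun h => ?_
  obtain ⟨i, hi⟩ : ∃ i, χ (ev i) ≠ 0 := by
    by_contra h1
    push Not at h1
    exact hχ0 (LinearMap.ext fun v => by rw [dual_eq_sum χ]; simp [h1])
  exact hj (by simpa [hi] using F₀.div_mem (h i) (hχ i))

theorem exists_rat_ker (hn4 : 4 ≤ Fintype.card ι) (H : ¬ specialLinear ι F ≤ X) {u : ι → F}
    {ψ : Dual F (ι → F)} (h : Tv X u ψ) (h0 : ψ u = 0) (hu : u ≠ 0) :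
    ∃ b, Rv F₀ b ∧ b ≠ 0 ∧ ψ b = 0 := by
  by_contra hb
  push Not at hb
  obtain ⟨i, hi⟩ := Function.ne_iff.1 hu
  obtain ⟨j, hj, -⟩ := exists_third hn i i
  obtain ⟨l, hl, hl'⟩ := exists_third hn i j
  obtain ⟨m, hm, hm', hm''⟩ := exists_fourth hn4 i j l
  have key : ∀ j, j ≠ i → ∃ k ∈ X, ∃ μ β : F, μ ≠ 0 ∧ β ≠ 0 ∧ (k : Matrix ι ι F) *ᵥ u = μ • ev j ∧
      (∀ z, z i = 0 → ψ z = 0 → (k : Matrix ι ι F) *ᵥ z = z) ∧
      ∀ z, ((k : Matrix ι ι F) *ᵥ z) i = β * ψ z := fun j hj => by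
    have h4 := hb _ (rv_ev j) (by simp)
    obtain ⟨k, hk, μ, h1, h2, h3⟩ := exists_move (tv_rat hX (rv_ev j) (rd_pj i) (by simp [hj.symm]))
      h (by simp [hj.symm]) h0 hi h4
    have e : ∀ z, ((k : Matrix ι ι F) *ᵥ z) i = ((k : Matrix ι ι F) *ᵥ ev j) i / ψ (ev j) * ψ z :=
      fun z => by
      have a1 := congrFun (h3 (z - (ψ z / ψ (ev j)) • ev j - (z i / u i) • u)
        (by simp [hj.symm, show u i ≠ 0 from hi]) (by simp [h4, h0])) i
      rw [mulVec_sub, mulVec_sub, mulVec_smul, mulVec_smul, h2] at a1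
      simp only [Pi.sub_apply, Pi.smul_apply, smul_eq_mul, Pi.single_eq_of_ne hj.symm,
        div_mul_cancel₀ _ (show u i ≠ 0 from hi)] at a1
      linear_combination a1
    refine ⟨k, hk, μ, _, h1, fun h5 => ?_, h2, h3, e⟩
    have := e (((k⁻¹ : GL ι F) : Matrix ι ι F) *ᵥ ev i)
    rw [h5, mulVec_inv_mulVec] at this; simp at this
  obtain ⟨k, hk, μ, β, h1, h2, h3, h4, h5⟩ := key j hj
  obtain ⟨k', hk', μ', β', h1', h2', h3', h4', h5'⟩ := key l hl
  have hj0 := hb _ (rv_ev j) (by simp)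
  have e1 : ((k⁻¹ : GL ι F) : Matrix ι ι F) *ᵥ ev j = μ⁻¹ • u := by
    rw [eq_inv_smul_iff₀ h1, ← mulVec_smul, ← h3, inv_mulVec_mulVec]
  have e2 : ((k⁻¹ : GL ι F) : Matrix ι ι F) *ᵥ (ev m - (ψ (ev m) / ψ (ev j)) • ev j) =
      ev m - (ψ (ev m) / ψ (ev j)) • ev j := by
    rw [← h4 (ev m - (ψ (ev m) / ψ (ev j)) • ev j) (by simp [hj.symm, hm.symm]) (by simp [hj0]),
      inv_mulVec_mulVec, h4 _ (by simp [hj.symm, hm.symm]) (by simp [hj0])]
  have e3 : ((k' * k⁻¹ : GL ι F) : Matrix ι ι F) *ᵥ ev m = ev m - (ψ (ev m) / ψ (ev j)) • ev j +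
      (ψ (ev m) / ψ (ev j) * μ⁻¹ * μ') • ev l := by
    conv_lhs => rw [← sub_add_cancel (ev m) ((ψ (ev m) / ψ (ev j)) • ev j)]
    rw [Units.val_mul, ← mulVec_mulVec, mulVec_add, e2, mulVec_smul, e1, mulVec_add,
      h4' _ (by simp [hj.symm, hm.symm]) (by simp [hj0]), mulVec_smul, mulVec_smul, h3', smul_smul,
      smul_smul]
  have a1 := (tv_rat hX (rv_ev m) (rd_pj i) (by simp [hm.symm])).conj (ψ := (β / β') • pj i)
    (act_self (X.mul_mem hk' (X.inv_mem hk))) fun x => by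
      have := h5 (((k⁻¹ : GL ι F) : Matrix ι ι F) *ᵥ x)
      rw [mulVec_inv_mulVec] at this
      rw [Units.val_mul, ← mulVec_mulVec]
      simp only [LinearMap.smul_apply, LinearMap.proj_apply, h5', this, smul_eq_mul]
      field_simp
  simp only [e3] at a1
  have a2 := not_not.1 (mt (SL_le_of_rd hX hr hF hn (rd_pj i)
    (fun h => by simpa using LinearMap.congr_fun h (ev i)) (tv_smul.2 a1)
    (by simp [hj.symm, hm.symm, hl.symm])) H)
  have a3 : β / β' ∈ F₀ := by simpa [hm', hm''] using a2 m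
  have a4 := F₀.div_mem (F₀.neg_mem (a2 j)) a3
  simp [hm'.symm, hl'.symm, h2, h2'] at a4
  exact hb _ ((rv_ev m).sub ((rv_ev j).smul a4)) (fun h => by simpa [hm'] using congrFun h m)
    (by simp [hj0])

theorem ent_of_tv (hn4 : 4 ≤ Fintype.card ι) (H : ¬ specialLinear ι F ≤ X) {u : ι → F}
    {ψ : Dual F (ι → F)} (h : Tv X u ψ) (h0 : ψ u = 0) (i j : ι) : ψ (ev j) * u i ∈ F₀ := by
  by_cases hu : u = 0
  · simp [hu, F₀.zero_mem]
  obtain ⟨b, h1, h2, h3⟩ := exists_rat_ker hX hr hF hn hn4 H h h0 hu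
  obtain ⟨l, hl⟩ := Function.ne_iff.1 h2
  have hl : b l ≠ 0 := hl
  have hd : ∀ {φ}, Tv X b φ → φ b = 0 → Rd F₀ φ := fun h h' =>
    by_contra fun h'' => H (SL_le_of_rv hX hr hF hn h1 h2 h h' h'')
  by_cases h4 : ∀ m, b l * u m = b m * u l
  · have e : u = (u l / b l) • b := by
      ext m; have := h4 m; simp only [Pi.smul_apply, smul_eq_mul]; field_simp; linear_combination this
    have := hd (tv_smul.1 (e ▸ h)) (by simp [h3]) j
    rw [e]
    convert F₀.mul_mem this (h1 i) using 1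
    simp only [LinearMap.smul_apply, Pi.smul_apply, smul_eq_mul]; ring
  · obtain ⟨m, hm⟩ := not_forall.1 h4
    have a1 := hd ((tv_rat hX h1 (((rd_pj m).smul (h1 l)).sub ((rd_pj l).smul (h1 m)))
      (by simp [mul_comm])).comm h h0 h3) (by simp [h3])
    set c := (b l • pj m - b m • pj l : Dual F (ι → F)) u
    have hc : c ≠ 0 := sub_ne_zero.2 hm
    by_cases hψ : ψ = 0
    · simp [hψ, F₀.zero_mem]
    have a2 : Rv F₀ (c⁻¹ • u) := by_contra fun h' =>
      H (SL_le_of_rd hX hr hF hn a1 (smul_ne_zero hc hψ)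
        (tv_smul.2 (by rwa [inv_smul_smul₀ hc])) (by simp [h0]) h')
    convert F₀.mul_mem (a1 j) (a2 i) using 1
    simp only [LinearMap.smul_apply, Pi.smul_apply, smul_eq_mul]
    field_simp

omit hn in
theorem over_sub_one (hn4 : 4 ≤ Fintype.card ι) :
    X ≤ subfieldSubgroup F₀ 1 ∨ specialLinear ι F ≤ X := by
  have : Nontrivial ι := Fintype.one_lt_card_iff_nontrivial.1 (by omega)
  refine or_iff_not_imp_right.2 fun H => ?_
  rw [← inv_one]
  refine le_subfieldSubgroup (L := Subgroup.closure (tvSet X)) (top_of_single fun i j hij => ?_)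
    nrm_tvSet fun x hx => ?_
  · obtain ⟨g, hg, e⟩ := tv_rat hX (rv_ev i) (rd_pj j) (by simp [hij.symm])
    have : single i j (1 : F) = g - 1 := by
      ext a b
      rw [Matrix.sub_apply, entry_of_tv e, Matrix.one_apply, Matrix.single_apply]
      by_cases h1 : i = a <;> by_cases h2 : j = b <;> simp [h1, h2, Pi.single_apply, eq_comm]
    rw [this]
    exact sub_mem (coe_mem_alg (Subgroup.subset_closure ⟨hg, _, _, by simp [hij.symm], e⟩))
      (one_mem _)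
  · rw [cj_one]
    induction hx using Subgroup.closure_induction'' with
    | one => exact ent_one F₀
    | mul a b _ _ ha hb => exact ha.mul hb
    | mem a ha =>
      obtain ⟨ha, w, ψ, h0, e⟩ := ha
      intro i j
      rw [entry_of_tv e]
      exact F₀.add_mem (rv_ev j i) (ent_of_tv hX hr hF (by omega) hn4 H ⟨a, ha, e⟩ h0 i j)
    | inv_mem a ha =>
      obtain ⟨ha, w, ψ, h0, e⟩ := ha
      have e' : ∀ x, ((a⁻¹ : GL ι F) : Matrix ι ι F) *ᵥ x = x + (-ψ) x • w := fun x => by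
        apply mulVec_injective_gl a
        change _ = (a : Matrix ι ι F) *ᵥ _
        rw [e]; simp only [mulVec_inv_mulVec]
        simp [h0]
      intro i j
      rw [entry_of_tv e']
      exact F₀.add_mem (rv_ev j i)
        (ent_of_tv hX hr hF (by omega) hn4 H ⟨_, X.inv_mem ha, e'⟩ (by simp [h0]) i j)

end Sub

theorem tr_refl (P : GL ι F) (x : Matrix ι ι F) : tr (Equiv.refl ι) P x = cj P x := rfl

theorem over_sub [Fintype F] {F₀ : Subfield F} {r : ℕ} (hr : r.Prime)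
    (hF : Fintype.card F = Nat.card F₀ ^ r) (hn : 4 ≤ Fintype.card ι) (P : GL ι F)
    (hX : subfieldSubgroup F₀ P ⊓ specialLinear ι F ≤ X) :
    X ≤ subfieldSubgroup F₀ P ∨ specialLinear ι F ≤ X := by
  refine over_tr (Equiv.refl ι) P (fun Y hY => (over_sub_one (fun g h1 h2 => hY g h1 ?_) hr hF
    hn).imp_left fun h g hg => ?_) hX
  · rw [mem_subfieldSubgroup_iff, coe_trGL, tr_refl, cj_inv_cj]
    exact ⟨1, one_ne_zero, by rwa [one_smul]⟩
  · have := h hg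
    rw [mem_subfieldSubgroup_iff, inv_one, cj_one] at this
    rwa [mem_subfieldSubgroup_iff, coe_trGL, tr_refl, cj_inv_cj]

theorem max_sub [Fintype F] {n : ℕ} (hn : 4 ≤ n) {F₀ : Subfield F} {r : ℕ} (hr : r.Prime)
    (hF : Fintype.card F = Nat.card F₀ ^ r) (P : GL (Fin n) F) :
    IsMaximalIn (specialLinear (Fin n) F) (subfieldSubgroup F₀ P ⊓ specialLinear (Fin n) F) := by
  refine isMaximalIn_of (fun h => ?_) fun X hX _ => over_sub hr hF (by simpa using hn) P hX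
  have := nontrivial_fin (n := n) (by omega)
  obtain ⟨N, hN0, -, -, hg⟩ := exists_root (ι := Fin n) (F := F)
  obtain ⟨g, hg1, e⟩ := hg 1
  obtain ⟨c, hc⟩ : ∃ c, c ∉ F₀ := by
    by_contra hc
    push Not at hc
    exact subfield_ne_top hr.two_le hF (eq_top_iff.2 fun x _ => hc x)
  obtain ⟨g', hg', e''⟩ := hg c
  exact hc ((qs_SL (by omega)).ratio_mem_of_le_subfield h hN0 hg1 hg' (by rw [e, one_smul]) e'')

end CA.MaxL1
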