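import Cfsg.Agent.Lib.Lin.MaxL1

/-! Maximality of decomposition stabilisers in `SL`: blocks of dimension at least two. -/

namespace CA.MaxL2

open Cfsg Cfsg.Geo Matrix CA.AschBase CA.AschKron CA.AschProp CA.AschProp2
  CA.AschDesc CA.AschFG CA.AschFG5 CA.AschSL CA.MaxTv CA.MaxL1 Module
open scoped MatrixGroups

variable {ι : Type} [Fintype ι] [DecidableEq ι] {F : Type*} [Field F]
variable {X : Subgroup (GL ι F)}

theorem det_of_hom {g : Matrix ι ι F} {v : ι → F} {φ : Dual F (ι → F)}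
    (h : ∀ x, g *ᵥ x = x + φ x • v) : g.det = 1 + φ v := by
  have h1 : ∀ x, φ x = (fun i => φ (ev i)) ⬝ᵥ x := fun x => by
    rw [dual_eq_sum]; simp [dotProduct, mul_comm]
  have : g = 1 + vecMulVec v fun i => φ (ev i) := ext_mulVec fun x => by
    rw [h, add_mulVec, one_mulVec, vecMulVec_mulVec, ← h1]; simp
  rw [this, vecMulVec_eq Unit, det_one_add_replicateCol_mul_replicateRow, ← h1]

theorem exists_hom {v : ι → F} {φ : Dual F (ι → F)} (h : 1 + φ v ≠ 0) :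
    ∃ g : GL ι F, (g : Matrix ι ι F).det = 1 + φ v ∧
      ∀ x, (g : Matrix ι ι F) *ᵥ x = x + φ x • v := by
  obtain ⟨N, hN⟩ := exists_matrix (LinearMap.id + φ.smulRight v)
  have := det_of_hom (g := N) (v := v) (φ := φ) hN
  obtain ⟨g, rfl⟩ := exists_gl' (X := N) (by rwa [this])
  exact ⟨g, this, hN⟩

/-- a pair of commuting homologies of total determinant one -/
theorem exists_hpair {u b : ι → F} {α χ : Dual F (ι → F)} (h1 : α u = 1) (h2 : χ b = 1)
    (h3 : α b = 0) {l : F} (hl : l ≠ 0) : ∃ g ∈ specialLinear ι F,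
      ∀ x, (g : Matrix ι ι F) *ᵥ x = x + ((l - 1) * α x) • u + ((l⁻¹ - 1) * χ x) • b := by
  obtain ⟨g, e1, e2⟩ := exists_hom (v := u) (φ := (l - 1) • α) (by simpa [h1])
  obtain ⟨g', e3, e4⟩ := exists_hom (v := b) (φ := (l⁻¹ - 1) • χ) (by simpa [h2])
  refine ⟨g * g', mem_SL.2 ?_, fun x => ?_⟩
  · rw [Units.val_mul, det_mul, e1, e3]; simp [h1, h2, hl]
  · rw [Units.val_mul, ← mulVec_mulVec, e4, e2]; simp [h3]; module

theorem exists_mono (σ : Equiv.Perm ι) {c : ι → F} (hc : ∀ i, c i ≠ 0) :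
    ∃ g : GL ι F, (g : Matrix ι ι F).det = (∏ i, c i) * ((Equiv.Perm.sign σ : ℤ) : F) ∧
      ∀ y p, ((g : Matrix ι ι F) *ᵥ y) p = c p * y (σ p) := by
  have : (diagonal c * σ.permMatrix F).det = (∏ i, c i) * ((Equiv.Perm.sign σ : ℤ) : F) := by
    rw [det_mul, det_diagonal, det_permutation]
  obtain ⟨g, hg⟩ := exists_gl' (X := diagonal c * σ.permMatrix F) (by
    rw [this]
    exact mul_ne_zero (Finset.prod_ne_zero_iff.2 fun i _ => hc i)
      (by rcases Int.units_eq_one_or (Equiv.Perm.sign σ) with h | h <;> simp [h]))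
  refine ⟨g, hg ▸ this, fun y p => ?_⟩
  rw [hg, ← mulVec_mulVec, mulVec_diagonal, permMatrix_mulVec]; rfl

theorem exists_mono' (σ : Equiv.Perm ι) (p₀ : ι) : ∃ g ∈ specialLinear ι F, ∃ c : ι → F,
    (∀ p, c p ≠ 0) ∧ (∀ p, p ≠ p₀ → c p = 1) ∧
      ∀ y p, ((g : Matrix ι ι F) *ᵥ y) p = c p * y (σ p) := by
  have hc : ∀ p, Function.update (1 : ι → F) p₀ ((Equiv.Perm.sign σ : ℤ) : F) p ≠ 0 := fun p => by
    rcases Int.units_eq_one_or (Equiv.Perm.sign σ) with h | h <;>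
      by_cases hp : p = p₀ <;> simp [h, hp]
  obtain ⟨g, h1, h2⟩ := exists_mono σ hc
  refine ⟨g, mem_SL.2 ?_, _, hc, fun p hp => by simp [hp], h2⟩
  rw [h1, Finset.prod_update_of_mem (Finset.mem_univ _)]
  rcases Int.units_eq_one_or (Equiv.Perm.sign σ) with h | h <;> simp [h]

section Dec
variable {t m : ℕ} {D : Fin t → Submodule F (ι → F)}

theorem exists_proj (hD : IsMDecomposition m D) : ∃ p : Fin t → (ι → F) →ₗ[F] (ι → F),
    (∀ i v, p i v ∈ D i) ∧ (∀ i, ∀ v ∈ D i, p i v = v) ∧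
      (∀ i j, j ≠ i → ∀ v ∈ D j, p i v = 0) ∧ ∀ v, ∑ i, p i v = v := by
  obtain ⟨e, P, h⟩ := exists_blocks' hD
  let q : Fin t → (Fin m × Fin t → F) →ₗ[F] (Fin m × Fin t → F) := fun i =>
    Matrix.toLin' (diagonal fun r => if r.2 = i then 1 else 0)
  have hq : ∀ i y r, q i y r = if r.2 = i then y r else 0 := fun i y r => by
    simp [q, mulVec_diagonal]
  refine ⟨fun i => (trv e P).conj (q i), fun i v => ?_, fun i v hv => ?_, fun i j hj v hv => ?_,
    fun v => ?_⟩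
  · exact (h i _).2 fun a j hj => by rw [hq]; simp [hj]
  · obtain ⟨y, rfl⟩ := (trv e P).surjective v
    rw [LinearEquiv.conj_apply_apply, LinearEquiv.symm_apply_apply]
    congr 1; ext ⟨a, j⟩; rw [hq]
    split_ifs with h1
    · rfl
    · exact ((h i y).1 hv a j h1).symm
  · obtain ⟨y, rfl⟩ := (trv e P).surjective v
    rw [LinearEquiv.conj_apply_apply, LinearEquiv.symm_apply_apply, LinearEquiv.map_eq_zero_iff]
    ext ⟨a, l⟩; rw [hq]
    split_ifs with h1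
    · exact (h j y).1 hv a l (by rintro rfl; exact hj h1)
    · rfl
  · obtain ⟨y, rfl⟩ := (trv e P).surjective v
    simp only [LinearEquiv.conj_apply_apply, LinearEquiv.symm_apply_apply, ← map_sum]
    congr 1; ext r; simp [hq]

theorem exists_swap (hD : IsMDecomposition m D) (j k : Fin t) :
    ∃ g ∈ specialLinear ι F, (∀ i, ∀ v ∈ D i, (g : Matrix ι ι F) *ᵥ v ∈ D (Equiv.swap j k i)) ∧
      ∀ i, i ≠ j → i ≠ k → ∀ v ∈ D i, (g : Matrix ι ι F) *ᵥ v = v := by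
  obtain ⟨e, P, h⟩ := exists_blocks' hD
  obtain ⟨g, h1, c, -, h2, h3⟩ := exists_mono' (F := F)
    (Equiv.prodCongrRight fun _ : Fin m => Equiv.swap j k) (⟨0, hD.pos⟩, j)
  refine ⟨trGL e P g, (trGL_mem_SL e P).2 h1, fun i v hv => ?_, fun i hi hi' v hv => ?_⟩
  · obtain ⟨y, rfl⟩ := (trv e P).surjective v
    rw [coe_trGL, tr_mulVec, h]
    intro a l hl
    rw [h3, Equiv.prodCongrRight_apply, (h i y).1 hv a _ (by rintro rfl; simp at hl), mul_zero]
  · obtain ⟨y, rfl⟩ := (trv e P).surjective v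
    rw [coe_trGL, tr_mulVec]
    congr 1; ext ⟨a, l⟩
    rw [h3, Equiv.prodCongrRight_apply]
    by_cases hl : l = i
    · rw [hl, h2 _ (by simp [hi]), one_mul, Equiv.swap_apply_of_ne_of_ne hi hi']
    · rw [(h i y).1 hv a l hl, (h i y).1 hv a _ fun h4 => hl ?_, mul_zero]
      rw [← Equiv.swap_apply_of_ne_of_ne hi hi', ← h4, Equiv.swap_apply_self]

/-- functionals supported on one block -/
def Dd (D : Fin t → Submodule F (ι → F)) (i : Fin t) (φ : Dual F (ι → F)) : Prop :=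
  ∀ j, j ≠ i → ∀ y ∈ D j, φ y = 0

omit [DecidableEq ι] in
theorem exists_notMem {W U : Submodule F (ι → F)} (ψ : Dual F (ι → F))
    (h : finrank F U + 2 ≤ finrank F W) : ∃ a ∈ W, a ∉ U ∧ ψ a = 0 := by
  by_contra h1
  push Not at h1
  have h2 : W ⊓ LinearMap.ker ψ ≤ U := fun a ha => by_contra fun h => h1 a ha.1 h ha.2
  have h3 := Submodule.finrank_sup_add_finrank_inf_eq W (LinearMap.ker ψ)
  have h4 := Submodule.finrank_mono h2
  have h5 := Submodule.finrank_le (W ⊔ LinearMap.ker ψ)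
  have h6 := LinearMap.finrank_range_add_finrank_ker ψ
  have h7 := Submodule.finrank_le (LinearMap.range ψ)
  rw [finrank_self] at h7
  omega

omit [DecidableEq ι] in
theorem exists_notMem' {W U : Submodule F (ι → F)} (h : finrank F U < finrank F W) :
    ∃ a ∈ W, a ∉ U :=
  SetLike.not_le_iff_exists.1 fun h' => absurd (Submodule.finrank_mono h') (by omega)

omit [Fintype ι] [DecidableEq ι] in
theorem finrank_line_le (a : ι → F) : finrank F (F ∙ a) ≤ 1 := by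
  simpa using finrank_span_le_card ({a} : Set (ι → F))

omit [Fintype ι] [DecidableEq ι] in
theorem notMem_symm {a b : ι → F} (h : a ∉ F ∙ b) (hb : b ≠ 0) : b ∉ F ∙ a := fun h' => by
  obtain ⟨c, rfl⟩ := Submodule.mem_span_singleton.1 h'
  have hc : c ≠ 0 := by rintro rfl; simp at hb
  exact h (Submodule.mem_span_singleton.2 ⟨c⁻¹, by simp [hc]⟩)

theorem tv_sum {α : Type*} (s : Finset α) {v : ι → F} {φ : α → Dual F (ι → F)}
    (h : ∀ a ∈ s, Tv X v (φ a)) (h0 : ∀ a ∈ s, φ a v = 0) : Tv X v (∑ a ∈ s, φ a) := by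
  classical
  induction s using Finset.induction_on with
  | empty => exact tv_zero v
  | insert a s ha ih =>
    rw [Finset.sum_insert ha]
    exact (h a (by simp)).add_right (ih (fun b hb => h b (by simp [hb]))
      fun b hb => h0 b (by simp [hb])) (h0 a (by simp))

variable (hD : IsMDecomposition m D)
include hD

theorem exists_dd {W : Submodule F (ι → F)} {i : Fin t} (hW : W ≤ D i) {v : ι → F} (hv : v ∈ D i)
    (h : v ∉ W) (c : F) : ∃ φ, Dd D i φ ∧ (∀ w ∈ W, φ w = 0) ∧ φ v = c := by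
  obtain ⟨p, -, p2, p3, -⟩ := exists_proj hD
  obtain ⟨φ, h1, h2⟩ := exists_dual h c
  exact ⟨φ ∘ₗ p i, fun j hj y hy => by simp [p3 i j hj y hy],
    fun w hw => by simp [p2 i w (hW hw), h1 w hw], by simp [p2 i v hv, h2]⟩

theorem exists_dd' {i : Fin t} {a v : ι → F} (ha : a ∈ D i) (hv : v ∈ D i) (h : v ∉ F ∙ a) (c : F) :
    ∃ φ, Dd D i φ ∧ φ a = 0 ∧ φ v = c := by
  obtain ⟨φ, h1, h2, h3⟩ := exists_dd hD ((Submodule.span_singleton_le_iff_mem _ _).2 ha) hv h c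
  exact ⟨φ, h1, h2 a (Submodule.mem_span_singleton_self a), h3⟩

variable (hX : decompositionStabilizer D ⊓ specialLinear ι F ≤ X)
include hX

theorem mem_of_blocks {g : GL ι F} (h1 : g ∈ specialLinear ι F)
    (h : ∀ i, ∃ j, ∀ v ∈ D i, (g : Matrix ι ι F) *ᵥ v ∈ D j) : g ∈ X :=
  hX ⟨mem_decomp_of_forall hD h, h1⟩

theorem tv_block {i : Fin t} {a : ι → F} (ha : a ∈ D i) {χ : Dual F (ι → F)} (h : Dd D i χ)
    (h0 : χ a = 0) : Tv X a χ := by
  obtain ⟨g, hg, e⟩ := tv_SL h0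
  refine ⟨g, mem_of_blocks hD hX hg fun j => ⟨j, fun v hv => ?_⟩, e⟩
  rw [e]
  by_cases hj : j = i
  · exact add_mem hv (hj ▸ (D i).smul_mem _ ha)
  · simpa [h j hj v hv]

theorem SL_le_of_full_block {i : Fin t} {v : ι → F} (hv : v ∈ D i) (hv0 : v ≠ 0)
    (h : v ∈ full X) : specialLinear ι F ≤ X := by
  have h1 : D i ≤ full X := fun u hu => by
    by_cases h2 : v ∈ F ∙ u
    · obtain ⟨c, rfl⟩ := Submodule.mem_span_singleton.1 h2
      have hc : c ≠ 0 := by rintro rfl; simp at hv0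
      simpa [hc] using (full X).smul_mem c⁻¹ h
    obtain ⟨φ, a1, a2, a3⟩ := exists_dd' hD hu hv h2 1
    obtain ⟨g, hg, e⟩ := tv_block hD hX hu a1 a2
    have := full_inv hg h
    rw [e] at this
    simpa [a3] using sub_mem this h
  refine SL_le_of_full_top (top_unique (hD.iSup_eq_top ▸ iSup_le fun j u hu => ?_))
  obtain ⟨g, a1, a2, -⟩ := exists_swap hD j i
  have hg := mem_of_blocks hD hX a1 fun l => ⟨_, a2 l⟩
  have := full_inv (X.inv_mem hg) (h1 (by simpa using a2 j u hu))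
  rwa [inv_mulVec_mulVec] at this

variable (hm : 2 ≤ m) (H : ¬ specialLinear ι F ≤ X)
include hm H

theorem dd_of_tv {i : Fin t} {v : ι → F} (hv : v ∈ D i) (hv0 : v ≠ 0) {φ : Dual F (ι → F)}
    (h : Tv X v φ) : Dd D i φ := by
  intro j hj w hw
  by_contra hw0
  have step : ∀ {φ w}, Tv X v φ → w ∈ D j → φ w ≠ 0 → ∀ χ, Dd D j χ → χ w = 0 → Tv X v χ :=
    fun {φ w} h hw h0 χ h1 h2 => by
      have h3 : Dd D j ((φ w)⁻¹ • χ) := fun l hl y hy => by simp [h1 l hl y hy]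
      simpa [smul_smul, h0] using h.comm (tv_block hD hX hw h3 (by simp [h2])) (by simp [h2])
        (h3 i hj.symm v hv)
  obtain ⟨w', a1, a2⟩ := exists_notMem' (W := D j) (U := F ∙ w)
    (by have := finrank_line_le w; rw [hD.finrank_eq]; omega)
  obtain ⟨χ₀, b1, b2, b3⟩ := exists_dd' hD hw a1 a2 1
  have c1 : ∀ χ, Dd D j χ → Tv X v χ := fun χ hχ => by
    obtain ⟨χ', d1, d2, d3⟩ := exists_dd' hD a1 hw (notMem_symm a2 (by rintro rfl; simp at hw0)) (χ w)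
    have d4 : Dd D j (χ - χ') := fun l hl y hy => by simp [hχ l hl y hy, d1 l hl y hy]
    simpa using (step h hw hw0 _ d4 (by simp [d3])).add_right
      (step (step h hw hw0 _ b1 b2) a1 (by simp [b3]) _ d1 d2) (d4 i hj.symm v hv)
  have c2 : ∀ k, k ≠ i → ∀ χ, Dd D k χ → Tv X v χ := fun k hk χ hχ => by
    obtain ⟨g, e1, e2, e3⟩ := exists_swap hD j k
    have := (c1 (χ ∘ₗ (g : Matrix ι ι F).mulVecLin) fun l hl y hy =>
      hχ _ (fun h => hl ((Equiv.swap j k).injective (h.trans (Equiv.swap_apply_left j k).symm))) _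
        (e2 l y hy)).conj (ψ := χ) (act_self (mem_of_blocks hD hX e1 fun l => ⟨_, e2 l⟩))
          fun _ => rfl
    rwa [e3 i hj.symm hk.symm v hv] at this
  refine H (SL_le_of_full_block hD hX hv hv0 fun ψ h0 => ?_)
  obtain ⟨p, -, p2, p3, p4⟩ := exists_proj hD
  have e : ψ = ∑ k, ψ ∘ₗ p k := LinearMap.ext fun x => by simp [← map_sum, p4]
  have d : ∀ k, Dd D k (ψ ∘ₗ p k) := fun k l hl y hy => by simp [p3 k l hl y hy]
  rw [e]
  refine tv_sum _ (fun k _ => ?_) fun k _ => ?_ <;> by_cases hk : k = i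
  · exact tv_block hD hX hv (hk ▸ d k) (by simp [hk, p2 i v hv, h0])
  · exact c2 k hk _ (d k)
  · simp [hk, p2 i v hv, h0]
  · exact d k i (Ne.symm hk) v hv

theorem dd_of_supp (hc : 3 ≤ m ∨ (3 ≤ t ∧ ∃ l : F, l ≠ 0 ∧ l ≠ 1)) {w : ι → F}
    {ψ : Dual F (ι → F)} (h : Tv X w ψ) (h0 : ψ w = 0) {j : Fin t} {u : ι → F} (hu : u ∈ D j)
    (hu0 : u ≠ 0) (hw : ∀ χ, Dd D j χ → χ w = χ u) : Dd D j ψ := by
  by_contra hψ
  have a1 : ∀ a ∈ D j, a ≠ 0 → ψ a = 0 → u ∈ F ∙ a := fun a ha ha0 h1 => by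
    by_contra h2
    obtain ⟨χ, b1, b2, b3⟩ := exists_dd' hD ha hu h2 1
    have := dd_of_tv hD hX hm H ha ha0 ((tv_block hD hX ha b1 b2).comm h h0 h1)
    rw [hw χ b1, b3, one_smul] at this
    exact hψ this
  have a2 : ∀ k, ∃ b ∈ D k, b ≠ 0 ∧ ψ b = 0 := fun k => by
    simpa using exists_notMem (W := D k) (U := ⊥) ψ (by rw [hD.finrank_eq]; simpa)
  have a3 : ψ u = 0 := by
    obtain ⟨b, b1, b2, b3⟩ := a2 j
    obtain ⟨c, rfl⟩ := Submodule.mem_span_singleton.1 (a1 b b1 b2 b3)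
    simp [b3]
  rcases hc with hc | ⟨hc, l, hl, hl'⟩
  · obtain ⟨a, b1, b2, b3⟩ := exists_notMem (W := D j) (U := F ∙ u) ψ
      (by have := finrank_line_le u; rw [hD.finrank_eq]; omega)
    exact notMem_symm b2 hu0 (a1 a b1 (by rintro rfl; simp at b2) b3)
  obtain ⟨α, c1, -, c2⟩ := exists_dd' hD (D j).zero_mem hu (by simpa using hu0) 1
  have key : ∀ k, k ≠ j → ∃ b ∈ D k, ∃ χ, Dd D k χ ∧ ψ b = 0 ∧ ∀ w, Tv X w ψ → ψ w = 0 →
      Tv X (((l - 1) * α w) • u + ((l⁻¹ - 1) * χ w) • b) ψ := fun k hk => by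
    obtain ⟨b, b1, b2, b3⟩ := a2 k
    obtain ⟨χ, d1, -, d2⟩ := exists_dd' hD (D k).zero_mem b1 (by simpa using b2) 1
    obtain ⟨g, e1, e2⟩ := exists_hpair c2 d2 (c1 k hk b b1) hl
    refine ⟨b, b1, χ, d1, b3, fun w hw h0 => ?_⟩
    have hg : g ∈ X := mem_of_blocks hD hX e1 fun i => ⟨i, fun v hv => by
      rw [e2]
      refine add_mem (add_mem hv ?_) ?_
      · by_cases hi : i = j
        · exact hi ▸ (D j).smul_mem _ hu
        · simp [c1 i hi v hv]
      · by_cases hi : i = k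
        · exact hi ▸ (D k).smul_mem _ b1
        · simp [d1 i hi v hv]⟩
    have := (hw.conj (ψ := ψ) (act_self hg) fun x => by simp [e2, a3, b3]).sub_left hw h0
    convert this using 1
    rw [e2]; abel
  obtain ⟨k, k1, -⟩ := exists_third (ι := Fin t) (by simpa) j j
  obtain ⟨k', k2, k3⟩ := exists_third (ι := Fin t) (by simpa) j k
  obtain ⟨b, b1, χ, -, b3, b4⟩ := key k k1
  obtain ⟨b', -, χ', b2', -, b4'⟩ := key k' k2
  have := b4' _ (b4 w h h0) (by simp [a3, b3])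
  simp only [map_add, map_smul, c2, c1 k k1 b b1, b2' j k2.symm u hu, b2' k k3.symm b b1, hw α c1,
    add_zero, mul_zero, zero_smul, smul_eq_mul, mul_one] at this
  have h3 := dd_of_tv hD hX hm H hu hu0 (tv_smul.1 this)
  exact hψ fun i hi y hy => by simpa [sub_eq_zero, hl'] using h3 i hi y hy

theorem le_of_not (hc : 3 ≤ m ∨ (3 ≤ t ∧ ∃ l : F, l ≠ 0 ∧ l ≠ 1)) :
    X ≤ decompositionStabilizer D := fun g hg => by
  obtain ⟨p, p1, p2, p3, p4⟩ := exists_proj hD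
  have a1 : ∀ i, ∀ v ∈ D i, v ≠ 0 → ∀ j k, p j ((g : Matrix ι ι F) *ᵥ v) ≠ 0 →
      p k ((g : Matrix ι ι F) *ᵥ v) ≠ 0 → j = k := fun i v hv hv0 j k hj hk => by
    obtain ⟨v', b1, b2⟩ := exists_notMem' (W := D i) (U := F ∙ v)
      (by have := finrank_line_le v; rw [hD.finrank_eq]; omega)
    obtain ⟨χ, c1, c2, c3⟩ := exists_dd' hD hv b1 b2 1
    have key : ∀ j, p j ((g : Matrix ι ι F) *ᵥ v) ≠ 0 → Dd D j _ := fun j hj =>
      dd_of_supp hD hX hm H hc ((tv_block hD hX hv c1 c2).conj' hg) (by simp [c2]) (p1 j _) hj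
        fun χ hχ => by
          conv_lhs => rw [← p4 ((g : Matrix ι ι F) *ᵥ v), map_sum]
          exact Finset.sum_eq_single j (fun l _ hl => hχ l hl _ (p1 l _)) (by simp)
    by_contra hjk
    have : (χ ∘ₗ ((g⁻¹ : GL ι F) : Matrix ι ι F).mulVecLin) ((g : Matrix ι ι F) *ᵥ v') = 0 := by
      rw [← p4 ((g : Matrix ι ι F) *ᵥ v'), map_sum]
      refine Finset.sum_eq_zero fun l _ => ?_
      by_cases hl : l = j
      · exact key k hk l (hl ▸ hjk) _ (p1 l _)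
      · exact key j hj l hl _ (p1 l _)
    simp [c3] at this
  have a2 : ∀ v, v ≠ 0 → ∃ j, p j ((g : Matrix ι ι F) *ᵥ v) ≠ 0 := fun v hv => by
    by_contra h
    push Not at h
    exact hv ((mulVec_eq_zero_iff_gl g v).1 (by rw [← p4 (_ *ᵥ v)]; simp [h]))
  refine mem_decomp_of_forall hD fun i => ?_
  obtain ⟨v, hv, hv0⟩ := (Submodule.ne_bot_iff _).1 (decomp_ne_bot hD i)
  obtain ⟨j, hj⟩ := a2 v hv0
  refine ⟨j, fun u hu => ?_⟩
  rw [← p4 (_ *ᵥ u)]
  refine sum_mem fun k _ => ?_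
  by_cases hk : k = j
  · exact hk ▸ p1 k _
  by_cases h1 : p k ((g : Matrix ι ι F) *ᵥ u) = 0
  · rw [h1]; exact zero_mem _
  have hu0 : u ≠ 0 := by rintro rfl; simp at h1
  have b1 : p j ((g : Matrix ι ι F) *ᵥ u) = 0 := by_contra fun h => hk (a1 i u hu hu0 k j h1 h)
  have b2 : p k ((g : Matrix ι ι F) *ᵥ v) = 0 := by_contra fun h => hk (a1 i v hv hv0 k j h hj)
  have b3 : p k ((g : Matrix ι ι F) *ᵥ (u + v)) ≠ 0 := by simpa [mulVec_add, b2]
  exact absurd (a1 i _ (add_mem hu hv) (fun h => by simp [h] at b3) k j b3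
    (by simpa [mulVec_add, b1])) hk

end Dec

theorem over_dec {t m : ℕ} {D : Fin t → Submodule F (ι → F)} (hD : IsMDecomposition m D)
    (hm : 2 ≤ m) (hc : 3 ≤ m ∨ (3 ≤ t ∧ ∃ l : F, l ≠ 0 ∧ l ≠ 1))
    (hX : decompositionStabilizer D ⊓ specialLinear ι F ≤ X) :
    X ≤ decompositionStabilizer D ∨ specialLinear ι F ≤ X :=
  or_iff_not_imp_right.2 fun H => le_of_not hD hX hm H hc

end CA.MaxL2
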