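import Cfsg.Agent.Lib.Lin.MaxL2

/-! Overgroups of the monomial group. -/

namespace CA.MaxL3

open Cfsg Cfsg.Geo Matrix CA.AschBase CA.AschKron CA.AschProp CA.AschProp2
  CA.AschDesc CA.AschFG CA.AschFG5 CA.AschSL CA.MaxTv CA.MaxL1 CA.MaxL2 Module
open scoped MatrixGroups

variable {ι : Type} [Fintype ι] [DecidableEq ι] {F : Type*} [Field F]
variable {X : Subgroup (GL ι F)}

theorem ne_zero_of_ev {g : GL ι F} {i : ι} {c : F} {w : ι → F}
    (h : (g : Matrix ι ι F) *ᵥ ev i = c • w) : c ≠ 0 := by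
  rintro rfl
  rw [zero_smul, mulVec_eq_zero_iff_gl] at h
  simp at h

theorem inj_of_ev {g : GL ι F} {i j k : ι} {c d : F} (h : (g : Matrix ι ι F) *ᵥ ev i = c • ev k)
    (h' : (g : Matrix ι ι F) *ᵥ ev j = d • ev k) : i = j := by
  by_contra hij
  have : (g : Matrix ι ι F) *ᵥ (d • ev i - c • ev j) = 0 := by
    rw [mulVec_sub, mulVec_smul, mulVec_smul, h, h']; module
  exact ne_zero_of_ev h' (by simpa [hij] using congrFun ((mulVec_eq_zero_iff_gl _ _).1 this) i)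

theorem inv_of_ev {g : GL ι F} {i : ι} {c : F} {w : ι → F}
    (h : (g : Matrix ι ι F) *ᵥ ev i = c • w) :
    ((g⁻¹ : GL ι F) : Matrix ι ι F) *ᵥ w = c⁻¹ • ev i := by
  rw [eq_inv_smul_iff₀ (ne_zero_of_ev h), ← mulVec_smul, ← h, inv_mulVec_mulVec]

variable (ι F) in
/-- monomial matrices -/
def monG : Subgroup (GL ι F) where
  carrier := {g | ∀ i, ∃ (j : ι) (c : F), (g : Matrix ι ι F) *ᵥ ev i = c • ev j}
  one_mem' i := ⟨i, 1, by rw [Units.val_one, one_mulVec, one_smul]⟩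
  mul_mem' {a b} ha hb i := by
    obtain ⟨j, c, h⟩ := hb i
    obtain ⟨k, d, h'⟩ := ha j
    exact ⟨k, c * d, by rw [Units.val_mul, ← mulVec_mulVec, h, mulVec_smul, h', smul_smul]⟩
  inv_mem' {a} ha j := by
    choose s c h using ha
    obtain ⟨i, rfl⟩ := Finite.injective_iff_surjective.1
      (fun i j e => inj_of_ev (h i) (e ▸ h j) : Function.Injective s) j
    exact ⟨i, _, inv_of_ev (h i)⟩

theorem row_of_mon {g : GL ι F} (hg : g ∈ monG ι F) {q q' : ι} {c : F}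
    (h : (g : Matrix ι ι F) *ᵥ ev q = c • ev q') (y : ι → F) :
    ((g : Matrix ι ι F) *ᵥ y) q' = c * y q := by
  have := dual_eq_sum (pj q' ∘ₗ (g : Matrix ι ι F).mulVecLin) y
  simp only [LinearMap.comp_apply, mulVecLin_apply, LinearMap.proj_apply] at this
  rw [this, Finset.sum_eq_single q (fun r _ hr => ?_) (by simp), h]
  · simp [mul_comm]
  · obtain ⟨j, d, e⟩ := hg r
    have : q' ≠ j := by rintro rfl; exact hr (inj_of_ev e h)
    simp [e, this]

theorem mon_of_mono {g : GL ι F} {σ : Equiv.Perm ι} {c : ι → F}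
    (h : ∀ y p, ((g : Matrix ι ι F) *ᵥ y) p = c p * y (σ p)) (i : ι) :
    (g : Matrix ι ι F) *ᵥ ev (σ i) = c i • ev i := by
  ext p; rw [h]
  by_cases hp : p = i <;> simp [hp]

theorem mono_mem {g : GL ι F} {σ : Equiv.Perm ι} {c : ι → F}
    (h : ∀ y p, ((g : Matrix ι ι F) *ᵥ y) p = c p * y (σ p)) : g ∈ monG ι F := fun i =>
  ⟨σ.symm i, _, by simpa using mon_of_mono h (σ.symm i)⟩

omit [Field F] in
theorem exists_avoid [Fintype F] (hq : 5 ≤ Fintype.card F) (a b c d : F) :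
    ∃ x : F, x ≠ a ∧ x ≠ b ∧ x ≠ c ∧ x ≠ d := by
  classical
  by_contra h
  push Not at h
  have : (Finset.univ : Finset F) ⊆ {a, b, c, d} := fun k _ => by
    by_contra hk
    simp only [Finset.mem_insert, Finset.mem_singleton, not_or] at hk
    exact hk.2.2.2 (h k hk.1 hk.2.1 hk.2.2.1)
  have := (Finset.card_le_card this).trans Finset.card_le_four
  rw [Finset.card_univ] at this; omega

theorem exists_not_mem (s : Finset ι) (h : s.card < Fintype.card ι) : ∃ k, k ∉ s := by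
  by_contra h'
  push Not at h'
  have := Finset.card_le_card (fun k _ => h' k : Finset.univ ⊆ s)
  rw [Finset.card_univ] at this; omega

section SL
variable (hX : monG ι F ⊓ specialLinear ι F ≤ X)
include hX

theorem act_hp {j k : ι} (h : j ≠ k) {l : F} (hl : l ≠ 0) :
    Act X fun x => x + ((l - 1) * x j) • ev j + ((l⁻¹ - 1) * x k) • ev k := by
  obtain ⟨g, h1, h2⟩ := exists_hpair (u := ev j) (b := ev k) (α := pj j) (χ := pj k)
    (by simp) (by simp) (by simp [h]) hl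
  refine ⟨g, hX ⟨fun i => ⟨i, if i = j then l else if i = k then l⁻¹ else 1, ?_⟩, h1⟩, h2⟩
  rw [h2]
  split_ifs with a b
  · subst a; simp [h.symm]; module
  · subst b; simp [h]; module
  · simp [Ne.symm a, Ne.symm b]

theorem SL_le_of_ev (hn : 4 ≤ Fintype.card ι) {l : F} (hl : l ≠ 0) (hl' : l ≠ 1) {i : ι}
    {φ : Dual F (ι → F)} (h : Tv X (ev i) φ) (h0 : φ (ev i) = 0) (hφ : φ ≠ 0) :
    specialLinear ι F ≤ X := by
  have step : ∀ {φ : Dual F (ι → F)} {j k : ι} {l : F}, Tv X (ev i) φ → φ (ev i) = 0 → j ≠ i →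
      k ≠ i → j ≠ k → l ≠ 0 →
      Tv X (ev i) (((l⁻¹ - 1) * φ (ev j)) • pj j + ((l - 1) * φ (ev k)) • pj k) :=
    fun {φ j k l} h h0 h1 h2 h3 hl => by
      have := h.conj (ψ := φ + (((l⁻¹ - 1) * φ (ev j)) • pj j + ((l - 1) * φ (ev k)) • pj k))
        (act_hp hX h3 hl) fun x => by simp [h3, h3.symm]; field_simp; ring
      simp only [Pi.single_eq_of_ne h1, Pi.single_eq_of_ne h2, mul_zero, zero_smul,
        add_zero] at this
      simpa using this.sub_right h (by simp [h0, h1, h2]) h0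
  obtain ⟨j, hj⟩ : ∃ j, φ (ev j) ≠ 0 := by
    by_contra h1
    push Not at h1
    exact hφ (LinearMap.ext fun v => by rw [dual_eq_sum φ]; simp [h1])
  have hji : j ≠ i := by rintro rfl; exact hj h0
  obtain ⟨k, k1, k2⟩ := exists_third (ι := ι) (by omega) i j
  obtain ⟨k', k3, k4, k5⟩ := exists_fourth hn i j k
  have a1 := step (step h h0 hji k1 k2.symm hl) (by simp [hji, k1]) hji k3 k4.symm hl
  simp only [LinearMap.add_apply, LinearMap.smul_apply, LinearMap.proj_apply, Pi.single_eq_same,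
    Pi.single_eq_of_ne k2, Pi.single_eq_of_ne k4.symm, Pi.single_eq_of_ne k5.symm,
    add_zero, mul_zero, zero_smul, smul_eq_mul, mul_one] at a1
  have hd : (l⁻¹ - 1) * ((l⁻¹ - 1) * φ (ev j)) ≠ 0 := by simp [sub_eq_zero, hl', hj]
  generalize (l⁻¹ - 1) * ((l⁻¹ - 1) * φ (ev j)) = d at a1 hd
  have a2 : ∀ c : F, Tv X (ev i) (c • pj j) := fun c => by
    by_cases hc : c = 0
    · rw [hc, zero_smul]; exact tv_zero _
    have := (step a1 (by simp [hji]) hji k1 k2.symm (div_ne_zero hd hc)).add_right a1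
      (by simp [hji, k1])
    convert this using 1
    ext x; simp [k2]; field_simp; ring
  refine SL_le_of_tv' fun i' j' h' c => ?_
  obtain ⟨σ, s1, s2⟩ : ∃ σ : Equiv.Perm ι, σ i' = i ∧ σ j' = j := by
    refine ⟨Equiv.swap (Equiv.swap i' i j') j * Equiv.swap i' i, ?_, by simp⟩
    rw [Equiv.Perm.mul_apply, Equiv.swap_apply_left, Equiv.swap_apply_of_ne_of_ne _ hji.symm]
    exact fun e => h' ((Equiv.swap i' i).injective ((Equiv.swap_apply_left _ _).trans e))
  obtain ⟨g, g1, e, g2, -, g3⟩ := exists_mono' (F := F) σ i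
  have := (a2 (c * (e i')⁻¹ * e j')).conj (ψ := (c * (e i')⁻¹) • pj j')
    (act_self (hX ⟨mono_mem g3, g1⟩)) fun x => by simp [g3, s2, mul_assoc]
  simp only [← s1, mon_of_mono g3, tv_smul, smul_smul] at this
  rwa [mul_comm, inv_mul_cancel_right₀ (g2 i')] at this

theorem eq_zero_of_orb (hn : 4 ≤ Fintype.card ι) {l : F} (hl : l ≠ 0) (hl' : l ≠ 1)
    (H : ¬ specialLinear ι F ≤ X) {g : GL ι F} (hg : g ∈ X) {i : ι} {φ : Dual F (ι → F)}
    (h : Tv X ((g : Matrix ι ι F) *ᵥ ev i) φ) (h0 : φ ((g : Matrix ι ι F) *ᵥ ev i) = 0) :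
    φ = 0 := by
  have := h.conj (ψ := φ ∘ₗ (g : Matrix ι ι F).mulVecLin) (act_self (X.inv_mem hg))
    fun x => by simp
  rw [inv_mulVec_mulVec] at this
  by_contra h1
  refine H (SL_le_of_ev hX hn hl hl' this h0 fun h2 => h1 (LinearMap.ext fun x => ?_))
  simpa using LinearMap.congr_fun h2 (((g⁻¹ : GL ι F) : Matrix ι ι F) *ᵥ x)

end SL

/-- centre and axis of a conjugate of a coordinate homology group -/
def Pr (X : Subgroup (GL ι F)) (v : ι → F) (u : Dual F (ι → F)) : Prop :=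
  ∃ g ∈ X, ∃ i, v = (g : Matrix ι ι F) *ᵥ ev i ∧ ∀ x, u ((g : Matrix ι ι F) *ᵥ x) = x i

theorem pr_ev (i : ι) : Pr X (ev i) (pj i) := 
  ⟨1, X.one_mem, i, (one_mulVec _).symm, by simp⟩

theorem Pr.one {v : ι → F} {u : Dual F (ι → F)} (h : Pr X v u) : u v = 1 := by
  obtain ⟨g, -, i, rfl, h⟩ := h; rw [h]; simp

theorem Pr.map {v : ι → F} {u : Dual F (ι → F)} (h : Pr X v u) {S : (ι → F) → ι → F}
    (hS : Act X S) : ∃ u', Pr X (S v) u' ∧ ∀ x, u' (S x) = u x := by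
  obtain ⟨g, hg, i, rfl, h⟩ := h
  obtain ⟨s, hs, e⟩ := hS
  refine ⟨u ∘ₗ ((s⁻¹ : GL ι F) : Matrix ι ι F).mulVecLin, ⟨s * g, X.mul_mem hs hg, i, ?_,
    fun x => ?_⟩, fun x => ?_⟩
  · rw [← e, Units.val_mul, mulVec_mulVec]
  · rw [Units.val_mul, ← mulVec_mulVec, ← h x]; simp only [LinearMap.comp_apply, mulVecLin_apply,
      inv_mulVec_mulVec]
  · rw [← e]; simp only [LinearMap.comp_apply, mulVecLin_apply, inv_mulVec_mulVec]

section Gl
variable (hX : monG ι F ≤ X)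
include hX

theorem Pr.act {v : ι → F} {u : Dual F (ι → F)} (h : Pr X v u) {l : F} (hl : l ≠ 0) :
    Act X fun x => x + ((l - 1) * u x) • v := by
  obtain ⟨g, hg, i, rfl, h⟩ := h
  obtain ⟨t, -, e⟩ := exists_hom (F := F) (v := ev i) (φ := (l - 1) • pj i) (by simpa)
  have ht : t ∈ X := hX fun j => ⟨j, if j = i then l else 1, by
    rw [e]; split_ifs with a
    · subst a; simp; module
    · simp [Ne.symm a]⟩
  refine ((act_self hg).mul ((act_self ht).mul (act_self (X.inv_mem hg)))).congr fun x => ?_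
  rw [e, mulVec_add, mulVec_inv_mulVec, mulVec_smul, LinearMap.smul_apply, LinearMap.proj_apply,
    ← h (_ *ᵥ x), mulVec_inv_mulVec, smul_eq_mul]

variable [Fintype F] (hq : 5 ≤ Fintype.card F) (hn : 4 ≤ Fintype.card ι)
  (H : ¬ specialLinear ι F ≤ X)
include hq hn H

theorem Pr.fix {v : ι → F} {u : Dual F (ι → F)} (h : Pr X v u) {S : (ι → F) → ι → F}
    (hS : Act X S) (e : S v = v) (x : ι → F) : u (S x) = u x := by
  obtain ⟨u', h1, h2⟩ := h.map hS
  rw [e] at h1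
  obtain ⟨l, l0, l1, -⟩ := exists_avoid hq 0 1 0 0
  have a1 : Tv X v ((l - 1) • (u' - u)) :=
    ((h1.act hX l0).mul (h.act hX (inv_ne_zero l0))).congr fun x => by
      simp only [map_add, map_smul, h1.one, LinearMap.smul_apply, LinearMap.sub_apply, smul_eq_mul,
        add_assoc, ← add_smul]
      congr 2; field_simp; ring
  have a2 := h.one
  obtain ⟨g, hg, i, rfl, -⟩ := h
  have := eq_zero_of_orb (inf_le_left.trans hX) hn l0 l1 H hg a1 (by simp only [LinearMap.smul_apply,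
    LinearMap.sub_apply, h1.one, a2, sub_self, smul_zero])
  rw [smul_eq_zero, sub_eq_zero, sub_eq_zero] at this
  rw [← h2 x, this.resolve_left l1]

theorem Pr.zero {v : ι → F} {u : Dual F (ι → F)} (h : Pr X v u) {i : ι} (hi : v i = 0) :
    u (ev i) = 0 := by
  obtain ⟨l, l0, l1, -⟩ := exists_avoid hq 0 1 0 0
  simpa [sub_eq_zero, l1] using h.fix hX hq hn H ((pr_ev i).act hX l0) (by simp [hi]) (ev i)

theorem Pr.eq {v : ι → F} {u : Dual F (ι → F)} (h : Pr X v u) {i j : ι} (hi : v i ≠ 0)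
    (hj : v j ≠ 0) : v i * u (ev i) = v j * u (ev j) := by
  obtain ⟨g, -, e⟩ := exists_mono (Equiv.swap i j) (c := fun p => if p = i ∨ p = j then
    v p / v (Equiv.swap i j p) else 1) fun p => by
      split_ifs with a
      · rcases a with rfl | rfl <;> simp [hi, hj]
      · exact one_ne_zero
  have := h.fix hX hq hn H (act_self (hX (mono_mem e))) (funext fun p => by
    rw [e]; split_ifs with a
    · rcases a with rfl | rfl <;> simp [hi, hj]
    · rw [one_mul, Equiv.swap_apply_of_ne_of_ne (by tauto) (by tauto)]) (ev (Equiv.swap i j j))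
  rw [mon_of_mono e] at this
  simp only [or_true, if_true, Equiv.swap_apply_right, map_smul, smul_eq_mul] at this
  rw [← this]; field_simp

theorem Pr.two {j k : ι} (hjk : j ≠ k) {b : F} (hb : b ≠ 0) {u : Dual F (ι → F)}
    (h : Pr X (ev k + b • ev j) u) : 2 * u (ev k) = 1 ∧ b * u (ev j) = u (ev k) := by
  have a1 := h.eq hX hq hn H (i := j) (j := k) (by simp [hjk, hb]) (by simp [hjk.symm])
  have a2 := h.one
  simp only [Pi.add_apply, Pi.smul_apply, Pi.single_eq_same, Pi.single_eq_of_ne hjk,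
    Pi.single_eq_of_ne hjk.symm, smul_eq_mul, mul_one, mul_zero, zero_add, add_zero, one_mul,
    map_add, map_smul] at a1 a2
  exact ⟨by linear_combination a2 - a1, a1⟩

theorem Pr.not_two {j k : ι} (hjk : j ≠ k) {b : F} (hb : b ≠ 0) {u : Dual F (ι → F)} :
    ¬ Pr X (ev k + b • ev j) u := fun h => by
  obtain ⟨l, l1, l2⟩ := exists_third (ι := ι) (by omega) j k
  obtain ⟨g, -, e⟩ := exists_mono (F := F) (Equiv.swap k l) (c := 1) fun _ => one_ne_zero
  obtain ⟨u', h1, -⟩ := h.map (act_self (hX (mono_mem e)))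
  have e1 : (g : Matrix ι ι F) *ᵥ (ev k + b • ev j) = ev l + b • ev j := by
    have a1 := mon_of_mono e l
    have a2 := mon_of_mono e j
    rw [Equiv.swap_apply_right] at a1
    rw [Equiv.swap_apply_of_ne_of_ne hjk l1.symm] at a2
    rw [mulVec_add, mulVec_smul, a1, a2]; simp
  simp only [e1] at h1
  obtain ⟨a1, a2⟩ := h.two hX hq hn H hjk hb
  obtain ⟨a3, -⟩ := h1.two hX hq hn H l1.symm hb
  have a4 := h.zero hX hq hn H (i := l) (by simp [l1, l2])
  obtain ⟨m, m0, m1, m2, -⟩ := exists_avoid hq 0 1 (-1) 0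
  obtain ⟨u'', h2, h3⟩ := h1.map (h.act hX m0)
  have a5 := h3 (ev l)
  simp only [a4, mul_zero, zero_smul, add_zero] at a5
  have e2 : (ev l : ι → F) + b • ev j + ((m - 1) * u (ev l + b • ev j)) • (ev k + b • ev j) =
      (ev l : ι → F) + ((m - 1) * u (ev k)) • ev k + (b * (1 + (m - 1) * u (ev k))) • ev j := by
    rw [map_add, map_smul, a4, smul_eq_mul, a2, zero_add]; module
  simp only [e2] at h2
  have hγ : u (ev k) ≠ 0 := fun h => by simp [h] at a1
  have b1 := h2.eq hX hq hn H (i := l) (j := k) (by simp [l1, l2])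
    (by simp [l2.symm, hjk.symm, hγ, sub_eq_zero, m1])
  have b2 := h2.eq hX hq hn H (i := l) (j := j) (by simp [l1, l2]) (by
    simp only [Pi.add_apply, Pi.smul_apply, Pi.single_eq_same, Pi.single_eq_of_ne hjk,
      Pi.single_eq_of_ne l1.symm, smul_eq_mul, mul_one, mul_zero, zero_add]
    refine mul_ne_zero hb fun h => m2 ?_
    linear_combination 2 * h - (m - 1) * a1)
  have b3 := h2.one
  simp only [Pi.add_apply, Pi.smul_apply, Pi.single_eq_same, Pi.single_eq_of_ne hjk,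
    Pi.single_eq_of_ne hjk.symm, Pi.single_eq_of_ne l1, Pi.single_eq_of_ne l1.symm,
    Pi.single_eq_of_ne l2, Pi.single_eq_of_ne l2.symm, smul_eq_mul, mul_one, mul_zero, zero_add,
    add_zero, one_mul, map_add, map_smul] at b1 b2 b3
  exact one_ne_zero (α := F) (by linear_combination -3 * a3 + 2 * (b3 + b1 + b2) - 6 * a5)

theorem le_mon_GL : X ≤ monG ι F := fun g hg p => by
  by_contra hp
  push Not at hp
  obtain ⟨u, h, hu⟩ := (pr_ev p).map (act_self hg)
  set v := (g : Matrix ι ι F) *ᵥ ev p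
  obtain ⟨k, hk⟩ : ∃ k, u (ev k) ≠ 0 := by
    by_contra h1
    push Not at h1
    have := h.one
    rw [dual_eq_sum] at this; simp [h1] at this
  obtain ⟨j, hjk, hj⟩ : ∃ j, j ≠ k ∧ v j ≠ 0 := by
    by_contra h1
    push Not at h1
    exact hp k (v k) (funext fun i => by by_cases hi : i = k <;> simp [hi, h1])
  obtain ⟨l, l0, l1, -⟩ := exists_avoid hq 0 1 0 0
  set a := (l - 1) * v j * u (ev j)
  obtain ⟨m, m0, m1, m2, m3⟩ := exists_avoid hq 0 1 (1 - l / a) (1 - 1 / a)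
  have b1 : l + (m - 1) * a ≠ 0 := fun e => by
    have : a ≠ 0 := by rintro h; simp [h, l0] at e
    exact m2 (by field_simp; linear_combination e)
  have b2 : 1 + (m - 1) * a ≠ 0 := fun e => by
    have : a ≠ 0 := by rintro h; simp [h] at e
    exact m3 (by field_simp; linear_combination e)
  obtain ⟨u', h1, -⟩ := (pr_ev k).map ((h.act hX (div_ne_zero b2 b1)).mul
    (((pr_ev j).act hX m0).mul (h.act hX l0)))
  refine Pr.not_two hX hq hn H hjk (b := (m - 1) * ((l - 1) * u (ev k) * v j)) (u := u')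
    (by simp [sub_eq_zero, m1, l1, hk, hj]) ?_
  convert h1 using 1
  simp only [map_add, map_smul, h.one, LinearMap.proj_apply, Pi.single_eq_of_ne hjk, smul_eq_mul,
    zero_add, mul_one]
  have : ((1 + (m - 1) * a) / (l + (m - 1) * a) - 1) * (u (ev k) + (l - 1) * u (ev k) +
      (m - 1) * ((l - 1) * u (ev k) * v j) * u (ev j)) = -((l - 1) * u (ev k)) := by
    field_simp; ring
  rw [this]; module

end Gl

section Quot
variable (i₀ : ι)

/-- forget one coordinate -/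
def res : (ι → F) →ₗ[F] ({i // i ≠ i₀} → F) := LinearMap.funLeft F F Subtype.val

/-- extend by zero -/
def ext : ({i // i ≠ i₀} → F) →ₗ[F] (ι → F) where
  toFun w i := if h : i = i₀ then 0 else w ⟨i, h⟩
  map_add' _ _ := funext fun i => by by_cases h : i = i₀ <;> simp [h]
  map_smul' _ _ := funext fun i => by by_cases h : i = i₀ <;> simp [h]

omit [Fintype ι] in
theorem res_ext (w : {i // i ≠ i₀} → F) : res i₀ (ext i₀ w) = w :=
  funext fun i => dif_neg i.2

omit [Fintype ι] in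
theorem ext_zero (w : {i // i ≠ i₀} → F) : ext i₀ w i₀ = 0 := dif_pos rfl

omit [Fintype ι] in
theorem res_ev : res i₀ (ev i₀ : ι → F) = 0 := funext fun i => Pi.single_eq_of_ne i.2 _

omit [Fintype ι] in
theorem ext_res (v : ι → F) : ext i₀ (res i₀ v) + v i₀ • ev i₀ = v := funext fun i => by
  by_cases h : i = i₀ <;> simp [ext, res, h]

omit [Fintype ι] in
theorem ext_ev (i : {i // i ≠ i₀}) : ext i₀ (ev i) = (ev i.1 : ι → F) := funext fun j => by
  by_cases h : j = i₀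
  · simp [ext, h, i.2.symm]
  · simp [ext, h, Pi.single_apply, Subtype.ext_iff]

theorem exists_lift (a : GL {i // i ≠ i₀} F) : ∃ x ∈ specialLinear ι F, ∃ d : F,
    ∀ v, (x : Matrix ι ι F) *ᵥ v =
      ext i₀ ((a : Matrix {i // i ≠ i₀} {i // i ≠ i₀} F) *ᵥ res i₀ v) + (d * v i₀) • ev i₀ := by
  have key : ∀ a : Matrix {i // i ≠ i₀} {i // i ≠ i₀} F, ∃ N : Matrix ι ι F,
      ∀ v, N *ᵥ v = ext i₀ (a *ᵥ res i₀ v) + v i₀ • ev i₀ := fun a =>
    exists_matrix (ext i₀ ∘ₗ a.mulVecLin ∘ₗ res i₀ + (pj i₀).smulRight (ev i₀))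
  obtain ⟨N, hN⟩ := key a
  obtain ⟨N', hN'⟩ := key (a⁻¹ : GL _ F)
  obtain ⟨g, rfl⟩ := exists_gl_of_mul (X := N) (Y := N') (ext_mulVec fun v => by
    rw [← mulVec_mulVec, hN, hN', map_add, map_smul, res_ext, res_ev, smul_zero, add_zero,
      mulVec_inv_mulVec, one_mulVec, Pi.add_apply, ext_zero]
    simpa using ext_res i₀ v)
  have h0 : (g : Matrix ι ι F).det ≠ 0 := g.det_ne_zero
  obtain ⟨t, e1, e2⟩ := exists_hom (F := F) (v := ev i₀)
    (φ := ((g : Matrix ι ι F).det⁻¹ - 1) • pj i₀) (by simpa)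
  refine ⟨t * g, mem_SL.2 ?_, (g : Matrix ι ι F).det⁻¹, fun v => ?_⟩
  · rw [Units.val_mul, det_mul, e1]; simp [h0]
  · rw [Units.val_mul, ← mulVec_mulVec, e2, hN]; simp [ext_zero]; module

variable {i₀}

theorem exists_bar {y : GL ι F} {c : F} (h : (y : Matrix ι ι F) *ᵥ ev i₀ = c • ev i₀) :
    ∃ a : GL {i // i ≠ i₀} F, ∀ v, (a : Matrix {i // i ≠ i₀} {i // i ≠ i₀} F) *ᵥ res i₀ v =
      res i₀ ((y : Matrix ι ι F) *ᵥ v) := by
  have key : ∀ (y : Matrix ι ι F) (c : F), y *ᵥ ev i₀ = c • ev i₀ →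
      ∃ N : Matrix {i // i ≠ i₀} {i // i ≠ i₀} F, ∀ v, N *ᵥ res i₀ v = res i₀ (y *ᵥ v) :=
    fun y c h => by
      obtain ⟨N, hN⟩ := exists_matrix (res i₀ ∘ₗ y.mulVecLin ∘ₗ ext i₀)
      refine ⟨N, fun v => ?_⟩
      conv_rhs => rw [← ext_res i₀ v, mulVec_add, mulVec_smul, h, map_add, map_smul, map_smul,
        res_ev, smul_zero, smul_zero, add_zero]
      exact hN _
  obtain ⟨N, hN⟩ := key _ _ h
  obtain ⟨N', hN'⟩ := key _ _ (inv_of_ev h)
  obtain ⟨g, rfl⟩ := exists_gl_of_mul (X := N) (Y := N') (ext_mulVec fun v => by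
    rw [← res_ext i₀ v, ← mulVec_mulVec, hN', hN, mulVec_inv_mulVec, one_mulVec])
  exact ⟨g, hN⟩

variable (i₀) in
/-- the group induced on the quotient by a coordinate line -/
def bar (X : Subgroup (GL ι F)) : Subgroup (GL {i // i ≠ i₀} F) where
  carrier := {a | ∃ x ∈ X, ∀ v, (a : Matrix {i // i ≠ i₀} {i // i ≠ i₀} F) *ᵥ res i₀ v =
    res i₀ ((x : Matrix ι ι F) *ᵥ v)}
  one_mem' := ⟨1, X.one_mem, by simp⟩
  mul_mem' := by
    rintro a b ⟨x, hx, h⟩ ⟨y, hy, h'⟩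
    exact ⟨x * y, X.mul_mem hx hy, fun v => by
      rw [Units.val_mul, Units.val_mul, ← mulVec_mulVec, ← mulVec_mulVec, h', h]⟩
  inv_mem' := by
    rintro a ⟨x, hx, h⟩
    refine ⟨x⁻¹, X.inv_mem hx, fun v => ?_⟩
    conv_lhs => rw [← mulVec_inv_mulVec x v, ← h, inv_mulVec_mulVec]

theorem lift_mon {a : GL {i // i ≠ i₀} F} (ha : a ∈ monG _ F) {x : GL ι F} {d : F}
    (h : ∀ v, (x : Matrix ι ι F) *ᵥ v =
      ext i₀ ((a : Matrix {i // i ≠ i₀} {i // i ≠ i₀} F) *ᵥ res i₀ v) + (d * v i₀) • ev i₀) :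
    x ∈ monG ι F := fun i => by
  by_cases hi : i = i₀
  · exact ⟨i₀, d, by rw [hi, h, res_ev]; simp⟩
  · obtain ⟨j, c, e⟩ := ha ⟨i, hi⟩
    refine ⟨j, c, ?_⟩
    rw [h, ← ext_ev i₀ ⟨i, hi⟩, res_ext, e, ext_zero, map_smul, ext_ev]; simp

theorem hom_of_res {z : Matrix ι ι F} {T : (ι → F) →ₗ[F] (ι → F)}
    (h : ∀ v, res i₀ (z *ᵥ v) = res i₀ (T v)) :
    ∃ χ : Dual F (ι → F), ∀ v, z *ᵥ v = T v + χ v • ev i₀ :=
  ⟨pj i₀ ∘ₗ (z.mulVecLin - T), fun v => by
    rw [← ext_res i₀ (z *ᵥ v), h]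
    conv_rhs => rw [← ext_res i₀ (T v)]
    simp; module⟩

end Quot

end CA.MaxL3
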