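import Cfsg.Agent.Lib.Lin.MaxL3

/-! Maximality of the monomial group and of decomposition stabilisers in `SL`. -/

namespace CA.MaxL4

open Cfsg Cfsg.Geo Matrix CA.AschBase CA.AschKron CA.AschProp CA.AschProp2
  CA.AschDesc CA.AschFG CA.AschFG5 CA.AschSL CA.MaxTv CA.MaxL1 CA.MaxL2 CA.MaxL3 Module
open scoped MatrixGroups

variable {ι : Type} [Fintype ι] [DecidableEq ι] {F : Type*} [Field F]
variable {X : Subgroup (GL ι F)}

theorem exists_gen [Fintype F] (hq : 5 ≤ Fintype.card F) :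
    ∃ l : F, l ≠ 0 ∧ l ≠ 1 ∧ l ^ 2 ≠ 1 ∧ l ^ 3 ≠ 1 := by
  classical
  obtain ⟨g, hg⟩ := IsCyclic.exists_generator (α := Fˣ)
  have h := orderOf_eq_card_of_forall_mem_zpowers hg
  rw [Nat.card_eq_fintype_card, Fintype.card_units] at h
  have key : ∀ n, n ≠ 0 → n < 4 → (g : F) ^ n ≠ 1 := fun n h1 h2 e =>
    pow_ne_one_of_lt_orderOf h1 (by omega : n < orderOf g) (Units.ext (by simpa using e))
  exact ⟨g, g.ne_zero, by simpa using key 1 (by omega) (by omega), key 2 (by omega) (by omega),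
    key 3 (by omega) (by omega)⟩

theorem exists_abc [Fintype F] (hq : 5 ≤ Fintype.card F) :
    ∃ a b c : F, a * b * c = 1 ∧ a + b + c = 3 ∧ a ≠ 1 := by
  obtain ⟨t, h0, h1, h2⟩ : ∃ t : F, t ≠ 0 ∧ 1 + t ≠ 0 ∧ 1 + t + t ^ 2 ≠ 0 := by
    by_cases h : ∃ w : F, 1 + w + w ^ 2 = 0
    · obtain ⟨w, hw⟩ := h
      obtain ⟨t, a, b, c, d⟩ := exists_avoid hq (0 : F) (-1) w (-1 - w)
      refine ⟨t, a, fun e => b (by linear_combination e), fun e => ?_⟩
      have : (t - w) * (t - (-1 - w)) = 0 := by linear_combination e - hw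
      simp only [mul_eq_zero, sub_eq_zero] at this
      tauto
    · obtain ⟨t, a, b, -⟩ := exists_avoid hq (0 : F) (-1) 0 0
      exact ⟨t, a, fun e => b (by linear_combination e), fun e => h ⟨t, e⟩⟩
  refine ⟨1 - (1 + t + t ^ 2) / (t * (1 + t)), 1 - (1 + t + t ^ 2) / (t * (1 + t)) * t,
    1 + (1 + t + t ^ 2) / (t * (1 + t)) * (1 + t), by field_simp; ring, by ring, by simp [h0, h1, h2]⟩

theorem exists_cyc {i j k : ι} (h1 : j ≠ i) (h2 : k ≠ i) (h3 : k ≠ j) {x : ι → F} (xi : x i ≠ 0)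
    (xj : x j ≠ 0) (xk : x k ≠ 0) : ∃ s ∈ monG ι F ⊓ specialLinear ι F,
      ∀ y, (s : Matrix ι ι F) *ᵥ y = y + (y k * x i / x k - y i) • ev i +
        (y i * x j / x i - y j) • ev j + (y j * x k / x j - y k) • ev k := by
  have key : ∀ {i j : ι}, j ≠ i → x i ≠ 0 → x j ≠ 0 → ∃ w ∈ monG ι F,
      (w : Matrix ι ι F).det = -1 ∧ ∀ y, (w : Matrix ι ι F) *ᵥ y =
        y + (y j / x j - y i / x i) • (x i • ev i - x j • ev j) := fun {i j} h xi xj => by
    obtain ⟨w, a, b⟩ := exists_hom (F := F) (v := x i • ev i - x j • ev j)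
      (φ := (x j)⁻¹ • pj j - (x i)⁻¹ • pj i) (by simp [h, h.symm, xi, xj])
    refine ⟨w, fun r => ?_, by rw [a]; simp [h, h.symm, xi, xj], fun y => by
      rw [b]; simp [div_eq_inv_mul]⟩
    rw [b]
    by_cases ri : r = i
    · exact ⟨j, x j / x i, by subst ri; simp [h]; match_scalars <;> field_simp <;> ring⟩
    by_cases rj : r = j
    · exact ⟨i, x i / x j, by subst rj; simp [h.symm]; match_scalars <;> field_simp <;> ring⟩
    · exact ⟨r, 1, by simp [Ne.symm ri, Ne.symm rj]⟩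
  obtain ⟨w, a1, a2, a3⟩ := key h1 xi xj
  obtain ⟨w', b1, b2, b3⟩ := key h3 xj xk
  refine ⟨w * w', ⟨mul_mem a1 b1, mem_SL.2 (by rw [Units.val_mul, det_mul, a2, b2]; simp)⟩,
    fun y => ?_⟩
  rw [Units.val_mul, ← mulVec_mulVec, a3, b3]
  simp [h1.symm, h2.symm, h3.symm]
  match_scalars <;> field_simp <;> ring

variable [Fintype F] (hX : monG ι F ⊓ specialLinear ι F ≤ X) (hS : X ≤ specialLinear ι F)
  (hq : 5 ≤ Fintype.card F) (hn : 6 ≤ Fintype.card ι) (H : ¬ specialLinear ι F ≤ X)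
include hX hS hq hn H

theorem mon_of_fix {y : GL ι F} (hy : y ∈ X) {i : ι} {c : F}
    (h : (y : Matrix ι ι F) *ᵥ ev i = c • ev i) : y ∈ monG ι F := by
  obtain ⟨l, l0, l1, -⟩ := exists_gen hq
  have T : ∀ {j : ι} {φ : Dual F (ι → F)}, Tv X (ev j) φ → φ (ev j) = 0 → φ = 0 :=
    fun h h0 => by_contra fun h1 => H (SL_le_of_ev hX (by omega) l0 l1 h h0 h1)
  have hc : 5 ≤ Fintype.card {j // j ≠ i} := by simp; omega
  have h1 : monG _ F ≤ bar i X := fun a ha => by
    obtain ⟨x, e1, d, e2⟩ := exists_lift i a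
    exact ⟨x, hX ⟨lift_mon ha e2, e1⟩, fun v => by
      rw [e2, map_add, map_smul, res_ev, res_ext, smul_zero, add_zero]⟩
  by_cases h2 : specialLinear _ F ≤ bar i X
  · exfalso
    obtain ⟨a, b, hab⟩ := Fintype.exists_pair_of_one_lt_card (by omega : 1 < Fintype.card {j // j ≠ i})
    have hab' : a.1 ≠ b.1 := fun e => hab (Subtype.ext e)
    obtain ⟨τ, t1, t2⟩ := tv_SL (v := ev a) (φ := (pj b : Dual F _)) (by simp [hab.symm])
    obtain ⟨z, hz, e⟩ := h2 t1
    obtain ⟨χ, e1⟩ := hom_of_res (F := F) (i₀ := i) (z := z)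
      (T := LinearMap.id + (pj b.1).smulRight (ev a.1)) fun v => by
        rw [← e, t2]
        simp only [LinearMap.add_apply, LinearMap.id_apply, LinearMap.smulRight_apply, map_add,
          map_smul, ← ext_ev, res_ext]; rfl
    simp only [LinearMap.add_apply, LinearMap.id_apply, LinearMap.smulRight_apply,
      LinearMap.proj_apply] at e1
    obtain ⟨τ', t3, t4⟩ := tv_SL (v := ev a.1) (φ := -(pj b.1 : Dual F _)) (by simp [hab'.symm])
    have e2 : χ (ev i) = 0 := by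
      have := det_of_hom (g := (τ' : Matrix ι ι F) * (z : Matrix ι ι F)) (v := ev i) (φ := χ) fun x => by
        rw [← mulVec_mulVec, e1, t4]; simp [hab'.symm, b.2]; module
      rw [det_mul, mem_SL.1 t3, mem_SL.1 (hS hz)] at this
      linear_combination -this
    have e3 : ∀ k, k ≠ i → k ≠ a.1 → k ≠ b.1 → ∀ j, j ≠ i → j ≠ k → χ (ev j) = 0 :=
      fun k k1 k2 k3 j j1 j2 => by
      have := T (tv_of_diff ((act_hp hX k1.symm l0).mul ((act_self hz).mul
        (act_hp hX k1.symm (inv_ne_zero l0)))) (act_self hz) (a := ev i)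
        (χ := (l - 1) • χ + (l * (l - 1) * χ (ev k)) • pj k) (by rw [e1]; simp [b.2, e2])
        fun x => by
          simp only [e1]
          simp [k1, k1.symm, k2, k3.symm, a.2.symm, b.2, e2]
          match_scalars <;> field_simp <;> ring) (by simp [e2, k1])
      simpa [j2.symm, sub_eq_zero, l1] using LinearMap.congr_fun this (ev j)
    obtain ⟨k, k1, k2, k3⟩ := exists_fourth (ι := ι) (by omega) i a b
    obtain ⟨k', hk'⟩ := exists_not_mem {i, a.1, b.1, k}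
      (Finset.card_le_four.trans_lt (by omega))
    simp only [Finset.mem_insert, Finset.mem_singleton, not_or] at hk'
    have e4 : ∀ j, χ (ev j) = 0 := fun j => by
      by_cases h1 : j = i
      · rwa [h1]
      by_cases h2 : j = k
      · exact e3 k' hk'.1 hk'.2.1 hk'.2.2.1 j h1 (h2 ▸ Ne.symm hk'.2.2.2)
      · exact e3 k k1 k2 k3 j h1 h2
    have := T (j := a.1) (φ := pj b.1) ⟨z, hz, fun x => by rw [e1, dual_eq_sum χ]; simp [e4]⟩
      (by simp [hab'.symm])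
    simpa using LinearMap.congr_fun this (ev b.1)
  · obtain ⟨a, ha⟩ := exists_bar h
    obtain ⟨x, e1, d, e2⟩ := exists_lift i a
    have hx := lift_mon (le_mon_GL h1 hq (by omega) h2 ⟨y, hy, ha⟩) e2
    obtain ⟨χ, e3⟩ := hom_of_res (F := F) (i₀ := i) (z := (y * x⁻¹ : GL ι F)) (T := LinearMap.id)
      fun v => by
        rw [Units.val_mul, ← mulVec_mulVec, ← ha]
        conv_rhs => rw [LinearMap.id_apply, ← mulVec_inv_mulVec x v, e2, map_add, map_smul, res_ev,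
          res_ext, smul_zero, add_zero]
    have hz := X.mul_mem hy (X.inv_mem (hX ⟨hx, e1⟩))
    have := det_of_hom e3
    rw [mem_SL.1 (hS hz), left_eq_add] at this
    have e4 := T ⟨_, hz, e3⟩ this
    have : y * x⁻¹ = 1 := Units.ext (ext_mulVec fun v => by rw [e3, e4]; simp)
    rwa [mul_inv_eq_one.1 this]

theorem mon_of_ev {y : GL ι F} (hy : y ∈ X) {i j : ι} {c : F}
    (h : (y : Matrix ι ι F) *ᵥ ev i = c • ev j) : y ∈ monG ι F := by
  obtain ⟨g, g1, e, -, -, g3⟩ := exists_mono' (F := F) (Equiv.swap i j) i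
  have := mon_of_mono g3 i
  rw [Equiv.swap_apply_left] at this
  have := mon_of_fix hX hS hq hn H (X.mul_mem (hX ⟨mono_mem g3, g1⟩) hy) (i := i) (c := c * e i)
    (by rw [Units.val_mul, ← mulVec_mulVec, h, mulVec_smul, this, smul_smul])
  exact (Subgroup.mul_mem_cancel_left _ (mono_mem g3)).1 this

theorem mon_conj {g s : GL ι F} (hg : g ∈ X) (hs : s ∈ X) {p : ι}
    (h : (s : Matrix ι ι F) *ᵥ ((g : Matrix ι ι F) *ᵥ ev p) = (g : Matrix ι ι F) *ᵥ ev p) :
    g⁻¹ * s * g ∈ monG ι F ∧ ∀ y, (s : Matrix ι ι F) *ᵥ ((g : Matrix ι ι F) *ᵥ y) =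
      (g : Matrix ι ι F) *ᵥ (((g⁻¹ * s * g : GL ι F) : Matrix ι ι F) *ᵥ y) :=
  ⟨mon_of_ev hX hS hq hn H (X.mul_mem (X.mul_mem (X.inv_mem hg) hs) hg) (i := p) (j := p) (c := 1)
    (by rw [Units.val_mul, Units.val_mul, ← mulVec_mulVec, ← mulVec_mulVec, h, inv_mulVec_mulVec,
      one_smul]), fun y => by
    rw [Units.val_mul, Units.val_mul, ← mulVec_mulVec, ← mulVec_mulVec, mulVec_inv_mulVec]⟩

theorem supp_pair {g : GL ι F} (hg : g ∈ X) {p k l : ι} (hkl : k ≠ l)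
    (h1 : ((g : Matrix ι ι F) *ᵥ ev p) k = 0) (h2 : ((g : Matrix ι ι F) *ᵥ ev p) l = 0) {q : ι}
    (h3 : ((g : Matrix ι ι F) *ᵥ ev q) k ≠ 0) {i : ι} (hik : i ≠ k) (hil : i ≠ l) :
    ((g : Matrix ι ι F) *ᵥ ev q) i = 0 := by
  obtain ⟨m, m0, m1, m2, m3⟩ := exists_gen hq
  obtain ⟨s, hs, e⟩ := act_hp hX hkl m0
  obtain ⟨a1, a2⟩ := mon_conj hX hS hq hn H hg hs (p := p) (by
    rw [e]; simp only [h1, h2, mul_zero, zero_smul, add_zero])
  generalize g⁻¹ * s * g = t at a1 a2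
  have ei : ∀ x, ((s : Matrix ι ι F) *ᵥ x) i = x i := fun x => by rw [e]; simp [hik, hil]
  have ek : ∀ x, ((s : Matrix ι ι F) *ᵥ x) k = m * x k := fun x => by rw [e]; simp [hkl]; ring
  have e3 : ∀ x, (s : Matrix ι ι F) *ᵥ ((s : Matrix ι ι F) *ᵥ ((s : Matrix ι ι F) *ᵥ x)) =
      (1 + m + m⁻¹) • ((s : Matrix ι ι F) *ᵥ ((s : Matrix ι ι F) *ᵥ x)) -
        (1 + m + m⁻¹) • ((s : Matrix ι ι F) *ᵥ x) + x := fun x => by
    simp only [e]
    simp [hkl, hkl.symm]
    match_scalars <;> field_simp <;> ring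
  obtain ⟨q1, c1, b1⟩ := a1 q
  obtain ⟨q2, c2, b2⟩ := a1 q1
  obtain ⟨q3, c3, b3⟩ := a1 q2
  have f1 := a2 (ev q)
  rw [b1, mulVec_smul] at f1
  have f2 := congrArg ((s : Matrix ι ι F) *ᵥ ·) f1
  simp only [mulVec_smul] at f2
  rw [a2 (ev q1), b2, mulVec_smul] at f2
  have f3 := congrArg ((s : Matrix ι ι F) *ᵥ ·) f2
  simp only [mulVec_smul] at f3
  rw [a2 (ev q2), b3, mulVec_smul] at f3
  by_contra hi
  have n1 : q ≠ q1 := by
    rintro rfl
    have x1 := congrFun f1 i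
    have x2 := congrFun f1 k
    simp only [ei, ek, Pi.smul_apply, smul_eq_mul] at x1 x2
    exact m1 (mul_right_cancel₀ (mul_ne_zero hi h3) (by
      linear_combination ((g : Matrix ι ι F) *ᵥ ev q) i * x2 - ((g : Matrix ι ι F) *ᵥ ev q) k * x1))
  have n2 : q ≠ q2 := by
    rintro rfl
    have x1 := congrFun f2 i
    have x2 := congrFun f2 k
    simp only [ei, ek, Pi.smul_apply, smul_eq_mul] at x1 x2
    exact m2 (mul_right_cancel₀ (mul_ne_zero hi h3) (by
      linear_combination ((g : Matrix ι ι F) *ᵥ ev q) i * x2 - ((g : Matrix ι ι F) *ᵥ ev q) k * x1))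
  have n3 : q ≠ q3 := by
    rintro rfl
    have x1 := congrFun f3 i
    have x2 := congrFun f3 k
    simp only [ei, ek, Pi.smul_apply, smul_eq_mul] at x1 x2
    exact m3 (mul_right_cancel₀ (mul_ne_zero hi h3) (by
      linear_combination ((g : Matrix ι ι F) *ᵥ ev q) i * x2 - ((g : Matrix ι ι F) *ᵥ ev q) k * x1))
  have f4 := e3 ((g : Matrix ι ι F) *ᵥ ev q)
  rw [f3, f2, f1] at f4
  have := congrArg (fun x => (((g⁻¹ : GL ι F) : Matrix ι ι F) *ᵥ x) q) f4
  simp only [mulVec_smul, mulVec_add, mulVec_sub, inv_mulVec_mulVec] at this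
  simp [n1, n2, n3] at this

theorem mon_of_two {g : GL ι F} (hg : g ∈ X) {p k l : ι} (hkl : k ≠ l)
    (h1 : ((g : Matrix ι ι F) *ᵥ ev p) k = 0) (h2 : ((g : Matrix ι ι F) *ᵥ ev p) l = 0) :
    g ∈ monG ι F := by
  have row : ∀ k, ∃ q, ((g : Matrix ι ι F) *ᵥ ev q) k ≠ 0 := fun k => by
    by_contra h
    push Not at h
    have := dual_eq_sum (pj k ∘ₗ (g : Matrix ι ι F).mulVecLin)
      (((g⁻¹ : GL ι F) : Matrix ι ι F) *ᵥ ev k)
    simp only [LinearMap.comp_apply, mulVecLin_apply, LinearMap.proj_apply, mulVec_inv_mulVec,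
      h] at this
    simp at this
  obtain ⟨q, hq1⟩ := row k
  obtain ⟨i, i1, i2⟩ := exists_third (ι := ι) (by omega) k l
  obtain ⟨j, j1, j2, j3⟩ := exists_fourth (ι := ι) (by omega) k l i
  obtain ⟨m, hm⟩ := exists_not_mem {k, l, i, j} (Finset.card_le_four.trans_lt (by omega))
  simp only [Finset.mem_insert, Finset.mem_singleton, not_or] at hm
  have a := fun i => supp_pair hX hS hq hn H hg hkl h1 h2 hq1 (i := i)
  obtain ⟨r, hr⟩ := row i
  refine mon_of_ev hX hS hq hn H hg (i := r) (j := i) (c := ((g : Matrix ι ι F) *ᵥ ev r) i)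
    (funext fun x => ?_)
  by_cases hx : x = i
  · simp [hx]
  simp only [Pi.smul_apply, Pi.single_eq_of_ne hx, smul_zero]
  by_cases hx' : x = j
  · exact supp_pair hX hS hq hn H hg (Ne.symm hm.2.2.1) (a i i1 i2) (a m hm.1 hm.2.1) hr hx
      (hx' ▸ Ne.symm hm.2.2.2)
  · exact supp_pair hX hS hq hn H hg j3.symm (a i i1 i2) (a j j1 j2) hr hx hx'

theorem le_mon : X ≤ monG ι F := fun g hg => by
  by_contra hg'
  have two : ∀ {p k l}, k ≠ l → ((g : Matrix ι ι F) *ᵥ ev p) k = 0 →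
      ((g : Matrix ι ι F) *ᵥ ev p) l ≠ 0 := fun h h1 h2 => hg' (mon_of_two hX hS hq hn H hg h h1 h2)
  obtain ⟨p⟩ : Nonempty ι := Fintype.card_pos_iff.1 (by omega)
  set x := (g : Matrix ι ι F) *ᵥ ev p with hx
  obtain ⟨z, hz⟩ : ∃ z, ∀ i, i ≠ z → x i ≠ 0 := by
    by_cases h : ∃ z, x z = 0
    · obtain ⟨z, h⟩ := h
      exact ⟨z, fun i hi => two hi.symm h⟩
    · exact ⟨p, fun i _ hi => h ⟨i, hi⟩⟩
  obtain ⟨i, i0, -⟩ := exists_third (ι := ι) (by omega) z z
  obtain ⟨j, j0, j1⟩ := exists_third (ι := ι) (by omega) z i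
  obtain ⟨k, k0, k1, k2⟩ := exists_fourth (ι := ι) (by omega) z i j
  obtain ⟨a, ha⟩ := exists_not_mem {z, i, j, k} (Finset.card_le_four.trans_lt (by omega))
  obtain ⟨b, hb⟩ := exists_not_mem {a, z, i, j, k} (Finset.card_le_five.trans_lt (by omega))
  simp only [Finset.mem_insert, Finset.mem_singleton, not_or] at ha hb
  have xi := hz i i0
  have xj := hz j j0
  have xk := hz k k0
  obtain ⟨s, hs, e⟩ := exists_cyc j1 k1 k2 xi xj xk
  have ec : ∀ r, r ≠ i → r ≠ j → r ≠ k → ∀ y, ((s : Matrix ι ι F) *ᵥ y) r = y r :=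
    fun r a b c y => by rw [e]; simp [a, b, c]
  have e3 : ∀ y, (s : Matrix ι ι F) *ᵥ ((s : Matrix ι ι F) *ᵥ ((s : Matrix ι ι F) *ᵥ y)) = y :=
    fun y => by
      simp only [e]
      simp [j1, k1, k2, j1.symm, k1.symm, k2.symm]
      match_scalars <;> field_simp <;> ring
  obtain ⟨a1, a2⟩ := mon_conj hX hS hq hn H hg (hX hs) (p := p) (by
    rw [e, ← hx]; simp [xi, xj, xk])
  generalize g⁻¹ * s * g = t at a1 a2
  obtain ⟨q, hq0⟩ : ∃ q, (s : Matrix ι ι F) *ᵥ ((g : Matrix ι ι F) *ᵥ ev q) ≠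
      (g : Matrix ι ι F) *ᵥ ev q := by
    by_contra h
    push Not at h
    have h1 : s * g = g := Units.ext (Matrix.ext fun r q => by
      simpa using congrFun ((mulVec_mulVec _ _ _).symm.trans (h q)) r)
    have := congrFun (e (ev i)) i
    rw [mul_eq_right.1 h1] at this
    simp [j1.symm, k1.symm, k1] at this
  obtain ⟨q1, c1, b1⟩ := a1 q
  obtain ⟨q2, c2, b2⟩ := a1 q1
  have f1 := a2 (ev q)
  rw [b1, mulVec_smul] at f1
  have f2 := congrArg ((s : Matrix ι ι F) *ᵥ ·) f1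
  simp only [mulVec_smul] at f2
  rw [a2 (ev q1), b2, mulVec_smul] at f2
  have n1 : q ≠ q1 := by
    rintro rfl
    have hc : c1 ≠ 1 := by rintro rfl; exact hq0 (by rw [f1, one_smul])
    have x1 := congrFun f1 a
    have x2 := congrFun f1 b
    rw [ec a ha.2.1 ha.2.2.1 ha.2.2.2] at x1
    rw [ec b hb.2.2.1 hb.2.2.2.1 hb.2.2.2.2] at x2
    simp only [Pi.smul_apply, smul_eq_mul] at x1 x2
    refine two (p := q) hb.1 ?_ ?_
    · exact (mul_eq_zero.1 (by linear_combination -x2 : (c1 - 1) * _ = 0)).resolve_left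
        (sub_ne_zero.2 hc)
    · exact (mul_eq_zero.1 (by linear_combination -x1 : (c1 - 1) * _ = 0)).resolve_left
        (sub_ne_zero.2 hc)
  have n2 : q1 ≠ q2 := by rintro rfl; exact n1 (inj_of_ev b1 b2)
  have n3 : q ≠ q2 := by
    rintro rfl
    have f3 := e3 ((g : Matrix ι ι F) *ᵥ ev q)
    rw [f2, mulVec_smul, mulVec_smul, f1] at f3
    have := congrArg (fun x => (((g⁻¹ : GL ι F) : Matrix ι ι F) *ᵥ x) q) f3
    simp only [mulVec_smul, inv_mulVec_mulVec] at this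
    simp [n1] at this
  set y := ((g⁻¹ : GL ι F) : Matrix ι ι F) *ᵥ ev a with hy
  have ty : (t : Matrix ι ι F) *ᵥ y = y := mulVec_injective_gl g (by
    simp only [← a2, hy, mulVec_inv_mulVec, e]
    simp [Ne.symm ha.2.1, Ne.symm ha.2.2.1, Ne.symm ha.2.2.2])
  have y1 := row_of_mon a1 b1 y
  have y2 := row_of_mon a1 b2 y
  rw [ty] at y1 y2
  have y0 : y q ≠ 0 := fun h => hg' (inv_mem_iff.1
    (mon_of_two hX hS hq hn H (X.inv_mem hg) n1 h (by rw [← hy, y1, h, mul_zero])))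
  obtain ⟨α, β, γ, d1, d2, d3⟩ := exists_abc hq
  have α0 : α ≠ 0 := by rintro rfl; simp at d1
  have γ0 : γ ≠ 0 := by rintro rfl; simp at d1
  obtain ⟨d, hd, ed⟩ := (act_hp hX n1 α0).mul (act_hp hX n2.symm γ0)
  have ey : (d : Matrix ι ι F) *ᵥ y = y + ((α - 1) * y q) • ev q + ((β - 1) * y q * c1) • ev q1 +
      ((γ - 1) * y q * c1 * c2) • ev q2 := by
    rw [ed, show β = α⁻¹ * γ⁻¹ by field_simp; linear_combination d1]
    simp [n1, n2, n3, y1, y2]
    module
  have ew : ((g * d * g⁻¹ : GL ι F) : Matrix ι ι F) *ᵥ ev a = (g : Matrix ι ι F) *ᵥ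
      ((d : Matrix ι ι F) *ᵥ y) := by
    rw [Units.val_mul, Units.val_mul, ← mulVec_mulVec, ← mulVec_mulVec]
  have er : ∀ r, r ≠ i → r ≠ j → r ≠ k →
      (((g * d * g⁻¹ : GL ι F) : Matrix ι ι F) *ᵥ ev a) r = (ev a : ι → F) r := fun r r1 r2 r3 => by
    have x1 := congrFun f1 r
    have x2 := congrFun f2 r
    simp only [ec r r1 r2 r3, Pi.smul_apply, smul_eq_mul] at x1 x2
    rw [ew, ey]
    simp only [mulVec_add, mulVec_smul, hy, mulVec_inv_mulVec, Pi.add_apply, Pi.smul_apply,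
      smul_eq_mul]
    linear_combination -(β - 1) * y q * x1 - (γ - 1) * y q * x2 +
      y q * ((g : Matrix ι ι F) *ᵥ ev q) r * d2
  obtain ⟨r, μ, h⟩ := mon_of_two hX hS hq hn H (X.mul_mem (X.mul_mem hg hd) (X.inv_mem hg)) hb.2.1
    (p := a) (by rw [er b hb.2.2.1 hb.2.2.2.1 hb.2.2.2.2]; simp [hb.1])
    (by rw [er z i0.symm j0.symm k0.symm]; simp [Ne.symm ha.1]) a
  have h1 := er a ha.2.1 ha.2.2.1 ha.2.2.2
  rw [h] at h1
  obtain rfl : a = r := by_contra fun h2 => by simp [h2] at h1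
  have h2 : μ = 1 := by simpa using h1
  rw [ew, h2, one_smul, ← mulVec_inv_mulVec g (ev a), ← hy] at h
  have h3 := congrFun (ey.symm.trans (mulVec_injective_gl g h)) q
  simp [n1, n3, sub_eq_zero, d3, y0] at h3

omit hX hS hq hn H

omit [Fintype F] in
theorem over_tr' {κ : Type} [Fintype κ] [DecidableEq κ] (e : ι ≃ κ) (P : GL ι F)
    {M : Subgroup (GL ι F)} (h : ∀ Y : Subgroup (GL κ F), Y ≤ specialLinear κ F →
      (∀ g ∈ specialLinear κ F, trGL e P g ∈ M → g ∈ Y) →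
      (∀ g ∈ Y, trGL e P g ∈ M) ∨ specialLinear κ F ≤ Y) (hX : M ⊓ specialLinear ι F ≤ X)
    (hS : X ≤ specialLinear ι F) : X ≤ M ∨ specialLinear ι F ≤ X := by
  refine (h (X.comap (trGL e P).toMonoidHom) (fun g hg => (trGL_mem_SL e P).1 (hS hg)) fun g h1 h2 =>
    hX ⟨h2, (trGL_mem_SL e P).2 h1⟩).imp (fun h g hg => ?_) fun h g hg => ?_
  · simpa using h ((trGL e P).symm g) (by simpa using hg)
  · simpa using h ((trGL_mem_SL e P (g := (trGL e P).symm g)).1 (by simpa using hg))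

theorem max_dec {n : ℕ} (hn : 6 ≤ n) {t m : ℕ} {D : Fin t → Submodule F (Fin n → F)}
    (hD : IsMDecomposition m D) (h1 : m = 1 → 5 ≤ Fintype.card F)
    (h2 : m = 2 → 3 ≤ Fintype.card F) :
    IsMaximalIn (specialLinear (Fin n) F) (decompositionStabilizer D ⊓ specialLinear (Fin n) F) := by
  refine isMaximalIn_of ?_ fun X hX hS => ?_
  · have := nontrivial_fin (n := n) (by omega)
    obtain ⟨N, hN0, hN, hr, hg⟩ := exists_root (ι := Fin n) (F := F)
    obtain ⟨g, hg1, e⟩ := hg 1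
    rw [one_smul] at e
    have e' : (g : Matrix (Fin n) (Fin n) F) - 1 = N := by rw [e, add_sub_cancel_left]
    exact (qs_SL (by omega)).not_le_decomp hD hg1 (not_scalar_of_sq_zero e hN0 hN) (by rw [e', hN])
      (.inr (by rw [e']; have := hD.pos; omega))
  have hc := decomp_card hD
  rw [Fintype.card_fin] at hc
  by_cases hm : m = 1
  · subst hm
    obtain ⟨e, P, h⟩ := exists_blocks' hD
    have key : ∀ g ∈ monG (Fin 1 × Fin t) F, trGL e P g ∈ decompositionStabilizer D := fun g hg =>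
      mem_decomp_of_forall hD fun i => by
        obtain ⟨j, c, hj⟩ := hg (0, i)
        refine ⟨j.2, fun v hv => ?_⟩
        obtain ⟨y, rfl⟩ := (trv e P).surjective v
        have : y = y (0, i) • ev (0, i) := funext fun ⟨a, l⟩ => by
          by_cases hl : l = i
          · simp [hl, Subsingleton.elim a 0]
          · simp [hl, (h i y).1 hv a l hl]
        rw [coe_trGL, tr_mulVec, h, this, mulVec_smul, hj]
        intro a l hl
        simp [Pi.single_apply, Prod.ext_iff, hl]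
    refine over_tr' e P (fun Y h3 h4 => or_iff_not_imp_right.2 fun H g hg => key g ?_) hX hS
    exact le_mon (fun g hg => h4 g hg.2 (key g hg.1)) h3 (h1 rfl) (by simp; omega) H hg
  · have := hD.pos
    refine over_dec hD (by omega) ?_ hX
    by_cases hm : m = 2
    · obtain ⟨l, a, b⟩ := exists_third (ι := Fin (Fintype.card F)) (by simpa using h2 hm)
        (Fintype.equivFin F 0) (Fintype.equivFin F 1)
      refine .inr ⟨by subst hm; omega, (Fintype.equivFin F).symm l, fun h => a ?_, fun h => b ?_⟩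
      <;> rw [← h] <;> simp
    · exact .inl (by omega)

end CA.MaxL4
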