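import Cfsg.Agent.Lib.Lin.MaxL2

/-! Overgroups of tensor product groups in `SL`, part one. -/

namespace CA.MaxL5

open Cfsg Cfsg.Geo Matrix CA.AschBase CA.AschKron CA.AschProp CA.AschProp2
  CA.AschDesc CA.AschFG CA.AschFG5 CA.AschSL CA.MaxTv CA.MaxL1 CA.MaxL2 Module
open scoped MatrixGroups Kronecker

variable {κ : Type} [Fintype κ] [DecidableEq κ] {μ : Type} [Fintype μ] [DecidableEq μ]
  {F : Type*} [Field F]

theorem exists_one {v : κ → F} (hv : v ≠ 0) : ∃ φ : Dual F (κ → F), φ v = 1 := by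
  obtain ⟨φ, -, h⟩ := exists_dual (W := ⊥) (v := v) (by simpa using hv) (1 : F)
  exact ⟨φ, h⟩

theorem exists_pair {v a : κ → F} (h : v ∉ F ∙ a) (c d : F) (ha : a ≠ 0) :
    ∃ φ : Dual F (κ → F), φ a = c ∧ φ v = d := by
  obtain ⟨φ, h1, h2⟩ := exists_dual h 1
  obtain ⟨ψ, h3⟩ := exists_one ha
  exact ⟨c • ψ + (d - c * ψ v) • φ, by simp [h3, h1 a (Submodule.mem_span_singleton_self a)],
    by simp [h2]⟩

omit [Fintype κ] [DecidableEq κ] in
theorem exists_vec {ψ : Dual F (κ → F)} (h : ψ ≠ 0) : ∃ c, ψ c = 1 := by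
  obtain ⟨c, hc⟩ := DFunLike.ne_iff.1 h
  exact ⟨(ψ c)⁻¹ • c, by simpa using inv_mul_cancel₀ hc⟩

theorem all_pairs {P : (κ → F) → Dual F (κ → F) → Prop}
    (hC : ∀ u ψ a (φ : Dual F (κ → F)), P u ψ → φ a = 0 → P (u + φ u • a) (ψ - ψ a • φ))
    (hS : ∀ u ψ (c : F), P u ψ → P (c • u) ψ ∧ P u (c • ψ)) {u : κ → F} {ψ : Dual F (κ → F)}
    (h : P u ψ) (hu : u ≠ 0) (hψ : ψ ≠ 0) (h0 : ψ u = 0) {u' : κ → F} {ψ' : Dual F (κ → F)}
    (h0' : ψ' u' = 0) : P u' ψ' := by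
  obtain ⟨ψ₁, a1, a2, a3⟩ : ∃ ψ₁, ψ₁ ≠ 0 ∧ ψ₁ u' = 0 ∧ P u' ψ₁ := by
    by_cases h1 : u' ∈ F ∙ u
    · obtain ⟨c, rfl⟩ := Submodule.mem_span_singleton.1 h1
      exact ⟨ψ, hψ, by simp [h0], (hS _ _ c h).1⟩
    obtain ⟨φ, b1, b2⟩ := exists_pair h1 1 1 hu
    refine ⟨ψ - ψ (u' - u) • φ, fun e => hψ (LinearMap.ext fun x => ?_), by simp [b2, h0], ?_⟩
    · simpa [b1, b2, mul_comm] using LinearMap.congr_fun e (x + φ x • (u' - u))
    · simpa [b1] using hC _ _ (u' - u) φ h (by simp [b1, b2])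
  obtain ⟨c, hc⟩ := exists_vec a1
  by_cases h1 : ∀ b, ψ₁ b = 0 → ψ' b = 0
  · convert (hS _ _ (ψ' c) a3).2
    refine LinearMap.ext fun x => ?_
    have := h1 (x - ψ₁ x • c) (by simp [hc])
    simp only [map_sub, map_smul, smul_eq_mul, sub_eq_zero] at this
    simp [this, mul_comm]
  · push Not at h1
    obtain ⟨b, b1, b2⟩ := h1
    simpa [a2, h0', hc, b1] using hC _ _ (c + ((1 - ψ' c) / ψ' b) • b) (ψ₁ - ψ') a3
      (by simp [hc, b1, b2])

/-- pure tensors -/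
def tp : (κ → F) →ₗ[F] (μ → F) →ₗ[F] (κ × μ → F) :=
  LinearMap.mk₂ F (fun u w p => u p.1 * w p.2) (fun _ _ _ => funext fun _ => by simp [add_mul])
    (fun _ _ _ => funext fun _ => by simp [mul_assoc]) (fun _ _ _ => funext fun _ => by simp [mul_add])
    (fun _ _ _ => funext fun _ => by simp [mul_left_comm])

/-- contraction of the second factor -/
def ct : Dual F (μ → F) →ₗ[F] (κ × μ → F) →ₗ[F] (κ → F) :=
  LinearMap.mk₂ F (fun χ x a => χ fun b => x (a, b)) (fun _ _ _ => rfl) (fun _ _ _ => rfl)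
    (fun χ _ _ => funext fun _ => χ.map_add _ _) (fun c χ _ => funext fun _ => χ.map_smul c _)

/-- contraction of the first factor -/
def cs : Dual F (κ → F) →ₗ[F] (κ × μ → F) →ₗ[F] (μ → F) :=
  LinearMap.mk₂ F (fun ψ x b => ψ fun a => x (a, b)) (fun _ _ _ => rfl) (fun _ _ _ => rfl)
    (fun χ _ _ => funext fun _ => χ.map_add _ _) (fun c χ _ => funext fun _ => χ.map_smul c _)

section Basic
omit [Fintype κ] [DecidableEq κ] [Fintype μ] [DecidableEq μ]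

theorem tp_apply (u : κ → F) (w : μ → F) (p : κ × μ) : tp u w p = u p.1 * w p.2 := rfl
theorem ct_apply (χ : Dual F (μ → F)) (x : κ × μ → F) (a : κ) :
    ct χ x a = χ fun b => x (a, b) := rfl
theorem cs_apply (ψ : Dual F (κ → F)) (x : κ × μ → F) (b : μ) :
    cs ψ x b = ψ fun a => x (a, b) := rfl

@[simp] theorem ct_tp (χ : Dual F (μ → F)) (u : κ → F) (w : μ → F) : ct χ (tp u w) = χ w • u :=
  funext fun a => (χ.map_smul (u a) w).trans (mul_comm _ _)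

@[simp] theorem cs_tp (ψ : Dual F (κ → F)) (u : κ → F) (w : μ → F) : cs ψ (tp u w) = ψ u • w :=
  funext fun b => by
    have : (fun a => tp u w (a, b)) = w b • u := funext fun a => mul_comm _ _
    rw [cs_apply, this, map_smul]; exact mul_comm _ _

theorem tp_eq_zero {u : κ → F} {w : μ → F} : tp u w = 0 ↔ u = 0 ∨ w = 0 := by
  refine ⟨fun h => or_iff_not_imp_right.2 fun hw => funext fun a => ?_,
    by rintro (rfl | rfl) <;> simp⟩
  obtain ⟨b, hb⟩ := Function.ne_iff.1 hw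
  exact (mul_eq_zero.1 (congrFun h (a, b))).resolve_right hb

end Basic

omit [Fintype κ] [Fintype μ] in
theorem tp_ev (a : κ) (b : μ) : tp (ev a) (ev b) = (ev (a, b) : κ × μ → F) :=
  funext fun ⟨c, d⟩ => by by_cases h : c = a <;> by_cases h' : d = b <;> simp [tp_apply, h, h']

theorem tp_ext {M : Type*} [AddCommGroup M] [Module F M] {f g : (κ × μ → F) →ₗ[F] M}
    (h : ∀ u w, f (tp u w) = g (tp u w)) : f = g :=
  (Pi.basisFun F _).ext fun ⟨a, b⟩ => by simpa [tp_ev] using h (ev a) (ev b)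

theorem ct_cs (ψ : Dual F (κ → F)) (χ : Dual F (μ → F)) (x : κ × μ → F) :
    χ (cs ψ x) = ψ (ct χ x) :=
  LinearMap.congr_fun (tp_ext (f := χ ∘ₗ cs ψ) (g := ψ ∘ₗ ct χ) fun u w => by simp [mul_comm]) x

omit [Fintype κ] [DecidableEq κ] in
theorem eq_tp {w : μ → F} (hw : w ≠ 0) {z : κ × μ → F} (h : ∀ χ : Dual F (μ → F), χ w = 0 → ct χ z = 0) :
    ∃ u, z = tp u w := by
  obtain ⟨χ, h1⟩ := exists_one hw
  refine ⟨ct χ z, funext fun ⟨a, b⟩ => ?_⟩
  have := congrFun (h (pj b - w b • χ) (by simp [h1])) a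
  simp only [map_sub, map_smul, LinearMap.sub_apply, LinearMap.smul_apply, Pi.sub_apply,
    Pi.smul_apply, smul_eq_mul, Pi.zero_apply, sub_eq_zero] at this
  exact this.trans (mul_comm _ _)

omit [DecidableEq μ] in
theorem one_kron_mulVec (y : Matrix μ μ F) (x : κ × μ → F) (a : κ) (b : μ) :
    (((1 : Matrix κ κ F) ⊗ₖ y) *ᵥ x) (a, b) = (y *ᵥ fun l => x (a, l)) b := by
  simp [mulVec, dotProduct, Fintype.sum_prod_type, one_apply]

omit [DecidableEq κ] in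
theorem kron_one_mulVec (y : Matrix κ κ F) (x : κ × μ → F) (a : κ) (b : μ) :
    ((y ⊗ₖ (1 : Matrix μ μ F)) *ᵥ x) (a, b) = (y *ᵥ fun l => x (l, b)) a := by
  simp [mulVec, dotProduct, Fintype.sum_prod_type, one_apply]

variable {X : Subgroup (GL (κ × μ) F)}

/-- the group contains the root elements of both tensor factors -/
structure TX (X : Subgroup (GL (κ × μ) F)) : Prop where
  R : ∀ w (χ : Dual F (μ → F)), χ w = 0 → Act X fun x => x + tp (ct χ x) w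
  L : ∀ u (ψ : Dual F (κ → F)), ψ u = 0 → Act X fun x => x + tp u (cs ψ x)

theorem SL_le_of_pure (hX : TX X) (hb : 3 ≤ Fintype.card μ) (ha : 2 ≤ Fintype.card κ) {u : κ → F}
    {ψ : Dual F (κ → F)} {w : μ → F} {χ : Dual F (μ → F)} (hu : u ≠ 0) (hψ : ψ ≠ 0) (h1 : ψ u = 0)
    (hw : w ≠ 0) (hχ : χ ≠ 0) (h2 : χ w = 0) (h : ∀ c : F, Tv X (tp u w) (c • ψ ∘ₗ ct χ)) :
    specialLinear (κ × μ) F ≤ X := by
  have a1 : ∀ u' (ψ' : Dual F (κ → F)), ψ' u' = 0 → ∀ c : F, Tv X (tp u' w) (c • ψ' ∘ₗ ct χ) :=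
    fun u' ψ' h' => all_pairs (P := fun u ψ => ∀ c : F, Tv X (tp u w) (c • ψ ∘ₗ ct χ))
      (fun u ψ a φ h h0 c => by
        simpa using (h c).conj (ψ := c • (ψ - ψ a • φ) ∘ₗ ct χ) (hX.L a φ h0) fun x => by
          simp [h0, ct_cs, mul_comm])
      (fun u ψ d h => ⟨fun c => by simpa [tv_smul, smul_smul] using h (d * c),
        fun c => by simpa [LinearMap.smul_comp, smul_smul] using h (c * d)⟩) h hu hψ h1 h'
  have a2 : ∀ u' (ψ' : Dual F (κ → F)), ψ' u' = 0 → ∀ w' (χ' : Dual F (μ → F)), χ' w' = 0 →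
      ∀ c : F, Tv X (tp u' w') (c • ψ' ∘ₗ ct χ') :=
    fun u ψ h' w' χ' h'' => all_pairs (P := fun w χ => ∀ c : F, Tv X (tp u w) (c • ψ ∘ₗ ct χ))
      (fun w χ a φ h h0 c => by
        simpa using (h c).conj (ψ := c • ψ ∘ₗ ct (χ - χ a • φ)) (hX.R a φ h0) fun x => by
          simp [h0])
      (fun w χ d h => ⟨fun c => by simpa [tv_smul, smul_smul] using h (d * c),
        fun c => by simpa [LinearMap.comp_smul, smul_smul] using h (c * d)⟩) (a1 u ψ h') hw hχ h2 h''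
  have b1 : ∀ i k j l, i ≠ k → j ≠ l → ∀ c : F, Tv X (ev (i, j)) (c • pj (k, l)) :=
    fun i k j l h h' c => by
      rw [← tp_ev]
      exact a2 _ (pj k) (by simp [h.symm]) _ (pj l) (by simp [h'.symm]) c
  have b2 : ∀ i k j l, j ≠ l → ∀ c : F, Tv X (ev (i, j)) (c • pj (k, l)) := fun i k j l h' c => by
    by_cases h : i = k
    · subst h
      obtain ⟨k, hk⟩ := Fintype.exists_ne_of_one_lt_card (by omega : 1 < Fintype.card κ) i
      obtain ⟨m, m1, m2⟩ := exists_third hb j l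
      simpa using (b1 i k j m hk.symm m1.symm c).comm (b1 k i m l hk m2 1) (by simp [m2.symm])
        (by simp [h'.symm])
    · exact b1 i k j l h h' c
  refine SL_le_of_tv' fun ⟨i, j⟩ ⟨k, l⟩ h c => ?_
  by_cases h' : j = l
  · subst h'
    obtain ⟨m, m1, -⟩ := exists_third hb j j
    simpa using (b2 i i j m m1.symm c).comm (b2 i k m j m1 1) (by simp [m1.symm])
      (by simp [h.symm])
  · exact b2 i k j l h' c

omit [DecidableEq κ] in
theorem exists_rank_one {S : Submodule F ((κ → F) →ₗ[F] (κ → F))}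
    (hS : ∀ s ∈ S, ∀ u (ψ : Dual F (κ → F)), ψ u = 0 →
      (1 + ψ.smulRight u) * s * (1 - ψ.smulRight u) ∈ S)
    (hc : 3 ≤ Fintype.card κ ∨ ∃ c : F, c ≠ 0 ∧ c ≠ 1) {s : (κ → F) →ₗ[F] (κ → F)} (hs : s ∈ S)
    (hs' : ∀ c : F, s ≠ c • 1) :
    ∃ (u : κ → F) (ψ : Dual F (κ → F)), u ≠ 0 ∧ ψ ≠ 0 ∧ ψ u = 0 ∧ ψ.smulRight u ∈ S := by
  classical
  obtain ⟨u, hu⟩ : ∃ u, LinearIndependent F ![u, s u] := by
    by_contra h
    obtain ⟨c, hc⟩ := s.exists_eq_smul_id_of_forall_notLinearIndependent (not_exists.1 h)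
    exact hs' c hc
  have hu0 : u ≠ 0 := hu.ne_zero 0
  have h1 : s u ∉ F ∙ u := fun h => by
    obtain ⟨c, hc⟩ := Submodule.mem_span_singleton.1 h
    exact one_ne_zero (LinearIndependent.pair_iff.1 hu (-c) 1 (by simp [← hc])).2
  obtain ⟨φ, a1, a2⟩ := exists_pair h1 0 1 hu0
  rcases hc with hc | ⟨c, c0, c1⟩
  · obtain ⟨v, -, hv⟩ := exists_notMem' (W := ⊤) (U := Submodule.span F {u, s u})
      (by have := finrank_pair_le (F := F) u (s u); rw [finrank_top, finrank_fun]; omega)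
    obtain ⟨ψ, b1, b2⟩ := exists_dual hv 1
    have b3 := b1 u (Submodule.subset_span (by simp))
    have b4 := b1 (s u) (Submodule.subset_span (by simp))
    have d1 := sub_mem (hS s hs u φ a1) hs
    refine ⟨u, ψ, hu0, fun h => by simp [h] at b2, b3, ?_⟩
    convert sub_mem d1 (hS _ d1 u ψ b3) using 1
    refine LinearMap.ext fun x => ?_
    simp [a1, a2, b3, b4]
    module
  · refine ⟨u, φ, hu0, fun h => by simp [h] at a2, a1, ?_⟩
    convert S.smul_mem (c * c - c)⁻¹ (sub_mem (S.smul_mem c (sub_mem (hS s hs u φ a1) hs))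
      (sub_mem (hS s hs u (c • φ) (by simp [a1])) hs)) using 1
    refine LinearMap.ext fun x => ?_
    have : c - 1 ≠ 0 := sub_ne_zero.2 c1
    have h3 : c * c - c ≠ 0 := by rw [← mul_sub_one]; exact mul_ne_zero c0 this
    simp [a2]
    match_scalars <;> field_simp <;> ring

theorem level_min (hX : TX X) (hb : 3 ≤ Fintype.card μ) (ha : 2 ≤ Fintype.card κ)
    (hc : 3 ≤ Fintype.card κ ∨ ∃ c : F, c ≠ 0 ∧ c ≠ 1) (H : ¬ specialLinear (κ × μ) F ≤ X)
    {w : μ → F} (hw : w ≠ 0) {γ : (κ × μ → F) →ₗ[F] (κ → F)} (h0 : ∀ u, γ (tp u w) = 0)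
    (h : Act X fun x => x + tp (γ x) w) : ∃ χ : Dual F (μ → F), γ = ct χ := by
  by_cases h1 : ∀ w', ∃ c : F, γ ∘ₗ tp.flip w' = c • 1
  · obtain ⟨a⟩ : Nonempty κ := Fintype.card_pos_iff.1 (by omega)
    refine ⟨pj a ∘ₗ γ ∘ₗ tp (ev a), tp_ext fun u w' => ?_⟩
    obtain ⟨c, hc⟩ := h1 w'
    have e1 := LinearMap.congr_fun hc u
    have e2 := LinearMap.congr_fun hc (ev a)
    simp only [LinearMap.comp_apply, LinearMap.flip_apply] at e1 e2
    simp [e1, e2]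
  exfalso
  push Not at h1
  obtain ⟨w', h1⟩ := h1
  obtain ⟨v, -, hv⟩ := exists_notMem' (W := ⊤) (U := Submodule.span F {w, w'})
    (by have := finrank_pair_le (F := F) w w'; rw [finrank_top, finrank_fun]; omega)
  obtain ⟨χ, b1, b2⟩ := exists_dual hv 1
  have b3 := b1 w (Submodule.subset_span (by simp))
  have b4 := b1 w' (Submodule.subset_span (by simp))
  let S : Submodule F ((κ → F) →ₗ[F] (κ → F)) :=
    { carrier := {s | ∀ c : F, Act X fun x => x + tp (c • s (ct χ x)) w}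
      zero_mem' c := act_id.congr (by simp)
      add_mem' ha hb c := ((ha c).mul (hb c)).congr fun x => by simp [b3]; abel
      smul_mem' d s hs c := (hs (c * d)).congr fun x => by simp [smul_smul] }
  obtain ⟨u, ψ, d1, d2, d3, d4⟩ := exists_rank_one (S := S) (fun s hs u ψ e c =>
    ((hX.L u ψ e).mul ((hs c).mul (hX.L u (-ψ) (by simp [e])))).congr fun x => by
      simp [e, ct_cs]; module) hc (s := γ ∘ₗ tp.flip w') (fun c =>
    ((hX.R w' (-c • χ) (by simp [b4])).mul (h.mul ((hX.R w' (c • χ) (by simp [b4])).mul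
      (h.inv (S := fun x => x - tp (γ x) w) fun x => by simp [h0])))).congr fun x => by
        simp [b3, b4, h0]; module) h1
  exact H (SL_le_of_pure hX hb ha d1 d2 d3 hw (fun h => by simp [h] at b2) b3 fun c =>
    (d4 c).congr fun x => by simp [smul_smul])

/-- the conjugate of the subspace `U ⊗ w` -/
def gL (g : GL (κ × μ) F) (w : μ → F) : Submodule F (κ × μ → F) :=
  LinearMap.range ((g : Matrix (κ × μ) (κ × μ) F).mulVecLin ∘ₗ tp.flip w)

theorem mem_gL {g : GL (κ × μ) F} {w : μ → F} {x : κ × μ → F} :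
    x ∈ gL g w ↔ ∃ u, (g : Matrix (κ × μ) (κ × μ) F) *ᵥ tp u w = x := Iff.rfl

theorem mem_gL_one {w : μ → F} {x : κ × μ → F} : x ∈ gL 1 w ↔ ∃ u, tp u w = x := by simp [mem_gL]

theorem finrank_gL (g : GL (κ × μ) F) {w : μ → F} (hw : w ≠ 0) :
    finrank F (gL g w) = Fintype.card κ := by
  rw [gL, LinearMap.finrank_range_of_inj, finrank_fun]
  exact (injective_iff_map_eq_zero _).2 fun u hu =>
    (tp_eq_zero.1 ((mulVec_eq_zero_iff_gl g _).1 hu)).resolve_right hw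

/-- the conjugate of a root element -/
def rt (g : GL (κ × μ) F) (w : μ → F) (χ : Dual F (μ → F)) : (κ × μ → F) →ₗ[F] (κ × μ → F) :=
  (g : Matrix (κ × μ) (κ × μ) F).mulVecLin ∘ₗ tp.flip w ∘ₗ ct χ ∘ₗ
    ((g⁻¹ : GL (κ × μ) F) : Matrix (κ × μ) (κ × μ) F).mulVecLin

theorem rt_apply (g : GL (κ × μ) F) (w : μ → F) (χ : Dual F (μ → F)) (x : κ × μ → F) :
    rt g w χ x = (g : Matrix (κ × μ) (κ × μ) F) *ᵥ
      tp (ct χ (((g⁻¹ : GL (κ × μ) F) : Matrix (κ × μ) (κ × μ) F) *ᵥ x)) w := rfl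

theorem rt_gL {g : GL (κ × μ) F} {w : μ → F} {χ : Dual F (μ → F)} (h : χ w = 0) {x : κ × μ → F}
    (hx : x ∈ gL g w) : rt g w χ x = 0 := by
  obtain ⟨u, rfl⟩ := mem_gL.1 hx
  rw [rt_apply, inv_mulVec_mulVec]; simp [h]

theorem act_rt (hX : TX X) {g : GL (κ × μ) F} (hg : g ∈ X) {w : μ → F} {χ : Dual F (μ → F)}
    (h : χ w = 0) : Act X fun x => x + rt g w χ x :=
  ((act_self hg).mul ((hX.R w χ h).mul (act_self (X.inv_mem hg)))).congr fun x => by
    rw [mulVec_add, mulVec_inv_mulVec, rt_apply]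

section LM
variable (hX : TX X) (hab : Fintype.card κ < Fintype.card μ) [Nonempty κ]
  (hL : ∀ w : μ → F, w ≠ 0 → ∀ γ : (κ × μ → F) →ₗ[F] (κ → F), (∀ u, γ (tp u w) = 0) →
    (Act X fun x => x + tp (γ x) w) → ∃ χ : Dual F (μ → F), γ = ct χ)
include hX hab hL

theorem stab_rt {g : GL (κ × μ) F} (hg : g ∈ X) {w' : μ → F} {χ' : Dual F (μ → F)} (h' : χ' w' = 0)
    {w : μ → F} (hw : w ≠ 0) (h : ∀ u, rt g w' χ' (tp u w) ∈ gL 1 w) :
    (∀ u, rt g w' χ' (tp u w) = 0) ∧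
      ∀ χ : Dual F (μ → F), χ w = 0 → ∃ χ'', ct χ ∘ₗ rt g w' χ' = ct χ'' := by
  have h2 : ∀ x, rt g w' χ' (rt g w' χ' x) = 0 := fun x => rt_gL h' ⟨_, rfl⟩
  obtain ⟨χ₀, e0⟩ := exists_one hw
  set φ := rt g w' χ' with hφ
  let A : (κ → F) →ₗ[F] (κ → F) := ct χ₀ ∘ₗ φ ∘ₗ tp.flip w
  have hA : ∀ u, φ (tp u w) = tp (A u) w := fun u => by
    obtain ⟨u', e⟩ := mem_gL_one.1 (h u)
    simp [A, ← e, e0]
  have key : ∀ χ : Dual F (μ → F), χ w = 0 → ∃ χ₁ : Dual F (μ → F),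
      (1 - A) ∘ₗ ct χ ∘ₗ (1 + φ) = ct χ₁ := fun χ h0 =>
    hL w hw _ (fun u => by simp [hA, h0]) (((((act_rt hX hg h').inv (S := fun x => x - φ x)
      fun x => by simp [← hφ, h2])).mul ((hX.R w χ h0).mul (act_rt hX hg h'))).congr fun x => by
        simp [← hφ, h2, hA]; abel)
  have hA0 : A = 0 := by
    by_contra h1
    obtain ⟨u, hu⟩ : ∃ u, LinearIndependent F ![u, A u] := by
      by_contra h
      obtain ⟨c, hc⟩ := A.exists_eq_smul_id_of_forall_notLinearIndependent (not_exists.1 h)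
      obtain ⟨a⟩ := ‹Nonempty κ›
      have := h2 (tp (ev a) w)
      rw [hA, hA, tp_eq_zero, hc] at this
      exact h1 (by simpa [hc, smul_smul, hw] using this)
    obtain ⟨v, v1, v2⟩ := (Submodule.ne_bot_iff _).1 (LinearMap.ker_ne_bot_of_finrank_lt
      (f := ct χ' ∘ₗ ((g⁻¹ : GL (κ × μ) F) : Matrix (κ × μ) (κ × μ) F).mulVecLin ∘ₗ tp u)
      (by simpa using hab))
    have v3 : φ (tp u v) = 0 := by
      rw [hφ, rt_apply, show ct χ' (_ *ᵥ _) = 0 from v1]; simp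
    have v4 : v ∈ F ∙ w := by
      by_contra v4
      obtain ⟨χ, a1, a2⟩ := exists_pair v4 0 1 hw
      obtain ⟨χ₁, e⟩ := key χ a1
      have := LinearMap.congr_fun e (tp u v)
      simp only [LinearMap.comp_apply, LinearMap.add_apply, Module.End.one_apply, v3, add_zero,
        ct_tp, a2, one_smul, LinearMap.sub_apply] at this
      exact one_ne_zero (LinearIndependent.pair_iff.1 hu (χ₁ v - 1) 1 (by
        rw [sub_smul, ← this]; module)).2
    obtain ⟨c, rfl⟩ := Submodule.mem_span_singleton.1 v4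
    rw [map_smul, map_smul, hA, smul_eq_zero, tp_eq_zero] at v3
    exact v3.elim (fun h => v2 (by simp [h])) fun h => h.elim (hu.ne_zero 1) hw
  refine ⟨fun u => by simp [hA, hA0], fun χ h0 => ?_⟩
  obtain ⟨χ₁, e⟩ := key χ h0
  exact ⟨χ₁ - χ, by rw [map_sub, ← e, hA0]; exact LinearMap.ext fun x => by simp⟩

theorem pair_le (k : ℕ) : ∀ g ∈ X, ∀ w w' : μ → F, w ≠ 0 → w' ≠ 0 → gL 1 w ⊓ gL g w' ≠ ⊥ →
    Fintype.card κ ≤ finrank F (gL 1 w ⊓ gL g w' : Submodule F _) + k → gL g w' ≤ gL 1 w := by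
  induction k with
  | zero =>
    intro g hg w w' hw hw' _ h
    exact inf_eq_right.1 (Submodule.eq_of_le_of_finrank_le inf_le_right (by rwa [finrank_gL g hw']))
  | succ k ih =>
    intro g hg w w' hw hw' h1 h
    by_cases h2 : gL 1 w ≤ gL g w'
    · refine ih g hg w w' hw hw' h1 ?_
      rw [inf_eq_left.2 h2, finrank_gL 1 hw]; omega
    obtain ⟨y, y1, y2⟩ := SetLike.not_le_iff_exists.1 h2
    obtain ⟨_, ⟨z1, u₀, rfl⟩, z2⟩ := (Submodule.ne_bot_iff _).1 h1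
    have hu₀ : u₀ ≠ 0 := by rintro rfl; simp at z2
    obtain ⟨ψ₀, e0⟩ := exists_one hu₀
    obtain ⟨χ, c1, c2⟩ := (Submodule.ne_bot_iff _).1 (LinearMap.ker_ne_bot_of_finrank_lt
      (f := (1 - ψ₀.smulRight u₀) ∘ₗ ct.flip (((g⁻¹ : GL (κ × μ) F) : Matrix (κ × μ) (κ × μ) F) *ᵥ y)
        + (Dual.eval F _ w').smulRight u₀) (by simpa using hab))
    simp only [LinearMap.mem_ker, LinearMap.add_apply, LinearMap.comp_apply, LinearMap.flip_apply,
      LinearMap.sub_apply, Module.End.one_apply, LinearMap.smulRight_apply, Dual.eval_apply] at c1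
    have c3 : χ w' = 0 := by simpa [e0] using congrArg ψ₀ c1
    rw [c3, zero_smul, add_zero, sub_eq_zero] at c1
    have c4 : rt g w' χ y ∈ gL 1 w := by
      rw [rt_apply, c1, map_smul, LinearMap.smul_apply, mulVec_smul]
      exact Submodule.smul_mem _ _ z1
    obtain ⟨e, he, e1⟩ := act_rt hX hg c3
    have hlt : gL 1 w ⊓ gL g w' < gL 1 w ⊓ gL e w := by
      refine lt_of_le_not_ge (fun x hx => ⟨hx.1, ?_⟩) fun h => y2 (h ⟨y1, ?_⟩).2
      · obtain ⟨u, rfl⟩ := mem_gL_one.1 hx.1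
        exact ⟨u, by change _ *ᵥ tp u w = _; rw [e1]; simp [rt_gL c3 hx.2]⟩
      · obtain ⟨u, hu⟩ := mem_gL_one.1 (sub_mem y1 c4)
        exact ⟨u, by
          change _ *ᵥ tp u w = _
          rw [e1, hu]; simp [rt_gL c3 (x := rt g w' χ y) ⟨_, rfl⟩]⟩
    have h3 := ih e he w w hw hw (ne_bot_of_gt hlt)
      (by have := Submodule.finrank_lt_finrank_of_lt hlt; omega)
    rintro _ ⟨u, rfl⟩
    refine mem_gL_one.2 ((eq_tp hw fun χ₁ d1 => ?_).imp fun _ h => h.symm)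
    obtain ⟨χ₂, d2⟩ := (stab_rt hX hab hL hg c3 hw fun u => by
      simpa [e1] using sub_mem (h3 (mem_gL.2 ⟨u, rfl⟩)) (mem_gL_one.2 ⟨u, rfl⟩)).2 _ d1
    have d3 : χ₂ = 0 := by
      by_contra d3
      obtain ⟨c, hc⟩ := exists_vec d3
      have := (LinearMap.injective_iff_surjective (f := ct χ₁ ∘ₗ
        (g : Matrix (κ × μ) (κ × μ) F).mulVecLin ∘ₗ tp.flip w')).2 fun u =>
          ⟨_, (LinearMap.congr_fun d2 (tp u c)).trans (by simp [hc])⟩
      refine hu₀ ((injective_iff_map_eq_zero _).1 this u₀ ?_)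
      obtain ⟨u', hu'⟩ := mem_gL_one.1 z1
      simp only [LinearMap.comp_apply] at hu' ⊢
      rw [← hu']; simp [d1]
    obtain ⟨c, hc⟩ := exists_vec c2
    have := LinearMap.congr_fun d2 ((g : Matrix (κ × μ) (κ × μ) F) *ᵥ tp u c)
    rw [LinearMap.comp_apply, rt_apply, inv_mulVec_mulVec] at this
    simpa [d3, hc] using this

theorem ct_rt {g : GL (κ × μ) F} (hg : g ∈ X) {w' : μ → F} {χ' : Dual F (μ → F)} (h' : χ' w' = 0)
    (χ : Dual F (μ → F)) : ∃ χ'', ct χ ∘ₗ rt g w' χ' = ct χ'' := by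
  have h2 : ∀ x, rt g w' χ' (rt g w' χ' x) = 0 := fun x => rt_gL h' ⟨_, rfl⟩
  obtain ⟨a⟩ := ‹Nonempty κ›
  obtain ⟨e, he, e1⟩ := act_rt hX hg h'
  have fixS : ∀ w, w ≠ 0 → rt g w' χ' (tp (ev a) w) = 0 → ∀ u, rt g w' χ' (tp u w) ∈ gL 1 w :=
    fun w hw h u => by
      have := pair_le hX hab hL _ e he w w hw hw ((Submodule.ne_bot_iff _).2 ⟨tp (ev a) w,
        ⟨mem_gL_one.2 ⟨_, rfl⟩, mem_gL.2 ⟨ev a, by simp [e1, h]⟩⟩, by simp [tp_eq_zero, hw]⟩)
        (Nat.le_add_left _ _)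
      simpa [e1] using sub_mem (this (mem_gL.2 ⟨u, rfl⟩)) (mem_gL_one.2 ⟨u, rfl⟩)
  obtain ⟨w, v1, hw⟩ := (Submodule.ne_bot_iff _).1 (LinearMap.ker_ne_bot_of_finrank_lt
    (f := ct χ' ∘ₗ ((g⁻¹ : GL (κ × μ) F) : Matrix (κ × μ) (κ × μ) F).mulVecLin ∘ₗ tp (ev a))
    (by simpa using hab))
  have v3 : rt g w' χ' (tp (ev a) w) = 0 := by
    rw [rt_apply, show ct χ' (_ *ᵥ _) = 0 from v1]; simp
  obtain ⟨s0, s1⟩ := stab_rt hX hab hL hg h' hw (fixS w hw v3)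
  obtain ⟨χ₀, e0⟩ := exists_one hw
  by_cases hc : ∀ χ : Dual F (μ → F), χ w = 0 → ∀ x, ct χ (rt g w' χ' x) = 0
  · have b1 : ∀ x, rt g w' χ' x = tp (ct χ₀ (rt g w' χ' x)) w := fun x => by
      obtain ⟨u, hu⟩ := eq_tp hw fun χ h => hc χ h x
      simp [hu, e0]
    obtain ⟨χ₁, b2⟩ := hL w hw (ct χ₀ ∘ₗ rt g w' χ') (fun u => by simp [s0])
      ((act_rt hX hg h').congr fun x => by rw [LinearMap.comp_apply, ← b1])
    refine ⟨χ w • χ₁, LinearMap.ext fun x => ?_⟩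
    rw [LinearMap.comp_apply, b1, map_smul, ← b2]; simp
  · push Not at hc
    obtain ⟨χ₁, b1, b2⟩ := hc
    obtain ⟨χ₂, b3⟩ := s1 χ₁ b1
    obtain ⟨c, hc⟩ := exists_vec (ψ := χ₂) (by
      rintro rfl
      obtain ⟨x, hx⟩ := b2
      exact hx (by simpa using LinearMap.congr_fun b3 x))
    set z := rt g w' χ' (tp (ev a) c) with hz
    have b4 : ∀ χ : Dual F (μ → F), χ w = 0 → ct χ z = χ (cs (pj a) z) • ev a := fun χ h => by
      obtain ⟨χ₃, b5⟩ := s1 χ h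
      have := LinearMap.congr_fun b5 (tp (ev a) c)
      rw [LinearMap.comp_apply, ← hz] at this
      simp [ct_cs, this]
    obtain ⟨u, hu⟩ := eq_tp hw (z := z - tp (ev a) (cs (pj a) z)) fun χ h => by simp [b4 χ h]
    have b5 : rt g w' χ' (tp (ev a) (cs (pj a) z)) = 0 := by
      have := congrArg (rt g w' χ') hu
      rwa [map_sub, s0, hz, h2, zero_sub, neg_eq_zero, ← hz] at this
    have b6 : χ₁ (cs (pj a) z) = 1 := by
      have := LinearMap.congr_fun b3 (tp (ev a) c)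
      rw [LinearMap.comp_apply, ← hz] at this
      simp [ct_cs, this, hc]
    have b7 : cs (pj a) z ∉ F ∙ w := fun h => by
      obtain ⟨d, hd⟩ := Submodule.mem_span_singleton.1 h
      simp [← hd, b1] at b6
    have b8 : cs (pj a) z ≠ 0 := fun h => by simp [h] at b6
    obtain ⟨χ₃, d1, d2⟩ := exists_pair b7 (χ w) 0 hw
    obtain ⟨χ₄, d3⟩ := (stab_rt hX hab hL hg h' b8 (fixS _ b8 b5)).2 χ₃ d2
    obtain ⟨χ₅, d4⟩ := s1 (χ - χ₃) (by simp [d1])
    exact ⟨χ₄ + χ₅, by rw [map_add, ← d3, ← d4]; exact LinearMap.ext fun x => by simp⟩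

theorem cj_single {g : GL (κ × μ) F} (hg : g ∈ X) {j l : μ} (h : j ≠ l) :
    ∃ y' : Matrix μ μ F,
      (1 : Matrix κ κ F) ⊗ₖ y' = cj g ((1 : Matrix κ κ F) ⊗ₖ single j l (1 : F)) := by
  have h0 : (pj l : Dual F (μ → F)) (ev j) = 0 := by simp [h.symm]
  choose χ hχ using fun b => ct_rt hX hab hL hg h0 (pj b)
  refine ⟨of fun b m => χ b (ev m), ext_mulVec fun x => funext fun ⟨a, b⟩ => ?_⟩
  have e1 : rt g (ev j) (pj l) x (a, b) = χ b fun b => x (a, b) :=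
    congrFun (LinearMap.congr_fun (hχ b) x) a
  have e2 : ∀ z : κ × μ → F, ((1 : Matrix κ κ F) ⊗ₖ single j l (1 : F)) *ᵥ z =
      tp (ct (pj l) z) (ev j) := fun z => funext fun ⟨a, b⟩ => by
    rw [one_kron_mulVec]
    by_cases hb : b = j <;> simp [single_mulVec, tp_apply, ct_apply, hb]
  have e3 := cj_mulVec g ((1 : Matrix κ κ F) ⊗ₖ single j l (1 : F))
    (((g⁻¹ : GL (κ × μ) F) : Matrix (κ × μ) (κ × μ) F) *ᵥ x)
  rw [mulVec_inv_mulVec, e2, ← rt_apply] at e3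
  rw [one_kron_mulVec, e3, e1, dual_eq_sum]
  simp [mulVec, dotProduct, mul_comm]

theorem cj_kron {g : GL (κ × μ) F} (hg : g ∈ X) (y : Matrix μ μ F) :
    ∃ y' : Matrix μ μ F, cj g ((1 : Matrix κ κ F) ⊗ₖ y) = (1 : Matrix κ κ F) ⊗ₖ y' := by
  have : Nontrivial μ := Fintype.one_lt_card_iff_nontrivial.1
    (by have := Fintype.card_pos (α := κ); omega)
  have := top_of_single (A := (kronR κ μ F).range.comap ((cj g).toAlgHom.comp (kronR κ μ F)))
    fun j l h => cj_single hX hab hL hg h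
  obtain ⟨y', hy⟩ : y ∈ (kronR κ μ F).range.comap ((cj g).toAlgHom.comp (kronR κ μ F)) :=
    this ▸ Algebra.mem_top
  exact ⟨y', hy.symm⟩

end LM

theorem tx_of (h : ∀ g ∈ specialLinear (κ × μ) F, ∀ (a : GL κ F) (b : GL μ F),
    (g : Matrix (κ × μ) (κ × μ) F) = (a : Matrix κ κ F) ⊗ₖ (b : Matrix μ μ F) → g ∈ X) : TX X := by
  constructor
  · intro w χ h0
    obtain ⟨b, b1, b2⟩ := tv_SL h0
    have e : ((1 : Matrix κ κ F) ⊗ₖ (b : Matrix μ μ F)).det = 1 := by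
      rw [det_kronecker, mem_SL.1 b1]; simp
    obtain ⟨g, hg⟩ := exists_gl' (X := (1 : Matrix κ κ F) ⊗ₖ (b : Matrix μ μ F)) (by simp [e])
    exact ⟨g, h g (mem_SL.2 (hg ▸ e)) 1 b hg, fun x => funext fun ⟨i, j⟩ => by
      rw [hg, one_kron_mulVec, b2]; rfl⟩
  · intro w χ h0
    obtain ⟨b, b1, b2⟩ := tv_SL h0
    have e : ((b : Matrix κ κ F) ⊗ₖ (1 : Matrix μ μ F)).det = 1 := by
      rw [det_kronecker, mem_SL.1 b1]; simp
    obtain ⟨g, hg⟩ := exists_gl' (X := (b : Matrix κ κ F) ⊗ₖ (1 : Matrix μ μ F)) (by simp [e])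
    exact ⟨g, h g (mem_SL.2 (hg ▸ e)) b 1 hg, fun x => funext fun ⟨i, j⟩ => by
      rw [hg, kron_one_mulVec, b2]; exact congrArg _ (mul_comm _ _)⟩

theorem max_tensor [Fintype F] {n n₁ n₂ : ℕ} (h1 : 2 ≤ n₁) (h12 : n₁ < n₂)
    (hex : n₁ = 2 → 3 ≤ Fintype.card F) (e : Fin n ≃ Fin n₁ × Fin n₂) (P : GL (Fin n) F) :
    IsMaximalIn (specialLinear (Fin n) F)
      (tensorProductSubgroup n₁ n₂ e P ⊓ specialLinear (Fin n) F) := by
  have hn : 3 ≤ n := by
    have := Fintype.card_congr e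
    simp only [Fintype.card_fin, Fintype.card_prod] at this
    nlinarith
  refine isMaximalIn_of ?_ fun X hX _ => over_tr e P (fun Y hY => ?_) hX
  · have := nontrivial_fin hn
    obtain ⟨N, hN0, hN, hr, hg⟩ := exists_root (ι := Fin n) (F := F)
    obtain ⟨g, hg1, e'⟩ := hg 1
    rw [one_smul] at e'
    exact not_le_tensor (qs_SL hn) h1 (by omega) e P hg1 (not_scalar_of_sq_zero e' hN0 hN)
      (.inl (by rw [e', add_sub_cancel_left]; omega))
  have hT : TX Y := tx_of fun g hg a b h => hY g hg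
    ((mem_tensorProductSubgroup_iff e P _).2 ⟨a, b, by rw [coe_trGL, h]⟩)
  have : Nonempty (Fin n₁) := ⟨⟨0, by omega⟩⟩
  refine or_iff_not_imp_right.2 fun H g hg => CA.AschFG6.mem_tensor_of_R (by omega) (by omega)
    fun y => ?_
  have hc : 3 ≤ Fintype.card (Fin n₁) ∨ ∃ c : F, c ≠ 0 ∧ c ≠ 1 := by
    by_cases hm : n₁ = 2
    · obtain ⟨l, a, b⟩ := exists_third (ι := Fin (Fintype.card F)) (by simpa using hex hm)
        (Fintype.equivFin F 0) (Fintype.equivFin F 1)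
      refine .inr ⟨(Fintype.equivFin F).symm l, fun h => a ?_, fun h => b ?_⟩ <;> rw [← h] <;> simp
    · exact .inl (by simp; omega)
  obtain ⟨y', h⟩ := cj_kron hT (by simpa) (fun w hw γ => level_min hT (by simp; omega) (by simpa)
    hc H hw) hg y
  exact ⟨y', by rw [CA.AschFG2.ψR_apply, CA.AschFG2.ψR_apply, ← tr_cj, h]⟩

end CA.MaxL5
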