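import Cfsg.Agent.Lib.Lin.MaxL2
import Cfsg.Agent.Lib.Lin.AschO2

/-! Overgroups of extension field groups in `SL`. -/

set_option linter.unusedSectionVars false

namespace CA.MaxL6

open Cfsg Cfsg.Geo Matrix CA.AschBase CA.AschProp CA.AschDesc CA.AschFG CA.AschSL CA.MaxTv
  CA.MaxL2 Module
open scoped MatrixGroups

section Gen

variable {L V : Type*} [Field L] [AddCommGroup V] [Module L V]

theorem exists_dualG {W : Submodule L V} {v : V} (h : v ∉ W) (c : L) :
    ∃ φ : Dual L V, (∀ w ∈ W, φ w = 0) ∧ φ v = c := by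
  obtain ⟨φ, h1, h2⟩ := W.exists_dual_map_eq_bot_of_notMem h inferInstance
  refine ⟨(c / φ v) • φ, fun w hw => ?_, by simp [h1]⟩
  have : φ w = 0 := (Submodule.mem_bot L).1 (h2 ▸ Submodule.mem_map_of_mem hw)
  simp [this]

theorem exists_oneG {v : V} (hv : v ≠ 0) (c : L) : ∃ φ : Dual L V, φ v = c :=
  (exists_dualG (W := ⊥) (by simpa using hv) c).imp fun _ h => h.2

theorem exists_pairG {v a : V} (h : v ∉ L ∙ a) (c d : L) (ha : a ≠ 0) :
    ∃ φ : Dual L V, φ a = c ∧ φ v = d := by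
  obtain ⟨φ, h1, h2⟩ := exists_dualG h 1
  obtain ⟨ψ, h3⟩ := exists_oneG (L := L) ha 1
  exact ⟨c • ψ + (d - c * ψ v) • φ, by simp [h3, h1 a (Submodule.mem_span_singleton_self a)],
    by simp [h2]⟩

theorem exists_notMemG {W : Submodule L V} (h : finrank L W < finrank L V) : ∃ v, v ∉ W := by
  by_contra h1
  rw [Submodule.eq_top_iff'.2 (by simpa using h1 : ∀ v, v ∈ W), finrank_top] at h
  exact h.false

theorem exists_notMem_line (h : 2 ≤ finrank L V) (a : V) : ∃ v, v ∉ L ∙ a :=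
  exists_notMemG (by
    have := finrank_span_le (F := L) {a}
    rw [Finset.coe_singleton, Finset.card_singleton] at this; omega)

theorem scalar_of_lines (h : 2 ≤ finrank L V) {T : V →+ V} (hT : ∀ v, T v ∈ L ∙ v) :
    ∃ c : L, ∀ v, T v = c • v := by
  obtain ⟨a, ha⟩ := exists_notMem_line h 0
  obtain ⟨c, hc⟩ := Submodule.mem_span_singleton.1 (hT a)
  have h1 : ∀ v, v ∉ L ∙ a → T v = c • v := fun v hv => by
    obtain ⟨d, hd⟩ := Submodule.mem_span_singleton.1 (hT v)
    obtain ⟨e, he⟩ := Submodule.mem_span_singleton.1 (hT (v + a))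
    obtain ⟨φ, a1, a2⟩ := exists_pairG hv 1 (-1) (by simpa using ha)
    have := congrArg φ he
    simp only [map_add, ← hc, ← hd, map_smul, a1, a2, smul_eq_mul] at this
    rw [← hd, show d = c by linear_combination this]
  refine ⟨c, fun v => ?_⟩
  by_cases hv : v ∈ L ∙ a
  · obtain ⟨u, hu⟩ := exists_notMem_line h a
    have := h1 (v + u) fun h => hu (((L ∙ a).add_mem_iff_right hv).1 h)
    rwa [map_add, h1 u hu, smul_add, add_left_inj] at this
  · exact h1 v hv

end Gen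

variable {F L : Type*} [Field F] [Field L] [Algebra F L]

theorem top_of_mem (hr : (finrank F L).Prime) {T : Subalgebra F L} {t : L} (ht : t ∈ T)
    (h : ∀ c, t ≠ algebraMap F L c) (x : L) : x ∈ T := by
  rcases (Subalgebra.isSimpleOrder_of_finrank_prime F L hr).eq_bot_or_eq_top T with rfl | rfl
  · obtain ⟨c, hc⟩ := Algebra.mem_bot.1 ht
    exact (h c hc.symm).elim
  · trivial

theorem top_of_mul (hr : (finrank F L).Prime) {J : Submodule F L} {t : L}
    (ht : ∀ s ∈ J, t * s ∈ J) (h : ∀ c, t ≠ algebraMap F L c) {s : L} (hs : s ∈ J) (h0 : s ≠ 0)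
    (x : L) : x ∈ J := by
  let T : Subalgebra F L :=
    { carrier := {t | ∀ s ∈ J, t * s ∈ J}
      mul_mem' ha hb s hs := by rw [mul_assoc]; exact ha _ (hb s hs)
      add_mem' ha hb s hs := by rw [add_mul]; exact J.add_mem (ha s hs) (hb s hs)
      algebraMap_mem' c s hs := by rw [← Algebra.smul_def]; exact J.smul_mem c hs }
  simpa [h0] using top_of_mem hr (T := T) ht h (x / s) s hs

theorem exists_norm_one [Finite L] (hr : 2 ≤ finrank F L) :
    ∃ y : L, Algebra.norm F y = 1 ∧ ∀ c, y ≠ algebraMap F L c := by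
  have := Finite.of_injective _ (algebraMap F L).injective
  have := Fintype.ofFinite F
  have := Fintype.ofFinite L
  obtain ⟨x, hx⟩ := IsCyclic.exists_ofOrder_eq_natCard (α := Lˣ)
  have hq : 1 < Fintype.card F := Fintype.one_lt_card
  refine ⟨(x : L) ^ (Fintype.card F - 1), ?_, fun c hc => ?_⟩
  · rw [map_pow, FiniteField.pow_card_sub_one_eq_one _ (Algebra.norm_ne_zero_iff.2 x.ne_zero)]
  have hc0 : c ≠ 0 := by rintro rfl; simp at hc
  have h1 : x ^ ((Fintype.card F - 1) * (Fintype.card F - 1)) = 1 := Units.ext (by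
    rw [Units.val_pow_eq_pow_val, pow_mul, hc, ← map_pow,
      FiniteField.pow_card_sub_one_eq_one _ hc0, map_one, Units.val_one])
  have h2 := Nat.le_of_dvd (Nat.mul_pos (by omega) (by omega)) (orderOf_dvd_of_pow_eq_one h1)
  rw [hx, Nat.card_units, Nat.card_eq_fintype_card, Module.card_eq_pow_finrank (K := F)] at h2
  have h3 := Nat.pow_le_pow_right hq.le hr
  obtain ⟨k, hk⟩ := Nat.exists_eq_add_of_lt hq
  rw [hk] at h2 h3
  simp only [Nat.add_sub_cancel] at h2
  have : (1 + k + 1) ^ 2 = (1 + k) * (1 + k) + 2 * k + 3 := by ring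
  omega

variable {ι : Type} [Fintype ι] [DecidableEq ι] [Module L (ι → F)] [IsScalarTower F L (ι → F)]
  {X : Subgroup (GL ι F)}

variable (L) in
/-- The group contains the `L`-linear dilations of determinant one. -/
def EX (X : Subgroup (GL ι F)) : Prop :=
  ∀ (a : ι → F) (φ : Dual L (ι → F)), Algebra.norm F (1 + φ a) = 1 → Act X fun x => x + φ x • a

theorem EX.tv (hX : EX L X) {a : ι → F} {φ : Dual L (ι → F)} (h : φ a = 0) :
    Act X fun x => x + φ x • a := hX a φ (by simp [h])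

variable (L) in
/-- The elements acting trivially on `L a` and on the quotient. -/
def Sa (X : Subgroup (GL ι F)) (a : ι → F) : Submodule F ((ι → F) →ₗ[F] L) where
  carrier := {γ | (∀ l : L, γ (l • a) = 0) ∧ ∀ c : F, Act X fun x => x + (c • γ x) • a}
  zero_mem' := ⟨fun _ => rfl, fun _ => act_id.congr (by simp)⟩
  add_mem' ha hb := ⟨fun l => by simp [ha.1, hb.1], fun c => ((ha.2 c).mul (hb.2 c)).congr
    fun x => by simp only [map_add, ha.1, LinearMap.add_apply, smul_add, add_zero]; module⟩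
  smul_mem' d s hs := ⟨fun l => by simp [hs.1], fun c => (hs.2 (c * d)).congr fun x => by
    simp [smul_smul]⟩

variable {a : ι → F} {γ : (ι → F) →ₗ[F] L}

theorem sa_conj {S : (ι → F) → ι → F} (hS : Act X S) {σ : L →ₗ[F] L}
    (h : ∀ l : L, S (l • a) = σ l • a) {γ' : (ι → F) →ₗ[F] L} (h' : γ' ∈ Sa L X a)
    (e : ∀ x, γ' (S x) = σ (γ x)) (h0 : ∀ l : L, γ (l • a) = 0) : γ ∈ Sa L X a := by
  obtain ⟨g, hg, h1⟩ := hS
  refine ⟨h0, fun c => ((act_self (X.inv_mem hg)).mul ((h'.2 c).mul (act_self hg))).congr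
    fun x => ?_⟩
  rw [h1, e, ← map_smul, ← h, ← h1, ← h1, ← mulVec_add, inv_mulVec_mulVec]

theorem sa_lin (hX : EX L X) {φ : Dual L (ι → F)} (h : φ a = 0) :
    φ.restrictScalars F ∈ Sa L X a :=
  ⟨fun l => by simp [h], fun c => (hX.tv (a := a) (φ := c • φ) (by simp [h])).congr fun x => rfl⟩

variable [Finite L] (hr : (finrank F L).Prime) (hX : EX L X) (ha : a ≠ 0)
include hr hX

include ha in
theorem sa_left (h : γ ∈ Sa L X a) (y : L) : y • γ ∈ Sa L X a := by
  let T : Subalgebra F L :=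
    { carrier := {t | ∀ γ ∈ Sa L X a, t • γ ∈ Sa L X a}
      mul_mem' ha hb s hs := by rw [mul_smul]; exact ha _ (hb s hs)
      add_mem' ha hb s hs := by rw [add_smul]; exact add_mem (ha s hs) (hb s hs)
      algebraMap_mem' c s hs := by rw [algebraMap_smul]; exact Submodule.smul_mem _ c hs }
  obtain ⟨t, h1, h2⟩ := exists_norm_one (F := F) (L := L) hr.two_le
  obtain ⟨φ, h3⟩ := exists_oneG ha (t⁻¹ - 1)
  have h4 : t ≠ 0 := by simpa using h2 0
  refine top_of_mem hr (T := T) (fun γ hγ => sa_conj (hX a φ (by simp [h3, h1, Algebra.norm_inv]))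
    (σ := Algebra.lmul F L t⁻¹) (fun l => ?_) hγ (fun x => ?_) fun l => ?_) h2 y γ h
  · simp [h3]; module
  · simp [hγ.1, h4]
  · simp [hγ.1]

theorem sa_right (h : γ ∈ Sa L X a) {φ : Dual L (ι → F)} (h0 : φ a = 0) (u : ι → F) :
    γ ∘ₗ (φ.smulRight u).restrictScalars F ∈ Sa L X a := by
  have key : ∀ (u : ι → F) (y : L), Algebra.norm F (1 + y * φ u) = 1 → ∀ γ ∈ Sa L X a,
      γ ∘ₗ (φ.smulRight (y • u)).restrictScalars F ∈ Sa L X a := fun u y hy γ hγ => by
    have := sa_conj (hX (y • u) φ (by simpa using hy)) (σ := LinearMap.id) (by simp [h0]) hγ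
      (γ := γ + γ ∘ₗ (φ.smulRight (y • u)).restrictScalars F) (by simp) (by simp [h0, hγ.1])
    simpa using sub_mem this hγ
  by_cases hu : φ u = 0
  · simpa using key u 1 (by simp [hu]) γ h
  let J : Submodule F L :=
    { carrier := {y | ∀ γ ∈ Sa L X a,
        γ ∘ₗ (φ.smulRight (y • (φ u)⁻¹ • u)).restrictScalars F ∈ Sa L X a}
      zero_mem' γ _ := by convert (Sa L X a).zero_mem; ext; simp
      add_mem' ha hb γ hγ := by convert add_mem (ha γ hγ) (hb γ hγ); ext; simp [add_smul]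
      smul_mem' c y hy γ hγ := by
        convert Submodule.smul_mem _ c (hy γ hγ)
        refine LinearMap.ext fun x => ?_
        simp only [LinearMap.comp_apply, LinearMap.restrictScalars_apply, LinearMap.smul_apply,
          LinearMap.smulRight_apply, ← map_smul]
        rw [smul_assoc, smul_comm] }
  obtain ⟨t, h1, h2⟩ := exists_norm_one (F := F) (L := L) hr.two_le
  have h3 : t - 1 ∈ J := key _ _ (by simp [hu, h1])
  have h4 : ∀ c, t - 1 ≠ algebraMap F L c := fun c hc => h2 (c + 1) (by simp [← hc])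
  simpa [hu] using top_of_mul hr (J := J) (fun s hs γ hγ => by
    convert h3 _ (hs γ hγ) using 1
    refine LinearMap.ext fun x => ?_
    simp [hu, smul_smul, mul_assoc]) h4 h3 (by simpa using h4 0) (φ u) γ h

omit hr hX in
theorem exists_lift {τ : Dual F L} (hτ : τ ≠ 0) (χ : Dual F (ι → F)) :
    ∃ φ : Dual L (ι → F), ∀ x, τ (φ x) = χ x := by
  have := Module.Finite.of_restrictScalars_finite F L (ι → F)
  have := Finite.of_injective _ (algebraMap F L).injective
  let Φ : Dual L (ι → F) →ₗ[F] Dual F (ι → F) :=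
    { toFun φ := τ ∘ₗ φ.restrictScalars F
      map_add' _ _ := LinearMap.ext fun x => by simp
      map_smul' _ _ := LinearMap.ext fun x => by simp }
  have : Module.Finite F (Dual L (ι → F)) := Module.Finite.trans L _
  obtain ⟨φ, h⟩ := (LinearMap.injective_iff_surjective_of_finrank_eq_finrank (f := Φ) (by
    rw [← finrank_mul_finrank F L, Subspace.dual_finrank_eq, Subspace.dual_finrank_eq,
      finrank_mul_finrank])).1 ((injective_iff_map_eq_zero _).2 fun φ h => LinearMap.ext fun x => by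
        by_contra h1
        refine hτ (LinearMap.ext fun l => ?_)
        simpa [Φ, show φ x ≠ 0 from h1] using LinearMap.congr_fun h ((l / φ x) • x)) χ
  exact ⟨φ, fun x => LinearMap.congr_fun h x⟩

variable (hm : 2 ≤ finrank L (ι → F))
include ha hm

theorem SL_le_of_rank_one {χ : Dual F (ι → F)} (hχ : χ ≠ 0) {i : L} (hi : i ≠ 0)
    (h : χ.smulRight i ∈ Sa L X a) : specialLinear ι F ≤ X := by
  have h1 : ∀ χ' : Dual F (ι → F), (∀ l : L, χ' (l • a) = 0) → Tv X a χ' := fun χ' h' => by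
    obtain ⟨u, hu⟩ := DFunLike.ne_iff.1 hχ
    have hτ : χ ∘ₗ (LinearMap.toSpanSingleton L _ u).restrictScalars F ≠ 0 := fun e =>
      hu (by simpa using LinearMap.congr_fun e 1)
    obtain ⟨φ, e⟩ := exists_lift hτ χ'
    have h0 : φ a = 0 := by
      by_contra h0
      refine hτ (LinearMap.ext fun l => ?_)
      simpa [h0, h'] using e ((l / φ a) • a)
    refine ((sa_left hr hX ha (sa_right hr hX h h0 u) i⁻¹).2 1).congr fun x => ?_
    simp [← e, hi]
  have h2 : ∀ v, ∀ χ' : Dual F (ι → F), (∀ l : L, χ' (l • v) = 0) → Tv X v χ' := by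
    have h3 : ∀ a, a ≠ 0 → (∀ χ' : Dual F (ι → F), (∀ l : L, χ' (l • a) = 0) → Tv X a χ') →
        ∀ v, v ∉ L ∙ a → ∀ χ' : Dual F (ι → F), (∀ l : L, χ' (l • v) = 0) → Tv X v χ' :=
      fun a ha h1 v hv χ' h' => by
        obtain ⟨φ, a1, a2⟩ := exists_pairG hv 1 1 ha
        simpa [a1] using (h1 (χ' + χ' ∘ₗ (φ.smulRight (v - a)).restrictScalars F) fun l => by
          simp [a1, smul_sub, h']).conj (ψ := χ') (hX.tv (a := v - a) (φ := φ) (by simp [a1, a2]))
          fun x => by simp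
    intro v
    by_cases hv : v ∈ L ∙ a
    · obtain rfl | hv0 := eq_or_ne v 0
      · exact fun χ' _ => tv_zero' χ'
      obtain ⟨u, hu⟩ := exists_notMem_line hm a
      refine h3 u (by rintro rfl; simp at hu) (h3 a ha h1 u hu) v fun h => ?_
      obtain ⟨c, rfl⟩ := Submodule.mem_span_singleton.1 h
      exact hu (((L ∙ a).smul_mem_iff (by rintro rfl; simp at hv0)).1 hv)
    · exact h3 a ha h1 v hv
  refine SL_le_of_full_top (eq_top_iff.2 fun v _ ψ h0 => ?_)
  obtain rfl | hv0 := eq_or_ne v 0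
  · exact tv_zero' ψ
  obtain ⟨u, hu⟩ := exists_notMem_line hm v
  obtain ⟨φ, a1, a2⟩ := exists_pairG hu 1 0 hv0
  obtain ⟨θ, b1, b2⟩ := exists_dualG (W := (L ∙ v).restrictScalars F) hu (1 : F)
  have c1 := (h2 v θ fun l => b1 _ (Submodule.mem_span_singleton.2 ⟨l, rfl⟩)).comm
    (h2 u (ψ ∘ₗ (φ.smulRight v).restrictScalars F) fun l => by simp [a2]) (by simp [a2])
    (by simp [a1, h0])
  simpa [b2] using (h2 v (ψ - ψ ∘ₗ (φ.smulRight v).restrictScalars F) fun l => by
    simp [a1]).add_right c1 (by simp [a1])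

theorem SL_le_of_alt (h3 : 3 ≤ finrank F L) {θ : Dual L (ι → F)} {u : ι → F} (h0 : θ a = 0)
    (h1 : θ u = 1) {μ ν : Dual F L} {i y : L} (hi : i ≠ 0) (hμ : μ i = 0) (hy : μ y = 1)
    (h : ∀ z : L, ((μ ∘ₗ Algebra.lmul F L z).smulRight i - ν.smulRight (z + μ z • i)) ∘ₗ
      θ.restrictScalars F ∈ Sa L X a) : specialLinear ι F ≤ X := by
  have := Finite.of_injective _ (algebraMap F L).injective
  have key : ∀ τ : Dual F L, τ ≠ 0 → τ.smulRight i ∘ₗ θ.restrictScalars F ∈ Sa L X a →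
      specialLinear ι F ≤ X := fun τ hτ h =>
    SL_le_of_rank_one hr hX ha hm (χ := τ ∘ₗ θ.restrictScalars F) (fun e => hτ (LinearMap.ext
      fun l => by simpa [h1] using LinearMap.congr_fun e (l • u))) hi h
  by_cases hν : μ ∘ₗ Algebra.lmul F L i - ν = 0
  swap
  · refine key _ hν ?_
    convert h i using 2
    refine LinearMap.ext fun l => ?_
    simp [hμ, sub_smul]
  obtain rfl := sub_eq_zero.1 hν
  set p : L →ₗ[F] L := (μ ∘ₗ Algebra.lmul F L i).smulRight i with hp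
  have h4 : ∀ w : L, (p ∘ₗ Algebra.lmul F L w - w • p - μ (w * i) • p) ∘ₗ θ.restrictScalars F ∈
      Sa L X a := fun w => by
    convert h (w * i) using 2
    refine LinearMap.ext fun l => ?_
    simp [hp, mul_left_comm, smul_smul, mul_comm, sub_sub]
  let A : Subalgebra F L :=
    { carrier := {w | (p ∘ₗ Algebra.lmul F L w - w • p) ∘ₗ θ.restrictScalars F ∈ Sa L X a}
      mul_mem' := fun {v w} hv hw => by
        change _ ∈ Sa L X a
        convert (Sa L X a).add_mem (sa_right hr hX hv h0 (w • u)) (sa_left hr hX ha hw v) using 1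
        refine LinearMap.ext fun x => ?_
        simp [h1, mul_assoc, mul_comm, mul_sub]
      add_mem' := fun {v w} hv hw => by
        change _ ∈ Sa L X a
        convert (Sa L X a).add_mem hv hw using 1
        refine LinearMap.ext fun x => ?_
        simp [add_mul]; ring
      algebraMap_mem' c := by
        change _ ∈ Sa L X a
        convert (Sa L X a).zero_mem using 1
        refine LinearMap.ext fun x => ?_
        simp [Algebra.algebraMap_eq_smul_one] }
  obtain ⟨w, w1, w2⟩ : ∃ w : L, μ (w * i) = 0 ∧ ∀ c, w ≠ algebraMap F L c := by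
    by_contra hc
    push Not at hc
    have h5 : LinearMap.ker (μ ∘ₗ Algebra.lmul F L i) ≤ F ∙ (1 : L) := fun w hw => by
      obtain ⟨c, rfl⟩ := hc w (by simpa [mul_comm] using hw)
      exact Submodule.mem_span_singleton.2 ⟨c, (Algebra.algebraMap_eq_smul_one c).symm⟩
    have h6 := Submodule.finrank_mono h5
    have h7 := LinearMap.finrank_range_add_finrank_ker (μ ∘ₗ Algebra.lmul F L i)
    have h8 := (LinearMap.range (μ ∘ₗ Algebra.lmul F L i)).finrank_le
    rw [finrank_span_singleton one_ne_zero, finrank_self] at *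
    omega
  have h5 : y / i ∈ A := top_of_mem hr (T := A) (by
    change _ ∈ Sa L X a
    simpa [w1] using h4 w) w2 _
  refine key (μ ∘ₗ Algebra.lmul F L i) (fun e => by
    simpa [hi, mul_div_cancel₀, hy] using LinearMap.congr_fun e (y / i)) ?_
  convert (Sa L X a).sub_mem h5 (h4 (y / i)) using 1
  refine LinearMap.ext fun x => ?_
  simp [hi, hy, hp]

omit hr hX ha hm

variable (L) in
/-- the image of an `L`-line -/
def gL (g : GL ι F) (b : ι → F) : Submodule F (ι → F) :=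
  LinearMap.range ((g : Matrix ι ι F).mulVecLin ∘ₗ
    (LinearMap.toSpanSingleton L _ b).restrictScalars F)

theorem mem_gL {g : GL ι F} {b x : ι → F} :
    x ∈ gL L g b ↔ ∃ l : L, (g : Matrix ι ι F) *ᵥ (l • b) = x := Iff.rfl

theorem mem_gL_one {b x : ι → F} : x ∈ gL L 1 b ↔ ∃ l : L, l • b = x := by simp [mem_gL]

theorem finrank_gL (g : GL ι F) {b : ι → F} (hb : b ≠ 0) :
    finrank F (gL L g b) = finrank F L := by
  rw [gL, LinearMap.finrank_range_of_inj]
  exact (injective_iff_map_eq_zero _).2 fun u hu =>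
    (smul_eq_zero.1 ((mulVec_eq_zero_iff_gl g _).1 hu)).resolve_right hb

/-- the conjugate of a root element -/
def rt (g : GL ι F) (b : ι → F) (φ : Dual L (ι → F)) : (ι → F) →ₗ[F] (ι → F) :=
  (g : Matrix ι ι F).mulVecLin ∘ₗ (φ.smulRight b).restrictScalars F ∘ₗ
    ((g⁻¹ : GL ι F) : Matrix ι ι F).mulVecLin

theorem rt_apply (g : GL ι F) (b : ι → F) (φ : Dual L (ι → F)) (x : ι → F) :
    rt g b φ x = (g : Matrix ι ι F) *ᵥ (φ (((g⁻¹ : GL ι F) : Matrix ι ι F) *ᵥ x) • b) := rfl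

theorem rt_gL {g : GL ι F} {b : ι → F} {φ : Dual L (ι → F)} (h : φ b = 0) {x : ι → F}
    (hx : x ∈ gL L g b) : rt g b φ x = 0 := by
  obtain ⟨u, rfl⟩ := mem_gL.1 hx
  rw [rt_apply, inv_mulVec_mulVec]; simp [h]

theorem act_rt (hX : EX L X) {g : GL ι F} (hg : g ∈ X) {b : ι → F} {φ : Dual L (ι → F)}
    (h : φ b = 0) : Act X fun x => x + rt g b φ x :=
  ((act_self hg).mul ((hX.tv h).mul (act_self (X.inv_mem hg)))).congr fun x => by
    rw [mulVec_add, mulVec_inv_mulVec, rt_apply]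

include hr in
/-- The structure of a line meeting `L a` in a hyperplane. -/
theorem exists_data {g : GL ι F} {b : ι → F} (ha : a ≠ 0) (hb : b ≠ 0) {κ₀ κ' y : L}
    (h1 : (g : Matrix ι ι F) *ᵥ (κ₀ • b) ∈ gL L 1 a) (h0 : κ₀ ≠ 0)
    (h2 : (g : Matrix ι ι F) *ᵥ (κ' • b) ∉ gL L 1 a) (hy : y • a ∉ gL L g b)
    (h : ∀ φ : Dual L (ι → F), φ b = 0 → rt g b φ (y • a) ∈ gL L 1 a →
      ∀ l : L, rt g b φ (l • a) ∈ gL L 1 a) :
    ∃ (φ : Dual L (ι → F)) (μ ν : Dual F L), φ b = 0 ∧ μ y = 1 ∧ ν κ' = 1 ∧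
      (∀ l : L, φ (((g⁻¹ : GL ι F) : Matrix ι ι F) *ᵥ (l • a)) = algebraMap F L (μ l)) ∧
      ∀ κ : L, (g : Matrix ι ι F) *ᵥ ((κ - ν κ • κ') • b) ∈ gL L 1 a := by
  have := Finite.of_injective _ (algebraMap F L).injective
  let J : Submodule F L := (gL L 1 a).comap ((g : Matrix ι ι F).mulVecLin ∘ₗ
    (LinearMap.toSpanSingleton L _ b).restrictScalars F)
  have hJ : ∀ κ, κ ∈ J ↔ (g : Matrix ι ι F) *ᵥ (κ • b) ∈ gL L 1 a := fun _ => Iff.rfl
  let G : L →ₗ[F] (ι → F) := ((g⁻¹ : GL ι F) : Matrix ι ι F).mulVecLin ∘ₗ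
    (LinearMap.toSpanSingleton L _ a).restrictScalars F
  have hG : ∀ l, ((g⁻¹ : GL ι F) : Matrix ι ι F) *ᵥ (l • a) = G l := fun _ => rfl
  simp only [rt_apply, ← hJ, hG] at h h1 h2
  have h3 : G y ∉ L ∙ b := fun h => by
    obtain ⟨l, hl⟩ := Submodule.mem_span_singleton.1 h
    exact hy ⟨l, (congrArg _ hl).trans (mulVec_inv_mulVec _ _)⟩
  obtain ⟨φ, a1, a2⟩ := exists_pairG h3 0 1 hb
  obtain ⟨ψ, b1, b2⟩ := exists_pairG h3 1 0 hb
  obtain ⟨π, hπ⟩ := exists_oneG (L := F) (one_ne_zero (α := L)) 1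
  let μ : Dual F L := π ∘ₗ φ.restrictScalars F ∘ₗ G
  have c1 : ∀ l, φ (G l) = algebraMap F L (μ l) := fun l => by
    obtain ⟨t, ht⟩ : ∃ t, φ (G l) = algebraMap F L t := by
      by_contra hc
      refine h2 (top_of_mul hr (fun s hs => ?_) (not_exists.1 hc) h1 h0 κ')
      simpa [mul_comm] using h (s • φ) (by simp [a1]) (by simpa [a2] using hs) l
    simp [μ, ht, Algebra.algebraMap_eq_smul_one, hπ]
  have c2 : ∀ l, G l - μ l • G y = ψ (G l) • b := fun l => by
    by_cases hc : G l - μ l • G y ∈ L ∙ b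
    · obtain ⟨s, hs⟩ := Submodule.mem_span_singleton.1 hc
      have := congrArg ψ hs
      simp only [map_smul, b1, map_sub, LinearMap.map_smul_of_tower, b2, smul_zero, sub_zero,
        smul_eq_mul, mul_one] at this
      rw [← hs, this]
    obtain ⟨θ, d1, d2⟩ := exists_pairG hc 0 κ' hb
    refine (h2 ?_).elim
    have := h (θ - θ (G y) • φ) (by simp [d1, a1]) (by simp [a2]) l
    simpa [c1, ← d2, Algebra.algebraMap_eq_smul_one] using this
  have c3 : ∀ l, ψ (G l) ∈ J := fun l => by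
    rw [hJ, ← c2, ← map_smul, ← map_sub, ← hG, mulVec_inv_mulVec]
    exact mem_gL_one.2 ⟨_, rfl⟩
  have c4 : finrank F L ≤ 1 + finrank F J := by
    have := LinearMap.finrank_le_finrank_of_injective (f := μ.prod
      ((ψ.restrictScalars F ∘ₗ G).codRestrict J c3)) ((injective_iff_map_eq_zero _).2 fun l hl => by
        have e1 : μ l = 0 := congrArg Prod.fst hl
        have e2 : ψ (G l) = 0 := congrArg (fun z => (z.2 : L)) hl
        have := c2 l
        rw [e1, e2, zero_smul, zero_smul, sub_zero, ← hG, mulVec_eq_zero_iff_gl] at this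
        exact (smul_eq_zero.1 this).resolve_right ha)
    rwa [finrank_prod, finrank_self] at this
  have c5 : J ⊔ F ∙ κ' = ⊤ := Submodule.eq_top_of_finrank_eq (le_antisymm (Submodule.finrank_le _) (by
    have := Submodule.finrank_lt_finrank_of_lt (lt_of_le_not_ge (le_sup_left (b := F ∙ κ'))
      fun h => h2 (h (Submodule.mem_sup_right (Submodule.mem_span_singleton_self _))))
    omega))
  obtain ⟨ν, d1, d2⟩ := exists_dualG h2 1
  refine ⟨φ, μ, ν, a1, by simp [μ, a2, hπ], d2, c1, fun κ => ?_⟩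
  obtain ⟨j, hj, _, hz, rfl⟩ := Submodule.mem_sup.1 (c5 ▸ Submodule.mem_top : κ ∈ J ⊔ F ∙ κ')
  obtain ⟨c, rfl⟩ := Submodule.mem_span_singleton.1 hz
  rw [← hJ]
  simpa [d1 j hj, d2] using hj

variable (L) in
/-- No conjugate line meets a line in a hyperplane. -/
def Step (X : Subgroup (GL ι F)) : Prop :=
  ∀ g ∈ X, ∀ (a b : ι → F) (i κ₀ κ' y : L) (φ : Dual L (ι → F)) (μ ν : Dual F L), a ≠ 0 → b ≠ 0 →
    i ≠ 0 → (g : Matrix ι ι F) *ᵥ (κ₀ • b) = i • a → (g : Matrix ι ι F) *ᵥ (κ' • b) ∉ L ∙ a →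
    φ b = 0 → μ y = 1 → ν κ' = 1 →
    (∀ l : L, φ (((g⁻¹ : GL ι F) : Matrix ι ι F) *ᵥ (l • a)) = algebraMap F L (μ l)) →
    (∀ κ : L, (g : Matrix ι ι F) *ᵥ ((κ - ν κ • κ') • b) ∈ gL L 1 a) → specialLinear ι F ≤ X

theorem step_of (hr : (finrank F L).Prime) (hX : EX L X) (hm : 2 ≤ finrank L (ι → F))
    (hc : (∃ c : F, c ≠ 0 ∧ c ≠ 1) ∨ 3 ≤ finrank L (ι → F) ∨ 3 ≤ finrank F L) : Step L X := by
  intro g hg a b i κ₀ κ' y φ μ ν ha hb hi e1 e2 e3 e4 e5 e6 e7
  set l' := (g : Matrix ι ι F) *ᵥ (κ' • b) with hl'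
  have h0 : κ₀ ≠ 0 := by rintro rfl; simp [eq_comm, hi, ha] at e1
  have hμ : μ i = 0 := (algebraMap F L).injective (by
    rw [← e6, ← e1, inv_mulVec_mulVec]; simp [e3])
  let lam : Dual F (ι → F) := ν ∘ₗ (κ₀ • φ).restrictScalars F ∘ₗ
    ((g⁻¹ : GL ι F) : Matrix ι ι F).mulVecLin
  have hlam : lam ≠ 0 := fun h => by
    have := LinearMap.congr_fun h ((g : Matrix ι ι F) *ᵥ ((κ' / κ₀) •
      ((g⁻¹ : GL ι F) : Matrix ι ι F) *ᵥ (y • a)))
    simp only [lam, LinearMap.comp_apply, mulVecLin_apply, inv_mulVec_mulVec] at this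
    simp [-coe_units_inv, e6, e4, mul_div_cancel₀, h0, e5] at this
  have a1 : ∀ (c : F) (l : L), rt g b ((c • κ₀) • φ) (l • a) = (c * μ l) • i • a := fun c l => by
    rw [rt_apply, LinearMap.smul_apply, e6, ← e1, ← mulVec_smul]
    congr 1
    simp [Algebra.algebraMap_eq_smul_one, smul_smul, mul_comm]
  have a2 : ∀ (c : F) (θ : Dual L (ι → F)), θ a = 0 → ∀ x,
      θ (rt g b ((c • κ₀) • φ) x) = (c * lam x) • θ l' := fun c θ h x => by
    obtain ⟨l, hl⟩ := mem_gL_one.1 (e7 (((c • κ₀) • φ) (((g⁻¹ : GL ι F) : Matrix ι ι F) *ᵥ x)))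
    have := congrArg θ hl
    rw [sub_smul, mulVec_sub, ← rt_apply, smul_assoc _ κ' b, mulVec_smul, ← hl'] at this
    simp only [map_smul, h, smul_zero, map_sub, LinearMap.map_smul_of_tower] at this
    rw [← sub_eq_zero, this]
    simp [lam]
  have key : ∀ (c : F) (θ : Dual L (ι → F)), θ a = 0 →
      c • (μ ∘ₗ θ.restrictScalars F).smulRight i - c • lam.smulRight (θ l') -
        (c * c * μ (θ l')) • lam.smulRight i ∈ Sa L X a := fun c θ h => by
    have := sa_conj (act_rt hX hg (b := b) (φ := (-c • κ₀) • φ) (by simp [e3]))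
      (σ := 1 - c • μ.smulRight i) (fun l => by rw [a1]; simp [sub_smul]; module) (sa_lin hX h)
      (γ := θ.restrictScalars F + (c • (μ ∘ₗ θ.restrictScalars F).smulRight i -
        c • lam.smulRight (θ l') - (c * c * μ (θ l')) • lam.smulRight i)) (fun x => by
        simp only [LinearMap.restrictScalars_apply, map_add, a2 _ θ h]
        simp [hμ]; module) fun l => by
        have := a2 1 θ h (l • a)
        rw [a1] at this
        obtain ⟨θ', b1, b2⟩ := exists_pairG e2 0 1 ha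
        have h2 := a2 1 θ' b1 (l • a)
        rw [a1] at h2
        have : lam (l • a) = 0 := by simpa [b1, b2] using h2.symm
        simp [h, this]
    simpa using sub_mem this (sa_lin hX h)
  rcases hc with ⟨c, c0, c1⟩ | hc | hc
  · obtain ⟨θ, b1, b2⟩ := exists_pairG e2 0 y ha
    refine SL_le_of_rank_one hr hX ha hm hlam (i := (c * c - c) • i)
      (smul_ne_zero (by rw [← mul_sub_one]; exact mul_ne_zero c0 (sub_ne_zero.2 c1)) hi) ?_
    convert sub_mem ((Sa L X a).smul_mem c (key 1 θ b1)) (key c θ b1) using 1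
    refine LinearMap.ext fun x => ?_
    simp [b2, e4]; module
  · obtain ⟨w, hw⟩ := exists_notMemG (W := Submodule.span L {a, l'})
      (by have := finrank_pair_le (F := L) a l'; omega)
    obtain ⟨θ, b1, b2⟩ := exists_dualG hw y
    refine SL_le_of_rank_one hr hX ha hm (χ := μ ∘ₗ θ.restrictScalars F)
      (fun h => by simpa [b2, e4] using LinearMap.congr_fun h w) hi ?_
    simpa [b1 l' (Submodule.subset_span (by simp))] using
      key 1 θ (b1 a (Submodule.subset_span (by simp)))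
  · obtain ⟨θ, b1, b2⟩ := exists_pairG e2 0 1 ha
    refine SL_le_of_alt hr hX ha hm hc b1 b2 hi hμ e4
      (ν := lam ∘ₗ (LinearMap.toSpanSingleton L _ l').restrictScalars F) fun z => ?_
    convert sa_right hr hX (key 1 (z • θ) (by simp [b1])) b1 l' using 1
    refine LinearMap.ext fun x => ?_
    simp [b2]; module

section Pair

variable (hr : (finrank F L).Prime) (hX : EX L X) (hs : Step L X) (H : ¬ specialLinear ι F ≤ X)
include hr hX hs H

theorem pair_le (k : ℕ) : ∀ g ∈ X, ∀ a b : ι → F, a ≠ 0 → b ≠ 0 → gL L 1 a ⊓ gL L g b ≠ ⊥ →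
    finrank F L ≤ finrank F (gL L 1 a ⊓ gL L g b : Submodule F _) + k → gL L g b ≤ gL L 1 a := by
  induction k with
  | zero =>
    intro g hg a b ha hb _ h
    exact inf_eq_right.1 (Submodule.eq_of_le_of_finrank_le inf_le_right (by rwa [finrank_gL g hb]))
  | succ k ih =>
    intro g hg a b ha hb h1 h
    by_cases h2 : gL L 1 a ≤ gL L g b
    · refine ih g hg a b ha hb h1 ?_
      rw [inf_eq_left.2 h2, finrank_gL 1 ha]; omega
    obtain ⟨_, y1, y2⟩ := SetLike.not_le_iff_exists.1 h2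
    obtain ⟨y, rfl⟩ := mem_gL_one.1 y1
    obtain ⟨_, ⟨z1, κ₀, rfl⟩, z2⟩ := (Submodule.ne_bot_iff _).1 h1
    by_contra h3
    obtain ⟨_, ⟨κ', rfl⟩, h4⟩ := SetLike.not_le_iff_exists.1 h3
    obtain ⟨φ, μ, ν, a1, a2, a3, a4, a5⟩ := exists_data hr ha hb z1 (by rintro rfl; simp at z2) h4 y2
      fun φ c3 c4 l => by
        obtain ⟨e, he, e1⟩ := act_rt hX hg c3
        have hlt : gL L 1 a ⊓ gL L g b < gL L 1 a ⊓ gL L e a := by
          refine lt_of_le_not_ge (fun x hx => ⟨hx.1, ?_⟩) fun h => y2 (h ⟨y1, ?_⟩).2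
          · obtain ⟨u, rfl⟩ := mem_gL_one.1 hx.1
            exact ⟨u, by change _ *ᵥ (u • a) = _; rw [e1]; simp [rt_gL c3 hx.2]⟩
          · obtain ⟨u, hu⟩ := mem_gL_one.1 (sub_mem y1 c4)
            exact ⟨u, by
              change _ *ᵥ (u • a) = _
              rw [e1, hu]; simp [rt_gL c3 (x := rt g b φ (y • a)) ⟨_, rfl⟩]⟩
        have h3 := ih e he a a ha ha (ne_bot_of_gt hlt)
          (by have := Submodule.finrank_lt_finrank_of_lt hlt; omega)
        simpa [e1] using sub_mem (h3 (mem_gL.2 ⟨l, rfl⟩)) (mem_gL_one.2 ⟨l, rfl⟩)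
    obtain ⟨i, hi⟩ := mem_gL_one.1 z1
    exact H (hs g hg a b i κ₀ κ' y φ μ ν ha hb (by rintro rfl; exact z2 (by simpa using hi.symm))
      hi.symm (fun h => h4 (mem_gL_one.2 (Submodule.mem_span_singleton.1 h))) a1 a2 a3 a4 a5)

theorem conj_scalar (hm : 2 ≤ finrank L (ι → F)) {g : GL ι F} (hg : g ∈ X) (c : L) :
    ∃ d : L, ∀ v, (g : Matrix ι ι F) *ᵥ (c • (((g⁻¹ : GL ι F) : Matrix ι ι F) *ᵥ v)) = d • v := by
  refine scalar_of_lines hm (T := ((g : Matrix ι ι F).mulVecLin ∘ₗ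
    (c • LinearMap.id : (ι → F) →ₗ[L] (ι → F)).restrictScalars F ∘ₗ
      ((g⁻¹ : GL ι F) : Matrix ι ι F).mulVecLin).toAddMonoidHom) fun v => ?_
  obtain rfl | hv := eq_or_ne v 0
  · simp
  exact Submodule.mem_span_singleton.2 (mem_gL_one.1 (pair_le hr hX hs H _ g hg v
    (((g⁻¹ : GL ι F) : Matrix ι ι F) *ᵥ v) hv (by rwa [Ne, mulVec_eq_zero_iff_gl])
    ((Submodule.ne_bot_iff _).2 ⟨v, ⟨mem_gL_one.2 ⟨1, one_smul _ _⟩,
      mem_gL.2 ⟨1, by rw [one_smul, mulVec_inv_mulVec]⟩⟩, hv⟩) (Nat.le_add_left _ _) ⟨c, rfl⟩))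

end Pair

end CA.MaxL6
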