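import Cfsg.Agent.Lib.Lin.MaxL6

/-! Extension field groups are maximal in `SL`. -/

set_option linter.unusedSectionVars false

namespace CA.MaxL7

open Cfsg Cfsg.Geo Matrix CA.AschBase CA.AschProp CA.AschDesc CA.AschFG CA.AschSL CA.MaxTv
  CA.MaxL2 CA.MaxL6 Module
open scoped MatrixGroups

variable {F L : Type*} [Field F] [Field L] [Algebra F L] [Finite L]
variable {ι : Type} [Fintype ι] [DecidableEq ι] [Module L (ι → F)] [IsScalarTower F L (ι → F)]
  {X : Subgroup (GL ι F)}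

theorem exists_dil (a : ι → F) (φ : Dual L (ι → F)) (h : 1 + φ a ≠ 0) : ∃ g : GL ι F,
    (g : Matrix ι ι F).det = Algebra.norm F (1 + φ a) ∧
      ∀ x, (g : Matrix ι ι F) *ᵥ x = x + φ x • a := by
  have := Module.Finite.of_restrictScalars_finite F L (ι → F)
  have := Finite.of_injective _ (algebraMap F L).injective
  have e : (LinearMap.toMatrix' ((LinearMap.transvection φ a).restrictScalars F)).det =
      Algebra.norm F (1 + φ a) := by
    rw [LinearMap.det_toMatrix', LinearMap.det_restrictScalars, LinearMap.transvection.det]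
  obtain ⟨g, hg⟩ := CA.AschFG5.exists_gl' (e ▸ Algebra.norm_ne_zero_iff.2 h)
  exact ⟨g, hg ▸ e, fun x => by rw [hg, LinearMap.toMatrix'_mulVec]; rfl⟩

theorem mem_normalizer_of_lin {K : Subalgebra F (Matrix ι ι F)}
    (h2 : ∀ x ∈ K, ∃ a : L, ∀ v : ι → F, x *ᵥ v = a • v) {g : GL ι F}
    (hg : ∀ (c : L) v, (g : Matrix ι ι F) *ᵥ (c • v) = c • (g : Matrix ι ι F) *ᵥ v) :
    g ∈ subalgebraNormalizer K := by
  have h : ∀ k ∈ K, cj g k = k := fun k hk => by
    obtain ⟨c, hc⟩ := h2 k hk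
    exact (cj_eq_iff _ _ _).2 (ext_mulVec fun v => by rw [← mulVec_mulVec, ← mulVec_mulVec, hc, hc, hg])
  exact (mem_normalizer_iff K g).2 fun k => ⟨fun hk => (h k hk).symm ▸ hk,
    fun hk => (cj g).injective (h _ hk) ▸ hk⟩

theorem span_two {L V : Type*} [Field L] [AddCommGroup V] [Module L V] (h : finrank L V = 2)
    {a v : V} (ha : a ≠ 0) (hv : v ∉ L ∙ a) (x : V) : ∃ c d : L, c • a + d • v = x := by
  have := Module.finite_of_finrank_pos (by omega : 0 < finrank L V)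
  have h1 : (L ∙ a) < Submodule.span L {a, v} := lt_of_le_not_ge (Submodule.span_mono (by simp))
    fun h => hv (h (Submodule.subset_span (by simp)))
  have h2 := Submodule.finrank_lt_finrank_of_lt h1
  rw [finrank_span_singleton ha] at h2
  have h3 : Submodule.span L {a, v} = ⊤ := Submodule.eq_top_of_finrank_eq
    (le_antisymm (Submodule.finrank_le _) (by omega))
  exact Submodule.mem_span_pair.1 (h3 ▸ Submodule.mem_top)

/-- An element of `X` with a given matrix on a family of four vectors. -/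
def Mat [CharP F 2] (X : Subgroup (GL ι F)) (B : Fin 4 → ι → F)
    (M : Matrix (Fin 4) (Fin 4) (ZMod 2)) : Prop :=
  ∃ g ∈ X, ∀ j, (g : Matrix ι ι F) *ᵥ B j = ∑ i, ZMod.castHom (dvd_refl 2) F (M i j) • B i

theorem Mat.mul [CharP F 2] {B : Fin 4 → ι → F} {M N : Matrix (Fin 4) (Fin 4) (ZMod 2)}
    (h : Mat X B M) (h' : Mat X B N) : Mat X B (M * N) := by
  obtain ⟨g, hg, h⟩ := h
  obtain ⟨g', hg', h'⟩ := h'
  refine ⟨g * g', X.mul_mem hg hg', fun j => ?_⟩
  rw [Units.val_mul, ← mulVec_mulVec, h', mulVec_sum]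
  simp only [mulVec_smul, h, Finset.smul_sum, smul_smul, mul_apply, map_sum, map_mul,
    Finset.sum_smul]
  rw [Finset.sum_comm]
  simp only [mul_comm]

theorem step_two (hX : EX L X) (hm : finrank L (ι → F) = 2) (hr : finrank F L = 2)
    (hq : ∀ c : F, c = 0 ∨ c = 1) : Step L X := by
  intro g hg a b i κ₀ κ' y φ μ ν ha hb hi e1 e2 e3 e4 e5 e6 e7
  have := Finite.of_injective _ (algebraMap F L).injective
  have h2 : (1 + 1 : F) = 0 := (hq _).resolve_right (by simp)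
  have : CharP F 2 := CharTwo.of_one_ne_zero_of_two_eq_zero one_ne_zero (by rw [← h2]; norm_num)
  have h2L : (1 + 1 : L) = 0 := by simpa using congrArg (algebraMap F L) h2
  set l' := (g : Matrix ι ι F) *ᵥ (κ' • b) with hl'
  have h0 : κ₀ ≠ 0 := by rintro rfl; simp [eq_comm, hi, ha] at e1
  have hμ : μ i = 0 := (algebraMap F L).injective (by
    rw [← e6, ← e1, inv_mulVec_mulVec]; simp [e3])
  obtain ⟨ω, rfl⟩ : ∃ ω, y = ω * i := ⟨y / i, by simp [hi]⟩
  have hω : ω ∉ F ∙ (1 : L) := fun h => by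
    obtain ⟨c, rfl⟩ := Submodule.mem_span_singleton.1 h
    simp [hμ] at e4
  have hω0 : ω ≠ 0 := by rintro rfl; simp at hω
  have hω1 : ω ≠ 1 := by rintro rfl; simp at hω
  have hω2 : ω * ω = ω + 1 := by
    obtain ⟨c, d, h⟩ := span_two hr one_ne_zero hω (ω * ω)
    rcases hq c with rfl | rfl <;> rcases hq d with rfl | rfl
    · simp [hω0] at h
    · simp [hω0, hω1] at h
    · refine (hω1 ?_).elim
      have : (ω - 1) ^ 2 = 0 := by simp at h; linear_combination (1 - ω) * h2L - h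
      exact sub_eq_zero.1 (pow_eq_zero_iff two_ne_zero |>.1 this)
    · simpa [add_comm] using h.symm
  set a₁ := i • a with ha₁
  have ha1 : a₁ ≠ 0 := smul_ne_zero hi ha
  have e2' : l' ∉ L ∙ a₁ := by rwa [ha₁, Submodule.span_singleton_smul_eq hi.isUnit]
  let B : Fin 4 → ι → F := ![a₁, l', ω • a₁, ω • l']
  have ext4 : ∀ {W : Type _} [AddCommGroup W] [Module F W] (f f' : (ι → F) →ₗ[F] W),
      (∀ j, f (B j) = f' (B j)) → f = f' := fun f f' h => LinearMap.ext fun x => by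
    obtain ⟨c, d, rfl⟩ := span_two hm ha1 e2' x
    obtain ⟨c₁, c₂, rfl⟩ := span_two hr one_ne_zero hω c
    obtain ⟨d₁, d₂, rfl⟩ := span_two hr one_ne_zero hω d
    have h0 := h 0; have h1 := h 1; have h2 := h 2; have h3 := h 3
    simp only [B, cons_val] at h0 h1 h2 h3
    simp only [add_smul, smul_assoc, one_smul, map_add, map_smul, h0, h1, h2, h3]
  obtain ⟨π, p1, p2⟩ := exists_pairG hω 0 1 one_ne_zero
  obtain ⟨θ₁, t1, t2⟩ := exists_pairG e2' 1 0 ha1
  obtain ⟨θ₂, t3, t4⟩ := exists_pairG e2' 0 1 ha1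
  have f1 : φ (((g⁻¹ : GL ι F) : Matrix ι ι F) *ᵥ a₁) = 0 := by
    rw [← e1, inv_mulVec_mulVec]; simp [e3]
  have f2 : φ (((g⁻¹ : GL ι F) : Matrix ι ι F) *ᵥ l') = 0 := by
    rw [hl', inv_mulVec_mulVec]; simp [e3]
  have f3 : φ (((g⁻¹ : GL ι F) : Matrix ι ι F) *ᵥ (ω • a₁)) = 1 := by
    rw [ha₁, smul_smul, e6, e4, map_one]
  set s := φ (((g⁻¹ : GL ι F) : Matrix ι ι F) *ᵥ (ω • l')) with hs
  have hκ : κ' ∉ F ∙ κ₀ := fun h => by
    obtain ⟨c, rfl⟩ := Submodule.mem_span_singleton.1 h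
    refine e2' ?_
    rw [hl', smul_assoc, mulVec_smul, e1, ← algebraMap_smul L]
    exact Submodule.smul_mem _ _ (Submodule.mem_span_singleton_self _)
  obtain ⟨c, d, hcd⟩ := span_two hr h0 hκ (κ' * s)
  obtain rfl : c = 1 := (hq c).resolve_left (by
    rintro rfl
    have h3 : s = d • 1 := mul_left_cancel₀ (show κ' ≠ 0 by rintro rfl; simp at hκ)
      (by rw [← hcd]; simp)
    have := LinearMap.congr_fun (ext4 (π ∘ₗ φ.restrictScalars F ∘ₗ
      ((g⁻¹ : GL ι F) : Matrix ι ι F).mulVecLin) 0 fun j => by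
        fin_cases j <;> simp [-coe_units_inv, B, f1, f2, f3, ← hs, h3, p1])
      ((g : Matrix ι ι F) *ᵥ (ω • ((g⁻¹ : GL ι F) : Matrix ι ι F) *ᵥ (ω • a₁)))
    simp only [LinearMap.comp_apply, mulVecLin_apply, inv_mulVec_mulVec] at this
    simp [-coe_units_inv, f3, p2] at this)
  have hP : Mat X B !![1, 1, 0, 0; 0, 1, 0, 0; 0, 0, 1, 1; 0, 0, 0, 1] := by
    obtain ⟨k, hk, h⟩ := hX.tv t3
    exact ⟨k, hk, fun j => by
      rw [h]; fin_cases j <;> simp [B, Fin.sum_univ_four, t3, t4, add_comm]⟩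
  have hQ : Mat X B !![1, 0, 0, 0; 1, 1, 0, 0; 0, 0, 1, 0; 0, 0, 1, 1] := by
    obtain ⟨k, hk, h⟩ := hX.tv t2
    exact ⟨k, hk, fun j => by
      rw [h]; fin_cases j <;> simp [B, Fin.sum_univ_four, t1, t2, add_comm]⟩
  have hD : Mat X B !![0, 0, 1, 0; 0, 1, 0, 0; 1, 0, 1, 0; 0, 0, 0, 1] := by
    obtain ⟨k, hk, h⟩ := hX a₁ ((ω - 1) • θ₁) ((hq _).resolve_left
      (Algebra.norm_ne_zero_iff.2 (by simpa [t1] using hω0)))
    exact ⟨k, hk, fun j => by
      rw [h]; fin_cases j <;> simp [B, Fin.sum_univ_four, t1, t2, mul_sub, hω2, sub_smul, add_comm]⟩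
  obtain ⟨k, hk, h⟩ := act_rt hX hg (b := b) (φ := κ' • φ) (by simp [e3])
  have f4 : (g : Matrix ι ι F) *ᵥ ((κ' * s) • b) = a₁ + d • l' := by
    rw [← hcd, add_smul, one_smul, smul_assoc, mulVec_add, mulVec_smul, e1]
  have hT : Mat X B !![1, 0, 0, 1; 0, 1, 0, 0; 0, 0, 1, 0; 0, 0, 0, 1] := by
    rcases hq d with rfl | rfl
    · have hE : Mat X B !![1, 0, 0, 1; 0, 1, 1, 0; 0, 0, 1, 0; 0, 0, 0, 1] := ⟨k, hk, fun j => by
        simp only [h, rt_apply]
        fin_cases j <;> simp [-coe_units_inv, B, Fin.sum_univ_four, f1, f2, f3, ← hs, f4, ← hl',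
          add_comm]⟩
      convert (((((((hD.mul hQ).mul hE).mul hD).mul hQ).mul hD).mul hE).mul hQ).mul hD using 1
      decide
    · have hE : Mat X B !![1, 0, 0, 1; 0, 1, 1, 1; 0, 0, 1, 0; 0, 0, 0, 1] := ⟨k, hk, fun j => by
        simp only [h, rt_apply]
        fin_cases j <;> simp [-coe_units_inv, B, Fin.sum_univ_four, f1, f2, f3, ← hs, f4, ← hl',
          add_comm]⟩
      convert (((((((((((hQ.mul hP).mul hD).mul hP).mul hE).mul hP).mul hD).mul hQ).mul hP).mul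
        hD).mul hD).mul hE).mul hD using 1
      decide
  obtain ⟨t, ht, h⟩ := hT
  have h3 := ext4 (t : Matrix ι ι F).mulVecLin (1 + (π ∘ₗ θ₂.restrictScalars F).smulRight a₁)
    fun j => by
      rw [mulVecLin_apply, h]
      fin_cases j <;> simp [B, Fin.sum_univ_four, t3, t4, p1, p2, add_comm]
  refine SL_le_of_rank_one (by rw [hr]; exact Nat.prime_two) hX ha1 hm.ge
    (χ := π ∘ₗ θ₂.restrictScalars F) (fun e => by simpa [t4, p2] using LinearMap.congr_fun e (ω • l'))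
    one_ne_zero ⟨fun l => by simp [t3], fun c => ?_⟩
  rcases hq c with rfl | rfl
  · exact act_id.congr (by simp)
  · exact ⟨t, ht, fun x => by simpa using LinearMap.congr_fun h3 x⟩

theorem over_ext [Finite F] {r : ℕ} (hr : r.Prime) (hn : r < Fintype.card ι)
    {K : Subalgebra F (Matrix ι ι F)} (hK : IsFieldSubalgebra r K)
    (hX : subalgebraNormalizer K ⊓ specialLinear ι F ≤ X) :
    X ≤ subalgebraNormalizer K ∨ specialLinear ι F ≤ X := by
  have : Nonempty ι := Fintype.card_pos_iff.1 (by omega)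
  obtain ⟨L, _, _, _, _, _, rfl, h1, h2, -⟩ := CA.AschO2.exists_ext hK
  have hE : EX L X := fun a φ h => by
    obtain ⟨g, e1, e2⟩ := exists_dil a φ (fun h0 => by simp [h0] at h)
    exact ⟨g, hX ⟨mem_normalizer_of_lin h2 fun c v => by simp [e2, smul_smul],
      mem_SL.2 (e1.trans h)⟩, e2⟩
  have h3 := finrank_mul_finrank F L (ι → F)
  rw [finrank_fun] at h3
  have hm : 2 ≤ finrank L (ι → F) := by
    by_contra h
    have : finrank F L * finrank L (ι → F) ≤ finrank F L * 1 := Nat.mul_le_mul_left _ (by omega)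
    omega
  have hs : Step L X := by
    by_cases hc : (∃ c : F, c ≠ 0 ∧ c ≠ 1) ∨ 3 ≤ finrank L (ι → F) ∨ 3 ≤ finrank F L
    · exact step_of hr hE hm hc
    · push Not at hc
      exact step_two hE (by omega) (by have := hr.two_le; omega) fun c =>
        or_iff_not_imp_left.2 (hc.1 c)
  refine or_iff_not_imp_right.2 fun H => le_normalizer_of_forall fun g hg k hk => ?_
  obtain ⟨c, hc⟩ := h2 k hk
  obtain ⟨d, hd⟩ := conj_scalar hr hE hs H hm hg c
  obtain ⟨k', hk', e⟩ := h1 d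
  rwa [show cj g k = k' from ext_mulVec fun v => by
    rw [e, ← hd, ← hc, ← cj_mulVec, mulVec_inv_mulVec]]

theorem max_ext [Fintype F] {n r : ℕ} (hr : r.Prime) (hn : r < n)
    {K : Subalgebra F (Matrix (Fin n) (Fin n) F)} (hK : IsFieldSubalgebra r K) :
    IsMaximalIn (specialLinear (Fin n) F) (subalgebraNormalizer K ⊓ specialLinear (Fin n) F) := by
  have h3 : 3 ≤ n := by have := hr.two_le; omega
  have : Nonempty (Fin n) := ⟨⟨0, by omega⟩⟩
  exact isMaximalIn_of ((qs_SL h3).not_le_fieldNormalizer hK hr.ne_one) fun X hX _ =>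
    over_ext hr (by simpa) hK hX

theorem exists_det [Finite F] [Nonempty ι] {r : ℕ} {K : Subalgebra F (Matrix ι ι F)}
    (hK : IsFieldSubalgebra r K) {c : F} (hc : c ≠ 0) :
    ∃ g ∈ subalgebraNormalizer K, (g : Matrix ι ι F).det = c := by
  obtain ⟨L, _, _, _, _, _, -, -, h2, -⟩ := CA.AschO2.exists_ext hK
  obtain ⟨x, rfl⟩ := FiniteField.norm_surjective F L c
  obtain ⟨a, ha⟩ := exists_ne (0 : ι → F)
  obtain ⟨φ, h⟩ := exists_oneG ha (x - 1)
  obtain ⟨g, e1, e2⟩ := exists_dil a φ (by rw [h]; rintro h0; simp at h0; simp [h0] at hc)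
  exact ⟨g, mem_normalizer_of_lin h2 fun c v => by simp [e2, smul_smul], by simp [e1, h]⟩

end CA.MaxL7
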