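import Cfsg.Agent.Lib.Lin.MaxL4
import Cfsg.Agent.Lib.Lin.MaxL5
import Cfsg.Agent.Lib.Lin.MaxL7

/-! Similarity groups of forms are maximal in `SL`. -/

namespace CA.MaxL8

open Cfsg Cfsg.Geo Matrix CA.AschBase CA.AschForm CA.AschTForm CA.AschProp CA.AschDesc CA.AschFG
  CA.AschFG3 CA.AschSL CA.CForm CA.MaxTv Module
open scoped MatrixGroups

variable {F : Type*} [Field F] [Fintype F] {n : ℕ}

theorem max_symp_of (hn : 3 ≤ n) (h : ∀ (φ : Form (Kind.symp F) (Fin n → F)) (X : Subgroup (GL (Fin n) F)),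
    φ.Nondeg → similarityGroup (fn φ) ⊓ specialLinear (Fin n) F ≤ X →
      X ≤ similarityGroup (fn φ) ∨ specialLinear (Fin n) F ≤ X)
    (f : (Fin n → F) → (Fin n → F) → F) (hf : IsSymplecticForm f) :
    IsMaximalIn (specialLinear (Fin n) F) (similarityGroup f ⊓ specialLinear (Fin n) F) :=
  isMaximalIn_of (not_SL_le_sim hn (sf_of_symp hf)) fun X hX _ =>
    h (toSymp hf) X (toSymp_nondeg hf) hX

theorem max_herm_of (hn : 3 ≤ n) (h : ∀ (q : ℕ) (hF : Fintype.card F = q ^ 2)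
    (φ : Form (hermKind hF) (Fin n → F)) (X : Subgroup (GL (Fin n) F)),
    φ.Nondeg → similarityGroup (fn φ) ⊓ specialLinear (Fin n) F ≤ X →
      X ≤ similarityGroup (fn φ) ∨ specialLinear (Fin n) F ≤ X) (σ : F ≃+* F)
    (f : (Fin n → F) → (Fin n → F) → F) (hf : IsUnitaryForm σ f) :
    IsMaximalIn (specialLinear (Fin n) F) (similarityGroup f ⊓ specialLinear (Fin n) F) := by
  refine isMaximalIn_of (not_SL_le_sim hn (sf_of_unitary hf)) fun X hX _ => ?_
  obtain ⟨q, h1, h2, -⟩ := invol_eq_pow (σ : F →+* F) hf.involutive (ne_id_of_unitary hf)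
  have hF : Fintype.card F = q ^ 2 := by rwa [← Nat.card_eq_fintype_card]
  have h3 : (σ : F →+* F) = conj hF := RingHom.ext h2
  have s1 : SF (conj hF) f := h3 ▸ sf_of_unitary hf
  have s2 : Refl (conj hF) 1 f := h3 ▸ refl_of_unitary hf
  exact h q hF (toHerm s1 s2 (conj_ne_id hF)) X (toHerm_nondeg s1 s2 _) hX

theorem max_orth_of (hn : 3 ≤ n) (h : (2 : F) ≠ 0 → ∀ (φ : Form (Kind.orth F) (Fin n → F))
    (X : Subgroup (GL (Fin n) F)), φ.Nondeg →
    similarityGroup (fn φ) ⊓ specialLinear (Fin n) F ≤ X → X ≤ specialLinear (Fin n) F →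
      X ≤ similarityGroup (fn φ) ∨ specialLinear (Fin n) F ≤ X) (hodd : Odd (Fintype.card F))
    (Q : (Fin n → F) → F) (hQ : IsNondegenerateQuadraticForm Q) :
    IsMaximalIn (specialLinear (Fin n) F) (quadSimilarityGroup Q ⊓ specialLinear (Fin n) F) := by
  have h2 : (2 : F) ≠ 0 := fun h => by
    have := FiniteField.even_card_of_char_two ((CharP.ringChar_of_prime_eq_zero Nat.prime_two h))
    rw [Nat.odd_iff] at hodd; omega
  have e : fn (toOrth hQ) = QuadraticMap.polar Q := by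
    funext u v; rw [fn_apply, toOrth_B, QuadraticMap.polar_comm]
  refine isMaximalIn_of (fun h => not_SL_le_sim hn (sf_of_quad hQ)
    (h.trans (quadSim_le_sim Q))) fun X hX hS => ?_
  refine (h h2 (toOrth hQ) X (toOrth_nondeg hQ) ((inf_le_inf_right _ ?_).trans hX) hS).imp_left
    fun h => h.trans ?_
  all_goals rw [e]; exact sim_le_quadSim_of_two hQ h2

omit [Fintype F] in
theorem EG_le_sim {k : Kind F} (φ : Form k (Fin n → F)) :
    EG φ ≤ similarityGroup (fn φ) ⊓ specialLinear (Fin n) F :=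
  le_inf ((EG_le_IG _).trans (IG_le_sim _)) (EG_le_SL _)

theorem max_symp (hn : 9 ≤ n) (f : (Fin n → F) → (Fin n → F) → F) (hf : IsSymplecticForm f) :
    IsMaximalIn (specialLinear (Fin n) F) (similarityGroup f ⊓ specialLinear (Fin n) F) :=
  max_symp_of (by omega) (fun φ _ h hX => over_symp h ((EG_le_sim φ).trans hX) (by simpa)) f hf

theorem max_herm (hn : 9 ≤ n) (σ : F ≃+* F) (f : (Fin n → F) → (Fin n → F) → F)
    (hf : IsUnitaryForm σ f) :
    IsMaximalIn (specialLinear (Fin n) F) (similarityGroup f ⊓ specialLinear (Fin n) F) :=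
  max_herm_of (by omega) (fun _ hF φ _ h hX => over_herm hF h ((EG_le_sim φ).trans hX) (by simpa))
    σ f hf

theorem max_orth (hn : 9 ≤ n) (hodd : Odd (Fintype.card F)) (Q : (Fin n → F) → F)
    (hQ : IsNondegenerateQuadraticForm Q) :
    IsMaximalIn (specialLinear (Fin n) F) (quadSimilarityGroup Q ⊓ specialLinear (Fin n) F) :=
  max_orth_of (by omega) (fun h2 φ _ h hX _ => over_orth h2 h ((EG_le_sim φ).trans hX) (by simpa))
    hodd Q hQ

end CA.MaxL8
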