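import Cfsg.Agent.Lib.Lin.MaxL2
import Cfsg.Agent.Lib.Lin.AschO4
import Cfsg.Agent.Lib.Lin.AschU
import Cfsg.Agent.Lib.Lin.AschSp

/-! Geometric subgroups which are not maximal: subspaces and decompositions. -/

set_option linter.unusedSectionVars false

namespace CA.MaxN1

open Cfsg Cfsg.Geo Matrix CA.AschBase CA.AschForm CA.AschTForm CA.AschProp CA.AschDesc CA.AschFG
  CA.AschFG5 CA.AschFG7 CA.AschO1 CA.AschO3 CA.CForm CA.MaxTv Module
open scoped MatrixGroups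

variable {ι : Type} [Fintype ι] [DecidableEq ι] {F : Type*} [Field F] [Fintype F] {k : Kind F}

/-- some subgroup lies strictly between `M ⊓ G` and `G` -/
def Btw (G M : Subgroup (GL ι F)) : Prop := ∃ K, M ⊓ G < K ∧ K < G

theorem btw_of_set {G M : Subgroup (GL ι F)} (A : Set (ι → F))
    (h1 : ∀ g ∈ M, g ∈ G → ∀ v ∈ A, (g : Matrix ι ι F) *ᵥ v ∈ A)
    (h2 : ∃ g ∈ G, ∃ v ∈ A, (g : Matrix ι ι F) *ᵥ v ∉ A) {x : GL ι F} (hx : x ∈ G)
    (h3 : ∀ v ∈ A, (x : Matrix ι ι F) *ᵥ v ∈ A) (h4 : x ∉ M) : Btw G M := by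
  have key : ∀ g : GL ι F, (∀ v ∈ A, (g : Matrix ι ι F) *ᵥ v ∈ A) →
      g ∈ CA.AschSL.funStab fun v => v ∈ A := fun g h v => propext ⟨fun hv => by
    obtain ⟨w, hw, e⟩ := (((Set.toFinite A).injOn_iff_bijOn_of_mapsTo h).1
      (mulVec_injective_gl g).injOn).surjOn hv
    exact mulVec_injective_gl g e ▸ hw, h v⟩
  refine exists_between (fun g hg => key g (h1 g hg.1 hg.2)) (fun h => ?_) (key x h3) hx h4
  obtain ⟨g, hg, v, hv, h5⟩ := h2
  exact h5 ((h hg v).ge hv)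

variable {φ : Form k (ι → F)}

theorem exists_eich (hφ : φ.Nondeg) (hs : Sing φ) {U A : Submodule F (ι → F)}
    (hU : 2 * finrank F U + 3 ≤ Fintype.card ι) (hA : A ≤ U) {w : ι → F} (hw : w ∈ U)
    (hwA : w ∉ A) : ∃ u ∈ φ.perp U, u ∉ U ∧ φ.Q u = 0 ∧ ∀ c : F, ∃ g ∈ EG φ,
      (g : Matrix ι ι F) *ᵥ w = w + c • u ∧ ∀ a ∈ A, (g : Matrix ι ι F) *ᵥ a = a := by
  obtain ⟨u, h1, h2, h3⟩ := hs.exists_perp hφ U (by rwa [finrank_fun])
  refine ⟨u, h1, h2, h3, fun c => ?_⟩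
  obtain ⟨y, a1, a2⟩ := hφ.exists_perp_B_eq (W := A ⊔ F ∙ u) (u := w) (fun h => by
    obtain ⟨a, ha, _, hz, rfl⟩ := Submodule.mem_sup.1 h
    obtain ⟨d, rfl⟩ := Submodule.mem_span_singleton.1 hz
    obtain rfl | hd := eq_or_ne d 0
    · simp [ha] at hwA
    · exact h2 ((U.smul_mem_iff hd).1 ((U.add_mem_iff_right (hA ha)).1 hw))) (-(k.ε * c))
  rw [φ.perp_sup] at a1
  obtain ⟨d, hd⟩ := φ.exists_eichlerCond h3 (φ.mem_perp_span_singleton.1 a1.2)
  obtain ⟨g, hg, e⟩ := act_eich hd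
  refine ⟨g, hg, ?_, fun a ha => ?_⟩
  · simp [e, Form.eichlerL_apply, φ.eq_zero_symm (h1 w hw), a2, ← mul_assoc, k.εε]
  · simp [e, Form.eichlerL_apply, φ.eq_zero_symm (h1 a (hA ha)), φ.eq_zero_symm (a1.1 a ha)]

section Dec

variable {t m : ℕ} {D : Fin t → Submodule F (ι → F)}

theorem blk_of_mem {g : GL ι F} (hg : g ∈ decompositionStabilizer D) :
    ∃ σ : Equiv.Perm (Fin t), ∀ i, ∀ v ∈ D i, (g : Matrix ι ι F) *ᵥ v ∈ D (σ i) :=
  let ⟨σ, h⟩ := hg
  ⟨σ, fun i _ hv => h i ▸ Submodule.mem_map_of_mem (f := Matrix.toLin' (g : Matrix ι ι F)) hv⟩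

theorem blk_eq (hD : IsMDecomposition m D) {i j : Fin t} {v : ι → F} (h0 : v ≠ 0) (hi : v ∈ D i)
    (hj : v ∈ D j) : i = j := by
  by_contra h
  exact h0 (decomp_eq_zero hD hi (decomp_mem_compl (Ne.symm h) hj))

theorem not_mem_decomp (hD : IsMDecomposition m D) {g : GL ι F} {i j : Fin t} {s s' : ι → F}
    (hs : s ∈ D i) (hs' : s' ∈ D i) (h0 : s ≠ 0) (h1 : (g : Matrix ι ι F) *ᵥ s ∈ D j)
    (h2 : (g : Matrix ι ι F) *ᵥ s' ∉ D j) : g ∉ decompositionStabilizer D := fun hg => by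
  obtain ⟨σ, h⟩ := blk_of_mem hg
  exact h2 (blk_eq hD (by rwa [Ne, mulVec_eq_zero_iff_gl]) (h i s hs) h1 ▸ h i s' hs')

variable (hD : IsNondegenerateMDecomposition (fn φ) m D)
include hD

theorem B_blk {i j : Fin t} (h : i ≠ j) {u v : ι → F} (hu : u ∈ D i) (hv : v ∈ D j) :
    φ.B u v = 0 := hD.orthogonal j i h.symm v hv u hu

theorem exists_B {i : Fin t} {v : ι → F} (hv : v ∈ D i) (h0 : v ≠ 0) (c : F) :
    ∃ e ∈ D i, φ.B v e = c := by
  obtain ⟨x, hx, h⟩ := (hD.nondegenerate i v hv h0).1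
  exact ⟨(c / φ.B v x) • x, Submodule.smul_mem _ _ hx, by
    rw [map_smul, smul_eq_mul, div_mul_cancel₀ _ (show φ.B v x ≠ 0 from h)]⟩

theorem nd_blk (i : Fin t) : (φ.restrict (D i)).Nondeg :=
  (φ.nondeg_restrict_iff _).2 (nondegOn_iff.1 (hD.nondegenerate i))

theorem exists_three (hn : 2 * m < Fintype.card ι) :
    ∃ i j l : Fin t, i ≠ j ∧ i ≠ l ∧ j ≠ l := by
  have h1 := decomp_card hD.decomp
  have h3 : 2 < t := by by_contra h; nlinarith
  exact ⟨⟨0, by omega⟩, ⟨1, by omega⟩, ⟨2, h3⟩, by simp, by simp, by simp⟩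

variable (hφ : φ.Nondeg) (hs : Sing φ) (hn : 2 * m + 3 ≤ Fintype.card ι)
include hφ hs hn

theorem btw_S {G : Subgroup (GL ι F)} (h1 : EG φ ≤ G) (h2 : G ≤ IG φ) {c : F} {i : Fin t}
    {v : ι → F} (hv : v ∈ D i) (h0 : v ≠ 0) (hc : φ.Q v = c) {x : GL ι F} (hx : x ∈ G)
    (h3 : ∀ i, ∀ v ∈ D i, φ.Q v = c → ∃ j, (x : Matrix ι ι F) *ᵥ v ∈ D j)
    (h4 : x ∉ decompositionStabilizer D) : Btw G (decompositionStabilizer D) := by
  refine btw_of_set {v | (∃ i, v ∈ D i) ∧ φ.Q v = c} ?_ ?_ hx ?_ h4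
  · rintro g hg hg' v ⟨⟨i, hv⟩, h⟩
    obtain ⟨σ, e⟩ := blk_of_mem hg
    exact ⟨⟨_, e i v hv⟩, (Q_IG (h2 hg') v).trans h⟩
  · obtain ⟨u, a1, a2, -, a3⟩ := exists_eich hφ hs (U := D i) (A := ⊥)
      (by rwa [hD.decomp.finrank_eq]) bot_le hv (by simpa using h0)
    obtain ⟨g, hg, a4, -⟩ := a3 1
    refine ⟨g, h1 hg, v, ⟨⟨i, hv⟩, hc⟩, ?_⟩
    rintro ⟨⟨j, hj⟩, -⟩
    rw [a4, one_smul] at hj
    by_cases h : i = j
    · exact a2 (((D i).add_mem_iff_right hv).1 (h ▸ hj))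
    obtain ⟨e, he, h5⟩ := exists_B hD hv h0 1
    have := B_blk hD h he hj
    rw [map_add, a1 e he, add_zero, φ.eq_zero_comm, h5] at this
    exact one_ne_zero this
  · rintro v ⟨⟨i, hv⟩, h⟩
    exact ⟨h3 i v hv h, (Q_IG (h2 hx) v).trans h⟩

omit hφ hs hn in
theorem swap_S {c : F} (hF : ∀ i, ∀ u ∈ D i, ∀ v ∈ D i, φ.Q u = c → φ.Q v = c →
      φ.B u v = 0 ∨ v ∈ F ∙ u) (hc : k.δ * c ≠ 0) {i j : Fin t} (hij : i ≠ j) {s s' : ι → F}
    (h1 : s ∈ D i) (h2 : s' ∈ D j) (q1 : φ.Q s = c) (q2 : φ.Q s' = c)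
    {l : Fin t} {v : ι → F} (hv : v ∈ D l) (q : φ.Q v = c) :
    ∃ l, v - ((k.δ * c)⁻¹ * φ.B (s - s') v) • (s - s') ∈ D l := by
  have key : ∀ {i} {s}, s ∈ D i → φ.Q s = c → φ.B s v = 0 ∨ v ∈ F ∙ s := fun {i s} h q1 => by
    by_cases e : i = l
    · exact hF l s (e ▸ h) v hv q1 q
    · exact .inl (B_blk hD e h hv)
  have c1 := left_ne_zero_of_mul hc
  have c2 := right_ne_zero_of_mul hc
  rcases key h1 q1 with a1 | a1
  · rcases key h2 q2 with a2 | a2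
    · exact ⟨l, by simpa [a1, a2] using hv⟩
    · obtain ⟨d, rfl⟩ := Submodule.mem_span_singleton.1 a2
      refine ⟨i, ?_⟩
      convert (D i).smul_mem d h1 using 1
      simp only [Form.B_sub_left, map_smul, B_blk hD hij h1 h2, φ.B_self, q2, smul_eq_mul]
      match_scalars <;> field_simp <;> ring
  · obtain ⟨d, rfl⟩ := Submodule.mem_span_singleton.1 a1
    refine ⟨j, ?_⟩
    convert (D j).smul_mem d h2 using 1
    simp only [Form.B_sub_left, map_smul, B_blk hD hij.symm h2 h1, φ.B_self, q1, smul_eq_mul]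
    match_scalars <;> field_simp <;> ring

omit hφ hs hn in
theorem exists_orth_in (hm : 2 ≤ m) (i : Fin t) (s : ι → F) : ∃ u ∈ D i, u ≠ 0 ∧ φ.B s u = 0 := by
  simpa using CA.MaxL2.exists_notMem (W := D i) (U := ⊥) (φ.B s) (by simp [hD.decomp.finrank_eq, hm])

end Dec

section Orth

variable {φ : Form (Kind.orth F) (ι → F)} {t m : ℕ} {D : Fin t → Submodule F (ι → F)}
  (hD : IsNondegenerateMDecomposition (fn φ) m D) (hφ : φ.Nondeg) (hn : 2 * m + 3 ≤ Fintype.card ι)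
include hD hφ hn

theorem btw_frame (hm : 2 ≤ m) (h2 : (2 : F) ≠ 0) {c : F} (hc : c ≠ 0)
    (hS : ∀ i, ∃ s ∈ D i, φ.Q s = c) (hF : ∀ i, ∀ u ∈ D i, ∀ v ∈ D i, φ.Q u = c → φ.Q v = c →
      φ.B u v = 0 ∨ v ∈ F ∙ u) : Btw (EG φ) (decompositionStabilizer D) := by
  choose s h1 h3 using hS
  obtain ⟨i, j, l, hij, hil, hjl⟩ := exists_three hD (by omega)
  have hc' : (Kind.orth F).δ * c ≠ 0 := mul_ne_zero h2 hc
  have hQ : ∀ i j, i ≠ j → φ.Q (s i - s j) = (Kind.orth F).δ * c := fun i j h => by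
    rw [φ.Q_sub, h3, h3, B_blk hD h (h1 i) (h1 j)]; simp [two_mul]
  obtain ⟨g, hg⟩ := hφ.exists_commutator_eq_refl_mul (v := s i - s j) (w := s j - s l)
    (hQ i j hij ▸ hc') (hQ j l hjl ▸ hc') (by rw [hQ i j hij, hQ j l hjl]; exact ⟨_, rfl⟩)
  have h4 : φ.refl (s i - s j) * φ.refl (s j - s l) ∈ φ.Eich := by
    rw [hg, ← hφ.commutator_eq_Eich (Form.good_of_five_le (by rw [finrank_fun]; omega))
      (by rw [finrank_fun]; omega)]
    exact Subgroup.commutator_mem_commutator trivial trivial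
  have h0 : ∀ i, s i ≠ 0 := fun i h => hc (by rw [← h3 i, h, φ.Q_zero])
  have h5 : ∀ i j, i ≠ j → ∀ l, ∀ v ∈ D l, φ.Q v = c →
      ∃ l, (φ.refl (s i - s j) : (ι → F) ≃ₗ[F] (ι → F)) v ∈ D l := fun i j h l v hv q => by
    rw [φ.refl_apply, hQ i j h]
    exact swap_S hD hF hc' h (h1 i) (h1 j) (h3 i) (h3 j) hv q
  obtain ⟨u, u1, u2, u3⟩ := exists_orth_in hD hm i (s i)
  refine btw_S hD hφ (sing_orth φ) hn le_rfl (EG_le_IG φ) (h1 i) (h0 i) (h3 i) ⟨_, h4, rfl⟩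
    (fun p v hv q => ?_) (not_mem_decomp hD.decomp u1 (h1 i) u2 (j := i) ?_ fun h => ?_)
  · obtain ⟨p', h⟩ := h5 j l hjl p v hv q
    rw [toGL_mulVec]
    exact h5 i j hij p' _ h ((φ.Q_coe_map _ v).trans q)
  · rw [toGL_mulVec, Subgroup.coe_mul, LinearEquiv.mul_apply, φ.refl_apply_of_B, φ.refl_apply_of_B]
    · exact u1
    · simp [B_blk hD hij.symm (h1 j) u1, B_blk hD hil.symm (h1 l) u1]
    · rw [φ.refl_apply_of_B] <;> simp [u3, B_blk hD hij.symm (h1 j) u1, B_blk hD hil.symm (h1 l) u1]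
  · rw [toGL_mulVec, Subgroup.coe_mul, LinearEquiv.mul_apply, φ.refl_apply_of_B (x := s i)
      (by simp [B_blk hD hij.symm (h1 j) (h1 i), B_blk hD hil.symm (h1 l) (h1 i)]), φ.refl_apply,
      hQ i j hij, Form.B_sub_left, B_blk hD hij.symm (h1 j) (h1 i), φ.B_self, h3, sub_zero,
      inv_mul_cancel₀ hc', one_smul, sub_sub_cancel] at h
    exact hij (blk_eq hD.decomp (h0 j) h (h1 j))

theorem btw_line (h2 : (2 : F) = 0)
    (hS : ∀ i, ∃ v ∈ D i, φ.Q v = 1 ∧ ∀ w ∈ D i, φ.Q w = 1 → w ∈ F ∙ v) :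
    Btw (EG φ) (decompositionStabilizer D) := by
  choose s h1 h3 h4 using hS
  obtain ⟨i, j, l, hij, hil, hjl⟩ := exists_three hD (by omega)
  have h0 : ∀ i, s i ≠ 0 := fun i h => one_ne_zero (by rw [← h3 i, h, φ.Q_zero])
  have hB : ∀ i j, φ.B (s i) (s j) = 0 := fun i j => by
    by_cases h : i = j
    · rw [h, φ.orth_B_self, h2, zero_mul]
    · exact B_blk hD h (h1 i) (h1 j)
  obtain ⟨x, hx, e⟩ := act_eich (orth_eichlerCond (φ := φ) (a := s j + s l) (b := s i)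
    (by rw [φ.Q_add_of_B (hB j l), h3, h3, ← h2]; norm_num) (by simp [hB]))
  have h5 : ∀ p, (x : Matrix ι ι F) *ᵥ s p = s p := fun p => by simp [e, Form.eichlerL_apply, hB]
  obtain ⟨u, u1, u2⟩ := exists_B hD (h1 i) (h0 i) 1
  refine btw_S hD hφ (sing_orth φ) hn le_rfl (EG_le_IG φ) (h1 i) (h0 i) (h3 i) hx
    (fun p v hv q => ?_) (not_mem_decomp hD.decomp (h1 i) u1 (h0 i) (j := i) ((h5 i).symm ▸ h1 i) fun h => ?_)
  · obtain ⟨d, rfl⟩ := Submodule.mem_span_singleton.1 (h4 p v hv q)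
    exact ⟨p, by rwa [mulVec_smul, h5]⟩
  · obtain ⟨w, w1, w2⟩ := exists_B hD (h1 j) (h0 j) 1
    have := B_blk hD hij h w1
    simp [e, Form.eichlerL_apply, u2, B_blk hD hij.symm (h1 j) u1, B_blk hD hil.symm (h1 l) u1,
      B_blk hD hij u1 w1, w2, B_blk hD hjl.symm (h1 l) w1] at this

theorem btw_planes (h2 : (2 : F) = 0) (hm : 3 ≤ m)
    (hS : ∀ i, ∃ a ∈ D i, ∃ b ∈ D i, φ.Q a = 1 ∧ φ.Q b = 1 ∧ φ.B a b = 1 ∧ ∀ s ∈ D i, φ.Q s = 1 →
      (∃ c d : F, c • a + d • b = s) ∨ (φ.B a s = 0 ∧ φ.B b s = 0)) :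
    Btw (EG φ) (decompositionStabilizer D) := by
  choose a h1 b h3 h4 h5 h6 h7 using hS
  obtain ⟨i, j, -, hij, -⟩ := exists_three hD (by omega)
  have h0 : ∀ i, a i ≠ 0 := fun i h => one_ne_zero (by rw [← h4 i, h, φ.Q_zero])
  have h8 : ∀ v, φ.B v v = 0 := fun v => by rw [φ.orth_B_self, h2, zero_mul]
  have h9 : ∀ i, φ.B (b i) (a i) = 1 := fun i => by rw [φ.orth_symm, h6]
  have hB := fun u (hu : u ∈ D i) v (hv : v ∈ D j) => B_blk hD hij hu hv
  have hB' := fun u (hu : u ∈ D j) v (hv : v ∈ D i) => B_blk hD hij.symm hu hv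
  obtain ⟨x, hx, e⟩ := act_eich (orth_eichlerCond (φ := φ) (a := a i - a j) (b := b j - b i)
    (by rw [φ.Q_sub, h4, h4, hB _ (h1 i) _ (h1 j)]; simpa [one_add_one_eq_two] using h2)
    (by simp [h6, hB, hB', h1, h3]; linear_combination -h2))
  have q : φ.Q (b j - b i) = 0 := by
    rw [φ.Q_sub, h5, h5, hB' _ (h3 j) _ (h3 i)]; simpa [one_add_one_eq_two] using h2
  have e1 : (x : Matrix ι ι F) *ᵥ a i = a j := by
    simp only [e, Form.eichlerL_apply, q, Form.B_sub_left, h8, h9, hB' _ (h1 j) _ (h1 i),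
      hB' _ (h3 j) _ (h1 i), Kind.orth_ε]
    match_scalars <;> first | ring1 | linear_combination h2 | linear_combination -h2
  have e2 : (x : Matrix ι ι F) *ᵥ b i = b j := by
    simp only [e, Form.eichlerL_apply, q, Form.B_sub_left, h8, h6, hB' _ (h1 j) _ (h3 i),
      hB' _ (h3 j) _ (h3 i), Kind.orth_ε]
    match_scalars <;> ring1
  have e3 : (x : Matrix ι ι F) *ᵥ a j = a i := by
    simp only [e, Form.eichlerL_apply, q, Form.B_sub_left, h8, h9, hB _ (h1 i) _ (h1 j),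
      hB _ (h3 i) _ (h1 j), Kind.orth_ε]
    match_scalars <;> first | ring1 | linear_combination h2 | linear_combination -h2
  have e4 : (x : Matrix ι ι F) *ᵥ b j = b i := by
    simp only [e, Form.eichlerL_apply, q, Form.B_sub_left, h8, h6, hB _ (h1 i) _ (h3 j),
      hB _ (h3 i) _ (h3 j), Kind.orth_ε]
    match_scalars <;> ring1
  obtain ⟨u, u1, u2, u3⟩ : ∃ u ∈ D i, u ≠ 0 ∧ φ.B (a i) u = 0 ∧ φ.B (b i) u = 0 := by
    obtain ⟨u, ⟨a1, a2⟩, a3, a4⟩ := CA.MaxL2.exists_notMem (W := D i ⊓ LinearMap.ker (φ.B (a i)))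
      (U := ⊥) (φ.B (b i)) (by
        have := Form.finrank_inf_ker_add_one (φ.B (a i)) (h3 i) (by simp [h6])
        rw [hD.decomp.finrank_eq] at this; simp; omega)
    exact ⟨u, a1, a3, a2, a4⟩
  have key : ∀ v, φ.B (a i) v = 0 ∧ φ.B (b i) v = 0 → φ.B (a j) v = 0 ∧ φ.B (b j) v = 0 →
      (x : Matrix ι ι F) *ᵥ v = v := fun v h h' => by
    simp [e, Form.eichlerL_apply, h.1, h.2, h'.1, h'.2]
  refine btw_S hD hφ (sing_orth φ) hn le_rfl (EG_le_IG φ) (h1 i) (h0 i) (h4 i) hx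
    (fun p v hv q => ?_) (not_mem_decomp hD.decomp u1 (h1 i) u2 (j := i)
      (by rwa [key u u3 ⟨hB' _ (h1 j) _ u1, hB' _ (h3 j) _ u1⟩])
      fun h => hij (blk_eq hD.decomp (h0 j) (e1 ▸ h) (h1 j)))
  have k2 : ∀ i, (∃ c d : F, c • a i + d • b i = v) ∨ (φ.B (a i) v = 0 ∧ φ.B (b i) v = 0) :=
    fun i => by
      by_cases h : i = p
      · exact h7 i v (h ▸ hv) q
      · exact .inr ⟨B_blk hD h (h1 i) hv, B_blk hD h (h3 i) hv⟩
  rcases k2 i with ⟨c, d, rfl⟩ | a1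
  · exact ⟨j, by
      rw [mulVec_add, mulVec_smul, mulVec_smul, e1, e2]
      exact add_mem (Submodule.smul_mem _ _ (h1 j)) (Submodule.smul_mem _ _ (h3 j))⟩
  rcases k2 j with ⟨c, d, rfl⟩ | a2
  · exact ⟨i, by
      rw [mulVec_add, mulVec_smul, mulVec_smul, e3, e4]
      exact add_mem (Submodule.smul_mem _ _ (h1 i)) (Submodule.smul_mem _ _ (h3 i))⟩
  exact ⟨p, by rwa [key v a1 a2]⟩

theorem btw_lattice (h2 : (2 : F) = 0) {ω : F} (h0 : ω ≠ 0) (h1 : ω ≠ 1)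
    (hS : ∀ i, ∃ a ∈ D i, ∃ b ∈ D i, φ.Q a = 1 ∧ φ.Q b = 1 ∧ φ.B a b = 1 ∧
      (∀ v ∈ D i, ∃ c d : F, c • a + d • b = v) ∧
      ∀ u ∈ D i, ∀ v ∈ D i, φ.Q u = 1 → φ.Q v = 1 → φ.B u v = 0 ∨ φ.B u v = 1) :
    Btw (EG φ) (decompositionStabilizer D) := by
  choose a a1 b b1 a2 b2 ab hsp hB using hS
  obtain ⟨i, j, l, hij, hil, hjl⟩ := exists_three hD (by omega)
  let P : Subring F :=
    { carrier := {c | c = 0 ∨ c = 1}
      mul_mem' := by rintro _ _ (rfl | rfl) (rfl | rfl) <;> simp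
      one_mem' := .inr rfl
      add_mem' := by rintro _ _ (rfl | rfl) (rfl | rfl) <;> simp [one_add_one_eq_two, h2]
      zero_mem' := .inl rfl
      neg_mem' := by
        rintro _ (rfl | rfl)
        · simp
        · exact .inr (by linear_combination -h2) }
  have hP : ∀ p q, ∀ u ∈ D p, ∀ v ∈ D q, φ.Q u = 1 → φ.Q v = 1 → φ.B u v ∈ P :=
    fun p q u hu v hv h h' => by
      by_cases e : p = q
      · exact hB p u hu v (e ▸ hv) h h'
      · exact .inl (B_blk hD e hu hv)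
  have h8 : ∀ v, φ.B v v = 0 := fun v => by rw [φ.orth_B_self, h2, zero_mul]
  have a0 : ∀ i, a i ≠ 0 := fun i h => one_ne_zero (by rw [← a2 i, h, φ.Q_zero])
  obtain ⟨x, hx, e⟩ := act_eich (orth_eichlerCond (φ := φ) (a := a j + a l) (b := a i)
    (by rw [φ.Q_add_of_B (B_blk hD hjl (a1 j) (a1 l)), a2, a2, ← h2]; norm_num)
    (by simp [B_blk hD hij.symm (a1 j) (a1 i), B_blk hD hil.symm (a1 l) (a1 i)]))
  refine btw_of_set {v | ∀ p, ∀ s ∈ D p, φ.Q s = 1 → φ.B s v ∈ P} (fun g hg hg' v hv p s hs q => ?_)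
    ?_ hx (fun v hv p s hs q => ?_)
    (not_mem_decomp hD.decomp (a1 i) (b1 i) (a0 i) (j := i) ?_ fun h => ?_)
  · obtain ⟨σ, hσ⟩ := blk_of_mem (Subgroup.inv_mem _ hg)
    have := hv _ _ (hσ p s hs) ((Q_IG (EG_le_IG φ (Subgroup.inv_mem _ hg')) s).trans q)
    rwa [← B_IG (EG_le_IG φ hg'), mulVec_inv_mulVec] at this
  · by_contra hc
    push Not at hc
    obtain ⟨u, u1, u2, -, u3⟩ := exists_eich hφ (sing_orth φ) (U := D i) (A := ⊥)
      (by rwa [hD.decomp.finrank_eq]) bot_le (a1 i) (by simpa using a0 i)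
    have h3 : ∀ p, ∀ s ∈ D p, φ.Q s = 1 → φ.B s u = 0 := fun p s hs q => by
      have h4 : ∀ c : F, c * φ.B s u ∈ P := fun c => by
        obtain ⟨g, hg, e, -⟩ := u3 c
        have := hc g hg (a i) (fun p s hs q => hP p i s hs _ (a1 i) q (a2 i)) p s hs q
        rw [e, map_add, map_smul] at this
        simpa using P.sub_mem this (hP p i s hs _ (a1 i) q (a2 i))
      by_contra h5
      rcases h4 (ω / φ.B s u) with h | h <;> rw [div_mul_cancel₀ _ h5] at h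
      exacts [h0 h, h1 h]
    refine u2 ((hφ.eq_zero_right fun v => ?_ : u = 0) ▸ zero_mem _)
    have : (⊤ : Submodule F (ι → F)) ≤ φ.perp (F ∙ u) := hD.decomp.iSup_eq_top ▸ iSup_le fun p v hv => by
      obtain ⟨c, d, rfl⟩ := hsp p v hv
      rw [φ.mem_perp_span_singleton, φ.eq_zero_comm]
      simp [h3 p _ (a1 p) (a2 p), h3 p _ (b1 p) (b2 p)]
    exact φ.eq_zero_symm (φ.mem_perp_span_singleton.1 (this trivial))
  · have c1 := fun r => hP p r s hs _ (a1 r) q (a2 r)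
    have c2 := fun q => hv q _ (a1 q) (a2 q)
    simp only [e, Form.eichlerL_apply, Form.B_add_left, map_add, map_sub, map_smul, a2, smul_eq_mul,
      Kind.orth_ε, one_mul]
    exact sub_mem (add_mem (hv p s hs q) (mul_mem (add_mem (c2 j) (c2 l)) (c1 i)))
      (mul_mem (add_mem (c2 i) (add_mem (c2 j) (c2 l))) (add_mem (c1 j) (c1 l)))
  · simpa [e, Form.eichlerL_apply, h8, B_blk hD hij.symm (a1 j) (a1 i),
      B_blk hD hil.symm (a1 l) (a1 i)] using a1 i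
  · have := B_blk hD hij h (b1 j)
    simp [e, Form.eichlerL_apply, ab, B_blk hD hij.symm (a1 j) (b1 i), B_blk hD hil.symm (a1 l) (b1 i),
      B_blk hD hij (b1 i) (b1 j), B_blk hD hjl.symm (a1 l) (b1 j)] at this

omit hφ hn in
theorem span_blk (hm : m = 2) {i : Fin t} {u v : ι → F} (hu : u ∈ D i) (hv : v ∈ D i) (h0 : u ≠ 0)
    (h : v ∉ F ∙ u) : ∀ x ∈ D i, ∃ c d : F, c • u + d • v = x := fun x hx => by
  have h1 : (F ∙ u) < Submodule.span F {u, v} := lt_of_le_not_ge (Submodule.span_mono (by simp))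
    fun h' => h (h' (Submodule.subset_span (by simp)))
  have h2 := Submodule.finrank_lt_finrank_of_lt h1
  rw [finrank_span_singleton h0] at h2
  have h3 : Submodule.span F {u, v} = D i := Submodule.eq_of_le_of_finrank_le
    (Submodule.span_le.2 (by simp [Set.insert_subset_iff, hu, hv]))
    (by rw [hD.decomp.finrank_eq]; omega)
  exact Submodule.mem_span_pair.1 (h3 ▸ hx)

omit hφ hn in
theorem exists_hyp_blk (hm : m = 2) {i : Fin t} (hp : IsPlusTypeOn φ.Q (D i)) :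
    ∃ x ∈ D i, ∃ y ∈ D i, (∀ v ∈ D i, ∃ c d : F, c • x + d • y = v) ∧
      (∀ c d : F, φ.Q (c • x + d • y) = c * d) ∧
      ∀ c d c' d' : F, φ.B (c • x + d • y) (c' • x + d' • y) = c * d' + d * c' := by
  obtain ⟨U, h1, h2, h3⟩ := hp
  obtain ⟨x, hx, h0⟩ := U.exists_mem_ne_zero_of_ne_bot (by
    rintro rfl; rw [hD.decomp.finrank_eq, finrank_bot] at h3; omega)
  obtain ⟨y, hy⟩ := (nd_blk hD i).exists_isHyp (x := ⟨x, h1 hx⟩) (h2 x hx) (by simpa using h0)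
  have a1 : φ.Q x = 0 := hy.Q_x
  have a2 : φ.Q y = 0 := hy.Q_y
  have a3 : φ.B x y = 1 := hy.B_xy
  refine ⟨x, h1 hx, y, y.2, span_blk hD hm (h1 hx) y.2 h0 fun h => ?_, fun c d => ?_,
    fun c d c' d' => ?_⟩
  · obtain ⟨c, hc⟩ := Submodule.mem_span_singleton.1 h
    simp [← hc, φ.B_self_of_Q a1] at a3
  · simp [φ.Q_add, φ.orth_Q_smul, a1, a2, a3, mul_comm]
  · simp [φ.B_self_of_Q a1, φ.B_self_of_Q a2, a3, φ.orth_symm x y]

theorem btw_orth (he : ∀ i j, (φ.restrict (D i)).Equivalent (φ.restrict (D j)))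
    (h : (m = 2 ∧ (Fintype.card F = 3 ∨ ((∀ i, IsPlusTypeOn φ.Q (D i)) ∧ (Fintype.card F = 2 ∨
      Fintype.card F = 4 ∨ Fintype.card F = 5)))) ∨ (m = 3 ∧ Fintype.card F = 3) ∨
      (m = 4 ∧ Fintype.card F = 2 ∧ ∀ i, IsPlusTypeOn φ.Q (D i))) :
    Btw (EG φ) (decompositionStabilizer D) := by
  rcases h with ⟨hm, h | ⟨hp, h | h | h⟩⟩ | ⟨hm, h⟩ | ⟨hm, h, hp⟩
  · refine btw_frame hD hφ hn hm.ge (two_ne_zero_three h) one_ne_zero (fun i => ?_)
      fun i u hu v hv q q' => ?_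
    · obtain ⟨s, hs⟩ := (nd_blk hD i).exists_Q_eq (by rw [hD.decomp.finrank_eq, hm]) 1
      exact ⟨s, s.2, hs⟩
    by_contra hc
    push Not at hc
    have h0 : u ≠ 0 := by rintro rfl; simp at q
    have h3 := three_eq_zero h
    have h4 := sq_three h hc.1
    have h5 : v + φ.B u v • u = 0 := by
      by_contra h5
      obtain ⟨e, he, h6⟩ := exists_B hD (add_mem hv ((D i).smul_mem _ hu)) h5 1
      obtain ⟨c, d, rfl⟩ := span_blk hD hm hu hv h0 hc.2 e he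
      simp only [Form.B_add_left, Form.B_smul_left, map_add, map_smul, φ.orth_B_self, q, q',
        φ.orth_symm u v, smul_eq_mul, Kind.orth_σ] at h6
      exact one_ne_zero (by linear_combination (c * φ.B u v + d) * h3 + d * h4 - h6 : (1 : F) = 0)
    exact hc.2 (Submodule.mem_span_singleton.2 ⟨-φ.B u v, by
      rw [neg_smul]; exact (eq_neg_of_add_eq_zero_left h5).symm⟩)
  · refine btw_line hD hφ hn (two_eq_zero h) fun i => ?_
    obtain ⟨v, h1, h2⟩ := plus_two_line (by omega) (nd_blk hD i) (by rw [hD.decomp.finrank_eq, hm])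
      (plusOn_iff.1 (hp i))
    refine ⟨v, v.2, h1, fun w hw q => ?_⟩
    obtain ⟨c, hc⟩ := Submodule.mem_span_singleton.1 (h2 ⟨w, hw⟩ q)
    exact Submodule.mem_span_singleton.2 ⟨c, congrArg Subtype.val hc⟩
  · have h2 := (four_facts h).1
    have h3 : ∀ a : F, a ≠ 0 → a = 1 ∨ a ^ 2 + a + 1 = 0 := fun a ha => by
      have := FiniteField.pow_card_sub_one_eq_one a ha
      rw [h] at this
      exact (mul_eq_zero.1 (by linear_combination this : (a - 1) * (a ^ 2 + a + 1) = 0)).imp_left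
        sub_eq_zero.1
    obtain ⟨l, w0, w1⟩ := CA.MaxL1.exists_third (ι := Fin (Fintype.card F)) (by simp [h])
      (Fintype.equivFin F 0) (Fintype.equivFin F 1)
    set ω := (Fintype.equivFin F).symm l
    have h0 : ω ≠ 0 := fun e => w0 (by rw [← e]; simp [ω])
    have h1 : ω ≠ 1 := fun e => w1 (by rw [← e]; simp [ω])
    have h4 := (h3 ω h0).resolve_left h1
    refine btw_lattice hD hφ hn h2 h0 h1 fun i => ?_
    obtain ⟨x, hx, y, hy, a1, a2, a3⟩ := exists_hyp_blk hD hm (hp i)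
    have a4 : ∀ c d : F, c • x + d • y ∈ D i := fun c d =>
      add_mem ((D i).smul_mem _ hx) ((D i).smul_mem _ hy)
    refine ⟨_, a4 1 1, _, a4 ω (ω + 1), by rw [a2, one_mul], by rw [a2]; linear_combination h4 - h2,
      by rw [a3]; linear_combination ω * h2, fun v hv => ?_, fun u hu v hv q q' => ?_⟩
    · obtain ⟨c, d, rfl⟩ := a1 v hv
      refine ⟨c - (d - c) * ω, d - c, by module⟩
    · obtain ⟨c, d, rfl⟩ := a1 u hu
      obtain ⟨c', d', rfl⟩ := a1 v hv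
      rw [a2] at q q'
      rw [a3]
      rcases h3 (d * c') (mul_ne_zero (right_ne_zero_of_mul_eq_one q)
        (left_ne_zero_of_mul_eq_one q')) with e | e
      · exact .inl (by linear_combination (-c * d') * e + (c' * d') * q + q' + e + h2)
      · exact .inr (by
          linear_combination (c * d') * e - (c' * d' * (d * c' + 1)) * q - (d * c' + 1) * q' - h2)
  · have h2 : (2 : F) ≠ 0 := two_ne_zero_iff_odd.2 (by rw [h]; decide)
    refine btw_frame hD hφ hn hm.ge h2 one_ne_zero (fun i => ?_) fun i u hu v hv q q' => ?_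
    · obtain ⟨s, hs⟩ := (nd_blk hD i).exists_Q_eq (by rw [hD.decomp.finrank_eq, hm]) 1
      exact ⟨s, s.2, hs⟩
    obtain ⟨x, hx, y, hy, a1, a2, a3⟩ := exists_hyp_blk hD hm (hp i)
    obtain ⟨c, d, rfl⟩ := a1 u hu
    obtain ⟨c', d', rfl⟩ := a1 v hv
    rw [a2] at q q'
    rw [a3]
    have := FiniteField.pow_card_sub_one_eq_one _ (mul_ne_zero (right_ne_zero_of_mul_eq_one q)
      (left_ne_zero_of_mul_eq_one q'))
    rw [h] at this
    rcases mul_eq_zero.1 (by linear_combination this : ((d * c') ^ 2 + 1) * ((d * c') ^ 2 - 1) = 0)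
      with e | e
    · exact .inl (by linear_combination (c * d') * e - (c' * d' * d * c') * q - (d * c') * q')
    · refine .inr (Submodule.mem_span_singleton.2 ⟨d * c', ?_⟩)
      match_scalars
      · linear_combination c' * q
      · linear_combination (c * d' * d) * e - (d * c' * d * c' * d' - d') * q - (d * c' * d) * q'
  · obtain ⟨i₀, -⟩ := exists_three hD (by omega)
    obtain ⟨b, a, h0, h1, h2, h3⟩ := frame_three h (nd_blk hD i₀) (by rw [hD.decomp.finrank_eq, hm])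
    refine btw_frame hD hφ hn (by omega) (two_ne_zero_three h) h0 (fun i => ?_)
      fun i u hu v hv q q' => ?_
    · obtain ⟨e, he⟩ := he i₀ i
      exact ⟨_, (e (b 0)).2, (he.Q_eq _).trans (h2 0)⟩
    obtain ⟨e, he⟩ := he i i₀
    obtain ⟨j, hj⟩ := h3 _ ((he.Q_eq ⟨u, hu⟩).trans q)
    obtain ⟨l, hl⟩ := h3 _ ((he.Q_eq ⟨v, hv⟩).trans q')
    obtain ⟨c, hc⟩ := Submodule.mem_span_singleton.1 hj
    obtain ⟨d, hd⟩ := Submodule.mem_span_singleton.1 hl
    by_cases hjl : j = l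
    · have c0 : c ≠ 0 := by
        rintro rfl
        rw [zero_smul, eq_comm, e.map_eq_zero_iff, Submodule.mk_eq_zero] at hc
        exact h0 (by rw [← q, hc, φ.Q_zero])
      refine .inr (Submodule.mem_span_singleton.2 ⟨d / c, congrArg Subtype.val
        (e.injective (?_ : e ((d / c) • ⟨u, hu⟩) = e ⟨v, hv⟩))⟩)
      rw [map_smul, ← hc, ← hd, smul_smul, div_mul_cancel₀ _ c0, hjl]
    · refine .inl ((he.B_eq ⟨u, hu⟩ ⟨v, hv⟩).symm.trans ?_)
      rw [← hc, ← hd, map_smul, Form.B_smul_left, h1 j l hjl]; simp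
  · have h2 := two_eq_zero h
    refine btw_planes hD hφ hn h2 (by omega) fun i => ?_
    have hb := binForm_nondeg (disc_ne_zero_of_anisotropic (aniso_two h))
    obtain ⟨e, he⟩ := equivalent_of_pl (hb.prod hb) (nd_blk hD i) (by simp; decide)
      (by simp [hD.decomp.finrank_eq, hm]) (by
        rw [pl_prod_iff hb hb (by simp) (by simp), ← plusOn_iff]; simp [hp i])
    refine ⟨_, (e (![1, 0], 0)).2, _, (e (![0, 1], 0)).2, (he.Q_eq _).trans (by simp [binForm_Q]),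
      (he.Q_eq _).trans (by simp [binForm_Q]), (he.B_eq _ _).trans (by simp [binForm_B]),
      fun s hs q => ?_⟩
    obtain ⟨⟨x, y⟩, hxy⟩ := e.surjective ⟨s, hs⟩
    have q1 := he.Q_eq (x, y)
    have q2 := fun z => he.B_eq z (x, y)
    rw [hxy] at q1 q2
    by_cases hy : y = 0
    · refine .inl ⟨x 0, x 1, congrArg Subtype.val (?_ : x 0 • e _ + x 1 • e _ = ⟨s, hs⟩)⟩
      rw [← hxy, ← map_smul, ← map_smul, ← map_add, hy]
      congr 1
      ext j
      · fin_cases j <;> simp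
      · simp
    have hx : x = 0 := by
      by_contra hx
      have h3 : ∀ z : Fin 2 → F, z ≠ 0 → (binForm (1 : F) 1).Q z = 1 := fun z hz =>
        (cases_two h _).resolve_left fun h1 => hz (binForm_anisotropic (aniso_two h) z h1)
      rw [Form.restrict_Q, q, Form.prod_Q, h3 x hx, h3 y hy] at q1
      simp at q1
    exact .inr ⟨(q2 _).trans (by simp [hx]), (q2 _).trans (by simp [hx])⟩

end Orth

end CA.MaxN1
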