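import Cfsg.Agent.Lib.Lin.MaxN1
import Cfsg.Agent.Lib.Lin.MaxL7

/-! More geometric subgroups which are not maximal. -/

set_option linter.unusedSectionVars false

namespace CA.MaxN2

open Cfsg Cfsg.Geo Matrix CA.AschBase CA.AschForm CA.AschTForm CA.AschProp CA.AschDesc CA.AschFG
  CA.AschFG5 CA.AschFG7 CA.AschO1 CA.AschO3 CA.CForm CA.MaxTv CA.MaxN1 CA.MaxL2 Module
open scoped MatrixGroups

variable {ι : Type} [Fintype ι] [DecidableEq ι] {F : Type*} [Field F] [Fintype F] {k : Kind F}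

section Sub

variable {φ : Form (Kind.orth F) (ι → F)} (hφ : φ.Nondeg) (hn : 7 ≤ Fintype.card ι)
include hφ hn

theorem btw_plus (h : Fintype.card F ≤ 3) {W : Submodule F (ι → F)} (h2 : finrank F W = 2)
    (hW : IsNondegenerateOn (QuadraticMap.polar φ.Q) W) (hp : IsPlusTypeOn φ.Q W) :
    Btw (EG φ) (subspaceStabilizer W) := by
  rw [polar_fn, nondegOn_iff] at hW
  obtain ⟨⟨v, hv⟩, h1, h3⟩ := plus_two_line h ((φ.nondeg_restrict_iff _).2 hW) h2 (plusOn_iff.1 hp)
  have h0 : v ≠ 0 := by rintro rfl; exact zero_ne_one (φ.Q_zero.symm.trans h1)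
  have h4 : (F ∙ v) ≤ W := (Submodule.span_singleton_le_iff_mem _ _).2 hv
  obtain ⟨w, w1, w2⟩ := exists_notMem' (W := W) (U := F ∙ v) (by have := finrank_line_le (F := F) v; omega)
  obtain ⟨u, -, u2, -, u3⟩ := exists_eich hφ (sing_orth φ) (by omega) h4 w1 w2
  obtain ⟨x, hx, x1, x2⟩ := u3 1
  obtain ⟨u', -, a2, -, a3⟩ := exists_eich hφ (sing_orth φ) (U := W) (A := ⊥) (by omega) bot_le hv
    (by simpa using h0)
  obtain ⟨g, hg, g1, -⟩ := a3 1
  rw [one_smul] at x1 g1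
  refine btw_of_set (F ∙ v : Submodule F (ι → F)) (fun g hg hg' s hs => ?_)
    ⟨g, hg, v, Submodule.mem_span_singleton_self v, fun h => a2 ((W.add_mem_iff_right hv).1
      (g1 ▸ h4 h))⟩ hx (fun s hs => (x2 s hs).symm ▸ hs)
    fun h => u2 ((W.add_mem_iff_right w1).1 (x1 ▸ mulVec_mem_of_stab h w1))
  obtain ⟨c, rfl⟩ := Submodule.mem_span_singleton.1 hs
  obtain ⟨d, hd⟩ := Submodule.mem_span_singleton.1
    (h3 ⟨_, mulVec_mem_of_stab hg hv⟩ ((Q_IG (EG_le_IG φ hg') v).trans h1))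
  rw [mulVec_smul]
  exact Submodule.smul_mem _ _ (Submodule.mem_span_singleton.2 ⟨d, congrArg Subtype.val hd⟩)

theorem btw_ts {U : Submodule F (ι → F)} (hU : φ.TS U) {M : Subgroup (GL ι F)}
    (h : M ⊓ EG φ ≤ subspaceStabilizer U) {u w : ι → F} (hu : u ∈ U) (h0 : u ≠ 0)
    (h1 : φ.B u w = 0) (h2 : w ∉ F ∙ u) (h3 : ∀ g ∈ M, (g : Matrix ι ι F) *ᵥ w ≠ w + u) :
    Btw (EG φ) M := by
  obtain ⟨y, a1, a2⟩ := hφ.exists_perp_B_eq h2 (-1)
  obtain ⟨x, hx, e⟩ := act_eich (orth_eichlerCond (hU.Q_eq u hu) (φ.mem_perp_span_singleton.1 a1))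
  refine btw_of_set (U : Set (ι → F)) (fun g hg hg' v => mulVec_mem_of_stab (h ⟨hg, hg'⟩)) ?_ hx
    (fun v hv => ?_) fun h => h3 x h (by simp [e, Form.eichlerL_apply, h1, a2])
  · by_contra! hc
    refine (qs_omega hφ (by omega)).not_le_stab (fun h => h0 (by simpa [h] using hu)) (fun h => ?_)
      (le_subspaceStabilizer hc)
    have := hφ.two_mul_finrank_le hU
    rw [h, finrank_top, finrank_fun] at this
    omega
  · simpa [e, Form.eichlerL_apply, hU.le_perp hv u hu] using U.sub_mem hv (U.smul_mem _ hu)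

theorem btw_submax (hp : Pl φ) {W : Submodule F (ι → F)} (hW : φ.TS W)
    (hd : 2 * (finrank F W + 1) = Fintype.card ι) : Btw (EG φ) (subspaceStabilizer W) := by
  obtain ⟨U, u1, u2, u3⟩ := φ.exists_maximal_ts hW
  obtain ⟨U', v1, v2⟩ := hp
  have a1 := hφ.finrank_le_of_maximal u2 u3 v1
  have a2 := hφ.two_mul_finrank_le u2
  rw [finrank_fun] at v2 a2
  obtain ⟨u, hu, hu'⟩ := exists_notMem' (W := U) (U := W) (by omega)
  obtain ⟨w, hw, hw'⟩ := exists_notMem' (W := W) (U := F ∙ u)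
    (by have := finrank_line_le (F := F) u; omega)
  refine btw_ts hφ hn u2 (le_subspaceStabilizer fun g hg v hv => mem_stab_of_EG hφ (by omega) hg.2 u2
    (by omega) (fun d hd a3 a4 => ?_) hv) hu (by rintro rfl; simp at hu') (u2.le_perp (u1 hw) u hu) hw'
    fun g hg h => hu' ((W.add_mem_iff_right hw).1 (h ▸ mulVec_mem_of_stab hg hw))
  have a5 := Submodule.finrank_mono (le_inf u1 ((map_eq_of_stab hg.1).ge.trans (Submodule.map_mono u1)))
  obtain ⟨s, hs⟩ := a4
  omega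

theorem btw_pair {m : ℕ} (ho : Odd m) {D : Fin 2 → Submodule F (ι → F)} (hD : IsMDecomposition m D)
    (hts : ∀ i, φ.TS (D i)) : Btw (EG φ) (decompositionStabilizer D) := by
  have hc := decomp_card hD
  have d0 := hD.finrank_eq 0
  obtain ⟨u, hu, h0⟩ := (D 0).exists_mem_ne_zero_of_ne_bot (decomp_ne_bot hD 0)
  obtain ⟨w, hw, hw', h1⟩ := exists_notMem (W := D 1) (U := F ∙ u) (φ.B u)
    (by have := finrank_line_le (F := F) u; rw [hD.finrank_eq]; omega)
  have w0 : w ≠ 0 := by rintro rfl; simp at hw'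
  refine btw_ts hφ hn (hts 0) (le_subspaceStabilizer fun g hg v hv => mem_stab_of_EG hφ (by omega)
    hg.2 (hts 0) (by omega) (fun d hd _ h1 => ?_) hv) hu h0 h1 hw' fun g hg h => ?_
  · obtain ⟨σ, h2⟩ := hg.1
    have h2 := h2 0
    generalize σ 0 = j at h2
    rw [h2] at hd
    fin_cases j
    · exact hd.trans (congrArg (fun X : Submodule F (ι → F) => finrank F X) (inf_idem _))
    · rw [show D 0 ⊓ D ⟨1, _⟩ = ⊥ from (isCompl_of_pair hD).inf_eq_bot, finrank_bot] at hd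
      exact absurd (by simpa [hd, d0] using h1) (Nat.not_even_iff_odd.2 ho)
  · obtain ⟨σ, h2⟩ := blk_of_mem hg
    have h2 := h ▸ h2 1 w hw
    generalize σ 1 = j at h2
    fin_cases j
    · exact zero_ne_one (blk_eq hD w0 (((D 0).add_mem_iff_left hu).1 h2) hw)
    · exact zero_ne_one (blk_eq hD h0 hu (((D 1).add_mem_iff_right hw).1 h2))

end Sub

section Dec

variable {t m : ℕ} {D : Fin t → Submodule F (ι → F)}

theorem btw_herm (hF : Fintype.card F = 2 ^ 2) {φ : Form (hermKind hF) (ι → F)} (hφ : φ.Nondeg)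
    (hn : 7 ≤ Fintype.card ι) (hD : IsNondegenerateMDecomposition (fn φ) 2 D) :
    Btw (EG φ) (decompositionStabilizer D) := by
  have h2 := CA.AschU1.two_four hF
  choose b b1 b2 using fun i => CA.AschU1.frame_four hF (nd_blk hD i) (hD.decomp.finrank_eq i)
  have hb : ∀ i a c, φ.B (b i a) (b i c) = if a = c then 1 else 0 := b1
  have hQ : ∀ i a, φ.Q (b i a) = 1 := fun i a => by simpa [φ.B_self] using hb i a a
  have h0 : ∀ i a, (b i a : ι → F) ≠ 0 := fun i a h => one_ne_zero (by rw [← hQ i a, h, φ.Q_zero])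
  obtain ⟨i, j, -, hij, -⟩ := exists_three hD (by omega)
  have hc : (hermKind hF).δ * 1 ≠ 0 := by simp
  obtain ⟨x, hx, e⟩ := tv_EG (φ := φ) (x := b i 0 - b j 0) (c := -1) (by
    rw [φ.Q_sub, hQ, hQ, B_blk hD hij (b i 0).2 (b j 0).2, map_zero, sub_zero, ← h2]; norm_num)
    (by simp; linear_combination -h2)
  refine btw_S hD hφ (sing_herm (conj_ne_id hF) φ) hn le_rfl (EG_le_IG φ) (b i 0).2 (h0 i 0) (hQ i 0)
    hx (fun p v hv q => ?_) (not_mem_decomp hD.decomp (b i 1).2 (b i 0).2 (h0 i 1) (j := i) ?_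
      fun h => hij (blk_eq hD.decomp (h0 j 0) ?_ (b j 0).2))
  · simp only [e, LinearMap.smul_apply, neg_smul, ← sub_eq_add_neg, one_smul]
    simpa only [Kind.herm_δ, mul_one, inv_one, one_mul] using swap_S hD (c := 1) (fun i u hu v hv q q' => by
      obtain ⟨a, ha⟩ := b2 i ⟨u, hu⟩ (q ▸ one_ne_zero)
      obtain ⟨c, hc⟩ := b2 i ⟨v, hv⟩ (q' ▸ one_ne_zero)
      obtain ⟨r, hr⟩ := Submodule.mem_span_singleton.1 ha
      obtain ⟨s, hs⟩ := Submodule.mem_span_singleton.1 hc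
      obtain rfl : r • (b i a : ι → F) = u := congrArg Subtype.val hr
      obtain rfl : s • (b i c : ι → F) = v := congrArg Subtype.val hs
      by_cases h : a = c
      · have r0 : r ≠ 0 := by rintro rfl; simp at q
        exact .inr (Submodule.mem_span_singleton.2 ⟨s / r, by rw [smul_smul, div_mul_cancel₀ _ r0, h]⟩)
      · exact .inl (by simp [hb, h])) hc hij (b i 0).2 (b j 0).2 (hQ i 0) (hQ j 0) hv q
  · simp [e, hb, B_blk hD hij.symm (b j 0).2 (b i 1).2]
  · simpa [e, hb, B_blk hD hij.symm (b j 0).2 (b i 0).2] using h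

theorem btw_sp (hF : Fintype.card F = 2) {φ : Form (Kind.symp F) (ι → F)} (hn : 5 ≤ Fintype.card ι)
    (hD : IsNondegenerateMDecomposition (fn φ) 2 D) : Btw (EG φ) (decompositionStabilizer D) := by
  classical
  have h2 := two_eq_zero hF
  obtain ⟨p, p1, p2, p3, p4⟩ := exists_proj hD.decomp
  have hB : ∀ v, φ.B v v = 0 := fun v => by simp [φ.B_self]
  let q : (ι → F) → F := fun v => if v = 0 then 0 else 1
  have hq : ∀ i, ∀ u ∈ D i, ∀ v ∈ D i, q (u + v) = q u + q v + φ.B u v := fun i u hu v hv => by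
    by_cases a1 : u = 0
    · simp [q, a1]
    by_cases a2 : v = 0
    · simp [q, a2]
    by_cases a3 : u + v = 0
    · obtain rfl := eq_neg_of_add_eq_zero_right a3
      simpa [q, a1, hB, one_add_one_eq_two] using h2.symm
    rcases cases_two hF (φ.B u v) with h | h
    · obtain ⟨w, hw, h3⟩ := exists_B hD hu a1 1
      have h4 : v ∉ F ∙ u := fun h => by
        obtain ⟨c, rfl⟩ := Submodule.mem_span_singleton.1 h
        rcases cases_two hF c with rfl | rfl
        · simp at a2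
        · exact a3 (by rw [one_smul, ← two_smul F, h2, zero_smul])
      obtain ⟨c, d, e⟩ := CA.MaxL7.span_two (hD.decomp.finrank_eq i) (a := ⟨u, hu⟩) (v := ⟨v, hv⟩)
        (by simpa using a1) (fun h => by
          obtain ⟨c, hc⟩ := Submodule.mem_span_singleton.1 h
          exact h4 (Submodule.mem_span_singleton.2 ⟨c, congrArg Subtype.val hc⟩)) ⟨w, hw⟩
      obtain rfl : c • u + d • v = w := congrArg Subtype.val e
      simp [hB, h] at h3
    · simp only [q, a1, a2, a3, h, if_false]; linear_combination -h2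
  let Q : (ι → F) → F := fun v => ∑ i, q (p i v)
  have hQ : ∀ u v, Q (u + v) = Q u + Q v + φ.B u v := fun u v => by
    simp only [Q, map_add, fun i => hq i _ (p1 i u) _ (p1 i v), Finset.sum_add_distrib]
    congr 1
    conv_rhs => rw [← p4 u, φ.B_sum_left]
    refine Finset.sum_congr rfl fun i _ => ?_
    conv_rhs => rw [← p4 v, map_sum]
    exact (Finset.sum_eq_single i (fun j _ h => B_blk hD h.symm (p1 i u) (p1 j v)) (by simp)).symm
  have hQ' : ∀ i, ∀ v ∈ D i, v ≠ 0 → Q v = 1 := fun i v hv h0 =>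
    (Finset.sum_eq_single i (fun j _ h => by simp [q, p3 j i h.symm v hv]) (by simp)).trans
      (by simp [q, p2 i v hv, h0])
  have hQs : ∀ c v, Q (c • v) = c * Q v := fun c v => by
    rcases cases_two hF c with rfl | rfl <;> simp [Q, q]
  obtain ⟨i, j, l, hij, hil, hjl⟩ := exists_three hD (by omega)
  choose s s1 s0 using fun i => (D i).exists_mem_ne_zero_of_ne_bot (decomp_ne_bot hD.decomp i)
  choose w w1 w2 using fun i => exists_B hD (s1 i) (s0 i) 1
  have w0 : ∀ i, w i ≠ 0 := fun i h => by simpa [h] using w2 i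
  have key : ∀ a, ∃ x ∈ EG φ, (∀ v, (x : Matrix ι ι F) *ᵥ v = v + φ.B a v • a) ∧
      ∀ v, Q ((x : Matrix ι ι F) *ᵥ v) = Q v + φ.B a v * (Q a + 1) := fun a => by
    obtain ⟨x, hx, e⟩ := tv_EG (φ := φ) (x := a) (c := 1) (φ.symp_Q a) rfl
    rw [one_smul] at e
    refine ⟨x, hx, e, fun v => ?_⟩
    rw [e, hQ, hQs, map_smul, φ.symm a v]
    rcases cases_two hF (φ.B a v) with h | h <;> simp [h]
    linear_combination -h2
  obtain ⟨g, hg, -, g2⟩ := key (s i + s j)
  obtain ⟨x, hx, x1, x2⟩ := key (s i + s j + s l)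
  have e1 : Q (s i + s j) = 0 := by
    rw [hQ, hQ' i _ (s1 i) (s0 i), hQ' j _ (s1 j) (s0 j), B_blk hD hij (s1 i) (s1 j)]
    linear_combination h2
  refine btw_of_set {v | Q v = 1} (fun g hg hg' v hv => ?_) ⟨g, hg, w i, hQ' i _ (w1 i) (w0 i), fun h => ?_⟩
    hx (fun v hv => ?_) (not_mem_decomp hD.decomp (s1 i) (w1 i) (s0 i) (j := i) ?_ fun h => ?_)
  · obtain ⟨σ, hσ⟩ := blk_of_mem hg
    refine Eq.trans (Submodule.iSup_induction D (motive := fun v => Q ((g : Matrix ι ι F) *ᵥ v) = Q v)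
      (hD.decomp.iSup_eq_top ▸ Submodule.mem_top) (fun i v hv => ?_) (by simp)
      fun u v hu hv => by rw [mulVec_add, hQ, hQ, hu, hv, B_IG (EG_le_IG φ hg')]) hv
    obtain rfl | h := eq_or_ne v 0
    · simp
    rw [hQ' _ _ (hσ i v hv) (by rwa [Ne, mulVec_eq_zero_iff_gl]), hQ' i v hv h]
  · rw [Set.mem_ofPred_eq, g2, e1, hQ' i _ (w1 i) (w0 i)] at h
    simp [w2, B_blk hD hij.symm (s1 j) (w1 i)] at h
  · rw [Set.mem_ofPred_eq, x2, hQ, e1, hQ' l _ (s1 l) (s0 l), hv]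
    simp [B_blk hD hil (s1 i) (s1 l), B_blk hD hjl (s1 j) (s1 l), one_add_one_eq_two, h2]
  · simpa [x1, hB, B_blk hD hij.symm (s1 j) (s1 i), B_blk hD hil.symm (s1 l) (s1 i)] using s1 i
  · have := B_blk hD hij h (w1 j)
    simp [x1, w2, B_blk hD hij.symm (s1 j) (w1 i), B_blk hD hil.symm (s1 l) (w1 i),
      B_blk hD hij (w1 i) (w1 j), B_blk hD hij (s1 i) (w1 j), B_blk hD hjl.symm (s1 l) (w1 j)] at this

theorem not_le_dec {φ : Form k (ι → F)} (hφ : φ.Nondeg) (hG : QS (EG φ)) {x : ι → F}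
    (hx : φ.Q x = 0) (h0 : x ≠ 0) (h1 : k.π 1 = 0) (hD : IsMDecomposition m D) :
    ¬ EG φ ≤ decompositionStabilizer D := by
  obtain ⟨N, n1, n2, n3, -, n4⟩ := exists_tv hφ hx h0
  obtain ⟨g, hg, hgN⟩ := n4 1 h1
  rw [one_smul] at hgN
  have hg1 : (g : Matrix ι ι F) - 1 = N := by rw [hgN]; abel
  exact hG.not_le_decomp hD hg (not_scalar_of_sq_zero' n1 n2 hgN) (by rw [hg1, n2])
    (.inr (by have := hD.pos; rw [hg1]; omega))

theorem btw_mono (hF : Fintype.card F = 2) (hn : 3 ≤ Fintype.card ι) (hD : IsMDecomposition 1 D) :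
    Btw (specialLinear ι F) (decompositionStabilizer D) := by
  choose s s1 s0 using fun i => (D i).exists_mem_ne_zero_of_ne_bot (decomp_ne_bot hD i)
  choose χ c1 _ c2 using fun i => exists_dd hD (W := ⊥) bot_le (s1 i) (by simpa using s0 i) 1
  have hs : ∀ i, ∀ v ∈ D i, v ≠ 0 → v = s i := fun i v hv h0 => by
    obtain ⟨c, hc⟩ := (finrank_eq_one_iff_of_nonzero' (⟨s i, s1 i⟩ : D i) (by simpa using s0 i)).1
      (hD.finrank_eq i) ⟨v, hv⟩
    obtain rfl : c • s i = v := congrArg Subtype.val hc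
    rcases cases_two hF c with rfl | rfl
    · simp at h0
    · simp
  have c3 : ∀ i j, j ≠ i → χ i (s j) = 0 := fun i j h => c1 i j h _ (s1 j)
  have c4 : ∀ i, χ i (∑ j, s j) = 1 := fun i => by
    rw [map_sum, Finset.sum_eq_single i (fun j _ h => c3 i j h) (by simp), c2]
  have ht := decomp_card hD
  obtain ⟨i, j, hij⟩ := Fin.nontrivial_iff_two_le.2 hD.two_le
  obtain ⟨l, hli, hlj⟩ := CA.MaxL1.exists_third (by rw [Fintype.card_fin]; omega) i j
  obtain ⟨g, hg, g1⟩ := tv_SL (c3 i j hij.symm)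
  obtain ⟨x, hx, x1⟩ := tv_SL (v := s l) (φ := χ i - χ j) (by simp [c3, hli, hlj])
  refine btw_of_set {∑ j, s j} ?_ ⟨g, hg, _, rfl, by simp [g1, c4, s0]⟩ hx (by simp [x1, c4])
    fun h => ?_
  · rintro g hg - _ rfl
    obtain ⟨σ, hσ⟩ := blk_of_mem hg
    rw [Set.mem_singleton_iff, mulVec_sum, ← Equiv.sum_comp σ s]
    exact Finset.sum_congr rfl fun i _ => hs _ _ (hσ i _ (s1 i))
      (by rw [Ne, mulVec_eq_zero_iff_gl]; exact s0 i)
  · obtain ⟨σ, hσ⟩ := blk_of_mem h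
    have h1 := hσ i _ (s1 i)
    simp only [x1, LinearMap.sub_apply, c2, c3 j i hij, sub_zero, one_smul] at h1
    by_cases e : σ i = i
    · exact hli (blk_eq hD (s0 l) (s1 l) (((D i).add_mem_iff_right (s1 i)).1 (by rwa [e] at h1)))
    · simpa [c2, c3 i l hli] using c1 i _ e _ h1

end Dec

theorem btw_sim {n : ℕ} (hn : 3 ≤ n) {φ : Form k (Fin n → F)} (hφ : φ.Nondeg)
    {M : Subgroup (GL (Fin n) F)} (h1 : M ⊓ specialLinear (Fin n) F ≤ similarityGroup (fn φ))
    (h2 : ¬ EG φ ≤ M) : Btw (specialLinear (Fin n) F) M :=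
  let ⟨_, hx, hx'⟩ := SetLike.not_le_iff_exists.1 h2
  exists_between h1 (CA.AschSL.not_SL_le_sim hn (sf_fn hφ)) (IG_le_sim φ (EG_le_IG φ hx))
    (EG_le_SL φ hx) hx'

theorem btw_SL_dec {n t m : ℕ} (hn : 5 ≤ n) {D : Fin t → Submodule F (Fin n → F)}
    (hD : IsMDecomposition m D) (h : (m = 1 ∧ Fintype.card F ≤ 4) ∨ (m = 2 ∧ Fintype.card F = 2)) :
    Btw (specialLinear (Fin n) F) (decompositionStabilizer D) := by
  have hc : 5 ≤ Fintype.card (Fin n) := by simpa
  obtain ⟨rfl, h⟩ | ⟨rfl, h⟩ := h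
  · rcases card_lt_seven (F := F) (by omega) with h1 | h1 | h1 | h1
    · exact btw_mono h1 (by omega) hD
    · obtain ⟨f, hf, hr, h3⟩ := CA.AschSL.monomial_le_sim (s := RingHom.id F) (fun _ => rfl)
        (fun a ha => sq_three h1 ha) hD
      have h2 := two_ne_zero_three h1
      have hφ := toSym_nondeg h2 hf hr
      obtain ⟨N, n1, n2, -, n4⟩ := exists_siegel hφ hc
      obtain ⟨g, hg, hgN⟩ := n4 1
      rw [one_smul] at hgN
      exact btw_sim (by omega) hφ (by rw [fn_toSym]; exact inf_le_left.trans h3)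
        ((qs_omega hφ hc).not_le_decomp hD hg (not_scalar_of_sq_zero' n1 n2 hgN)
          (by rw [hgN, add_sub_cancel_left, n2]) (.inl h2))
    · have h4 : Fintype.card F = 2 ^ 2 := h1
      obtain ⟨f, hf, hr, h3⟩ := CA.AschSL.monomial_le_sim (conj_conj h4)
        (fun a ha => CA.AschU1.norm_four h4 ha) hD
      have hφ := toHerm_nondeg hf hr (conj_ne_id h4)
      obtain ⟨x, hx0, hx⟩ := herm_exists_singular' h4 (f := toHerm hf hr (conj_ne_id h4))
        (by rw [finrank_fun]; omega)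
      exact btw_sim (by omega) hφ (inf_le_left.trans h3) (not_le_dec hφ (qs_EG hφ (by omega) hx hx0
        (Form.herm_prim (conj_ne_id h4) _) (herm_Eich_perfect' h4 hφ (by rw [finrank_fun]; omega)
          (by rw [finrank_fun]; omega))) hx hx0
        (by simpa [one_add_one_eq_two] using CA.AschU1.two_four h4) hD)
    · omega
  · obtain ⟨f, hf, h3⟩ := CA.AschSL.planes_le_sim hD (.inl h)
    obtain ⟨x, -, hx⟩ := (D ⟨0, by have := hD.two_le; omega⟩).exists_mem_ne_zero_of_ne_bot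
      (decomp_ne_bot hD _)
    exact btw_sim (by omega) (toSymp_nondeg hf) h3 (not_le_dec (toSymp_nondeg hf)
      (CA.AschSp.EG_eq hf ▸ CA.AschSp.qs_sp hf (by omega) (by omega)) rfl hx rfl hD)

end CA.MaxN2
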