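import Cfsg.Agent.Lib.Lin.MaxN2
import Cfsg.Agent.Lib.Lin.MaxL5

/-! Tensor product subgroups and field normalisers which are not maximal. -/

set_option linter.unusedSectionVars false

namespace CA.MaxN3

open Cfsg Cfsg.Geo Matrix CA.AschBase CA.AschLin CA.AschKron CA.AschForm CA.AschTForm CA.AschProp CA.AschProp2
  CA.AschDesc CA.AschField CA.AschFG CA.AschFG2 CA.AschFG5 CA.AschFG6 CA.AschFG7 CA.AschO1 CA.AschO3
  CA.CForm CA.MaxTv CA.MaxN1 CA.MaxL5 Module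
open scoped MatrixGroups Kronecker

variable {ι : Type} [Fintype ι] [DecidableEq ι] {F : Type*} [Field F] [Fintype F] {k : Kind F}
variable {κ : Type} [Fintype κ] [DecidableEq κ] {μ : Type} [Fintype μ] [DecidableEq μ]

local notation "𝟙" => RingHom.id F

theorem exists_unip {N : Matrix ι ι F} (h : N * N = 0) :
    ∃ x ∈ specialLinear ι F, (x : Matrix ι ι F) = 1 + N := by
  obtain ⟨x, hx⟩ := exists_gl_of_mul (X := 1 + N) (Y := 1 - N) (by
    rw [add_mul, one_mul, mul_sub, h, mul_one]; abel)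
  obtain ⟨c, -, hc⟩ := Polynomial.isUnit_iff.1
    (isUnit_charpolyRev_of_isNilpotent (M := N) ⟨2, by rw [sq, h]⟩)
  have h0 := eval_charpolyRev (M := N)
  have h1 : (charpolyRev N).eval (-1) = (1 + N).det := by
    rw [charpolyRev, ← Polynomial.coe_evalRingHom, RingHom.map_det]
    congr 1; ext i j; by_cases e : i = j <;> simp [e]
  rw [← hc, Polynomial.eval_C] at h0 h1
  exact ⟨x, mem_SL.2 (by rw [hx, ← h1, h0]), hx⟩

theorem isom_unip {σ : F →+* F} {f : (ι → F) → (ι → F) → F} (hf : SF σ f) {N : Matrix ι ι F}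
    (h : N * N = 0) (ha : adj σ f N = -N) (u v : ι → F) :
    f ((1 + N) *ᵥ u) ((1 + N) *ᵥ v) = f u v :=
  (hf.isom_iff _).2 (by
    rw [hf.adj_add, hf.adj_one, ha, add_mul, one_mul, neg_mul, mul_add, h, mul_one]; abel) u v

theorem omega_unip {φ : Form (Kind.orth F) (ι → F)} (hφ : φ.Nondeg) (hn : 5 ≤ Fintype.card ι)
    {N : Matrix ι ι F} (h : N * N = 0) (ha : adj 𝟙 (fn φ) N = -N)
    (hc : (2 : F) ≠ 0 ∨ (Pl φ ∧ ∀ v, φ.Q (N *ᵥ v) = 0 ∧ φ.B v (N *ᵥ v) = 0)) :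
    ∃ x ∈ EG φ, (x : Matrix ι ι F) = 1 + N := by
  have hf : SF 𝟙 (fn φ) := sf_fn hφ
  have hg : φ.Good := Form.good_of_five_le (by rwa [finrank_fun])
  have he := hφ.commutator_eq_Eich hg (by rw [finrank_fun]; omega)
  by_cases h2 : (2 : F) = 0
  · obtain ⟨⟨U', v1, v2⟩, h3⟩ := hc.resolve_left (not_not.2 h2)
    obtain ⟨x, -, hx⟩ := exists_unip h
    obtain ⟨g, rfl⟩ : x ∈ IG φ := mem_IG.2 ⟨hx ▸ isom_unip hf h ha, fun v => by
      simp [hx, add_mulVec, φ.Q_add, h3]⟩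
    obtain ⟨U, u1, u2, u3⟩ := φ.exists_maximal_ts (U := LinearMap.range N.mulVecLin)
      (Form.orth_ts_iff.2 (by rintro _ ⟨v, rfl⟩; exact (h3 v).1))
    have a1 := hφ.finrank_le_of_maximal u2 u3 v1
    have a2 := hφ.two_mul_finrank_le u2
    refine ⟨_, ⟨g, ?_, rfl⟩, hx⟩
    rw [← he, hφ.commutator_eq_ker_dick hg h2, SetLike.mem_coe, MonoidHom.mem_ker,
      hφ.dick_eq_one_iff_even_sub hg (m := finrank F U) (by omega) u2 rfl,
      show φ.act g U = U from Submodule.eq_of_le_of_finrank_eq (by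
        rintro _ ⟨v, hv, rfl⟩
        simpa [← toGL_mulVec, hx, add_mulVec] using U.add_mem hv (u1 ⟨v, rfl⟩))
        (LinearEquiv.finrank_map_eq _ _), inf_idem, Nat.sub_self]
    exact Even.zero
  · have h4 : (4 : F) ≠ 0 := by
      rw [show (4 : F) = 2 * 2 by norm_num]; exact mul_ne_zero h2 h2
    have h5 : ((4 : F)⁻¹ • N) * ((4 : F)⁻¹ • N) = 0 := by simp [h]
    obtain ⟨x, -, hx⟩ := exists_unip h5
    have h6 := isom_unip hf h5 (by rw [hf.adj_smul, ha]; simp)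
    obtain ⟨g, rfl⟩ : x ∈ IG φ := mem_IG.2 ⟨hx ▸ h6, fun v => by
      simpa [hx] using Q_of_sim h2 (c := 1) (by simpa using h6) v⟩
    refine ⟨_, ⟨g ^ 4, ?_, rfl⟩, ?_⟩
    · rw [← he, ← hφ.index_commutator h2 (by rw [finrank_fun]; omega)]
      exact Subgroup.pow_index_mem _ g
    · rw [map_pow, Units.val_pow_eq_pow_val, hx]
      generalize hM : (4 : F)⁻¹ • N = M at h5
      rw [show N = (4 : F) • M by rw [← hM, smul_smul, mul_inv_cancel₀ h4, one_smul],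
        show (4 : F) = 1 + 1 + 1 + 1 by norm_num]
      simp only [pow_succ, pow_zero, one_mul, mul_add, add_mul, mul_one, h5, add_smul, one_smul, zero_mul]
      abel

theorem unip_add {φ : Form (Kind.orth F) (ι → F)} (hφ : φ.Nondeg) {N : Matrix ι ι F}
    (h : N * N = 0) (ha : adj 𝟙 (fn φ) N = -N) {u v : ι → F}
    (hu : φ.Q (N *ᵥ u) = 0 ∧ φ.B u (N *ᵥ u) = 0) (hv : φ.Q (N *ᵥ v) = 0 ∧ φ.B v (N *ᵥ v) = 0) :
    φ.Q (N *ᵥ (u + v)) = 0 ∧ φ.B (u + v) (N *ᵥ (u + v)) = 0 := by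
  have hf : SF 𝟙 (fn φ) := sf_fn hφ
  have a4 : ∀ u v, φ.B u (N *ᵥ v) = -φ.B (N *ᵥ u) v := fun u v => by
    simpa [ha, fn_apply, neg_mulVec] using hf.adj_spec N v u
  constructor
  · rw [mulVec_add, φ.Q_add, hu.1, hv.1, a4, mulVec_mulVec, h]; simp
  · rw [mulVec_add, map_add, φ.B_add_left, φ.B_add_left, hu.2, hv.2, a4 u v, φ.orth_symm v]; simp

theorem exists_nil {φ : Form k (κ → F)} (hφ : φ.Nondeg) (hs : Sing φ) (hn : 5 ≤ Fintype.card κ) :
    ∃ y : Matrix κ κ F, y * y = 0 ∧ y * adj k.σ (fn φ) y = 0 ∧ adj k.σ (fn φ) y * y = 0 ∧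
      adj k.σ (fn φ) y * adj k.σ (fn φ) y = 0 ∧ ∀ s : F, y + s • adj k.σ (fn φ) y ≠ 0 := by
  obtain ⟨x, -, x0, x1⟩ := hs ⊤ (by rw [finrank_top, finrank_fun]; omega)
  obtain ⟨w, w1, w2, w3⟩ := hs.exists_perp hφ (F ∙ x) (by
    rw [finrank_span_singleton x0, finrank_fun]; omega)
  rw [φ.mem_perp_span_singleton] at w1
  obtain ⟨y, hy⟩ := exists_matrix ((φ.B x).smulRight w)
  obtain ⟨z, hz⟩ := exists_matrix ((k.ε • φ.B w).smulRight x)
  simp only [LinearMap.smulRight_apply, LinearMap.smul_apply, smul_eq_mul] at hy hz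
  obtain rfl : adj k.σ (fn φ) y = z := (sf_fn hφ).eq_adj fun u v => by
    simp only [fn_apply, hy, hz, map_smul, Form.B_smul_left, φ.symm w v, map_mul, k.σε, smul_eq_mul]
    ring
  have a1 := φ.B_self_of_Q x1
  have a2 := φ.B_self_of_Q w3
  have a3 := φ.eq_zero_symm w1
  refine ⟨y, ext_mulVec fun v => ?_, ext_mulVec fun v => ?_, ext_mulVec fun v => ?_,
    ext_mulVec fun v => ?_, fun s h => ?_⟩
  iterate 4 simp [← mulVec_mulVec, hy, hz, a1, a2, a3, w1]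
  obtain ⟨v, v1, v2⟩ := hφ.exists_perp_B_eq' (CA.MaxL2.notMem_symm w2 x0) 1
  have := congrArg (· *ᵥ v) h
  simp [add_mulVec, smul_mulVec, hy, hz, v2, φ.mem_perp_span_singleton.1 v1] at this
  exact w2 (this ▸ zero_mem _)

theorem exists_sign {σ : F →+* F} {ε : F} {f : (κ → F) → (κ → F) → F} (hf : SF σ f)
    (hr : Refl σ ε f) (hc : (2 : F) ≠ 0 ∨ σ ≠ 𝟙) {A : Subalgebra F (Matrix κ κ F)}
    (hA : ∀ x ∈ A, adj σ f x ∈ A) (h0 : A ≠ ⊥) :
    ∃ a ∈ A, (∀ c : F, a ≠ c • 1) ∧ ∃ s : F, (s = 1 ∨ s = -1) ∧ adj σ f a = s • a := by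
  obtain ⟨a, ha, h1⟩ := SetLike.not_le_iff_exists.1 (mt eq_bot_iff.2 h0)
  by_contra! H
  have key : ∀ a ∈ A, ∀ s : F, s = 1 ∨ s = -1 → a + s • adj σ f a ∈
      (⊥ : Subalgebra F (Matrix κ κ F)) := fun a ha s hs => by
    by_contra h
    refine H _ (add_mem ha (A.smul_mem (hA a ha) s)) (fun c hc => h (mem_bot_iff.2 ⟨c, hc⟩)) s hs ?_
    rw [hf.adj_add, hf.adj_smul, hr.adj_adj hf]
    rcases hs with rfl | rfl <;> simp [add_comm]
  have h2 := key a ha 1 (.inl rfl)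
  obtain ⟨c, hc, h3⟩ : ∃ c : F, c ≠ 0 ∧ c • a ∈ (⊥ : Subalgebra F (Matrix κ κ F)) := by
    rcases hc with hc | hc
    · exact ⟨2, hc, by convert add_mem h2 (key a ha (-1) (.inr rfl)) using 1; module⟩
    · obtain ⟨c, hc⟩ := DFunLike.ne_iff.1 hc
      refine ⟨c - σ c, sub_ne_zero.2 (Ne.symm hc), ?_⟩
      simpa [hf.adj_smul, sub_smul] using
        sub_mem (key _ (A.smul_mem ha c) 1 (.inl rfl)) (Subalgebra.smul_mem _ h2 (σ c))
  exact h1 (by simpa [smul_smul, hc] using Subalgebra.smul_mem _ h3 c⁻¹)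

section Tensor

variable {n₁ n₂ : ℕ} {e : ι ≃ Fin n₁ × Fin n₂} {P : GL ι F} {G : Subgroup (GL ι F)}

theorem kron_cancel {y : Matrix (Fin n₂) (Fin n₂) F} (hy : y ≠ 0) {z z' : Matrix (Fin n₁) (Fin n₁) F}
    (h : ψL e P z * ψR e P y = ψL e P z' * ψR e P y) : z = z' := by
  rw [ψL_mul_ψR, ψL_mul_ψR] at h
  obtain ⟨i, j, hij⟩ : ∃ i j, y i j ≠ 0 := by
    by_contra! h; exact hy (Matrix.ext h)
  ext a b
  exact mul_right_cancel₀ hij (congrFun (congrFun ((tr e P).injective h) (a, i)) (b, j))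

theorem btw_tensor [Nonempty ι] (hG : QS G) {A : Subalgebra F (Matrix (Fin n₁) (Fin n₁) F)}
    (hA : ∀ x ∈ A, ∀ y ∈ A, x * y = y * x)
    (hN : ind (ψL e P) (tensorProductSubgroup n₁ n₂ e P ⊓ G) ≤ subalgebraNormalizer A)
    {a : Matrix (Fin n₁) (Fin n₁) F} (ha : a ∈ A) (ha' : ∀ c : F, a ≠ c • 1)
    {y y' : Matrix (Fin n₂) (Fin n₂) F} (h0 : y ≠ 0) (h1 : y * y = 0) (h2 : y' * y = 0) {x : GL ι F}
    (hx : x ∈ G) (h : (x : Matrix ι ι F) = 1 + (ψL e P a * ψR e P y + ψR e P y')) :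
    Btw G (tensorProductSubgroup n₁ n₂ e P) := by
  have hc : ∀ z, (x : Matrix ι ι F) * ψL e P z =
      ψL e P z * x + (ψL e P (a * z) * ψR e P y - ψL e P (z * a) * ψR e P y) := fun z => by
    simp only [h, map_mul, add_mul, mul_add, mul_assoc, ← ψ_comm, one_mul, mul_one]; abel
  have hy : (x : Matrix ι ι F) * ψR e P y = ψR e P y := by
    simp only [h, add_mul, mul_assoc, ← map_mul, h1, h2, map_zero, mul_zero, add_zero, one_mul]
  have h3 : ∀ z ∈ A.map (ψL e P), cj x z = z := by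
    rintro _ ⟨z, hz, rfl⟩
    exact (cj_eq_iff _ _ _).2 ((hc z).trans (by rw [hA a ha z hz, sub_self, add_zero]; rfl))
  have h4 : ¬ ∀ z, ∃ z', cj x (ψL e P z) = ψL e P z' := fun H => by
    refine (scalar_of_comm fun z => ?_).elim ha'
    obtain ⟨z', hz⟩ := H z
    rw [cj_eq_iff] at hz
    obtain rfl : z = z' := kron_cancel (e := e) (P := P) h0 (by
      have := congrArg (· * ψR e P y) hz
      simp only [mul_assoc, hy] at this
      rw [← this, ψ_comm, ← mul_assoc, hy])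
    exact kron_cancel h0 (sub_eq_zero.1 (add_eq_left.1 ((hc z).symm.trans hz)))
  refine exists_between (N := subalgebraNormalizer (A.map (ψL e P))) (le_normalizer_of_forall ?_)
    (fun H => ?_) ((mem_normalizer_iff _ _).2 fun z => ⟨fun hz => (h3 z hz).symm ▸ hz, fun hz => ?_⟩)
    hx fun H => ?_
  · rintro g hg _ ⟨z, hz, rfl⟩
    obtain ⟨b, -, hb, -⟩ := exists_factors hg.1
    exact ⟨_, cj_mem (hN ⟨g, hg, hb⟩) hz, (hb z).symm⟩
  · rcases cent_cases hG H with H | H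
    · obtain ⟨c, hc⟩ := mem_bot_iff.1 (H ⟨a, ha, rfl⟩)
      exact ha' c (kron_cancel (e := e) (P := P) h0 (by rw [map_smul, map_one, ← hc]; rfl))
    · exact h4 fun z => ⟨z, cj_of_mem_scalars (H x hx h3) _⟩
  · rwa [← (cj x).injective (h3 _ hz)]
  · obtain ⟨b, -, hb, -⟩ := exists_factors H
    exact h4 fun z => ⟨_, hb z⟩

theorem btw_SL_tensor {n : ℕ} (hn : 3 ≤ n) (hF : Fintype.card F = 2) (e : Fin n ≃ Fin 2 × Fin n₂)
    (P : GL (Fin n) F) : Btw (specialLinear (Fin n) F) (tensorProductSubgroup 2 n₂ e P) := by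
  have := CA.AschSL.nontrivial_fin hn
  have hc : n = 2 * n₂ := by simpa using Fintype.card_congr e
  obtain ⟨i, j, hij⟩ := (Fin.nontrivial_iff_two_le (n := n₂)).2 (by omega)
  have hJ : SF 𝟙 (formOfGram 𝟙 (J2 F)) := sf_formOfGram (fun _ => rfl) (by simp [J2, det_fin_two])
  obtain ⟨A, h1, -, h2, h3⟩ := small_two_two hF hJ fun v => by
    simp [formOfGram, J2, Fin.sum_univ_two]; ring
  obtain ⟨a, ha, h4⟩ := SetLike.not_le_iff_exists.1 (mt eq_bot_iff.2 h3)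
  have h5 : single i j (1 : F) * single i j (1 : F) = 0 := single_mul_single_of_ne _ _ _ _ hij.symm _
  obtain ⟨x, hx, h6⟩ := exists_unip (N := ψL e P a * ψR e P (single i j 1) + ψR e P 0) (by
    rw [map_zero, add_zero, ψL_mul_ψR, ← map_mul, ← mul_kronecker_mul, h5, kronecker_zero, map_zero])
  refine btw_tensor (CA.AschSL.qs_SL hn) h1 (le_trans (fun g _ => ?_) h2) ha
    (fun c hc => h4 (mem_bot_iff.2 ⟨c, hc⟩)) (CA.AschSL.single_ne_zero' i j) h5 (zero_mul _) hx h6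
  exact ⟨Units.mk0 _ g.det_ne_zero, sim_of_gram (by simpa using CA.AschSL.J2_gram (g : Matrix _ _ F))⟩

variable {φ : Form k (ι → F)} {f₁ : (Fin n₁ → F) → (Fin n₁ → F) → F} {ε₁ ε₂ : F}

theorem btw_small (hφ : φ.Nondeg) (hG : QS G) (hle : G ≤ IG φ) {k' : Kind F} (hk : k'.σ = k.σ)
    {φ₂ : Form k' (Fin n₂ → F)} (hs₂ : Sing φ₂) (hn : 5 ≤ n₂)
    (h : TData k.σ (fn φ) (tensorProductSubgroup n₁ n₂ e P ⊓ G) e P f₁ (fn φ₂) ε₁ ε₂)
    (hs : Small k.σ f₁) (hc : (2 : F) ≠ 0 ∨ k.σ ≠ 𝟙) (H : ∀ N : Matrix ι ι F, N * N = 0 →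
      adj k.σ (fn φ) N = -N → ∃ x ∈ G, (x : Matrix ι ι F) = 1 + N) :
    Btw G (tensorProductSubgroup n₁ n₂ e P) := by
  have := h.neι
  have := h.ne₁
  have hf := sf_fn hφ
  obtain ⟨A, h1, h2, h3, h4⟩ := hs
  obtain ⟨a, ha, ha', s, hs, h5⟩ := exists_sign h.sf₁ h.r₁ hc h2 h4
  obtain ⟨y, y1, y2, y3, y4, y5⟩ := exists_nil (nondeg_of_sf (hk ▸ h.sf₂)) hs₂ (by simpa)
  rw [hk] at y2 y3 y4 y5
  have h6 : (y + (-s) • adj k.σ (fn φ₂) y) * (y + (-s) • adj k.σ (fn φ₂) y) = 0 := by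
    simp [mul_add, add_mul, y1, y2, y3, y4]
  obtain ⟨x, hx, h7⟩ := H (ψL e P a * ψR e P (y + (-s) • adj k.σ (fn φ₂) y) + ψR e P 0) (by
    rw [map_zero, add_zero, ψL_mul_ψR, ← map_mul, ← mul_kronecker_mul, h6, kronecker_zero, map_zero])
    (by
      rw [map_zero, add_zero, hf.adj_mul, h.adj₁, h.adj₂, h5, h.sf₂.adj_add, h.sf₂.adj_smul,
        h.r₂.adj_adj h.sf₂, ← ψ_comm]
      rcases hs with rfl | rfl <;> simp [mul_add, add_comm])
  exact btw_tensor hG h1 ((ind_le_sim hf h.sf₁ h.adj₁ (inf_le_right.trans (hle.trans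
    (IG_le_sim φ)))).trans h3) ha ha' (y5 _) h6 (zero_mul _) hx h7

theorem kron_tp (a : Matrix κ κ F) (b : Matrix μ μ F) (p : κ → F) (r : μ → F) :
    (a ⊗ₖ b) *ᵥ tp p r = tp (a *ᵥ p) (b *ᵥ r) := by
  ext ⟨i, j⟩
  simp only [mulVec, dotProduct, tp_apply, Fintype.sum_prod_type, kronecker_apply, Finset.sum_mul_sum]
  exact Finset.sum_congr rfl fun _ _ => Finset.sum_congr rfl fun _ _ => by ring

theorem tp_ind {p : (κ × μ → F) → Prop} (h0 : p 0) (h1 : ∀ u v, p u → p v → p (u + v))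
    (h2 : ∀ u w, p (tp u w)) (z : κ × μ → F) : p z := by
  rw [pi_eq_sum_univ' z]
  refine Finset.sum_induction _ p h1 h0 fun ⟨a, b⟩ _ => ?_
  have := h2 (z (a, b) • CA.MaxL1.ev a) (CA.MaxL1.ev b)
  rwa [map_smul, LinearMap.smul_apply, tp_ev] at this

theorem btw_two {φ : Form (Kind.orth F) (ι → F)} (hφ : φ.Nondeg) (hp : Pl φ) (hF : Fintype.card F = 2)
    {e : ι ≃ Fin 2 × Fin n₂} {f₁ : (Fin 2 → F) → (Fin 2 → F) → F}
    {f₂ : (Fin n₂ → F) → (Fin n₂ → F) → F} (hf₁ : IsSymplecticForm f₁) (hf₂ : IsSymplecticForm f₂)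
    (hn : 5 ≤ n₂) (hT : IsTensorFormStructure id (QuadraticMap.polar φ.Q) f₁ f₂ e P)
    (hQ : ∀ u w, φ.Q (trv e P (tp u w)) = 0) : Btw (EG φ) (tensorProductSubgroup 2 n₂ e P) := by
  have hf : SF 𝟙 (fn φ) := sf_fn hφ
  have h2 := two_eq_zero hF
  obtain ⟨c, hc, hT⟩ := hT
  rw [polar_fn] at hT
  have s₁ := sf_of_symp hf₁
  have s₂ := sf_of_symp hf₂
  have h := tdata_of_form_eq hf le_rfl (by omega) s₁ s₂ (refl_of_symp hf₁) (refl_of_symp hf₂) hc hT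
    (inf_le_left (b := EG φ))
  have := h.neι
  have hc5 : 5 ≤ Fintype.card ι := by rw [h.card]; omega
  have hB : ∀ p r p' r', φ.B (trv e P (tp p r)) (trv e P (tp p' r')) = c * (f₁ p' p * f₂ r' r) :=
    fun p r p' r' => (hT _ _).trans (congrArg _ (form_pure s₁ s₂ _ _ _ _))
  obtain ⟨A, h1, -, h3, h4⟩ := small_two_two hF s₁ hf₁.alternating
  obtain ⟨a, ha, h5⟩ := SetLike.not_le_iff_exists.1 (mt eq_bot_iff.2 h4)
  obtain ⟨y, y1, y2, y3, y4, y5⟩ := exists_nil (toSymp_nondeg hf₂) (sing_symp _) (by simpa)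
  change y * adj 𝟙 f₂ y = 0 at y2
  change adj 𝟙 f₂ y * y = 0 at y3
  change adj 𝟙 f₂ y * adj 𝟙 f₂ y = 0 at y4
  replace y5 : y + adj 𝟙 f₂ y ≠ 0 := by have := y5 1; rwa [one_smul] at this
  have r₂ := refl_of_symp hf₂
  set N := ψL e P a * ψR e P (y + adj 𝟙 f₂ y) + ψR e P (a.trace • y) with hN
  have n2 : ∀ X : Matrix ι ι F, X + X = 0 := fun X => by rw [← two_smul F, h2, zero_smul]
  have a1 : N * N = 0 := by
    rw [hN, ψL_mul_ψR, ψR_apply, ← map_add, ← map_mul]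
    simp only [add_mul, mul_add, ← mul_kronecker_mul,
      y1, y2, y3, y4, Matrix.smul_mul, Matrix.mul_smul, add_zero, smul_zero, kronecker_zero, map_zero]
  have a2 : adj 𝟙 (fn φ) N = -N := by
    rw [hN, hf.adj_add, hf.adj_mul, h.adj₁, h.adj₂, h.adj₂, adj_alt_two s₁ hf₁.alternating,
      adjugate_two, s₂.adj_add, s₂.adj_smul, r₂.adj_adj s₂, ← ψ_comm, eq_neg_iff_add_eq_zero]
    simp only [map_sub, map_smul, map_one, map_add, sub_mul, mul_add, Matrix.smul_mul, one_mul,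
      RingHom.id_apply]
    rw [← n2 (a.trace • ψR e P y + a.trace • ψR e P (adj 𝟙 f₂ y))]; abel
  have a3 : ∀ p r, N *ᵥ trv e P (tp p r) = trv e P (tp (a *ᵥ p) ((y + adj 𝟙 f₂ y) *ᵥ r)) +
      trv e P (tp p ((a.trace • y) *ᵥ r)) := fun p r => by
    rw [hN, add_mulVec, ψL_mul_ψR, ψR_apply, tr_mulVec, tr_mulVec, kron_tp, kron_tp, one_mulVec]
  obtain ⟨x, hx, h6⟩ := omega_unip hφ hc5 a1 a2 (.inr ⟨hp, fun v => by
    obtain ⟨z, rfl⟩ := (trv e P).surjective v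
    induction z using tp_ind with
    | h0 => simp
    | h1 u v hu hv => exact map_add (trv e P) u v ▸ unip_add hφ a1 a2 hu hv
    | h2 p r =>
      rw [a3, φ.Q_add, hQ, hQ, hB, map_add, hB, hB, hf₁.alternating, s₂.adj_spec, mulVec_mulVec,
        s₂.adj_smul, add_mulVec, s₂.add_left, s₂.adj_spec y, r₂ (adj 𝟙 f₂ y *ᵥ r)]
      simp [mul_add, y3, y4, s₂.zero_right]⟩)
  exact btw_tensor (qs_omega hφ hc5) h1 ((ind_le_sim hf s₁ h.adj₁ (inf_le_right.trans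
    ((EG_le_IG φ).trans (IG_le_sim φ)))).trans h3) ha (fun c hc => h5 (mem_bot_iff.2 ⟨c, hc⟩)) y5
    (by simp [mul_add, add_mul, y1, y2, y3, y4]) (by simp [mul_add, y1, y2]) hx h6

end Tensor

theorem exists_ext_step {d : ℕ} {K : Subalgebra F (Matrix ι ι F)} (hK : IsFieldSubalgebra d K)
    (h1 : d ≠ 1) (hp : ¬ d.Prime) (hn : 2 * d ≤ Fintype.card ι) (h0 : 0 < Fintype.card ι) :
    ∃ (r : ℕ) (K' : Subalgebra F (Matrix ι ι F)), r ≠ 1 ∧ IsFieldSubalgebra r K' ∧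
      subalgebraNormalizer K ≤ subalgebraNormalizer K' ∧ ∃ x ∈ specialLinear ι F,
        x ∈ subalgebraNormalizer K' ∧ x ∉ subalgebraNormalizer K := by
  have : Nonempty ι := Fintype.card_pos_iff.1 h0
  obtain ⟨r, K', hr, hK', h2, h3⟩ := exists_prime_field hK h1
  refine ⟨r, K', hr.ne_one, hK', h3, ?_⟩
  have h4 : K' < K := lt_of_le_of_ne h2 (by
    rintro rfl; exact hp (hK.finrank_eq ▸ hK'.finrank_eq ▸ hr))
  obtain ⟨y, hy, hy'⟩ := SetLike.exists_of_lt h4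
  have h5 : r < d := hK.finrank_eq ▸ hK'.finrank_eq ▸
    Submodule.finrank_lt_finrank_of_lt (s := K'.toSubmodule) (t := K.toSubmodule) h4
  obtain ⟨L, _, _, _, _, _, rfl, e1, e2, -⟩ := CA.AschO2.exists_ext hK'
  have h6 := finrank_mul_finrank F L (ι → F)
  rw [finrank_fun] at h6
  obtain ⟨a, ha⟩ := exists_ne (0 : ι → F)
  obtain ⟨w, hw⟩ := CA.MaxL6.exists_notMem_line (L := L) (V := ι → F) (by
    by_contra h
    have : finrank F L * finrank L (ι → F) ≤ finrank F L * 1 := Nat.mul_le_mul_left _ (by omega)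
    omega) a
  obtain ⟨φ, p1, p2⟩ := CA.MaxL6.exists_pairG hw 0 1 ha
  obtain ⟨x, x1, x2⟩ := CA.MaxL7.exists_dil (F := F) a φ (by simp [p1])
  refine ⟨x, mem_SL.2 (by simpa [p1] using x1), CA.MaxL7.mem_normalizer_of_lin e2
    fun c v => by simp [x2, smul_smul], fun hx => hy' ?_⟩
  obtain ⟨v, hv, v0⟩ := (LinearMap.ker ((φ.restrictScalars F).prod
    (φ.restrictScalars F ∘ₗ y.mulVecLin))).exists_mem_ne_zero_of_ne_bot
    (LinearMap.ker_ne_bot_of_finrank_lt (by rw [finrank_prod, finrank_fun]; omega))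
  obtain ⟨v1, v2⟩ : φ v = 0 ∧ φ (y *ᵥ v) = 0 := by simpa using hv
  have h7 : cj x y = y := by
    by_contra h
    refine v0 (field_mulVec_eq_zero hK (sub_mem (cj_mem hx hy) hy) (sub_ne_zero.2 h) ?_)
    have := cj_mulVec x y v
    rw [x2, x2, v1, v2, zero_smul, add_zero, add_zero] at this
    rw [sub_mulVec, this, sub_self]
  have h8 := cj_mulVec x y w
  rw [h7, x2, x2, p2, one_smul, mulVec_add, add_right_inj] at h8
  obtain ⟨z, hz, h9⟩ := e1 (φ (y *ᵥ w))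
  by_contra h
  exact ha (field_mulVec_eq_zero hK (sub_mem hy (h2 hz)) (sub_ne_zero.2 (by rintro rfl; exact h hz))
    (by rw [sub_mulVec, h9, h8, sub_self]))

end CA.MaxN3
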