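import Cfsg.Agent.Lib.Lin.MaxTv
import Cfsg.Agent.Lib.Lin.AschSp

/-! Maximality of the isometry group of a quadratic form in the symplectic group (char. two). -/

namespace CA.MaxQ2

open Cfsg Cfsg.Geo Matrix CA.AschBase CA.AschForm CA.AschTForm CA.AschProp CA.AschDesc
  CA.AschFG CA.CForm CA.MaxTv Module
open scoped MatrixGroups

variable {ι : Type} [Fintype ι] [DecidableEq ι] {F : Type*} [Field F]
variable {X : Subgroup (GL ι F)}

theorem sq_inj (h2 : (2 : F) = 0) {a b : F} (h : a * a = b * b) : a = b := by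
  have : (a - b) ^ 2 = 0 := by linear_combination h + (b * b - a * b) * h2
  exact sub_eq_zero.1 (pow_eq_zero_iff two_ne_zero |>.1 this)

theorem exists_sqrt [Finite F] (h2 : (2 : F) = 0) (a : F) : ∃ b, b * b = a :=
  (Finite.injective_iff_surjective.1 (fun _ _ h => sq_inj h2 h : Function.Injective fun b : F => b * b)) a

theorem over_quad_two [Finite F] (h2 : (2 : F) = 0) {φ : Form (Kind.orth F) (ι → F)}
    (hφ : φ.Nondeg) (hn : 4 ≤ Fintype.card ι) (h1 : IG φ ≤ X) (hX : X ≤ IG (φ.toSymp h2)) :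
    X ≤ IG φ ∨ IG (φ.toSymp h2) ≤ X := by
  refine or_iff_not_imp_left.2 fun h => ?_
  obtain ⟨g, hg, hg'⟩ := SetLike.not_le_iff_exists.1 h
  have hB : ∀ x ∈ X, ∀ u v, φ.B ((x : Matrix ι ι F) *ᵥ u) ((x : Matrix ι ι F) *ᵥ v) = φ.B u v :=
    fun x hx => B_IG (φ := φ.toSymp h2) (hX hx)
  have hself : ∀ v, φ.B v v = 0 := fun v => (φ.toSymp h2).B_self_of_Q rfl
  have hone : ∀ v, φ.Q v = 1 → Tv X v (φ.B v) := fun v hv => by
    obtain ⟨t, -, ht⟩ := tv_SL (ι := ι) (hself v)
    refine ⟨t, h1 (mem_IG.2 ⟨fun a b => ?_, fun a => ?_⟩), ht⟩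
    · simp only [fn_apply, ht, map_add, map_smul, Form.B_add_left, Form.B_smul_left, hself,
        Kind.orth_σ, smul_eq_mul]
      rw [φ.orth_symm v b]
      linear_combination (φ.B v a * φ.B v b) * h2
    · simp only [ht, φ.Q_add, φ.Q_smul, hv, map_smul, Kind.orth_σ, Kind.orth_π, smul_eq_mul]
      rw [φ.orth_symm v a]
      linear_combination (φ.B v a * φ.B v a) * h2
  choose r hr using exists_sqrt h2
  let l : Dual F (ι → F) :=
    { toFun v := r (φ.Q ((g : Matrix ι ι F) *ᵥ v) + φ.Q v)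
      map_add' u v := sq_inj h2 <| by
        have a1 := hr (φ.Q ((g : Matrix ι ι F) *ᵥ u) + φ.Q u)
        have a2 := hr (φ.Q ((g : Matrix ι ι F) *ᵥ v) + φ.Q v)
        rw [hr, mulVec_add, φ.Q_add, φ.Q_add, hB g hg, Kind.orth_π]
        linear_combination -a1 - a2 + (φ.B u v - r (φ.Q ((g : Matrix ι ι F) *ᵥ u) + φ.Q u) *
          r (φ.Q ((g : Matrix ι ι F) *ᵥ v) + φ.Q v)) * h2
      map_smul' c v := sq_inj h2 <| by
        have a1 := hr (φ.Q ((g : Matrix ι ι F) *ᵥ v) + φ.Q v)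
        rw [hr, mulVec_smul, φ.Q_smul, φ.Q_smul, Kind.orth_σ, RingHom.id_apply, smul_eq_mul]
        linear_combination -(c * c) * a1 }
  obtain ⟨a, ha⟩ := hφ.exists_B_eq l
  have hl : ∀ v, φ.B a v * φ.B a v = φ.Q ((g : Matrix ι ι F) *ᵥ v) + φ.Q v := fun v => by
    rw [ha]; exact hr _
  have ha0 : a ≠ 0 := by
    rintro rfl
    refine hg' (mem_IG.2 ⟨fun u v => hB g hg v u, fun v => ?_⟩)
    have := hl v
    rw [φ.B_zero_left] at this
    linear_combination -this - φ.Q v * h2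
  obtain ⟨b, hb⟩ := Form.Nondeg.exists_isHyp (f := φ.toSymp h2) hφ rfl ha0
  have hab : φ.B a b = 1 := hb.B_xy
  have hall : ∀ v, Tv X v (φ.B v) := fun v => by
    by_cases hv0 : v = 0
    · rw [hv0]; exact tv_zero' _
    by_cases hv : φ.Q v = 1
    · exact hone v hv
    obtain ⟨u, hu, hu'⟩ := φ.exists_Q_eq_of_two_le (W := φ.perp (Submodule.span F {a, b}))
      (by rw [hφ.perp_perp]; exact hb.isCompl.disjoint.symm)
      (by have := hb.finrank_perp; rw [finrank_fun] at this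
          change finrank F (φ.perp _) + 2 = _ at this; omega)
      (φ.Q v - φ.Q (r (1 + φ.Q v) • b))
    rw [φ.mem_perp_span_pair] at hu
    have e1 : φ.B a (r (1 + φ.Q v) • b + u) = r (1 + φ.Q v) := by simp [hab, hu.1]
    have e2 : φ.Q (r (1 + φ.Q v) • b + u) = φ.Q v := by
      rw [φ.Q_add_of_B (by simp [hu.2]), hu']; ring
    have e3 := hl (r (1 + φ.Q v) • b + u)
    rw [e1, hr, e2, add_left_inj] at e3
    have e4 := tv_isom (hone _ e3.symm) (act_self (X.inv_mem hg)) (hB _ (X.inv_mem hg))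
    simp only [inv_mulVec_mulVec] at e4
    obtain ⟨t, ht⟩ := hφ.witt_one (v := r (1 + φ.Q v) • b + u) (fun h0 => hv (by
      have := hr (1 + φ.Q v)
      rw [← e1, h0, map_zero] at this
      linear_combination -this - h2)) hv0 e2
    have e5 := tv_isom e4 (act_self (h1 ⟨t, rfl⟩)) (hB _ (h1 ⟨t, rfl⟩))
    simpa only [toGL_mulVec, ht] using e5
  have := Form.Nondeg.symp_eq_top_of_Tgrp (f := φ.toSymp h2) hφ
    (G := X.comap (toGL (φ.toSymp h2))) fun x c h => by
      refine (hall (r c • x)).mem fun v => ?_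
      rw [toGL_mulVec, Form.eichler_zero_apply]
      change v - (-1 * c * φ.B x v) • x = _
      rw [φ.B_smul_left, Kind.orth_σ, smul_smul, mul_right_comm (r c), hr]
      module
  rintro _ ⟨e, rfl⟩
  exact (this ▸ Subgroup.mem_top e : e ∈ X.comap (toGL (φ.toSymp h2)))

theorem quad_max [Fintype F] (h2 : (2 : F) = 0) {f : (ι → F) → (ι → F) → F}
    (hf : IsSymplecticForm f) (hn : 4 ≤ Fintype.card ι) {Q : (ι → F) → F}
    (hQ : IsNondegenerateQuadraticForm Q) (hp : ∀ u v, QuadraticMap.polar Q u v = f u v) :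
    IsMaximalIn (IG (toSymp hf)) (quadSimilarityGroup Q ⊓ IG (toSymp hf)) := by
  have e : IG (toSymp hf) = IG ((toOrth hQ).toSymp h2) := by
    ext g
    rw [mem_IG, mem_IG]
    refine and_congr (forall₂_congr fun u v => ?_) Iff.rfl
    change f _ _ = f _ _ ↔ QuadraticMap.polar Q _ _ = QuadraticMap.polar Q _ _
    rw [hp, hp]
  have hle : IG (toOrth hQ) ≤ quadSimilarityGroup Q := fun g hg =>
    ⟨1, fun v => by rw [Units.val_one, one_mul]; exact Q_IG hg v⟩
  have hle' : IG (toOrth hQ) ≤ IG ((toOrth hQ).toSymp h2) := fun g hg =>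
    mem_IG.2 ⟨(mem_IG.1 hg).1, fun _ => rfl⟩
  have hφ := toSymp_nondeg hf
  have hs := sf_of_symp hf
  refine isMaximalIn_of (fun hle => ?_) fun Y hY hY' => ?_
  · obtain ⟨y, hy0, hy⟩ := (toOrth hQ).exists_singular' (by rw [finrank_fun]; omega)
    obtain ⟨N, -, -, -, m1, m2⟩ := exists_tv hφ (x := y) rfl hy0
    obtain ⟨g, hg, hgN⟩ := m2 1 rfl
    obtain ⟨c, hc⟩ := hle (EG_le_IG _ hg)
    obtain ⟨v, hv⟩ := hφ.exists_B_ne_zero hy0
    have a1 : f v y ≠ 0 := hv
    have a2 := (mem_IG.1 (EG_le_IG _ hg)).1 v y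
    change f _ _ = f v y at a2
    rw [← hp, QuadraticMap.polar, ← mulVec_add, hc, hc, hc, ← mul_sub, ← mul_sub,
      ← QuadraticMap.polar, hp, mul_left_eq_self₀] at a2
    have a3 := hc v
    rw [a2.resolve_right a1, one_mul, hgN, one_smul, add_mulVec, one_mulVec, m1, quad_add Q,
      hQ.smul, show Q y = 0 from hy, hp, hs.smul_right, toSymp_B, RingHom.id_apply] at a3
    exact mul_ne_zero a1 a1 (by linear_combination a3)
  · rw [e] at hY hY' ⊢
    exact (over_quad_two h2 (toOrth_nondeg hQ) hn ((le_inf hle hle').trans hY) hY').imp_left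
      fun h => h.trans hle

end CA.MaxQ2
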