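import Cfsg.Agent.Lib.Lin.MaxBase
import Cfsg.Agent.Lib.Lin.MaxQ2

/-!
Irreducible subgroups of a symplectic group in characteristic two which cover the unipotent
radical of a point stabiliser modulo its centre: the calculus of Eichler maps.
-/

set_option autoImplicit false
set_option linter.unusedSectionVars false

namespace CA.MaxQ3

open Module CA.CForm CA.CForm.Form

variable {F : Type*} [Field F] {V : Type*} [AddCommGroup V] [Module F V]
  {f : Form (Kind.symp F) V} {L : Subgroup f.Isom}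

local notation:75 g:76 " ⊳ " v:75 => (Subtype.val g) v

/-- The Eichler map with data `d, w, c` lies in `L`. -/
def R (L : Subgroup f.Isom) (d w : V) (c : F) : Prop :=
  f.B d w = 0 ∧ ∃ g ∈ L, ∀ x, g ⊳ x = x + f.B d x • w + (f.B w x + c * f.B d x) • d

theorem sym (h2 : (2 : F) = 0) (x y : V) : f.B y x = f.B x y := by
  rw [f.symp_symm]; grind

theorem add_self (h2 : (2 : F) = 0) (v : V) : v + v = 0 := by
  rw [← two_smul F v, h2, zero_smul]

theorem R.congr {d w w' : V} {c c' : F} (h : R L d w c) (e : w = w') (e' : c = c') :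
    R L d w' c' := e ▸ e' ▸ h

theorem R_iff {d w : V} {c : F} (h : f.EichlerCond d w c) :
    R L d w c ↔ f.eichler d w c h ∈ L := by
  have e : ∀ x, f.eichler d w c h ⊳ x = x + f.B d x • w + (f.B w x + c * f.B d x) • d :=
    fun x => by rw [eichler_apply, Kind.symp_ε]; module
  exact ⟨fun ⟨_, g, hg, e'⟩ => by
    rwa [f.isom_ext (g := f.eichler d w c h) (h := g) fun x => by rw [e, e']],
    fun hL => ⟨h.B_pw, _, hL, e⟩⟩

theorem R.add {d w w' : V} {c c' : F} (h : R L d w c) (h' : R L d w' c') :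
    R L d (w + w') (c + c' + f.B w w') := by
  have h1 := symp_eichlerCond h.1 c
  have h2 := symp_eichlerCond h'.1 c'
  rw [R_iff (h1.add h2), ← f.eichler_mul h1 h2]
  exact L.mul_mem ((R_iff h1).1 h) ((R_iff h2).1 h')

theorem R.map {d w : V} {c : F} (h : R L d w c) {g : f.Isom} (hg : g ∈ L) :
    R L (g ⊳ d) (g ⊳ w) c := by
  obtain ⟨h0, e, he, h1⟩ := h
  refine ⟨by rw [B_coe_map, h0], g * e * g⁻¹, L.mul_mem (L.mul_mem hg he) (L.inv_mem hg),
    fun x => ?_⟩
  obtain ⟨y, rfl⟩ := g.1.surjective x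
  rw [isom_mul_apply, isom_mul_apply, isom_inv_apply_apply, h1]
  simp only [map_add, map_smul, B_coe_map]

theorem R.shift (h2 : (2 : F) = 0) {d w : V} {c : F} (h : R L d w c) (a : F) :
    R L d (w + a • d) c := by
  obtain ⟨h0, e, he, h1⟩ := h
  refine ⟨by simp [h0, f.symp_B_self], e, he, fun x => ?_⟩
  rw [h1, B_add_left, B_smul_left, Kind.symp_σ]
  match_scalars <;> grind

theorem R.smul {d w : V} {c s : F} (h : R L d (s • w) (s * s * c)) :
    R L (s • d) w c := by
  obtain ⟨h0, e, he, h1⟩ := h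
  refine ⟨?_, e, he, fun x => ?_⟩
  · rw [B_smul_left, Kind.symp_σ]; simpa using h0
  rw [h1, B_smul_left, B_smul_left, Kind.symp_σ]
  module

theorem R.swap {d w : V} (h : R L d w 0) : R L w d 0 := by
  obtain ⟨h0, e, he, h1⟩ := h
  refine ⟨f.eq_zero_symm h0, e, he, fun x => ?_⟩
  rw [h1]
  module

theorem R_zero (d : V) : R L d 0 0 := ⟨map_zero _, 1, L.one_mem, fun x => by
  rw [isom_one_apply]; simp⟩

/-- Two commuting Eichler maps seen from the two ends. -/
theorem R.turn (h2 : (2 : F) = 0) {d w : V} {s γ : F} (h : R L w (s • d) γ) {r : F}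
    (h' : R L (w + r • d) (s • d) γ) (hdw : f.B d w = 0) : R L d ((γ * r) • w) (γ * r * r) := by
  obtain ⟨-, e, he, h1⟩ := h
  obtain ⟨-, e', he', h1'⟩ := h'
  refine ⟨by simp [hdw], e * e', L.mul_mem he he', fun x => ?_⟩
  rw [isom_mul_apply, h1, h1']
  simp only [map_add, map_smul, B_add_left, B_smul_left, Kind.symp_σ, smul_eq_mul,
    f.symp_B_self, hdw, f.eq_zero_symm hdw]
  match_scalars <;> grind

/-- The standing hypotheses. -/
structure Ctx (L : Subgroup f.Isom) (D : Set V) : Prop where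
  nd : f.Nondeg
  two : (2 : F) = 0
  dim : 4 ≤ finrank F V
  irr : ∀ d, d ≠ 0 → ∃ g ∈ L, f.B d (g ⊳ d) ≠ 0
  ne : L ≠ ⊤
  map : ∀ g ∈ L, ∀ d ∈ D, g ⊳ d ∈ D
  smul : ∀ s : F, s ≠ 0 → ∀ d ∈ D, s • d ∈ D
  ne0 : ∀ d ∈ D, d ≠ 0
  lev : ∀ d ∈ D, ∀ w, f.B d w = 0 → ∃ c, R L d w c

variable [FiniteDimensional F V] [Finite F] {D : Set V}

namespace Ctx

theorem not_all (h : Ctx L D) {d : V} (hd : d ∈ D) : ¬ ∀ c, R L d 0 c := fun H => by
  obtain ⟨g, hg, e⟩ := h.irr d (h.ne0 d hd)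
  refine h.ne (eq_top_iff.2 ?_)
  rw [← h.nd.symp_Eich_eq_top]
  refine h.nd.Eich_le_of_Qgrp' (.inl (by have := h.dim; omega)) (f.symp_Q d)
    (f.Qgrp_le fun w c hc => ?_) hg e
  obtain ⟨c', h1⟩ := h.lev d hd w hc.B_pw
  exact (R_iff hc).1 ((h1.add (H (c - c'))).congr (add_zero _) (by simp))

theorem partner (h : Ctx L D) {d : V} (hd : d ∈ D) : ∃ d' ∈ D, f.B d d' = 1 := by
  obtain ⟨g, hg, e⟩ := h.irr d (h.ne0 d hd)
  exact ⟨_, h.smul _ (inv_ne_zero e) _ (h.map g hg d hd), by simp [e]⟩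

theorem act (h : Ctx L D) {d w x : V} {c : F} (hR : R L d w c) (hx : x ∈ D) :
    x + f.B d x • w + (f.B w x + c * f.B d x) • d ∈ D := by
  obtain ⟨-, g, hg, e⟩ := hR
  exact e x ▸ h.map g hg x hx

/-- a vector orthogonal to the hyperbolic pair with prescribed product -/
theorem dual (h : Ctx L D) {d d' w : V} (hd : f.B d d' = 1) (h1 : f.B d w = 0)
    (h2 : f.B d' w = 0) (hw : w ≠ 0) : ∃ y, f.B d y = 0 ∧ f.B d' y = 0 ∧ f.B y w = 1 := by
  have := h.two
  obtain ⟨y, hy⟩ := h.nd.exists_isHyp (f.symp_Q w) hw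
  refine ⟨y + f.B d' y • d + f.B d y • d', ?_, ?_, ?_⟩
  · simp only [map_add, map_smul, smul_eq_mul, f.symp_B_self, hd]; grind
  · simp only [map_add, map_smul, smul_eq_mul, f.symp_B_self, sym h.two d d', hd]; grind
  · simp [h1, h2, sym h.two w y, hy.B_xy]

theorem exists_perp (h : Ctx L D) {d d' : V} (hd : f.B d d' = 1) :
    ∃ w, f.B d w = 0 ∧ f.B d' w = 0 ∧ w ≠ 0 := by
  have hy : f.IsHyp d d' := ⟨f.symp_Q _, f.symp_Q _, hd⟩
  have h1 := hy.finrank_perp
  have h2 := h.dim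
  obtain ⟨w, hw, hw0⟩ := Submodule.exists_mem_ne_zero_of_ne_bot
    (p := f.perp (Submodule.span F {d, d'})) fun e => by
      rw [e, finrank_bot] at h1; omega
  rw [mem_perp_span_pair] at hw
  exact ⟨w, hw.1, hw.2, hw0⟩

/-- from `d' + w` to `w` -/
theorem drop (h : Ctx L D) {d d' w : V} (hd : f.B d d' = 1) (hd' : d' ∈ D) (h1 : f.B d w = 0)
    (h2 : f.B d' w = 0) (hw : w ≠ 0) (hx : d' + w ∈ D) : w ∈ D := by
  have := h.two
  obtain ⟨y, y1, y2, y3⟩ := h.dual hd h1 h2 hw
  obtain ⟨c, hc⟩ := h.lev d' hd' y y2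
  convert h.act hc hx using 1
  simp only [map_add, f.symp_B_self, h2, f.eq_zero_symm y2, y3]
  match_scalars <;> grind

theorem turn (h : Ctx L D) {d d' w : V} (hd : f.B d d' = 1) (hD : d ∈ D) (h1 : f.B d w = 0)
    (h2 : f.B d' w = 0) (hw : w ≠ 0) {s γ : F} (hR : R L w (s • d) γ) (r : F) :
    R L d ((γ * r) • w) (γ * r * r) := by
  obtain ⟨y, y1, y2, y3⟩ := h.dual hd h1 h2 hw
  obtain ⟨c, -, g, hg, e⟩ := h.lev d hD (r • y) (by simp [y1])
  have := hR.map hg
  rw [e, e] at this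
  refine hR.turn h.two (r := r) ?_ h1
  simpa [h1, y3, f.symp_B_self, f.eq_zero_symm y1] using this

/-- a third point on a hyperbolic line forces the whole complement -/
theorem third (h : Ctx L D) {d d' w : V} (hd : f.B d d' = 1) (hD : d ∈ D) (hD' : d' ∈ D) {l : F}
    (hl : l ≠ 0) (h3 : d' + l • d ∈ D) (h1 : f.B d w = 0) (h2 : f.B d' w = 0) (hw : w ≠ 0) :
    ∃ t : F, t ≠ 0 ∧ d' + t • w ∈ D := by
  have := h.two
  choose c hc using fun t : F => h.lev d hD (t • w) (by simp [h1])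
  have key : ∃ t : F, t ≠ 0 ∧ (R L d (t • w) 0 ∨ R L d (t • w) l) := by
    by_cases hi : Function.Injective c
    · obtain ⟨t, ht⟩ := Finite.injective_iff_surjective.1 hi 0
      obtain ⟨t', ht'⟩ := Finite.injective_iff_surjective.1 hi l
      by_cases h0 : t = 0
      · exact ⟨t', fun e => hl (by rw [← ht', ← ht, e, h0]), .inr (ht' ▸ hc t')⟩
      · exact ⟨t, h0, .inl (ht ▸ hc t)⟩
    · obtain ⟨t, t', e, ne⟩ := Function.not_injective_iff.1 hi
      refine ⟨t + t', fun e' => ne (by grind), .inl (((hc t).add (hc t')).congr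
        (add_smul _ _ _).symm ?_)⟩
      simp only [map_smul, B_smul_left, f.symp_B_self, e]
      grind [smul_zero]
  obtain ⟨t, ht, hR | hR⟩ := key
  · refine ⟨t, ht, ?_⟩
    convert h.act hR hD' using 1
    simp [hd, f.eq_zero_symm h2]
  · refine ⟨t, ht, ?_⟩
    convert h.act hR h3 using 1
    simp only [map_add, map_smul, B_smul_left, f.symp_B_self, hd, f.eq_zero_symm h2,
      f.eq_zero_symm h1]
    match_scalars <;> grind [smul_zero]

theorem third' (h : Ctx L D) {d d' w : V} (hd : f.B d d' = 1) (hD : d ∈ D) (hD' : d' ∈ D) {l : F}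
    (hl : l ≠ 0) (h3 : d' + l • d ∈ D) (h1 : f.B d w = 0) (h2 : f.B d' w = 0) (hw : w ≠ 0) :
    w ∈ D := by
  obtain ⟨t, ht, h4⟩ := h.third hd hD hD' hl h3 h1 h2 hw
  have := h.smul _ (inv_ne_zero ht) _ (h.drop hd hD' (by simp [h1]) (by simp [h2])
    (smul_ne_zero ht hw) h4)
  rwa [inv_smul_smul₀ ht] at this

/-- two different non-zero parameters give all transvections -/
theorem two_par (h : Ctx L D) {d d' w : V} (hd : f.B d d' = 1) (hD : d ∈ D) (h1 : f.B d w = 0)
    (h2 : f.B d' w = 0) (hw : w ≠ 0) {s γ s' γ' : F} (hR : R L w (s • d) γ)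
    (hR' : R L w (s' • d) γ') (h0 : γ ≠ 0) (h0' : γ' ≠ 0) : γ = γ' := by
  have := h.two
  by_contra ne
  refine h.not_all hD fun c => ?_
  have hn : γ * γ' * (γ + γ') ≠ 0 := mul_ne_zero (mul_ne_zero h0 h0') fun e => ne (by grind)
  obtain ⟨t, ht⟩ := MaxQ2.exists_sqrt h.two (c / (γ * γ' * (γ + γ')))
  refine ((h.turn hd hD h1 h2 hw hR (γ' * t)).add (h.turn hd hD h1 h2 hw hR' (γ * t))).congr
    ?_ ?_
  · match_scalars; grind
  · rw [eq_div_iff hn] at ht
    simp only [map_smul, B_smul_left, f.symp_B_self]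
    grind [smul_zero]

theorem not_three (h : Ctx L D) {d w w' : V} (hD : d ∈ D) (hw : f.B w w' = 1)
    (h1 : R L d w 0) (h2 : R L d w' 0) (h3 : R L d (w + w') 0) (hF : ∀ c : F, c = 0 ∨ c = 1) :
    False := by
  have := h.two
  refine h.not_all hD fun c => ?_
  rcases hF c with rfl | rfl
  · exact R_zero d
  · exact ((h1.add h2).add h3).congr (add_self h.two _) (by simp only [f.symp_B_self, hw]; ring)

/-- Case A for fields with more than two elements. -/
theorem caseA_big (h : Ctx L D) {d d' : V} (hd : f.B d d' = 1) (hD : d ∈ D) (hD' : d' ∈ D)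
    {l : F} (hl : l ≠ 0) (h3 : d' + l • d ∈ D) (c : F) : c = 0 ∨ c = 1 := by
  have h2 := h.two
  by_contra! hc
  have key : ∀ w, f.B d w = 0 → f.B d' w = 0 → w ≠ 0 → ∀ γ, R L d w γ → γ = 0 := by
    intro w w1 w2 w0 γ hR
    by_contra γ0
    have hw := h.third' hd hD hD' hl h3 w1 w2 w0
    obtain ⟨y, y1, y2, y3⟩ := h.dual hd w1 w2 w0
    have e : f.B w y = 1 := by rw [sym h2, y3]
    have a1 := fun r => h.turn e hw (f.eq_zero_symm w1) (f.eq_zero_symm y1) (h.ne0 d hD)
      (s := 1) (by rwa [one_smul]) r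
    have a2 := h.two_par hd hD w1 w2 w0 (a1 1) (a1 c) (by simpa using γ0)
      (by simp [γ0, hc.1])
    rw [mul_assoc, mul_assoc, mul_right_inj' γ0] at a2
    exact hc.2 (MaxQ2.sq_inj h2 a2).symm
  obtain ⟨w, w1, w2, w0⟩ := h.exists_perp hd
  obtain ⟨y, y1, y2, y3⟩ := h.dual hd w1 w2 w0
  obtain ⟨a, ha⟩ := h.lev d hD w w1
  obtain ⟨b, hb⟩ := h.lev d hD y y1
  have y0 : y ≠ 0 := by rintro rfl; simp at y3
  have := key _ (by simp [y1, w1]) (by simp [y2, w2]) (fun e => by
    have := congrArg (f.B y) e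
    simp [f.symp_B_self, y3] at this) _ (hb.add ha)
  rw [key w w1 w2 w0 a ha, key y y1 y2 y0 b hb, y3] at this
  simp at this

/-- Case A in dimension at least five. -/
theorem caseA_dim (h : Ctx L D) {d d' : V} (hd : f.B d d' = 1) (hD : d ∈ D) (hD' : d' ∈ D)
    {l : F} (hl : l ≠ 0) (h3 : d' + l • d ∈ D) : finrank F V = 4 := by
  have h2 := h.two
  by_contra hn
  have key : ∀ w, f.B d w = 0 → f.B d' w = 0 → w ≠ 0 → R L d w 0 := by
    intro w w1 w2 w0
    have hw := h.third' hd hD hD' hl h3 w1 w2 w0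
    obtain ⟨w', y1, y2, y3⟩ := h.dual hd w1 w2 w0
    obtain ⟨x, hx, x0⟩ := Submodule.exists_mem_ne_zero_of_ne_bot
      (p := f.perp (Submodule.span F (Set.range ![d, d', w, w']))) fun e => by
        have a1 := h.nd.finrank_perp (Submodule.span F (Set.range ![d, d', w, w']))
        have a2 := finrank_range_le_card (R := F) ![d, d', w, w']
        have a3 := h.dim
        rw [e, finrank_bot] at a1
        rw [Set.finrank, Fintype.card_fin] at a2
        omega
    rw [mem_perp_span] at hx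
    have x1 : f.B d x = 0 := hx _ ⟨0, rfl⟩
    have x2 : f.B d' x = 0 := hx _ ⟨1, rfl⟩
    have x3 : f.B w x = 0 := hx _ ⟨2, rfl⟩
    have x4 : f.B w' x = 0 := hx _ ⟨3, rfl⟩
    obtain ⟨z, z1, z2, z3⟩ := h.dual hd x1 x2 x0
    obtain ⟨c, -, g, hg, e⟩ := h.lev w hw (z + f.B w z • w') (by
      simp only [map_add, map_smul, sym h2 w' w, y3]; grind [smul_eq_mul])
    obtain ⟨c', hc'⟩ := h.lev d hD x x1
    have a := hc'.map hg
    rw [e, e] at a
    simp only [B_add_left, B_smul_left, x3, x4, z3, f.eq_zero_symm w1, f.eq_zero_symm z1,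
      f.eq_zero_symm y1, zero_smul, add_zero, mul_zero, one_smul] at a
    refine (a.add hc').congr ?_ ?_
    · rw [add_right_comm, add_self h2, zero_add]
    · simp only [B_add_left, x3, f.symp_B_self]; grind
  obtain ⟨w, w1, w2, w0⟩ := h.exists_perp hd
  obtain ⟨y, y1, y2, y3⟩ := h.dual hd w1 w2 w0
  exact h.not_three hD y3 (key y y1 y2 (by rintro rfl; simp at y3)) (key w w1 w2 w0)
    (key _ (by simp [y1, w1]) (by simp [y2, w2]) (fun e => by
      have := congrArg (f.B y) e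
      simp [f.symp_B_self, y3] at this)) (h.caseA_big hd hD hD' hl h3)

theorem caseA_all (h : Ctx L D) {d d' : V} (hd : f.B d d' = 1) (hD : d ∈ D) (hD' : d' ∈ D)
    {l : F} (hl : l ≠ 0) (h3 : d' + l • d ∈ D) (v : V) (hv : v ≠ 0) : v ∈ D := by
  have h2 := h.two
  have hF := h.caseA_big hd hD hD' hl h3
  have aux : ∀ x x' u, f.B x x' = 1 → x ∈ D → x' ∈ D → x' + (1 : F) • x ∈ D → f.B x u = 0 →
      f.B x' u = 0 → x' + u ∈ D := by
    intro x x' u a1 a2 a3 a4 a5 a6
    by_cases hu : u = 0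
    · rwa [hu, add_zero]
    obtain ⟨t, ht, a7⟩ := h.third a1 a2 a3 one_ne_zero a4 a5 a6 hu
    rwa [(hF t).resolve_left ht, one_smul] at a7
  rw [(hF l).resolve_left hl] at h3
  have e : f.B d' d = 1 := by rw [sym h2, hd]
  rcases hF (f.B d v) with a | a <;> rcases hF (f.B d' v) with b | b
  · exact h.third' hd hD hD' one_ne_zero h3 a b hv
  · have := aux d' d (d + v) e hD' hD (by rwa [one_smul, add_comm, ← one_smul F d])
      (by rw [map_add, e, b]; grind) (by simp [a, f.symp_B_self])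
    rwa [← add_assoc, add_self h2, zero_add] at this
  · have := aux d d' (d' + v) hd hD hD' h3 (by rw [map_add, hd, a]; grind)
      (by simp [b, f.symp_B_self])
    rwa [← add_assoc, add_self h2, zero_add] at this
  · rw [one_smul] at h3
    have := aux d (d' + d) (d' + d + v) (by simp [hd, f.symp_B_self]) hD h3
      (by rwa [one_smul, add_assoc, add_self h2, add_zero])
      (by simp only [map_add, hd, a, f.symp_B_self]; grind)
      (by rw [map_add, f.symp_B_self, B_add_left, a, b]; grind)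
    rwa [← add_assoc, add_self h2, zero_add] at this

/-- Case A over the field of two elements. -/
theorem caseA_card (h : Ctx L D) {d d' : V} (hd : f.B d d' = 1) (hD : d ∈ D) (hD' : d' ∈ D)
    {l : F} (hl : l ≠ 0) (h3 : d' + l • d ∈ D) (hq : Nat.card F = 2)
    (ho : ∀ x ∈ D, ∃ g ∈ L, g ⊳ d = x) : 120 ≤ Nat.card L := by
  have h2 := h.two
  have hF := h.caseA_big hd hD hD' hl h3
  have : Finite V := Module.finite_of_finite F
  have : Finite (V ≃ₗ[F] V) := Finite.of_injective _ DFunLike.coe_injective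
  have d0 := h.ne0 d hD
  have o1 : MulAction.orbit L d = {0}ᶜ := by
    ext v
    refine ⟨?_, fun hv => ?_⟩
    · rintro ⟨g, rfl⟩
      exact h.ne0 _ (h.map _ g.2 d hD)
    · obtain ⟨g, hg, e⟩ := ho v (h.caseA_all hd hD hD' hl h3 v hv)
      exact ⟨⟨g, hg⟩, e⟩
  have o2 := MulAction.index_stabilizer L d
  have o3 := Set.ncard_add_ncard_compl ({0} : Set V)
  rw [Module.natCard_eq_pow_finrank (K := F), hq, h.caseA_dim hd hD hD' hl h3,
    Set.ncard_singleton, ← o1, ← o2] at o3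
  have o4 := (MulAction.stabilizer L d).index_mul_card
  have hK : (f.Qgrp d).subgroupOf L ≤ MulAction.stabilizer L d := fun g hg =>
    ((h.nd.mem_Qgrp_iff (f.symp_Q d) d0).1 hg).1
  obtain ⟨w, w1, w2, w0⟩ := h.exists_perp hd
  obtain ⟨y, y1, y2, y3⟩ := h.dual hd w1 w2 w0
  have k1 : Nat.card (F × F) ≤ Nat.card ((f.Qgrp d).subgroupOf L) :=
    Nat.card_le_card_of_surjective (fun g => (f.B w (g.1.1 ⊳ d'), f.B y (g.1.1 ⊳ d')))
      fun ⟨s, t⟩ => by
        have a : f.B d (s • y + t • w) = 0 := by simp [y1, w1]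
        obtain ⟨c, hc⟩ := h.lev d hD _ a
        have a' := symp_eichlerCond a c
        refine ⟨⟨⟨_, (R_iff a').1 hc⟩, f.eichler_mem_Qgrp _ _ _ a'⟩, ?_⟩
        simp [eichler_apply, hd, f.eq_zero_symm w1, f.eq_zero_symm w2, f.eq_zero_symm y1,
          f.eq_zero_symm y2, y3, sym h2 y w, f.symp_B_self]
  rw [Nat.card_prod, hq] at k1
  have k2 : (f.Qgrp d).subgroupOf L ≠ MulAction.stabilizer L d := fun e => by
    have key : ∀ w, f.B d w = 0 → f.B d' w = 0 → w ≠ 0 → R L d w 0 := by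
      intro w w1 w2 w0
      obtain ⟨y, y1, y2, y3⟩ := h.dual hd w1 w2 w0
      obtain ⟨c, hc⟩ := h.lev w (h.caseA_all hd hD hD' hl h3 w w0) d (f.eq_zero_symm w1)
      rcases hF c with rfl | rfl
      · exact hc.swap
      obtain ⟨-, g, hg, e'⟩ := hc
      have a : (⟨g, hg⟩ : L) ∈ (f.Qgrp d).subgroupOf L := by
        rw [e]
        change g ⊳ d = d
        simp [e', f.eq_zero_symm w1, f.symp_B_self]
      obtain ⟨s, hs⟩ := Submodule.mem_span_singleton.1
        (((h.nd.mem_Qgrp_iff (f.symp_Q d) d0).1 a).2 y y1)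
      have := congrArg (f.B y) hs
      simp [e', y1, f.eq_zero_symm y1, y3, sym h2 y w] at this
    exact h.not_three hD y3 (key y y1 y2 (by rintro rfl; simp at y3)) (key w w1 w2 w0)
      (key _ (by simp [y1, w1]) (by simp [y2, w2]) (fun e => by
        have := congrArg (f.B y) e
        simp [f.symp_B_self, y3] at this)) hF
  obtain ⟨m, hm⟩ := Subgroup.card_dvd_of_le hK
  have k3 : 2 ≤ m := by
    by_contra hm'
    have := Nat.card_pos (α := MulAction.stabilizer L d)
    refine k2 (Subgroup.eq_of_le_of_card_ge hK ?_)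
    interval_cases m <;> omega
  have : (MulAction.stabilizer L d).index = 15 := by omega
  rw [← o4, this, hm]
  nlinarith

end Ctx

end CA.MaxQ3
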