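import Cfsg.Agent.Lib.Lin.MaxQ3

/-!
The invariant quadratic form of an irreducible subgroup of a symplectic group in characteristic
two whose Eichler centres never give three points of a hyperbolic line.
-/

set_option autoImplicit false
set_option linter.unusedSectionVars false

namespace CA.MaxQ3

open Module CA.CForm CA.CForm.Form

variable {F : Type*} [Field F] {V : Type*} [AddCommGroup V] [Module F V]
  {f : Form (Kind.symp F) V} {L : Subgroup f.Isom}

local notation:75 g:76 " ⊳ " v:75 => (Subtype.val g) v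

theorem hua [Finite F] (h2 : (2 : F) = 0) {a b : F → F} (a1 : ∀ s t, a (s + t) = a s + a t)
    (a2 : Function.Injective a) (b1 : ∀ s t, b (s + t) = b s + b t) (b2 : Function.Injective b)
    (r : ∀ t, b t ≠ 0 → a (t / b t) = 1 / b t) (t : F) : b t = t * t * b 1 := by
  have b3 := Finite.injective_iff_surjective.1 b2
  obtain ⟨κ, hκ⟩ := b3 1
  have b0 : b 0 = 0 := by simpa using b1 0 0
  have key : ∀ γ, b (γ * κ) = γ * γ := fun γ => by
    by_cases h0 : γ = 0
    · simp [h0, b0]
    by_cases h1 : γ = 1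
    · simp [h1, hκ]
    have h1' : γ + 1 ≠ 0 := fun e => h1 (by grind)
    obtain ⟨t, ht⟩ := b3 γ
    obtain ⟨s, hs⟩ := b3 (γ * γ)
    have e1 := r t (by rwa [ht])
    have e2 := r (t + κ) (by rwa [b1, ht, hκ])
    have e3 := r (s + t) (by rw [b1, ht, hs, ← mul_add_one]; exact mul_ne_zero h0 h1')
    rw [ht] at e1
    rw [b1, ht, hκ] at e2
    rw [b1, ht, hs, ← mul_add_one] at e3
    have e4 : t / γ + (t + κ) / (γ + 1) = (s + t) / (γ * (γ + 1)) := a2 (by
      rw [a1, e1, e2, e3]; field_simp; grind)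
    rw [← hs]
    congr 1
    field_simp at e4
    grind
  have κ0 : κ ≠ 0 := fun e => by rw [e, b0] at hκ; exact zero_ne_one hκ
  have e1 := key (t / κ)
  have e2 := key (1 / κ)
  rw [div_mul_cancel₀ _ κ0] at e1 e2
  rw [e1, e2]; ring

variable [FiniteDimensional F V] [Finite F] {D : Set V}

/-- No hyperbolic line carries three centres. -/
def NoThird (f : Form (Kind.symp F) V) (D : Set V) : Prop :=
  ∀ d ∈ D, ∀ d' ∈ D, f.B d d' = 1 → ∀ l : F, d' + l • d ∈ D → l = 0

namespace Ctx

theorem uniq (h : Ctx L D) (hB : NoThird f D) {d w : V} (hD : d ∈ D) {c c' : F}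
    (h1 : R L d w c) (h2 : R L d w c') : c = c' := by
  have := h.two
  obtain ⟨d', hD', hd⟩ := h.partner hD
  have a := h.act ((h1.add h2).congr (add_self h.two w) rfl) hD'
  simp only [smul_zero, add_zero, B_zero_left, zero_add, hd, f.symp_B_self, mul_one] at a
  have := hB d hD d' hD' hd _ a
  grind

theorem par (h : Ctx L D) (hB : NoThird f D) {d d' w : V} (hd : f.B d d' = 1) (hD : d ∈ D)
    (hD' : d' ∈ D) {c α : F} (hR : R L d w c) (hx : d' + w + α • d ∈ D) :
    α = f.B w d' + c := by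
  have := h.two
  have a := h.act hR hD'
  rw [hd, one_smul, mul_one] at a
  have := hB d hD _ a (by simp [hd, hR.1, f.symp_B_self]) (α - (f.B w d' + c))
    (by convert hx using 1; module)
  grind

theorem inj (h : Ctx L D) (hB : NoThird f D) {d d' u : V} (hd : f.B d d' = 1) (hD : d ∈ D)
    (hD' : d' ∈ D) (h1 : f.B d u = 0) (h2 : f.B d' u = 0) (u0 : u ≠ 0) (hu : u ∉ D) {b : F → F}
    (hb : ∀ t : F, R L d (t • u) (b t)) :
    (∀ s t, b (s + t) = b s + b t) ∧ Function.Injective b := by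
  have := h.two
  have b1 : ∀ s t, b (s + t) = b s + b t := fun s t => h.uniq hB hD (hb _)
    (((hb s).add (hb t)).congr (add_smul _ _ _).symm (by simp [f.symp_B_self]))
  refine ⟨b1, fun s t e => by_contra fun ne => hu ?_⟩
  have n0 : s + t ≠ 0 := fun e' => ne (by grind)
  have a := h.act (hb (s + t)) hD'
  rw [b1, e, show b t + b t = 0 by grind] at a
  simp only [hd, B_smul_left, f.eq_zero_symm h2, mul_zero, zero_mul, add_zero, zero_smul,
    one_smul] at a
  have := h.smul _ (inv_ne_zero n0) _ (h.drop hd hD' (by simp [h1]) (by simp [h2])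
    (smul_ne_zero n0 u0) a)
  rwa [inv_smul_smul₀ n0] at this

theorem quad (h : Ctx L D) (hB : NoThird f D) {d w : V} (hD : d ∈ D) {c : F}
    (hR : R L d w c) (t : F) : R L d (t • w) (t * t * c) := by
  have h2 := h.two
  obtain ⟨d', hD', hd⟩ := h.partner hD
  have hd' : f.B d' d = 1 := by rw [sym h2, hd]
  obtain ⟨u, h1, h1', hu, e⟩ : ∃ u, f.B d u = 0 ∧ f.B d' u = 0 ∧ R L d u c ∧
      t • u + (t * f.B d' w) • d = t • w := by
    refine ⟨w + f.B d' w • d, by simp [hR.1, f.symp_B_self], ?_, hR.shift h2 _, ?_⟩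
    · simp only [map_add, map_smul, hd']; grind [smul_eq_mul]
    · match_scalars <;> grind
  rw [← e]
  refine R.shift h2 ?_ _
  by_cases u0 : u = 0
  · rw [u0] at hu ⊢
    rw [h.uniq hB hD hu (R_zero d), smul_zero, mul_zero]
    exact R_zero d
  choose b hb using fun t : F => h.lev d hD (t • u) (by simp [h1])
  choose a ha using fun t : F => h.lev d' hD' (t • u) (by simp [h1'])
  have c1 : c = b 1 := h.uniq hB hD hu ((hb 1).congr (one_smul _ _) rfl)
  refine (hb t).congr rfl ?_
  rw [c1]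
  by_cases uD : u ∈ D
  · have key : ∀ s, b s = 0 := fun s => by
      obtain ⟨γ, hγ⟩ := h.lev u uD (s • d) (by simp [f.eq_zero_symm h1])
      have := h.par hB hd hD hD' (hb s) (α := 0) (by
        convert h.act hγ hD' using 1
        simp [f.eq_zero_symm h1', hd])
      simpa [f.eq_zero_symm h1'] using this.symm
    simp [key]
  obtain ⟨b1, b2⟩ := h.inj hB hd hD hD' h1 h1' u0 uD hb
  obtain ⟨a1, a2⟩ := h.inj hB hd' hD' hD h1' h1 u0 uD ha
  refine hua h2 a1 a2 b1 b2 (fun s hs => ?_) t
  have := h.par hB hd' hD' hD (ha (s / b s)) (α := 1 / b s) (by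
    convert h.smul _ (inv_ne_zero hs) _ (h.act (hb s) hD') using 1
    simp only [hd, B_smul_left, f.eq_zero_symm h1']
    match_scalars <;> field_simp <;> ring)
  simpa [f.eq_zero_symm h1] using this.symm

theorem caseB (h : Ctx L D) (hB : NoThird f D) {d : V} (hD : d ∈ D) :
    ∃ φ : Form (Kind.orth F) V, φ.B = f.B ∧ (∀ g ∈ L, ∀ v, φ.Q (g ⊳ v) = φ.Q v) ∧
      ∀ w, f.B d w = 0 → R L d w (φ.Q w) := by
  have h2 := h.two
  obtain ⟨d', hD', hd⟩ := h.partner hD
  have hd' : f.B d' d = 1 := by rw [sym h2, hd]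
  choose c hc using fun v => h.lev d hD (v + f.B d v • d') (by
    simp only [map_add, map_smul, hd]; grind [smul_eq_mul])
  let φ : Form (Kind.orth F) V := ofFun (fun v => c v + f.B d v * f.B d' v) f.B
    (fun x y => by
      rw [h.uniq hB hD (hc (x + y)) (((hc x).add (hc y)).congr (by rw [map_add]; module) rfl)]
      simp only [map_add, map_smul, B_add_left, B_smul_left, f.symp_B_self, Kind.symp_σ,
        sym h2 d' x, smul_eq_mul]
      grind)
    (fun a x => by
      rw [h.uniq hB hD (hc (a • x)) ((h.quad hB hD (hc x) a).congr (by rw [map_smul]; module) rfl)]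
      simp only [map_smul, smul_eq_mul]
      ring)
  have hQ : ∀ v, φ.Q v = c v + f.B d v * f.B d' v := fun _ => rfl
  have hadd : ∀ x y, φ.Q (x + y) = φ.Q x + φ.Q y + f.B x y := φ.Q_add
  have hsm : ∀ (a : F) x, φ.Q (a • x) = a * a * φ.Q x := φ.Q_smul
  have hR : ∀ w, f.B d w = 0 → R L d w (φ.Q w) := fun w hw =>
    (hc w).congr (by simp [hw]) (by simp [hQ, hw])
  have s1 : ∀ x, f.B d x = 1 → (x ∈ D ↔ φ.Q x = 0) := fun x hx => by
    have a := hc x
    rw [hx, one_smul] at a
    have e : d' + (x + d') = x := by rw [add_comm x, ← add_assoc, add_self h2, zero_add]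
    have e' : f.B (x + d') d' = f.B d' x := by simp [f.symp_B_self, sym h2 d' x]
    rw [hQ, hx]
    refine ⟨fun hxD => ?_, fun h0 => ?_⟩
    · have := h.par hB hd hD hD' a (α := 0) (by rwa [e, zero_smul, add_zero])
      grind
    · have := h.act a hD'
      rwa [hd, one_smul, e, e', show f.B d' x + c x * 1 = 0 by grind, zero_smul, add_zero] at this
  have s1' : ∀ x, f.B d x ≠ 0 → (x ∈ D ↔ φ.Q x = 0) := fun x hx => by
    have a := s1 ((f.B d x)⁻¹ • x) (by simp [hx])
    rw [hsm, mul_eq_zero_iff_left (by simpa using hx)] at a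
    refine ⟨fun hxD => a.1 (h.smul _ (inv_ne_zero hx) _ hxD), fun h0 => ?_⟩
    simpa [hx] using h.smul _ hx _ (a.2 h0)
  have sp : ∀ l : Dual F V, (∀ y ∈ D, f.B d y = 1 → l y = 0) → ∀ v, l v = 0 := fun l hl v => by
    have l1 := hl d' hD' hd
    have l2 : ∀ w, f.B d w = 0 → l w = (f.B w d' + φ.Q w) * l d := fun w hw => by
      have := hl _ (h.act (hR w hw) hD') (by simp [hd, hw, f.symp_B_self])
      simp only [hd, map_add, map_smul, l1, smul_eq_mul] at this
      grind
    obtain ⟨w, w1, w2, w0⟩ := h.exists_perp hd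
    obtain ⟨y, y1, y2, y3⟩ := h.dual hd w1 w2 w0
    have l3 := l2 (y + w) (by simp [y1, w1])
    rw [map_add, l2 y y1, l2 w w1, hadd, B_add_left, y3] at l3
    have l4 : l d = 0 := by grind
    have l5 := l2 (v + f.B d v • d') (hc v).1
    simpa [l1, l4] using l5
  have s2 : ∀ x ∈ D, φ.Q x = 0 := fun x hx => by
    by_cases h0 : f.B d x = 0
    swap
    · exact (s1' x h0).1 hx
    by_contra q0
    refine h.ne0 x hx (h.nd x (sp (f.B x) fun y hy y1 => by_contra fun y2 => ?_))
    have a := (s1 (y + (f.B x y / φ.Q x) • x) (by simp [y1, h0])).2 (by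
      rw [hadd, hsm, (s1 y y1).1 hy, map_smul, sym h2 x y, smul_eq_mul]
      field_simp
      grind)
    have := hB x hx _ (h.smul _ (inv_ne_zero y2) y hy) (by simp [y2]) (φ.Q x)⁻¹ (by
      convert h.smul _ (inv_ne_zero y2) _ a using 1
      match_scalars <;> field_simp)
    exact inv_ne_zero q0 this
  refine ⟨φ, rfl, fun g hg => ?_, hR⟩
  choose r hr using MaxQ2.exists_sqrt h2
  let l : Dual F V :=
    { toFun v := r (φ.Q (g ⊳ v) + φ.Q v)
      map_add' u v := MaxQ2.sq_inj h2 <| by
        have a1 := hr (φ.Q (g ⊳ u) + φ.Q u)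
        have a2 := hr (φ.Q (g ⊳ v) + φ.Q v)
        rw [hr, map_add, hadd, hadd, B_coe_map]
        grind
      map_smul' c v := MaxQ2.sq_inj h2 <| by
        have a1 := hr (φ.Q (g ⊳ v) + φ.Q v)
        rw [hr, map_smul, hsm, hsm, RingHom.id_apply, smul_eq_mul]
        grind }
  intro v
  have a1 : r _ = 0 := sp l (fun y hy _ => MaxQ2.sq_inj h2 (by
    change r _ * r _ = _
    rw [hr, s2 y hy, s2 _ (h.map g hg y hy)]; ring)) v
  have a2 := hr (φ.Q (g ⊳ v) + φ.Q v)
  rw [a1] at a2
  grind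

end Ctx

end CA.MaxQ3
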