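import Cfsg.Agent.Lib.Lin.MaxQ4

/-!
Irreducible overgroups in a symplectic group of characteristic two of a large two-subgroup of a
point stabiliser without transvections.
-/

set_option autoImplicit false
set_option linter.unusedSectionVars false

namespace CA.MaxQ3

open Module CA.CForm CA.CForm.Form

variable {F : Type*} [Field F] {V : Type*} [AddCommGroup V] [Module F V]
  [FiniteDimensional F V] [Finite F]

local notation:75 g:76 " ⊳ " v:75 => (Subtype.val g) v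

theorem even_of_mem_Eich {φ : Form (Kind.orth F) V} (hφ : φ.Nondeg) (h3 : 3 ≤ finrank F V)
    {g : φ.Isom} (hg : g ∈ φ.Eich) : Even (finrank F (φ.commSub g)) := by
  let j : φ.Isom →* (φ.prod φ).Isom := (φ.prodHom φ).comp (MonoidHom.inl _ _)
  have hj : ∀ g x, j g ⊳ x = (g ⊳ x.1, x.2) := fun _ _ => rfl
  have h1 : φ.Eich ≤ (φ.prod φ).Eich.comap j := φ.Eich_le fun x w c h => by
    have h' : (φ.prod φ).EichlerCond (x, 0) (w, 0) c :=
      ⟨by simp [h.Q_p], by simp [h.B_pw], by simpa using h.π_c⟩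
    rw [Subgroup.mem_comap, (φ.prod φ).isom_ext (g := j _) (h := (φ.prod φ).eichler _ _ _ h')
      fun v => by rw [hj, eichler_apply, eichler_apply]; ext <;> simp]
    exact eichler_mem_Eich _ _ _ _ _
  have hG : (φ.prod φ).Good := good_of_five_le (by rw [finrank_prod]; omega)
  have h4 := ((hφ.prod hφ).dick_eq_one_iff hG _).1 ((hφ.prod hφ).dick_of_mem_Eich hG (h1 hg))
  have h5 : (φ.prod φ).commSub (j g) = (φ.commSub g).map (LinearMap.inl F V V) := by
    ext v
    constructor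
    · rintro ⟨x, rfl⟩
      exact ⟨_, ⟨x.1, rfl⟩, by ext <;> simp [hj]⟩
    · rintro ⟨_, ⟨x, rfl⟩, rfl⟩
      exact ⟨(x, 0), by ext <;> simp [hj]⟩
  rwa [h5, ← (Submodule.equivMapOfInjective _ LinearMap.inl_injective _).finrank_eq] at h4

theorem over_Eich (h2 : (2 : F) = 0) {φ : Form (Kind.orth F) V} (hφ : φ.Nondeg)
    (h3 : 3 ≤ finrank F V) {x y : V} (h : φ.IsHyp x y) {G : Subgroup φ.Isom} (hE : φ.Eich ≤ G) :
    G = ⊤ ∨ ∀ g, g ∈ G ↔ Even (finrank F (φ.commSub g)) := by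
  let π := QuotientGroup.mk' φ.Eich
  let r := φ.refl (x + (1 : F) • y)
  have hr : π r * π r = 1 := by rw [← map_mul, refl_mul_self, map_one]
  let T : Subgroup (φ.Isom ⧸ φ.Eich) :=
    { carrier := {1, π r}
      mul_mem' := by rintro a b (rfl | rfl) (rfl | rfl) <;> simp [hr]
      one_mem' := .inl rfl
      inv_mem' := by
        rintro a (rfl | rfl)
        · simp
        · exact .inr (inv_eq_of_mul_eq_one_right hr) }
  have h1 : T.comap π = ⊤ := h.eq_top_of_refl_plane hφ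
    (fun e he => .inl ((QuotientGroup.eq_one_iff e).2 he)) fun a ha => .inr <| by
      obtain ⟨t, rfl⟩ := MaxQ2.exists_sqrt h2 a
      refine (QuotientGroup.eq.2 ?_).symm
      rw [refl_inv, h.torus_eq_refl_mul one_ne_zero ha]
      convert h.torus_mul_self_mem_Eich hφ h3 (Units.mk0 t (left_ne_zero_of_mul ha)) using 2
      ext; simp
  have key : ∀ g, g ∈ φ.Eich ∨ g * r ∈ φ.Eich := fun g => by
    rcases (h1 ▸ Subgroup.mem_top g : g ∈ T.comap π) with e | e
    · exact .inl ((QuotientGroup.eq_one_iff g).1 e)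
    · refine .inr ((QuotientGroup.eq_one_iff _).1 ?_)
      change π (g * r) = 1
      rw [map_mul, show π g = π r from e, hr]
  by_cases hG : r ∈ G
  · exact .inl (eq_top_iff.2 fun g _ => (key g).elim (fun e => hE e)
      fun e => (G.mul_mem_cancel_right hG).1 (hE e))
  refine .inr fun g => ⟨fun hg => even_of_mem_Eich hφ h3 ((key g).resolve_right fun e =>
    hG ((G.mul_mem_cancel_left hg).1 (hE e))), fun hg => hE ((key g).resolve_right fun e => ?_)⟩
  obtain ⟨p, hp⟩ := even_of_mem_Eich hφ h3 e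
  obtain ⟨q, hq⟩ := hg
  have hp' : finrank F (φ.commSub (g * φ.refl (x + (1 : F) • y))) = p + p := hp
  rcases hφ.finrank_commSub_mul_refl g (v := x + (1 : F) • y)
    (by rw [h.Q_add_smul]; exact one_ne_zero) with e | e <;> omega

variable {f : Form (Kind.symp F) V} {L : Subgroup f.Isom}

theorem le_Qgrp (hf : f.Nondeg) (h2 : (2 : F) = 0) (hn : 2 ≤ finrank F V) {a : V} (ha : a ≠ 0)
    {P : Subgroup f.Isom} (hP : IsPGroup 2 P) (h1 : ∀ p ∈ P, p ⊳ a = a)
    (hN : ∀ g : f.Isom, g ⊳ a = a → ∀ p ∈ P, g⁻¹ * p * g ∈ P) : P ≤ f.Qgrp a := by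
  have : Finite (V ⧸ (F ∙ a)) := Module.finite_of_finite F
  have hm : ∀ p : P, (F ∙ a) ≤ (F ∙ a).comap (p.1.1 : V →ₗ[F] V) := fun p => by
    rw [Submodule.span_singleton_le_iff_mem, Submodule.mem_comap, LinearEquiv.coe_coe, h1 _ p.2]
    exact Submodule.mem_span_singleton_self a
  letI : MulAction P (V ⧸ (F ∙ a)) :=
    { smul p := (F ∙ a).mapQ (F ∙ a) _ (hm p)
      one_smul v := by induction v using Submodule.Quotient.induction_on; rfl
      mul_smul p q v := by induction v using Submodule.Quotient.induction_on; rfl }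
  have hc : 2 ∣ Nat.card (V ⧸ (F ∙ a)) := by
    have e := (F ∙ a).finrank_quotient_add_finrank
    rw [finrank_span_singleton ha] at e
    rw [Module.natCard_eq_pow_finrank (K := F)]
    refine dvd_pow ?_ (by omega)
    have := addOrderOf_dvd_natCard (1 : F)
    rwa [addOrderOf_eq_prime (p := 2) (by simpa using h2) one_ne_zero] at this
  obtain ⟨b, hb, b0⟩ := hP.exists_fixed_point_of_prime_dvd_card_of_fixed_point (V ⧸ (F ∙ a)) hc
    (a := 0) fun p => map_zero ((F ∙ a).mapQ (F ∙ a) _ (hm p))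
  obtain ⟨v, rfl⟩ := Submodule.Quotient.mk_surjective _ b
  let M : Submodule F V :=
    { carrier := {v | ∀ p ∈ P, p ⊳ v - v ∈ F ∙ a}
      add_mem' := fun {u v} hu hv p hp => by
        convert (F ∙ a).add_mem (hu p hp) (hv p hp) using 1
        rw [map_add]; abel
      zero_mem' := fun p _ => by simp
      smul_mem' := fun c v hv p hp => by
        convert (F ∙ a).smul_mem c (hv p hp) using 1
        rw [map_smul, smul_sub] }
  have hv : v ∈ M := fun p hp => (Submodule.Quotient.eq _).1 (hb ⟨p, hp⟩)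
  have hM : ∀ g : f.Isom, g ⊳ a = a → g ⊳ v ∈ M := fun g hg p hp => by
    obtain ⟨s, hs⟩ := Submodule.mem_span_singleton.1 (hv _ (hN g hg p hp))
    have := congrArg (fun x => g ⊳ x) hs
    simp only [map_smul, map_sub, isom_mul_apply, hg, isom_apply_inv_apply] at this
    exact Submodule.mem_span_singleton.2 ⟨s, this⟩
  have k1 : ∀ y, f.B a y = 0 → f.B y v ≠ 0 → y ∈ M := fun y y1 y2 => by
    have := M.smul_mem (f.B y v)⁻¹ (M.sub_mem (hM (f.eichler y 0 1 (symp_eichlerCond (map_zero _) 1))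
      (by rw [eichler_zero_apply, f.eq_zero_symm y1]; simp)) hv)
    simpa [eichler_zero_apply, y2] using this
  obtain ⟨z, z1, z2⟩ : ∃ z, f.B a z = 0 ∧ f.B z v ≠ 0 := by
    by_contra! hc
    refine b0 ((Submodule.Quotient.mk_eq_zero _).2 ?_).symm
    rw [← hf.perp_perp (F ∙ a)]
    exact fun z hz => hc z (f.mem_perp_span_singleton.1 hz)
  refine fun p hp => (hf.mem_Qgrp_iff (f.symp_Q a) ha).2 ⟨h1 p hp, fun y hy => ?_⟩
  refine (?_ : y ∈ M) p hp
  by_cases y0 : f.B y v = 0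
  · simpa using M.sub_mem (k1 (y + z) (by simp [hy, z1]) (by simpa [y0] using z2)) (k1 z z1 z2)
  · exact k1 y hy y0

theorem lev_of_card (hf : f.Nondeg) (h2 : (2 : F) = 0) {a : V} (ha : a ≠ 0)
    (hL : L ≤ f.Qgrp a) (hc : Nat.card L = Nat.card F ^ (finrank F V - 2))
    (hr : ∀ g ∈ L, finrank F (f.commSub g) ≠ 1) (w : V) (hw : f.B a w = 0) : ∃ c, R L a w c := by
  have : Finite V := Module.finite_of_finite F
  obtain ⟨a', h⟩ := hf.exists_isHyp (f.symp_Q a) ha
  have e1 : f.B a' a = 1 := by rw [sym h2, h.B_xy]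
  have pr : ∀ w, f.B a w = 0 → w + f.B a' w • a ∈ f.perp (Submodule.span F {a, a'}) :=
    fun w hw => by
      rw [mem_perp_span_pair]
      simp only [map_add, map_smul, hw, f.symp_B_self, e1]
      grind [smul_eq_mul]
  have uq : ∀ w c c', R L a w c → R L a w c' → c = c' := fun w c c' h1 h1' => by
    obtain ⟨-, g, hg, e⟩ := (h1.add h1').congr (add_self h2 w) rfl
    by_contra ne
    refine hr g hg ?_
    suffices f.commSub g = F ∙ a by rw [this, finrank_span_singleton ha]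
    refine le_antisymm ?_ ((Submodule.span_singleton_le_iff_mem _ _).2 ⟨(c + c')⁻¹ • a', ?_⟩)
    · rintro _ ⟨x, rfl⟩
      exact Submodule.mem_span_singleton.2 ⟨_, by simp [e]; rfl⟩
    · have : c + c' ≠ 0 := fun e => ne (by grind)
      simp [e, h.B_xy, f.symp_B_self, smul_smul, this]
  have ex : ∀ g : L, ∃ u : f.perp (Submodule.span F {a, a'}), ∃ c, f.B a u = 0 ∧
      ∀ x, g.1 ⊳ x = x + f.B a x • u.1 + (f.B u x + c * f.B a x) • a := fun g => by
    obtain ⟨w, c, hc, e⟩ := (mem_Qgrp (f.symp_Q a)).1 (hL g.2)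
    refine ⟨⟨_, pr w hc.B_pw⟩, c, by simp [hc.B_pw, f.symp_B_self], fun x => ?_⟩
    rw [e, eichler_apply, B_add_left, B_smul_left, Kind.symp_σ, Kind.symp_ε]
    match_scalars <;> grind
  choose θ c h0 hθ using ex
  have inj : Function.Injective θ := fun g g' e => by
    have := uq (θ g') (c g) (c g') ⟨h0 g', _, g.2, e ▸ hθ g⟩ ⟨h0 g', _, g'.2, hθ g'⟩
    exact Subtype.ext (f.isom_ext fun x => by rw [hθ, hθ, e, this])
  obtain ⟨g, hg⟩ := ((Nat.bijective_iff_injective_and_card θ).2 ⟨inj, by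
    rw [hc, ← h.finrank_perp, Nat.add_sub_cancel, ← Module.natCard_eq_pow_finrank]⟩).2
      ⟨_, pr w hw⟩
  refine ⟨c g, (R.shift h2 ⟨h0 g, _, g.2, hθ g⟩ (f.B a' w)).congr ?_ rfl⟩
  rw [hg, add_assoc, add_self h2, add_zero]

theorem main (hf : f.Nondeg) (h2 : (2 : F) = 0) (hn : 4 ≤ finrank F V)
    (hi : ∀ W : Submodule F V, (∀ g ∈ L, ∀ w ∈ W, g ⊳ w ∈ W) → W = ⊥ ∨ W = ⊤) {a : V}
    (ha : a ≠ 0) (hl : ∀ w, f.B a w = 0 → ∃ c, R L a w c) :
    L = ⊤ ∨ (∃ φ : Form (Kind.orth F) V, φ.B = f.B ∧ (∀ g ∈ L, g.1 ∈ φ.Isom) ∧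
      ((∀ g : φ.Isom, ∃ e ∈ L, e.1 = g.1) ∨
        ∀ g : φ.Isom, (∃ e ∈ L, e.1 = g.1) ↔ Even (finrank F (φ.commSub g)))) ∨
      (Nat.card F = 2 ∧ finrank F V = 4 ∧ 120 ≤ Nat.card L) := by
  refine or_iff_not_imp_left.2 fun ne => ?_
  have h : Ctx L {x | ∃ s : F, s ≠ 0 ∧ ∃ g ∈ L, x = s • g ⊳ a} :=
    { nd := hf
      two := h2
      dim := hn
      ne := ne
      irr d hd := by
        by_contra! hc
        let W : Submodule F V := ⨅ g : L, LinearMap.ker (f.B d ∘ₗ (g.1.1 : V →ₗ[F] V))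
        have hW : ∀ v, v ∈ W ↔ ∀ g ∈ L, f.B d (g ⊳ v) = 0 := fun v => by simp [W]
        rcases hi W (fun g hg w hw => (hW _).2 fun e he =>
          (hW w).1 hw _ (L.mul_mem he hg)) with e | e
        · exact hd ((Submodule.mem_bot F).1 (e ▸ (hW d).2 hc))
        · exact hd (hf d fun v => (hW v).1 (e ▸ Submodule.mem_top) 1 L.one_mem)
      map := by
        rintro g hg _ ⟨s, hs, e, he, rfl⟩
        exact ⟨s, hs, g * e, L.mul_mem hg he, by rw [map_smul, isom_mul_apply]⟩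
      smul := by
        rintro t ht _ ⟨s, hs, e, he, rfl⟩
        exact ⟨t * s, mul_ne_zero ht hs, e, he, smul_smul _ _ _⟩
      ne0 := by
        rintro _ ⟨s, hs, e, he, rfl⟩
        exact smul_ne_zero hs (by simpa using ha)
      lev := by
        rintro _ ⟨s, hs, e, he, rfl⟩ w hw
        obtain ⟨u, rfl⟩ := e.1.surjective w
        rw [B_smul_left, B_coe_map, Kind.symp_σ] at hw
        obtain ⟨c, hc⟩ := hl (s • u) (by simpa using hw)
        refine ⟨c / (s * s), ((hc.map he).congr (map_smul _ _ _) ?_).smul⟩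
        field_simp }
  have aD : a ∈ {x | ∃ s : F, s ≠ 0 ∧ ∃ g ∈ L, x = s • g ⊳ a} :=
    ⟨1, one_ne_zero, 1, L.one_mem, (one_smul _ _).symm⟩
  by_cases hB : NoThird f {x | ∃ s : F, s ≠ 0 ∧ ∃ g ∈ L, x = s • g ⊳ a}
  · left
    obtain ⟨φ, e, h1, h3⟩ := h.caseB hB aD
    have h4 : ∀ g ∈ L, g.1 ∈ φ.Isom := fun g hg => ⟨fun x y => by rw [e, B_coe_map], h1 g hg⟩
    have hφ : φ.Nondeg := fun x hx => hf x (e ▸ hx)
    have qa : φ.Q a = 0 := h.uniq hB aD (h3 a (f.symp_B_self a))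
      (((R_zero a).shift h2 1).congr (by simp) rfl)
    obtain ⟨y, hy⟩ := hφ.exists_isHyp qa ha
    obtain ⟨g, hg, g1⟩ := h.irr a ha
    have hE : φ.Eich ≤ (L.map f.Isom.subtype).subgroupOf φ.Isom :=
      hφ.Eich_le_of_Qgrp' (.inl (by omega)) qa (φ.Qgrp_le fun w c hc => by
        obtain ⟨-, t, ht, e'⟩ := h3 w (e ▸ hc.B_pw)
        refine ⟨t, ht, LinearEquiv.ext fun x => (e' x).trans ?_⟩
        change _ = φ.eichler a w c hc ⊳ x
        rw [eichler_apply, ← hc.π_c, e, Kind.orth_π, Kind.orth_ε]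
        match_scalars <;> grind) (g := ⟨g.1, h4 g hg⟩) ⟨g, hg, rfl⟩ (e ▸ g1)
    rcases over_Eich h2 hφ (by omega) hy hE with e' | e'
    · exact ⟨φ, e, h4, .inl fun g =>
        (e' ▸ Subgroup.mem_top g : g ∈ (L.map f.Isom.subtype).subgroupOf φ.Isom)⟩
    · exact ⟨φ, e, h4, .inr e'⟩
  · right
    simp only [NoThird, not_forall] at hB
    obtain ⟨d, hD, d', hD', hd, l, h3, hl⟩ := hB
    have hF := h.caseA_big hd hD hD' hl h3
    have hq : Nat.card F = 2 := Nat.card_eq_two_iff.2 ⟨0, 1, zero_ne_one,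
      Set.eq_univ_of_forall hF⟩
    refine ⟨hq, h.caseA_dim hd hD hD' hl h3, h.caseA_card hd hD hD' hl h3 hq ?_⟩
    obtain ⟨s, hs, g, hg, rfl⟩ := hD
    rintro _ ⟨t, ht, e, he, rfl⟩
    refine ⟨e * g⁻¹, L.mul_mem he (L.inv_mem hg), ?_⟩
    rw [(hF s).resolve_left hs, (hF t).resolve_left ht, one_smul, one_smul, isom_mul_apply,
      isom_inv_apply_apply]

end CA.MaxQ3
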