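/-
Pairs of subgroups `SU₂(q)` of `SU₃(q)` with commuting tori are standard pairs.
-/
import Cfsg.Agent.Lib.Lin.Phan0
import Cfsg.Agent.Lib.Lin.CFormOrd
import Cfsg.Agent.Lib.Lin.SLnGen
import Cfsg.Agent.S0281

set_option autoImplicit false
set_option linter.unusedSectionVars false

namespace CA.PhanB

open Cfsg CA.CForm CA.CForm.Form CA.Phan Module Matrix

variable {F : Type*} [Field F] {V : Type*} [AddCommGroup V] [Module F V] [FiniteDimensional F V]

theorem fix2 (h3 : finrank F V = 3) {g : V ≃ₗ[F] V} (hd : LinearEquiv.det g = 1) {m : ℕ} (hm : (m : F) ≠ 0) (hg : g ^ m = 1) (g1 : g ≠ 1) {p u : V} (p0 : p ≠ 0)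
    (h1 : g p = p) (h2 : g u = u) : ∃ c : F, c • p = u := by
  by_contra! H
  obtain ⟨w, hw⟩ := exists_linearIndependent_cons_of_lt_finrank ((LinearIndependent.pair_iff' p0).2 H) (by omega)
  let b := basisOfLinearIndependentOfCardEqFinrank hw (by simp [h3])
  have b1 : b 1 = p := by simp [b]
  have b2 : b 2 = u := by simp [b]
  have e : b.repr (g (b 0)) 0 = 1 := by
    have := congrArg Units.val hd
    rw [LinearEquiv.coe_det, ← LinearMap.det_toMatrix b, det_fin_three] at this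
    simp only [LinearMap.toMatrix_apply, LinearEquiv.coe_coe, show g (b 1) = b 1 by rw [b1, h1], show g (b 2) = b 2 by rw [b2, h2]] at this
    simpa using this
  obtain ⟨y, y1, y2⟩ : ∃ y, g (b 0) = b 0 + y ∧ g y = y := by
    refine ⟨b.repr (g (b 0)) 1 • p + b.repr (g (b 0)) 2 • u, ?_, by simp [h1, h2]⟩
    conv_lhs => rw [← b.sum_repr (g (b 0)), Fin.sum_univ_three, e, b1, b2, one_smul, add_assoc]
  have k : ∀ k : ℕ, (g ^ k) (b 0) = b 0 + (k : F) • y := fun k => by
    induction k with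
    | zero => simp
    | succ k ih => rw [pow_succ', LinearEquiv.mul_apply, ih, map_add, map_smul, y1, y2]; push_cast; module
  have y0 : y = 0 := by simpa [hg, hm] using k m
  refine g1 (b.ext' fun i => ?_)
  fin_cases i <;> simp [y1, y0, b1, b2, h1, h2]

variable {s : F →+* F} {hs : ∀ a, s (s a) = a} {f : Form (Kind.herm s hs) V} (hf : f.Nondeg) (h3 : finrank F V = 3)
include hf h3

theorem ts2 {x y : V} (hx : f.B x x = 0) (hy : f.B y y = 0) (h : f.B x y = 0) (x0 : x ≠ 0) : ∃ c : F, c • x = y := by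
  by_contra! H
  have hi := finrank_span_eq_card ((LinearIndependent.pair_iff' x0).2 H)
  have hW : f.TS (Submodule.span F (Set.range ![x, y])) := ts_span (by simp [← herm_B_self, hx, hy]) (by simp [hx, hy, h, f.eq_zero_symm h])
  have h1 := hf.finrank_perp (Submodule.span F (Set.range ![x, y]))
  have h2 := Submodule.finrank_mono hW.le_perp
  simp only [Fintype.card_fin] at hi
  omega

theorem invol (h2 : (2 : F) = 0) {t : f.Isom} (t1 : t ≠ 1) (ht : t * t = 1) :
    ∃ v ≠ 0, f.B v v = 0 ∧ ∀ r : f.Isom, r * r = 1 → r * t = t * r → ∀ x, ∃ c : F, c • v = r.1 x - x := by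
  have a0 : ∀ r : f.Isom, r * r = 1 → ∀ y, r.1 (r.1 y - y) = r.1 y - y := fun r hr y => by
    rw [map_sub, ← isom_mul_apply, hr, isom_one_apply, ← sub_eq_zero, show y - r.1 y - (r.1 y - y) = (2 : F) • (y - r.1 y) by module, h2, zero_smul]
  have a1 : ∀ r : f.Isom, ∀ v, r.1 v = v → ∀ x, f.B v (r.1 x - x) = 0 := fun r v hv x => by rw [map_sub, ← f.B_coe_map r v x, hv, sub_self]
  obtain ⟨y, hy⟩ : ∃ y, t.1 y - y ≠ 0 := not_forall.1 fun h => t1 (f.isom_ext fun y => sub_eq_zero.1 (h y))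
  refine ⟨_, hy, a1 t _ (a0 t ht y) y, fun r hr e x => ts2 hf h3 (a1 t _ (a0 t ht y) y) (a1 r _ (a0 r hr x) x) (a1 r _ ?_ x) hy⟩
  obtain ⟨c, hc⟩ := ts2 hf h3 (a1 t _ (a0 t ht y) y) (a1 t _ (a0 t ht (r.1 y)) _) (a1 t _ (a0 t ht y) (r.1 y)) hy
  rw [← isom_mul_apply, ← e, isom_mul_apply, ← map_sub] at hc
  have : (c * c) • (t.1 y - y) = (1 : F) • (t.1 y - y) := by rw [mul_smul, hc, ← map_smul, hc, ← isom_mul_apply, hr, isom_one_apply, one_smul]
  have : (c - 1) ^ 2 = 0 := by linear_combination smul_left_injective F hy this + (1 - c) * h2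
  rw [← hc, sub_eq_zero.1 (pow_eq_zero_iff two_ne_zero |>.1 this), one_smul]

theorem exists_fix {K : Type*} [Field K] (hK : ∃ a : K, a ≠ 0 ∧ a ^ 2 ≠ 1) (h2 : (2 : F) = 0 ↔ (2 : K) = 0) (θ : SpecialLinearGroup (Fin 2) K →* f.Isom) (hθ : Function.Injective θ)
    (hd : ∀ g, f.detHom (θ g) = 1) : ∃ p, f.B p p ≠ 0 ∧ ∀ g, (θ g).1 p = p := by
  let S (p : V) : Subgroup f.Isom := f.fix (F ∙ p)
  have hS : ∀ p g, g ∈ S p ↔ g.1 p = p := fun p g => by simp [S, mem_fix_span]
  by_cases e : (2 : F) = 0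
  · have a1 : ∀ (i j : Fin 2) (h : i ≠ j) (c d : K), θ (.transvection h c) * θ (.transvection h d) = θ (.transvection h (c + d)) := fun i j h c d => by
      rw [← map_mul, SpecialLinearGroup.transvection_add]
    have a2 : ∀ (i j : Fin 2) (h : i ≠ j) (c : K), θ (.transvection h c) * θ (.transvection h c) = 1 := fun i j h c => by
      rw [a1, ← two_mul, h2.1 e, zero_mul, ← map_one θ]; exact congrArg θ (Subtype.ext (by simp))
    have k : ∀ (i j : Fin 2) (h : i ≠ j), ∃ v ≠ 0, f.B v v = 0 ∧ ∀ c x, ∃ r : F, r • v = (θ (.transvection h c)).1 x - x := fun i j h => by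
      obtain ⟨v, v0, v1, v2⟩ := invol hf h3 e (t := θ (.transvection h 1)) (fun e => by
        simpa [SpecialLinearGroup.transvection_coe, h] using congrArg (fun g => g.1 i j) ((injective_iff_map_eq_one θ).1 hθ _ e)) (a2 i j h 1)
      exact ⟨v, v0, v1, fun c => v2 _ (a2 i j h c) (by rw [a1, a1, add_comm])⟩
    obtain ⟨v, v0, v1, v2⟩ := k 0 1 (by decide)
    obtain ⟨w, w0, w1, w2⟩ := k 1 0 (by decide)
    have l : ∀ p, f.B v p = 0 → f.B w p = 0 → ∀ g, (θ g).1 p = p := fun p h1 h4 g => by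
      refine (hS p _).1 ((CA.SLnGen.eq_top_of_transvection (H := (S p).comap θ) fun i j h c => (hS p _).2 ?_).ge (Subgroup.mem_top g))
      refine sub_eq_zero.1 (hf.eq_zero_right fun x => ?_)
      rw [map_sub, ← inv_eq_of_mul_eq_one_right (a2 i j h c), ← B_isom_left, ← B_sub_left]
      fin_cases i <;> fin_cases j
      · exact (h rfl).elim
      · obtain ⟨r, hr⟩ := v2 c x
        exact hr ▸ by simp [h1]
      · obtain ⟨r, hr⟩ := w2 c x
        exact hr ▸ by simp [h4]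
      · exact (h rfl).elim
    obtain ⟨⟨p, hp⟩, p0⟩ : ∃ p : f.perp (Submodule.span F {v, w}), p ≠ 0 := by
      have h1 := hf.finrank_perp (Submodule.span F {v, w})
      have h4 : finrank F (Submodule.span F {v, w}) ≤ 2 := show Set.finrank F {v, w} ≤ 2 by simpa using finrank_range_le_card (R := F) ![w, v]
      have := (finrank_pos_iff (R := F) (M := f.perp (Submodule.span F {v, w}))).1 (by omega)
      exact exists_ne 0
    obtain ⟨h1, h4⟩ := f.mem_perp_span_pair.1 hp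
    refine ⟨p, fun e0 => ?_, l p h1 h4⟩
    obtain ⟨c, rfl⟩ := ts2 hf h3 e0 v1 (f.eq_zero_symm h1) (by simpa using p0)
    obtain ⟨d, rfl⟩ := ts2 hf h3 e0 w1 (f.eq_zero_symm h4) (by simpa using p0)
    have : θ (.transvection (show (0 : Fin 2) ≠ 1 by decide) 1 * .transvection (show (1 : Fin 2) ≠ 0 by decide) 1) =
        θ (.transvection (show (1 : Fin 2) ≠ 0 by decide) 1 * .transvection (show (0 : Fin 2) ≠ 1 by decide) 1) := f.isom_ext fun x => by
      obtain ⟨r, hr⟩ := v2 1 x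
      obtain ⟨r', hr'⟩ := w2 1 x
      rw [map_mul, map_mul, isom_mul_apply, isom_mul_apply, ← eq_sub_iff_add_eq.1 hr, ← eq_sub_iff_add_eq.1 hr', map_add, map_add, ← eq_sub_iff_add_eq.1 hr, ← eq_sub_iff_add_eq.1 hr']
      simp only [map_smul, l p h1 h4]; abel
    simpa [SpecialLinearGroup.transvection_coe, mul_apply] using congrArg (fun g => g.1 0 0) (hθ this)
  have z2 : θ (-1) * θ (-1) = 1 := by rw [← map_mul]; simp
  have z3 : ∀ v, (θ (-1)).1 (v + (θ (-1)).1 v) = v + (θ (-1)).1 v := fun v => by rw [map_add, ← isom_mul_apply, z2, isom_one_apply, add_comm]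
  obtain ⟨v, p0⟩ : ∃ v, v + (θ (-1)).1 v ≠ 0 := not_forall.1 fun h => e (by
    have := congrArg Units.val (hd (-1))
    rw [detHom_apply, LinearEquiv.coe_det, show ((θ (-1)).1 : V →ₗ[F] V) = (-1 : F) • LinearMap.id from LinearMap.ext fun v => by simpa using (neg_eq_of_add_eq_zero_right (h v)).symm,
      LinearMap.det_smul, h3] at this
    simp at this
    linear_combination -this)
  have z4 := z3 v
  generalize v + (θ (-1)).1 v = p at p0 z4
  have k : ∀ u, (θ (-1)).1 u = u → ∃ c : F, c • p = u := fun u => fix2 h3 (hd (-1)) (m := 2) (by simpa using e) (by rw [sq]; exact congrArg Subtype.val z2)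
    (fun e0 => mt h2.2 e (by
      have := congrArg (fun g => g.1 0 0) ((injective_iff_map_eq_one θ).1 hθ _ (Subtype.ext e0))
      simp at this
      linear_combination -this)) p0 z4
  refine ⟨p, fun e0 => p0 (hf p fun x => mul_left_cancel₀ e ?_), fun g => (hS p _).1 ?_⟩
  · obtain ⟨c, hc⟩ := k _ (z3 x)
    have := congrArg (f.B p) hc
    rw [map_add, map_smul, e0, ← z4, f.B_coe_map, z4] at this
    linear_combination -this
  choose c hc using fun g => k ((θ g).1 p) (by rw [← isom_mul_apply, ← map_mul, neg_one_mul, ← mul_neg_one, map_mul, isom_mul_apply, z4])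
  refine (Subgroup.commutator_le.2 fun a _ b _ => (hS p _).2 ?_ : commutator _ ≤ (S p).comap θ) ((CA.SLnGen.commutator_eq_top (.inr hK)).ge (Subgroup.mem_top g))
  simp only [commutatorElement_def, map_mul, isom_mul_apply, ← hc, map_smul, smul_smul]
  have l : ∀ a, c a * c a⁻¹ = 1 := fun a => smul_left_injective F p0 (by
    beta_reduce; rw [mul_comm, mul_smul, hc, ← map_smul, hc, ← isom_mul_apply, ← map_mul]; simp)
  rw [show c b⁻¹ * (c a⁻¹ * (c b * c a)) = (c a * c a⁻¹) * (c b * c b⁻¹) by ring, l, l, one_mul, one_smul]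

omit hf h3
variable [Fintype F] {q : ℕ} (hF : Fintype.card F = q ^ 2)
include hF

theorem cast_q : (q : F) = 0 := pow_eq_zero_iff two_ne_zero |>.1 (by simpa [hF] using FiniteField.cast_card_eq_zero F)

theorem exists_p (hq : 3 < q) (α : SU 2 F q →* SU 3 F q) (hα : Function.Injective α) : ∃ p, (hermStd hF 3).Q p = 1 ∧ ∀ g, (α g).1.1 *ᵥ p = p := by
  obtain ⟨p, hp⟩ := CharP.exists F
  obtain ⟨r, hpp, hr⟩ := FiniteField.card F p
  have : Fact p.Prime := ⟨hpp⟩
  obtain ⟨j, -, hj⟩ := (Nat.dvd_prime_pow hpp).mp (show q ∣ p ^ (r : ℕ) by rw [← hr, hF]; exact dvd_pow_self _ two_ne_zero)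
  have := Fintype.ofFinite (GaloisField p j)
  have hK : Fintype.card (GaloisField p j) = q := by rw [hj, ← Nat.card_eq_fintype_card, GaloisField.card p j (by rintro rfl; simp at hj; omega)]
  obtain ⟨e⟩ := Cfsg.Agent.S0281.result hF hK
  obtain ⟨x, x0, hx⟩ := exists_fix (hermStd_nondeg hF 3) (by simp) (K := GaloisField p j) (by
      classical
      obtain ⟨a, -, ha⟩ := Finset.exists_mem_notMem_of_card_lt_card (s := ({0, 1, -1} : Finset (GaloisField p j))) (t := Finset.univ)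
        (Finset.card_le_three.trans_lt (by simpa [hK]))
      exact ⟨a, by simpa [sq, mul_self_eq_one_iff] using ha⟩)
    (by rw [← not_iff_not, ← Ne, ← Ne, two_ne_zero_iff_odd, two_ne_zero_iff_odd, hF, hK, Nat.odd_pow_iff two_ne_zero])
    ((hermStd hF 3).SIsom.subtype.comp ((suEquiv hF 3).toMonoidHom.comp (α.comp e.symm.toMonoidHom)))
    (Subtype.val_injective.comp ((suEquiv hF 3).injective.comp (hα.comp e.symm.injective))) fun g => (suEquiv hF 3 _).2
  obtain ⟨a, ha⟩ := exists_norm_eq (conj hF) (conj_conj hF) (conj_ne_id hF) ((hermStd hF 3).B x x)⁻¹ (by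
    rw [map_inv₀]; congr 1; simpa using ((hermStd hF 3).symm x x).symm)
  refine ⟨a • x, by rw [Q_smul, Kind.herm_σ, ha, ← herm_B_self, inv_mul_cancel₀ x0], fun g => ?_⟩
  have := hx (e g)
  rw [mulVec_smul]
  exact congrArg _ (by simpa [suEquiv_apply] using this)

theorem no_fix {p : Fin 3 → F} (h : ∀ g : SU 3 F q, g.1.1 *ᵥ p = p) : p = 0 := by
  obtain ⟨a, h1, h2⟩ := exists_norm_one_ne_one hF
  have a0 : a ≠ 0 := by rintro rfl; simp at h1
  have k : ∀ d : Fin 3 → F, (∀ i, d i ^ (q + 1) = 1) → ∏ i, d i = 1 → ∀ i, d i ≠ 1 → p i = 0 := fun d d1 d2 i hi => by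
    have := congrFun (h ⟨⟨diagonal d, by simpa⟩, mem_SU.2 fun u v => Finset.sum_congr rfl fun i _ => by
      simp only [mulVec_diagonal, mul_pow]; linear_combination (u i * v i ^ q) * d1 i⟩) i
    rw [mulVec_diagonal] at this
    exact (mul_left_eq_self₀.1 this).resolve_left hi
  have k1 := k ![a, a⁻¹, 1] (fun i => by fin_cases i <;> simp [h1]) (by simp [Fin.prod_univ_three, a0])
  have k2 := k ![1, a⁻¹, a] (fun i => by fin_cases i <;> simp [h1]) (by simp [Fin.prod_univ_three, a0])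
  exact funext fun i => by fin_cases i; exacts [k1 0 h2, k1 1 (by simpa), k2 2 h2]

theorem mem_emb (m : Fin 3) {g : SU 3 F q} (h : g.1.1 *ᵥ Pi.single m 1 = Pi.single m 1) : g ∈ (emb m).range := by
  have q0 : q ≠ 0 := by have := two_le_of_card_sq hF; omega
  refine mem_range_emb m (by simpa using congrFun h m) (fun l hl => ⟨?_, by simpa [hl] using congrFun h l⟩) q0
  have := mem_SU.1 g.2 (Pi.single l 1) (Pi.single m 1)
  rw [h] at this
  simpa [hermForm, Pi.single_apply, q0, hl.symm, apply_ite (· ^ q)] using this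

theorem std (hq : 3 < q) (α β : SU 2 F q →* SU 3 F q) (hα : Function.Injective α) (hβ : Function.Injective β) (h : α.range ⊔ β.range = ⊤) {x y : SU 3 F q}
    (hx : x ∈ α.range) (hy : y ∈ β.range) (x1 : x ≠ 1) (y1 : y ≠ 1) (x2 : x ^ (q + 1) = 1) (y2 : y ^ (q + 1) = 1) (e : x * y = y * x) :
    ∃ ψ : SU 3 F q ≃* SU 3 F q, (suBlock 3 F q {0, 1}).map ψ.toMonoidHom = α.range ∧ (suBlock 3 F q {1, 2}).map ψ.toMonoidHom = β.range := by
  obtain ⟨p, p1, hp⟩ := exists_p hF hq α hα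
  obtain ⟨r, r1, hr⟩ := exists_p hF hq β hβ
  have p0 : p ≠ 0 := by rintro rfl; simp at p1
  have r0 : r ≠ 0 := by rintro rfl; simp at r1
  have k : ∀ z : SU 3 F q, z ≠ 1 → z ^ (q + 1) = 1 → ∀ p u : Fin 3 → F, p ≠ 0 → z.1.1 *ᵥ p = p → z.1.1 *ᵥ u = u → ∃ c : F, c • p = u := fun z z1 z2 p u =>
    fix2 (by simp) (suEquiv hF 3 z).2 (m := q + 1) (by simp [cast_q hF]) (congrArg (fun g => g.1.1) ((map_pow (suEquiv hF 3) z _).symm.trans (by rw [z2, map_one])))
      fun e => z1 ((suEquiv hF 3).map_eq_one_iff.1 (Subtype.ext (Subtype.ext e)))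
  obtain ⟨x, rfl⟩ := hx
  obtain ⟨y, rfl⟩ := hy
  have hi : ∀ c : F, c • p ≠ r := by
    rintro c rfl
    refine r0 (no_fix hF fun g => ?_)
    have : α.range ⊔ β.range ≤ (MulAction.stabilizer (SpecialLinearGroup (Fin 3) F) (c • p)).comap (SU 3 F q).subtype :=
      sup_le (by rintro _ ⟨g, rfl⟩; exact (mulVec_smul _ _ _).trans (congrArg _ (hp g))) (by rintro _ ⟨g, rfl⟩; exact hr g)
    exact this (h.ge (Subgroup.mem_top g))
  have hB : (hermStd hF 3).B p r = 0 := by
    obtain ⟨c, hc⟩ := k _ y1 y2 r ((α x).1.1 *ᵥ r) r0 (hr y) (by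
      rw [mulVec_mulVec, show (β y).1.1 * (α x).1.1 = (α x).1.1 * (β y).1.1 from congrArg (fun g => g.1.1) e.symm, ← mulVec_mulVec, hr])
    have := (hermStd hF 3).B_coe_map (suEquiv hF 3 (α x)).1 p r
    rw [suEquiv_apply, suEquiv_apply, hp, ← hc, map_smul, smul_eq_mul] at this
    refine (mul_left_eq_self₀.1 this).resolve_left ?_
    rintro rfl
    obtain ⟨c, hc⟩ := k _ x1 x2 p r p0 (hp x) (by rw [← hc, one_smul])
    exact hi c hc
  have Q1 : ∀ i, (hermStd hF 3).Q (Pi.single i 1) = 1 := fun i => by rw [← herm_B_self, hermStd_B_single, if_pos rfl]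
  obtain ⟨g, g1, g2⟩ := (hermStd_nondeg hF 3).witt_pair (v := Pi.single 2 1) (v' := Pi.single 0 1) (LinearIndependent.pair_iff.2 fun a b e =>
    ⟨by simpa using congrFun e 2, by simpa using congrFun e 0⟩) ((LinearIndependent.pair_iff' p0).2 hi) (by rw [p1, Q1]) (by rw [r1, Q1]) (by rw [hB, hermStd_B_single]; simp)
  let ψ := (suEquiv hF 3).trans ((MulAut.conjNormal g).trans (suEquiv hF 3).symm)
  have l : ∀ (m : Fin 3) (γ : SU 2 F q →* SU 3 F q), Function.Injective γ → (∀ z, (γ z).1.1 *ᵥ g.1 (Pi.single m 1) = g.1 (Pi.single m 1)) →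
      (emb m).range.map ψ.toMonoidHom = γ.range := fun m γ hγ h => by
    refine (Subgroup.eq_of_le_of_card_ge ?_ ?_).symm
    · rintro _ ⟨z, rfl⟩
      refine ⟨ψ.symm (γ z), mem_emb hF m ?_, ψ.apply_symm_apply _⟩
      refine (suEquiv_symm_mulVec hF 3 _ _).trans ?_
      change g.1.symm ((γ z).1.1 *ᵥ g.1 (Pi.single m 1)) = _
      rw [h, LinearEquiv.symm_apply_apply]
    · rw [Subgroup.card_map_of_injective ψ.injective, ← Nat.card_congr (MonoidHom.ofInjective hγ).toEquiv, ← Nat.card_congr (MonoidHom.ofInjective (emb_inj m)).toEquiv]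
  have q0 : q ≠ 0 := by omega
  exact ⟨ψ, by rw [suBlock_up q0]; exact l 2 α hα (g1 ▸ hp), by rw [suBlock_lo q0]; exact l 0 β hβ (g2 ▸ hr)⟩

omit [AddCommGroup V] in
theorem pair (hq : 3 < q) {G : Type*} [Group G] {A B D E : Subgroup G} (a : SU 2 F q ≃* A) (b : SU 2 F q ≃* B) (ε : ↥(A ⊔ B) ≃* SU 3 F q)
    (hD : D ≤ A) (hE : E ≤ B) (d : Nat.card D = q + 1) (e : Nat.card E = q + 1) (h : ∀ x ∈ D, ∀ y ∈ E, x * y = y * x) : IsStandardUnitaryPair (A ⊔ B) A B F q := by
  have k : ∀ D : Subgroup G, Nat.card D = q + 1 → ∃ x ∈ D, x ≠ 1 ∧ x ^ (q + 1) = 1 := fun D d => by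
    have := Nat.finite_of_card_ne_zero (d.trans_ne q.succ_ne_zero)
    have := (Finite.one_lt_card_iff_nontrivial (α := D)).1 (by omega)
    obtain ⟨x, hx⟩ := exists_ne (1 : D)
    exact ⟨x, x.2, by simpa using hx, by simpa [d] using congrArg Subtype.val (pow_card_eq_one' (x := x))⟩
  have l : ∀ (C : Subgroup G) (hC : C ≤ A ⊔ B) (c : SU 2 F q ≃* C), (ε.toMonoidHom.comp ((Subgroup.inclusion hC).comp c.toMonoidHom)).range = (C.subgroupOf (A ⊔ B)).map ε.toMonoidHom :=
    fun C hC c => by rw [MonoidHom.range_comp, MonoidHom.range_comp, MonoidHom.range_eq_top.2 c.surjective, ← MonoidHom.range_eq_map, Subgroup.inclusion_range]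
  obtain ⟨x, x0, x1, x2⟩ := k D d
  obtain ⟨y, y0, y1, y2⟩ := k E e
  obtain ⟨ψ, h1, h2⟩ := std hF hq (ε.toMonoidHom.comp ((Subgroup.inclusion le_sup_left).comp a.toMonoidHom)) (ε.toMonoidHom.comp ((Subgroup.inclusion le_sup_right).comp b.toMonoidHom))
    (ε.injective.comp ((Subgroup.inclusion_injective le_sup_left).comp a.injective)) (ε.injective.comp ((Subgroup.inclusion_injective le_sup_right).comp b.injective))
    (by rw [l, l, ← Subgroup.map_sup, Subgroup.subgroupOf_sup le_sup_left le_sup_right |>.symm, Subgroup.subgroupOf_self, Subgroup.map_top_of_surjective _ ε.surjective])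
    (x := ε ⟨x, (le_sup_left : A ≤ A ⊔ B) (hD x0)⟩) (y := ε ⟨y, (le_sup_right : B ≤ A ⊔ B) (hE y0)⟩) (by rw [l]; exact ⟨_, hD x0, rfl⟩) (by rw [l]; exact ⟨_, hE y0, rfl⟩)
    (by simpa [Subtype.ext_iff]) (by simpa [Subtype.ext_iff]) (by rw [← map_pow]; simpa [Subtype.ext_iff]) (by rw [← map_pow]; simpa [Subtype.ext_iff])
    (by rw [← map_mul, ← map_mul]; exact congrArg ε (Subtype.ext (h x x0 y y0)))
  have m : ∀ (C : Subgroup G) (_ : C ≤ A ⊔ B) (S : Subgroup (SU 3 F q)), S.map ψ.toMonoidHom = (C.subgroupOf (A ⊔ B)).map ε.toMonoidHom →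
      S.map ((A ⊔ B).subtype.comp (ψ.trans ε.symm).toMonoidHom) = C := fun C hC S e => by
    rw [← Subgroup.map_map, show (ψ.trans ε.symm).toMonoidHom = ε.symm.toMonoidHom.comp ψ.toMonoidHom from rfl, ← Subgroup.map_map, e, Subgroup.map_map _ ε.symm.toMonoidHom,
      show ε.symm.toMonoidHom.comp ε.toMonoidHom = .id _ from MonoidHom.ext ε.symm_apply_apply, Subgroup.map_id, Subgroup.map_subgroupOf_eq_of_le hC]
  exact .inl ⟨ψ.trans ε.symm, m A le_sup_left _ (h1.trans (l _ _ _)), m B le_sup_right _ (h2.trans (l _ _ _))⟩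

universe u in
omit [AddCommGroup V] in
theorem final {G : Type u} [Group G] {n : ℕ} (hn : 2 ≤ n) (hq : 3 < q) (U : Fin n → Subgroup G) (e : ∀ i, SU 2 F q ≃* U i) (hgen : ⨆ i, U i = ⊤)
    (D : Fin n → Subgroup G) (hD : ∀ i, D i ≤ U i ∧ IsCyclic (D i) ∧ Nat.card (D i) = q + 1)
    (h2 : ∀ i j : Fin n, (i : ℕ) + 1 = j → Nonempty (↥(U i ⊔ U j) ≃* SU 3 F q)) (h3 : ∀ i j : Fin n, i ≠ j → ∀ x ∈ D i, ∀ y ∈ D j, x * y = y * x)
    (H : 3 ≤ n → ∀ V : Fin n → Fin n → Subgroup G, (∀ i j : Fin n, (i : ℕ) + 1 = j → IsStandardUnitaryPair (V i j) (U i) (U j) F q) →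
      (⨆ i, U i) ⊔ (⨆ (i : Fin n) (j : Fin n) (_ : (i : ℕ) + 1 = j), V i j) = ⊤ → ∃ f : SU (n + 1) F q →* G, Function.Surjective f) :
    ∃ f : SU (n + 1) F q →* G, Function.Surjective f := by
  rcases hn.eq_or_lt with rfl | hn
  · obtain ⟨ε⟩ := h2 0 1 rfl
    refine ⟨(U 0 ⊔ U 1).subtype.comp ε.symm.toMonoidHom, fun g => ?_⟩
    have : g ∈ U 0 ⊔ U 1 := (iSup_le (Fin.forall_fin_two.2 ⟨le_sup_left, le_sup_right⟩) : ⨆ i, U i ≤ _) (hgen.ge (Subgroup.mem_top g))
    exact ⟨ε ⟨g, this⟩, by simp⟩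
  exact H hn (fun i j => U i ⊔ U j) (fun i j h => pair hF hq (e i) (e j) (h2 i j h).some (hD i).1 (hD j).1 (hD i).2.2 (hD j).2.2 (h3 i j (by rintro rfl; omega))) (by simp [hgen])

end CA.PhanB
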