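/-
Embeddings of `SU₃(3)` into `SU₄(3)` fix a unit vector.
-/
import Cfsg.Agent.Lib.Lin.PhanA
import Cfsg.Agent.Lib.Lin.PhanB
import Cfsg.Agent.Lib.Lin.Phan2

set_option autoImplicit false
set_option linter.unusedSectionVars false

namespace CA.PhanE

open Cfsg CA.CForm CA.Phan CA.PhanA Matrix Module

variable {F : Type*} [Field F]

theorem eig (h3 : (3 : F) = 0) {A B : Matrix (Fin 4) (Fin 4) F} (hA : A * A = 1) (hB : B * B = 1) (h : A * B = B * A) (dA : A.det = 1) (dB : B.det = 1)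
    (a1 : ∀ c : F, A ≠ c • 1) (a2 : ∀ c : F, B ≠ c • 1) (a3 : ∀ c : F, A * B ≠ c • 1) (δ : F) (hδ : δ = 1 ∨ δ = -1) :
    ∃ v ≠ 0, A *ᵥ v = v ∧ B *ᵥ v = δ • v ∧ ∀ u, A *ᵥ u = u → B *ᵥ u = δ • u → ∃ c : F, u = c • v := by
  let s : Bool → F := fun b => if b then -1 else 1
  have si : Function.Injective s := fun a b e => by
    cases a <;> cases b <;> simp only [s, if_true, Bool.false_eq_true, if_false] at e <;> first | rfl | exact absurd (by linear_combination h3 - e) (one_ne_zero (α := F)) | exact absurd (by linear_combination h3 + e) (one_ne_zero (α := F))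
  let S : Set (Fin 4 → F) := {v | ∃ x y, A *ᵥ v = s x • v ∧ B *ᵥ v = s y • v}
  have hS : ⊤ ≤ Submodule.span F S := fun v _ => by
    have k : ∀ x y, v + s x • A *ᵥ v + s y • B *ᵥ v + (s x * s y) • A *ᵥ B *ᵥ v ∈ Submodule.span F S := fun x y => Submodule.subset_span ⟨x, y, by
      simp only [mulVec_add, mulVec_smul, mulVec_mulVec, ← mul_assoc, hA, one_mul, one_mulVec]; cases x <;> simp only [s, if_true, Bool.false_eq_true, if_false] <;> module, by
      simp only [mulVec_add, mulVec_smul, mulVec_mulVec, ← mul_assoc, ← h, hB, mul_assoc A B B, mul_one, one_mulVec]; cases y <;> simp only [s, if_true, Bool.false_eq_true, if_false] <;> module⟩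
    convert add_mem (add_mem (k true true) (k true false)) (add_mem (k false true) (k false false)) using 1
    simp only [s, if_true, Bool.false_eq_true, if_false]
    linear_combination (norm := module) (-h3) • v
  let b0 := Basis.ofSpan hS
  have := FiniteDimensional.fintypeBasisIndex b0
  let b := b0.reindex (Fintype.equivFinOfCardEq (n := 4) (by rw [← finrank_eq_card_basis b0]; simp))
  have hb : ∀ k, b k ∈ S := fun k => Basis.ofSpan_subset hS ⟨_, (b0.reindex_apply _ k).symm⟩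
  choose x y hx hy using hb
  have k1 : ∀ (A : Matrix (Fin 4) (Fin 4) F) (x : Fin 4 → Bool), (∀ k, A *ᵥ b k = s (x k) • b k) → (A.det = 1 → (x 0 ^^ x 1) = (x 2 ^^ x 3)) ∧ ((∀ c : F, A ≠ c • 1) → ¬∀ k, x k = x 0) ∧
      ∀ u k, b.repr (A *ᵥ u) k = s (x k) * b.repr u k := fun A x hx => by
    have e : LinearMap.toMatrix b b (toLin' A) = diagonal fun k => s (x k) := by
      ext i j; rw [LinearMap.toMatrix_apply, toLin'_apply, hx, map_smul, b.repr_self, diagonal_apply]; by_cases e : i = j <;> simp [e]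
    refine ⟨fun d => si ?_, fun a e => a (s (x 0)) (toLin'.injective (b.ext fun k => by simp [hx, e k])), fun u k => ?_⟩
    · rw [← LinearMap.det_toLin', ← LinearMap.det_toMatrix b, e, det_diagonal, Fin.prod_univ_four] at d
      revert d
      cases x 0 <;> cases x 1 <;> cases x 2 <;> cases x 3 <;> simp [s] <;> exact fun e => by simpa using e.symm
    · rw [← toLin'_apply, ← congrFun (LinearMap.toMatrix_mulVec_repr b b (toLin' A) u) k, e, mulVec_diagonal]
  obtain ⟨x1, x2, x3⟩ := k1 A x hx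
  obtain ⟨y1, y2, y3⟩ := k1 B y hy
  obtain ⟨-, z2, -⟩ := k1 (A * B) (fun k => x k ^^ y k) fun k => by
    rw [← mulVec_mulVec, hy, mulVec_smul, hx, smul_smul]; cases x k <;> cases y k <;> simp [s]
  obtain ⟨d, rfl⟩ : ∃ d, δ = s d := hδ.elim (fun e => ⟨false, e⟩) fun e => ⟨true, e⟩
  obtain ⟨k, k2, k3, k4⟩ := (by decide +kernel : ∀ x y : Fin 4 → Bool, (x 0 ^^ x 1) = (x 2 ^^ x 3) → (y 0 ^^ y 1) = (y 2 ^^ y 3) → (¬∀ k, x k = x 0) → (¬∀ k, y k = y 0) →
    (¬∀ k, (x k ^^ y k) = (x 0 ^^ y 0)) → ∀ d, ∃ k, x k = false ∧ y k = d ∧ ∀ j, j ≠ k → x j ≠ false ∨ y j ≠ d) x y (x1 dA) (y1 dB) (x2 a1) (y2 a2) (z2 a3) d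
  refine ⟨b k, b.ne_zero k, by rw [hx, k2]; simp [s], by rw [hy, k3], fun u u1 u2 => ⟨b.repr u k, b.ext_elem fun j => ?_⟩⟩
  by_cases e : j = k
  · simp [e]
  rw [map_smul, b.repr_self, Finsupp.smul_apply, Finsupp.single_eq_of_ne e, smul_zero]
  rcases k4 j e with e | e
  · have := x3 u j
    rw [u1] at this
    exact (mul_left_eq_self₀.1 this.symm).resolve_left fun e' => e (si e')
  · have := y3 u j
    rw [u2, map_smul, Finsupp.smul_apply, smul_eq_mul] at this
    exact (mul_eq_mul_right_iff.1 this).resolve_left fun e' => e (si e').symm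

variable [Fintype F] (hF : Fintype.card F = 3 ^ 2)
include hF

theorem three : (3 : F) = 0 := by simpa using CA.PhanB.cast_q hF

theorem gen2 {S : Subgroup (SU 2 F 3)} (h : ∀ g, g ^ 3 = 1 → g ∈ S) (g : SU 2 F 3) : g ∈ S := by
  have z : ∀ c : ZMod 3, c + (c + c) = 0 := by decide
  have : Fact (Nat.Prime 3) := ⟨Nat.prime_three⟩
  obtain ⟨e⟩ := Cfsg.Agent.S0281.result (K := ZMod 3) hF (ZMod.card 3)
  simpa using (CA.SLnGen.eq_top_of_transvection (H := S.comap e.symm.toMonoidHom) fun i j hij c => h _ (by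
    rw [← map_pow, pow_three, ← SpecialLinearGroup.transvection_add, ← SpecialLinearGroup.transvection_add, show c + (c + c) = 0 from z c, ← map_one e.symm.toMonoidHom]
    exact congrArg _ (Subtype.ext (by simp)))).ge (Subgroup.mem_top (e g))

theorem sc {N : ℕ} (C : SU 2 F 3 →* SU N F 3) {p : Fin N → F} (h : ∀ g, ∃ c : F, (C g).1.1 *ᵥ p = c • p) (g : SU 2 F 3) : (C g).1.1 *ᵥ p = p := by
  refine gen2 hF (S := ((MulAction.stabilizer (SpecialLinearGroup (Fin N) F) p).comap (SU N F 3).subtype).comap C) (fun g e => ?_) g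
  obtain ⟨c, hc⟩ := h g
  change (C g).1.1 *ᵥ p = p
  have : (C (g ^ 3)).1.1 *ᵥ p = c ^ 3 • p := by
    simp only [pow_three, map_mul, su_mul, ← mulVec_mulVec, hc, mulVec_smul, smul_smul, mul_assoc]
  rw [e, map_one] at this
  by_cases p0 : p = 0
  · simp [p0]
  have k : (1 : F) = c ^ 3 := smul_left_injective F p0 (by simpa using this)
  rw [hc, show c = 1 from sub_eq_zero.1 (pow_eq_zero_iff three_ne_zero |>.1 (by linear_combination -k + (c - c ^ 2) * three hF)), one_smul]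

theorem exists_i : ∃ i : F, i * i = -1 ∧ conj hF i = -i := by
  classical
  obtain ⟨a, a1, a2⟩ : ∃ a : F, a ^ (3 + 1) = 1 ∧ a ^ 2 ≠ 1 := by
    by_contra! H
    have : Nat.card {x : F // x ^ (3 + 1) = 1} ≤ Nat.card ({1, -1} : Finset F) := Nat.card_le_card_of_injective (fun x => ⟨x.1, by simpa [sq, mul_self_eq_one_iff] using H x.1 x.2⟩)
      fun x y e => Subtype.ext (by simpa using e)
    rw [card_norm_eq hF one_ne_zero (one_pow 3), Nat.card_eq_fintype_card, Fintype.card_coe] at this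
    have := this.trans Finset.card_le_two
    omega
  have : a * a = -1 := (mul_self_eq_one_iff.1 (by linear_combination a1)).resolve_left (by rwa [← sq])
  exact ⟨a, this, by rw [conj_apply]; linear_combination a * this⟩

omit hF in
theorem su_one {n : ℕ} : (1 : SU n F 3).1.1 = 1 := rfl

theorem m1 : (-1 : F) * conj hF (-1) = 1 := by simp

/-- The central involution of the upper block. -/
abbrev z0 : SU 3 F 3 := up 2 (dg hF (m1 hF))

/-- The central involution of the lower block. -/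
abbrev z1 : SU 3 F 3 := lo 2 (dg hF (m1 hF))

theorem two : (2 : F) ≠ 0 := fun e => one_ne_zero (α := F) (by linear_combination three hF - e)

theorem eigs (θ : SU 3 F 3 →* SU 4 F 3) (hθ : Function.Injective θ) (δ : F) (hδ : δ = 1 ∨ δ = -1) :
    ∃ v ≠ 0, (θ (z0 hF)).1.1 *ᵥ v = v ∧ (θ (z1 hF)).1.1 *ᵥ v = δ • v ∧ ∀ u, (θ (z0 hF)).1.1 *ᵥ u = u → (θ (z1 hF)).1.1 *ᵥ u = δ • u → ∃ c : F, u = c • v := by
  have k : ∀ x y : SU 3 F 3, x * y ≠ y * x → ∀ c : F, (θ x).1.1 ≠ c • 1 := fun x y h c e => h (hθ (by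
    rw [map_mul, map_mul]; exact Subtype.ext (Subtype.ext (by rw [su_mul, su_mul, e]; simp))))
  have l : ∀ x y z w : SU 3 F 3, x * y = z * w → (θ x).1.1 * (θ y).1.1 = (θ z).1.1 * (θ w).1.1 := fun x y z w e => by rw [← su_mul, ← su_mul, ← map_mul, ← map_mul, e]
  have o : (θ 1).1.1 * (θ 1).1.1 = 1 := by rw [map_one]; exact one_mul _
  have t := two hF
  refine eig (three hF) ((l _ _ _ _ (su_ext fun i j => ?_)).trans o) ((l _ _ _ _ (su_ext fun i j => ?_)).trans o) (l _ _ _ _ (su_ext fun i j => ?_)) (θ _).1.2 (θ _).1.2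
    (k _ (lo 2 (wy hF)) fun e => ?_) (k _ (up 2 (wy hF)) fun e => ?_) (fun c e => k (z0 hF * z1 hF) (up 2 (wy hF)) (fun e => ?_) c (by rw [map_mul]; exact e)) δ hδ
  iterate 3 fin_cases i <;> fin_cases j <;> simp [up_two, lo_two, dg, mul_apply, Fin.sum_univ_three]
  · exact t (by have := congrArg (fun g => g.1.1 1 2) e; simp [up_two, lo_two, dg, wy, mul_apply, Fin.sum_univ_three] at this; linear_combination -this)
  · exact t (by have := congrArg (fun g => g.1.1 0 1) e; simp [up_two, lo_two, dg, wy, mul_apply, Fin.sum_univ_three] at this; linear_combination this)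
  · exact t (by have := congrArg (fun g => g.1.1 0 1) e; simp [up_two, lo_two, dg, wy, mul_apply, Fin.sum_univ_three] at this; linear_combination -this)

theorem fixup (θ : SU 3 F 3 →* SU 4 F 3) (hθ : Function.Injective θ) {p : Fin 4 → F} (p0 : (θ (z0 hF)).1.1 *ᵥ p = p) (p1 : (θ (z1 hF)).1.1 *ᵥ p = p) (g : SU 2 F 3) :
    (θ (up 2 g)).1.1 *ᵥ p = p := by
  obtain ⟨i, i1, i2⟩ := exists_i hF
  have h3 := three hF
  have hi : i * conj hF i = 1 := by rw [i2]; linear_combination -i1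
  have r : ∀ (x y : SU 3 F 3) u, (θ (x * y)).1.1 *ᵥ u = (θ x).1.1 *ᵥ (θ y).1.1 *ᵥ u := fun x y u => by rw [map_mul, su_mul, mulVec_mulVec]
  have c0 : ∀ g, z0 hF * up 2 g = up 2 g * z0 hF := fun g => su_ext fun i j => by
    fin_cases i <;> fin_cases j <;> simp [up_two, dg, mul_apply, Fin.sum_univ_three]
  let a : SU 3 F 3 := up 2 (dg hF hi) * lo 2 (dg hF hi)
  have d0 : ∀ δ : F, δ = 1 ∨ δ = -1 → ∀ u, (θ (z0 hF)).1.1 *ᵥ u = u → (θ (z1 hF)).1.1 *ᵥ u = δ • u → (θ (up 2 (dg hF hi))).1.1 *ᵥ u = u := fun δ hδ u u1 u2 => by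
    obtain ⟨v, v0, v1, v2, v3⟩ := eigs hF θ hθ δ hδ
    obtain ⟨c, rfl⟩ := v3 u u1 u2
    obtain ⟨s, hs⟩ := v3 ((θ a).1.1 *ᵥ v) (by
      rw [← r, show z0 hF * a = a * z0 hF from su_ext fun i j => by fin_cases i <;> fin_cases j <;> simp [a, up_two, lo_two, dg, mul_apply, Fin.sum_univ_three], r, v1]) (by
      rw [← r, show z1 hF * a = a * z1 hF from su_ext fun i j => by fin_cases i <;> fin_cases j <;> simp [a, up_two, lo_two, dg, mul_apply, Fin.sum_univ_three], r, v2, mulVec_smul])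
    obtain ⟨t, ht⟩ := v3 ((θ (up 2 (wy hF))).1.1 *ᵥ v) (by rw [← r, c0, r, v1]) (by
      rw [← r, show z1 hF * up 2 (wy hF) = up 2 (wy hF) * (z0 hF * z1 hF) from su_ext fun i j => by
        fin_cases i <;> fin_cases j <;> simp [up_two, lo_two, dg, wy, mul_apply, Fin.sum_univ_three], r, r, v2, mulVec_smul, v1, mulVec_smul])
    have e : up 2 (dg hF hi) * (up 2 (wy hF) * a) = a * up 2 (wy hF) := su_ext fun i j => by
      fin_cases i <;> fin_cases j <;> simp [a, up_two, lo_two, dg, wy, mul_apply, Fin.sum_univ_three, i2, i1]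
    have e2 := congrArg (fun x => (θ x).1.1 *ᵥ v) e
    simp only [r, hs, ht, mulVec_smul, smul_smul] at e2
    have n : ∀ (x : SU 3 F 3) (c : F), (θ x).1.1 *ᵥ v = c • v → c ≠ 0 := fun x c e c0 => v0 (by rw [← one_mulVec v, ← su_one, ← map_one θ, ← inv_mul_cancel x, r, e, c0, zero_smul, mulVec_zero])
    rw [mulVec_smul, smul_right_injective _ (mul_ne_zero (n _ _ hs) (n _ _ ht)) (e2.trans (by rw [mul_comm]))]
  let K : Subgroup (SU 2 F 3) :=
    { carrier := {g | ∀ u, (θ (z0 hF)).1.1 *ᵥ u = u → (θ (up 2 g)).1.1 *ᵥ u = u}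
      mul_mem' := fun {x y} hx hy u hu => by rw [map_mul, r, hy u hu, hx u hu]
      one_mem' := fun u _ => by rw [map_one, map_one]; exact one_mulVec u
      inv_mem' := fun {x} hx u hu => by conv_lhs => rw [← hx u hu, ← r, ← map_mul, inv_mul_cancel, map_one, map_one]
                                        exact one_mulVec u }
  have Kd : dg hF hi ∈ K := fun u hu => by
    have z2 : (θ (z1 hF)).1.1 *ᵥ (θ (z1 hF)).1.1 *ᵥ u = u := by
      rw [← r, show z1 hF * z1 hF = 1 from su_ext fun i j => by fin_cases i <;> fin_cases j <;> simp [lo_two, dg, mul_apply, Fin.sum_univ_three], map_one]; exact one_mulVec u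
    have z3 : (θ (z0 hF)).1.1 *ᵥ (θ (z1 hF)).1.1 *ᵥ u = (θ (z1 hF)).1.1 *ᵥ u := by
      rw [← r, show z0 hF * z1 hF = z1 hF * z0 hF from su_ext fun i j => by fin_cases i <;> fin_cases j <;> simp [up_two, lo_two, dg, mul_apply, Fin.sum_univ_three], r, hu]
    have e1 := d0 1 (.inl rfl) (u + (θ (z1 hF)).1.1 *ᵥ u) (by rw [mulVec_add, hu, z3]) (by rw [mulVec_add, z2, one_smul, add_comm])
    have e2 := d0 (-1) (.inr rfl) (u - (θ (z1 hF)).1.1 *ᵥ u) (by rw [mulVec_sub, hu, z3]) (by rw [mulVec_sub, z2]; simp)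
    rw [mulVec_add] at e1
    rw [mulVec_sub] at e2
    exact smul_right_injective _ (two hF) (by beta_reduce; linear_combination (norm := module) e1 + e2)
  have Kc : ∀ t, ∀ g ∈ K, t * g * t⁻¹ ∈ K := fun t g hg u hu => by
    rw [map_mul (up 2), map_mul (up 2), r, r, hg _ (by rw [← r, c0, r, hu]), ← r, ← map_mul, mul_inv_cancel, map_one, map_one]; exact one_mulVec u
  have Kw : wy hF ∈ K := by
    let t : SU 2 F 3 := ⟨⟨!![1 + i, 1 + i; -(1 - i), 1 - i], by rw [det_fin_two_of]; linear_combination h3 - 2 * i1⟩, (mem2 hF).2 ⟨by simp [i2, sub_eq_add_neg], by simp [i2, sub_eq_add_neg]⟩⟩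
    rw [show wy hF = t * dg hF hi * t⁻¹ from eq_mul_inv_of_mul_eq (su_ext fun a b => by
      rw [su_mul, su_mul]; fin_cases a <;> fin_cases b <;> simp [t, dg, wy, mul_apply, i2] <;> first | linear_combination i1 | linear_combination -i1)]
    exact Kc _ _ Kd
  have K1 : ∀ g : SU 2 F 3, g.1.1 0 1 = 0 → g ∈ K := fun g e => by
    have m := (mem2 hF).1 g.2
    have d := (det_fin_two _).symm.trans g.1.2
    rw [m.1, e, conj_apply] at d
    have : (g.1.1 0 0 - 1) * (g.1.1 0 0 - i) * (g.1.1 0 0 + 1) * (g.1.1 0 0 + i) = 0 := by linear_combination d - (g.1.1 0 0 ^ 2 - 1) * i1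
    have l : ∀ k : ℕ, g.1.1 0 0 = i ^ k → g ∈ K := fun k h => by
      have : ∀ k : ℕ, (dg hF hi ^ k).1.1 = !![i ^ k, 0; 0, conj hF (i ^ k)] := fun k => by
        induction k with
        | zero => simp [one_fin_two]
        | succ k ih => rw [pow_succ, su_mul, ih]; simp [dg, pow_succ]
      rw [show g = dg hF hi ^ k from su_ext fun a b => by rw [this]; fin_cases a <;> fin_cases b <;> simp [m.1, m.2, e, h]]
      exact K.pow_mem Kd k
    simp only [mul_eq_zero] at this
    rcases this with ((h | h) | h) | h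
    exacts [l 0 (by linear_combination h), l 1 (by linear_combination h), l 2 (by linear_combination h - i1), l 3 (by linear_combination h - i * i1)]
  have K2 : ∀ g : SU 2 F 3, g.1.1 0 0 = 0 → g ∈ K := fun g e => (K.mul_mem_cancel_right Kw).1 (K1 _ (by rw [su_mul]; simp [wy, mul_apply, e]))
  obtain ⟨v, v0, v1, v2, v3⟩ := eigs hF θ hθ 1 (.inl rfl)
  obtain ⟨c, rfl⟩ := v3 p p0 (by rw [p1, one_smul])
  refine (mulVec_smul _ _ _).trans (congrArg _ (sc hF (θ.comp (up 2)) (fun g => v3 _ (by rw [MonoidHom.comp_apply, ← r, c0, r, v1]) ?_) g))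
  have m := (mem2 hF).1 g.2
  have d := (det_fin_two _).symm.trans g.1.2
  let g' : SU 2 F 3 := ⟨⟨!![g.1.1 0 0, -g.1.1 0 1; -g.1.1 1 0, g.1.1 1 1], by rw [det_fin_two_of]; linear_combination d⟩, (mem2 hF).2 ⟨m.1, by simp [m.2]⟩⟩
  have e : z1 hF * up 2 g = up 2 g' * z1 hF := su_ext fun i j => by fin_cases i <;> fin_cases j <;> simp [g', up_two, lo_two, dg, mul_apply, Fin.sum_univ_three]
  have k : g' * g⁻¹ ∈ K := by
    have e' : (g' * g⁻¹).1.1 = g'.1.1 * adjugate g.1.1 := rfl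
    rw [m.1, m.2, conj_apply, conj_apply] at d
    by_cases h : g.1.1 0 0 * g.1.1 0 1 = 0
    · exact K1 _ (by rw [e']; simp [g', mul_apply, adjugate_fin_two]; linear_combination -2 * h)
    refine K2 _ ?_
    rw [e']; simp [g', mul_apply, adjugate_fin_two, m.1, m.2, conj_apply]
    have x8 : ∀ x : F, x ≠ 0 → x ^ 4 = 1 ∨ x ^ 4 = -1 := fun x h => mul_self_eq_one_iff.1 (by simpa [hF, ← pow_add] using FiniteField.pow_card_sub_one_eq_one x h)
    have y0 := right_ne_zero_of_mul h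
    have x0 := left_ne_zero_of_mul h
    rcases x8 _ x0 with a | a <;> rcases x8 _ y0 with b | b
    · linear_combination a - b
    · exact absurd (pow_eq_zero_iff four_ne_zero |>.1 (by linear_combination d - a)) y0
    · exact absurd (pow_eq_zero_iff four_ne_zero |>.1 (by linear_combination d - b)) x0
    · linear_combination a - b
  rw [MonoidHom.comp_apply, one_smul, ← r, e, r, v2, one_smul, show g' = g' * g⁻¹ * g by group, map_mul, r, k _ (by rw [← r, c0, r, v1])]

theorem fix (gen3 : (up (F := F) (q := 3) 2).range ⊔ (lo 2).range = ⊤) (θ : SU 3 F 3 →* SU 4 F 3) (hθ : Function.Injective θ) : ∃ p : Un 4 F 3, ∀ g, θ g • p = p := by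
  obtain ⟨v, v0, v1, v2, v3⟩ := eigs hF θ hθ 1 (.inl rfl)
  rw [one_smul] at v2
  let n : SU 3 F 3 := ⟨⟨!![0, 0, 1; 0, -1, 0; 1, 0, 0], by simp [det_fin_three]⟩, (memU hF).2 (by
    ext i j; fin_cases i <;> fin_cases j <;> simp [mul_apply, Fin.sum_univ_three])⟩
  have e0 : n * z0 hF * n⁻¹ = z1 hF := mul_inv_eq_of_eq_mul (su_ext fun i j => by
    rw [su_mul, su_mul]; fin_cases i <;> fin_cases j <;> simp [n, up_two, lo_two, dg, mul_apply, Fin.sum_univ_three])
  have e1 : n * z1 hF * n⁻¹ = z0 hF := mul_inv_eq_of_eq_mul (su_ext fun i j => by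
    rw [su_mul, su_mul]; fin_cases i <;> fin_cases j <;> simp [n, up_two, lo_two, dg, mul_apply, Fin.sum_univ_three])
  have k : ∀ g, (θ g).1.1 *ᵥ v = v := fun g => by
    refine (sup_le ?_ ?_ : (up (F := F) (q := 3) 2).range ⊔ (lo 2).range ≤ ((MulAction.stabilizer (SpecialLinearGroup (Fin 4) F) v).comap (SU 4 F 3).subtype).comap θ) (gen3.ge (Subgroup.mem_top g))
    · rintro _ ⟨g, rfl⟩
      exact fixup hF θ hθ v1 v2 g
    rintro _ ⟨g, rfl⟩
    obtain ⟨g', e⟩ := CA.PhanB.mem_emb hF 2 (g := n⁻¹ * lo 2 g * n) (by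
      rw [su_mul, su_mul, ← mulVec_mulVec, ← mulVec_mulVec, show n.1.1 *ᵥ Pi.single 2 1 = Pi.single 0 1 by ext i; fin_cases i <;> simp [n],
        show (lo 2 g).1.1 *ᵥ Pi.single 0 1 = Pi.single 0 1 from congrArg Subtype.val (emb_fix hF 0 g), show (Pi.single 0 1 : Fin 3 → F) = n.1.1 *ᵥ Pi.single 2 1 by ext i; fin_cases i <;> simp [n],
        mulVec_mulVec, ← su_mul, inv_mul_cancel]; exact one_mulVec _)
    have := fixup hF (θ.comp (MulAut.conj n).toMonoidHom) (hθ.comp (MulAut.conj n).injective) (p := v) (by simpa [e0] using v2) (by simpa [e1] using v1) g'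
    rw [show lo 2 g = n * up 2 g' * n⁻¹ by rw [show up 2 g' = _ from e]; group]
    exact this
  have h0 : hermForm 4 F 3 v v ≠ 0 := fun h => v0 (funext fun j => by
    have a : ∀ x : SU 3 F 3, ∀ u, hermForm 4 F 3 ((θ x).1.1 *ᵥ u) v = hermForm 4 F 3 u v := fun x u => (congrArg _ (k x).symm).trans (mem_SU.1 (θ x).2 _ _)
    have r : ∀ (x y : SU 3 F 3) u, (θ (x * y)).1.1 *ᵥ u = (θ x).1.1 *ᵥ (θ y).1.1 *ᵥ u := fun x y u => by rw [map_mul, su_mul, mulVec_mulVec]
    have o : ∀ u, (θ 1).1.1 *ᵥ u = u := fun u => by rw [map_one]; exact one_mulVec u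
    have s0 : z0 hF * z0 hF = 1 := su_ext fun i j => by fin_cases i <;> fin_cases j <;> simp [up_two, dg, mul_apply, Fin.sum_univ_three]
    have s1 : z1 hF * z1 hF = 1 := su_ext fun i j => by fin_cases i <;> fin_cases j <;> simp [lo_two, dg, mul_apply, Fin.sum_univ_three]
    have s2 : z1 hF * z0 hF = z0 hF * z1 hF := su_ext fun i j => by fin_cases i <;> fin_cases j <;> simp [up_two, lo_two, dg, mul_apply, Fin.sum_univ_three]
    obtain ⟨c, hc⟩ := v3 (Pi.single j 1 + (θ (z0 hF)).1.1 *ᵥ Pi.single j 1 + (θ (z1 hF)).1.1 *ᵥ Pi.single j 1 + (θ (z0 hF * z1 hF)).1.1 *ᵥ Pi.single j 1)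
      (by simp only [mulVec_add, ← r, ← mul_assoc, s0, one_mul, o]; abel) (by simp only [mulVec_add, ← r, ← mul_assoc, s2, s1, mul_assoc (z0 hF), mul_one, one_smul, o]; abel)
    have := congrArg (hermForm 4 F 3 · v) hc
    simp only [hal, hml, a, h, mul_zero] at this
    have e : hermForm 4 F 3 (Pi.single j 1) v = 0 := by linear_combination this - hermForm 4 F 3 (Pi.single j 1) v * three hF
    rw [← hsingle hF v j]
    exact hz hF e)
  obtain ⟨z, β, b0, z1, e, -⟩ := nrm hF h0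
  exact ⟨⟨z, z1⟩, fun g => Subtype.ext (smul_right_injective _ b0 (by change β • (θ g).1.1 *ᵥ z = β • z; rw [← mulVec_smul, ← e, k]))⟩

end CA.PhanE
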