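/-
Weak Phan systems over the field with nine elements.
-/
import Cfsg.Agent.Lib.Lin.PhanE
import Cfsg.Agent.Lib.Grp.SchurFilt
import Cfsg.Agent.S2089
import Cfsg.Agent.S2692
import Cfsg.Agent.S0279
import Cfsg.Agent.S0283

set_option autoImplicit false
set_option linter.unusedSectionVars false

namespace CA.PhanF

open Cfsg CA.CForm CA.Phan CA.PhanA CA.PhanE Matrix Subgroup

theorem lift {S E G : Type*} [Group S] [Group E] [Group G] (hS : HasCyclicSchurMultiplier S 1) (hp : commutator S = ⊤) {g : E →* G} (hc : g.ker ≤ center E)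
    {ρ : S →* G} (h : ρ.range ≤ g.range) : ∃ θ : S →* E, ∀ s, g (θ s) = ρ s := by
  let ψ := CA.SchurFilt.pbp g ρ
  have hs : Function.Surjective ψ := fun s => by obtain ⟨e, he⟩ := h ⟨s, rfl⟩; exact ⟨⟨(e, s), he⟩, rfl⟩
  have k := CA.SchurHopf.mult_eq_bot hS ψ hs (CA.SchurFilt.pbp_cen hc ρ)
  let e := MulEquiv.ofBijective (ψ.comp (commutator _).subtype) ⟨(injective_iff_map_eq_one _).2 fun x hx => Subtype.ext (k.le ⟨hx, x.2⟩), fun s => by
    have := map_commutator_eq _ ψ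
    rw [MonoidHom.range_eq_top.2 hs, ← commutator_def, hp] at this
    obtain ⟨x, hx, rfl⟩ := this.ge (mem_top s)
    exact ⟨⟨x, hx⟩, rfl⟩⟩
  exact ⟨(MonoidHom.fst _ _).comp ((CA.SchurFilt.pb g ρ).subtype.comp ((commutator _).subtype.comp e.symm.toMonoidHom)),
    fun s => (e.symm s).1.2.trans (congrArg ρ (e.apply_symm_apply s))⟩

theorem ker_le {E G : Type*} [Group E] [Group G] (hp : commutator E = ⊤) [IsSimpleGroup (E ⧸ center E)] {g : E →* G} (h : g.ker ≠ ⊤) : g.ker ≤ center E := by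
  rcases IsSimpleGroup.eq_bot_or_eq_top_of_normal (g.ker.map (QuotientGroup.mk' (center E))) (Normal.map inferInstance _ (QuotientGroup.mk'_surjective _)) with e | e
  · exact fun x hx => (QuotientGroup.eq_one_iff x).1 (e.le ⟨x, hx, rfl⟩)
  refine (h (top_unique (hp.ge.trans (commutator_le.2 fun a _ b _ => ?_)))).elim
  obtain ⟨x, hx, e'⟩ := e.ge (mem_top (QuotientGroup.mk' _ a))
  obtain ⟨z, hz, rfl⟩ := (QuotientGroup.mk'_eq_mk' _).1 e'
  have := mem_center_iff.1 hz b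
  rw [MonoidHom.mem_ker, commutatorElement_def, mul_assoc x z b, ← this]
  simp [show g x = 1 from hx]

variable {F : Type*} [Field F] {n q : ℕ}

/-- Conjugation by a unitary matrix. -/
def cj (B : GL (Fin n) F) (hB : B ∈ GU n F q) : SU n F q →* SU n F q :=
  MonoidHom.mk' (fun g => ⟨⟨B.1 * g.1.1 * B⁻¹.1, by rw [det_mul, det_mul, mul_right_comm, ← det_mul, B.mul_inv, g.1.2]; simp⟩, mem_SU.2 fun u v => by
    simp only [← mulVec_mulVec]
    exact (hB _ _).trans ((mem_SU.1 g.2 _ _).trans (inv_mem hB _ _))⟩) fun g g' => Subtype.ext (Subtype.ext (by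
    change B.1 * (g.1.1 * g'.1.1) * B⁻¹.1 = B.1 * g.1.1 * B⁻¹.1 * (B.1 * g'.1.1 * B⁻¹.1)
    simp only [Matrix.mul_assoc, Units.inv_mul_cancel_left]))

theorem cj_inj (B : GL (Fin n) F) (hB : B ∈ GU n F q) : Function.Injective (cj B hB) := fun g g' e => Subtype.ext (Subtype.ext (by
  have : B.1 * g.1.1 * B⁻¹.1 = B.1 * g'.1.1 * B⁻¹.1 := congrArg (fun g => g.1.1) e
  exact (Units.mul_right_inj B).1 ((Units.mul_left_inj B⁻¹).1 this)))

variable [Fintype F] (hF : Fintype.card F = 3 ^ 2)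
include hF

theorem perf (h : 3 ≤ n) : commutator (SU n F 3) = ⊤ :=
  commutator_eq_top_congr (suEquiv hF n) (herm_SIsom_perfect hF (hermStd_nondeg hF _) (by simpa) (by simp))

theorem cen : center (SU 3 F 3) = ⊥ := card_eq_one.1 (Cfsg.Agent.S0279.result hF 3 le_rfl)

theorem aut (α : SU 3 F 3 ≃* SU 3 F 3) : ∃ β : SU 4 F 3 ≃* SU 4 F 3, ∀ g, β (up 3 g) = up 3 (α g) := by
  obtain ⟨p, hp⟩ : ∃ p, p = 3 := ⟨3, rfl⟩
  have : Fact p.Prime := ⟨hp ▸ Nat.prime_three⟩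
  obtain ⟨δ, φ, σ, ⟨B, hB, h1⟩, h2, e⟩ := Cfsg.Agent.S2692.result (p := p) (f := 1) (by simp [hp]) le_rfl hF le_rfl (by omega)
    (QuotientGroup.congr _ _ α (characteristic_iff_map_eq.1 inferInstance α))
  have o : ∀ n, ∀ i : Fin n, (1 : Fin n → F) i * conj hF ((1 : Fin n → F) i) = 1 := by simp
  have k : ∀ g, α g = cj B hB (dc hF _ (o 3) σ g) := fun g => by
    have := DFunLike.congr_fun e (QuotientGroup.mk g)
    rw [MulAut.mul_apply, h2 g (dc hF _ (o 3) σ g) (Matrix.ext fun i j => by simp [dc_val]), h1 _ (cj B hB (dc hF _ (o 3) σ g)) rfl] at this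
    exact inv_mul_eq_one.1 ((cen hF).le (QuotientGroup.eq.1 this))
  let B' : GL (Fin 4) F := ⟨E (Fin.last 3) B.1, E (Fin.last 3) B⁻¹.1, by rw [← E_mul, B.mul_inv, E_one], by rw [← E_mul, B.inv_mul, E_one]⟩
  have hB' : B' ∈ GU 4 F 3 := fun u v => by
    change hermForm 4 F 3 (E (Fin.last 3) B.1 *ᵥ u) (E (Fin.last 3) B.1 *ᵥ v) = _
    rw [herm_succAbove (Fin.last 3), herm_succAbove (Fin.last 3) u]
    simp only [E_mulVec_m, E_mulVec_s]
    exact congrArg _ (hB _ _)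
  refine ⟨.ofBijective ((cj B' hB').comp (dc hF _ (o 4) σ)) (Finite.injective_iff_bijective.1 ((cj_inj _ hB').comp (Finite.injective_iff_surjective.2 (dc_surj hF _ _)))),
    fun g => Subtype.ext (Subtype.ext ?_)⟩
  rw [k]
  change E _ B.1 * (dc hF _ (o 4) σ (up 3 g)).1.1 * E _ B⁻¹.1 = E _ (B.1 * _ * B⁻¹.1)
  rw [E_mul, E_mul]
  congr 2
  exact mat_ext (Fin.last 3) (by simp [dc_val, emb_coe]) (fun b => by simp [dc_val, emb_coe, -Fin.succAbove_last]) (fun b => by simp [dc_val, emb_coe, -Fin.succAbove_last])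
    fun a b => by simp [dc_val, emb_coe, -Fin.succAbove_last]

theorem cent (C : SU 2 F 3 →* SU 4 F 3) (hC : Function.Injective C) (h : ∀ x y, Commute (up 3 (up 2 x)) (C y)) : C.range = ((lo 3).comp (lo 2)).range := by
  obtain ⟨i, i1, i2⟩ := exists_i hF
  have hi : i * conj hF i = 1 := by rw [i2]; linear_combination -i1
  have n1 : i - 1 ≠ 0 := fun e => two hF (by linear_combination i1 - (i + 1) * e)
  have n2 : i + 1 ≠ 0 := fun e => two hF (by linear_combination i1 - (i - 1) * e)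
  have n3 : i + i ≠ 0 := fun e => two hF (by linear_combination 2 * i1 - i * e)
  have d : (up 3 (up 2 (dg hF hi))).1.1 = diagonal ![i, -i, 1, 1] := by
    rw [← i2]; ext a b; fin_cases a <;> fin_cases b <;> rfl
  have k : ∀ y a b, (![i, -i, 1, 1] a - ![i, -i, 1, 1] b) * (C y).1.1 a b = 0 := fun y a b => by
    have := congrArg (fun g => g.1.1 a b) (h (dg hF hi) y).eq
    simp only [su_mul, d, diagonal_mul, mul_diagonal] at this
    linear_combination this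
  have f0 := sc hF C (p := Pi.single 0 1) fun y => ⟨(C y).1.1 0 0, funext fun a => by
    have := k y a 0
    fin_cases a <;> simp [sub_eq_zero, neg_eq_iff_add_eq_zero, n3, (sub_ne_zero.1 n1).symm] at this ⊢ <;> exact this⟩
  have f1 := sc hF C (p := Pi.single 1 1) fun y => ⟨(C y).1.1 1 1, funext fun a => by
    have := k y a 1
    fin_cases a <;> simp [n3, add_comm 1 i, n2] at this ⊢ <;> exact this⟩
  refine eq_of_le_of_card_ge ?_ ?_
  · rintro _ ⟨y, rfl⟩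
    obtain ⟨g, e⟩ := stab hF 0 (g := C y) (Subtype.ext (f0 y))
    obtain ⟨g, rfl⟩ := stab hF 0 (fix_of_emb hF 0 0 (g := g) (by rw [e]; exact Subtype.ext (f1 y)))
    exact ⟨g, e⟩
  rw [← Nat.card_congr (MonoidHom.ofInjective hC).toEquiv, ← Nat.card_congr (MonoidHom.ofInjective (f := (lo 3).comp (lo 2)) ((emb_inj 0).comp (emb_inj 0))).toEquiv]

variable (gen3 : (up (F := F) (q := 3) 2).range ⊔ (lo 2).range = ⊤) {G : Type*} [Group G]
include gen3

theorem key {ρ π : SU 3 F 3 →* G} (hρ : Function.Injective ρ) (hπ : Function.Injective π) (hc : ∀ x y, Commute (ρ (up 2 x)) (π (lo 2 y))) {g : SU 4 F 3 →* G}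
    (h1 : ρ.range ≤ g.range) (h2 : π.range ≤ g.range) : ∃ φ : SU 4 F 3 →* G, φ.comp (up 3) = ρ ∧ Function.Injective (φ.comp (lo 3)) ∧
      ((φ.comp (lo 3)).comp (lo 2)).range = (π.comp (lo 2)).range := by
  have := Cfsg.Agent.S0283.result hF 4 (by omega) (by omega)
  have hk : g.ker ≤ center _ := ker_le (perf hF (by omega)) fun e => by
    obtain ⟨x, hx⟩ := h1 ⟨z0 hF, rfl⟩
    have := congrArg (fun g => g.1.1 0 0) ((injective_iff_map_eq_one ρ).1 hρ _ (hx.symm.trans (e.ge (mem_top x))))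
    exact two hF (by simp [up_two, dg] at this; linear_combination -this)
  have hM : HasCyclicSchurMultiplier (SU 3 F 3) 1 := CA.SchurHopf.congr_left (Cfsg.Agent.S2089.result 3 3 hF le_rfl (by omega) (by simp))
    ((QuotientGroup.quotientMulEquivOfEq (cen hF)).trans QuotientGroup.quotientBot)
  obtain ⟨θ, hθ⟩ := lift hM (perf hF le_rfl) hk h1
  obtain ⟨θ', hθ'⟩ := lift hM (perf hF le_rfl) hk h2
  have i1 : Function.Injective θ := fun x y e => hρ (by rw [← hθ, e, hθ])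
  have i2 : Function.Injective θ' := fun x y e => hπ (by rw [← hθ', e, hθ'])
  obtain ⟨p, hp⟩ := fix hF gen3 θ i1
  obtain ⟨t, c, -, ht⟩ := witt hF (κ := Fin 1) (fun _ => Fin.last 3) (Function.injective_of_subsingleton _) (fun _ => p.1) (fun i k => by rw [p.2, if_pos (Subsingleton.elim _ _)]) 0
  replace ht : t • pt hF (Fin.last 3) = p := Subtype.ext ((ht 0).trans (by rw [if_neg (by decide), one_smul]))
  choose a ha using fun x => stab hF (Fin.last 3) (g := t⁻¹ * θ x * t) (by rw [mul_smul, ht, mul_smul, hp, ← ht, inv_smul_smul])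
  obtain ⟨β, hβ⟩ := aut hF (.ofBijective (MonoidHom.mk' a fun x y => emb_inj (Fin.last 3) (by rw [map_mul, ha, ha, ha, map_mul]; group))
    (Finite.injective_iff_bijective.1 fun x y e => i1 (by simpa using (ha x).symm.trans ((congrArg _ e).trans (ha y)))))
  let γ := β.trans (MulAut.conj t)
  have hγ : ∀ x, γ (up 3 x) = θ x := fun x => by
    change t * β _ * t⁻¹ = _
    rw [(hβ x).trans (ha x)]; group
  have k := cent hF (γ.symm.toMonoidHom.comp (θ'.comp (lo 2))) (γ.symm.injective.comp (i2.comp (emb_inj 0))) fun x y => γ.injective (by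
    rw [map_mul, map_mul, hγ, show γ ((γ.symm.toMonoidHom.comp (θ'.comp (lo 2))) y) = θ' (lo 2 y) from γ.apply_symm_apply _]
    refine gen2 hF (S := (centralizer {θ' (lo 2 y)}).comap (θ.comp (up 2))) (fun x hx => mem_centralizer_singleton_iff.2 ?_) x _ rfl |>.symm
    have h3 : θ (up 2 x) ^ 3 = 1 := by rw [← map_pow, ← map_pow, hx, map_one, map_one]
    have hz : θ (up 2 x) * θ' (lo 2 y) * (θ (up 2 x))⁻¹ * (θ' (lo 2 y))⁻¹ ∈ center _ := hk (by simp [MonoidHom.mem_ker, hθ, hθ', (hc x y).eq])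
    change θ (up 2 x) * _ = _ * θ (up 2 x)
    generalize θ (up 2 x) = a, θ' (lo 2 y) = b at *
    obtain ⟨z, e⟩ : ∃ z, a * b * a⁻¹ * b⁻¹ = z := ⟨_, rfl⟩
    rw [e] at hz
    have z4 : z ^ 4 = 1 := congrArg Subtype.val ((Cfsg.Agent.S0279.result hF 4 (by omega)) ▸ pow_card_eq_one' (x := (⟨z, hz⟩ : center _)))
    have e1 : MulAut.conj a b = z * b := by rw [← e]; simp
    have e2 : MulAut.conj a z = z := by simp [mem_center_iff.1 hz a]
    have e3 : MulAut.conj (a ^ 3) b = z ^ 3 * b := by simp only [pow_three, map_mul, MulAut.mul_apply, e1, e2, mul_assoc]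
    rw [h3, map_one, MulAut.one_apply, eq_comm, mul_eq_right] at e3
    rw [pow_succ, e3, one_mul] at z4
    rw [← mul_inv_eq_iff_eq_mul, ← mul_inv_eq_one, e, z4])
  refine ⟨g.comp γ.toMonoidHom, MonoidHom.ext fun x => (congrArg g (hγ x)).trans (hθ x), (injective_iff_map_eq_one _).2 fun x hx => (cen hF).le (mem_center_iff.2 fun y => emb_inj 0 (γ.injective ?_)), ?_⟩
  · simp only [map_mul]
    exact mem_center_iff.1 (hk hx) _
  rw [MonoidHom.comp_assoc, MonoidHom.range_comp, ← k, ← MonoidHom.range_comp]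
  exact congrArg _ (MonoidHom.ext fun y => (congrArg g (γ.apply_symm_apply _)).trans (hθ' _))

omit hF in
theorem rng (ρ : SU 3 F 3 →* G) : ρ.range = (ρ.comp (up 2)).range ⊔ (ρ.comp (lo 2)).range := by
  rw [MonoidHom.range_eq_map, ← gen3, Subgroup.map_sup, ← MonoidHom.range_comp, ← MonoidHom.range_comp]

theorem frames (m : ℕ) (U : ℕ → Subgroup G) (h1 : ∀ i ≤ m, ∀ x ∈ U i, ∀ y ∈ U (i + 2), x * y = y * x)
    (h2 : ∀ i ≤ m + 1, ∃ π : SU 3 F 3 →* G, π.ker ≤ center _ ∧ (π.comp (up 2)).range = U i ∧ (π.comp (lo 2)).range = U (i + 1))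
    (h4 : ∀ i ≤ m, ∃ g : SU 4 F 3 →* G, U i ⊔ U (i + 1) ≤ g.range ∧ U (i + 1) ⊔ U (i + 2) ≤ g.range) :
    ∃ π : ℕ → (SU 3 F 3 →* G), (∀ i ≤ m + 1, ((π i).comp (up 2)).range = U i ∧ ((π i).comp (lo 2)).range = U (i + 1)) ∧
      ∀ i ≤ m, ∃ φ : SU 4 F 3 →* G, φ.comp (up 3) = π i ∧ φ.comp (lo 3) = π (i + 1) := by
  have inj : ∀ π : SU 3 F 3 →* G, π.ker ≤ center _ → Function.Injective π := fun π h => (injective_iff_map_eq_one _).2 fun x hx => (cen hF).le (h hx)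
  have st : ∀ i (ρ : SU 3 F 3 →* G), i ≤ m → Function.Injective ρ → (ρ.comp (up 2)).range = U i → (ρ.comp (lo 2)).range = U (i + 1) →
      ∃ φ : SU 4 F 3 →* G, φ.comp (up 3) = ρ ∧ Function.Injective (φ.comp (lo 3)) ∧ ((φ.comp (lo 3)).comp (lo 2)).range = U (i + 2) := fun i ρ h r a b => by
    obtain ⟨π, p1, p2, p3⟩ := h2 (i + 1) (by omega)
    obtain ⟨g, g1, g2⟩ := h4 i h
    exact p3 ▸ key hF gen3 r (inj _ p1) (fun x y => h1 i h _ (a.le ⟨x, rfl⟩) _ (p3.le ⟨y, rfl⟩)) (by rwa [rng gen3, a, b]) (by rwa [rng gen3, p2, p3])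
  choose! nx n1 n2 n3 using st
  obtain ⟨π, p1, p2, p3⟩ := h2 0 (by omega)
  let ρ : ℕ → (SU 3 F 3 →* G) := fun i => Nat.rec π (fun i r => (nx i r).comp (lo 3)) i
  have Q : ∀ i ≤ m + 1, Function.Injective (ρ i) ∧ ((ρ i).comp (up 2)).range = U i ∧ ((ρ i).comp (lo 2)).range = U (i + 1) := fun i => by
    induction i with
    | zero => exact fun _ => ⟨inj _ p1, p2, p3⟩
    | succ i ih =>
      intro h
      obtain ⟨a, b, c⟩ := ih (by omega)
      refine ⟨n2 i _ (by omega) a b c, Eq.trans (congrArg _ (MonoidHom.ext fun x => ?_)) c, n3 i _ (by omega) a b c⟩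
      exact (congrArg (nx i (ρ i)) (up_lo x).symm).trans (DFunLike.congr_fun (n1 i _ (by omega) a b c) _)
  exact ⟨ρ, fun i h => (Q i h).2, fun i h => have := Q i (by omega); ⟨_, n1 i _ h this.1 this.2.1 this.2.2, rfl⟩⟩

theorem phan (m : ℕ) (univ : ∀ π : ℕ → (SU 3 F 3 →* G), (∀ i ≤ m, ∃ φ : SU 4 F 3 →* G, φ.comp (up 3) = π i ∧ φ.comp (lo 3) = π (i + 1)) →
      (∀ i j, i + 2 ≤ j → j ≤ m + 1 → ∀ x y, Commute (π i (up 2 x)) (π j y) ∧ Commute (π i y) (π j (lo 2 x))) →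
      (∀ i j, i + 3 ≤ j → j ≤ m + 1 → ∀ x y, Commute (π i x) (π j y)) → ∃ Φ : SU (m + 4) F 3 →* G, ∀ i ≤ m + 1, (π i).range ≤ Φ.range)
    (U : Fin (m + 3) → Subgroup G) (V : Fin (m + 3) → Fin (m + 3) → Subgroup G)
    (h1 : ∀ i j : Fin (m + 3), (i : ℕ) + 2 ≤ j → ∀ x ∈ U i, ∀ y ∈ U j, x * y = y * x)
    (h2 : ∀ i j : Fin (m + 3), (i : ℕ) + 1 = j → IsStandardUnitaryPair (V i j) (U i) (U j) F 3)
    (hgen : (⨆ i, U i) ⊔ (⨆ (i : Fin (m + 3)) (j : Fin (m + 3)) (_ : (i : ℕ) + 1 = j), V i j) = ⊤)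
    (h4 : ∀ i j k : Fin (m + 3), (i : ℕ) + 1 = j → (j : ℕ) + 1 = k → ∃ g : SU 4 F 3 →* ↥(V i j ⊔ V j k), Function.Surjective g) :
    ∃ f : SU (m + 4) F 3 →* G, Function.Surjective f := by
  have hV : ∀ i j : Fin (m + 3), (i : ℕ) + 1 = j → V i j = U i ⊔ U j := fun i j h => by
    obtain ⟨π, -, a, b, c⟩ := cover (by omega) (h2 i j h)
    rw [← c, rng gen3, a, b]
  let W : ℕ → Subgroup G := fun i => if h : i < m + 3 then U ⟨i, h⟩ else ⊥
  have hW : ∀ i h, W i = U ⟨i, h⟩ := fun i h => dif_pos h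
  have c1 : ∀ i j, i + 2 ≤ j → j < m + 3 → W i ≤ centralizer (W j) := fun i j a b x hx y hy =>
    (h1 ⟨i, by omega⟩ ⟨j, b⟩ a x (hW _ _ ▸ hx) y (hW _ _ ▸ hy)).symm
  obtain ⟨π, f1, f2⟩ := frames hF gen3 m W (fun i h x hx y hy => (c1 i _ le_rfl (by omega) hx y hy).symm)
    (fun i h => by
      obtain ⟨π, a, b, c, -⟩ := cover (by omega) (h2 ⟨i, by omega⟩ ⟨i + 1, by omega⟩ rfl)
      exact ⟨π, a, by rw [hW, b], by rw [hW, c]⟩)
    (fun i h => by
      obtain ⟨g, hg⟩ := h4 ⟨i, by omega⟩ ⟨i + 1, by omega⟩ ⟨i + 2, by omega⟩ rfl rfl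
      refine ⟨(Subgroup.subtype _).comp g, ?_⟩
      rw [MonoidHom.range_comp, MonoidHom.range_eq_top.2 hg, ← MonoidHom.range_eq_map, range_subtype, hV _ _ rfl, hV _ _ rfl, hW _ (by omega), hW _ (by omega), hW _ (by omega)]
      exact ⟨le_sup_left, le_sup_right⟩)
  have r : ∀ i ≤ m + 1, (π i).range = W i ⊔ W (i + 1) := fun i h => by rw [rng gen3, (f1 i h).1, (f1 i h).2]
  have c2 : ∀ i j, i + 2 ≤ j → j ≤ m + 1 → W i ≤ centralizer (π j).range := fun i j a b => by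
    rw [le_centralizer_iff, r j b]
    exact sup_le (le_centralizer_iff.1 (c1 _ _ a (by omega))) (le_centralizer_iff.1 (c1 _ _ (by omega) (by omega)))
  obtain ⟨Φ, h⟩ := univ π f2 (fun i j a b x y => ⟨(c2 i j a b ((f1 i (by omega)).1.le ⟨x, rfl⟩) _ ⟨y, rfl⟩).symm,
      ((sup_le (c1 i (j + 1) (by omega) (by omega)) (c1 (i + 1) (j + 1) (by omega) (by omega))) ((r i (by omega)).le ⟨y, rfl⟩) _ ((f1 j b).2.le ⟨x, rfl⟩)).symm⟩)
    fun i j a b x y => ((sup_le (c2 i j (by omega) b) (c2 (i + 1) j (by omega) b)) ((r i (by omega)).le ⟨x, rfl⟩) _ ⟨y, rfl⟩).symm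
  replace h : ∀ i, U i ≤ Φ.range := fun ⟨i, hi⟩ => by
    rw [← hW]
    rcases i with _ | i
    exacts [le_sup_left.trans ((r 0 (by omega)).ge.trans (h 0 (by omega))), le_sup_right.trans ((r i (by omega)).ge.trans (h i (by omega)))]
  refine ⟨Φ, MonoidHom.range_eq_top.1 (top_unique (hgen.ge.trans (sup_le (iSup_le h) (iSup_le fun i => iSup_le fun j => iSup_le fun hij => ?_))))⟩
  rw [hV i j hij]
  exact sup_le (h i) (h j)

end CA.PhanF
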