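import Cfsg.Agent.Lib.Lin.PrsSL2

/-! Two generators of `SL₂(q)`. -/

namespace CA.Prs

open Matrix Subgroup
open scoped MatrixGroups commutatorElement

variable {F : Type*} [Field F] [Finite F]

/-- additive span of the multiples of powers of a generator -/
theorem span_pow {γ : F} (hγ : Subring.closure {γ} = ⊤) {P : F → Prop} (h0 : P 0) (ha : ∀ a b, P a → P b → P (a + b)) {c : F}
    (hc : c ≠ 0) (h : ∀ i : ℕ, P (c * γ ^ i)) (a : F) : P a := by
  obtain ⟨p, hp⟩ := CharP.exists F
  have := Fact.mk (CharP.char_is_prime F p)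
  by_cases e : γ = 0
  · have : ∀ n : ℕ, P (c * n) := fun n => by induction n <;> simp_all [mul_add]; exact ha _ _ ‹_› (by simpa using h 0)
    have h2 : (⊤ : Subring F) ≤ (Int.castRingHom F).range := hγ ▸ Subring.closure_le.2 (by simpa [e] using ⟨0, by simp⟩)
    obtain ⟨m, hm⟩ := h2 (Subring.mem_top (c⁻¹ * a))
    obtain ⟨n, hn⟩ := ZMod.natCast_zmod_surjective (n := p) m
    have := this n
    rwa [show (n : F) = m by simpa using congrArg (ZMod.castHom dvd_rfl F) hn, show (m : F) = _ from hm, mul_inv_cancel_left₀ hc] at this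
  obtain ⟨d, -, b, -⟩ := modl p e hγ
  obtain ⟨L, -, e⟩ := b (c⁻¹ * a)
  rw [← mul_inv_cancel_left₀ hc a, e]
  clear e
  induction L <;> simp_all [mul_add]

variable (F) in
theorem sl2_two : ∃ a b : SL(2, F), closure {a, b} = ⊤ := by
  obtain ⟨ζ, h0, hζ, ho⟩ := exists_gen F
  have g := closure_pow ho two_ne_zero (by simp) h0
  have z := zero_of_add (r2_sl (F := F)).add
  by_cases h : ζ ^ 2 = 1
  · have a1 : xu 1 ∈ closure {xu (1 : F), tw F} := subset_closure (by simp)
    have a2 : tw F ∈ closure {xu (1 : F), tw F} := subset_closure (by simp)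
    refine ⟨_, _, closure_sl2 h0 hζ (span_pow g (z ▸ one_mem _) (fun a b x y => r2_sl.add a b ▸ mul_mem x y) one_ne_zero
      (by simpa [h] using a1)) ?_ a2⟩
    rcases sq_eq_one_iff.1 h with rfl | rfl
    · exact (pow_zero (1 : F) ▸ hd_pow one_ne_zero 0) ▸ pow_zero (hd (1 : F)) ▸ one_mem _
    · exact (r2_sl (F := F)).t2 ▸ mul_mem a2 a2
  · have a1 : hd ζ ∈ closure {hd ζ, xu 1 * tw F} := subset_closure (by simp)
    have a2 : xu 1 * tw F ∈ closure {hd ζ, xu 1 * tw F} := subset_closure (by simp)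
    have a3 := mul_mem a1 (mul_mem (mul_mem a2 a1) (inv_mem a2))
    have e : hd ζ * (xu 1 * tw F * hd ζ * (xu 1 * tw F)⁻¹) = xu (ζ ^ 2 - 1) := by
      refine Subtype.ext (CA.SL2Basic.ext4 ?_ ?_ ?_ ?_) <;>
      simp [xu_val, tw_val, hd_val, h0, Matrix.mul_apply, Fin.sum_univ_two, adjugate_fin_two]
      field_simp; ring
    have a4 := span_pow g (P := fun a => xu a ∈ closure {hd ζ, xu 1 * tw F}) (z ▸ one_mem _)
      (fun a b x y => r2_sl.add a b ▸ mul_mem x y) (sub_ne_zero.2 h) fun i => by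
        rw [mul_comm, ← pow_mul, mul_comm 2, pow_mul, ← hd_conj (pow_ne_zero i h0), ← hd_pow h0, ← e]
        exact mul_mem (mul_mem (pow_mem a1 i) a3) (inv_mem (pow_mem a1 i))
    exact ⟨_, _, closure_sl2 h0 hζ a4 a1 ((Subgroup.mul_mem_cancel_left _ (a4 1)).1 a2)⟩

theorem ker_gen {G N : Type*} [Group G] [Group N] {d r k : ℕ} (hG : Pres d r G) (p : N →* G) (hp : Function.Surjective p)
    (x : Fin k → N) (hx : closure (Set.range x) = ⊤) : ∃ W : List N, W.length ≤ r + k ∧ (∀ w ∈ W, p w = 1) ∧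
      ∀ (J : Type) [Group J] (q : N →* J), (∀ w ∈ W, q w = 1) → ∃ Φ : G →* J, Φ.comp p = q := by
  obtain ⟨R, hR, ⟨e⟩⟩ := hG
  choose v hv using fun i => hp (e (.of i))
  choose w hw using fun j => PresentedGroup.mk_surjective (↑R : Set (FreeGroup (Fin d))) (e.symm (p (x j)))
  have a1 : p.comp (FreeGroup.lift v) = e.toMonoidHom.comp (PresentedGroup.mk _) := by
    ext i; simp [hv]; rfl
  refine ⟨R.toList.map (FreeGroup.lift v) ++ List.ofFn fun j => (x j)⁻¹ * FreeGroup.lift v (w j), by simpa using hR,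
    fun g hg => ?_, fun J _ q h => ?_⟩
  · rcases List.mem_append.1 hg with hg | hg
    · obtain ⟨g, hg', rfl⟩ := List.mem_map.1 hg
      rw [show p _ = _ from DFunLike.congr_fun a1 g]
      simp [PresentedGroup.one_of_mem (Finset.mem_coe.2 (Finset.mem_toList.1 hg'))]
    · obtain ⟨j, rfl⟩ := List.mem_ofFn.1 hg
      rw [map_mul, show p (FreeGroup.lift v _) = _ from DFunLike.congr_fun a1 _]
      simp [hw]
  · have a2 : FreeGroup.lift (fun i => q (v i)) = q.comp (FreeGroup.lift v) := by ext i; simp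
    let σ : PresentedGroup (↑R : Set (FreeGroup (Fin d))) →* J :=
      PresentedGroup.toGroup (f := fun i => q (v i)) fun g hg => by
        rw [a2]; exact h _ (List.mem_append_left _ (List.mem_map_of_mem (Finset.mem_toList.2 hg)))
    refine ⟨σ.comp e.symm.toMonoidHom, MonoidHom.eq_of_eqOn_dense hx ?_⟩
    rintro _ ⟨j, rfl⟩
    have a3 : σ.comp (PresentedGroup.mk _) = q.comp (FreeGroup.lift v) := by
      ext i; simp only [MonoidHom.comp_apply, FreeGroup.lift_apply_of]; exact PresentedGroup.toGroup.of _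
    have := h _ (List.mem_append_right _ (List.mem_ofFn.2 ⟨j, rfl⟩))
    rw [map_mul, map_inv, inv_mul_eq_one] at this
    rw [this, MonoidHom.comp_apply, MonoidHom.comp_apply, MulEquiv.coe_toMonoidHom, ← hw]
    exact DFunLike.congr_fun a3 _

end CA.Prs
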