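import Cfsg.Agent.Lib.Lin.SpAm3

/-! Heisenberg groups from a bounded number of relations. -/

namespace CA.SpAm

open Module CA.CForm CA.CForm.Form Submodule

variable {F : Type*} [Field F] {V : Type*} [AddCommGroup V] [Module F V] [FiniteDimensional F V]
  {f : Form (Kind.symp F) V} {H : Type*} [Group H]

theorem heis (hF : ∃ a : F, a ≠ 0 ∧ a ≠ 1) (hf : f.Nondeg) {x0 y0 : V} (h0 : f.IsHyp x0 y0) {ζ : F} (z0 : ζ ≠ 0)
    (hζ : ∀ a : F, a ≠ 0 → ∃ i : ℕ, ζ ^ i = a) (φ : f.Isom →* H) (X : F → H) (ξ η : H)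
    (x1 : ∀ c c', X c * X c' = X (c + c')) (x2 : ∀ c l, X c * φ l = φ l * X c) (x4 : ∀ c, X c * ξ = ξ * X c)
    (c1 : ∀ l : f.Isom, l.1 x0 = x0 → Commute (φ l) ξ) (e1 : ∀ l, Commute η (φ l))
    (e2 : ∃ t : f.Isom, t.1 x0 = ζ • x0 ∧ η * ξ * η⁻¹ = φ t * ξ * (φ t)⁻¹) (e3 : ∀ c, η * X c * η⁻¹ = X (ζ ^ 2 * c))
    (R : ∀ b, b = 1 ∨ b = ζ → ∃ l l' : f.Isom, l.1 x0 = b • y0 ∧ l'.1 x0 = x0 + b • y0 ∧
      ξ * (φ l * ξ * (φ l)⁻¹) = φ l' * ξ * (φ l')⁻¹ * X b) :
    ∃ U : V → F → H, (∀ w c w' c', U w c * U w' c' = U (w + w') (c + c' + f.B w w')) ∧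
      (∀ l w c, φ l * U w c = U (l.1 w) c * φ l) ∧ (∀ c, U 0 c = X c) ∧ U x0 0 = ξ := by
  classical
  have x0' : X 0 = 1 := by simpa using x1 0 0
  choose r hr using fun (w : V) (hw : w ≠ 0) => hf.witt_one h0.x_ne_zero hw (by rw [symp_Q, symp_Q])
  obtain ⟨Y, y1, y2⟩ : ∃ Y : V → H, Y 0 = 1 ∧ ∀ l : f.Isom, Y (l.1 x0) = φ l * ξ * (φ l)⁻¹ := by
    refine ⟨fun w => if hw : w = 0 then 1 else φ (r w hw) * ξ * (φ (r w hw))⁻¹, by simp, fun l => ?_⟩
    have h1 : l.1 x0 ≠ 0 := by simpa using h0.x_ne_zero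
    have := (c1 (l⁻¹ * r _ h1) (by rw [isom_mul_apply, hr, isom_inv_apply_apply])).eq
    simp only [h1, dif_neg, not_false_eq_true]
    rw [← mul_inv_cancel_left l (r _ h1), map_mul, mul_assoc (φ l), this]
    group
  have y0' : Y x0 = ξ := by simpa using y2 1
  have y3 : ∀ l w, φ l * Y w * (φ l)⁻¹ = Y (l.1 w) := fun l w => by
    by_cases hw : w = 0
    · simp [hw, y1]
    rw [← hr w hw, ← isom_mul_apply, y2, y2, map_mul]
    group
  have y4 : ∀ c w, X c * Y w = Y w * X c := fun c w => by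
    by_cases hw : w = 0
    · simp [hw, y1]
    rw [← hr w hw, y2, ← map_inv, ← mul_assoc, ← mul_assoc, x2, mul_assoc (φ _), x4, mul_assoc, mul_assoc, x2]
    group
  have y5 : ∀ w, η * Y w * η⁻¹ = Y (ζ • w) := fun w => by
    by_cases hw : w = 0
    · simp [hw, y1]
    obtain ⟨t, t1, t2⟩ := e2
    rw [← hr w hw, ← map_smul, ← t1, ← y3 _ (t.1 x0), y2, y2, ← t2, ← mul_assoc, ← mul_assoc, (e1 _).eq, mul_assoc, mul_assoc,
      ← mul_inv_rev, (e1 _).eq]
    group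
  have y6' : ∀ (i : ℕ) (w w' : V), f.B w w' = ζ ^ i → Y w * Y w' = Y (w + w') * X (f.B w w') := fun i => by
    induction i using Nat.strong_induction_on with
    | _ i ih =>
    intro w w' hw
    by_cases hi : i < 2
    · obtain ⟨l1, l2, a, b, d⟩ := R (ζ ^ i) (by interval_cases i <;> simp)
      obtain ⟨l, l1, l2⟩ := h0.exists_isom hf (x' := w) (y' := (ζ ^ i)⁻¹ • w') ⟨symp_Q .., symp_Q .., by simp [hw, z0]⟩
      rw [← y2, ← y2, ← y0', a, b] at d
      have e2 : l.1 (ζ ^ i • y0) = w' := by simp [l2, smul_smul, z0]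
      rw [hw, ← e2, ← l1, ← map_add, ← y3, ← y3, ← y3, mul_assoc _ (φ l)⁻¹ (X _), ← map_inv, ← x2, map_inv]
      calc _ = φ l * (Y x0 * Y (ζ ^ i • y0)) * (φ l)⁻¹ := by group
        _ = _ := by rw [d]; group
    · obtain ⟨i, rfl⟩ : ∃ j, i = j + 2 := ⟨i - 2, by omega⟩
      have := congrArg (η * · * η⁻¹) (ih i (by omega) (ζ⁻¹ • w) (ζ⁻¹ • w') (by simp [hw]; field_simp; ring))
      have k : ∀ a b : H, η * (a * b) * η⁻¹ = η * a * η⁻¹ * (η * b * η⁻¹) := fun a b => by group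
      simp only [k, y5, e3, smul_add, smul_inv_smul₀ z0] at this
      rw [this]; congr 2; simp; field_simp
  have y6 : ∀ w w' : V, f.B w w' ≠ 0 → Y w * Y w' = Y (w + w') * X (f.B w w') := fun w w' hw =>
    (hζ _ hw).elim fun i hi => y6' i w w' hi.symm
  have y7 : ∀ w w' : V, Y w * Y w' = Y (w + w') * X (f.B w w') := fun w w' => by
    by_cases hw : w = 0
    · simp [hw, y1, x0']
    by_cases hw' : w' = 0
    · simp [hw', y1, x0']
    by_cases hb : f.B w w' = 0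
    swap
    · exact y6 w w' hb
    by_cases h1 : w + w' = 0
    · obtain rfl := eq_neg_of_add_eq_zero_left h1
      obtain ⟨z, hz⟩ := hf.exists_B_ne_zero hw'
      apply mul_right_cancel (b := Y z)
      rw [mul_assoc, y6 _ _ hz, ← mul_assoc, y6 _ _ (by simpa [symp_B_self] using hz), mul_assoc, x1]
      simp [symp_B_self, x0', y1]
    obtain ⟨z, z1, z2, z3⟩ := three hF hf hw hw' h1
    simp only [B_add_left] at z1 z2 z3
    have e1 : f.B z w' = -f.B w' z := f.symp_symm _ _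
    have a := y6 (w - z) z (by simpa [symp_B_self] using z1)
    have b := y6 z w' (by simpa [e1] using z2)
    have c := y6 (w - z) (z + w') (by simpa [symp_B_self, hb, e1] using z3)
    rw [sub_add_cancel] at a
    apply mul_right_cancel (b := X (f.B (w - z) z))
    rw [mul_assoc, ← y4, ← mul_assoc, ← a, mul_assoc, b, ← mul_assoc, c, mul_assoc, x1, mul_assoc, x1,
      show w - z + (z + w') = w + w' by abel]
    simp [symp_B_self, hb]
  refine ⟨fun w c => Y w * X c, fun w c w' c' => ?_, fun l w c => ?_, by simp [y1], by simp [y0', x0']⟩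
  · rw [mul_assoc, ← mul_assoc (X c), y4, ← mul_assoc, ← mul_assoc, y7, mul_assoc, mul_assoc, x1, x1]
    ring_nf
  · beta_reduce; rw [← y3, mul_assoc _ (X c), x2]; group

omit [FiniteDimensional F V] in
theorem exists_pi {e y : V} (h : f.IsHyp e y) (φ : (f.restrict (Pl f e y)).Isom →* H) (U : Pl f e y → F → H)
    (u1 : ∀ w c w' c', U w c * U w' c' = U (w + w') (c + c' + f.B w w')) (u2 : ∀ l w c, φ l * U w c = U (l.1 w) c * φ l) :
    ∃ π : f.Isom → H, MulOn (f.fix (F ∙ e)) π ∧ ∀ w c l, π (E h w c * io h l) = U w c * φ l := by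
  classical
  obtain ⟨π, hπ⟩ : ∃ π : f.Isom → H, ∀ w c l, π (E h w c * io h l) = U w c * φ l := by
    refine ⟨fun p => if hp : ∃ x : _ × _ × _, p = E h x.1 x.2.1 * io h x.2.2 then U hp.choose.1 hp.choose.2.1 * φ hp.choose.2.2
      else 1, fun w c l => ?_⟩
    have hp : ∃ x : _ × _ × _, E h w c * io h l = E h x.1 x.2.1 * io h x.2.2 := ⟨(w, c, l), rfl⟩
    obtain ⟨a, b, d⟩ := decomp_unique h hp.choose_spec
    simp only [dif_pos hp, ← a, ← b, ← d]
  refine ⟨π, fun a ha b hb => ?_, hπ⟩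
  obtain ⟨w, c, l, rfl⟩ := decomp h (f.mem_fix_span_singleton.1 ha)
  obtain ⟨w', c', l', rfl⟩ := decomp h (f.mem_fix_span_singleton.1 hb)
  rw [mul_assoc, ← mul_assoc (io h l), io_E, ← mul_assoc, ← mul_assoc, E_mul, mul_assoc, ← map_mul, hπ, hπ, hπ, map_mul,
    mul_assoc, ← mul_assoc (φ l), u2, ← u1]
  group

end CA.SpAm
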