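import Cfsg.Agent.Lib.Lin.PrsSp1
import Cfsg.Agent.Lib.Lin.PrsSL1

/-! `Sp₄` from a bounded number of relations. -/

namespace CA.SpAm

open Module CA.CForm CA.CForm.Form Submodule
open scoped commutatorElement

/-- the relators -/
def rl {L J : Type*} [Group L] [Group J] (A B t m u u' l1 l2 l3 l4 : L) (φ : L →* J) (n ξ : J) : List J :=
  [⁅n * φ A * n⁻¹, φ A⁆, ⁅n * φ A * n⁻¹, φ B⁆, ⁅n * φ B * n⁻¹, φ A⁆, ⁅n * φ B * n⁻¹, φ B⁆, ⁅(n * φ t * n⁻¹)⁻¹ * φ t, ξ⁆,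
    ⁅φ u, ξ⁆, ⁅n * φ u * n⁻¹, ξ⁆, (ξ * (φ l1 * ξ * (φ l1)⁻¹))⁻¹ * (φ l2 * ξ * (φ l2)⁻¹ * (n * φ u * n⁻¹)),
    (ξ * (φ l3 * ξ * (φ l3)⁻¹))⁻¹ * (φ l4 * ξ * (φ l4)⁻¹ * (n * φ u' * n⁻¹)), (n * n)⁻¹ * (φ m * (n * φ m * n⁻¹)), n * ξ * n⁻¹ * ξ]

theorem map_rl {L J J' : Type*} [Group L] [Group J] [Group J'] (A B t m u u' l1 l2 l3 l4 : L) (φ : L →* J) (n ξ : J) (q : J →* J') :
    (∀ w ∈ rl A B t m u u' l1 l2 l3 l4 φ n ξ, q w = 1) ↔ ∀ w ∈ rl A B t m u u' l1 l2 l3 l4 (q.comp φ) (q n) (q ξ), w = 1 := by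
  simp only [rl, List.forall_mem_cons, map_mul, map_inv, map_commutatorElement, MonoidHom.comp_apply, List.not_mem_nil, false_imp_iff,
    implies_true]

variable {F : Type*} [Field F] {V : Type*} [AddCommGroup V] [Module F V] {f : Form (Kind.symp F) V}

theorem Bs.ext {n : ℕ} {e y : Fin n → V} (b : Bs f e y) {g g' : f.Isom} (h1 : ∀ k, g.1 (e k) = g'.1 (e k))
    (h2 : ∀ k, g.1 (y k) = g'.1 (y k)) : g = g' := f.isom_ext fun v => by rw [← b.sp v]; simp [h1, h2]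

variable {e y : Fin 2 → V} (b : Bs f e y)

theorem Bs.vals : f.B (e 0) (y 0) = 1 ∧ f.B (e 1) (y 1) = 1 ∧ f.B (y 0) (e 0) = -1 ∧ f.B (y 1) (e 1) = -1 ∧ f.B (e 0) (y 1) = 0 ∧
    f.B (e 1) (y 0) = 0 ∧ f.B (y 0) (e 1) = 0 ∧ f.B (y 1) (e 0) = 0 ∧ (b.e' 0).1 = e 1 ∧ (b.y' 0).1 = y 1 ∧
    (∀ l, (io (b.hyp 0) l).1 (e 1) = l.1 (b.e' 0)) ∧ (∀ l, (io (b.hyp 0) l).1 (y 1) = l.1 (b.y' 0)) :=
  ⟨b.B_ey _, b.B_ey _, b.B_ye _, b.B_ye _, b.B_ey' _ _ (by simp), b.B_ey' _ _ (by simp), b.B_ye' _ _ (by simp), b.B_ye' _ _ (by simp),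
    rfl, rfl, fun l => io_w _ l (b.e' 0), fun l => io_w _ l (b.y' 0)⟩

include b in
theorem exists_nu : ∃ ν : f.Isom, ν.1 (e 0) = e 1 ∧ ν.1 (e 1) = -e 0 ∧ ν.1 (y 0) = y 1 ∧ ν.1 (y 1) = -y 0 :=
  ⟨E (b.hyp 0) (b.y' 0) 0 * E (b.hyp 1) ⟨-y 0, f.mem_perp_span_pair.2 (by simp [b.vals, b.B_yy])⟩ 0 * E (b.hyp 0) (b.y' 0) 0, by
    simp [isom_mul_apply, E_apply, b.vals, b.B_ee, b.B_yy]⟩

variable [FiniteDimensional F V] [Finite F] (hF : ∃ a : F, a ≠ 0 ∧ a ≠ 1)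
include hF

set_option maxHeartbeats 2000000 in
theorem ker4 {A B : (f.restrict (Pl f (e 0) (y 0))).Isom} (hAB : Subgroup.closure {A, B} = ⊤) {N : Type*} [Group N]
    (p : N →* f.Isom) (hp : Function.Surjective p) (j : _ →* N) (hj : ∀ l, p (j l) = io (b.hyp 0) l) (a1 a2 : N)
    (hgen : Subgroup.closure (Set.range j ∪ {a1, a2}) = ⊤) : ∃ W : List N, W.length = 13 ∧ (∀ w ∈ W, p w = 1) ∧
      ∀ (J : Type) [Group J] (q : N →* J), (∀ w ∈ W, q w = 1) → ∃ Φ : f.Isom →* J, Φ.comp p = q := by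
  obtain ⟨ζ, z0, hζ, ho⟩ := CA.Prs.exists_gen F
  have hγ := CA.Prs.closure_pow ho two_ne_zero (by simp) z0
  obtain ⟨ν, n1, n2, n3, n4⟩ := exists_nu b
  have v := b.vals
  set h := b.hyp 0
  have h0 := b.bs.hyp 0
  have hf := b.nondeg
  have hf' := b.bs.nondeg
  let T := fun c => E h0 0 c
  let t := h0.torus (.mk0 ζ z0)
  let m := (f.restrict (Pl f (e 0) (y 0))).scalarIsom (-1) (by simp)
  have t1 : t.1 (b.e' 0) = ζ • (b.e' 0) := h0.torus_apply_x _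
  have t2 : t.1 (b.y' 0) = ζ⁻¹ • (b.y' 0) := h0.torus_apply_y _
  have T1 : ∀ c, (T c).1 (b.e' 0) = (b.e' 0) := fun c => E_e ..
  have T2 : ∀ c, (T c).1 (b.y' 0) = (b.y' 0) + c • (b.e' 0) := fun c => by simp [T, E_apply, v]
  have T3 : ∀ l, l.1 (b.e' 0) = (b.e' 0) → ∃ c, l = T c := fun l hl => by
    have := (f.restrict _).B_coe_map l (b.e' 0) (b.y' 0)
    rw [hl, h0.B_xy, restrict_B] at this
    refine ⟨-f.B (b.y' 0) (l.1 (b.y' 0)), b.bs.ext (Fin.forall_fin_one.2 (hl.trans (T1 _).symm)) (Fin.forall_fin_one.2 ?_)⟩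
    simpa [T2, this, add_comm] using (b.bs.sp (l.1 (b.y' 0))).symm
  have T4 : ∀ c c', T (c + c') = T c * T c' := fun c c' => by simp [T, E_mul]
  have T5 : ∀ c, t * T c * t⁻¹ = T (ζ ^ 2 * c) := fun c => mul_inv_eq_iff_eq_mul.2 (b.bs.ext (Fin.forall_fin_one.2 (by
    simp [isom_mul_apply, t1, T1])) (Fin.forall_fin_one.2 (by simp [isom_mul_apply, t1, t2, T2, smul_smul, sq, z0, mul_assoc, mul_comm c])))
  have I1 : ∀ c, ν * io h (T c) * ν⁻¹ = E h 0 c := fun c => mul_inv_eq_iff_eq_mul.2 (b.ext (Fin.forall_fin_two.2 (by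
    simp [isom_mul_apply, E_apply, *, io_e, b.B_ee])) (Fin.forall_fin_two.2 (by simp [isom_mul_apply, E_apply, *, io_y, neg_add_eq_sub])))
  have I2 : ∀ w : Pl f (e 0) (y 0), E h (-w) 0 = (E h w 0)⁻¹ := fun w => eq_inv_of_mul_eq_one_left (by simp [E_mul, symp_B_self, E_zero])
  have I3 : ∀ s : F, ν * E h (s • (b.e' 0)) 0 * ν⁻¹ = E h (-s • (b.e' 0)) 0 := fun s => mul_inv_eq_iff_eq_mul.2 (b.ext (Fin.forall_fin_two.2 (by
    simp [isom_mul_apply, E_apply, v, n1, n2, b.B_ee])) (Fin.forall_fin_two.2 (by simp [isom_mul_apply, E_apply, v, n1, n2, n3, n4, b.B_yy, add_comm])))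
  have I4 : ∀ g, ν⁻¹ * g * ν = ν * g * ν⁻¹ := fun g => by
    have : ∀ x, ν.1 (ν.1 x) = -x := fun x => by rw [← b.sp x]; simp [Fin.sum_univ_two, n1, n2, n3, n4]; abel
    rw [← mul_right_inj ν, ← mul_left_inj ν]
    exact f.isom_ext fun x => by simp [isom_mul_apply, this]
  have S1 : ∀ l, io h l ∈ SS f e y (0 + 1) := fun l => b.io_S.2 ⟨by simp, by simp⟩
  have S0 : ∀ l, ν * io h l * ν⁻¹ ∈ SS f e y 0 := fun l => by
    constructor <;> refine Fin.forall_fin_two.2 ⟨by simp, fun _ => ?_⟩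
    · rw [← n1, isom_mul_apply, isom_inv_apply_apply, isom_mul_apply, io_e]
    · rw [← n3, isom_mul_apply, isom_inv_apply_apply, isom_mul_apply, io_y]
  have S0' : ∀ s ∈ f.fix (Pl f (e 0) (y 0)), ∃ l, s = ν * io h l * ν⁻¹ := fun s hs => by
    obtain ⟨l, hl⟩ := exists_io h (g := ν⁻¹ * s * ν)
      (by rw [isom_mul_apply, isom_mul_apply, n1, show s.1 (e 1) = e 1 from hs _ (b.e' 0).2, ← n1, isom_inv_apply_apply])
      (by rw [isom_mul_apply, isom_mul_apply, n3, show s.1 (y 1) = y 1 from hs _ (b.y' 0).2, ← n3, isom_inv_apply_apply])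
    exact ⟨l, by rw [hl]; group⟩
  have cm : ∀ l l', Commute (ν * io h l * ν⁻¹) (io h l') := fun l l' => b.comm (Fin.forall_fin_two.2
    ⟨⟨.inr (io_e ..), .inr (io_y ..)⟩, .inl ((S0 l).2 1 (by simp)), .inl ((S0 l).1 1 (by simp))⟩)
  have wt : ∀ w, w ≠ 0 → ∃ l : (f.restrict (Pl f (e 0) (y 0))).Isom, l.1 (b.e' 0) = w := fun w hw =>
    hf'.witt_one h0.x_ne_zero hw (by rw [symp_Q, symp_Q])
  have wt' : ∀ c : F, c ≠ 0 → ∃ l l' : (f.restrict (Pl f (e 0) (y 0))).Isom, (l.1 (b.e' 0) = c • (b.y' 0) ∧ l'.1 (b.e' 0) = (b.e' 0) + c • (b.y' 0)) ∧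
      E h (b.e' 0) 0 * (io h l * E h (b.e' 0) 0 * (io h l)⁻¹) = io h l' * E h (b.e' 0) 0 * (io h l')⁻¹ * (ν * io h (T c) * ν⁻¹) := fun c hc => by
    obtain ⟨l, -, hl⟩ := plane h0 0 hc
    obtain ⟨l', -, hl'⟩ := plane h0 1 hc
    rw [zero_smul, zero_add] at hl
    rw [one_smul] at hl'
    exact ⟨l, l', ⟨hl, hl'⟩, by simp [io_E, I1, E_mul, hl, hl', v]⟩
  have mx : E h (b.e' 0) 0 ∈ MM f e y 0 := b.M_eq.ge (by simpa using E_mem h (x0 := (b.e' 0)) 1 0 : _ ∈ f.fix (Pl f (e 0) (b.e' 0)))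
  have c : ∀ g ∈ MM f e y 0, ∀ g' ∈ MM f e y 0, Commute g g' := fun g hg g' hg' =>
    b.comm fun k => ⟨.inr (hg'.1 k trivial), .inl (hg.1 k trivial)⟩
  have I5 : ν * io h t * ν⁻¹ = h.torus (.mk0 ζ z0) := mul_inv_eq_iff_eq_mul.2 (b.ext (Fin.forall_fin_two.2 (by
    simp [isom_mul_apply, IsHyp.torus_apply, v, t1, n1, n2, io_e, b.B_ee]; module)) (Fin.forall_fin_two.2 (by
      simp [isom_mul_apply, IsHyp.torus_apply, v, t2, n3, n4, io_y, b.B_yy]; module)))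
  have I6 : h.torus (.mk0 ζ z0) * E h (b.e' 0) 0 = E h (ζ • (b.e' 0)) 0 * h.torus (.mk0 ζ z0) := b.ext (Fin.forall_fin_two.2 (by
    simp [isom_mul_apply, IsHyp.torus_apply, v, E_apply, b.B_ee])) (Fin.forall_fin_two.2 (by
      simp [isom_mul_apply, IsHyp.torus_apply, v, E_apply, b.B_ee, b.B_yy, z0]; constructor <;> module))
  obtain ⟨l1, l2, r1, r2⟩ := wt' 1 one_ne_zero
  obtain ⟨l3, l4, r3, r4⟩ := wt' ζ z0
  obtain ⟨n, rfl⟩ := hp ν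
  obtain ⟨ξ, hξ⟩ := hp (E h (b.e' 0) 0)
  let K := Subgroup.closure (Set.range j ∪ Set.range (fun l => n * j l * n⁻¹) ∪ {ξ})
  have gK : ∀ g, g ∈ K.map p := by
    have k1 : ∀ l, io h l ∈ K.map p := fun l => ⟨j l, Subgroup.subset_closure (by simp), hj l⟩
    have k2 : f.fix (Pl f (e 0) (y 0)) ≤ K.map p := fun s hs => (S0' s hs).elim fun l hl =>
      ⟨n * j l * n⁻¹, Subgroup.subset_closure (.inl (.inr ⟨l, rfl⟩)), by simp [hl, hj]⟩
    refine top_of hF hf h k2 fun g hg => ?_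
    obtain ⟨w, c, l, rfl⟩ := decomp h hg
    rw [show E h w c = E h w 0 * E h 0 c by simp [E_mul]]
    refine mul_mem (mul_mem ?_ (k2 (I1 c ▸ (b.S_eq 0).le (S0 _)))) (k1 l)
    by_cases hw : w = 0
    · simp [hw, E_zero]
    obtain ⟨l, rfl⟩ := wt w hw
    rw [← Subgroup.mul_mem_cancel_right _ (k1 l), ← io_E]
    exact mul_mem (k1 l) ⟨ξ, Subgroup.subset_closure (by simp), hξ⟩
  obtain ⟨k1, k1', k1''⟩ := gK (p a1)
  obtain ⟨k2, k2', k2''⟩ := gK (p a2)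
  refine ⟨a1⁻¹ * k1 :: a2⁻¹ * k2 :: rl A B t m (T 1) (T ζ) l1 l2 l3 l4 j n ξ, rfl, ?_, fun J _ q hq => ?_⟩
  · simp only [List.forall_mem_cons, map_rl, show p.comp j = io h from MonoidHom.ext hj, hξ]
    refine ⟨by simp [*], by simp [*], ?_⟩
    simp only [rl, List.forall_mem_cons, commutatorElement_eq_one_iff_commute, cm, true_and, inv_mul_eq_one, r2, r4]
    refine ⟨?_, c _ ⟨Fin.forall_fin_two.2 (by simp [io_e, v, T1]), by simp⟩ _ mx, c _ ⟨Fin.forall_fin_two.2 (by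
      simp [I1, E_apply, b.B_ee]), by simp⟩ _ mx, ?_, by simpa [I2] using congrArg (· * E h (b.e' 0) 0) (I3 1), by simp⟩
    · rw [Commute, SemiconjBy, mul_assoc, io_E, inv_mul_eq_iff_eq_mul, ← mul_assoc, ← mul_assoc, I5, I6, t1, mul_inv_cancel_right]
    · rw [← mul_assoc, eq_mul_inv_iff_mul_eq]
      exact b.ext (Fin.forall_fin_two.2 (by simp [isom_mul_apply, v, n1, n2, io_e, m, scalarIsom_apply]))
        (Fin.forall_fin_two.2 (by simp [isom_mul_apply, v, n3, n4, io_y, m, scalarIsom_apply]))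
  simp only [List.forall_mem_cons, map_rl, map_mul, map_inv, inv_mul_eq_one] at hq
  obtain ⟨q1, q2, hq⟩ := hq
  obtain ⟨φ, hφ⟩ : ∃ φ, φ = q.comp j := ⟨_, rfl⟩
  obtain ⟨σ, hσ⟩ : ∃ σ : _ →* J, ∀ l, q n * φ l * (q n)⁻¹ = σ l := ⟨(MulAut.conj (q n)).toMonoidHom.comp φ, fun _ => rfl⟩
  simp only [← hφ, rl, List.forall_mem_cons, commutatorElement_eq_one_iff_commute, inv_mul_eq_one, hσ] at hq
  obtain ⟨c1, c2, c3, c4, c5, c6, c7, c8, c9, c10, c11, -⟩ := hq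
  have two : ∀ (g : _ →* J) x, Commute (g A) x → Commute (g B) x → ∀ l, Commute (g l) x := fun g x a b l =>
    Subgroup.mem_centralizer_singleton_iff.1 ((hAB.ge.trans ((Subgroup.closure_le ((Subgroup.centralizer {x}).comap g)).2 (by
      rintro _ (rfl | rfl) <;> exact Subgroup.mem_centralizer_singleton_iff.2 ‹_›))) (Subgroup.mem_top l))
  have d1 : ∀ l l', Commute (σ l) (φ l') := fun l l' => two σ _ (two φ _ c1.symm c2.symm l').symm (two φ _ c3.symm c4.symm l').symm l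
  have sp : ∀ (g : _ →* J) τ, (∀ c, τ * g (T c) * τ⁻¹ = g (T (ζ ^ 2 * c))) → Commute τ (q ξ) → Commute (g (T 1)) (q ξ) →
      ∀ c, Commute (g (T c)) (q ξ) := fun g τ a b d => CA.Prs.span_pow hγ (by simp [T, E_zero])
    (fun _ _ x y => by rw [T4, map_mul]; exact x.mul_left y) one_ne_zero fun i => by
      induction i with
      | zero => simpa using d
      | succ i ih => rw [one_mul] at ih ⊢; rw [pow_succ', ← a]; exact (b.mul_left ih).mul_left b.inv_left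
  have d2 := sp φ _ (fun c => by
    rw [← T5, map_mul, map_mul, map_inv, mul_inv_rev, inv_inv, mul_assoc, mul_assoc, inv_mul_eq_iff_eq_mul, ← map_inv, ← mul_assoc,
      ← mul_assoc, ← map_mul, ← map_mul, (d1 _ _).eq]) c5 c6
  have d3 := sp σ _ (fun c => by
    have := (d1 (t * T c * t⁻¹) t).eq
    rw [← T5]
    simp only [map_mul, map_inv] at this ⊢
    calc _ = (φ t)⁻¹ * (σ t * σ (T c) * (σ t)⁻¹ * φ t) := by group
      _ = _ := by rw [this]; group) c5.inv_left c7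
  have d4 : ∀ i : ℕ, σ (t ^ i) * q ξ * (σ (t ^ i))⁻¹ = φ (t ^ i) * q ξ * (φ (t ^ i))⁻¹ := fun i => by
    have := (c5.pow_left i).eq
    rw [(d1 _ _).inv_left.mul_pow, inv_pow, ← map_pow, ← map_pow] at this
    rw [eq_mul_inv_iff_mul_eq, mul_assoc, mul_assoc, ← mul_assoc (q ξ), mul_assoc (q ξ), ← this]
    group
  obtain ⟨U, u1, u2, u3, u4⟩ := heis hF hf' h0 z0 hζ φ (fun c => σ (T c)) (q ξ) (σ t) (fun c c' => by rw [T4, map_mul])
    (fun c l => d1 _ _) d3 (fun l hl => (T3 l hl).elim fun c e => e ▸ d2 c) (d1 _) ⟨t, t1, by simpa using d4 1⟩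
    (fun c => by rw [← T5, map_mul, map_mul, map_inv]) (by rintro _ (rfl | rfl); exacts [⟨_, _, r1.1, r1.2, c8⟩, ⟨_, _, r3.1, r3.2, c9⟩])
  obtain ⟨π, p1, p2⟩ := exists_pi h φ U u1 u2
  have u0 : U 0 0 = 1 := by simp [u3, T, E_zero]
  have p3 : ∀ l, π (io h l) = φ l := fun l => by simpa [E_zero, u0] using p2 0 0 l
  have p4 : ∀ w c, π (E h w c) = U w c := fun w c => by simpa using p2 w c 1
  have d5 : ∀ l, q n * σ l * (q n)⁻¹ = φ l := fun l => by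
    have : Commute m l := isom_ext _ fun x => by simp [isom_mul_apply, m, scalarIsom_apply]
    rw [← hσ, ← mul_assoc, ← mul_assoc, mul_assoc _ _ (q n)⁻¹, ← mul_inv_rev, c10, ((this.map φ).mul_left (d1 _ _)).eq, mul_inv_cancel_right]
  have d6 : ∀ s : F, q n * U (-s • (b.e' 0)) 0 * (q n)⁻¹ = U (s • (b.e' 0)) 0 := fun s => by
    by_cases hs : s = 0
    · simp [hs, u0]
    obtain ⟨i, rfl⟩ := hζ s hs
    have e1 : (t ^ i).1 (b.e' 0) = ζ ^ i • (b.e' 0) := by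
      clear hs
      induction i with
      | zero => simp
      | succ i ih => rw [pow_succ, isom_mul_apply, t1, map_smul, ih, smul_smul, pow_succ']
    have e2 := eq_mul_inv_of_mul_eq (u2 (t ^ i) (b.e' 0) 0).symm
    have e3 : U (-ζ ^ i • (b.e' 0)) 0 = (U (ζ ^ i • (b.e' 0)) 0)⁻¹ := eq_inv_of_mul_eq_one_left (by simp [u1, symp_B_self, u0])
    rw [e1, u4] at e2
    rw [e3, e2]
    conv_rhs => rw [← d4, ← hσ, eq_inv_of_mul_eq_one_right c11]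
    group
  have mP : ∀ {g : f.Isom}, g ∈ f.fix (F ∙ e 0) ↔ g.1 (e 0) = e 0 := f.mem_fix_span_singleton
  have mM : ∀ g ∈ f.fix (Pl f (e 0) (b.e' 0)), g ∈ f.fix (F ∙ e 0) := fun g hg => mP.2 ((b.M_eq.ge hg).1 0 trivial)
  have p5 : ∀ l, q n * π ((p n)⁻¹ * (p n * io h l * (p n)⁻¹) * p n) * (q n)⁻¹ = σ l := fun l => by simp [mul_assoc, p3, ← hσ]
  refine (St.step (h := h) (φ := φ) (μ := π) (σ := fun g => q n * π ((p n)⁻¹ * g * p n) * (q n)⁻¹) hF hf h0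
    ⟨fun l hl g hg => ?_, fun l s hs => (S0' s hs).elim fun l' e => e ▸ p5 l' ▸ (d1 _ _).symm, ⟨_, fun g hg g' hg' => ?_, fun g hg => ?_,
      fun _ _ => rfl⟩, _, π, p1, fun g hg => ⟨mM g hg, rfl⟩, fun l _ => ⟨mP.2 (io_e ..), p3 l⟩⟩).imp fun Φ ⟨f1, f2, f3⟩ => ?_
  · rw [← p3, Commute, SemiconjBy, ← p1 _ (mP.2 (io_e ..)) _ (mM g hg), ← p1 _ (mM g hg) _ (mP.2 (io_e ..)),
      (c _ ⟨Fin.forall_fin_two.2 (by simp [io_e, v, hl]), by simp⟩ g (b.M_eq.ge hg)).eq]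
  · have k : ∀ g ∈ f.fix (Pl f (e 0) (b.e' 0)) ⊔ f.fix (Pl f (e 0) (y 0)), (p n)⁻¹ * g * p n ∈ f.fix (F ∙ e 0) := fun g hg => by
      have := f.mem_fix_span_singleton.1 ((sup_le (c := f.fix (F ∙ e 1)) (fun g hg => f.mem_fix_span_singleton.2 ((b.M_eq.ge hg).1 1 trivial))
        fun g (hg : g ∈ f.fix _) => f.mem_fix_span_singleton.2 (hg _ (b.e' 0).2)) hg)
      rw [mP, isom_mul_apply, isom_mul_apply, n1, this, ← n1, isom_inv_apply_apply]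
    beta_reduce
    rw [show (p n)⁻¹ * (g * g') * p n = (p n)⁻¹ * g * p n * ((p n)⁻¹ * g' * p n) by group, p1 _ (k g hg) _ (k g' hg')]
    group
  · obtain ⟨w, c, l, rfl⟩ := decomp h (mP.1 (mM g hg))
    have e1 := (b.M_eq.ge hg).1 1 trivial
    simp only [isom_mul_apply, v, E_apply, ple, zero_smul, add_zero, mul_zero] at e1
    have e2 : f.B w (l.1 (b.e' 0)) = 0 := by simpa [v, ply] using congrArg (f.B (y 0)) e1
    rw [e2, zero_smul, add_zero] at e1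
    obtain ⟨c', rfl⟩ := T3 l (Subtype.ext e1)
    obtain ⟨s, rfl⟩ : ∃ s : F, s • (b.e' 0) = w := ⟨-f.B (b.y' 0) w, by simpa [f.eq_zero_symm (T1 c' ▸ e2)] using b.bs.sp w⟩
    have e3 : (p n)⁻¹ * (E h (s • (b.e' 0)) c * io h (T c')) * p n = E h (-s • (b.e' 0)) 0 * io h (T c) * (E h 0 c' * io h 1) := by
      rw [← I3, ← I1, ← I4, ← I4, show E h (s • (b.e' 0)) c = E h (s • (b.e' 0)) 0 * E h 0 c by simp [E_mul], ← I1, map_one]
      group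
    beta_reduce
    rw [e3, p1 _ (mul_mem (mP.2 (E_e ..)) (mP.2 (io_e ..))) _ (mul_mem (mP.2 (E_e ..)) (mP.2 (io_e ..))), p2, p2, p2, u3,
      show U (s • (b.e' 0)) c = U (s • (b.e' 0)) 0 * U 0 c by simp [u1], u3, ← d6 s, ← d5 (T c'), ← hσ (T c), map_one]
    group
  have k1 : ∀ l, Φ (p (j l)) = q (j l) := fun l => by rw [hj, f1, hφ]; rfl
  have k2 : K ≤ (Φ.comp p).eqLocus q := (Subgroup.closure_le _).2 (by
    rintro _ ((⟨l, rfl⟩ | ⟨l, rfl⟩) | rfl)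
    · exact k1 l
    · change Φ (p _) = _
      simp only [map_mul p, map_inv p, hj]
      rw [f2 _ ((b.S_eq 0).le (S0 l)), p5, ← hσ, hφ]; simp
    · change Φ (p _) = _
      rw [hξ, f3 _ (b.M_eq.le mx), p4, u4])
  refine MonoidHom.eq_of_eqOn_dense hgen ?_
  rintro _ (⟨l, rfl⟩ | rfl | rfl)
  exacts [k1 l, (congrArg Φ k1''.symm).trans ((k2 k1').trans q1.symm), (congrArg Φ k2''.symm).trans ((k2 k2').trans q2.symm)]

end CA.SpAm
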