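import Cfsg.Agent.Lib.Lin.PrsSp1b
import Cfsg.Agent.Lib.Solv.AltD
import Cfsg.Agent.S0244
import Cfsg.Agent.S0246
import Cfsg.Agent.S0247

/-! Bounded presentations of `Sp₄(q)`. -/

namespace CA.Prs

open Matrix Subgroup Monoid CA.SpAm CA.CForm CA.CForm.Form
open scoped MatrixGroups

variable {F : Type*} [Field F] [Finite F]

variable (F) in
theorem plane_sl2 : Nonempty (SL(2, F) ≃* ((sympStd F 2).restrict (Pl (sympStd F 2) (Pi.single (.inl 0) 1) (-Pi.single (.inr 0) 1))).Isom) := by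
  have b := bs_std (F := F) 2
  obtain ⟨e, he⟩ := (sympStd_nondeg F 1).symp_equivalent b.bs.nondeg (by
    have : Module.finrank F (Pl (sympStd F 2) (Pi.single (.inl 0) 1) (-Pi.single (.inr 0) 1)) + 2 = _ := (b.hyp 0).finrank_perp
    simp only [Module.finrank_fintype_fun_eq_card, Fintype.card_sum, Fintype.card_fin] at this ⊢
    omega)
  let sp1 : symplecticGroup (Fin 1) F ≃* SpecialLinearGroup (Fin (1 + 1)) F := {
    toFun g := ⟨reindex finSumFinEquiv finSumFinEquiv g.1, by rw [det_reindex_self, (Cfsg.Agent.S0244.result _).1 g.2]⟩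
    invFun g := ⟨reindex finSumFinEquiv.symm finSumFinEquiv.symm g.1, (Cfsg.Agent.S0244.result _).2 (by rw [det_reindex_self, g.2])⟩
    left_inv g := Subtype.ext (by simp)
    right_inv g := Subtype.ext (by simp)
    map_mul' g h := Subtype.ext (submatrix_mul_equiv g.1 h.1 _ finSumFinEquiv.symm _).symm }
  exact ⟨(sp1.symm.trans (spEquiv F 1)).trans (isomCongr e he)⟩

theorem pres_sp42 (h : ¬∃ a : F, a ≠ 0 ∧ a ≠ 1) : Pres 2 8 (symplecticGroup (Fin 2) F) := by
  have := Fintype.ofFinite F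
  obtain ⟨e⟩ := Cfsg.Agent.S0247.result (F := F) (by
    classical
    rw [← Finset.card_univ, Finset.card_eq_two]
    exact ⟨0, 1, zero_ne_one, by ext a; simpa [or_iff_not_imp_left] using fun h0 => by_contra fun h1 => h ⟨a, h0, h1⟩⟩)
  exact Pres.congr ((CA.AltP.two 6).1.elim fun _ h => h.fp) e.symm

theorem sp4_W (lev long : SL(2, F) →* symplecticGroup (Fin 2) F) (hi : Function.Injective long)
    (h0 : ∀ g, (long g).1 *ᵥ Pi.single (.inl 0) 1 = Pi.single (.inl 0) 1 ∧ (long g).1 *ᵥ Pi.single (.inr 0) 1 = Pi.single (.inr 0) 1)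
    (hgen : closure (Set.range lev ∪ Set.range long) = ⊤) : ∃ W : List (Coprod SL(2, F) SL(2, F)), W.length ≤ 14 ∧
      (∀ w ∈ W, Coprod.lift lev long w = 1) ∧ ∀ (J : Type) [Group J] (ψ lam : SL(2, F) →* J), (∀ w ∈ W, Coprod.lift ψ lam w = 1) →
        ∃ Φ : symplecticGroup (Fin 2) F →* J, Φ.comp lev = ψ ∧ Φ.comp long = lam := by
  obtain ⟨A, B, hAB⟩ := sl2_two F
  have hs : Function.Surjective (Coprod.lift lev long) := by
    rwa [← MonoidHom.range_eq_top, Coprod.range_lift, ← closure_eq lev.range, ← closure_eq long.range, ← Subgroup.closure_union]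
  have g0 : ∀ (i : SL(2, F) →* Coprod SL(2, F) SL(2, F)) (K : Subgroup _), i A ∈ K → i B ∈ K → i.range ≤ K := by
    rintro i K a b _ ⟨x, rfl⟩
    exact (hAB.ge.trans ((closure_le (K.comap i)).2 (by rintro _ (rfl | rfl) <;> assumption))) (mem_top x)
  suffices h : ∃ W : List (Coprod SL(2, F) SL(2, F)), W.length ≤ 14 ∧ (∀ w ∈ W, Coprod.lift lev long w = 1) ∧
      ∀ (J : Type) [Group J] (q : _ →* J), (∀ w ∈ W, q w = 1) → ∃ Φ : _ →* J, Φ.comp (Coprod.lift lev long) = q from
    h.imp fun W h => ⟨h.1, h.2.1, fun J _ ψ lam hW => (h.2.2 J _ hW).imp fun Φ e =>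
      ⟨by simpa [MonoidHom.comp_assoc] using congrArg (·.comp Coprod.inl) e, by simpa [MonoidHom.comp_assoc] using congrArg (·.comp Coprod.inr) e⟩⟩
  by_cases hF : ∃ a : F, a ≠ 0 ∧ a ≠ 1
  swap
  · exact (ker_gen (pres_sp42 hF) _ hs ![.inl A, .inl B, .inr A, .inr B] (top_unique (Coprod.range_inl_sup_range_inr.ge.trans (sup_le
      (g0 _ _ (subset_closure ⟨0, rfl⟩) (subset_closure ⟨1, rfl⟩)) (g0 _ _ (subset_closure ⟨2, rfl⟩) (subset_closure ⟨3, rfl⟩)))))).imp
      fun W h => ⟨h.1.trans (by omega), h.2⟩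
  have b := bs_std (F := F) 2
  obtain ⟨κ0⟩ := plane_sl2 F
  choose k hk using fun g => exists_io (b.hyp 0) (g := spEquiv F 2 (long g)) (h0 g).1 (by rw [map_neg]; exact congrArg _ (h0 g).2)
  have ii : Function.Injective (io (b.hyp 0)) := extRight_injective _ _
  let κ1 : SL(2, F) →* _ := .mk' k fun x y => ii (by simp [hk])
  have i1 : Function.Injective κ1 := fun x y e => hi ((spEquiv F 2).injective (by rw [← hk, ← hk]; exact congrArg _ e))
  let κ := MulEquiv.ofBijective κ1 ⟨i1, (Finite.injective_iff_surjective_of_equiv κ0.toEquiv).1 i1⟩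
  obtain ⟨W, w1, w2, w3⟩ := ker4 b hF (A := κ A) (B := κ B) (by
      rw [← Set.image_pair, ← MulEquiv.coe_toMonoidHom, ← MonoidHom.map_closure, hAB]; exact map_top_of_surjective _ κ.surjective)
    ((spEquiv F 2).toMonoidHom.comp (Coprod.lift lev long)) ((spEquiv F 2).surjective.comp hs) (Coprod.inr.comp κ.symm.toMonoidHom)
    (fun l => by obtain ⟨l, rfl⟩ := κ.surjective l; simpa using (hk l).symm.trans (show io (b.hyp 0) (k l) = io (b.hyp 0) (κ l) from rfl)) (.inl A) (.inl B)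
    (top_unique (Coprod.range_inl_sup_range_inr.ge.trans (sup_le (g0 _ _ (subset_closure (by simp)) (subset_closure (by simp)))
      (by rintro _ ⟨x, rfl⟩; exact subset_closure (.inl ⟨κ x, by simp⟩)))))
  exact ⟨W, by omega, by simpa using w2, fun J _ q hq => (w3 J q hq).elim fun Φ e => ⟨Φ.comp (spEquiv F 2).toMonoidHom, e⟩⟩

theorem pres_sp4' : Pres 5 21 (symplecticGroup (Fin 2) F) := by
  by_cases hF : ∃ a : F, a ≠ 0 ∧ a ≠ 1
  swap
  · exact (pres_sp42 hF).le (by omega) (by omega)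
  have b := bs_std (F := F) 2
  obtain ⟨κ⟩ := plane_sl2 F
  obtain ⟨A, B, hAB⟩ := sl2_two F
  obtain ⟨ν, n1, -, n3, -⟩ := exists_nu b
  let π := (io (b.hyp 0)).comp κ.toMonoidHom
  let x := ![ν, E (b.hyp 0) (b.e' 0) 0]
  have hg : closure (Set.range π ∪ Set.range x) = ⊤ := by
    set K := closure (Set.range π ∪ Set.range x)
    have k1 : ∀ l, io (b.hyp 0) l ∈ K := fun l => subset_closure (.inl ⟨κ.symm l, by simp [π]⟩)
    have k2 : ν ∈ K := subset_closure (.inr ⟨0, rfl⟩)
    have k3 : (sympStd F 2).fix (Pl _ _ _) ≤ K := fun s hs => by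
      obtain ⟨l, hl⟩ := exists_io (b.hyp 0) (g := ν⁻¹ * s * ν)
        (by rw [isom_mul_apply, isom_mul_apply, n1]; exact (congrArg _ ((hs _ (b.e' 0).2).trans n1.symm)).trans (isom_inv_apply_apply ..))
        (by rw [isom_mul_apply, isom_mul_apply, n3]; exact (congrArg _ ((hs _ (b.y' 0).2).trans n3.symm)).trans (isom_inv_apply_apply ..))
      simpa [hl, mul_assoc] using mul_mem (mul_mem k2 (k1 l)) (inv_mem k2)
    refine top_unique fun g _ => top_of hF b.nondeg (b.hyp 0) k3 (fun g hg => ?_) g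
    obtain ⟨w, c, l, rfl⟩ := decomp (b.hyp 0) hg
    rw [show E (b.hyp 0) w c = E (b.hyp 0) w 0 * E (b.hyp 0) 0 c by simp [E_mul]]
    refine mul_mem (mul_mem ?_ (k3 fun v hv => by simp [E_apply, ple ⟨v, hv⟩])) (k1 l)
    by_cases hw : w = 0
    · simp [hw, E_zero]
    obtain ⟨l, rfl⟩ := b.bs.nondeg.witt_one (b.bs.hyp 0).x_ne_zero hw (by rw [symp_Q, symp_Q])
    rw [← Subgroup.mul_mem_cancel_right _ (k1 l), ← io_E]
    exact mul_mem (k1 l) (subset_closure (.inr ⟨1, rfl⟩))
  obtain ⟨W, w1, w2, w3⟩ := ker4 b hF (A := κ A) (B := κ B) (by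
      rw [← Set.image_pair, ← MulEquiv.coe_toMonoidHom, ← MonoidHom.map_closure, hAB]; exact map_top_of_surjective _ κ.surjective)
    (Coprod.lift π (FreeGroup.lift x)) (by
      rwa [← MonoidHom.range_eq_top, Coprod.range_lift, FreeGroup.range_lift_eq_closure, ← closure_eq π.range, ← Subgroup.closure_union])
    (Coprod.inl.comp κ.symm.toMonoidHom) (by simp [π]) (.inr (.of 0)) (.inr (.of 1))
    (top_unique (Coprod.range_inl_sup_range_inr.ge.trans (sup_le (by rintro _ ⟨x, rfl⟩; exact subset_closure (.inl ⟨κ x, by simp⟩)) (by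
      rw [MonoidHom.range_eq_map, ← FreeGroup.closure_range_of, MonoidHom.map_closure]
      refine closure_mono ?_
      rintro _ ⟨_, ⟨i, rfl⟩, rfl⟩
      fin_cases i <;> simp))))
  have := (pres_sl2 (F := F)).1.ext π x W w2 hg fun J _ ψ ξ h => (w3 J _ h).imp fun Φ e =>
    ⟨by simpa [MonoidHom.comp_assoc] using congrArg (·.comp Coprod.inl) e, fun i => by simpa using DFunLike.congr_fun e (.inr (.of i))⟩
  rw [w1] at this
  exact this.congr (spEquiv F 2).symm

theorem pres_sp4 : Pres 6 35 (symplecticGroup (Fin 2) F) := pres_sp4'.le (by omega) (by omega)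

theorem cyc_center_sp {m : ℕ} (hm : 1 ≤ m) : IsCyclic (center (symplecticGroup (Fin m) F)) := by
  have := Fintype.ofFinite F
  have h := Cfsg.Agent.S0246.result (F := F) rfl m hm
  exact isCyclic_of_card_dvd_prime (p := 2) (h ▸ Nat.gcd_dvd_left ..)

end CA.Prs
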