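import Cfsg.Agent.Lib.Lin.SLTr
import Cfsg.Agent.Lib.Char.CharInt
import Cfsg.Agent.Lib.Lin.SLnGen
import Cfsg.Agent.Lib.Perm.PermChar

/-! Weight spaces of transvection groups in complex representations of `SL_n(q)`. -/

set_option autoImplicit false
set_option linter.unusedSectionVars false

namespace CA.SLDeg

open Matrix CA.SLTr Finset Module
open scoped commutatorElement

variable {F : Type*} [Field F] [DecidableEq F] {ι : Type*} [Fintype ι] [DecidableEq ι]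

/-- transvections, as a total function -/
def T (z φ : ι → F) : SpecialLinearGroup ι F := if h : φ ⬝ᵥ z = 0 then tv z φ h else 1

theorem T_eq {z φ : ι → F} (h : φ ⬝ᵥ z = 0) : T z φ = tv z φ h := dif_pos h

theorem T_mulVec {z φ : ι → F} (h : φ ⬝ᵥ z = 0) (x : ι → F) : (T z φ).1 *ᵥ x = x + (φ ⬝ᵥ x) • z := by
  rw [T_eq h, tv_mulVec]

theorem T_add {z φ θ : ι → F} (h : φ ⬝ᵥ z = 0) (h' : θ ⬝ᵥ z = 0) : T z (φ + θ) = T z φ * T z θ := by
  rw [T_eq h, T_eq h', ← tv_add _ _ _ h h' (by rw [add_dotProduct, h, h', add_zero]), T_eq]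

theorem T_zero (z : ι → F) : T z 0 = 1 := by rw [T_eq (zero_dotProduct z), tv_zero]

theorem T_inv {z φ : ι → F} (h : φ ⬝ᵥ z = 0) : (T z φ)⁻¹ = T z (-φ) := by rw [T_eq h, tv_inv, T_eq]

theorem T_smul {z φ : ι → F} (h : φ ⬝ᵥ z = 0) (a : F) : T (a • z) φ = T z (a • φ) := ext_mulVec fun x => by
  rw [T_mulVec (by simp [h]), T_mulVec (by simp [h]), smul_dotProduct, smul_smul, smul_eq_mul, mul_comm]

theorem T_conj (g : SpecialLinearGroup ι F) {z φ : ι → F} (h : φ ⬝ᵥ z = 0) :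
    g * T z φ * g⁻¹ = T (g.1 *ᵥ z) (φ ᵥ* (g⁻¹).1) := by rw [T_eq h, tv_conj, T_eq]

theorem T_swap {z φ y f : ι → F} (h : φ ⬝ᵥ z = 0) (h1 : f ⬝ᵥ y = 0) (h2 : f ⬝ᵥ z = 0) :
    T z φ * T y f = T y f * T z (φ + (φ ⬝ᵥ y) • f) := ext_mulVec fun x => by
  have h3 : (φ + (φ ⬝ᵥ y) • f) ⬝ᵥ z = 0 := by simp [add_dotProduct, h, h2]
  simp only [mul_mulVec, T_mulVec h, T_mulVec h1, T_mulVec h3, dotProduct_add, add_dotProduct, dotProduct_smul,
    smul_dotProduct, h2, smul_eq_mul]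
  module

theorem T_comm {y η w θ : ι → F} (h : η ⬝ᵥ y = 0) (h1 : θ ⬝ᵥ w = 0) (h2 : θ ⬝ᵥ y = 0) (h3 : η ⬝ᵥ w = 1) :
    ⁅T y η, T w θ⁆ = T y θ := by
  rw [commutatorElement_def, mul_inv_eq_iff_eq_mul, mul_inv_eq_iff_eq_mul]
  refine ext_mulVec fun x => ?_
  simp only [mul_mulVec, T_mulVec h, T_mulVec h1, T_mulVec h2, dotProduct_add, dotProduct_smul, h1, h2, h3, smul_eq_mul]
  module

variable [Fintype F] {ψ : AddChar F ℂ}

open Classical in
theorem sum_sub (hψ : ψ ≠ 1) (A : Submodule F (ι → F)) [Fintype A] (u : ι → F) :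
    ∑ φ : A, ψ (φ.1 ⬝ᵥ u) = if ∀ φ ∈ A, φ ⬝ᵥ u = 0 then (Nat.card A : ℂ) else 0 := by
  split_ifs with h
  · simp [h]
  push Not at h
  obtain ⟨φ, h1, h2⟩ := h
  obtain ⟨b, hb⟩ := AddChar.ne_one_iff.1 hψ
  exact AddChar.sum_eq_zero_of_ne_one (ψ := ψ.compAddMonoidHom (((dotProductBilin F F).flip u).domRestrict A).toAddMonoidHom)
    (AddChar.ne_one_iff.2 ⟨⟨(b / (φ ⬝ᵥ u)) • φ, A.smul_mem _ h1⟩, by simpa [div_mul_cancel₀ b h2]⟩)

theorem sum_all (hψ : ψ ≠ 1) (a : ι → F) :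
    ∑ v, ψ (a ⬝ᵥ v) = if a = 0 then (Fintype.card F : ℂ) ^ Fintype.card ι else 0 := by
  split_ifs with h
  · simp [h]
  obtain ⟨i, hi⟩ := Function.ne_iff.1 h
  obtain ⟨b, hb⟩ := AddChar.ne_one_iff.1 hψ
  exact AddChar.sum_eq_zero_of_ne_one (ψ := ψ.compAddMonoidHom (dotProductBilin F F a).toAddMonoidHom)
    (AddChar.ne_one_iff.2 ⟨Pi.single i (b / a i), by simpa [mul_div_cancel₀ b (show a i ≠ 0 from hi)]⟩)

theorem exists_ne (hψ : ψ ≠ 1) {c : F} (hc : c ≠ 0) : ∃ b, ψ (b * c) ≠ 1 := by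
  obtain ⟨b, hb⟩ := AddChar.ne_one_iff.1 hψ
  exact ⟨b / c, by rwa [div_mul_cancel₀ b hc]⟩

variable {V : Type*} [AddCommGroup V] [Module ℂ V] (ρ : Representation ℂ (SpecialLinearGroup ι F) V)

variable (ψ) in
/-- weight projector -/
noncomputable def pr (z : ι → F) (A : Submodule F (ι → F)) [Fintype A] (v : ι → F) : End ℂ V :=
  ∑ φ : A, ψ (-(φ.1 ⬝ᵥ v)) • ρ (T z φ)

section
variable {z : ι → F} {A : Submodule F (ι → F)} [Fintype A] (hA : ∀ φ ∈ A, φ ⬝ᵥ z = 0)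
include hA

theorem mul_pr {θ : ι → F} (h : θ ∈ A) (v : ι → F) : ρ (T z θ) * pr ψ ρ z A v = ψ (θ ⬝ᵥ v) • pr ψ ρ z A v := by
  simp only [pr, mul_sum, smul_sum, mul_smul_comm, ← map_mul, smul_smul, ← AddChar.map_add_eq_mul]
  refine Fintype.sum_equiv (Equiv.addLeft (⟨θ, h⟩ : A)) _ _ fun φ => ?_
  simp [T_add (hA θ h) (hA φ φ.2), add_dotProduct]

theorem pr_mul {θ : ι → F} (h : θ ∈ A) (v : ι → F) : pr ψ ρ z A v * ρ (T z θ) = ψ (θ ⬝ᵥ v) • pr ψ ρ z A v := by
  rw [← mul_pr ρ hA h]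
  simp only [pr, mul_sum, sum_mul, mul_smul_comm, smul_mul_assoc, ← map_mul]
  exact sum_congr rfl fun φ _ => by rw [← T_add (hA φ φ.2) (hA θ h), add_comm, T_add (hA θ h) (hA φ φ.2)]

omit hA in
open Classical in
theorem pr_apply (hψ : ψ ≠ 1) {x : V} {u : ι → F} (hx : ∀ φ ∈ A, ρ (T z φ) x = ψ (φ ⬝ᵥ u) • x) (v : ι → F) :
    pr ψ ρ z A v x = (if ∀ φ ∈ A, φ ⬝ᵥ (u - v) = 0 then (Nat.card A : ℂ) else 0) • x := by
  rw [← sum_sub hψ, pr, LinearMap.sum_apply, sum_smul]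
  exact sum_congr rfl fun φ _ => by
    rw [LinearMap.smul_apply, hx φ φ.2, smul_smul, ← AddChar.map_add_eq_mul, dotProduct_sub, neg_add_eq_sub]

omit hA in
theorem sum_pr (hψ : ψ ≠ 1) : ∑ v, pr ψ ρ z A v = ((Fintype.card F : ℂ) ^ Fintype.card ι) • 1 := by
  simp only [pr]
  rw [sum_comm, sum_eq_single 0]
  · simp [T_zero, ← Nat.cast_smul_eq_nsmul ℂ]
  · intro φ _ h
    simp only [← neg_dotProduct, ← sum_smul, sum_all hψ]
    rw [if_neg (by simpa using h), zero_smul]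
  · simp
end

/-- the annihilator of a vector -/
def K (z : ι → F) : Submodule F (ι → F) := LinearMap.ker ((dotProductBilin F F).flip z)

theorem mem_K {z φ : ι → F} : φ ∈ K z ↔ φ ⬝ᵥ z = 0 := Iff.rfl

noncomputable instance instFintypeK (z : ι → F) : Fintype (K z) := Fintype.ofFinite _

theorem K_iff {z u : ι → F} : (∀ φ ∈ K z, φ ⬝ᵥ u = 0) ↔ u ∈ F ∙ z := by
  refine ⟨fun h => by_contra fun hu => ?_, fun h φ hφ => ?_⟩
  · obtain ⟨φ, h1, h2⟩ := exists_dot hu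
    exact one_ne_zero (h2.symm.trans (h φ (h1 z (Submodule.mem_span_singleton_self z))))
  · obtain ⟨c, rfl⟩ := Submodule.mem_span_singleton.1 h
    rw [dotProduct_smul, mem_K.1 hφ, smul_zero]

theorem card_span {z : ι → F} (hz : z ≠ 0) : Nat.card (F ∙ z) = Fintype.card F := by
  rw [← Nat.card_eq_fintype_card]; exact Nat.card_congr (LinearEquiv.toSpanNonzeroSingleton F _ z hz).symm.toEquiv

theorem card_K {z : ι → F} (hz : z ≠ 0) : Nat.card (K z) = Fintype.card F ^ (Fintype.card ι - 1) := by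
  have := LinearMap.finrank_range_add_finrank_ker ((dotProductBilin F F).flip z)
  rw [LinearMap.range_eq_top.2 fun c => ?_, finrank_top, finrank_self, finrank_fintype_fun_eq_card] at this
  · rw [Module.natCard_eq_pow_finrank (K := F), Nat.card_eq_fintype_card, ← this, Nat.add_sub_cancel_left]; rfl
  · obtain ⟨i, hi⟩ := Function.ne_iff.1 hz
    exact ⟨Pi.single i (c / z i), by simp [div_mul_cancel₀ c (show z i ≠ 0 from hi)]⟩

variable (ψ) in
/-- weight space -/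
def Wt (z v : ι → F) : Submodule ℂ V where
  carrier := {x | ∀ φ, φ ⬝ᵥ z = 0 → ρ (T z φ) x = ψ (φ ⬝ᵥ v) • x}
  add_mem' ha hb φ h := by rw [map_add, ha φ h, hb φ h, smul_add]
  zero_mem' φ _ := by simp
  smul_mem' c x hx φ h := by rw [map_smul, hx φ h, smul_comm]

variable {ρ}

theorem pr_mem (z v : ι → F) (x : V) : pr ψ ρ z (K z) v x ∈ Wt ψ ρ z v := fun _ h =>
  LinearMap.congr_fun (mul_pr ρ (fun _ h => h) h v) x

theorem map_Wt {z v : ι → F} {x : V} (hx : x ∈ Wt ψ ρ z v) (g : SpecialLinearGroup ι F) :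
    ρ g x ∈ Wt ψ ρ (g.1 *ᵥ z) (g.1 *ᵥ v) := fun φ h => by
  have h1 : (φ ᵥ* g.1) ⬝ᵥ z = 0 := by rwa [← dotProduct_mulVec]
  have := T_conj g h1
  rw [vecMul_vecMul, ← Matrix.SpecialLinearGroup.coe_mul, mul_inv_cancel, Matrix.SpecialLinearGroup.coe_one,
    vecMul_one] at this
  rw [← this, ← End.mul_apply, ← map_mul, inv_mul_cancel_right, map_mul, End.mul_apply, hx _ h1, map_smul,
    dotProduct_mulVec]

theorem Wt_smul {z v : ι → F} {a : F} (ha : a ≠ 0) {x : V} (hx : x ∈ Wt ψ ρ (a • z) (a • v)) : x ∈ Wt ψ ρ z v :=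
  fun φ h => by
    have := hx (a⁻¹ • φ) (by simp [h])
    rwa [T_smul (by simp [h]), smul_inv_smul₀ ha, smul_dotProduct, dotProduct_smul, inv_smul_smul₀ ha] at this

theorem Wt_span {z v : ι → F} (h : v ∈ F ∙ z) : Wt ψ ρ z v = Wt ψ ρ z 0 := by
  ext x
  exact forall₂_congr fun φ hφ => by rw [K_iff.2 h φ hφ, dotProduct_zero]

variable [FiniteDimensional ℂ V]

theorem finrank_Wt (g : SpecialLinearGroup ι F) (z v : ι → F) :
    finrank ℂ (Wt ψ ρ (g.1 *ᵥ z) (g.1 *ᵥ v)) = finrank ℂ (Wt ψ ρ z v) := by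
  have key : ∀ (g : SpecialLinearGroup ι F) (z v : ι → F),
      finrank ℂ (Wt ψ ρ z v) ≤ finrank ℂ (Wt ψ ρ (g.1 *ᵥ z) (g.1 *ᵥ v)) := fun g z v =>
    LinearMap.finrank_le_finrank_of_injective (f := (ρ g).restrict fun x hx => map_Wt hx g) fun a b h => Subtype.ext (by
      have := congrArg (fun x => ρ g⁻¹ x.1) h
      simpa using this)
  refine le_antisymm ?_ (key g z v)
  have := key g⁻¹ (g.1 *ᵥ z) (g.1 *ᵥ v)
  rwa [inv_mulVec, inv_mulVec] at this

theorem trace_pr (hψ : ψ ≠ 1) (z v : ι → F) :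
    LinearMap.trace ℂ V (pr ψ ρ z (K z) v) = Nat.card (K z) * finrank ℂ (Wt ψ ρ z v) := by
  have h0 : (Nat.card (K z) : ℂ) ≠ 0 := Nat.cast_ne_zero.2 Nat.card_pos.ne'
  have : LinearMap.IsProj (Wt ψ ρ z v) ((Nat.card (K z) : ℂ)⁻¹ • pr ψ ρ z (K z) v) :=
    ⟨fun x => Submodule.smul_mem _ _ (pr_mem z v x), fun x hx => by
      rw [LinearMap.smul_apply, pr_apply ρ (A := K z) hψ (fun φ h => hx φ h), if_pos (by simp), inv_smul_smul₀ h0]⟩
  rw [← this.trace, map_smul, smul_eq_mul, mul_inv_cancel_left₀ h0]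

theorem char_T (hψ : ψ ≠ 1) {z θ : ι → F} (hz : z ≠ 0) (h : θ ⬝ᵥ z = 0) {m : ℕ}
    (hm : ∀ v ∉ F ∙ z, finrank ℂ (Wt ψ ρ z v) = m) :
    ρ.character (T z θ) = (if θ = 0 then (Fintype.card F : ℂ) ^ (Fintype.card ι - 1) * m else 0) +
      (finrank ℂ (Wt ψ ρ z 0) - m) := by
  classical
  have : Nonempty ι := by_contra fun e => hz (funext fun i => (e ⟨i⟩).elim)
  obtain ⟨n, hn⟩ : ∃ n, Fintype.card ι = n + 1 := ⟨_, (Nat.succ_pred_eq_of_pos Fintype.card_pos).symm⟩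
  have h1 := congrArg (fun f => LinearMap.trace ℂ V (ρ (T z θ) * f)) (sum_pr (ψ := ψ) ρ (z := z) (A := K z) hψ)
  simp only [mul_sum, mul_pr ρ (A := K z) (fun _ h => h) h, map_sum, map_smul, trace_pr hψ, mul_smul_comm, mul_one,
    smul_eq_mul, card_K hz] at h1
  have h2 : ∀ v, (finrank ℂ (Wt ψ ρ z v) : ℂ) = m + if v ∈ F ∙ z then (finrank ℂ (Wt ψ ρ z 0) - m : ℂ) else 0 := by
    intro v
    split_ifs with e
    · rw [Wt_span e]; ring
    · rw [hm v e, add_zero]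
  have h3 : ∑ v, ψ (θ ⬝ᵥ v) * (if v ∈ F ∙ z then (finrank ℂ (Wt ψ ρ z 0) - m : ℂ) else 0) =
      Fintype.card F * (finrank ℂ (Wt ψ ρ z 0) - m) := by
    rw [← card_span hz, Nat.card_eq_fintype_card, Fintype.card_subtype, ← nsmul_eq_mul, ← sum_const, sum_filter]
    refine sum_congr (by congr) fun v _ => ?_
    split_ifs with e
    · rw [K_iff.2 e θ h, AddChar.map_zero_eq_one, one_mul]
    · rw [mul_zero]
  simp only [mul_left_comm (ψ _), ← mul_sum] at h1
  rw [sum_congr rfl fun v _ => by rw [h2 v, mul_add], sum_add_distrib, h3, ← sum_mul, sum_all hψ, hn] at h1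
  have hq : (Fintype.card F : ℂ) ≠ 0 := Nat.cast_ne_zero.2 Fintype.card_ne_zero
  refine mul_left_cancel₀ (pow_ne_zero (n + 1) hq) (h1.symm.trans ?_)
  rw [hn]
  push_cast
  split_ifs <;> ring

theorem exists_m (hψ : ψ ≠ 1) (hn : 3 ≤ Fintype.card ι) : ∃ m c : ℕ,
    (∀ z ≠ 0, ∀ v ∉ F ∙ z, finrank ℂ (Wt ψ ρ z v) = m) ∧
    finrank ℂ V = c + (Fintype.card F ^ (Fintype.card ι - 1) - 1) * m ∧
    ∀ z ≠ 0, ∀ θ ≠ 0, θ ⬝ᵥ z = 0 → ρ.character (T z θ) = c - m := by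
  obtain ⟨z0, hz0⟩ := exists_notMem (F := F) (ι := ι) (W := ⊥) (by simp; omega)
  have hz0 : z0 ≠ 0 := by simpa using hz0
  obtain ⟨v0, hv0⟩ := exists_notMem (W := F ∙ z0) (by rw [finrank_span_singleton hz0]; omega)
  have h1 : ∀ z ≠ 0, ∀ v ∉ F ∙ z, finrank ℂ (Wt ψ ρ z v) = finrank ℂ (Wt ψ ρ z0 v0) := fun z hz v hv => by
    obtain ⟨g, rfl, rfl⟩ := exists_pair hn hz0 hz hv0 hv
    exact finrank_Wt g _ _
  have h2 : ∀ z ≠ 0, (finrank ℂ V : ℂ) = (Fintype.card F : ℂ) ^ (Fintype.card ι - 1) * finrank ℂ (Wt ψ ρ z0 v0) +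
      (finrank ℂ (Wt ψ ρ z 0) - finrank ℂ (Wt ψ ρ z0 v0)) := fun z hz => by
    have := char_T hψ hz (zero_dotProduct z) (h1 z hz)
    rwa [if_pos rfl, T_zero, Representation.char_one] at this
  refine ⟨_, finrank ℂ (Wt ψ ρ z0 0), h1, ?_, fun z hz θ hθ h => ?_⟩
  · have h3 : 1 ≤ Fintype.card F ^ (Fintype.card ι - 1) := Nat.one_le_pow _ _ Fintype.card_pos
    have := h2 z0 hz0
    exact_mod_cast (show (finrank ℂ V : ℂ) = (finrank ℂ (Wt ψ ρ z0 0) +
      (Fintype.card F ^ (Fintype.card ι - 1) - 1 : ℕ) * finrank ℂ (Wt ψ ρ z0 v0) : ℕ) by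
        push_cast [h3]; linear_combination this)
  · rw [char_T hψ hz h (h1 z hz), if_neg hθ]
    linear_combination h2 z0 hz0 - h2 z hz

/-- elements acting as the same scalar on `z` and `v` -/
def St (z v : ι → F) (g : SpecialLinearGroup ι F) : Prop := ∃ a : F, a ≠ 0 ∧ g.1 *ᵥ z = a • z ∧ g.1 *ᵥ v = a • v

theorem St.inv {z v : ι → F} {g : SpecialLinearGroup ι F} (h : St z v g) : St z v g⁻¹ := by
  obtain ⟨a, h0, h1, h2⟩ := h
  refine ⟨a⁻¹, inv_ne_zero h0, ?_, ?_⟩ <;> rw [eq_inv_smul_iff₀ h0, ← mulVec_smul]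
  · rw [← h1, inv_mulVec]
  · rw [← h2, inv_mulVec]

theorem St.mem {z v : ι → F} {g : SpecialLinearGroup ι F} (h : St z v g) {x : V} (hx : x ∈ Wt ψ ρ z v) :
    ρ g x ∈ Wt ψ ρ z v := by
  obtain ⟨a, h0, h1, h2⟩ := h
  exact Wt_smul h0 (h1 ▸ h2 ▸ map_Wt hx g)

theorem St_T {z v y θ : ι → F} (h : θ ⬝ᵥ y = 0) (h1 : θ ⬝ᵥ z = 0) (h2 : θ ⬝ᵥ v = 0) : St z v (T y θ) :=
  ⟨1, one_ne_zero, by simp [T_mulVec h, h1], by simp [T_mulVec h, h2]⟩

section
variable {z v : ι → F} (h1 : finrank ℂ (Wt ψ ρ z v) = 1) {x : V} (hx : x ∈ Wt ψ ρ z v)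
include h1 hx

theorem comm_fix {g h : SpecialLinearGroup ι F} (hg : St z v g) (hh : St z v h) : ρ ⁅g, h⁆ x = x := by
  have key : ∀ x ∈ Wt ψ ρ z v, ρ (g * h) x = ρ (h * g) x := fun x hx => by
    by_cases h0 : x = 0
    · simp [h0]
    have := (finrank_eq_one_iff_of_nonzero' (⟨x, hx⟩ : Wt ψ ρ z v) (by simpa using h0)).1 h1
    obtain ⟨a, ha⟩ := this ⟨_, hg.mem hx⟩
    obtain ⟨b, hb⟩ := this ⟨_, hh.mem hx⟩
    have ha : a • x = ρ g x := congrArg Subtype.val ha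
    have hb : b • x = ρ h x := congrArg Subtype.val hb
    rw [map_mul, map_mul, End.mul_apply, End.mul_apply, ← ha, ← hb, map_smul, map_smul, ← ha, ← hb, smul_comm]
  have := key _ (hg.inv.mem (hh.inv.mem hx))
  simp only [← End.mul_apply, ← map_mul] at this
  rw [commutatorElement_def, mul_assoc, this]; simp

theorem fix_of_diag {y θ : ι → F} (h : θ ⬝ᵥ y = 0) (h2 : θ ⬝ᵥ z = 0) (h3 : θ ⬝ᵥ v = 0) {d : SpecialLinearGroup ι F}
    (hd : St z v d) {α γ : F} (e1 : d.1 *ᵥ y = α • y) (e2 : θ ᵥ* d.1 = γ • θ) (h0 : γ ≠ 0) (hne : α ≠ γ) :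
    ρ (T y θ) x = x := by
  have e3 : θ ᵥ* (d⁻¹).1 = γ⁻¹ • θ := by
    rw [eq_inv_smul_iff₀ h0, ← smul_vecMul, ← e2, vecMul_vecMul, ← Matrix.SpecialLinearGroup.coe_mul, mul_inv_cancel,
      Matrix.SpecialLinearGroup.coe_one, vecMul_one]
  have := comm_fix h1 hx hd (St_T (y := y) (θ := (γ / (α - γ)) • θ) (by simp [h]) (by simp [h2]) (by simp [h3]))
  rw [commutatorElement_def, T_conj _ (by simp [h]), T_inv (by simp [h]), e1, smul_vecMul, e3, T_smul (by simp [h]),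
    ← T_add (by simp [h]) (by simp [h]), smul_smul, smul_smul, ← neg_smul, ← add_smul,
    show α * (γ / (α - γ)) * γ⁻¹ + -(γ / (α - γ)) = 1 by field_simp [sub_ne_zero.2 hne]; ring, one_smul] at this
  exact this

theorem fix_T (hyp : (∃ a : F, a ≠ 0 ∧ a ^ Fintype.card ι ≠ 1) ∨ (Fintype.card ι = 4 ∧ ∃ a : F, a ≠ 0 ∧ a ^ 2 ≠ 1) ∨
    5 ≤ Fintype.card ι) {y θ : ι → F} (h : θ ⬝ᵥ y = 0) (h2 : θ ⬝ᵥ z = 0) (h3 : θ ⬝ᵥ v = 0) : ρ (T y θ) x = x := by
  by_cases h0 : θ = 0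
  · simp [h0, T_zero]
  obtain ⟨w, hw⟩ : ∃ w, θ ⬝ᵥ w = 1 := by
    obtain ⟨i, hi⟩ := Function.ne_iff.1 h0
    exact ⟨Pi.single i (θ i)⁻¹, by simp [mul_inv_cancel₀ (show θ i ≠ 0 from hi)]⟩
  have r1 : finrank F ((F ∙ z) ⊔ (F ∙ v) : Submodule F (ι → F)) ≤ 2 := by
    have := finrank_sup_le (F ∙ z) v
    have := finrank_span_le_card (R := F) ({z} : Set (ι → F))
    simp at this; omega
  have A : ∀ W : Submodule F (ι → F), z ∈ W → v ∈ W → y ∈ W → finrank F W + 2 ≤ Fintype.card ι → ρ (T y θ) x = x := by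
    intro W a1 a2 a3 a4
    obtain ⟨u, hu⟩ := exists_notMem (W := W ⊔ F ∙ w) (by have := finrank_sup_le W w; omega)
    obtain ⟨η, b1, b2⟩ := exists_dot (W := W) (v := u - (θ ⬝ᵥ u) • w) fun e => hu (mem_sup_span.2 ⟨_, e⟩)
    have b3 : θ ⬝ᵥ (u - (θ ⬝ᵥ u) • w) = 0 := by simp [hw]
    rw [← T_comm (b1 y a3) b3 h b2]
    exact comm_fix h1 hx (St_T (b1 y a3) (b1 z a1) (b1 v a2)) (St_T b3 h2 h3)
  have m1 : z ∈ (F ∙ z) ⊔ (F ∙ v) := Submodule.mem_sup_left (Submodule.mem_span_singleton_self z)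
  have m2 : v ∈ (F ∙ z) ⊔ (F ∙ v) := Submodule.mem_sup_right (Submodule.mem_span_singleton_self v)
  rcases hyp with ⟨a, a0, a1⟩ | ⟨h4, a, a0, a1⟩ | h5
  · let d : SpecialLinearGroup ι F := ⟨a • (1 + vecMulVec w (((a ^ Fintype.card ι)⁻¹ - 1) • θ)), by
      rw [det_smul, vecMulVec_eq Unit, det_one_add_replicateCol_mul_replicateRow, smul_dotProduct, hw]
      simp [a0]⟩
    have e : ∀ u, θ ⬝ᵥ u = 0 → d.1 *ᵥ u = a • u := fun u hu => by
      simp [d, smul_mulVec, add_mulVec, vecMulVec_mulVec, hu]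
    refine fix_of_diag h1 hx h h2 h3 ⟨a, a0, e z h2, e v h3⟩ (e y h) (γ := a * (a ^ Fintype.card ι)⁻¹) ?_
      (by simp [a0]) fun e => a1 (inv_eq_one.1 ((left_eq_mul₀ a0).1 e))
    simp only [d, vecMul_smul, vecMul_add, vecMul_one, vecMul_vecMulVec, hw]
    module
  · by_cases hy : y ∈ (F ∙ z) ⊔ (F ∙ v)
    · exact A _ m1 m2 hy (by omega)
    obtain ⟨η, b1, b2⟩ := exists_dot hy
    have c1 := b1 z m1
    have c2 := b1 v m2
    let d : SpecialLinearGroup ι F := ⟨(1 + vecMulVec y ((a - 1) • η)) * (1 + vecMulVec w ((a⁻¹ - 1) • θ)), by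
      rw [det_mul, vecMulVec_eq Unit, vecMulVec_eq Unit, det_one_add_replicateCol_mul_replicateRow,
        det_one_add_replicateCol_mul_replicateRow, smul_dotProduct, smul_dotProduct, hw, b2]
      simp [a0]⟩
    have e : ∀ u, θ ⬝ᵥ u = 0 → d.1 *ᵥ u = u + ((a - 1) * (η ⬝ᵥ u)) • y := fun u hu => by
      simp [d, ← mulVec_mulVec, add_mulVec, smul_mulVec, vecMulVec_mulVec, hu, smul_smul]
    refine fix_of_diag h1 hx h h2 h3 (d := d) ⟨1, one_ne_zero, by simp [e z h2, c1], by simp [e v h3, c2]⟩ (α := a) (γ := a⁻¹)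
      (by rw [e y h, b2]; module) ?_ (inv_ne_zero a0) fun e => a1 (by rw [sq]; nth_rewrite 1 [e]; exact inv_mul_cancel₀ a0)
    simp only [d, ← vecMul_vecMul, vecMul_add, vecMul_one, vecMul_vecMulVec, hw, h, zero_smul, add_zero]
    module
  · exact A (((F ∙ z) ⊔ (F ∙ v)) ⊔ F ∙ y) (Submodule.mem_sup_left m1) (Submodule.mem_sup_left m2)
      (Submodule.mem_sup_right (Submodule.mem_span_singleton_self y))
      (by have := finrank_sup_le ((F ∙ z) ⊔ (F ∙ v)) y; omega)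
end

omit [FiniteDimensional ℂ V] in
theorem comm_pr {z : ι → F} {A : Submodule F (ι → F)} [Fintype A] {g : SpecialLinearGroup ι F}
    (h : ∀ f ∈ A, g * T z f = T z f * g) (v : ι → F) : ρ g * pr ψ ρ z A v = pr ψ ρ z A v * ρ g := by
  simp only [pr, mul_sum, sum_mul, mul_smul_comm, smul_mul_assoc, ← map_mul]
  exact sum_congr rfl fun φ _ => by rw [h φ φ.2]

omit [FiniteDimensional ℂ V] in
theorem pr_swap {z u y g : ι → F} (h1 : g ⬝ᵥ y = 0) (h2 : g ⬝ᵥ z = 0) (h3 : g ⬝ᵥ u = 0) :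
    pr ψ ρ z (K z) u * ρ (T y g) = ρ (T y g) * pr ψ ρ z (K z) u := by
  simp only [pr, mul_sum, sum_mul, mul_smul_comm, smul_mul_assoc, ← map_mul]
  refine Fintype.sum_bijective (fun φ : K z => (⟨φ.1 + (φ.1 ⬝ᵥ y) • g, (K z).add_mem φ.2 ((K z).smul_mem _ h2)⟩ : K z))
    (Finite.injective_iff_bijective.1 fun a b h => ?_) _ _ fun φ => ?_
  · have h4 := congrArg Subtype.val h
    have h5 := congrArg (· ⬝ᵥ y) h4
    simp only [add_dotProduct, smul_dotProduct, h1, smul_zero, add_zero] at h4 h5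
    rw [h5] at h4
    exact Subtype.ext (add_right_cancel h4)
  · rw [T_swap φ.2 h1 h2]; simp [add_dotProduct, h3]

end CA.SLDeg

namespace CA.SLDeg

open Matrix CA.SLTr Finset Module

variable {F : Type*} [Field F] [DecidableEq F] [Fintype F] {n : ℕ} {ψ : AddChar F ℂ}
  {V : Type*} [AddCommGroup V] [Module ℂ V] [FiniteDimensional ℂ V] {ρ : Representation ℂ (SpecialLinearGroup (Fin n) F) V}

variable (F) in
/-- vectors supported above `k` -/
def J (k : Fin n) : Submodule F (Fin n → F) where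
  carrier := {f | ∀ l, l ≤ k → f l = 0}
  add_mem' ha hb l h := by simp [ha l h, hb l h]
  zero_mem' _ _ := rfl
  smul_mem' c x hx l h := by simp [hx l h]

noncomputable instance instFintypeJ (k : Fin n) : Fintype (J F k) := Fintype.ofFinite _

theorem card_J (k : Fin n) : Nat.card (J F k) = Fintype.card F ^ (n - 1 - k) := by
  rw [← Fin.card_Ioi, ← Fintype.card_coe, ← Fintype.card_fun, ← Nat.card_eq_fintype_card]
  exact Nat.card_congr
    { toFun := fun v i => v.1 i.1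
      invFun := fun f => ⟨fun i => if h : k < i then f ⟨i, mem_Ioi.2 h⟩ else 0, fun i hi => dif_neg (not_lt.2 hi)⟩
      left_inv := fun v => Subtype.ext (funext fun i => by
        dsimp only
        split_ifs with h
        exacts [rfl, (v.2 i (not_lt.1 h)).symm])
      right_inv := fun f => funext fun i => dif_pos (mem_Ioi.1 i.2) }

/-- basis vectors -/
abbrev ee (i : Fin n) : Fin n → F := Pi.single i 1

theorem J_dot {k i : Fin n} {f : Fin n → F} (hf : f ∈ J F k) (h : i ≤ k) : f ⬝ᵥ ee i = 0 := by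
  simpa using hf i h

theorem ee_ne (i : Fin n) : (ee i : Fin n → F) ≠ 0 := by simp

omit [FiniteDimensional ℂ V] in
theorem eq_zero_of {a : ℂ} {x : V} (h : a • x = x) (ha : a ≠ 1) : x = 0 := by
  have : (a - 1) • x = 0 := by rw [sub_smul, h, one_smul, sub_self]
  exact (smul_eq_zero.1 this).resolve_left (sub_ne_zero.2 ha)

section
variable (hψ : ψ ≠ 1) (hm : ∀ z ≠ 0, ∀ v ∉ F ∙ z, finrank ℂ (Wt ψ ρ z v) = 1)
  (hyp : (∃ a : F, a ≠ 0 ∧ a ^ Fintype.card (Fin n) ≠ 1) ∨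
    (Fintype.card (Fin n) = 4 ∧ ∃ a : F, a ≠ 0 ∧ a ^ 2 ≠ 1) ∨ 5 ≤ Fintype.card (Fin n))
include hψ hm hyp

theorem exists_y {k : Fin n} {v : Fin n → F} (hv : v ∈ J F k) (h0 : v ≠ 0) (j : ℕ) (hj : j ≤ k) : ∃ y : V, y ≠ 0 ∧
    (∀ φ, φ k = 0 → (∀ i : Fin n, i.1 < j → φ i = 0) → ρ (T (ee k) φ) y = ψ (φ ⬝ᵥ v) • y) ∧
    ∀ i < k, ∀ f ∈ J F k, (i.1 < j ∨ f ⬝ᵥ v = 0) → ρ (T (ee i) f) y = y := by
  induction j with
  | zero =>
    have h1 := hm (ee k) (ee_ne k) v fun h => by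
      obtain ⟨c, rfl⟩ := Submodule.mem_span_singleton.1 h
      exact h0 (by rw [show c = 0 by simpa using hv k le_rfl, zero_smul])
    obtain ⟨x, hx, -⟩ := finrank_eq_one_iff'.1 h1
    exact ⟨x, by simpa using hx, fun φ h _ => x.2 φ (by simpa using h), fun i hi f hf h =>
      fix_T h1 x.2 hyp (J_dot hf hi.le) (J_dot hf le_rfl) (h.resolve_left (Nat.not_lt_zero _))⟩
  | succ j ih =>
    obtain ⟨y, y0, y1, y2⟩ := ih (by omega)
    let jj : Fin n := ⟨j, by have := k.2; omega⟩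
    have hjk : jj < k := hj
    have hA : ∀ f ∈ J F k, f ⬝ᵥ ee jj = 0 := fun f hf => J_dot hf hjk.le
    refine ⟨pr ψ ρ (ee jj) (J F k) 0 y, fun e => y0 ?_, fun φ h1 h2 => ?_, fun i hi f hf h => ?_⟩
    · have h3 : ∀ (c : F) (f : J F k), ρ (T (ee k) (c • ee jj)) (ρ (T (ee jj) f) y) =
          ψ (c * (f.1 ⬝ᵥ v)) • ρ (T (ee jj) f) y := fun c f => by
        rw [← End.mul_apply, ← map_mul, T_swap (by simp [hjk.ne]) (hA f f.2) (J_dot f.2 le_rfl), map_mul, End.mul_apply,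
          y1 _ (by simp [hjk.ne', f.2 k le_rfl]) fun i hi => by
            have : i ≠ jj := fun e => hi.ne (congrArg Fin.val e)
            simp [this, f.2 i (by omega : i.1 ≤ k)], map_smul]
        simp [add_dotProduct, hv jj hjk.le]
      have h4 : ∑ c : F, ρ (T (ee k) (c • ee jj)) (pr ψ ρ (ee jj) (J F k) 0 y) = 0 := by simp [e]
      simp only [pr, LinearMap.sum_apply, dotProduct_zero, neg_zero, AddChar.map_zero_eq_one, one_smul, map_sum, h3] at h4
      rw [sum_comm] at h4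
      simp only [← sum_smul, AddChar.sum_mulShift _ (AddChar.IsPrimitive.of_ne_one hψ)] at h4
      rw [sum_congr rfl (g := fun f : J F k => ((if f.1 ⬝ᵥ v = 0 then Fintype.card F else 0 : ℕ) : ℂ) • y) fun f _ => by
        split_ifs with h
        · rw [y2 jj hjk f f.2 (Or.inr h)]
        · simp, ← sum_smul, ← Nat.cast_sum, smul_eq_zero, Nat.cast_eq_zero, sum_eq_zero_iff] at h4
      exact h4.resolve_left fun h => by simpa using h 0 (mem_univ _)
    · rw [← End.mul_apply, comm_pr fun f hf => ?_, End.mul_apply, y1 φ h1 fun i hi => h2 i (by omega), map_smul]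
      rw [T_swap (by simpa using h1) (hA f hf) (J_dot hf le_rfl)]
      simp [h2 jj (Nat.lt_succ_self j)]
    · by_cases e : i = jj
      · rw [e, ← End.mul_apply, mul_pr ρ hA hf]; simp
      · rw [← End.mul_apply, comm_pr fun g hg => ?_, End.mul_apply,
          y2 i hi f hf (h.imp_left fun h => lt_of_le_of_ne (Nat.lt_succ_iff.1 h) fun h' => e (Fin.ext h'))]
        rw [T_swap (J_dot hf hi.le) (hA g hg) (J_dot hg hi.le), hA f hf, zero_smul, add_zero]

theorem exists_y' {k : Fin n} {v : Fin n → F} (hv : v ∈ J F k) (h0 : v ≠ 0) : ∃ y : V, y ≠ 0 ∧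
    (∀ g ∈ J F k, ρ (T (ee k) g) y = ψ (g ⬝ᵥ v) • y) ∧ ∀ i < k, ∀ φ ∈ J F i, ρ (T (ee i) φ) y = y := by
  obtain ⟨y, y0, y1, y2⟩ := exists_y hψ hm hyp hv h0 k le_rfl
  have y1' : ∀ g ∈ J F k, ρ (T (ee k) g) y = ψ (g ⬝ᵥ v) • y := fun g hg => y1 g (hg k le_rfl) fun i hi => hg i hi.le
  refine ⟨y, y0, y1', fun i hi φ hφ => ?_⟩
  have h1 := LinearMap.congr_fun (sum_pr (ψ := ψ) ρ (z := ee i) (A := K (ee i)) hψ) y
  rw [LinearMap.sum_apply, LinearMap.smul_apply, End.one_apply] at h1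
  refine smul_right_injective _ (pow_ne_zero (Fintype.card (Fin n)) (Nat.cast_ne_zero.2 (Fintype.card_ne_zero (α := F)) :
    (Fintype.card F : ℂ) ≠ 0)) ?_
  simp only
  rw [← map_smul, ← h1, map_sum]
  refine sum_congr rfl fun u _ => ?_
  by_cases hu : u ∈ F ∙ ee i
  · rw [pr_mem _ _ _ φ (J_dot hφ le_rfl), K_iff.2 hu φ (J_dot hφ le_rfl), AddChar.map_zero_eq_one, one_smul]
  suffices pr ψ ρ (ee i) (K (ee i)) u y = 0 by rw [this, map_zero]
  have hs : ∀ (l : Fin n) (b : F), k < l → b • ee l ∈ J F k := fun l b hl t ht => by simp [(ht.trans_lt hl).ne]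
  by_cases h2 : ∀ l, k < l → u l = 0
  · obtain ⟨l, hl⟩ := Function.ne_iff.1 h0
    have hkl : k < l := not_le.1 fun h => hl (hv l h)
    obtain ⟨b, hb⟩ := exists_ne hψ hl
    have h3 : (b • ee l) ⬝ᵥ u = 0 := by simp [h2 l hkl]
    have := LinearMap.congr_fun (pr_swap (ψ := ψ) (ρ := ρ) (J_dot (hs l b hkl) le_rfl) (J_dot (hs l b hkl) hi.le) h3) y
    rw [End.mul_apply, End.mul_apply, y1' _ (hs l b hkl), map_smul, fix_T (hm _ (ee_ne i) u hu) (pr_mem _ _ y) hyp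
      (J_dot (hs l b hkl) le_rfl) (J_dot (hs l b hkl) hi.le) h3] at this
    exact eq_zero_of this (by simpa using hb)
  · push Not at h2
    obtain ⟨l, hkl, hl⟩ := h2
    obtain ⟨b, hb⟩ := exists_ne hψ hl
    have := LinearMap.congr_fun (pr_mul (ψ := ψ) ρ (A := K (ee i)) (fun _ h => h) (J_dot (hs l b hkl) hi.le) u) y
    rw [End.mul_apply, y2 i hi _ (hs l b hkl) (Or.inl hi), LinearMap.smul_apply] at this
    exact eq_zero_of this.symm (by simpa using hb)

theorem lower : ∑ k ∈ range n, (Fintype.card F ^ k - 1) ≤ finrank ℂ V := by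
  classical
  choose y y0 y1 y2 using fun x : Σ k : Fin n, {v : J F k // v ≠ 0} =>
    exists_y' hψ hm hyp x.2.1.2 (by simpa using x.2.2)
  have hJ : ∀ (k : Fin n) (u : J F k), (∀ φ ∈ J F k, φ ⬝ᵥ u.1 = 0) → u = 0 := fun k u h => Subtype.ext (funext fun l => by
    by_cases e : l ≤ k
    · exact u.2 l e
    · simpa using h (ee l) fun t ht => by simp [(ht.trans_lt (not_le.1 e)).ne])
  have li : LinearIndependent ℂ y := by
    refine Fintype.linearIndependent_iff.2 fun c hc => ?_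
    suffices ∀ k : Fin n, ∀ v, c ⟨k, v⟩ = 0 from fun x => this x.1 x.2
    intro k
    induction k using WellFoundedLT.induction with
    | ind k ih =>
      intro v
      have := congrArg (pr ψ ρ (ee k) (J F k) v.1.1) hc
      rw [map_sum, map_zero, sum_eq_single ⟨k, v⟩] at this
      · rw [map_smul, pr_apply ρ hψ (y1 ⟨k, v⟩), if_pos (by simp), smul_eq_zero, smul_eq_zero] at this
        exact this.resolve_right (not_or.2 ⟨Nat.cast_ne_zero.2 Nat.card_pos.ne', y0 _⟩)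
      · rintro ⟨k', v'⟩ - hne
        rcases lt_trichotomy k' k with h | rfl | h
        · rw [ih k' h, zero_smul, map_zero]
        · rw [map_smul, pr_apply ρ hψ (y1 ⟨k', v'⟩), if_neg, zero_smul, smul_zero]
          exact fun h => hne (congrArg _ (Subtype.ext (sub_eq_zero.1 (hJ k' (v'.1 - v.1) h))))
        · rw [map_smul, pr_apply ρ hψ (u := 0) (fun φ hφ => by simpa using y2 ⟨k', v'⟩ k h φ hφ), if_neg, zero_smul, smul_zero]
          exact fun h => v.2 (hJ k v.1 (by simpa using h))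
      · simp
  have := li.fintype_card_le_finrank
  rw [Fintype.card_sigma] at this
  simp only [Fintype.card_subtype_compl, Fintype.card_subtype_eq, ← Nat.card_eq_fintype_card (α := J F _), card_J] at this
  rwa [Fin.sum_univ_eq_sum_range (fun k => Fintype.card F ^ (n - 1 - k) - 1), sum_range_reflect (fun k => Fintype.card F ^ k - 1)] at this

end

/-- the set of transvections -/
def TT (F : Type*) [Field F] [DecidableEq F] (n : ℕ) : Set (SpecialLinearGroup (Fin n) F) :=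
  {g | ∃ z ≠ 0, ∃ θ ≠ 0, θ ⬝ᵥ z = 0 ∧ g = T z θ}

theorem conj_TT {g : SpecialLinearGroup (Fin n) F} (hg : g ∈ TT F n) (h : SpecialLinearGroup (Fin n) F) :
    h * g * h⁻¹ ∈ TT F n := by
  obtain ⟨z, hz, θ, hθ, h1, rfl⟩ := hg
  refine ⟨_, fun e => hz ?_, _, fun e => hθ ?_, by rw [dot_conj, h1], T_conj h h1⟩
  · rw [← inv_mulVec h z, e, mulVec_zero]
  · have := congrArg (· ᵥ* h.1) e
    simpa only [vecMul_vecMul, ← Matrix.SpecialLinearGroup.coe_mul, inv_mul_cancel, Matrix.SpecialLinearGroup.coe_one,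
      vecMul_one, zero_vecMul] using this

theorem card_TT : (TT F n).ncard * (Fintype.card F - 1) = (Fintype.card F ^ n - 1) * (Fintype.card F ^ (n - 1) - 1) := by
  classical
  let S : Finset ((Fin n → F) × (Fin n → F)) := {p | p.1 ≠ 0 ∧ p.2 ≠ 0 ∧ p.2 ⬝ᵥ p.1 = 0}
  have h1 : #S = (Fintype.card F ^ n - 1) * (Fintype.card F ^ (n - 1) - 1) := by
    rw [card_eq_sum_card_fiberwise (f := Prod.fst) (t := univ.erase 0) (fun p hp => by
      simpa using (mem_filter.1 hp).2.1), sum_congr rfl (g := fun _ => Fintype.card F ^ (n - 1) - 1)]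
    · simp
    intro z hz
    have hz := (mem_erase.1 hz).1
    have := card_K hz
    rw [Fintype.card_fin] at this
    rw [← this, Nat.card_eq_fintype_card, ← card_univ, ← card_erase_of_mem (mem_univ 0)]
    refine (card_bij (fun θ _ => (z, θ.1)) (fun θ h => ?_) (fun a _ b _ h => Subtype.ext (Prod.mk.inj h).2) ?_).symm
    · simpa [S, hz, mem_K.1 θ.2] using h
    · rintro ⟨a, b⟩ h
      simp only [S, mem_filter, mem_univ, true_and] at h
      obtain ⟨⟨-, h2, h3⟩, rfl⟩ := h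
      exact ⟨⟨b, h3⟩, mem_erase.2 ⟨fun e => h2 (congrArg Subtype.val e), mem_univ _⟩, rfl⟩
  rw [← h1, Set.ncard_eq_toFinset_card', card_eq_sum_card_fiberwise (s := S) (f := fun p => T p.1 p.2) (t := (TT F n).toFinset)
    (fun p hp => by
      obtain ⟨a, b, c⟩ := (mem_filter.1 hp).2
      exact Set.mem_toFinset.2 ⟨_, a, _, b, c, rfl⟩), ← smul_eq_mul, ← sum_const]
  refine sum_congr rfl fun g hg => ?_
  obtain ⟨z, hz, θ, hθ, h2, rfl⟩ := Set.mem_toFinset.1 hg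
  rw [← Fintype.card_units, ← card_univ]
  refine card_bij (fun c _ => ((c : F) • z, ((c⁻¹ : Fˣ) : F) • θ)) (fun c _ => ?_) (fun a _ b _ h => ?_) ?_
  · simp [S, hz, hθ, h2, T_smul, smul_smul]
  · exact Units.ext (smul_left_injective F hz (Prod.mk.inj h).1)
  · rintro ⟨a, b⟩ h
    simp only [S, mem_filter, mem_univ, true_and] at h
    obtain ⟨⟨h3, h4, h5⟩, h6⟩ := h
    have h7 : ∀ x, (b ⬝ᵥ x) • a = (θ ⬝ᵥ x) • z := fun x => by
      have := T_mulVec h5 x
      rw [h6, T_mulVec h2] at this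
      exact (add_left_cancel this).symm
    obtain ⟨i, hi⟩ := Function.ne_iff.1 h4
    have h8 : a = (θ i / b i) • z := by
      have := h7 (ee i)
      simp only [dotProduct_single, mul_one] at this
      rw [div_eq_inv_mul, mul_smul, ← this, inv_smul_smul₀ hi]
    have h9 : θ i / b i ≠ 0 := fun e => h3 (by rw [h8, e, zero_smul])
    refine ⟨Units.mk0 _ h9, mem_univ _, Prod.ext h8.symm (funext fun l => ?_)⟩
    have := h7 (ee l)
    simp only [dotProduct_single, mul_one] at this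
    rw [h8, smul_smul] at this
    change (θ i / b i)⁻¹ * θ l = b l
    rw [← smul_left_injective F hz this, mul_comm, mul_inv_cancel_right₀ h9]

theorem fin_chk : ∀ n ∈ range 15, ∀ q ∈ range 65, ∀ a ∈ range (n + 1), 3 ≤ n ∧ 2 ≤ q ∧ 2 ≤ a ∧
    (∑ k ∈ range n, q ^ k) * (q ^ (n - 1) - 1) * q ^ (n - 1) % (∑ k ∈ range n, q ^ k - a) = 0 →
    (n, q) ∈ [(3, 2), (3, 4), (3, 10), (4, 2), (4, 3)] := by decide +kernel

theorem cube_lt {r : ℕ} (hr : 11 ≤ r) : (r + 4) ^ 3 < 2 ^ (r + 1) := by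
  induction r, hr using Nat.le_induction with
  | base => norm_num
  | succ r hr ih =>
    obtain ⟨s, rfl⟩ := Nat.exists_eq_add_of_le hr
    rw [pow_succ 2]
    have : (11 + s + 1 + 4) ^ 3 ≤ (11 + s + 4) ^ 3 * 2 := by ring_nf; omega
    omega

theorem arith {n q a D : ℕ} (hn : 3 ≤ n) (hq : 2 ≤ q) (h2 : 2 ≤ a) (ha : a ≤ n) (hD : D + a = ∑ k ∈ range n, q ^ k)
    (hl : q ^ (n - 1) ≤ D + 1) (hd : D ∣ (∑ k ∈ range n, q ^ k) * (q ^ (n - 1) - 1) * q ^ (n - 1)) :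
    (n, q) ∈ [(3, 2), (3, 4), (3, 10), (4, 2), (4, 3)] := by
  suffices n < 15 ∧ q < 65 from fin_chk n (mem_range.2 this.1) q (mem_range.2 this.2) a (mem_range.2 (by omega)) ⟨hn, hq, h2, by
    rw [← Nat.dvd_iff_mod_eq_zero, show ∑ k ∈ range n, q ^ k - a = D by omega]; exact hd⟩
  obtain ⟨m, rfl⟩ : ∃ m, n = m + 1 := ⟨n - 1, by omega⟩
  have e1 := sum_range_succ (fun k => q ^ k) m
  have e2 := sum_range_succ' (fun k => q ^ k) m
  simp only [pow_succ, ← sum_mul, pow_zero] at e2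
  rw [Nat.add_sub_cancel] at hl hd
  generalize ∑ k ∈ range m, q ^ k = M, ∑ k ∈ range (m + 1), q ^ k = N at *
  have hQ : 1 ≤ q ^ m := Nat.one_le_pow _ _ (by omega)
  have h3 : (D : ℤ) ∣ a * (a - 1) * (q - 1) * (q * a - a + 1) := by
    have h4 : (D : ℤ) ∣ N * (q ^ m - 1) * q ^ m := by exact_mod_cast hd
    have h5 : (q : ℤ) ^ m = N - M := by rw [e1]; push_cast; ring
    have h6 : (N : ℤ) = M * q + 1 := by exact_mod_cast e2
    have h7 : (N : ℤ) = D + a := by exact_mod_cast hD.symm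
    have h8 : (q : ℤ) ^ 2 * (N * (q ^ m - 1) * q ^ m) = N * (N - 1) * (q - 1) * (q * N - N + 1) := by
      rw [h5, h6]; ring
    have h9 := h4.mul_left ((q : ℤ) ^ 2)
    rw [h8, h7] at h9
    have h10 : (D : ℤ) ∣ (D + a) * (D + a - 1) * (q - 1) * (q * (D + a) - (D + a) + 1) -
        a * (a - 1) * (q - 1) * (q * a - a + 1) :=
      ⟨(q - 1) * ((D + 2 * a - 1) * (q * (D + a) - (D + a) + 1) + a * (a - 1) * (q - 1)), by ring⟩
    exact (dvd_sub_right h9).1 h10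
  have hq' : (2 : ℤ) ≤ q := by exact_mod_cast hq
  have h2' : (2 : ℤ) ≤ a := by exact_mod_cast h2
  rcases (by omega : m = 2 ∨ 3 ≤ m) with rfl | hm
  · refine ⟨by omega, by_contra fun h => ?_⟩
    have h65 : (65 : ℤ) ≤ q := by exact_mod_cast not_lt.1 h
    have e3 : (D : ℤ) + a = q ^ 2 + q + 1 := by
      have : M = q + 1 := by
        refine Nat.eq_of_mul_eq_mul_right (m := q - 1) (by omega) ?_
        zify [show 1 ≤ q by omega] at e1 e2 ⊢
        linear_combination e1 - e2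
      rw [this] at e1; rw [e1] at hD; exact_mod_cast hD.trans (by ring)
    rcases (by omega : a = 2 ∨ a = 3) with rfl | rfl
    · have h4 := Int.le_of_dvd (a := D) (b := 10 * q - 6) (by omega) (by
        rw [show (10 * q - 6 : ℤ) = 4 * D - 2 * (2 - 1) * (q - 1) * (q * 2 - 2 + 1) by
          push_cast at e3; linear_combination (-4) * e3]
        exact (dvd_mul_left (D : ℤ) 4).sub h3)
      push_cast at e3; nlinarith
    · have h4 := Int.le_of_dvd (a := D) (b := 48 * q - 48) (by omega) (by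
        rw [show (48 * q - 48 : ℤ) = 18 * D - 3 * (3 - 1) * (q - 1) * (q * 3 - 3 + 1) by
          push_cast at e3; linear_combination (-18) * e3]
        exact (dvd_mul_left (D : ℤ) 18).sub h3)
      push_cast at e3; nlinarith
  obtain ⟨r, rfl⟩ : ∃ r, m = r + 3 := ⟨m - 3, by omega⟩
  have h4 := Int.le_of_dvd (by
    have : (0 : ℤ) < q * a - a + 1 := by nlinarith
    exact mul_pos (mul_pos (mul_pos (by omega) (by omega)) (by omega)) this) h3
  have ha' : (a : ℤ) ≤ r + 4 := by exact_mod_cast ha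
  have h5 : (a : ℤ) * (a - 1) * (q - 1) * (q * a - a + 1) < (r + 4) ^ 3 * q ^ 2 := by
    calc (a : ℤ) * (a - 1) * (q - 1) * (q * a - a + 1) < a * a * q * (q * a) := by
          have : (0 : ℤ) < q * a - a + 1 := by nlinarith
          have : (0 : ℤ) ≤ a - 1 := by omega
          have : (0 : ℤ) ≤ q - 1 := by omega
          exact mul_lt_mul' (mul_le_mul (mul_le_mul_of_nonneg_left (by omega) (by omega)) (by omega) this (by positivity))
            (by omega) (by omega) (by positivity)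
      _ = a ^ 3 * q ^ 2 := by ring
      _ ≤ _ := by gcongr
  have h6 : q ^ (r + 1) ≤ (r + 4) ^ 3 := by
    refine Nat.le_of_mul_le_mul_right (c := q ^ 2) ?_ (by positivity)
    have : (q : ℤ) ^ (r + 3) ≤ D + 1 := by exact_mod_cast hl
    have : (q : ℤ) ^ (r + 1) * q ^ 2 ≤ (r + 4) ^ 3 * q ^ 2 := by rw [← pow_add, show r + 1 + 2 = r + 3 from rfl]; omega
    exact_mod_cast this
  have h7 : r < 11 := by_contra fun h => (cube_lt (not_lt.1 h)).not_ge ((Nat.pow_le_pow_left hq _).trans h6)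
  refine ⟨by omega, by_contra fun h => ?_⟩
  have := (Nat.pow_le_pow_left (not_lt.1 h) _).trans h6
  interval_cases r <;> simp at this

open Cfsg CChar.CharInt CChar.CharKer CChar.CharFun

theorem transvection_mem {i j : Fin n} (h : i ≠ j) {c : F} (hc : c ≠ 0) : SpecialLinearGroup.transvection h c ∈ TT F n :=
  ⟨ee i, ee_ne i, c • ee j, smul_ne_zero hc (ee_ne j), by simp [h], ext_mulVec fun x => by
    rw [T_mulVec (by simp [h])]
    change (1 + single i j c) *ᵥ x = _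
    simp [add_mulVec, single_mulVec, funext_iff, Function.update_apply, Pi.single_apply]⟩

theorem geom (q n : ℕ) (hq : 1 ≤ q) : (∑ k ∈ range n, q ^ k) * (q - 1) = q ^ n - 1 := by
  zify [hq, Nat.one_le_pow n q hq]; exact geom_sum_mul _ _

theorem core (hn : 3 ≤ n) {χ : SpecialLinearGroup (Fin n) F → ℂ} (hχ : IsIrrCharacter _ χ) {D : ℕ} (hD : χ 1 = D)
    (h1 : D ≠ 1) : ∃ m c : ℕ, 1 ≤ m ∧ D = c + (Fintype.card F ^ (n - 1) - 1) * m ∧ (∀ g ∈ TT F n, χ g = c - m) ∧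
      D ∣ (∑ k ∈ range n, Fintype.card F ^ k) * (Fintype.card F ^ (n - 1) - 1) * Fintype.card F ^ (n - 1) * m ∧
      (m = 1 → (n, Fintype.card F) ∉ [(3, 2), (3, 4), (4, 2), (4, 3)] → ∑ k ∈ range n, (Fintype.card F ^ k - 1) ≤ D) := by
  classical
  obtain ⟨ψ, hψ⟩ := AddChar.exists_apply_ne_zero.2 (one_ne_zero (α := F))
  have hψ : ψ ≠ 1 := fun e => hψ (by rw [e]; rfl)
  have hχ' := hχ
  obtain ⟨d, ρ, -, rfl⟩ := hχ'
  obtain rfl : d = D := by simpa using hD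
  obtain ⟨m, c, a1, a2, a3⟩ := exists_m (ρ := ρ) hψ (by simpa using hn)
  rw [Fintype.card_fin, finrank_fin_fun] at a2
  have a4 : ∀ g ∈ TT F n, ρ.character g = c - m := by rintro _ ⟨z, hz, θ, hθ, h, rfl⟩; exact a3 z hz θ hθ h
  have hq : 2 ≤ Fintype.card F := Fintype.one_lt_card
  have hQ : 1 ≤ Fintype.card F ^ (n - 1) := Nat.one_le_pow _ _ (by omega)
  refine ⟨m, c, Nat.pos_of_ne_zero fun h0 => h1 ?_, a2, a4, ?_, fun e h => ?_⟩
  · have := (charKer_eq_top_iff hχ).1 (CA.SLnGen.eq_top_of_transvection fun i j h b => by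
      by_cases hb : b = 0
      · simp [hb]
      · rw [mem_charKer (char_of_irr hχ), a4 _ (transvection_mem h hb), hD, a2, h0]; simp)
    exact_mod_cast hD.symm.trans (congrFun this 1)
  · have h2 := isIntegral_sum_mul_div hχ (f := fun g => if g ∈ TT F n then 1 else 0) (fun g h => by
      have : h * g * h⁻¹ ∈ TT F n ↔ g ∈ TT F n := ⟨fun e => by simpa [mul_assoc] using conj_TT e h⁻¹, fun e => conj_TT e h⟩
      simp only [this]) fun g => by split_ifs; exacts [isIntegral_one, isIntegral_zero]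
    have h3 : ∑ g, (if g ∈ TT F n then (1 : ℂ) else 0) * ρ.character g = (((TT F n).ncard * (c - m) : ℤ) : ℂ) := by
      rw [sum_congr rfl (g := fun g => if g ∈ TT F n then (c - m : ℂ) else 0) fun g _ => by
        split_ifs with h
        · rw [one_mul, a4 g h]
        · rw [zero_mul], ← sum_filter, sum_const, Set.ncard_eq_toFinset_card', nsmul_eq_mul]
      push_cast
      congr 3
      ext; simp
    have hd0 : d ≠ 0 := by rintro rfl; exact irr_apply_one_ne_zero hχ (by simpa using hD)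
    rw [h3, hD, ← Int.cast_natCast] at h2
    have h4 := int_dvd_of_isIntegral_div (by exact_mod_cast hd0) h2
    have h5 : (TT F n).ncard = (∑ k ∈ range n, Fintype.card F ^ k) * (Fintype.card F ^ (n - 1) - 1) :=
      Nat.eq_of_mul_eq_mul_right (m := Fintype.card F - 1) (by omega) (by rw [card_TT, mul_right_comm, geom _ _ (by omega)])
    rw [← h5, ← Int.natCast_dvd_natCast]
    have h6 : (c - m : ℤ) = d - Fintype.card F ^ (n - 1) * m := by rw [a2]; push_cast [hQ]; ring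
    rw [h6, mul_sub, dvd_sub_right (dvd_mul_left _ _)] at h4
    push_cast
    rwa [mul_assoc]
  · have key : ∀ k, k ≠ 0 → ¬ Fintype.card F - 1 ∣ k → ∃ a : F, a ≠ 0 ∧ a ^ k ≠ 1 := fun k _ hk => by
      obtain ⟨g, hg⟩ := IsCyclic.exists_ofOrder_eq_natCard (α := Fˣ)
      refine ⟨g, g.ne_zero, fun e => hk ?_⟩
      rw [← Fintype.card_units, ← Nat.card_eq_fintype_card, ← hg]
      exact orderOf_dvd_of_pow_eq_one (Units.ext (by simpa using e))
    have := lower hψ (e ▸ a1) (by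
      rw [Fintype.card_fin]
      simp only [List.mem_cons, Prod.mk.injEq, List.not_mem_nil, or_false, not_or, not_and] at h
      rcases (by omega : n = 3 ∨ n = 4 ∨ 5 ≤ n) with rfl | rfl | h5
      · refine Or.inl (key 3 (by omega) fun e => ?_)
        have := (Nat.dvd_prime Nat.prime_three).1 e
        omega
      · refine Or.inr (Or.inl ⟨rfl, key 2 (by omega) fun e => ?_⟩)
        have := (Nat.dvd_prime Nat.prime_two).1 e
        omega
      · exact Or.inr (Or.inr h5))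
    rwa [finrank_fin_fun] at this

theorem sum_sub_one (q n : ℕ) (hq : 1 ≤ q) : ∑ k ∈ range n, (q ^ k - 1) + n = ∑ k ∈ range n, q ^ k := by
  nth_rewrite 2 [← card_range n]
  rw [card_eq_sum_ones, ← sum_add_distrib]
  exact sum_congr rfl fun k _ => Nat.sub_add_cancel (Nat.one_le_pow _ _ hq)

theorem two_le (q n : ℕ) (hq : 2 ≤ q) (hn : 1 ≤ n) : ∑ k ∈ range n, q ^ k ≤ 2 * (q ^ (n - 1) - 1) + 1 := by
  obtain ⟨n, rfl⟩ := Nat.exists_eq_add_of_le' hn
  have := geom q n (by omega)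
  have h2 := Nat.mul_le_mul_left (∑ k ∈ range n, q ^ k) (show 1 ≤ q - 1 by omega)
  have := Nat.one_le_pow n q (by omega)
  rw [sum_range_succ, Nat.add_sub_cancel]; omega

theorem min_degree (hn : 3 ≤ n) (hex : (n, Fintype.card F) ∉ [(3, 2), (3, 4), (4, 2), (4, 3)])
    {χ : SpecialLinearGroup (Fin n) F → ℂ} (hχ : IsIrrCharacter _ χ) {D : ℕ} (hD : χ 1 = D) (h1 : D ≠ 1) :
    ∑ k ∈ range n, Fintype.card F ^ k ≤ D + 1 := by
  obtain ⟨m, c, a1, a2, -, a4, a5⟩ := core hn hχ hD h1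
  have hq : 2 ≤ Fintype.card F := Fintype.one_lt_card
  have hQ : 1 ≤ Fintype.card F ^ (n - 1) := Nat.one_le_pow _ _ (by omega)
  rcases a1.eq_or_lt with rfl | h
  · have h2 := a5 rfl hex
    have h3 := sum_sub_one (Fintype.card F) n (by omega)
    by_contra h
    have := arith (a := ∑ k ∈ range n, Fintype.card F ^ k - D) (D := D) hn hq (by omega) (by omega) (by omega) (by omega)
      (by simpa using a4)
    have h10 : Fintype.card F ≠ 10 := fun e => by
      have := e ▸ FiniteField.isPrimePow_card F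
      revert this; decide
    simp only [List.mem_cons, Prod.mk.injEq, List.not_mem_nil, or_false] at this hex
    omega
  · have := two_le (Fintype.card F) n hq (by omega)
    have := Nat.mul_le_mul_left (Fintype.card F ^ (n - 1) - 1) h
    omega

theorem div_eq (q n : ℕ) (hq : 2 ≤ q) : (q ^ n - 1) / (q - 1) = ∑ k ∈ range n, q ^ k := by
  rw [← geom q n (by omega), Nat.mul_div_cancel _ (by omega)]

theorem div_eq' (q n : ℕ) (hq : 2 ≤ q) (hn : 1 ≤ n) : (q ^ n - q) / (q - 1) = ∑ k ∈ range n, q ^ k - 1 := by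
  rw [show q ^ n - q = (∑ k ∈ range n, q ^ k - 1) * (q - 1) by
    rw [Nat.sub_mul, geom q n (by omega)]; omega, Nat.mul_div_cancel _ (by omega)]

open scoped LinearAlgebra.Projectivization in
theorem card_proj : Nat.card (ℙ F (Fin n → F)) = ∑ k ∈ range n, Fintype.card F ^ k := by
  rw [Projectivization.card_of_finrank F _ (finrank_fin_fun F), Nat.card_eq_fintype_card]

end CA.SLDeg
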