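import Cfsg.Agent.Lib.Lin.SU3

/-! Involutions of `SU₃(q)`, `q` odd, as reflections in non-isotropic vectors. -/

namespace CA.SU3Inv
open Matrix CA.CForm CA.SU3
open scoped MatrixGroups

section Count

theorem card_fib {α β : Type*} [Finite α] [Finite β] (P : α → Prop) (Q : α → β → Prop) (k : ℕ)
    (h : ∀ a, P a → Nat.card {b // Q a b} = k) :
    Nat.card {p : α × β // P p.1 ∧ Q p.1 p.2} = Nat.card {a // P a} * k := by
  classical
  have e : {p : α × β // P p.1 ∧ Q p.1 p.2} ≃ Σ a : {a // P a}, {b // Q a.1 b} :=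
    { toFun := fun p => ⟨⟨p.1.1, p.2.1⟩, ⟨p.1.2, p.2.2⟩⟩
      invFun := fun p => ⟨(p.1.1, p.2.1), p.1.2, p.2.2⟩
      left_inv := fun _ => rfl
      right_inv := fun _ => rfl }
  have := Fintype.ofFinite {a // P a}
  rw [Nat.card_congr e, Nat.card_sigma, Finset.sum_congr rfl (fun a _ => h a.1 a.2)]
  simp

theorem card_split {α : Type*} [Finite α] (P Q : α → Prop) :
    Nat.card {x // P x} = Nat.card {x // P x ∧ Q x} + Nat.card {x // P x ∧ ¬ Q x} := by
  classical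
  rw [← Nat.card_sum]
  refine Nat.card_congr ((Equiv.sumCompl (fun x : {x // P x} => Q x.1)).symm.trans (Equiv.sumCongr ?_ ?_))
  · exact Equiv.subtypeSubtypeEquivSubtypeInter P Q
  · exact Equiv.subtypeSubtypeEquivSubtypeInter P (fun x => ¬ Q x)

theorem card_iff {α : Type*} {P Q : α → Prop} (h : ∀ x, P x ↔ Q x) :
    Nat.card {x // P x} = Nat.card {x // Q x} := Nat.card_congr (Equiv.subtypeEquivRight h)

theorem card_eq_pt {α : Type*} (a : α) : Nat.card {x // x = a} = 1 := by simp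

end Count

variable {F : Type*} [Field F] [Fintype F] {q : ℕ} (hF : Fintype.card F = q ^ 2)

/-- The norm. -/
def N (x : F) : F := x * conj hF x

/-- The Hermitian form. -/
def hh (u v : Fin 3 → F) : F := u 0 * conj hF (v 0) + u 1 * conj hF (v 1) + u 2 * conj hF (v 2)

theorem conj_N (x : F) : conj hF (N hF x) = N hF x := by simp [N, conj_conj, mul_comm]

theorem N_eq_zero {x : F} : N hF x = 0 ↔ x = 0 := by simp [N]

theorem conj_hh (u v : Fin 3 → F) : conj hF (hh hF u v) = hh hF v u := by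
  simp [hh, conj_conj]; ring

theorem hh_self (v : Fin 3 → F) : hh hF v v = N hF (v 0) + N hF (v 1) + N hF (v 2) := rfl

theorem hh_smul (a b : F) (u v : Fin 3 → F) : hh hF (a • u) (b • v) = a * conj hF b * hh hF u v := by
  simp [hh]; ring

include hF in
theorem card_ne : Nat.card {x : F // x ≠ 0} = q ^ 2 - 1 := by
  rw [← Nat.card_congr unitsEquivNeZero, Nat.card_units, Nat.card_eq_fintype_card, hF]

theorem card_N {c : F} (h0 : c ≠ 0) (hc : conj hF c = c) : Nat.card {x : F // N hF x = c} = q + 1 := by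
  rw [← card_norm_eq hF h0 hc]
  exact card_iff fun x => by rw [N, conj_apply, ← pow_succ']

theorem card_iso : Nat.card {p : F × F // p ≠ 0 ∧ N hF p.1 + N hF p.2 = 0} = (q ^ 2 - 1) * (q + 1) := by
  rw [← card_ne hF, ← card_fib (fun b : F => b ≠ 0) (fun b c : F => N hF c = -N hF b) (q + 1)
    (fun b hb => card_N hF (neg_ne_zero.2 (mt (N_eq_zero hF).1 hb)) (by rw [map_neg, conj_N]))]
  refine card_iff fun ⟨b, c⟩ => ⟨fun ⟨h1, h2⟩ => ⟨?_, by linear_combination h2⟩,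
    fun ⟨h1, h2⟩ => ⟨fun h => h1 (congrArg Prod.fst h), by linear_combination h2⟩⟩
  rintro rfl
  have : c = 0 := (N_eq_zero hF).1 (by simpa [N] using h2)
  exact h1 (by rw [this]; rfl)

theorem card_aniso : Nat.card {p : F × F // N hF p.1 + N hF p.2 ≠ 0} = q * (q - 1) * (q ^ 2 - 1) := by
  have h1 := card_split (fun _ : F × F => True) (fun p => N hF p.1 + N hF p.2 = 0)
  have h2 := card_split (fun p : F × F => True ∧ N hF p.1 + N hF p.2 = 0) (fun p => p = 0)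
  have h3 : Nat.card {p : F × F // (True ∧ N hF p.1 + N hF p.2 = 0) ∧ p = 0} = 1 := by
    rw [← card_eq_pt (0 : F × F)]
    exact card_iff fun p => ⟨fun h => h.2, fun h => by simp [h, N]⟩
  have h4 : Nat.card {p : F × F // (True ∧ N hF p.1 + N hF p.2 = 0) ∧ ¬ p = 0} = (q ^ 2 - 1) * (q + 1) := by
    rw [← card_iso hF]
    exact card_iff fun p => by tauto
  have h5 : Nat.card {_p : F × F // True} = q ^ 2 * q ^ 2 := by
    rw [Nat.card_congr (Equiv.subtypeUnivEquiv fun _ => trivial), Nat.card_prod, Nat.card_eq_fintype_card, hF]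
  have h6 : Nat.card {p : F × F // True ∧ ¬ N hF p.1 + N hF p.2 = 0} =
      Nat.card {p : F × F // N hF p.1 + N hF p.2 ≠ 0} := card_iff fun p => by tauto
  rw [h2, h3, h4, h5, h6] at h1
  obtain ⟨r, rfl⟩ : ∃ r, q = r + 1 := ⟨q - 1, by have := two_le_of_card_sq hF; omega⟩
  have e : (r + 1) ^ 2 - 1 = r * (r + 2) := by rw [Nat.sub_eq_iff_eq_add (Nat.one_le_pow _ _ (by omega))]; ring
  rw [e] at h1 ⊢
  rw [Nat.add_sub_cancel]
  nlinarith

theorem card_two {c : F} (h0 : c ≠ 0) (hc : conj hF c = c) :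
    Nat.card {a : F // a ≠ 0 ∧ N hF a + c ≠ 0} = (q - 2) * (q + 1) := by
  have h1 := card_split (fun a : F => a ≠ 0) (fun a => N hF a + c = 0)
  have h2 : Nat.card {a : F // a ≠ 0 ∧ N hF a + c = 0} = q + 1 := by
    rw [← card_N hF (neg_ne_zero.2 h0) (by rw [map_neg, hc])]
    refine card_iff fun a => ⟨fun h => by linear_combination h.2, fun h => ⟨?_, by linear_combination h⟩⟩
    rintro rfl
    exact h0 (by simpa [N] using h)
  rw [h2, card_ne hF] at h1
  obtain ⟨r, rfl⟩ : ∃ r, q = r + 2 := ⟨q - 2, by have := two_le_of_card_sq hF; omega⟩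
  have e : (r + 2) ^ 2 - 1 = (r + 1) * (r + 3) := by
    rw [Nat.sub_eq_iff_eq_add (Nat.one_le_pow _ _ (by omega))]; ring
  rw [e] at h1
  rw [Nat.add_sub_cancel]
  change _ = _ + Nat.card {a : F // a ≠ 0 ∧ N hF a + c ≠ 0} at h1
  nlinarith

/-- The reflection matrix. -/
def Rm (v : Fin 3 → F) : Matrix (Fin 3) (Fin 3) F :=
  (2 / hh hF v v) • vecMulVec v (conj hF ∘ v) - 1

theorem Rm_apply (v : Fin 3 → F) (i j : Fin 3) :
    Rm hF v i j = 2 / hh hF v v * (v i * conj hF (v j)) - if i = j then 1 else 0 := by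
  simp [Rm, vecMulVec_apply, one_apply]

theorem vv_mul (u v x y : Fin 3 → F) : vecMulVec u (conj hF ∘ v) * vecMulVec x y = hh hF x v • vecMulVec u y := by
  ext i j
  simp [Matrix.mul_apply, vecMulVec_apply, Fin.sum_univ_three, hh]; ring

theorem Rm_mul (v w : Fin 3 → F) : Rm hF v * Rm hF w =
    (2 / hh hF v v * (2 / hh hF w w) * hh hF w v) • vecMulVec v (conj hF ∘ w) - Rm hF v - Rm hF w - 1 := by
  simp only [Rm, sub_mul, mul_sub, smul_mul_assoc, mul_smul_comm, vv_mul, smul_smul, mul_one, one_mul]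
  module

variable {hF}

theorem Rm_sq {v : Fin 3 → F} (hv : hh hF v v ≠ 0) : Rm hF v * Rm hF v = 1 := by
  rw [Rm_mul]
  simp only [Rm]
  match_scalars
  · field_simp; ring
  · ring

theorem Rm_det {v : Fin 3 → F} (hv : hh hF v v ≠ 0) : (Rm hF v).det = 1 := by
  have hc : 2 / hh hF v v * hh hF v v = 2 := div_mul_cancel₀ _ hv
  rw [det_fin_three]
  simp only [Rm_apply]
  generalize 2 / hh hF v v = c at hc ⊢
  simp [hh] at hc ⊢
  linear_combination hc

theorem Rm_map (v : Fin 3 → F) : (Rm hF v).map (conj hF) = (Rm hF v)ᵀ := by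
  ext i j
  simp only [map_apply, transpose_apply, Rm_apply, map_sub, map_mul, map_div₀, conj_hh, conj_conj, map_ofNat]
  by_cases h : i = j
  · subst h; simp [mul_comm]
  · simp [h, Ne.symm h, mul_comm]

theorem mem_SU {g : SL(3, F)} : g ∈ Cfsg.SU 3 F q ↔ g.1ᵀ * g.1.map (conj hF) = 1 := by
  rw [SU_eq hF, mem_SUM, Matrix.mul_one]

variable (hF) in
open Classical in
/-- The reflection as an element of `SU₃(q)`. -/
noncomputable def R (v : Fin 3 → F) : Cfsg.SU 3 F q :=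
  if hv : hh hF v v ≠ 0 then ⟨⟨Rm hF v, Rm_det hv⟩, (mem_SU (hF := hF)).2 (by
    change (Rm hF v)ᵀ * (Rm hF v).map (conj hF) = 1
    rw [Rm_map, ← transpose_mul, Rm_sq hv, transpose_one])⟩ else 1

theorem R_val {v : Fin 3 → F} (hv : hh hF v v ≠ 0) : (R hF v).1.1 = Rm hF v := by
  rw [R, dif_pos hv]

omit [Fintype F] in
theorem ext_iff' {g h : Cfsg.SU 3 F q} : g = h ↔ g.1.1 = h.1.1 :=
  ⟨fun e => by rw [e], fun e => Subtype.ext (Subtype.ext e)⟩

theorem exists_ne {v : Fin 3 → F} (hv : hh hF v v ≠ 0) : ∃ j, v j ≠ 0 := by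
  by_contra h
  push Not at h
  exact hv (by simp [hh, h])

theorem R_sq {v : Fin 3 → F} (hv : hh hF v v ≠ 0) : R hF v * R hF v = 1 :=
  ext_iff'.2 (by change (R hF v).1.1 * (R hF v).1.1 = 1; rw [R_val hv, Rm_sq hv])

theorem R_ne (h2 : (2 : F) ≠ 0) {v : Fin 3 → F} (hv : hh hF v v ≠ 0) : R hF v ≠ 1 := by
  intro h
  have e : Rm hF v = 1 := (R_val hv).symm.trans (ext_iff'.1 h)
  have hc : 2 / hh hF v v * hh hF v v = 2 := div_mul_cancel₀ _ hv
  have e0 := congrFun (congrFun e 0) 0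
  have e1 := congrFun (congrFun e 1) 1
  have e2 := congrFun (congrFun e 2) 2
  simp only [Rm_apply] at e0 e1 e2
  generalize 2 / hh hF v v = c at hc e0 e1 e2
  simp [hh] at hc e0 e1 e2
  have : (2 : F) * 2 = 0 := by linear_combination hc - e0 - e1 - e2
  exact h2 (by simpa using this)

theorem hh_smul_ne {v : Fin 3 → F} (hv : hh hF v v ≠ 0) {a : F} (ha : a ≠ 0) : hh hF (a • v) (a • v) ≠ 0 := by
  rw [hh_smul]; simp [ha, hv]

theorem R_smul {v : Fin 3 → F} (hv : hh hF v v ≠ 0) {a : F} (ha : a ≠ 0) : R hF (a • v) = R hF v := by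
  rw [ext_iff', R_val hv, R_val (hh_smul_ne hv ha)]
  ext i j
  have : conj hF a ≠ 0 := (map_ne_zero _).2 ha
  simp only [Rm_apply, hh_smul, Pi.smul_apply, smul_eq_mul, map_mul]
  field_simp

theorem R_eq_iff (h2 : (2 : F) ≠ 0) {v w : Fin 3 → F} (hv : hh hF v v ≠ 0) (hw : hh hF w w ≠ 0) :
    R hF v = R hF w ↔ ∃ a : F, v = a • w := by
  refine ⟨fun h => ?_, fun ⟨a, e⟩ => ?_⟩
  · rw [ext_iff', R_val hv, R_val hw] at h
    obtain ⟨j, hj⟩ := exists_ne hv
    have hj' : conj hF (v j) ≠ 0 := (map_ne_zero _).2 hj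
    refine ⟨hh hF v v * conj hF (w j) / (hh hF w w * conj hF (v j)), funext fun i => ?_⟩
    have := congrFun (congrFun h i) j
    simp only [Rm_apply, sub_left_inj] at this
    simp only [Pi.smul_apply, smul_eq_mul]
    field_simp at this ⊢
    linear_combination this
  · have ha : a ≠ 0 := by
      rintro rfl
      exact hv (by simp [e, hh])
    rw [e, R_smul hw ha]

theorem R_comm_iff (h2 : (2 : F) ≠ 0) {v w : Fin 3 → F} (hv : hh hF v v ≠ 0) (hw : hh hF w w ≠ 0) :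
    Commute (R hF v) (R hF w) ↔ hh hF v w = 0 ∨ R hF v = R hF w := by
  have key : Commute (R hF v) (R hF w) ↔
      hh hF w v • vecMulVec v (conj hF ∘ w) = hh hF v w • vecMulVec w (conj hF ∘ v) := by
    rw [commute_iff_eq, ext_iff']
    change (R hF v).1.1 * (R hF w).1.1 = (R hF w).1.1 * (R hF v).1.1 ↔ _
    rw [R_val hv, R_val hw, Rm_mul, Rm_mul, sub_right_comm _ (Rm hF v), sub_left_inj, sub_left_inj, sub_left_inj,
      mul_comm (2 / hh hF w w), mul_smul, mul_smul _ (hh hF v w)]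
    exact (smul_right_injective _ (by simp [h2, hv, hw])).eq_iff
  refine ⟨fun h => ?_, ?_⟩
  · by_cases h0 : hh hF v w = 0
    · exact Or.inl h0
    · refine Or.inr ((R_eq_iff h2 hv hw).2 ?_)
      have h0' : hh hF w v ≠ 0 := by rw [← conj_hh]; exact (map_ne_zero _).2 h0
      obtain ⟨j, hj⟩ := exists_ne hw
      have hj' : conj hF (w j) ≠ 0 := (map_ne_zero _).2 hj
      refine ⟨hh hF v w * conj hF (v j) / (hh hF w v * conj hF (w j)), funext fun i => ?_⟩
      have := congrFun (congrFun (key.1 h) i) j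
      simp only [Matrix.smul_apply, vecMulVec_apply, Function.comp_apply, smul_eq_mul] at this
      simp only [Pi.smul_apply, smul_eq_mul]
      field_simp
      linear_combination this
  · rintro (h | h)
    · have h' : hh hF w v = 0 := by rw [← conj_hh, h, map_zero]
      rw [key, h, h', zero_smul, zero_smul]
    · rw [h]

theorem exists_R (h2 : (2 : F) ≠ 0) {t : Cfsg.SU 3 F q} (ht : t ≠ 1) (ht2 : t * t = 1) :
    ∃ v, hh hF v v ≠ 0 ∧ t = R hF v := by
  set M := t.1.1 with hM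
  have hsq : M * M = 1 := ext_iff'.1 ht2
  have hdet : M.det = 1 := t.1.2
  have hne : M ≠ 1 := fun h => ht (ext_iff'.2 h)
  have hu : Mᵀ * M.map (conj hF) = 1 := (mem_SU (hF := hF)).1 t.2
  have hmap : M.map (conj hF) = Mᵀ := by
    calc M.map (conj hF) = (M * M)ᵀ * M.map (conj hF) := by rw [hsq]; simp
      _ = Mᵀ * (Mᵀ * M.map (conj hF)) := by rw [transpose_mul, Matrix.mul_assoc]
      _ = _ := by rw [hu, Matrix.mul_one]
  have hadj : adjugate M = M := by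
    calc adjugate M = adjugate M * (M * M) := by rw [hsq, Matrix.mul_one]
      _ = _ := by rw [← Matrix.mul_assoc, adjugate_mul, hdet]; simp
  have hid : ∀ A : Matrix (Fin 3) (Fin 3) F, adjugate A = A * A - A.trace • A + (adjugate A).trace • 1 := by
    intro A
    ext i j
    fin_cases i <;> fin_cases j <;>
      simp [adjugate_fin_three, trace_fin_three, Matrix.mul_apply, Fin.sum_univ_three] <;> ring
  have htr : M.trace = -1 := by
    by_contra h
    have h1 := hid M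
    rw [hadj, hsq] at h1
    have h3 : (M.trace + 1) • (M - 1) = 0 := by
      rw [smul_sub, add_smul, add_smul, one_smul, one_smul]
      rw [← sub_eq_zero] at h1
      rw [← h1]; abel
    rcases smul_eq_zero.1 h3 with h4 | h4
    · exact h (by linear_combination h4)
    · exact hne (sub_eq_zero.1 h4)
  have hadj2 : adjugate (M + 1) = 0 := by
    have hA : ∀ A : Matrix (Fin 3) (Fin 3) F, adjugate (A + 1) = adjugate A - A + (A.trace + 1) • 1 := by
      intro A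
      ext i j
      fin_cases i <;> fin_cases j <;> simp [adjugate_fin_three, trace_fin_three] <;> ring
    rw [hA, hadj, htr]; simp
  set E := M + 1 with hE
  have hEE : E * E = (2 : F) • E := by
    rw [hE, add_mul, mul_add, mul_add, hsq]; simp only [mul_one, one_mul]; module
  have hEc : ∀ i j, conj hF (E i j) = E j i := fun i j => by
    have := congrFun (congrFun hmap i) j
    simp only [map_apply, transpose_apply] at this
    by_cases h : i = j
    · subst h; simp [hE, this]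
    · simp [hE, this, h, Ne.symm h]
  have hmin : ∀ i j k, E j k * E i i = E j i * E i k := by
    have h := fun i j => congrFun (congrFun hadj2 i) j
    have h00 := h 0 0; have h01 := h 0 1; have h02 := h 0 2
    have h10 := h 1 0; have h11 := h 1 1; have h12 := h 1 2
    have h20 := h 2 0; have h21 := h 2 1; have h22 := h 2 2
    simp [adjugate_fin_three] at h00 h01 h02 h10 h11 h12 h20 h21 h22
    intro i j k
    fin_cases i <;> fin_cases j <;> fin_cases k <;> simp <;>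
      first
        | ring1
        | linear_combination h00 | linear_combination h11 | linear_combination h22
        | linear_combination -h01 | linear_combination -h02 | linear_combination -h10
        | linear_combination -h12 | linear_combination -h20 | linear_combination -h21
  have htrE : E 0 0 + E 1 1 + E 2 2 = 2 := by
    rw [trace_fin_three] at htr
    simp [hE]; linear_combination htr
  obtain ⟨i, hi⟩ : ∃ i, E i i ≠ 0 := by
    by_contra h
    push Not at h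
    exact h2 (by rw [← htrE]; simp [h])
  have hn : hh hF (fun j => E j i) (fun j => E j i) = 2 * E i i := by
    have := congrFun (congrFun hEE i) i
    simp only [Matrix.mul_apply, Fin.sum_univ_three, Matrix.smul_apply, smul_eq_mul] at this
    simp only [hh, hEc]
    linear_combination this
  have hv : hh hF (fun j => E j i) (fun j => E j i) ≠ 0 := by rw [hn]; exact mul_ne_zero h2 hi
  refine ⟨_, hv, ext_iff'.2 ?_⟩
  rw [R_val hv, ← hM]
  ext j k
  have : E j k = M j k + if j = k then 1 else 0 := by simp [hE, one_apply]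
  rw [Rm_apply, hn, hEc, ← hmin, eq_sub_iff_add_eq, ← this]
  field_simp

theorem card_inv (h2 : (2 : F) ≠ 0) (P : Cfsg.SU 3 F q → Prop) :
    Nat.card {x : Cfsg.SU 3 F q // x ≠ 1 ∧ x * x = 1 ∧ P x} * (q ^ 2 - 1) =
      Nat.card {p : (F × F) × F // hh hF ![p.2, p.1.1, p.1.2] ![p.2, p.1.1, p.1.2] ≠ 0 ∧
        P (R hF ![p.2, p.1.1, p.1.2])} := by
  have e : {p : (F × F) × F // hh hF ![p.2, p.1.1, p.1.2] ![p.2, p.1.1, p.1.2] ≠ 0 ∧
      P (R hF ![p.2, p.1.1, p.1.2])} ≃ {v : Fin 3 → F // hh hF v v ≠ 0 ∧ P (R hF v)} := by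
    refine Equiv.subtypeEquiv ⟨fun p => ![p.2, p.1.1, p.1.2], fun v => ((v 1, v 2), v 0), fun _ => rfl,
      fun v => ?_⟩ fun _ => Iff.rfl
    funext i; fin_cases i <;> rfl
  rw [Nat.card_congr e, ← card_ne hF, ← Nat.card_prod]
  choose w hw hw' using fun x : {x : Cfsg.SU 3 F q // x ≠ 1 ∧ x * x = 1 ∧ P x} =>
    exists_R (hF := hF) h2 x.2.1 x.2.2.1
  refine Nat.card_eq_of_bijective (fun p => ⟨p.2.1 • w p.1, hh_smul_ne (hw _) p.2.2, by
    rw [R_smul (hw _) p.2.2, ← hw']; exact p.1.2.2.2⟩) ⟨?_, ?_⟩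
  · rintro ⟨x, a⟩ ⟨y, b⟩ h
    have h1 : a.1 • w x = b.1 • w y := congrArg Subtype.val h
    obtain rfl : x = y := Subtype.ext (by
      rw [hw' x, hw' y, ← R_smul (hw x) a.2, ← R_smul (hw y) b.2, h1])
    obtain ⟨j, hj⟩ := exists_ne (hw x)
    have := mul_right_cancel₀ hj (congrFun h1 j)
    rw [Subtype.ext this]
  · rintro ⟨v, hv, hP⟩
    obtain ⟨a, ha⟩ := (R_eq_iff h2 hv (hw ⟨R hF v, R_ne h2 hv, R_sq hv, hP⟩)).1
      (hw' ⟨R hF v, R_ne h2 hv, R_sq hv, hP⟩)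
    have ha0 : a ≠ 0 := by
      rintro rfl
      exact hv (by rw [ha]; simp [hh])
    exact ⟨(⟨R hF v, R_ne h2 hv, R_sq hv, hP⟩, ⟨a, ha0⟩), Subtype.ext ha.symm⟩

theorem exists_unit {v : Fin 3 → F} (hv : hh hF v v ≠ 0) : ∃ a : F, a ≠ 0 ∧ hh hF (a • v) (a • v) = 1 := by
  obtain ⟨a, ha⟩ := exists_norm_eq (conj hF) (conj_conj hF) (conj_ne_id hF) (hh hF v v)⁻¹
    (by rw [map_inv₀, conj_hh])
  refine ⟨a, ?_, by rw [hh_smul, ha, inv_mul_cancel₀ hv]⟩
  rintro rfl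
  exact inv_ne_zero hv (by rw [← ha, zero_mul])

theorem exists_perp (h2 : (2 : F) ≠ 0) {v : Fin 3 → F} (hv : hh hF v v ≠ 0) :
    ∃ w, hh hF w w ≠ 0 ∧ hh hF w v = 0 ∧ (w 0 = 0 ∨ w 1 = 0 ∨ w 2 = 0) := by
  by_cases h0 : N hF (v 1) + N hF (v 2) ≠ 0
  · exact ⟨![0, -conj hF (v 2), conj hF (v 1)], by simpa [hh, conj_conj, N, add_comm, mul_comm] using h0,
      by simp [hh, mul_comm], Or.inl rfl⟩
  by_cases h1 : N hF (v 0) + N hF (v 2) ≠ 0
  · exact ⟨![-conj hF (v 2), 0, conj hF (v 0)], by simpa [hh, conj_conj, N, add_comm, mul_comm] using h1,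
      by simp [hh, mul_comm], Or.inr (Or.inl rfl)⟩
  push Not at h0 h1
  have h3 : N hF (v 0) + N hF (v 1) ≠ 0 := fun h => mul_ne_zero h2 hv (by
    rw [hh_self]; linear_combination h + h0 + h1)
  exact ⟨![-conj hF (v 1), conj hF (v 0), 0], by simpa [hh, conj_conj, N, add_comm, mul_comm] using h3,
      by simp [hh, mul_comm], Or.inr (Or.inr rfl)⟩

theorem hh_e0 : hh hF ![1, 0, 0] ![1, 0, 0] ≠ 0 := by simp [hh]

theorem conj_e0 (h2 : (2 : F) ≠ 0) {t : Cfsg.SU 3 F q} (ht : t ≠ 1) (ht2 : t * t = 1) :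
    ∃ g : Cfsg.SU 3 F q, g * R hF ![1, 0, 0] * g⁻¹ = t := by
  obtain ⟨v, hv, rfl⟩ := exists_R (hF := hF) h2 ht ht2
  obtain ⟨a, ha, hv1⟩ := exists_unit hv
  rw [← R_smul hv ha]
  generalize a • v = v at hv1
  have hv : hh hF v v ≠ 0 := by rw [hv1]; exact one_ne_zero
  obtain ⟨w, hw, hwv, -⟩ := exists_perp h2 hv
  obtain ⟨b, -, hw1⟩ := exists_unit hw
  have hwv' : hh hF (b • w) v = 0 := by
    have := hh_smul hF b 1 w v
    rw [one_smul, hwv, mul_zero] at this; exact this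
  generalize b • w = w at hw1 hwv'
  have hvw : hh hF v w = 0 := by rw [← conj_hh, hwv', map_zero]
  let M : Matrix (Fin 3) (Fin 3) F :=
    !![v 0, w 0, conj hF (v 1 * w 2 - v 2 * w 1); v 1, w 1, conj hF (v 2 * w 0 - v 0 * w 2);
      v 2, w 2, conj hF (v 0 * w 1 - v 1 * w 0)]
  have hR := fun i j => Rm_apply hF v i j
  rw [hv1] at hR
  simp only [hh] at hv1 hw1 hwv' hvw
  have hdet : M.det = 1 := by
    simp [M, det_fin_three]
    linear_combination (w 0 * conj hF (w 0) + w 1 * conj hF (w 1) + w 2 * conj hF (w 2)) * hv1 + hw1 -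
      (w 0 * conj hF (v 0) + w 1 * conj hF (v 1) + w 2 * conj hF (v 2)) * hvw
  have hU : Mᵀ * M.map (conj hF) = 1 := by
    ext i j
    fin_cases i <;> fin_cases j <;> simp [M, Matrix.mul_apply, Fin.sum_univ_three, conj_conj]
    · exact hv1
    · exact hvw
    · ring
    · exact hwv'
    · exact hw1
    · ring
    · ring
    · ring
    · linear_combination (w 0 * conj hF (w 0) + w 1 * conj hF (w 1) + w 2 * conj hF (w 2)) * hv1 + hw1 -
        (w 0 * conj hF (v 0) + w 1 * conj hF (v 1) + w 2 * conj hF (v 2)) * hvw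
  refine ⟨⟨⟨M, hdet⟩, (mem_SU (hF := hF)).2 hU⟩, ?_⟩
  rw [mul_inv_eq_iff_eq_mul, ext_iff']
  change M * (R hF ![1, 0, 0]).1.1 = (R hF v).1.1 * M
  rw [R_val hv, R_val hh_e0]
  have hE : Rm hF ![1, 0, 0] = !![1, 0, 0; 0, -1, 0; 0, 0, -1] := by
    ext i j
    fin_cases i <;> fin_cases j <;> simp [Rm_apply, hh]
    norm_num
  rw [hE]
  ext i j
  simp only [Matrix.mul_apply, Fin.sum_univ_three, hR]
  fin_cases i <;> fin_cases j <;> simp [M] <;>
    first
      | ring1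
      | linear_combination (-2 * v 0) * hv1 | linear_combination (-2 * v 1) * hv1
      | linear_combination (-2 * v 2) * hv1
      | linear_combination (-2 * v 0) * hwv' | linear_combination (-2 * v 1) * hwv'
      | linear_combination (-2 * v 2) * hwv'

theorem eq_e0 (h2 : (2 : F) ≠ 0) {v : Fin 3 → F} (hv : hh hF v v ≠ 0) :
    R hF v = R hF ![1, 0, 0] ↔ v 1 = 0 ∧ v 2 = 0 := by
  rw [R_eq_iff h2 hv hh_e0]
  refine ⟨fun ⟨a, e⟩ => by simp [e], fun ⟨h1, h2⟩ => ⟨v 0, funext fun i => ?_⟩⟩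
  fin_cases i <;> simp [h1, h2]

theorem comm_e0 (h2 : (2 : F) ≠ 0) {v : Fin 3 → F} (hv : hh hF v v ≠ 0) :
    Commute (R hF ![1, 0, 0]) (R hF v) ↔ v 0 = 0 ∨ (v 1 = 0 ∧ v 2 = 0) := by
  rw [R_comm_iff h2 hh_e0 hv, eq_comm (a := R hF _), eq_e0 h2 hv]
  simp [hh]

theorem perp_two {v w : Fin 3 → F} (hv : ¬ (v 1 = 0 ∧ v 2 = 0)) (hw : w 0 = 0) (h : hh hF w v = 0) :
    ∃ a : F, w = a • ![0, -conj hF (v 2), conj hF (v 1)] := by
  simp only [hh, hw, zero_mul, zero_add] at h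
  by_cases h1 : v 1 = 0
  · have h3 : conj hF (v 2) ≠ 0 := (map_ne_zero _).2 fun h3 => hv ⟨h1, h3⟩
    refine ⟨-w 1 / conj hF (v 2), funext fun i => ?_⟩
    fin_cases i
    · simp [hw]
    · simp; field_simp
    · simpa [h1, h3] using h
  · have h3 : conj hF (v 1) ≠ 0 := (map_ne_zero _).2 h1
    refine ⟨w 2 / conj hF (v 1), funext fun i => ?_⟩
    fin_cases i
    · simp [hw]
    · simp; field_simp; linear_combination h
    · simp; field_simp

theorem hh_perp (v : Fin 3 → F) : hh hF ![0, -conj hF (v 2), conj hF (v 1)] ![0, -conj hF (v 2), conj hF (v 1)] =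
    N hF (v 1) + N hF (v 2) := by simp [hh, conj_conj, N, add_comm, mul_comm]

theorem hh_perp' (v : Fin 3 → F) : hh hF ![0, -conj hF (v 2), conj hF (v 1)] v = 0 := by simp [hh, mul_comm]

theorem mid_e0 (h2 : (2 : F) ≠ 0) {v : Fin 3 → F} (hv : hh hF v v ≠ 0)
    (hn : ¬ Commute (R hF ![1, 0, 0]) (R hF v)) :
    (∃ y : Cfsg.SU 3 F q, y ≠ 1 ∧ y * y = 1 ∧ Commute (R hF ![1, 0, 0]) y ∧ Commute y (R hF v)) ↔
      N hF (v 1) + N hF (v 2) ≠ 0 := by
  refine ⟨fun ⟨y, hy, hy2, c1, c2⟩ => ?_, fun h => ?_⟩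
  · obtain ⟨w, hw, rfl⟩ := exists_R (hF := hF) h2 hy hy2
    have h0 : w 0 = 0 := by
      rcases (comm_e0 h2 hw).1 c1 with h | h
      · exact h
      · exact absurd ((eq_e0 h2 hw).2 h ▸ c2) hn
    rcases (R_comm_iff h2 hw hv).1 c2 with h | h
    · obtain ⟨a, rfl⟩ := perp_two (fun h3 => hn ((comm_e0 h2 hv).2 (Or.inr h3))) h0 h
      rw [hh_smul, hh_perp] at hw
      exact right_ne_zero_of_mul hw
    · exact absurd (h ▸ c1) hn
  · have hw := (hh_perp (hF := hF) v).trans_ne h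
    exact ⟨_, R_ne h2 hw, R_sq hw, (comm_e0 h2 hw).2 (Or.inl rfl), (R_comm_iff h2 hw hv).2 (Or.inl (hh_perp' v))⟩

include hF in
theorem sq_pos' : 0 < q ^ 2 - 1 := by
  have := two_le_of_card_sq hF
  have : 2 ^ 2 ≤ q ^ 2 := Nat.pow_le_pow_left this 2
  omega

theorem cnt1 (h2 : (2 : F) ≠ 0) : Nat.card {x : Cfsg.SU 3 F q // x ≠ 1 ∧ x * x = 1 ∧ x ≠ R hF ![1, 0, 0] ∧
    Commute (R hF ![1, 0, 0]) x} = q * (q - 1) := by
  refine Nat.eq_of_mul_eq_mul_right (sq_pos' (hF := hF)) ?_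
  rw [card_inv (hF := hF) h2 (fun x => x ≠ R hF ![1, 0, 0] ∧ Commute (R hF ![1, 0, 0]) x), ← card_aniso hF,
    ← mul_one (Nat.card {p : F × F // _}), ← card_fib (fun p : F × F => N hF p.1 + N hF p.2 ≠ 0)
      (fun _ (a : F) => a = 0) 1 fun _ _ => card_eq_pt 0]
  refine card_iff fun ⟨⟨b, c⟩, a⟩ => ⟨fun ⟨hv, h3, h4⟩ => ?_, fun ⟨h3, h4⟩ => ?_⟩
  · rw [Ne, eq_e0 h2 hv] at h3
    have h5 : a = 0 := ((comm_e0 h2 hv).1 h4).resolve_right h3
    exact ⟨by simpa [hh, h5, N] using hv, h5⟩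
  · have h5 : a = 0 := h4
    have hv : hh hF ![a, b, c] ![a, b, c] ≠ 0 := by simpa [hh, h5, N] using h3
    refine ⟨hv, ?_, (comm_e0 h2 hv).2 (Or.inl h5)⟩
    rw [Ne, eq_e0 h2 hv]
    rintro ⟨h6, h7⟩
    have h6 : b = 0 := h6
    have h7 : c = 0 := h7
    exact h3 (by simp [h6, h7, N])

theorem cnt2 (h2 : (2 : F) ≠ 0) : Nat.card {x : Cfsg.SU 3 F q // x ≠ 1 ∧ x * x = 1 ∧
    ¬ Commute (R hF ![1, 0, 0]) x ∧ ∃ y : Cfsg.SU 3 F q, y ≠ 1 ∧ y * y = 1 ∧ Commute (R hF ![1, 0, 0]) y ∧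
      Commute y x} = q * (q - 2) * (q ^ 2 - 1) := by
  refine Nat.eq_of_mul_eq_mul_right (sq_pos' (hF := hF)) ?_
  have e : q * (q - 2) * (q ^ 2 - 1) * (q ^ 2 - 1) = q * (q - 1) * (q ^ 2 - 1) * ((q - 2) * (q + 1)) := by
    have : q ^ 2 - 1 = (q + 1) * (q - 1) := by simpa using Nat.sq_sub_sq q 1
    nth_rewrite 2 [this]
    ring
  rw [card_inv (hF := hF) h2 (fun x => ¬ Commute (R hF ![1, 0, 0]) x ∧ ∃ y : Cfsg.SU 3 F q, y ≠ 1 ∧ y * y = 1 ∧
    Commute (R hF ![1, 0, 0]) y ∧ Commute y x), e, ← card_aniso hF,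
    ← card_fib (fun p : F × F => N hF p.1 + N hF p.2 ≠ 0)
      (fun p (a : F) => a ≠ 0 ∧ N hF a + (N hF p.1 + N hF p.2) ≠ 0) _
      fun p hp => card_two hF hp (by rw [map_add, conj_N, conj_N])]
  refine card_iff fun ⟨⟨b, c⟩, a⟩ => ⟨fun ⟨hv, h3, h4⟩ => ?_, fun ⟨h3, h4, h5⟩ => ?_⟩
  · exact ⟨(mid_e0 h2 hv h3).1 h4, fun h => h3 ((comm_e0 h2 hv).2 (Or.inl h)), by
      rw [← add_assoc]; exact hv⟩
  · have hv : hh hF ![a, b, c] ![a, b, c] ≠ 0 := by rw [← add_assoc] at h5; exact h5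
    have hn : ¬ Commute (R hF ![1, 0, 0]) (R hF ![a, b, c]) := by
      rw [comm_e0 h2 hv]
      rintro (h | ⟨h6, h7⟩)
      · exact h4 h
      · have h6 : b = 0 := h6
        have h7 : c = 0 := h7
        exact h3 (by simp [h6, h7, N])
    exact ⟨hv, hn, (mid_e0 h2 hv hn).2 h3⟩

theorem cnt3 (h2 : (2 : F) ≠ 0) : Nat.card {x : Cfsg.SU 3 F q // x ≠ 1 ∧ x * x = 1 ∧
    ¬ Commute (R hF ![1, 0, 0]) x ∧ ¬ ∃ y : Cfsg.SU 3 F q, y ≠ 1 ∧ y * y = 1 ∧ Commute (R hF ![1, 0, 0]) y ∧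
      Commute y x} = (q + 1) * (q ^ 2 - 1) := by
  refine Nat.eq_of_mul_eq_mul_right (sq_pos' (hF := hF)) ?_
  rw [card_inv (hF := hF) h2 (fun x => ¬ Commute (R hF ![1, 0, 0]) x ∧ ¬ ∃ y : Cfsg.SU 3 F q, y ≠ 1 ∧ y * y = 1 ∧
    Commute (R hF ![1, 0, 0]) y ∧ Commute y x), mul_comm (q + 1), ← card_iso hF,
    ← card_fib (fun p : F × F => p ≠ 0 ∧ N hF p.1 + N hF p.2 = 0)
      (fun _ (a : F) => a ≠ 0) _ fun _ _ => card_ne hF]
  refine card_iff fun ⟨⟨b, c⟩, a⟩ => ⟨fun ⟨hv, h3, h4⟩ => ?_, fun ⟨⟨h3, h4⟩, h5⟩ => ?_⟩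
  · rw [mid_e0 h2 hv h3, not_not] at h4
    rw [comm_e0 h2 hv] at h3
    exact ⟨⟨fun h => h3 (Or.inr ⟨congrArg Prod.fst h, congrArg Prod.snd h⟩), h4⟩, fun h => h3 (Or.inl h)⟩
  · have hv : hh hF ![a, b, c] ![a, b, c] ≠ 0 := by
      change N hF a + N hF b + N hF c ≠ 0
      rw [add_assoc, h4, add_zero]
      exact mt (N_eq_zero hF).1 h5
    have hn : ¬ Commute (R hF ![1, 0, 0]) (R hF ![a, b, c]) := by
      rw [comm_e0 h2 hv]
      rintro (h | ⟨h6, h7⟩)
      · exact h5 h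
      · exact h3 (Prod.ext h6 h7)
    exact ⟨hv, hn, by rw [mid_e0 h2 hv hn, not_not]; exact h4⟩

include hF in
theorem cnt0 (h2 : (2 : F) ≠ 0) : Nat.card {x : Cfsg.SU 3 F q // x ≠ 1 ∧ x * x = 1} = q ^ 2 * (q ^ 2 - q + 1) := by
  set t := R hF ![1, 0, 0] with ht
  have h1 := card_split (fun x : Cfsg.SU 3 F q => x ≠ 1 ∧ x * x = 1) (fun x => Commute t x)
  have h3 := card_split (fun x : Cfsg.SU 3 F q => (x ≠ 1 ∧ x * x = 1) ∧ Commute t x) (fun x => x = t)
  have h4 := card_split (fun x : Cfsg.SU 3 F q => (x ≠ 1 ∧ x * x = 1) ∧ ¬ Commute t x)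
    (fun x => ∃ y : Cfsg.SU 3 F q, y ≠ 1 ∧ y * y = 1 ∧ Commute t y ∧ Commute y x)
  have e0 : Nat.card {x : Cfsg.SU 3 F q // ((x ≠ 1 ∧ x * x = 1) ∧ Commute t x) ∧ x = t} = 1 := by
    rw [← card_eq_pt t]
    refine card_iff fun x => ⟨fun h => h.2, fun h => ?_⟩
    rw [h]
    exact ⟨⟨⟨R_ne h2 hh_e0, R_sq hh_e0⟩, Commute.refl _⟩, rfl⟩
  have e1 : Nat.card {x : Cfsg.SU 3 F q // ((x ≠ 1 ∧ x * x = 1) ∧ Commute t x) ∧ ¬ x = t} = _ :=
    (card_iff fun x => by rw [ht]; tauto).trans (cnt1 (hF := hF) h2)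
  have e2 : Nat.card {x : Cfsg.SU 3 F q // ((x ≠ 1 ∧ x * x = 1) ∧ ¬ Commute t x) ∧
      ∃ y : Cfsg.SU 3 F q, y ≠ 1 ∧ y * y = 1 ∧ Commute t y ∧ Commute y x} = _ :=
    (card_iff fun x => by simp only [ht, and_assoc]).trans (cnt2 (hF := hF) h2)
  have e3 : Nat.card {x : Cfsg.SU 3 F q // ((x ≠ 1 ∧ x * x = 1) ∧ ¬ Commute t x) ∧
      ¬ ∃ y : Cfsg.SU 3 F q, y ≠ 1 ∧ y * y = 1 ∧ Commute t y ∧ Commute y x} = _ :=
    (card_iff fun x => by simp only [ht, and_assoc]).trans (cnt3 (hF := hF) h2)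
  rw [e0, e1] at h3
  rw [e2, e3] at h4
  clear e0 e1 e2 e3
  rw [h1, h3, h4]
  obtain ⟨r, rfl⟩ : ∃ r, q = r + 2 := ⟨q - 2, by have := two_le_of_card_sq hF; omega⟩
  have e1 : (r + 2) ^ 2 - 1 = (r + 1) * (r + 3) := by
    rw [Nat.sub_eq_iff_eq_add (Nat.one_le_pow _ _ (by omega))]; ring
  have e2 : (r + 2) ^ 2 - (r + 2) = (r + 1) * (r + 2) := by
    rw [Nat.sub_eq_iff_eq_add (by nlinarith)]; ring
  rw [e1, e2, Nat.add_sub_cancel, show r + 2 - 1 = r + 1 from rfl]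
  ring

omit [Fintype F] in
theorem two_ne [Fintype F] (hq : Odd q) (hF : Fintype.card F = q ^ 2) : (2 : F) ≠ 0 := by
  intro h
  have : ringChar F = 2 := by
    have := CharP.ringChar_of_prime_eq_zero Nat.prime_two (R := F) (by exact_mod_cast h)
    exact this
  have h3 := FiniteField.even_card_of_char_two this
  rw [hF, Nat.odd_iff.1 hq.pow] at h3
  omega

end CA.SU3Inv
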