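import Mathlib
import Cfsg.Agent.Lib.Lie.Singer
import Cfsg.Agent.Lib.Grp.Zsig

/-! The Singer subgroup of `GL_F(K)`: centralizer, normalizer, intersections, uniqueness. -/

namespace CA.SingerN

variable {F K : Type*} [Field F] [Field K] [Algebra F K]

variable (F K) in
/-- left multiplications -/
abbrev lm : Kˣ →* (Module.End F K)ˣ :=
  Units.map ((Algebra.lmul F K : K →ₐ[F] Module.End F K) : K →* Module.End F K)

theorem lm_apply (a : Kˣ) (x : K) : (lm F K a : Module.End F K) x = a * x := rfl

theorem lm_inj : Function.Injective (lm F K) := fun a b h => by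
  have := congrArg (fun g : (Module.End F K)ˣ => (g : Module.End F K) 1) h
  exact Units.ext (by simpa [lm_apply] using this)

theorem mem_iff {g : (Module.End F K)ˣ} :
    g ∈ (lm F K).range ↔ ∃ a : K, ∀ x, (g : Module.End F K) x = a * x := by
  constructor
  · rintro ⟨a, rfl⟩
    exact ⟨a, fun x => rfl⟩
  · rintro ⟨a, ha⟩
    have : a ≠ 0 := by
      rintro rfl
      have := ha ((g⁻¹ : (Module.End F K)ˣ).1 1)
      rw [← Module.End.mul_apply, Units.mul_inv, zero_mul] at this
      exact one_ne_zero this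
    exact ⟨Units.mk0 a this, Units.ext (LinearMap.ext fun x => (ha x).symm)⟩

theorem card_range [Fintype K] : Nat.card (lm F K).range = Fintype.card K - 1 := by
  rw [← Nat.card_congr (MonoidHom.ofInjective lm_inj).toEquiv, Nat.card_units,
    Nat.card_eq_fintype_card]

theorem centralizer_eq :
    Subgroup.centralizer ((lm F K).range : Set (Module.End F K)ˣ) = (lm F K).range := by
  ext g
  rw [Subgroup.mem_centralizer_iff]
  constructor
  · intro h
    refine mem_iff.2 ⟨(g : Module.End F K) 1, fun x => ?_⟩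
    rcases eq_or_ne x 0 with rfl | hx
    · simp
    have := congrArg (fun g : (Module.End F K)ˣ => (g : Module.End F K) 1)
      (h _ ⟨Units.mk0 x hx, rfl⟩)
    simp only [Units.val_mul, Module.End.mul_apply, lm_apply, Units.val_mk0, mul_one] at this
    rw [← this, mul_comm]
  · rintro ⟨a, rfl⟩ _ ⟨b, rfl⟩
    rw [← map_mul, ← map_mul, mul_comm]

/-- Galois automorphisms as linear maps -/
def gal (σ : K ≃ₐ[F] K) : (Module.End F K)ˣ :=
  ⟨σ.toLinearMap, σ.symm.toLinearMap, by ext; simp, by ext; simp⟩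

theorem card_normalizer [Finite F] [Fintype K] :
    Nat.card (Subgroup.normalizer ((lm F K).range : Set (Module.End F K)ˣ)) =
      Module.finrank F K * (Fintype.card K - 1) := by
  have hm : ∀ (σ : K ≃ₐ[F] K) (c : Kˣ),
      lm F K c * gal σ ∈ Subgroup.normalizer ((lm F K).range : Set (Module.End F K)ˣ) := by
    intro σ c
    refine Subgroup.mul_mem _ (Subgroup.le_normalizer ⟨c, rfl⟩) ?_
    rw [Subgroup.mem_normalizer_iff]
    intro h
    rw [mem_iff, mem_iff]
    constructor
    · rintro ⟨a, ha⟩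
      exact ⟨σ a, fun x => by simp [gal, ha, Units.inv_mk]⟩
    · rintro ⟨a, ha⟩
      refine ⟨σ.symm a, fun x => σ.injective ?_⟩
      simpa [gal, Units.inv_mk] using ha (σ x)
  let Φ : (K ≃ₐ[F] K) × Kˣ → Subgroup.normalizer ((lm F K).range : Set (Module.End F K)ˣ) :=
    fun p => ⟨_, hm p.1 p.2⟩
  have hΦ : Function.Bijective Φ := by
    constructor
    · rintro ⟨σ, c⟩ ⟨τ, d⟩ h
      have h' : ∀ x, (c : K) * σ x = d * τ x := fun x =>
        congrArg (fun g : Subgroup.normalizer ((lm F K).range : Set (Module.End F K)ˣ) =>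
          ((g : (Module.End F K)ˣ) : Module.End F K) x) h
      have hcd : c = d := Units.ext (by simpa using h' 1)
      subst hcd
      exact Prod.ext (AlgEquiv.ext fun x => mul_left_cancel₀ c.ne_zero (h' x)) rfl
    · rintro ⟨g, hg⟩
      have hinj : Function.Injective (g : Module.End F K) := fun x y h => by
        have := congrArg (g⁻¹ : (Module.End F K)ˣ).1 h
        rwa [← Module.End.mul_apply, ← Module.End.mul_apply, Units.inv_mul] at this
      have h1 : (g : Module.End F K) 1 ≠ 0 := fun h => one_ne_zero (hinj (h.trans (map_zero _).symm))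
      have hmul : ∀ a x, (g : Module.End F K) 1 * (g : Module.End F K) (a * x) =
          (g : Module.End F K) a * (g : Module.End F K) x := by
        intro a x
        rcases eq_or_ne a 0 with rfl | ha
        · simp
        obtain ⟨b, hb⟩ := mem_iff.1 ((Subgroup.mem_normalizer_iff.1 hg _).1 ⟨Units.mk0 a ha, rfl⟩)
        have : ∀ y, (g : Module.End F K) (a * y) = b * (g : Module.End F K) y := fun y => by
          rw [← hb, ← Module.End.mul_apply, ← Units.val_mul, inv_mul_cancel_right]
          rfl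
        have e := this 1
        rw [mul_one] at e
        rw [this, e]
        ring
      let s : K →ₐ[F] K := AlgHom.ofLinearMap
        (((g : Module.End F K) 1)⁻¹ • (g : Module.End F K)) (by simp [h1]) fun a x => by
          simp only [LinearMap.smul_apply, smul_eq_mul]
          field_simp
          exact hmul a x
      refine ⟨(AlgEquiv.ofBijective s (Finite.injective_iff_bijective.1 s.injective),
        Units.mk0 _ h1), Subtype.ext (Units.ext (LinearMap.ext fun x => ?_))⟩
      show (g : Module.End F K) 1 * (((g : Module.End F K) 1)⁻¹ * (g : Module.End F K) x) = _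
      rw [mul_inv_cancel_left₀ h1]
  rw [← Nat.card_eq_of_bijective Φ hΦ, Nat.card_prod, IsGalois.card_aut_eq_finrank, Nat.card_units,
    Nat.card_eq_fintype_card]

theorem inter [Fintype F] [Fintype K] (g : (Module.End F K)ˣ)
    (hg : (lm F K).range.map (MulAut.conj g).toMonoidHom ≠ (lm F K).range) :
    ∃ r : ℕ, 1 ≤ r ∧ r ∣ Module.finrank F K ∧ r < Module.finrank F K ∧
      Nat.card ↥((lm F K).range.map (MulAut.conj g).toMonoidHom ⊓ (lm F K).range) ∣
        Fintype.card F ^ r - 1 := by
  have hfin : Finite (Module.End F K) :=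
    Finite.of_injective (fun f : Module.End F K => (f : K → K)) DFunLike.coe_injective
  let E0 : Subalgebra F K :=
    { carrier := {a | ∃ b, ∀ x, (g : Module.End F K) (b * x) = a * (g : Module.End F K) x}
      mul_mem' := by
        rintro a a' ⟨b, hb⟩ ⟨b', hb'⟩
        exact ⟨b * b', fun x => by rw [mul_assoc, hb, hb', mul_assoc]⟩
      add_mem' := by
        rintro a a' ⟨b, hb⟩ ⟨b', hb'⟩
        exact ⟨b + b', fun x => by rw [add_mul, map_add, hb, hb', add_mul]⟩
      algebraMap_mem' := fun c => ⟨algebraMap F K c, fun x => by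
        rw [← Algebra.smul_def, map_smul, Algebra.smul_def]⟩ }
  let E : IntermediateField F K := E0.toIntermediateField fun a ha =>
    Subalgebra.inv_mem_of_algebraic (A := E0) (x := ⟨a, ha⟩) (Algebra.IsAlgebraic.isAlgebraic _)
  have hE : ∀ a : Kˣ, lm F K a ∈ (lm F K).range.map (MulAut.conj g).toMonoidHom ↔ (a : K) ∈ E := by
    intro a
    rw [Subgroup.mem_map_equiv, mem_iff]
    refine exists_congr fun b => forall_congr' fun x => ?_
    simp only [MulAut.conj_symm_apply, Units.val_mul, Module.End.mul_apply, lm_apply]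
    constructor
    · intro h
      rw [← h, ← Module.End.mul_apply, Units.mul_inv]
      rfl
    · intro h
      rw [← h, ← Module.End.mul_apply, Units.inv_mul]
      rfl
  have hd := Module.finrank_mul_finrank F E K
  refine ⟨Module.finrank F E, Module.finrank_pos, Dvd.intro _ hd, ?_, ?_⟩
  · refine lt_of_le_of_ne (Nat.le_of_dvd Module.finrank_pos (Dvd.intro _ hd)) fun h => hg ?_
    have : E = ⊤ := IntermediateField.eq_of_le_of_finrank_eq le_top (by simpa using h)
    refine (Subgroup.eq_of_le_of_card_ge ?_ ?_).symm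
    · rintro _ ⟨a, rfl⟩
      exact (hE a).2 (this ▸ IntermediateField.mem_top)
    · exact (Subgroup.card_map_of_injective (MulAut.conj g).injective).le
  · let φ : Eˣ →* (Module.End F K)ˣ := (lm F K).comp (Units.map (E.val : E →* K))
    have hle : (lm F K).range.map (MulAut.conj g).toMonoidHom ⊓ (lm F K).range ≤ φ.range := by
      rintro _ ⟨h, a, rfl⟩
      exact ⟨Units.mk0 ⟨a, (hE a).1 h⟩ fun e => a.ne_zero (congrArg Subtype.val e),
        congrArg (lm F K) (Units.ext rfl)⟩
    refine (Subgroup.card_dvd_of_le hle).trans ((Subgroup.card_range_dvd φ).trans ?_)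
    rw [Nat.card_units, Module.natCard_eq_pow_finrank (K := F), Nat.card_eq_fintype_card]

theorem prime_of_two_pow [Fintype F] {a : ℕ} (h : Fintype.card F + 1 = 2 ^ a) :
    (Fintype.card F).Prime := by
  obtain ⟨p, _, e, hp, he⟩ := FiniteField.card' F
  rw [he] at h ⊢
  suffices (e : ℕ) = 1 by rwa [this, pow_one]
  have h2 : 2 ≤ p ^ (e : ℕ) := Nat.one_lt_pow e.ne_zero hp.one_lt
  have ha : 2 ≤ a := by
    by_contra hc
    have : a = 0 ∨ a = 1 := by omega
    rcases this with rfl | rfl <;> omega
  have h4 : 4 ∣ 2 ^ a := pow_dvd_pow 2 ha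
  have hodd : Odd p := by
    by_contra hc
    have : 2 ∣ p ^ (e : ℕ) := dvd_pow (Nat.not_odd_iff_even.1 hc).two_dvd e.ne_zero
    omega
  rcases Nat.even_or_odd (e : ℕ) with ⟨k, hk⟩ | hk
  · obtain ⟨m, hm⟩ := hodd.pow (n := k)
    rw [hk, pow_add, hm] at h
    have : (2 * m + 1) * (2 * m + 1) + 1 = 4 * (m * m + m) + 2 := by ring
    omega
  · by_contra hne
    have key : (∑ i ∈ Finset.range e, (-(p : ℤ)) ^ i) * (p + 1) = 2 ^ a := by
      have := mul_neg_geom_sum (-(p : ℤ)) e
      rw [hk.neg_pow, sub_neg_eq_add, sub_neg_eq_add] at this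
      have h' : ((p ^ (e : ℕ) + 1 : ℕ) : ℤ) = (2 ^ a : ℕ) := by rw [h]
      push_cast at h'
      rw [← h', mul_comm, add_comm (p : ℤ), this, add_comm]
    have hso : Odd (∑ i ∈ Finset.range e, (-(p : ℤ)) ^ i) := by
      have : ∀ n : ℕ, Odd (∑ i ∈ Finset.range n, (-(p : ℤ)) ^ i) ↔ Odd n := by
        intro n
        induction n with
        | zero => simp
        | succ n ih =>
          have : Odd ((-(p : ℤ)) ^ n) := (hodd.natCast (R := ℤ)).neg.pow
          rw [Finset.sum_range_succ, Int.odd_add', Nat.odd_add_one, ← ih, Int.not_odd_iff_even]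
          simp [this]
      exact (this _).2 hk
    set s := ∑ i ∈ Finset.range e, (-(p : ℤ)) ^ i
    have hd : s.natAbs ∣ 2 ^ a := by
      have := Int.natAbs_dvd_natAbs.2 (Dvd.intro _ key)
      simpa [Int.natAbs_pow] using this
    obtain ⟨j, -, hj⟩ := (Nat.dvd_prime_pow Nat.prime_two).1 hd
    have : j = 0 := by
      by_contra hj0
      have : Odd (2 ^ j) := hj ▸ Int.natAbs_odd.2 hso
      exact (Nat.not_odd_iff_even.2 (Nat.even_pow.2 ⟨even_two, hj0⟩)) this
    subst this
    have hs := congrArg Int.natAbs key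
    rw [Int.natAbs_mul, hj, pow_zero, one_mul] at hs
    have hs' : p + 1 = 2 ^ a := by
      have : ((p : ℤ) + 1).natAbs = p + 1 := by omega
      simpa [this, Int.natAbs_pow] using hs
    have : p ^ (e : ℕ) = p ^ 1 := by rw [pow_one]; omega
    exact hne (Nat.pow_right_injective hp.two_le this)

theorem conj_of_irr [Fintype F] [Fintype K] (U : Subgroup (Module.End F K)ˣ)
    (hU : IsMulCommutative U) (hcard : Nat.card U = Fintype.card K - 1) {u : (Module.End F K)ˣ}
    (hu : u ∈ U) (hirr : ∀ W : Submodule F K, (∀ v ∈ W, (u : Module.End F K) v ∈ W) → W = ⊥ ∨ W = ⊤) :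
    ∃ g : (Module.End F K)ˣ, U.map (MulAut.conj g).toMonoidHom = (lm F K).range := by
  obtain ⟨x, hx⟩ : ∃ x : Module.End F K, x = (u : Module.End F K) := ⟨_, rfl⟩
  rw [← hx] at hirr
  have hs : (1 : K) ≠ 0 := one_ne_zero
  let L : Subalgebra F (Module.End F K) := Subalgebra.centralizer F {x}
  have hL : ∀ f, f ∈ L ↔ x * f = f * x := fun f => by simp [L, Subalgebra.mem_centralizer_iff]
  let A : Subalgebra F (Module.End F K) := Algebra.adjoin F {x}
  have hAs : ∀ v : K, ∃ a ∈ A, a 1 = v := by
    let W : Submodule F K := (Subalgebra.toSubmodule A).map (LinearMap.applyₗ 1)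
    rcases hirr W (by
      rintro _ ⟨a, ha, rfl⟩
      exact ⟨x * a, A.mul_mem (Algebra.self_mem_adjoin_singleton F _) ha, rfl⟩) with h | h
    · have : (1 : K) ∈ W := ⟨1, A.one_mem, rfl⟩
      rw [h] at this
      exact absurd this hs
    · intro v
      have : v ∈ W := by rw [h]; trivial
      exact this
  have hAL : ∀ a ∈ A, ∀ f ∈ L, f * a = a * f := fun a ha f hf =>
    Algebra.commute_of_mem_adjoin_singleton_of_commute ha (Commute.symm ((hL f).1 hf))
  have hAL' : A ≤ L := fun a ha => (hL a).2 (Algebra.commute_of_mem_adjoin_self ha)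
  have hext : ∀ f ∈ L, f 1 = 0 → f = 0 := by
    intro f hf h
    ext v
    obtain ⟨a, ha, rfl⟩ := hAs v
    rw [← Module.End.mul_apply, hAL a ha f hf, Module.End.mul_apply, h, map_zero]; rfl
  have hLA : ∀ f ∈ L, f ∈ A := by
    intro f hf
    obtain ⟨a, ha, e⟩ := hAs (f 1)
    have := hext (f - a) (L.sub_mem hf (hAL' ha)) (by rw [LinearMap.sub_apply, e, sub_self])
    rwa [sub_eq_zero.1 this]
  have hfin : Finite (Module.End F K) :=
    Finite.of_injective (fun f : Module.End F K => (f : K → K)) DFunLike.coe_injective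
  have hfield : IsField L := by
    refine ⟨⟨0, 1, fun e => hs ?_⟩, fun f g => Subtype.ext (hAL _ (hLA _ g.2) _ f.2),
      fun {f} hf => ?_⟩
    · exact (DFunLike.congr_fun (congrArg Subtype.val e) 1).symm
    · have h1 : LinearMap.range (f : Module.End F K) = ⊤ := by
        refine (hirr _ ?_).resolve_left fun e => hf (Subtype.ext (LinearMap.range_eq_bot.1 e))
        rintro _ ⟨w, rfl⟩
        exact ⟨x w, by rw [← Module.End.mul_apply, ← (hL f).1 f.2]; rfl⟩
      obtain ⟨w, hw⟩ := LinearMap.range_eq_top.1 h1 1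
      obtain ⟨a, ha, rfl⟩ := hAs w
      refine ⟨⟨a, hAL' ha⟩, Subtype.ext (sub_eq_zero.1
        (hext _ (L.sub_mem (L.mul_mem f.2 (hAL' ha)) L.one_mem) ?_))⟩
      show (f : Module.End F K) (a 1) - 1 = 0
      rw [hw, sub_self]
  let _ : Field L := @IsField.toField L (Subalgebra.toRing L) hfield
  let ev : L ≃ₗ[F] K := LinearEquiv.ofBijective ((LinearMap.applyₗ 1).comp L.val.toLinearMap) ⟨by
      rw [injective_iff_map_eq_zero]
      exact fun f hf => Subtype.ext (hext _ f.2 hf), fun v => by
      obtain ⟨a, ha, e⟩ := hAs v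
      exact ⟨⟨a, hAL' ha⟩, e⟩⟩
  obtain ⟨φ0⟩ := FiniteField.nonempty_algHom_of_finrank_dvd (F := F) (K := L) (L := K)
    (dvd_of_eq ev.finrank_eq)
  let φ : L ≃ₐ[F] K := AlgEquiv.ofBijective φ0 ((Nat.bijective_iff_injective_and_card _).2
    ⟨φ0.injective, Nat.card_congr ev.toEquiv⟩)
  let e : K ≃ₗ[F] K := ev.symm.trans φ.toLinearEquiv
  let g : (Module.End F K)ˣ := ⟨e.toLinearMap, e.symm.toLinearMap, by ext; simp, by ext; simp⟩
  refine ⟨g, Subgroup.eq_of_le_of_card_ge ?_ ?_⟩
  · rintro _ ⟨w, hw, rfl⟩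
    have hwL : (w : Module.End F K) ∈ L := (hL _).2 (hx ▸ congrArg (fun s : U => ((s : (Module.End F K)ˣ) :
      Module.End F K)) (hU.is_comm.comm ⟨u, hu⟩ ⟨w, hw⟩))
    refine mem_iff.2 ⟨φ ⟨w, hwL⟩, fun y => ?_⟩
    obtain ⟨z, rfl⟩ := φ.surjective y
    have h1 : e.symm (φ z) = ev z := by simp [e]
    have h2 : (w : Module.End F K) (ev z) = ev (⟨w, hwL⟩ * z) := rfl
    show e ((w : Module.End F K) (e.symm (φ z))) = _
    rw [h1, h2, ← map_mul]
    simp [e]
  · rw [card_range, ← hcard]
    exact (Subgroup.card_map_of_injective (MulAut.conj g).injective).ge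

theorem conj_of_card [Fintype F] [Fintype K] (hn : 2 ≤ Module.finrank F K)
    (hex1 : ¬ (Module.finrank F K = 6 ∧ Fintype.card F = 2))
    (hex2 : ¬ (Module.finrank F K = 2 ∧ (Fintype.card F).Prime ∧
      ∃ a : ℕ, Fintype.card F + 1 = 2 ^ a))
    (U : Subgroup (Module.End F K)ˣ) (hU : IsMulCommutative U)
    (hcard : Nat.card U = Fintype.card K - 1) :
    ∃ g : (Module.End F K)ˣ, U.map (MulAut.conj g).toMonoidHom = (lm F K).range := by
  have hq : 1 < Fintype.card F := Fintype.one_lt_card
  obtain ⟨r, hr, hd, hk⟩ := CA.Zsig.zsigmondy (Fintype.card F) (Module.finrank F K) hq hn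
    (fun h => hex1 h.symm) fun ⟨h, a, ha⟩ => hex2 ⟨h, prime_of_two_pow ha, a, ha⟩
  have hfin : Finite (Module.End F K) :=
    Finite.of_injective (fun f : Module.End F K => (f : K → K)) DFunLike.coe_injective
  have := Fact.mk hr
  have hK : Fintype.card K = Fintype.card F ^ Module.finrank F K := Module.card_eq_pow_finrank
  obtain ⟨u, hu⟩ := exists_prime_orderOf_dvd_card' (G := U) r (by rwa [hcard, hK])
  have h1 : ((u : (Module.End F K)ˣ) : Module.End F K) ^ r = 1 := by
    rw [← Units.val_pow_eq_pow_val, ← Subgroup.coe_pow, ← hu, pow_orderOf_eq_one]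
    rfl
  refine conj_of_irr U hU hcard u.2 (CA.Singer.irreducible_of_prime hr h1 (fun h => ?_)
    (fun h => ?_) fun k h0 h1 h => hk k h0 h1 ?_)
  · have : u = 1 := Subtype.ext (Units.ext h)
    rw [this, orderOf_one] at hu
    exact hr.one_lt.ne hu
  · obtain ⟨p, _, e, hp, he⟩ := FiniteField.card' F
    have : p = r := (Nat.prime_dvd_prime_iff_eq hp hr).1 ((CharP.cast_eq_zero_iff F p r).1 h)
    subst this
    have d : p ∣ Fintype.card F ^ Module.finrank F K :=
      dvd_pow (he ▸ dvd_pow_self p e.ne_zero) (by omega)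
    have := (Nat.dvd_sub_iff_right (Nat.one_le_pow _ _ (by omega)) d).1 hd
    exact hp.one_lt.ne' (Nat.dvd_one.1 this)
  · rw [Nat.card_eq_fintype_card] at h
    exact (Nat.modEq_iff_dvd' (Nat.one_le_pow _ _ (by omega))).1 h.symm

end CA.SingerN
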