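import Cfsg.Agent.Lib.Lin.PSL2Cl1
import Cfsg.Agent.Lib.Grp.Core

/-! Solubilizers in `PSL₂(q)`. -/

set_option autoImplicit false

namespace CA.SolL2

open Matrix CA.SL2Basic CA.Mat2 CA.SL2Torus CA.SL2Embed CA.SL2Class CA.SL2Unip
  CA.PSL2Struct CA.PSL2Sub CA.PSL2Four Subgroup
open scoped MatrixGroups commutatorElement

section grp
variable {G : Type*} [Group G] {x y : G}

/-- the solubilizer -/
def Sol (x : G) : Set G := {y | Group.IsSolvable (closure ({x, y} : Set G))}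

theorem Sol_conj (g x : G) : (Sol (g * x * g⁻¹)).ncard = (Sol x).ncard := by
  let e := MulAut.conj g
  change (Sol (e x)).ncard = _
  rw [← Set.ncard_image_of_injective (Sol x) e.injective]
  congr 1
  ext y
  obtain ⟨y, rfl⟩ := e.surjective y
  rw [e.injective.mem_set_image]
  have h : closure ({e x, e y} : Set G) = (closure {x, y}).map e.toMonoidHom := by
    rw [MonoidHom.map_closure, Set.image_pair]; rfl
  let f := (closure ({x, y} : Set G)).equivMapOfInjective e.toMonoidHom e.injective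
  rw [Sol, Sol, Set.mem_ofPred_eq, Set.mem_ofPred_eq, h]
  exact ⟨fun _ => Group.isSolvable_of_isSolvable_injective (f := f.toMonoidHom) f.injective,
    fun _ => Group.isSolvable_of_surjective (f := f.toMonoidHom) f.surjective⟩

theorem sol_of_le {K : Subgroup G} (hK : Group.IsSolvable K) (hx : x ∈ K) (hy : y ∈ K) : y ∈ Sol x :=
  CA.Core.isSolvable_of_le ((closure_le _).2 (Set.pair_subset hx hy)) hK

theorem sol_symm (h : y ∈ Sol x) : x ∈ Sol y := by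
  rw [Sol, Set.mem_ofPred_eq, Set.pair_comm]; exact h

theorem sol_of_mem {z : G} (h : y ∈ Sol x) (hz : z ∈ closure ({x, y} : Set G)) : z ∈ Sol x :=
  sol_of_le h (subset_closure (by simp)) hz

theorem sol_comm (A : Subgroup G) (hA : ∀ a ∈ A, ∀ b ∈ A, a * b = b * a) : Group.IsSolvable A :=
  Group.isSolvable_of_comm fun a b => Subtype.ext (hA a a.2 b b.2)

theorem sol_of_norm [Finite G] {A : Subgroup G} (hA : ∀ a ∈ A, ∀ b ∈ A, a * b = b * a)
    (hx : ∀ a ∈ A, x * a * x⁻¹ ∈ A) (hy : y ∈ zpowers x ⊔ A) : y ∈ Sol x := by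
  refine sol_of_le (CA.Core.isSolvable_sup ?_ (sol_comm _ ?_) (sol_comm _ hA))
    (mem_sup_left (mem_zpowers x)) hy
  · exact (zpowers_le_of_mem (mem_normalizer_fintype hx))
  · rintro _ ⟨i, rfl⟩ _ ⟨j, rfl⟩
    exact zpow_mul_comm x i j

theorem sol_inv [Finite G] (hx : x * x = 1) (hy : y * y = 1) : y ∈ Sol x := by
  have h1 : x⁻¹ = x := inv_eq_of_mul_eq_one_right hx
  have h2 : y⁻¹ = y := inv_eq_of_mul_eq_one_right hy
  refine sol_of_norm (A := zpowers (x * y)) ?_ ?_ ?_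
  · rintro _ ⟨i, rfl⟩ _ ⟨j, rfl⟩
    exact zpow_mul_comm _ i j
  · rintro _ ⟨i, rfl⟩
    have : x * (x * y) * x⁻¹ = (x * y)⁻¹ := by rw [← mul_assoc, hx, one_mul, _root_.mul_inv_rev, h2]
    refine ⟨-i, ?_⟩
    simp only
    rw [← conj_zpow, this, _root_.inv_zpow']
  · have := mul_mem (mem_sup_left (inv_mem (mem_zpowers x))) (mem_sup_right (S := zpowers x) (mem_zpowers (x * y)))
    rwa [inv_mul_cancel_left] at this

theorem sol_inv' [Finite G] (hx : x * x = 1) (hy : (x * y) * (x * y) = 1) : y ∈ Sol x := by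
  refine sol_of_mem (sol_inv hx hy) ?_
  have := mul_mem (inv_mem (subset_closure (k := ({x, x * y} : Set G)) (by simp : x ∈ _)))
    (subset_closure (by simp : x * y ∈ _))
  rwa [inv_mul_cancel_left] at this

theorem sol_A4 [Finite G] {v : G} (hx : x ^ 3 = 1) (hv : v * v = 1) (h : (x * v) ^ 3 = 1) : v ∈ Sol x := by
  have h1 : v⁻¹ = v := inv_eq_of_mul_eq_one_right hv
  have h2 : (x * v * x⁻¹)⁻¹ = x * v * x⁻¹ := by rw [conj_inv, h1]
  have h3 : x * (x * v * x⁻¹) * x⁻¹ = (x * v * x⁻¹) * v := by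
    rw [← h2]
    nth_rewrite 3 [← h1]
    rw [h2, ← h2, ← _root_.mul_inv_rev, eq_inv_iff_mul_eq_one, h2]
    have e : x⁻¹ * x⁻¹ = x := by
      rw [← _root_.mul_inv_rev, inv_eq_iff_mul_eq_one, ← pow_three', hx]
    calc _ = x * (x * v * (x⁻¹ * x⁻¹) * v * x * v) * x⁻¹ := by group
      _ = x * (x * v) ^ 3 * x⁻¹ := by rw [e, pow_three']; group
      _ = 1 := by rw [h]; group
  have h4 : (x * v * x⁻¹) * v = v * (x * v * x⁻¹) := by
    have : (x * v * x⁻¹ * v)⁻¹ = x * v * x⁻¹ * v := by rw [← h3, conj_inv, h2]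
    rw [← this, _root_.mul_inv_rev, h1, h2]
  have hc : ∀ a ∈ closure ({v, x * v * x⁻¹} : Set G), ∀ b ∈ closure ({v, x * v * x⁻¹} : Set G), a * b = b * a := by
    intro a ha b hb
    refine closure_induction₂ (p := fun a b _ _ => Commute a b) ?_ (fun _ _ => Commute.one_left _) (fun _ _ => Commute.one_right _)
      (fun _ _ _ _ _ _ => Commute.mul_left) (fun _ _ _ _ _ _ => Commute.mul_right)
      (fun _ _ _ _ => Commute.inv_left) (fun _ _ _ _ => Commute.inv_right) ha hb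
    rintro a b (rfl | rfl) (rfl | rfl)
    exacts [rfl, h4.symm, h4, rfl]
  refine sol_of_norm hc (fun a ha => ?_) (mem_sup_right (subset_closure (by simp)))
  have : closure ({v, x * v * x⁻¹} : Set G) ≤ (closure ({v, x * v * x⁻¹} : Set G)).comap (MulAut.conj x).toMonoidHom := by
    rw [closure_le]
    rintro a (rfl | rfl)
    · exact subset_closure (by simp)
    · change x * _ * x⁻¹ ∈ Subgroup.closure _
      rw [h3]; exact mul_mem (subset_closure (by simp)) (subset_closure (by simp))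
  exact this ha

theorem exists_ab {H : Subgroup G} (hs : Group.IsSolvable H) (h1 : H ≠ ⊥) : ∃ A : Subgroup G, A ≠ ⊥ ∧
    (∀ a ∈ A, ∀ b ∈ A, a * b = b * a) ∧ ∀ h ∈ H, ∀ a ∈ A, h * a * h⁻¹ ∈ A := by
  classical
  have hex : ∃ n, derivedSeries H n = ⊥ := hs.solvable
  have h0 : Nat.find hex ≠ 0 := fun e => by
    have := Nat.find_spec hex
    rw [e, derivedSeries_zero] at this
    refine h1 (eq_bot_iff.2 fun a ha => mem_bot.2 ?_)
    have h3 : (⟨a, ha⟩ : H) ∈ (⊥ : Subgroup H) := this ▸ mem_top _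
    exact congrArg Subtype.val (mem_bot.1 h3)
  obtain ⟨n, hn⟩ := Nat.exists_eq_succ_of_ne_zero h0
  have h2 := Nat.find_spec hex
  rw [hn, derivedSeries_succ] at h2
  refine ⟨(derivedSeries H n).map H.subtype, fun e => Nat.find_min hex (m := n) (by omega)
    ((map_eq_bot_iff_of_injective _ H.subtype_injective).1 e), ?_, ?_⟩
  · rintro _ ⟨a, ha, rfl⟩ _ ⟨b, hb, rfl⟩
    have h3 : ⁅a, b⁆ ∈ (⊥ : Subgroup H) := h2 ▸ commutator_mem_commutator ha hb
    have h4 : a * b = b * a := commutatorElement_eq_one_iff_mul_comm.1 (mem_bot.1 h3)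
    exact congrArg Subtype.val h4
  · rintro h hh _ ⟨a, ha, rfl⟩
    exact ⟨_, (derivedSeries_normal H n).conj_mem a ha ⟨h, hh⟩, rfl⟩

end grp

variable {F : Type*} [Field F] [Finite F]

theorem struct {H : Subgroup PSL(2, F)} (hs : Group.IsSolvable H) (h1 : H ≠ ⊥) :
    (∃ k : PSL(2, F), ∀ h ∈ H, k * h * k⁻¹ ∈ Bb F) ∨ (∃ g, SS g ∧ H ≤ Db g) ∨
    ((2 : F) ≠ 0 ∧ ∃ V : Subgroup PSL(2, F), IsKleinFour V ∧ H ≤ normalizer (V : Set PSL(2, F))) := by
  obtain ⟨A, hA1, hc, hn⟩ := exists_ab hs h1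
  by_cases hu : ∃ a ∈ A, ∃ (k : PSL(2, F)) (b : F), b ≠ 0 ∧ k * a * k⁻¹ = pr F (u b)
  · obtain ⟨a, ha, k, b, hb, e⟩ := hu
    refine .inl ⟨k, fun h hh => mem_Bb_of_conj hb (Ub_le_Bb ?_)⟩
    rw [← C_pr_u hb, ← e, mem_C_iff]
    have := hc _ (hn h hh a ha) a ha
    calc _ = k * (h * a * h⁻¹ * a) * k⁻¹ := by group
      _ = _ := by rw [this]; group
  have hss : ∀ a ∈ A, a ≠ 1 → ∃ g, SS g ∧ pr F g = a := fun a ha h1 =>
    (ss_or_conj_u h1).resolve_right fun h => hu ⟨a, ha, h⟩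
  by_cases hT : ∃ g, SS g ∧ A ≤ Tb g
  · obtain ⟨g, hg, hT⟩ := hT
    obtain ⟨⟨a, ha⟩, a1⟩ := ne_bot_iff_exists_ne_one.1 hA1
    exact .inr (.inl ⟨g, hg, fun h hh => mem_Db_of_conj hg (hT ha) (fun e => a1 (Subtype.ext e)) (hT (hn h hh a ha))⟩)
  have hsq : ∀ a ∈ A, a * a = 1 := fun a ha => by
    by_contra h2
    obtain ⟨g, hg, rfl⟩ := hss a ha (by rintro rfl; simp at h2)
    exact hT ⟨g, hg, fun b hb => by rw [← C_eq_Tb hg (self_mem_Tb g) h2, mem_C_iff]; exact hc _ hb _ ha⟩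
  obtain ⟨⟨a, ha⟩, a1⟩ := ne_bot_iff_exists_ne_one.1 hA1
  have a1 : a ≠ 1 := fun e => a1 (Subtype.ext e)
  obtain ⟨g, hg, rfl⟩ := hss a ha a1
  have hD : A ≤ Db g := fun b hb => by
    rw [← C_eq_Db hg (self_mem_Tb g) a1 (hsq _ ha), mem_C_iff]; exact hc _ hb _ ha
  obtain ⟨b, hb, hbT⟩ : ∃ b ∈ A, b ∉ Tb g := by
    by_contra h; push Not at h; exact hT ⟨g, hg, h⟩
  have hp : IsPair (pr F g) b := ⟨a1, fun e => hbT (e ▸ one_mem _), fun e => hbT (e ▸ self_mem_Tb g), hsq _ ha,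
    hsq _ hb, hc _ ha _ hb⟩
  have hk : ∀ c ∈ A, c ∈ Tb g → c = 1 ∨ c = pr F g := fun c hc hcT => by
    by_cases c1 : c = 1
    · exact .inl c1
    · exact .inr (eq_of_sq_eq_one (isCyclic_Tb hg) hcT (self_mem_Tb g) c1 a1 (hsq _ hc) (hsq _ ha))
  have hA : A = four hp := by
    ext c
    rw [mem_four]
    refine ⟨fun hc => ?_, ?_⟩
    · by_cases hcT : c ∈ Tb g
      · rcases hk c hc hcT with h | h <;> simp [h]
      · have hbb : b⁻¹ = b := inv_eq_of_mul_eq_one_right (hsq _ hb)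
        rcases hk _ (mul_mem hc hb) (mul_mem_Tb hg (hD hc) hcT (hD hb) hbT) with h | h
        · exact .inr (.inr (.inl (by rw [eq_inv_of_mul_eq_one_left h, hbb])))
        · exact .inr (.inr (.inr (by rw [← h, mul_assoc, hsq _ hb, mul_one])))
    · rintro (rfl | rfl | rfl | rfl)
      exacts [one_mem _, ha, hb, mul_mem ha hb]
  refine .inr (.inr ⟨fun h2 => cast_orderOf_ne hg ?_, A, hA ▸ isKleinFour_four hp,
    fun h hh => mem_normalizer_fintype (hn h hh)⟩)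
  rw [orderOf_eq_prime (p := 2) (by rw [sq]; exact hsq _ ha) a1]
  exact_mod_cast h2

theorem cases {x y : PSL(2, F)} (h : y ∈ Sol x) (h1 : x ≠ 1) :
    (∃ k : PSL(2, F), k * x * k⁻¹ ∈ Bb F ∧ k * y * k⁻¹ ∈ Bb F) ∨ (∃ g, SS g ∧ x ∈ Db g ∧ y ∈ Db g) ∨
    ((2 : F) ≠ 0 ∧ ∃ V : Subgroup PSL(2, F), IsKleinFour V ∧ x ∈ normalizer (V : Set PSL(2, F)) ∧
      y ∈ normalizer (V : Set PSL(2, F))) := by
  have hx : x ∈ closure ({x, y} : Set PSL(2, F)) := subset_closure (by simp)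
  have hy : y ∈ closure ({x, y} : Set PSL(2, F)) := subset_closure (by simp)
  rcases struct h (fun e => h1 (mem_bot.1 (e ▸ hx))) with ⟨k, h⟩ | ⟨g, hg, h⟩ | ⟨h2, V, hV, h⟩
  exacts [.inl ⟨k, h _ hx, h _ hy⟩, .inr (.inl ⟨g, hg, h hx, h hy⟩), .inr (.inr ⟨h2, V, hV, h hx, h hy⟩)]

theorem sol_B {x y k : PSL(2, F)} (hx : k * x * k⁻¹ ∈ Bb F) (hy : k * y * k⁻¹ ∈ Bb F) : y ∈ Sol x := by
  have := isSolvable_Bb (F := F)
  refine isSolvable_of_conj_le (K := Bb F) (y := k) fun z hz => ?_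
  have : closure ({x, y} : Set PSL(2, F)) ≤ (Bb F).comap (MulAut.conj k).toMonoidHom :=
    (closure_le _).2 (Set.pair_subset hx hy)
  exact this hz

theorem card_pre (S : Set PSL(2, F)) : ((pr F) ⁻¹' S).ncard = dd F * S.ncard := by
  rw [← Nat.card_coe_set_eq, ← Nat.card_coe_set_eq, dd, ← card_center]
  exact QuotientGroup.card_preimage_mk _ S

/-- matrices with nonzero lower left entry, by that entry and the trace -/
theorem card_low (P : F → F → Prop) : {y : SL(2, F) | y.1 1 0 ≠ 0 ∧ P (y.1 1 0) y.1.trace}.ncard =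
    Nat.card F * {p : F × F | p.1 ≠ 0 ∧ P p.1 p.2}.ncard := by
  rw [← Nat.card_coe_set_eq, ← Nat.card_coe_set_eq, ← Nat.card_prod]
  refine Nat.card_congr ⟨fun y => (y.1.1 0 0, ⟨(y.1.1 1 0, y.1.1.trace), y.2⟩), fun p =>
    ⟨mk2 p.1 ((p.1 * (p.2.1.2 - p.1) - 1) / p.2.1.1) p.2.1.1 (p.2.1.2 - p.1) (by
      have := p.2.2.1; field_simp; ring), ?_⟩, ?_, ?_⟩
  · have := p.2.2
    rw [Set.mem_ofPred_eq, trace_mk2, add_sub_cancel]
    exact this
  · rintro ⟨y, hy⟩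
    obtain ⟨a, b, c, d, h, rfl⟩ := sl_ex4 y
    have hc : c ≠ 0 := hy.1
    refine Subtype.ext (sl_ext4 rfl ?_ rfl ?_)
    · simp only [trace_mk2]
      change (a * (a + d - a) - 1) / c = b
      field_simp; linear_combination h
    · simp only [trace_mk2]
      change a + d - a = d
      ring
  · rintro ⟨a, ⟨c, t⟩, h⟩
    refine Prod.ext rfl (Subtype.ext (Prod.ext rfl ?_))
    simp only [trace_mk2, add_sub_cancel]

theorem tr_sq {g : SL(2, F)} (h1 : pr F g ≠ 1) (h : pr F g * pr F g = 1) : g.1.trace = 0 := by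
  rw [← map_mul, ← sq] at h
  by_contra h2
  exact pr_ne_one_iff.2 (by rw [pow_two_coe]; exact (pr_ne_one_iff.1 h1).lin_iff.2 h2) h

theorem tr_cube {g : SL(2, F)} (h1 : pr F g ≠ 1) (h : pr F g ^ 3 = 1) : g.1.trace ^ 2 = 1 := by
  rw [← map_pow] at h
  by_contra h2
  exact pr_ne_one_iff.2 (by rw [pow_three_coe]; exact (pr_ne_one_iff.1 h1).lin_iff.2 (sub_ne_zero.2 h2)) h

theorem cube_of_tr {g : SL(2, F)} (h : g.1.trace ^ 2 = 1) : pr F g ^ 3 = 1 := by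
  rw [← map_pow, pr_eq_one_iff]
  rcases sq_eq_one_iff.1 h with h | h
  exacts [.inr (pow_three_of_trace h), .inl (pow_three_of_trace' h)]

theorem ne_one_of_low {g : SL(2, F)} (h : g.1 1 0 ≠ 0) : pr F g ≠ 1 := pr_ne_one_iff.2 (.inr (.inl h))

/-- characteristic two, or characteristic three with an odd exponent -/
def Hq (F : Type*) [Field F] : Prop := (2 : F) ≠ 0 → (3 : F) = 0 ∧ Nat.card F % 8 = 3

theorem norm_four (hq : Hq F) (h2 : (2 : F) ≠ 0) {V : Subgroup PSL(2, F)} (hV : IsKleinFour V) {z : PSL(2, F)}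
    (hz : z ∈ normalizer (V : Set PSL(2, F))) : z * z = 1 ∨ (z ^ 3 = 1 ∧ (orderOf z : F) = 0) := by
  obtain ⟨h3, h8⟩ := hq h2
  have hc := card_normalizer_of_conj h2 V fun W _ => conj_four (.inl h8) V W
  have hd := hc ▸ orderOf_dvd_natCard _ hz
  have : Fact (Nat.Prime 3) := ⟨Nat.prime_three⟩
  have : CharP F 3 := (CharP.charP_iff_prime_eq_zero Nat.prime_three).2 (by exact_mod_cast h3)
  by_cases h0 : (orderOf z : F) = 0
  · exact .inr ⟨by rw [← orderOf_eq_char 3 h0, pow_orderOf_eq_one], h0⟩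
  · left
    rw [CharP.cast_eq_zero_iff F 3] at h0
    have h4 : orderOf z ≠ 4 := fun e => by have := CA.PSL2Cl1.mod8_of_four h2 e; omega
    rw [← sq, ← orderOf_dvd_iff_pow_eq_one]
    have := Nat.le_of_dvd (by norm_num) hd
    generalize orderOf z = n at *
    interval_cases n <;> simp_all

theorem sol_ss (hq : Hq F) {g : SL(2, F)} (hg : SS g) (h2 : pr F g * pr F g ≠ 1) {y : PSL(2, F)} (h : y ∈ Sol (pr F g)) :
    (∃ k : PSL(2, F), k * pr F g * k⁻¹ ∈ Bb F ∧ k * y * k⁻¹ ∈ Bb F) ∨ y ∈ Db g := by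
  have h1 : pr F g ≠ 1 := pr_ne_one_iff.2 hg.ns
  rcases cases h h1 with h | ⟨g', hg', hx, hy⟩ | ⟨h0, V, hV, hx, -⟩
  · exact .inl h
  · by_cases hT : pr F g ∈ Tb g'
    · exact .inr (by rwa [Db_eq_of_mem hg'.ns hT h1])
    · exact (h2 (sq_of_mem_Db hg' hx hT)).elim
  · exact ((norm_four hq h0 hV hx).elim h2 fun h => cast_orderOf_ne hg h.2).elim

theorem not_B_of_aniso {g : SL(2, F)} (hg : Aniso g.1) (k : PSL(2, F)) : k * pr F g * k⁻¹ ∉ Bb F := fun h => by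
  obtain ⟨k, rfl⟩ := pr_surj k
  rw [← map_inv, ← map_mul, ← map_mul, mem_Bb, mem_B] at h
  refine hg ((k * g * k⁻¹).1 0 0) ?_
  have := det_eq (k * g * k⁻¹)
  rw [← trace_conj k g, trace_fin_two, g.2]
  rw [h] at this
  linear_combination -this

theorem card_aniso (hq : Hq F) {g : SL(2, F)} (hg : Aniso g.1) (h2 : pr F g * pr F g ≠ 1) :
    dd F * (Sol (pr F g)).ncard = 2 * (Nat.card F + 1) := by
  have hs := SS.of_aniso hg
  have : Sol (pr F g) = Db g := Set.ext fun y => ⟨fun h => (sol_ss hq hs h2 h).resolve_left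
    fun ⟨k, h, _⟩ => not_B_of_aniso hg k h, fun h => sol_of_le (isSolvable_Db hs) (Tb_le_Db _ (self_mem_Tb g)) h⟩
  rw [this, ← Nat.card_coe_set_eq, SetLike.coe_sort_coe, card_Db hs, mul_left_comm, card_Tb, card_C_aniso hg]

theorem card_with_B {x : PSL(2, F)} (hx : x ∈ Bb F) {S : Set SL(2, F)} (h0 : ∀ y ∈ S, y.1 1 0 ≠ 0)
    (h : ∀ y : SL(2, F), y.1 1 0 ≠ 0 → (pr F y ∈ Sol x ↔ y ∈ S)) :
    dd F * (Sol x).ncard = Nat.card F * (Nat.card F - 1) + S.ncard := by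
  rw [← card_pre, ← card_B, ← SetLike.coe_sort_coe, Nat.card_coe_set_eq, ← Set.ncard_union_eq]
  · congr 1
    ext y
    by_cases hy : y.1 1 0 = 0
    · exact iff_of_true (sol_of_le isSolvable_Bb hx (mem_Bb.2 (mem_B.2 hy))) (.inl (mem_B.2 hy))
    · exact (h y hy).trans ⟨.inr, fun h => h.resolve_left fun h => hy (mem_B.1 h)⟩
  · exact Set.disjoint_left.2 fun y h1 h2 => h0 y h2 (mem_B.1 h1)

theorem card_split (hq : Hq F) {g : SL(2, F)} (hg : Split g.1) (h2 : pr F g * pr F g ≠ 1) :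
    dd F * (Sol (pr F g)).ncard = 2 * (Nat.card F * (Nat.card F - 1)) := by
  have hs := SS.of_split hg
  obtain ⟨a, b, hab, ht, hd⟩ := hg
  rw [g.2] at hd
  have ha : a ≠ 0 := left_ne_zero_of_mul_eq_one hd.symm
  have hd' : a * b - 0 * 0 = 1 := by linear_combination -hd
  obtain ⟨k, hk⟩ := isConj_iff.1 (hs.isConj (h := mk2 a 0 0 b hd') (by rw [trace_mk2, ht]))
  have hs' := hs.conj k
  have h2' : pr F (k * g * k⁻¹) * pr F (k * g * k⁻¹) ≠ 1 := fun e => h2 (by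
    rw [map_mul, map_mul, map_inv, conj_mul, mul_inv_eq_one, mul_eq_left] at e; exact e)
  rw [← Sol_conj (pr F k), ← map_inv, ← map_mul, ← map_mul]
  rw [hk] at hs' h2' ⊢
  have hba : b - a ≠ 0 := sub_ne_zero.2 hab.symm
  rw [card_with_B (S := {y | y.1 1 0 ≠ 0 ∧ (y.1 0 1 = 0 ∨ y.1 0 0 = 0 ∧ y.1 1 1 = 0)}) (mem_Bb.2 (mem_B.2 rfl))
    (fun _ h => h.1), two_mul]
  · congr 1
    rw [← Nat.card_coe_set_eq, ← Nat.card_units, ← Nat.card_prod]
    refine Nat.card_eq_of_bijective (fun y => (y.1.1 0 0, Units.mk0 (y.1.1 1 0) y.2.1)) ⟨?_, ?_⟩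
    · rintro ⟨y, hy⟩ ⟨z, hz⟩ e
      obtain ⟨a, b, c, d, h, rfl⟩ := sl_ex4 y
      obtain ⟨a', b', c', d', h', rfl⟩ := sl_ex4 z
      obtain rfl : a = a' := congrArg Prod.fst e
      obtain rfl : c = c' := congrArg (fun p : F × Fˣ => (p.2 : F)) e
      apply Subtype.ext
      change mk2 a b c d h = mk2 a b' c d' h'
      rw [mk2_eq_iff]
      change c ≠ 0 ∧ (b = 0 ∨ a = 0 ∧ d = 0) at hy
      change c ≠ 0 ∧ (b' = 0 ∨ a = 0 ∧ d' = 0) at hz
      obtain ⟨hc, rfl | ⟨rfl, rfl⟩⟩ := hy <;> obtain ⟨-, rfl | ⟨ha, rfl⟩⟩ := hz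
      · refine ⟨rfl, rfl, rfl, ?_⟩
        linear_combination d' * h - d * h'
      · simp [ha] at h
      · simp at h'
      · exact ⟨rfl, mul_right_cancel₀ hc (by linear_combination h' - h), rfl, rfl⟩
    · rintro ⟨a, c⟩
      by_cases ha : a = 0
      · exact ⟨⟨mk2 0 (-c⁻¹) c 0 (by simp), c.ne_zero, .inr ⟨rfl, rfl⟩⟩, Prod.ext ha.symm (Units.ext rfl)⟩
      · exact ⟨⟨mk2 a 0 c a⁻¹ (by simp [ha]), c.ne_zero, .inl rfl⟩, Prod.ext rfl (Units.ext rfl)⟩
  · intro y hy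
    obtain ⟨a', b', c', d', h', rfl⟩ := sl_ex4 y
    change c' ≠ 0 at hy
    change _ ↔ c' ≠ 0 ∧ (b' = 0 ∨ a' = 0 ∧ d' = 0)
    refine ⟨fun h => ⟨hy, ?_⟩, ?_⟩
    · rcases sol_ss hq hs' h2' h with ⟨k, h1, h3⟩ | h1
      · obtain ⟨k, rfl⟩ := pr_surj k
        obtain ⟨a1, b1, c1, d1, h4, rfl⟩ := sl_ex4 k
        rw [← map_inv, ← map_mul, ← map_mul, mem_Bb, mem_B, mk2_inv, mk2_mul, mk2_mul] at h1 h3
        change (c1 * a + d1 * 0) * d1 + (c1 * 0 + d1 * b) * -c1 = 0 at h1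
        change (c1 * a' + d1 * c') * d1 + (c1 * b' + d1 * d') * -c1 = 0 at h3
        have : c1 * d1 * (b - a) = 0 := by linear_combination -h1
        rcases mul_eq_zero.1 ((mul_eq_zero.1 this).resolve_right hba) with rfl | rfl
        · exact (hy (by linear_combination a1 ^ 2 * h3 - c' * (a1 * d1 + 1) * h4)).elim
        · exact .inl (by linear_combination -b1 ^ 2 * h3 + b' * (b1 * c1 - 1) * h4)
      · rw [mem_Db, mem_D_iff, mul_inv_eq_iff_eq_mul, mul_inv_eq_iff_eq_mul, mk2_inv, mk2_mul, mk2_mul, mk2_mul,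
          mk2_eq_iff, mk2_eq_iff] at h1
        rcases h1 with ⟨-, -, h1, -⟩ | ⟨h1, -, -, h3⟩
        · exact (hy (mul_right_cancel₀ hba (by linear_combination -h1))).elim
        · exact .inr ⟨mul_right_cancel₀ hba (by linear_combination -h1), mul_right_cancel₀ hba (by linear_combination h3)⟩
    · rintro ⟨-, rfl | ⟨rfl, rfl⟩⟩
      · refine sol_B (k := pr F (mk2 0 1 (-1) 0 (by simp))) ?_ ?_ <;>
          rw [← map_inv, ← map_mul, ← map_mul, mem_Bb, mem_B, mk2_inv, mk2_mul, mk2_mul, mk2_coe] <;> simp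
      · refine sol_of_le (isSolvable_Db hs') (Tb_le_Db _ (self_mem_Tb _)) (mem_Db.2 (mem_D_iff.2 (.inr ?_)))
        rw [mul_inv_eq_iff_eq_mul, mk2_inv, mk2_mul, mk2_mul, mk2_eq_iff]
        refine ⟨?_, ?_, ?_, ?_⟩ <;> ring

theorem card_ss (hq : Hq F) {x : PSL(2, F)} (h1 : x ≠ 1) (h2 : orderOf x ≠ 2) :
    (orderOf x ∣ Nat.card F - 1 → dd F * (Sol x).ncard = 2 * (Nat.card F * (Nat.card F - 1))) ∧
    (orderOf x ∣ Nat.card F + 1 → dd F * (Sol x).ncard = 2 * (Nat.card F + 1)) := by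
  have h3 : ¬ orderOf x ∣ 2 := fun h => ((Nat.dvd_prime Nat.prime_two).1 h).elim (fun h => h1 (orderOf_eq_one_iff.1 h)) h2
  have h4 : x * x ≠ 1 := fun h => h3 (orderOf_dvd_of_pow_eq_one (by rwa [sq]))
  have key : (orderOf x ∣ Nat.card F - 1 ∨ orderOf x ∣ Nat.card F + 1) → ∃ g, SS g ∧ pr F g = x ∧
      orderOf x ∣ Nat.card (C g) := fun h => by
    obtain ⟨g, hg, rfl⟩ := exists_ss_of_pow h1 (cast_ne_zero_of_dvd h) (pow_orderOf_eq_one x)
    exact ⟨g, hg, rfl, (orderOf_dvd_card_Tb g).trans (card_Tb g ▸ Dvd.intro_left _ rfl)⟩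
  constructor <;> intro h
  · obtain ⟨g, hg, rfl, h5⟩ := key (.inl h)
    exact card_split hq (split_of_dvd hg h3 h5 h) h4
  · obtain ⟨g, hg, rfl, h5⟩ := key (.inr h)
    exact card_aniso hq (aniso_of_dvd hg h3 h5 h) h4

theorem not_T_u {g : SL(2, F)} (hg : SS g) {b : F} (hb : b ≠ 0) : pr F (u b) ∉ Tb g := fun h => by
  have := hg.of_mem (mem_Tb.1 h) (NS_u hb)
  rw [SS, trace_u] at this
  exact this (by norm_num)

theorem u_mem_Bb (b : F) : pr F (u b) ∈ Bb F := Ub_le_Bb (mem_Ub.2 ⟨b, rfl⟩)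

theorem trace_u_mul (b : F) (y : SL(2, F)) : (u b * y).1.trace = y.1.trace + b * y.1 1 0 := by
  rw [trace_fin_two, trace_fin_two, sl_mul_apply, sl_mul_apply, u_coe]; simp; ring

theorem low_u_mul (b : F) (y : SL(2, F)) : (u b * y).1 1 0 = y.1 1 0 := by
  rw [sl_mul_apply, u_coe]; simp

theorem not_B_u {b : F} (hb : b ≠ 0) {y : SL(2, F)} (hy : y.1 1 0 ≠ 0) :
    ¬ ∃ k : PSL(2, F), k * pr F (u b) * k⁻¹ ∈ Bb F ∧ k * pr F y * k⁻¹ ∈ Bb F := by
  rintro ⟨k, h1, h2⟩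
  have hk := mem_Bb_of_conj hb h1
  have := mul_mem (mul_mem (inv_mem hk) h2) hk
  rw [show k⁻¹ * (k * pr F y * k⁻¹) * k = pr F y by group, mem_Bb, mem_B] at this
  exact hy this

theorem card_even (h2 : (2 : F) = 0) {x : PSL(2, F)} (hx : orderOf x = 2) :
    (Sol x).ncard = 3 * (Nat.card F * (Nat.card F - 1)) := by
  have h1 : x ≠ 1 := by rintro rfl; simp at hx
  have hxx : x * x = 1 := by rw [← sq, ← orderOf_dvd_iff_pow_eq_one, hx]
  obtain ⟨k, b, hb, e⟩ := exists_conj_u_of_cast h1 (by rw [hx]; exact_mod_cast h2)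
  have hu : pr F (u b) * pr F (u b) = 1 := by rw [← e, conj_mul, hxx]; group
  have := card_with_B (S := {y | y.1 1 0 ≠ 0 ∧ (y.1.trace = 0 ∨ y.1.trace + b * y.1 1 0 = 0)}) (u_mem_Bb b)
    (fun _ h => h.1) fun y hy => ⟨fun h => ⟨hy, ?_⟩, ?_⟩
  · rw [dd_even h2, one_mul, card_low fun c t => t = 0 ∨ t + b * c = 0] at this
    rw [← Sol_conj k, e, this]
    have : {p : F × F | p.1 ≠ 0 ∧ (p.2 = 0 ∨ p.2 + b * p.1 = 0)}.ncard = (Nat.card F - 1) + (Nat.card F - 1) := by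
      have e1 : ∀ f : F → F, ((fun c : Fˣ => ((c : F), f c)) '' Set.univ).ncard = Nat.card F - 1 := fun f => by
        rw [Set.ncard_image_of_injective _ fun c d h => Units.ext (congrArg Prod.fst h), Set.ncard_univ, Nat.card_units]
      nth_rewrite 1 [← e1 fun _ => 0]
      rw [← e1 fun c => -(b * c), ← Set.ncard_union_eq]
      · congr 1
        ext ⟨c, t⟩
        refine ⟨?_, ?_⟩
        · rintro ⟨hc, h | h⟩
          · exact .inl ⟨Units.mk0 c hc, trivial, Prod.ext rfl h.symm⟩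
          · exact .inr ⟨Units.mk0 c hc, trivial, Prod.ext rfl (eq_neg_of_add_eq_zero_left h).symm⟩
        · rintro (⟨c, -, h⟩ | ⟨c, -, h⟩) <;> obtain ⟨rfl, rfl⟩ := Prod.ext_iff.1 h
          exacts [⟨c.ne_zero, .inl rfl⟩, ⟨c.ne_zero, .inr (neg_add_cancel _)⟩]
      · rw [Set.disjoint_left]
        rintro _ ⟨c, -, rfl⟩ ⟨d, -, h⟩
        exact mul_ne_zero hb d.ne_zero (neg_eq_zero.1 (congrArg Prod.snd h))
    rw [this]; ring
  · rcases cases h (pr_u_ne_one hb) with h | ⟨g, hg, h3, h4⟩ | ⟨h0, -⟩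
    · exact (not_B_u hb hy h).elim
    · by_cases hT : pr F y ∈ Tb g
      · right
        rw [← trace_u_mul]
        refine tr_sq (ne_one_of_low (by rwa [low_u_mul])) ?_
        rw [map_mul]
        exact sq_of_mem_Db hg (mul_mem h3 h4) fun h => not_T_u hg hb ((mul_mem_cancel_right hT).1 h)
      · exact .inl (tr_sq (ne_one_of_low hy) (sq_of_mem_Db hg h4 hT))
    · exact (h0 h2).elim
  · rintro ⟨-, h | h⟩
    · exact sol_inv hu (pr_mul_self_of_trace h)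
    · refine sol_inv' hu ?_
      rw [← map_mul]
      exact pr_mul_self_of_trace (by rwa [trace_u_mul])

end CA.SolL2
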