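import Cfsg.Agent.Lib.Lin.SolL2

/-! Solubilizers in `PSL₂(3 ^ n)`, `n` odd. -/

set_option autoImplicit false

namespace CA.SolL2

open Matrix CA.SL2Basic CA.Mat2 CA.SL2Torus CA.SL2Embed CA.SL2Class CA.SL2Unip
  CA.PSL2Struct CA.PSL2Sub CA.PSL2Four Subgroup
open scoped MatrixGroups

variable {F : Type*} [Field F] [Finite F]

theorem hq_of (h3 : (3 : F) = 0) (h8 : Nat.card F % 8 = 3) : (2 : F) ≠ 0 ∧ Hq F :=
  ⟨two_ne_zero_of_odd (Nat.odd_iff.2 (by omega)), fun _ => ⟨h3, h8⟩⟩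

theorem tr_norm (h3 : (3 : F) = 0) {g : SL(2, F)} (h : pr F g * pr F g = 1 ∨ pr F g ^ 3 = 1) :
    g.1.trace = 0 ∨ g.1.trace ^ 2 = 1 := by
  by_cases h1 : pr F g = 1
  · right
    rcases pr_eq_one_iff.1 h1 with rfl | rfl <;> simp [trace_fin_two, -sq_eq_one_iff] <;> linear_combination h3
  · exact h.imp (tr_sq h1) (tr_cube h1)

theorem card_three (h3 : (3 : F) = 0) (h8 : Nat.card F % 8 = 3) {x : PSL(2, F)} (hx : orderOf x = 3) :
    2 * (Sol x).ncard = Nat.card F * (Nat.card F - 1) + Nat.card F * 6 := by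
  obtain ⟨h2, hq⟩ := hq_of h3 h8
  have h1 : x ≠ 1 := by rintro rfl; simp at hx
  obtain ⟨k, b, hb, e⟩ := exists_conj_u_of_cast h1 (by rw [hx]; exact_mod_cast h3)
  have ho : orderOf (pr F (u b)) = 3 := by rw [← e, orderOf_conj, hx]
  have hu : pr F (u b) ^ 3 = 1 := by rw [← orderOf_dvd_iff_pow_eq_one, ho]
  have hu2 : pr F (u b) * pr F (u b) ≠ 1 := by rw [← sq, Ne, ← orderOf_dvd_iff_pow_eq_one, ho]; decide
  have := card_with_B (S := {y | y.1 1 0 ≠ 0 ∧ ((b * y.1 1 0) ^ 2 = 1 ∧ (y.1.trace = 0 ∨ y.1.trace ^ 2 = 1))}) (u_mem_Bb b)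
    (fun _ h => h.1) fun y hy => ⟨fun h => ⟨hy, ?_⟩, ?_⟩
  · rw [dd_odd h2, card_low fun c t => (b * c) ^ 2 = 1 ∧ (t = 0 ∨ t ^ 2 = 1)] at this
    rw [← Sol_conj k, e, this]
    congr 2
    have : {p : F × F | p.1 ≠ 0 ∧ (b * p.1) ^ 2 = 1 ∧ (p.2 = 0 ∨ p.2 ^ 2 = 1)} = {b⁻¹, -b⁻¹} ×ˢ {0, 1, -1} := by
      ext ⟨c, t⟩
      simp only [sq_eq_one_iff, Set.mem_ofPred_eq, Set.mem_prod, Set.mem_insert_iff, Set.mem_singleton_iff]
      refine ⟨fun ⟨_, h, h'⟩ => ⟨h.imp (fun h => eq_inv_of_mul_eq_one_right h) fun h => ?_, h'⟩, ?_⟩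
      · field_simp; linear_combination h
      · rintro ⟨rfl | rfl, h⟩ <;> simp [hb, h]
    have h4 : (1 : F) ≠ -1 := fun h => h2 (by linear_combination h)
    rw [this, Set.ncard_prod, Set.ncard_pair fun h => h4 (mul_left_cancel₀ (inv_ne_zero hb) (by linear_combination h)),
      Set.ncard_insert_of_notMem (by simp), Set.ncard_pair h4]
  · rcases cases h (pr_u_ne_one hb) with h | ⟨g, hg, h3, h4⟩ | ⟨h0, V, hV, h4, h5⟩
    · exact (not_B_u hb hy h).elim
    · exact (hu2 (sq_of_mem_Db hg h3 (not_T_u hg hb))).elim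
    · have h6 := tr_norm h3 ((norm_four hq h0 hV h5).imp_right And.left)
      have h7 := tr_norm h3 (g := u b * y) ((norm_four hq h0 hV (map_mul (pr F) _ _ ▸ mul_mem h4 h5)).imp_right And.left)
      refine ⟨mul_left_cancel₀ (mul_ne_zero hb hy) ?_, h6⟩
      rw [trace_u_mul] at h7
      have e1 : y.1.trace ^ 3 = y.1.trace := by rcases h6 with h | h; simp [h]; rw [pow_succ, h, one_mul]
      have e2 : (y.1.trace + b * y.1 1 0) ^ 3 = y.1.trace + b * y.1 1 0 := by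
        rcases h7 with h | h; simp [h]; rw [pow_succ, h, one_mul]
      linear_combination e2 - e1 - (y.1.trace ^ 2 * (b * y.1 1 0) + y.1.trace * (b * y.1 1 0) ^ 2) * h3
  · rintro ⟨-, h4, h5⟩
    have key : ∀ z : SL(2, F), z.1 1 0 = y.1 1 0 → z.1.trace = 0 → pr F z ∈ Sol (pr F (u b)) := fun z h6 h7 =>
      sol_A4 hu (pr_mul_self_of_trace h7) (by rw [← map_mul]; exact cube_of_tr (by rw [trace_u_mul, h6, h7, zero_add, h4]))
    have hm : ∀ z, pr F (u b) ∈ closure ({pr F (u b), z} : Set PSL(2, F)) := fun z => subset_closure (by simp)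
    have hm' : ∀ z, z ∈ closure ({pr F (u b), z} : Set PSL(2, F)) := fun z => subset_closure (by simp)
    rcases h5 with h5 | h5
    · exact key y rfl h5
    · rcases sq_eq_sq_iff_eq_or_eq_neg.1 (h5.trans h4.symm) with h6 | h6
      · refine sol_of_mem (key (u (-b) * y) (low_u_mul _ _) (by rw [trace_u_mul, h6]; ring)) ?_
        have := mul_mem (hm (pr F (u (-b) * y))) (hm' _)
        rwa [← map_mul, ← u_inv, mul_inv_cancel_left, u_inv] at this
      · refine sol_of_mem (key (u b * y) (low_u_mul _ _) (by rw [trace_u_mul, h6]; ring)) ?_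
        have := mul_mem (inv_mem (hm (pr F (u b * y)))) (hm' _)
        rwa [← map_inv, ← map_mul, inv_mul_cancel_left] at this

theorem w0_eq : (w0 : SL(2, F)) = mk2 0 1 (-1) 0 (by simp) := rfl

theorem trace_w0_mul (y : SL(2, F)) : (w0 * y).1.trace = y.1 1 0 - y.1 0 1 := by
  rw [trace_fin_two, sl_mul_apply, sl_mul_apply, w0_coe]; simp [sub_eq_add_neg]

theorem mem_C_w0 {a b c d : F} {h : a * d - b * c = 1} : mk2 a b c d h ∈ C (w0 : SL(2, F)) ↔ d = a ∧ c = -b := by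
  rw [mem_C_iff, w0_eq, mk2_mul, mk2_mul, mk2_eq_iff]
  refine ⟨fun ⟨h1, h2, _⟩ => ⟨by linear_combination -h2, by linear_combination -h1⟩, ?_⟩
  rintro ⟨rfl, rfl⟩
  refine ⟨?_, ?_, ?_, ?_⟩ <;> ring

theorem card_circle (h8 : Nat.card F % 8 = 3) : {p : F × F | p.1 ^ 2 + p.2 ^ 2 = 1}.ncard = Nat.card F + 1 := by
  rw [← (card_C_of_trace_zero trace_w0).2 (by omega), ← Nat.card_coe_set_eq]
  refine Nat.card_eq_of_bijective (fun p => ⟨mk2 p.1.1 p.1.2 (-p.1.2) p.1.1 (by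
    have : p.1.1 ^ 2 + p.1.2 ^ 2 = 1 := p.2
    linear_combination this), mem_C_w0.2 ⟨rfl, rfl⟩⟩) ⟨?_, ?_⟩
  · intro p q e
    exact Subtype.ext (Prod.ext (congrArg (fun y => y.1.1 0 0) e) (congrArg (fun y => y.1.1 0 1) e))
  · rintro ⟨y, hy⟩
    obtain ⟨a, b, c, d, h, rfl⟩ := sl_ex4 y
    obtain ⟨rfl, rfl⟩ := mem_C_w0.1 hy
    exact ⟨⟨(d, b), show d ^ 2 + b ^ 2 = 1 by linear_combination h⟩, rfl⟩

theorem card_fib (h3 : (3 : F) = 0) (s r : F) : {y : SL(2, F) | y.1.trace = s ∧ (w0 * y).1.trace = r}.ncard =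
    {p : F × F | p.1 ^ 2 + p.2 ^ 2 = s ^ 2 + r ^ 2 - 1}.ncard := by
  rw [← Nat.card_coe_set_eq, ← Nat.card_coe_set_eq]
  symm
  refine Nat.card_eq_of_bijective (fun p => ⟨mk2 (p.1.1 - s) (p.1.2 + r) (p.1.2 + r + r) (s + s - p.1.1) (by
    have : p.1.1 ^ 2 + p.1.2 ^ 2 = _ := p.2
    linear_combination -this + (p.1.1 * s - s ^ 2 - p.1.2 * r - r ^ 2) * h3), by rw [trace_mk2]; ring,
    by rw [trace_w0_mul]; exact add_sub_cancel_left _ _⟩) ⟨?_, ?_⟩
  · intro p q e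
    have h1 : p.1.1 - s = q.1.1 - s := congrArg (fun y => y.1.1 0 0) e
    have h2 : p.1.2 + r = q.1.2 + r := congrArg (fun y => y.1.1 0 1) e
    exact Subtype.ext (Prod.ext (sub_left_injective h1) (add_right_cancel h2))
  · rintro ⟨y, h1, h2⟩
    obtain ⟨a, b, c, d, h, rfl⟩ := sl_ex4 y
    rw [trace_mk2] at h1
    rw [trace_w0_mul] at h2
    change c - b = r at h2
    subst h1 h2
    refine ⟨⟨(a + (a + d), b - (c - b)), show _ ^ 2 + _ ^ 2 = _ by
      linear_combination -h + (a ^ 2 + a * d + b ^ 2 - b * c) * h3⟩, Subtype.ext (sl_ext4 ?_ ?_ ?_ ?_)⟩ <;>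
      simp [mk2_coe]

theorem card_inv (h3 : (3 : F) = 0) (h8 : Nat.card F % 8 = 3) {x : PSL(2, F)} (hx : orderOf x = 2) :
    2 * (Sol x).ncard = 2 * (Nat.card F * (Nat.card F + 1)) := by
  obtain ⟨h2, hq⟩ := hq_of h3 h8
  have h4 : (1 : F) ≠ -1 := fun h => h2 (by linear_combination h)
  have h1 : x ≠ 1 := by rintro rfl; simp at hx
  have hxx : x * x = 1 := by rw [← sq, ← orderOf_dvd_iff_pow_eq_one, hx]
  have hw : pr F w0 * pr F w0 = 1 := pr_mul_self_of_trace trace_w0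
  obtain ⟨k, e⟩ := isConj_iff.1 (isConj_involution h1 hxx pr_w0_ne_one hw)
  have ha : Aniso (w0 : SL(2, F)).1 := aniso_of_trace_zero trace_w0 (by omega)
  have hs := SS.of_aniso ha
  rw [← Sol_conj k, e]
  nth_rewrite 1 [← dd_odd h2]
  rw [← card_pre]
  let N : F → F → Set SL(2, F) := fun s r => {y | y.1.trace = s ∧ (w0 * y).1.trace = r}
  let A : Set SL(2, F) := {y | y.1.trace = 0}
  let A' : Set SL(2, F) := {y | (w0 * y).1.trace = 0}
  let T : Set SL(2, F) := C (w0 : SL(2, F))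
  let E : Set SL(2, F) := {y | y.1.trace ^ 2 = 1 ∧ (w0 * y).1.trace ^ 2 = 1}
  have hC : ∀ y : SL(2, F), pr F y = 1 ∨ pr F (w0 * y) = 1 → y ∈ C w0 := by
    rintro y (h | h)
    · exact mem_Tb.1 (h ▸ one_mem _)
    · exact (mul_mem_cancel_left (self_mem_C _)).1 (mem_Tb.1 (h ▸ one_mem _))
  have hA : ∀ y : SL(2, F), pr F y * pr F y = 1 → y ∈ (A ∪ A' ∪ T) ∪ E := fun y h => by
    by_cases h1 : pr F y = 1
    exacts [.inl (.inr (hC y (.inl h1))), .inl (.inl (.inl (tr_sq h1 h)))]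
  have hA' : ∀ y : SL(2, F), (pr F w0 * pr F y) * (pr F w0 * pr F y) = 1 → y ∈ (A ∪ A' ∪ T) ∪ E := fun y h => by
    rw [← map_mul] at h
    by_cases h1 : pr F (w0 * y) = 1
    exacts [.inl (.inr (hC y (.inr h1))), .inl (.inl (.inr (tr_sq h1 h)))]
  have e1 : pr F ⁻¹' Sol (pr F w0) = (A ∪ A' ∪ T) ∪ E := by
    ext y
    refine ⟨fun h => ?_, ?_⟩
    · rcases cases h pr_w0_ne_one with ⟨k, h, -⟩ | ⟨g, hg, h5, h6⟩ | ⟨-, V, hV, h5, h6⟩
      · exact (not_B_of_aniso ha k h).elim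
      · by_cases hT : pr F y ∈ Tb g
        · by_cases hT' : pr F w0 ∈ Tb g
          · exact .inl (.inr (mem_Tb.1 (by rwa [Tb_eq_of_mem hg.ns hT' pr_w0_ne_one])))
          · exact hA' y (sq_of_mem_Db hg (mul_mem h5 h6) fun h => hT' ((mul_mem_cancel_right hT).1 h))
        · exact hA y (sq_of_mem_Db hg h6 hT)
      · rcases tr_norm h3 ((norm_four hq h2 hV h6).imp_right And.left) with h7 | h7
        · exact .inl (.inl (.inl h7))
        rcases tr_norm h3 (g := w0 * y) ((norm_four hq h2 hV (map_mul (pr F) _ _ ▸ mul_mem h5 h6)).imp_right And.left)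
          with h8 | h8
        exacts [.inl (.inl (.inr h8)), .inr ⟨h7, h8⟩]
    · rintro (((h | h) | h) | ⟨h, h'⟩)
      · exact sol_inv hw (pr_mul_self_of_trace h)
      · exact sol_inv' hw (by rw [← map_mul]; exact pr_mul_self_of_trace h)
      · exact sol_of_le (isSolvable_Db hs) (Tb_le_Db _ (self_mem_Tb _)) (Tb_le_Db _ (mem_Tb.2 h))
      · refine sol_symm (sol_A4 (cube_of_tr h) hw ?_)
        rw [← map_mul]
        refine cube_of_tr ?_
        have : (y * w0).1.trace = (w0 * y).1.trace := trace_mul_comm y.1 (w0 : SL(2, F)).1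
        rwa [this]
  have c1 : A.ncard = Nat.card F * (Nat.card F - 1) := by
    have : A = {y | y.1 1 0 ≠ 0 ∧ y.1.trace = 0} := by
      ext y
      refine ⟨fun h => ⟨fun h' => not_B_of_aniso (aniso_of_trace_zero h (by omega)) 1 ?_, h⟩, And.right⟩
      simpa using mem_Bb.2 (mem_B.2 h')
    rw [this, card_low fun _ t => t = 0, ← Nat.card_units, ← Set.ncard_univ Fˣ,
      ← Set.ncard_image_of_injective (f := fun c : Fˣ => ((c : F), (0 : F))) _ fun c d h => Units.ext (congrArg Prod.fst h)]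
    congr 2
    ext ⟨c, t⟩
    refine ⟨?_, ?_⟩
    · rintro ⟨hc, h⟩
      exact ⟨Units.mk0 c hc, trivial, Prod.ext rfl h.symm⟩
    · rintro ⟨c, -, h⟩
      obtain ⟨rfl, rfl⟩ := Prod.ext_iff.1 h
      exact ⟨c.ne_zero, rfl⟩
  have c2 : A'.ncard = A.ncard := Set.ncard_preimage_of_injective_subset_range (s := A)
    (mul_right_injective (w0 : SL(2, F))) fun y _ => ⟨w0⁻¹ * y, mul_inv_cancel_left _ _⟩
  have c3 : (A ∩ A').ncard = Nat.card F + 1 := by
    rw [← card_circle h8]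
    refine (card_fib h3 0 0).trans ?_
    refine Set.ncard_congr (fun p _ => (p.1 + p.2, p.1 - p.2)) ?_ ?_ ?_
    · rintro ⟨a, b⟩ h
      change a ^ 2 + b ^ 2 = _ at h
      change (a + b) ^ 2 + (a - b) ^ 2 = 1
      linear_combination 2 * h - h3
    · rintro ⟨a, b⟩ ⟨c, d⟩ _ _ h
      obtain ⟨h, h'⟩ := Prod.ext_iff.1 h
      simp only at h h'
      exact Prod.ext (mul_left_cancel₀ h2 (by linear_combination h + h')) (mul_left_cancel₀ h2 (by linear_combination h - h'))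
    · rintro ⟨a, b⟩ h
      change a ^ 2 + b ^ 2 = 1 at h
      refine ⟨(-(a + b), b - a), show _ ^ 2 + _ ^ 2 = _ by linear_combination 2 * h + h3, Prod.ext ?_ ?_⟩
      · linear_combination -a * h3
      · linear_combination -b * h3
  have c4 : T.ncard = Nat.card F + 1 := card_C_aniso ha
  have c5 : ((A ∪ A') ∩ T).ncard = 4 := by
    have : (A ∪ A') ∩ T = {1, -1, w0, -w0} := by
      ext y
      refine ⟨?_, ?_⟩
      · rintro ⟨h, h'⟩
        obtain ⟨a, b, c, d, h5, rfl⟩ := sl_ex4 y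
        obtain ⟨rfl, rfl⟩ := mem_C_w0.1 h'
        simp only [Set.mem_insert_iff, Set.mem_singleton_iff, w0_eq, one_eq_mk2, neg_mk2, mk2_eq_iff]
        rcases h with h | h
        · obtain rfl : d = 0 := mul_left_cancel₀ h2 (by
            change _ = 0 at h; rw [trace_mk2] at h; linear_combination h)
          rcases sq_eq_one_iff.1 (show b ^ 2 = 1 by linear_combination h5) with rfl | rfl <;> simp
        · obtain rfl : b = 0 := mul_left_cancel₀ h2 (by
            change _ = 0 at h; rw [trace_w0_mul] at h; change -b - b = 0 at h; linear_combination -h)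
          rcases sq_eq_one_iff.1 (show d ^ 2 = 1 by linear_combination h5) with rfl | rfl <;> simp
      · rintro (rfl | rfl | rfl | rfl)
        · exact ⟨.inr (by change _ = 0; rw [mul_one, trace_w0]), one_mem _⟩
        · exact ⟨.inr (by change _ = 0; rw [mul_neg, mul_one, trace_neg', trace_w0, neg_zero]), neg_one_mem_C _⟩
        · exact ⟨.inl trace_w0, self_mem_C _⟩
        · exact ⟨.inl (by change _ = 0; rw [trace_neg', trace_w0, neg_zero]), neg_mem_C (self_mem_C _)⟩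
    rw [this, Set.ncard_insert_of_notMem, Set.ncard_insert_of_notMem, Set.ncard_pair] <;>
      simp [w0_eq, one_eq_mk2, neg_mk2, mk2_eq_iff, h4]
  have c6 : E.ncard = 4 * (Nat.card F + 1) := by
    have hN : ∀ s r : F, s ^ 2 = 1 → r ^ 2 = 1 → (N s r).ncard = Nat.card F + 1 := fun s r hs hr => by
      rw [card_fib h3, hs, hr, add_sub_cancel_right, card_circle h8]
    have : E = (N 1 1 ∪ N 1 (-1)) ∪ (N (-1) 1 ∪ N (-1) (-1)) := by
      ext y
      simp only [E, N, sq_eq_one_iff, Set.mem_union, Set.mem_ofPred_eq]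
      tauto
    rw [this, Set.ncard_union_eq, Set.ncard_union_eq, Set.ncard_union_eq, hN, hN, hN, hN] <;> try simp
    · ring
    · exact Set.disjoint_left.2 fun y h h' => h4 (h.2.symm.trans h'.2)
    · exact Set.disjoint_left.2 fun y h h' => h4 (h.2.symm.trans h'.2)
    · refine ⟨⟨?_, ?_⟩, ?_, ?_⟩ <;> exact Set.disjoint_left.2 fun y h h' => h4 (h.1.symm.trans h'.1)
  have c7 : Disjoint (A ∪ A' ∪ T) E := by
    rw [Set.disjoint_left]
    rintro y ((h | h) | h) ⟨h5, h6⟩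
    · rw [show y.1.trace = 0 from h] at h5; simp at h5
    · rw [show (w0 * y : SL(2, F)).1.trace = 0 from h] at h6; simp at h6
    · obtain ⟨a, b, c, d, h7, rfl⟩ := sl_ex4 y
      obtain ⟨rfl, rfl⟩ := mem_C_w0.1 h
      rw [trace_mk2] at h5
      rw [trace_w0_mul] at h6
      change (-b - b) ^ 2 = 1 at h6
      exact h2 (by linear_combination h5 + h6 - 4 * h7)
  have c8 := Set.ncard_union_add_ncard_inter A A'
  have c9 := Set.ncard_union_add_ncard_inter (A ∪ A') T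
  rw [e1, Set.ncard_union_eq c7, c6]
  rw [c2, c1, c3] at c8
  rw [c4, c5] at c9
  obtain ⟨n, hn⟩ : ∃ n, Nat.card F = n + 1 := ⟨Nat.card F - 1, by omega⟩
  rw [hn] at c8 c9 ⊢
  rw [Nat.add_sub_cancel] at c8
  nlinarith

end CA.SolL2
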