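/-
Representations of rank one of symplectic groups: weights of transvection groups.
-/
import Cfsg.Agent.Lib.Lie.DegT1

set_option autoImplicit false
set_option linter.unusedSectionVars false

namespace CA.SpW

open Cfsg CA.Wt CA.DegO CA.DegT CA.CForm CA.CForm.Form CA.AutForm CChar.CharFun CChar.CharKer CChar.CharRep Finset Module
open scoped Classical

section
variable {G A M M' : Type*} [Group G] [AddCommGroup A] [Fintype A] [AddCommGroup M] [Module ℂ M] [AddCommGroup M'] [Module ℂ M']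
  {ρ : Representation ℂ G M} {ρ' : Representation ℂ G M'} {x : AddChar A G}

theorem pj_st {W : Submodule ℂ M} (h : ∀ t, ∀ y ∈ W, ρ (x t) y ∈ W) {y : M} (hy : y ∈ W) (ψ : AddChar A ℂ) : pj ρ x ψ y ∈ W := by
  simp only [pj, LinearMap.smul_apply, LinearMap.sum_apply]
  exact W.smul_mem _ (W.sum_mem fun t _ => W.smul_mem _ (h t y hy))

theorem ind {Y : Type*} [AddCommGroup Y] [Fintype Y] (P : Par Y A) {W K : Submodule ℂ M} (h : ∀ t, ∀ y ∈ W, ρ (x t) y ∈ W)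
    (hK : ∀ b, ∀ y ∈ W, y ≠ 0 → y ∈ Ws ρ x (P.e b) → y ∈ K) : W ≤ K := fun y hy =>
  sum_pj (ρ := ρ) (x := x) P y ▸ K.sum_mem fun b _ => if e : pj ρ x (P.e b) y = 0 then e ▸ K.zero_mem else hK b _ (pj_st h hy _) e (pj_mem _ _ _ _)

theorem map_pj {φ : M →ₗ[ℂ] M'} {y : M} (h : ∀ t, φ (ρ (x t) y) = ρ' (x t) (φ y)) (ψ : AddChar A ℂ) : φ (pj ρ x ψ y) = pj ρ' x ψ (φ y) := by
  simp [pj, LinearMap.sum_apply, h]

theorem map_Ws {φ : M →ₗ[ℂ] M'} {y : M} (h : ∀ t, φ (ρ (x t) y) = ρ' (x t) (φ y)) {ψ : AddChar A ℂ} (hy : y ∈ Ws ρ x ψ) : φ y ∈ Ws ρ' x ψ :=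
  fun t => by rw [← h, hy, map_smul]

theorem tr_Ws {x' : AddChar A G} {g : G} (h : ∀ t, g * x t * g⁻¹ = x' t) {ψ : AddChar A ℂ} {y : M} (hy : y ∈ Ws ρ x ψ) : ρ g y ∈ Ws ρ x' ψ := fun t => by
  rw [← h, ← End.mul_apply, ← map_mul, inv_mul_cancel_right, map_mul, End.mul_apply, hy, map_smul]

theorem Ws_ne {ψ ψ' : AddChar A ℂ} {y : M} (h : y ∈ Ws ρ x ψ) (h' : y ∈ Ws ρ x ψ') (y0 : y ≠ 0) : ψ = ψ' :=
  DFunLike.ext _ _ fun s => smul_left_injective ℂ y0 ((h s).symm.trans (h' s))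
end

variable {F : Type*} [Field F] [Fintype F] {V : Type*} [AddCommGroup V] [Module F V] [FiniteDimensional F V] {f : Form (Kind.symp F) V}

theorem ei_apply {v w : V} {c : F} (h : f.EichlerCond v w c) (u : V) : (f.eichler v w c h).1 u = u + f.B v u • w + (f.B w u + c * f.B v u) • v := by
  simp [eichler_apply]; module

variable (f) in
/-- transvections -/
def T (v : V) : AddChar F f.Isom := ⟨fun c => f.eichler v 0 c (symp_eichlerCond (map_zero _) c), f.eichler_zero _, fun c d => f.isom_ext fun u => by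
  simp [ei_apply, f.symp_B_self]; module⟩

variable (f) in
/-- short root elements -/
noncomputable def X (v w : V) : AddChar F f.Isom := if h : f.B v w = 0 then ⟨fun t => f.eichler v (t • w) 0 (symp_eichlerCond (by simp [h]) 0),
  f.isom_ext fun u => by simp [ei_apply], fun c d => f.isom_ext fun u => by
    simp [ei_apply, f.symp_B_self, h, f.eq_zero_symm h]; module⟩ else 1

theorem T_apply (v : V) (c : F) (u : V) : (T f v c).1 u = u + (c * f.B v u) • v :=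
  (ei_apply (symp_eichlerCond (map_zero _) c) u).trans (by simp)
theorem X_apply {v w : V} (h : f.B v w = 0) (t : F) (u : V) : (X f v w t).1 u = u + (t * f.B v u) • w + (t * f.B w u) • v := by
  rw [X, dif_pos h]; exact (ei_apply (symp_eichlerCond (by simp [h]) 0) u).trans (by simp [smul_smul, mul_comm])

theorem T_conj (g : f.Isom) (v : V) (c : F) : g * T f v c * g⁻¹ = T f (g.1 v) c := f.isom_ext fun u => by
  simp [T_apply, B_isom_left]
theorem X_conj (g : f.Isom) {v w : V} (h : f.B v w = 0) (c : F) : g * X f v w c * g⁻¹ = X f (g.1 v) (g.1 w) c := f.isom_ext fun u => by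
  simp [X_apply h, X_apply (show f.B (g.1 v) (g.1 w) = 0 by simpa), B_isom_left]
theorem T_smul (s : F) (v : V) (c : F) : T f (s • v) c = T f v (s ^ 2 * c) := f.isom_ext fun u => by simp [T_apply, smul_smul]; ring_nf
theorem X_smul {v w : V} (h : f.B v w = 0) (s r t : F) : X f (s • v) (r • w) t = X f v w (s * r * t) := f.isom_ext fun u => by
  simp [X_apply h, X_apply (show f.B (s • v) (r • w) = 0 by simp [h]), smul_smul]; ring_nf
theorem T_add {v w : V} (h : f.B v w = 0) (c : F) : T f (v + w) c = T f v c * T f w c * X f v w c := f.isom_ext fun u => by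
  simp [T_apply, X_apply h, f.symp_B_self, h, f.eq_zero_symm h]; module
theorem ei_eq {v w : V} {c : F} (h : f.EichlerCond v w c) : f.eichler v w c h = T f v c * X f v w 1 := f.isom_ext fun u => by
  simp [T_apply, X_apply h.2, ei_apply, f.symp_B_self, h.2]; module
theorem X_comm {v w w' : V} (h : f.B v w = 0) (h' : f.B v w' = 0) (t s : F) : X f v w t * X f v w' s = X f v w' s * X f v w t * T f v (2 * t * s * f.B w w') :=
  f.isom_ext fun u => by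
    simp [T_apply, X_apply h, X_apply h', f.symp_B_self, h, h', f.eq_zero_symm h, f.eq_zero_symm h', f.symp_symm w w']; module
theorem T_fix {v u : V} (h : f.B v u = 0) (c : F) : (T f v c).1 u = u := by simp [T_apply, h]
theorem X_fix {v w u : V} (h : f.B v w = 0) (h1 : f.B v u = 0) (h2 : f.B w u = 0) (c : F) : (X f v w c).1 u = u := by simp [X_apply h, h1, h2]
theorem T_inj (hf : f.Nondeg) {v : V} (h : v ≠ 0) : Function.Injective (T f v) := fun c d e => by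
  obtain ⟨y, hy⟩ := hf.exists_isHyp (f.symp_Q v) h
  simpa [T_apply, hy.B_xy, smul_left_injective F h |>.eq_iff] using congrArg (fun g : f.Isom => g.1 y) e

theorem gen (hf : f.Nondeg) {v : V} (v0 : v ≠ 0) {K : Subgroup f.Isom} (h : ∀ w, f.B v w = 0 → ∀ c, T f w c ∈ K) {g : f.Isom} (hg : g.1 v = v) : g ∈ K := by
  have a1 : ∀ x w c hc, f.B v x = 0 → f.B v w = 0 → f.eichler x w c hc ∈ K := fun x w c hc h1 h2 => by
    rw [ei_eq, show X f x w 1 = (T f x 1 * T f w 1)⁻¹ * T f (x + w) 1 by rw [T_add hc.2]; group]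
    exact mul_mem (h x h1 c) (mul_mem (inv_mem (mul_mem (h x h1 1) (h w h2 1))) (h _ (by simp [h1, h2]) 1))
  obtain ⟨y, hy⟩ := hf.exists_isHyp (f.symp_Q v) v0
  obtain ⟨k, hk, e⟩ := exists_Qgrp_apply_eq (f.symp_Q v) (v := y) (v' := g.1 y) (by simp [hy.B_xy]) (by rw [← f.B_coe_map g v y, hg]) (by simp [f.symp_Q])
  have a2 : k ∈ K := f.Qgrp_le (fun w c hc => a1 v w c hc (f.symp_B_self v) hc.2) hk
  obtain ⟨l, hl⟩ : k⁻¹ * g ∈ (f.extRight hy.isCompl).range := by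
    rw [range_extRight, mem_fix_span]
    rintro _ (rfl | rfl)
    · rw [isom_mul_apply, hg, f.apply_of_mem_Qgrp (inv_mem hk)]
    · rw [isom_mul_apply, ← e, isom_inv_apply_apply]
  rw [← mul_inv_cancel_left k g, ← hl]
  refine mul_mem a2 ((Eich_le _ (G := K.comap _) fun x w c hc => ?_) ((hy.nondeg_perp hf).symp_Eich_eq_top.ge (Subgroup.mem_top l)))
  rw [Subgroup.mem_comap, extRight_eichler]
  exact a1 _ _ _ _ (f.mem_perp_span_pair.1 x.2).1 (f.mem_perp_span_pair.1 w.2).1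

variable (F) in
/-- additive characters -/
structure Ch where
  P : Par F F
  ψ : AddChar F ℂ
  hP : ∀ c s, P.e c s = ψ (c * s)
  h2 : (2 : F) ≠ 0

namespace Ch
variable (C : Ch F) {M M' : Type*} [AddCommGroup M] [Module ℂ M] [FiniteDimensional ℂ M] [AddCommGroup M'] [Module ℂ M'] [FiniteDimensional ℂ M']
  (ρ : Representation ℂ f.Isom M) (ρ' : Representation ℂ f.Isom M')

/-- weight spaces -/
def Wt (v : V) (a : F) : Submodule ℂ M := Ws ρ (T f v) (C.P.e a)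
/-- weight spaces -/
noncomputable def Xt (v w : V) (b : F) : Submodule ℂ M := Ws ρ (X f v w) (C.P.e b)
/-- rank at most one -/
def Rk : Prop := ∀ v w a d b y, f.B v w = 0 → y ≠ 0 → y ∈ C.Wt ρ v a → y ∈ C.Wt ρ w d → y ∈ C.Xt ρ v w b → b ^ 2 = 4 * a * d

variable {C ρ ρ'}
theorem mem_Wt {v : V} {a : F} {y : M} : y ∈ C.Wt ρ v a ↔ ∀ t, ρ (T f v t) y = C.ψ (a * t) • y := forall_congr' fun t => by rw [C.hP]
theorem mem_Xt {v w : V} {a : F} {y : M} : y ∈ C.Xt ρ v w a ↔ ∀ t, ρ (X f v w t) y = C.ψ (a * t) • y := forall_congr' fun t => by rw [C.hP]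
theorem Wt_ne {v : V} {a b : F} {y : M} (h : y ∈ C.Wt ρ v a) (h' : y ∈ C.Wt ρ v b) (y0 : y ≠ 0) : a = b := C.P.inj (Ws_ne h h' y0)
theorem Xt_ne {v w : V} {a b : F} {y : M} (h : y ∈ C.Xt ρ v w a) (h' : y ∈ C.Xt ρ v w b) (y0 : y ≠ 0) : a = b := C.P.inj (Ws_ne h h' y0)
theorem tr (g : f.Isom) {v : V} {a : F} {y : M} (h : y ∈ C.Wt ρ v a) : ρ g y ∈ C.Wt ρ (g.1 v) a := tr_Ws (T_conj g v) h
theorem tr' {g : f.Isom} {v : V} (e : g.1 v = v) {a : F} {y : M} (h : y ∈ C.Wt ρ v a) : ρ g y ∈ C.Wt ρ v a := e ▸ tr g h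
theorem trX (g : f.Isom) {v w : V} (e : f.B v w = 0) {a : F} {y : M} (h : y ∈ C.Xt ρ v w a) : ρ g y ∈ C.Xt ρ (g.1 v) (g.1 w) a := tr_Ws (X_conj g e) h
theorem trX' {g : f.Isom} {v w : V} (e : f.B v w = 0) (e1 : g.1 v = v) (e2 : g.1 w = w) {a : F} {y : M} (h : y ∈ C.Xt ρ v w a) : ρ g y ∈ C.Xt ρ v w a := by
  simpa only [e1, e2] using trX g e h
theorem Wt_smul (s : F) {v : V} {a b : F} {y : M} (h : y ∈ C.Wt ρ v a) (e : b = s ^ 2 * a := by ring) : y ∈ C.Wt ρ (s • v) b := mem_Wt.2 fun t => by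
  rw [T_smul, mem_Wt.1 h, e]; ring_nf
theorem Xt_smul (s r : F) {v w : V} (hw : f.B v w = 0) {a b : F} {y : M} (h : y ∈ C.Xt ρ v w a) (e : b = s * r * a := by ring) : y ∈ C.Xt ρ (s • v) (r • w) b :=
  mem_Xt.2 fun t => by rw [X_smul hw, mem_Xt.1 h, e]; ring_nf
theorem Wt_add {v w : V} (hw : f.B v w = 0) {a d b e : F} {y : M} (h1 : y ∈ C.Wt ρ v a) (h2 : y ∈ C.Wt ρ w d) (h3 : y ∈ C.Xt ρ v w b) (he : e = a + d + b := by ring) :
    y ∈ C.Wt ρ (v + w) e := mem_Wt.2 fun t => by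
  simp only [T_add hw, map_mul, End.mul_apply, mem_Wt.1 h1, mem_Wt.1 h2, mem_Xt.1 h3, map_smul, smul_smul, ← AddChar.map_add_eq_mul, he]; ring_nf
theorem Xt_of {v w : V} (hw : f.B v w = 0) {a d b e : F} {y : M} (h1 : y ∈ C.Wt ρ v a) (h2 : y ∈ C.Wt ρ w d) (h3 : y ∈ C.Wt ρ (v + w) e) (he : b = e - a - d := by ring) :
    y ∈ C.Xt ρ v w b := mem_Xt.2 fun t => by
  rw [show X f v w t = T f w (-t) * T f v (-t) * T f (v + w) t by rw [T_add hw, AddChar.map_neg_eq_inv, AddChar.map_neg_eq_inv]; group]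
  simp only [map_mul, End.mul_apply, mem_Wt.1 h1, mem_Wt.1 h2, mem_Wt.1 h3, map_smul, smul_smul, ← AddChar.map_add_eq_mul, he]; ring_nf
theorem Xt_sh {v w w' : V} (h : f.B v w = 0) (h' : f.B v w' = 0) (s : F) {a b : F} {y : M} (h1 : y ∈ C.Wt ρ v a) (h2 : y ∈ C.Xt ρ v w b) :
    ρ (X f v w' s) y ∈ C.Xt ρ v w (b + 2 * a * s * f.B w w') := mem_Xt.2 fun t => by
  rw [← End.mul_apply, ← map_mul, X_comm h h']
  simp only [map_mul, End.mul_apply, mem_Wt.1 h1, mem_Xt.1 h2, map_smul, smul_smul, ← AddChar.map_add_eq_mul]; ring_nf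

theorem h4 (C : Ch F) {a : F} (a0 : a ≠ 0) : 4 * a ≠ 0 := by simpa [show (4 : F) = 2 * 2 by norm_num, C.h2]

theorem Rk.wt (hR : C.Rk ρ) {v w : V} (hw : f.B v w = 0) {a b : F} (a0 : a ≠ 0) : C.Wt ρ v a ⊓ C.Xt ρ v w b ≤ C.Wt ρ w (b ^ 2 / (4 * a)) :=
  have e := T_fix (f.eq_zero_symm hw)
  ind C.P (x := T f w) (fun t _ hy => ⟨tr' (e t) hy.1, trX' hw (e t) (T_fix (f.symp_B_self w) t) hy.2⟩) fun d y hy y0 h => by
    rwa [hR v w a d b y hw y0 hy.1 h hy.2, mul_div_cancel_left₀ _ (C.h4 a0)]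

theorem stX {v w : V} (hw : f.B v w = 0) (a d t : F) : ∀ y ∈ C.Wt ρ v a ⊓ C.Wt ρ w d, ρ (X f v w t) y ∈ C.Wt ρ v a ⊓ C.Wt ρ w d := fun _ hy =>
  ⟨tr' (X_fix hw (f.symp_B_self v) (f.eq_zero_symm hw) t) hy.1, tr' (X_fix hw hw (f.symp_B_self w) t) hy.2⟩

theorem Rk.nofix (hR : C.Rk ρ) {v z z' : V} (h : f.B v z = 0) (h' : f.B v z' = 0) (hz : f.B z z' ≠ 0) {a : F} (a0 : a ≠ 0) {y : M} (hy : y ∈ C.Wt ρ v a)
    (h1 : y ∈ C.Wt ρ z 0) (h2 : y ∈ C.Wt ρ z' 0) : y = 0 := by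
  have k : ∀ z, f.B v z = 0 → C.Wt ρ v a ⊓ C.Wt ρ z 0 ≤ C.Xt ρ v z 0 := fun z h => ind C.P (stX h a 0) fun b y hy y0 hb => by
    rwa [← pow_eq_zero_iff two_ne_zero |>.1 ((hR v z a 0 b y h y0 hy.1 hy.2 hb).trans (mul_zero _))]
  have := Xt_sh h h' 1 hy (k z h ⟨hy, h1⟩)
  rw [mem_Xt.1 (k z' h' ⟨hy, h2⟩), zero_mul, AddChar.map_zero_eq_one, one_smul] at this
  exact by_contra fun y0 => by simpa [C.h2, a0, hz] using Xt_ne this (k z h ⟨hy, h1⟩) y0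

theorem Rk.eqv (hf : f.Nondeg) (hR : C.Rk ρ) (hR' : C.Rk ρ') {v : V} (v0 : v ≠ 0) {a : F} (a0 : a ≠ 0) {φ : M →ₗ[ℂ] M'} (h1 : ∀ y ∈ C.Wt ρ v a, φ y ∈ C.Wt ρ' v a)
    (h2 : ∀ w, f.B v w = 0 → ∀ t, ∀ y ∈ C.Wt ρ v a, φ (ρ (X f v w t) y) = ρ' (X f v w t) (φ y)) {g : f.Isom} (hg : g.1 v = v) :
    ∀ y ∈ C.Wt ρ v a, φ (ρ g y) = ρ' g (φ y) := by
  let K : Subgroup f.Isom := ⟨⟨⟨{g | g.1 v = v ∧ ∀ y ∈ C.Wt ρ v a, φ (ρ g y) = ρ' g (φ y)}, fun {g k} hg hk => ⟨by rw [isom_mul_apply, hk.1, hg.1], fun y hy => by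
    simp [hg.2 _ (tr' hk.1 hy), hk.2 y hy]⟩⟩, rfl, by simp⟩, fun {g} hg => have e : g⁻¹.1 v = v := by rw [← hg.1, isom_inv_apply_apply, hg.1]
      ⟨e, fun y hy => by simpa using (congrArg (ρ' g⁻¹) (hg.2 _ (tr' e hy))).symm⟩⟩
  refine (gen hf v0 (K := K) (fun w hw c => ⟨T_fix (f.eq_zero_symm hw) c, ?_⟩) hg).2
  refine ind C.P (x := X f v w) (K := LinearMap.eqLocus (φ ∘ₗ ρ (T f w c)) (ρ' (T f w c) ∘ₗ φ))
    (fun t _ hy => tr' (X_fix hw (f.symp_B_self v) (f.eq_zero_symm hw) t) hy) fun b y hy _ hb => ?_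
  change φ (ρ _ y) = ρ' _ (φ y)
  rw [mem_Wt.1 (hR.wt hw a0 ⟨hy, hb⟩), mem_Wt.1 (hR'.wt hw a0 ⟨h1 y hy, map_Ws (fun t => h2 w hw t y hy) hb⟩), map_smul]

end Ch

end CA.SpW
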