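/-
Representations of rank one of symplectic groups: uniqueness.
-/
import Cfsg.Agent.Lib.Lin.SpW1

set_option autoImplicit false
set_option linter.unusedSectionVars false

namespace CA.SpW

open Cfsg CA.Wt CA.DegO CA.DegT CA.CForm CA.CForm.Form CA.AutForm CChar.CharFun CChar.CharKer CChar.CharRep Finset Module
open scoped Classical

variable {F : Type*} [Field F] [Fintype F] {V : Type*} [AddCommGroup V] [Module F V] [FiniteDimensional F V] {f : Form (Kind.symp F) V}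

theorem X_mem {v w : V} (h : f.B v w = 0) (t : F) : X f v w t ∈ f.Qgrp v := by
  rw [X, dif_pos h]; exact f.eichler_mem_Qgrp _ _ _ (symp_eichlerCond (by simp [h]) 0)

theorem mem_Q {v : V} {g : f.Isom} (h : g ∈ f.Qgrp v) : ∃ c w, f.B v w = 0 ∧ g = T f v c * X f v w 1 := by
  obtain ⟨w, c, hc, rfl⟩ := (mem_Qgrp (f.symp_Q v)).1 h
  exact ⟨c, w, hc.2, ei_eq hc⟩

namespace Ch
variable {C : Ch F} {M M' : Type*} [AddCommGroup M] [Module ℂ M] [FiniteDimensional ℂ M] [AddCommGroup M'] [Module ℂ M'] [FiniteDimensional ℂ M']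
  {ρ : Representation ℂ f.Isom M} {ρ' : Representation ℂ f.Isom M'}

theorem exists_ne (C : Ch F) : ∃ s, C.ψ s ≠ 1 := not_forall.1 fun h => one_ne_zero (C.P.inj (DFunLike.ext _ _ fun s => by simp [C.hP, h]) : (1 : F) = 0)

theorem van (hf : f.Nondeg) {χ : f.Isom → ℂ} (hχ : IsClassFunction _ χ) {v : V} {a : F} (a0 : a ≠ 0) {g : f.Isom} (hg : g ∈ f.Qgrp v) (h : ∀ c, g ≠ T f v c) :
    wt χ (T f v) (C.P.e a) g = 0 := by
  obtain ⟨c, w, hw, rfl⟩ := mem_Q hg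
  obtain ⟨s, hs⟩ := C.exists_ne
  obtain ⟨w', h1, h2⟩ := hf.exists_perp_B_eq' (W := F ∙ v) (u := w) (fun e => by
    obtain ⟨r, rfl⟩ := Submodule.mem_span_singleton.1 e
    exact h (c + 2 * r) (f.isom_ext fun u => by simp [T_apply, X_apply hw, f.symp_B_self]; module)) (s / (2 * a))
  rw [mem_perp_span_singleton] at h1
  have k : ∀ t, (X f v w' 1)⁻¹ * T f v t * (X f v w' 1)⁻¹⁻¹ = T f v t := fun t => by rw [T_conj, f.apply_of_mem_Qgrp (inv_mem (X_mem h1 1))]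
  have := wt_conj hχ (ψ := C.P.e a) (.refl F) k (fun _ => rfl) (T f v c * X f v w 1)
  rw [inv_inv, mul_assoc, mul_assoc, X_comm hw h1, show ∀ x t y z : f.Isom, x⁻¹ * (t * (x * y * z)) = x⁻¹ * t * x⁻¹⁻¹ * y * z from fun _ _ _ _ => by group, k, wt_mul, h2, C.hP,
    show a * (2 * 1 * 1 * (s / (2 * a))) = s by field_simp [C.h2]] at this
  exact (mul_left_eq_self₀.1 this).resolve_left hs

theorem exists_phi (hf : f.Nondeg) {v : V} (v0 : v ≠ 0) {a : F} (a0 : a ≠ 0) (h : C.Wt ρ v a ≠ ⊥) (h' : C.Wt ρ' v a ≠ ⊥) :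
    ∃ φ : M →ₗ[ℂ] M', (∀ y ∈ C.Wt ρ v a, φ y ∈ C.Wt ρ' v a) ∧ (∀ w, f.B v w = 0 → ∀ t, ∀ y ∈ C.Wt ρ v a, φ (ρ (X f v w t) y) = ρ' (X f v w t) (φ y)) ∧
      ∃ y ∈ C.Wt ρ v a, φ y ≠ 0 := by
  have := Fintype.ofFinite (f.Qgrp v)
  have : Invertible (Nat.card (f.Qgrp v) : ℂ) := invertibleOfNonzero CChar.CharRep.card_ne_zero
  have hS : ∀ s : f.Qgrp v, (f.Qgrp v).subtype s ∈ stab (T f v) (T_inj hf v0) (C.P.e a) := fun s t => ⟨t, by rw [T_conj]; congr 2; exact f.apply_of_mem_Qgrp s.2, rfl⟩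
  obtain ⟨σ, h1, h2⟩ := exists_sub (ρ := ρ) (T_inj hf v0) _ hS
  obtain ⟨σ', h3, h4⟩ := exists_sub (ρ := ρ') (T_inj hf v0) _ hS
  have a1 := Representation.card_inv_mul_sum_char_mul_char_eq_finrank σ σ'
  rw [h2, h4, sum_congr rfl (g := fun g : f.Qgrp v => if ∃ c, g = T f v c then (finrank ℂ (C.Wt ρ' v a) * finrank ℂ (C.Wt ρ v a) : ℂ) else 0) fun g _ => ?_,
    ← sum_filter, sum_const, nsmul_eq_mul] at a1
  · obtain ⟨ι, hι⟩ : ∃ ι : Representation.IntertwiningMap σ σ', ι ≠ 0 := by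
      rw [← nontrivial_iff_exists_ne, ← finrank_pos_iff (R := ℂ), pos_iff_ne_zero, ← Nat.cast_ne_zero (R := ℂ), ← a1]
      refine mul_ne_zero (inv_ne_zero CChar.CharRep.card_ne_zero) (mul_ne_zero (Nat.cast_ne_zero.2 (card_ne_zero.2 ⟨1, mem_filter.2 ⟨mem_univ _, 0, by simp⟩⟩)) (by simp [h, h']))
    obtain ⟨y, hy⟩ := not_forall.1 (mt (fun e => Representation.IntertwiningMap.ext (LinearMap.ext e)) hι)
    have k : ∀ y (hy : y ∈ C.Wt ρ v a), ((Ws ρ' _ _).subtype ∘ₗ ι.toLinearMap ∘ₗ (pj ρ (T f v) (C.P.e a)).codRestrict _ (pj_mem _ _ _)) y = ι ⟨y, hy⟩ := fun y hy =>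
      congrArg (fun y => (ι y : M')) (Subtype.ext (pj_of_mem hy))
    refine ⟨_, fun y hy => k y hy ▸ (ι _).2, fun w hw t y hy => ?_, y, y.2, fun e => hy (Subtype.ext ((k y y.2).symm.trans e))⟩
    rw [k y hy, k _ (tr' (f.apply_of_mem_Qgrp (X_mem hw t)) hy), ← show _ = ρ' (X f v w t) _ from h3 ⟨_, X_mem hw t⟩ _, ← ι.isIntertwining]
    exact congrArg (fun y => (ι y : M')) (Subtype.ext (h1 ⟨_, X_mem hw t⟩ ⟨y, hy⟩).symm)
  beta_reduce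
  split_ifs with e
  · obtain ⟨c, e⟩ := e
    rw [Wt, Wt, finrank_Ws (T_inj hf v0), finrank_Ws (T_inj hf v0), Subgroup.subtype_apply, Subgroup.subtype_apply, Subgroup.coe_inv, e, ← AddChar.map_neg_eq_inv,
      ← one_mul (T f v c), ← one_mul (T f v (-c)), wt_mul, wt_mul, mul_mul_mul_comm, ← AddChar.map_add_eq_mul]
    simp
  · rw [Subgroup.subtype_apply, van hf (char_classFun (isCharacter_character ρ')) a0 g.2 (not_exists.1 e), zero_mul]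

variable (C ρ ρ') in
/-- families of local intertwiners -/
structure Fam (a : F) (Φ : V → M →ₗ[ℂ] M') : Prop where
  hf : f.Nondeg
  a0 : a ≠ 0
  hR : C.Rk ρ
  hR' : C.Rk ρ'
  mem : ∀ u ≠ 0, ∀ y ∈ C.Wt ρ u a, Φ u y ∈ C.Wt ρ' u a
  eqv : ∀ g : f.Isom, ∀ u ≠ 0, ∀ y ∈ C.Wt ρ u a, Φ (g.1 u) (ρ g y) = ρ' g (Φ u y)
  neg : ∀ u ≠ 0, ∀ y ∈ C.Wt ρ u a, Φ (-u) y = Φ u y

theorem exists_fam (hf : f.Nondeg) (hR : C.Rk ρ) (hR' : C.Rk ρ') {v : V} (v0 : v ≠ 0) {a : F} (a0 : a ≠ 0) (h : C.Wt ρ v a ≠ ⊥) (h' : C.Wt ρ' v a ≠ ⊥)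
    {n : f.Isom} (hn : ∀ u, n.1 u = -u) {ε : ℂ} (e : ρ n = ε • 1) (e' : ρ' n = ε • 1) : ∃ Φ, C.Fam ρ ρ' a Φ ∧ ∃ y ∈ C.Wt ρ v a, Φ v y ≠ 0 := by
  obtain ⟨φ, h1, h2, y, hy, h3⟩ := exists_phi hf v0 a0 h h'
  choose! g hg using fun u (u0 : u ≠ 0) => hf.witt_one v0 u0 (by simp [f.symp_Q])
  have hi : ∀ u ≠ 0, (g u)⁻¹.1 u = v := fun u u0 => (congrArg _ (hg u u0).symm).trans (f.isom_inv_apply_apply _ _)
  have k : ∀ u ≠ 0, ∀ y ∈ C.Wt ρ u a, ρ (g u)⁻¹ y ∈ C.Wt ρ v a := fun u u0 y hy => hi u u0 ▸ tr (g u)⁻¹ hy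
  have l : ∀ k : f.Isom, ∀ u ≠ 0, ∀ y ∈ C.Wt ρ u a, (ρ' (g (k.1 u)) ∘ₗ φ ∘ₗ ρ (g (k.1 u))⁻¹) (ρ k y) = ρ' k ((ρ' (g u) ∘ₗ φ ∘ₗ ρ (g u)⁻¹) y) := fun s u u0 y hy => by
    have := hR.eqv hf hR' v0 a0 h1 h2 (g := (g (s.1 u))⁻¹ * s * g u) (by rw [isom_mul_apply, isom_mul_apply, hg u u0, hi _ (by simpa)]) _ (k u u0 y hy)
    simpa using congrArg (ρ' (g (s.1 u))) this
  refine ⟨fun u => ρ' (g u) ∘ₗ φ ∘ₗ ρ (g u)⁻¹, ⟨hf, a0, hR, hR', fun u u0 y hy => by simpa [hg u u0] using tr (g u) (h1 _ (k u u0 y hy)), l, fun u u0 y hy => ?_⟩,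
    ρ (g v) y, tr' (hg v v0) hy, fun e => h3 (by simpa using congrArg (ρ' (g v)⁻¹) e)⟩
  by_cases e0 : ε = 0
  · rw [show y = 0 by simpa [e0] using congrArg (ρ n⁻¹) (LinearMap.congr_fun e y), map_zero, map_zero]
  have := l n u u0 y hy
  rw [hn, e, e', LinearMap.smul_apply, LinearMap.smul_apply, map_smul] at this
  exact smul_right_injective _ e0 this

namespace Fam
variable {a : F} {Φ : V → M →ₗ[ℂ] M'} (h : C.Fam ρ ρ' a Φ)
include h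

theorem eqv' {g : f.Isom} {u : V} (u0 : u ≠ 0) (e : g.1 u = u) {y : M} (hy : y ∈ C.Wt ρ u a) : Φ u (ρ g y) = ρ' g (Φ u y) := by simpa only [e] using h.eqv g u u0 y hy

theorem perp1 {z x : V} (hi : LinearIndependent F ![z, x]) (hx : f.B z x = 0) {y : M} (hy : y ∈ C.Wt ρ z a ⊓ C.Xt ρ z x 0) : Φ (z + x) y = Φ (z - x) y := by
  have := Fintype.ofFinite (f.Qgrp z)
  have z0 : z ≠ 0 := hi.ne_zero 0
  have u0 : z + x ≠ 0 := fun e => by simpa using (LinearIndependent.pair_iff.1 hi 1 1 (by simpa)).1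
  have a1 : ∀ y ∈ C.Wt ρ z a ⊓ C.Xt ρ z x 0, y ∈ C.Wt ρ (z + x) a := fun y hy => Wt_add hx hy.1 (h.hR.wt hx h.a0 hy) hy.2
  let ψ := ∑ k : f.Qgrp z, ρ' k⁻¹ ∘ₗ Φ (z + x) ∘ₗ pj ρ (X f z x) (C.P.e 0) ∘ₗ ρ k
  have a2 : ∀ g : f.Isom, g.1 z = z → ∀ y ∈ C.Wt ρ z a, ψ (ρ g y) = ρ' g (ψ y) := fun g => h.hR.eqv h.hf h.hR' z0 h.a0 (fun y hy => by
    simp only [ψ, LinearMap.sum_apply]
    refine Submodule.sum_mem _ fun k _ => tr' (f.apply_of_mem_Qgrp (inv_mem k.2)) ?_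
    have := pj_st (fun t _ hy => tr' (f.apply_of_mem_Qgrp (X_mem hx t)) hy) (tr' (f.apply_of_mem_Qgrp k.2) hy) (C.P.e 0)
    exact map_Ws (fun t => h.eqv' u0 (T_fix (by simp [hx, f.symp_B_self]) t) (a1 _ ⟨this, pj_mem _ _ _ _⟩)) this) fun w hw t y _ => by
      simp only [ψ, LinearMap.sum_apply, map_sum]
      exact Fintype.sum_equiv (Equiv.mulRight ⟨_, X_mem hw t⟩) _ _ fun k => by simp
  have a3 : ∀ y ∈ C.Wt ρ z a ⊓ C.Xt ρ z x 0, ψ y = (#{k : f.Qgrp z | k.1.1 x = x} : ℂ) • Φ (z + x) y := fun y hy => by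
    rw [Nat.cast_smul_eq_nsmul, ← sum_const, sum_filter, LinearMap.sum_apply]
    refine sum_congr rfl fun ⟨k, hk⟩ _ => ?_
    have e1 := f.apply_of_mem_Qgrp hk
    change ρ' k⁻¹ (Φ _ (pj _ _ _ (ρ k y))) = _
    split_ifs with e
    · rw [pj_of_mem (trX' hx e1 e hy.2), h.eqv' u0 (by rw [map_add, e1, e]) (a1 y hy), ρ'.inv_self_apply]
    obtain ⟨c, w, hw, rfl⟩ := mem_Q hk
    have := trX' hx (T_fix (f.symp_B_self z) c) (T_fix hx c) (Xt_sh hx hw 1 hy.1 hy.2)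
    rw [show pj ρ (X f z x) (C.P.e 0) (ρ _ y) = 0 from by_contra fun e0 => e ?_, map_zero, map_zero]
    have := Xt_ne (pj_mem _ _ _ _) (pj_st (fun t y hy s => by rw [← End.mul_apply, ← map_mul, ← AddChar.map_add_eq_mul, add_comm, AddChar.map_add_eq_mul, map_mul,
      End.mul_apply, hy, map_smul]) this _) (by simpa using e0)
    rw [isom_mul_apply, X_fix hw hx (f.eq_zero_symm (by simpa [C.h2, h.a0] using this)), T_fix hx]
  obtain ⟨r, r1, r2⟩ := h.hf.witt_pair hi (w := z) (w' := -x) (LinearIndependent.pair_neg_right_iff.2 hi) rfl (by simp) (by simp [hx])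
  have k : ∀ r : f.Isom, r.1 z = z → r.1 x = -x → ∀ y ∈ C.Wt ρ z a ⊓ C.Xt ρ z x 0, ρ r y ∈ C.Wt ρ z a ⊓ C.Xt ρ z x 0 := fun r r1 r2 y hy =>
    ⟨tr' r1 hy.1, by simpa [r1, r2] using Xt_smul 1 (-1) (by simpa) (trX r hx hy.2) (b := 0)⟩
  have b1 := k r⁻¹ (by rw [← r1, isom_inv_apply_apply, r1]) (by rw [← neg_eq_iff_eq_neg, ← map_neg, ← r2, isom_inv_apply_apply]) y hy
  have b2 := a2 r r1 _ b1.1
  rw [a3 _ b1, map_smul, ← h.eqv r _ u0 _ (a1 _ b1), ρ.self_inv_apply, a3 y hy, map_add, r1, r2, ← sub_eq_add_neg] at b2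
  exact smul_right_injective _ (Nat.cast_ne_zero.2 (card_ne_zero.2 ⟨1, by simp⟩)) b2

theorem perp2 {u v : V} (hi : LinearIndependent F ![u, v]) (hv : f.B u v = 0) {y : M} (h1 : y ∈ C.Wt ρ u a) (h2 : y ∈ C.Wt ρ v a) (h3 : y ∈ C.Xt ρ u v (2 * a)) :
    Φ u y = Φ v y := by
  have e := C.h2
  have e1 : (2⁻¹ : F) • (u + v) + (2⁻¹ : F) • (u + (-1 : F) • v) = u := by match_scalars <;> field_simp <;> ring
  have e2 : (2⁻¹ : F) • (u + v) - (2⁻¹ : F) • (u + (-1 : F) • v) = v := by match_scalars <;> field_simp <;> ring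
  have a1 : f.B ((2⁻¹ : F) • (u + v)) ((2⁻¹ : F) • (u + (-1 : F) • v)) = 0 := by simp [hv, f.eq_zero_symm hv, f.symp_B_self]
  have a2 : y ∈ C.Wt ρ ((2⁻¹ : F) • (u + v)) a := Wt_smul _ (Wt_add hv h1 h2 h3 rfl) (by field_simp; ring)
  have := h.perp1 (LinearIndependent.pair_iff.2 fun s t e => ?_) a1 ⟨a2, Xt_of a1 a2 (Wt_smul _ (Wt_add (e := 0) (by simp [hv]) h1 (Wt_smul (-1) h2 rfl)
    (by simpa using Xt_smul 1 (-1) hv h3 rfl)) (b := 0)) (e1.symm ▸ h1)⟩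
  · rwa [e1, e2] at this
  obtain ⟨b1, b2⟩ := LinearIndependent.pair_iff.1 hi (2⁻¹ * (s + t)) (2⁻¹ * (s - t)) (by rw [← e]; module)
  simp only [mul_eq_zero, inv_eq_zero, C.h2, false_or] at b1 b2
  exact ⟨mul_left_cancel₀ C.h2 (by linear_combination b1 + b2), mul_left_cancel₀ C.h2 (by linear_combination b1 - b2)⟩

theorem perp {u v : V} (u0 : u ≠ 0) (v0 : v ≠ 0) (hv : f.B u v = 0) {y : M} (h1 : y ∈ C.Wt ρ u a) (h2 : y ∈ C.Wt ρ v a) : Φ u y = Φ v y := by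
  by_cases hi : LinearIndependent F ![u, v]
  · refine ind C.P (K := LinearMap.eqLocus (Φ u) (Φ v)) (stX hv a a) (fun b y hy y0 hb => ?_) ⟨h1, h2⟩
    rcases sq_eq_sq_iff_eq_or_eq_neg.1 ((h.hR u v a a b y hv y0 hy.1 hy.2 hb).trans (show _ = (2 * a) ^ 2 by ring)) with rfl | rfl
    · exact h.perp2 hi hv hy.1 hy.2 hb
    · exact (h.perp2 (LinearIndependent.pair_neg_right_iff.2 hi) (by simpa) hy.1 (by simpa using Wt_smul (-1) hy.2 rfl)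
        (by simpa using Xt_smul 1 (-1) hv hb rfl)).trans (h.neg v v0 y hy.2)
  obtain ⟨s, rfl⟩ : ∃ s : F, s • u = v := by simpa [LinearIndependent.pair_iff' u0] using hi
  by_cases y0 : y = 0
  · simp [y0]
  rcases sq_eq_one_iff.1 (mul_left_eq_self₀.1 (Wt_ne (Wt_smul s h1 rfl) h2 y0) |>.resolve_right h.a0) with rfl | rfl
  · simp
  · simpa using (h.neg u u0 y h1).symm

theorem key0 {u v : V} (u0 : u ≠ 0) (v0 : v ≠ 0) (hv : f.B u v = 0) {y : M} (hy : y ∈ C.Wt ρ u a) : pj ρ' (T f v) (C.P.e a) (Φ u y) = Φ v (pj ρ (T f v) (C.P.e a) y) :=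
  have e := T_fix (f.eq_zero_symm hv)
  (map_pj (fun t => h.eqv' u0 (e t) hy) _).symm.trans (h.perp u0 v0 hv (pj_st (fun t _ hy => tr' (e t) hy) hy _) (pj_mem _ _ _ _))

theorem key (h4 : 2 < finrank F V) {u v : V} (u0 : u ≠ 0) (v0 : v ≠ 0) {y : M} (hy : y ∈ C.Wt ρ u a) : pj ρ' (T f v) (C.P.e a) (Φ u y) = Φ v (pj ρ (T f v) (C.P.e a) y) := by
  by_cases hv : f.B u v = 0
  · exact h.key0 u0 v0 hv hy
  let δ := pj ρ' (T f v) (C.P.e a) ∘ₗ Φ u - Φ v ∘ₗ pj ρ (T f v) (C.P.e a)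
  have a1 : ∀ z ≠ 0, f.B u z = 0 → f.B v z = 0 → δ y ∈ C.Wt ρ' z 0 := fun z z0 h1 h2 => by
    have e1 := T_fix (f.eq_zero_symm h1)
    have e2 := T_fix (f.eq_zero_symm h2)
    refine ind C.P (x := T f z) (K := (C.Wt ρ' z 0).comap δ) (fun t _ hy => tr' (e1 t) hy) (fun d y hy y0 hd => ?_) hy
    by_cases d0 : d = 0
    · have k : ∀ t, ∀ s, Commute (T f z t) (T f v s) := fun t s => mul_inv_eq_iff_eq_mul.1 (by rw [T_conj, e2])
      refine map_Ws (φ := δ) (fun t => ?_) (d0 ▸ hd)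
      simp only [δ, LinearMap.sub_apply, LinearMap.comp_apply, map_sub, h.eqv' u0 (e1 t) hy]
      rw [← h.eqv' v0 (e2 t) (pj_mem _ _ _ _), map_pj (φ := ρ (T f z t)) (ρ' := ρ) fun s => by rw [← End.mul_apply, ← map_mul, k, map_mul, End.mul_apply],
        map_pj (φ := ρ' (T f z t)) (ρ' := ρ') fun s => by rw [← End.mul_apply, ← map_mul, k, map_mul, End.mul_apply]]
    obtain ⟨b, hb⟩ : ∃ b, b ^ 2 = 4 * a * d := by
      by_contra! e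
      exact y0 (ind C.P (K := ⊥) (stX h1 a d) (fun b y hy y0 hb => (e b (h.hR u z a d b y h1 y0 hy.1 hy.2 hb)).elim) ⟨hy, hd⟩)
    have b0 : b ≠ 0 := by rintro rfl; exact mul_ne_zero (C.h4 h.a0) d0 (by simpa using hb.symm)
    have z1 : (2 * a / b) • z ≠ 0 := by simp [C.h2, h.a0, b0, z0]
    have a2 := Wt_smul (2 * a / b) hd (b := a) (by field_simp; rw [hb]; ring)
    rw [Submodule.mem_comap, show δ y = 0 from sub_eq_zero.2 ?_]
    · exact zero_mem _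
    rw [LinearMap.comp_apply, h.perp u0 z1 (by simp [h1]) hy a2]
    exact h.key0 z1 v0 (by simp [f.eq_zero_symm h2]) a2
  have hy' : f.IsHyp u ((f.B u v)⁻¹ • v) := ⟨f.symp_Q _, f.symp_Q _, by simp [hv]⟩
  have := hy'.finrank_perp
  have : Nontrivial (f.perp (Submodule.span F {u, (f.B u v)⁻¹ • v})) := (finrank_pos_iff (R := F)).1 (by omega)
  obtain ⟨z, z0⟩ := _root_.exists_ne (0 : f.perp (Submodule.span F {u, (f.B u v)⁻¹ • v}))
  obtain ⟨z', hz⟩ := (hy'.nondeg_perp h.hf).exists_B_ne_zero z0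
  have k : ∀ z : f.perp (Submodule.span F {u, (f.B u v)⁻¹ • v}), f.B u z = 0 ∧ f.B v z = 0 := fun z => by simpa [hv] using f.mem_perp_span_pair.1 z.2
  exact sub_eq_zero.1 (h.hR'.nofix (k z).2 (k z').2 hz h.a0 (sub_mem (pj_mem _ _ _ _) (h.mem v v0 _ (pj_mem _ _ _ _))) (a1 z (by simpa) (k z).1 (k z).2)
    (a1 z' (by rintro e; simp [e] at hz) (k z').1 (k z').2))

end Fam

theorem exists_c [Fintype f.Isom] [ρ'.IsIrreducible] {v : V} {a : F} (h' : C.Wt ρ' v a ≠ ⊥) :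
    ∃ c : ℂ, c ≠ 0 ∧ ∑ g, ρ' g⁻¹ * pj ρ' (T f v) (C.P.e a) * ρ' g = c • 1 := by
  obtain ⟨c, hc⟩ := exists_eq_smul_of_commute ρ' (∑ g, ρ' g⁻¹ * pj ρ' (T f v) (C.P.e a) * ρ' g) fun k => by
    rw [sum_mul, mul_sum]; exact Fintype.sum_equiv (Equiv.mulRight k) _ _ fun g => by
      simp only [Equiv.coe_mulRight, ← mul_assoc, ← map_mul, mul_inv_rev, mul_inv_cancel, one_mul]; rw [map_mul ρ' g k, mul_assoc]
  refine ⟨c, ?_, hc⟩
  rintro rfl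
  have := congrArg (LinearMap.trace ℂ _) hc
  simp only [map_sum, LinearMap.trace_mul_cycle, ← map_mul, mul_inv_cancel, map_one, one_mul] at this
  rw [(show LinearMap.IsProj (C.Wt ρ' v a) _ from ⟨pj_mem _ _ _, fun _ => pj_of_mem⟩).trace] at this
  simp [h'] at this

theorem uniq (hf : f.Nondeg) (h4 : 2 < finrank F V) [ρ.IsIrreducible] [ρ'.IsIrreducible] (hR : C.Rk ρ) (hR' : C.Rk ρ') {v : V} (v0 : v ≠ 0) {a : F} (a0 : a ≠ 0)
    (h : C.Wt ρ v a ≠ ⊥) (h' : C.Wt ρ' v a ≠ ⊥) {n : f.Isom} (hn : ∀ u, n.1 u = -u) {ε : ℂ} (e : ρ n = ε • 1) (e' : ρ' n = ε • 1) : ρ.character = ρ'.character := by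
  have := Fintype.ofFinite f.Isom
  obtain ⟨Φ, H, y, hy, y0⟩ := exists_fam hf hR hR' v0 a0 h h' hn e e'
  obtain ⟨c, c0, hc⟩ := exists_c h'
  let ι := (∑ g, ρ' g⁻¹ ∘ₗ Φ v ∘ₗ pj ρ (T f v) (C.P.e a) ∘ₗ ρ g).intertwiningMap_of_isIntertwiningMap ρ ρ' fun k y => by
    simp only [LinearMap.sum_apply, map_sum]
    exact Fintype.sum_equiv (Equiv.mulRight k) _ _ fun g => by simp
  refine Representation.char_iso (ι.ofBijective ((Representation.IsIrreducible.bijective_or_eq_zero ι).resolve_right fun e0 => y0 (smul_right_injective _ c0 ?_)))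
  have k : (∑ g, ρ' g⁻¹ ∘ₗ Φ v ∘ₗ pj ρ (T f v) (C.P.e a) ∘ₗ ρ g) y = 0 := DFunLike.congr_fun e0 y
  have := LinearMap.congr_fun hc (Φ v y)
  rw [LinearMap.sum_apply] at this k
  rw [sum_congr rfl fun g _ => ?_, k] at this
  · simpa using this.symm
  simp only [End.mul_apply, LinearMap.comp_apply, ← H.eqv g v v0 y hy, H.key h4 (u := g.1 v) (by simpa) v0 (tr g hy)]

end Ch

end CA.SpW
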