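/-
Orbits of quadratic forms of rank at least two under the general linear group.
-/
import Mathlib

set_option autoImplicit false
set_option linter.unusedSectionVars false

namespace CA.SpW

open Finset Module
open scoped Classical

variable {F : Type*} [Field F] [Fintype F] {L : Type*} [AddCommGroup L] [Module F L] [FiniteDimensional F L] (h2 : (2 : F) ≠ 0) {a d : F}

/-- binary forms in two functionals -/
def N (a d : F) (p : Fin 2 → Dual F L) : L → F := fun x => a * p 0 x ^ 2 + d * p 1 x ^ 2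

include h2

theorem conic1 (a0 : a ≠ 0) (d0 : d ≠ 0) : #{c : F × F | a * c.1 ^ 2 + d * c.2 ^ 2 = a} ≤ Fintype.card F + 1 := by
  rw [← Fintype.card_option, ← card_univ]
  refine card_le_card_of_injOn (fun c => if c.1 = -1 then none else some (c.2 / (c.1 + 1))) (fun _ _ => mem_univ _) fun ⟨p, r⟩ h ⟨p', r'⟩ h' e => ?_
  simp only [coe_filter, mem_univ, true_and, Set.mem_ofPred_eq] at h h' e
  split_ifs at e with e1 e2
  · have k : ∀ r : F, a * (-1) ^ 2 + d * r ^ 2 = a → r = 0 := fun r h => by simpa [d0] using h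
    rw [e1, e2, k r (e1 ▸ h), k r' (e2 ▸ h')]
  have k : ∀ p r t : F, a * p ^ 2 + d * r ^ 2 = a → p ≠ -1 → r / (p + 1) = t → r = t * (p + 1) ∧ p * (a + d * t ^ 2) = a - d * t ^ 2 := fun p r t h e1 e => by
    have e3 : p + 1 ≠ 0 := by rwa [Ne, add_eq_zero_iff_eq_neg]
    obtain rfl := (div_eq_iff e3).1 e
    exact ⟨rfl, mul_left_cancel₀ e3 (by linear_combination h)⟩
  obtain ⟨k1, k2⟩ := k p r _ h e1 rfl
  obtain ⟨k3, k4⟩ := k p' r' _ h' ‹_› (Option.some.inj e).symm
  generalize r / (p + 1) = t at k1 k2 k3 k4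
  obtain rfl : p = p' := mul_right_cancel₀ (fun e => mul_ne_zero h2 a0 (by rw [e] at k2; linear_combination e - k2)) (k2.trans k4.symm)
  rw [k1, k3]

theorem conic2 (a0 : a ≠ 0) : #{c : F × F | a * c.1 ^ 2 + -a * c.2 ^ 2 = a} ≤ Fintype.card F - 1 := by
  rw [← card_univ, ← card_erase_of_mem (mem_univ (0 : F))]
  refine card_le_card_of_injOn (fun c => c.1 + c.2) (fun ⟨p, r⟩ h => ?_) fun ⟨p, r⟩ h ⟨p', r'⟩ h' e => ?_
  · simp only [coe_filter, mem_univ, true_and, Set.mem_ofPred_eq, coe_erase, coe_univ, Set.mem_sdiff, Set.mem_univ, Set.mem_singleton_iff] at h ⊢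
    grind
  simp only [coe_filter, mem_univ, true_and, Set.mem_ofPred_eq] at h h' e
  have k : p - r = p' - r' := by grind
  rw [show p = p' from mul_left_cancel₀ h2 (by linear_combination e + k), show r = r' from mul_left_cancel₀ h2 (by linear_combination e - k)]

theorem fib (a0 : a ≠ 0) (d0 : d ≠ 0) (S : Finset (Fin 2 → Dual F L)) (hS : ∀ p ∈ S, ∃ x y, p 0 x = 1 ∧ p 1 x = 0 ∧ p 0 y = 0 ∧ p 1 y = 1) :
    #S ≤ #{c : F × F | a * c.1 ^ 2 + d * c.2 ^ 2 = a} * 2 * #(S.image (N a d)) := by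
  refine card_le_mul_card_image _ _ fun Q hQ => ?_
  obtain ⟨p0, h0, rfl⟩ := mem_image.1 hQ
  obtain ⟨x, y, x1, x2, y1, y2⟩ := hS p0 h0
  have pol : ∀ p, N a d p = N a d p0 → ∀ u z, a * p 0 u * p 0 z + d * p 1 u * p 1 z = a * p0 0 u * p0 0 z + d * p0 1 u * p0 1 z := fun p e u z => by
    have h1 := congrFun e (u + z); have h3 := congrFun e u; have h4 := congrFun e z
    simp only [N, map_add] at h1 h3 h4
    exact mul_left_cancel₀ h2 (by linear_combination h1 - h3 - h4)
  have k : ∀ p, N a d p = N a d p0 → a * p 0 x ^ 2 + d * p 1 x ^ 2 = a ∧ (p 0 x * p 1 y - p 1 x * p 0 y) ^ 2 = 1 ∧ ∀ u,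
      p 1 u = p 1 x * p0 0 u + (p 0 x * p 1 y - p 1 x * p 0 y) * p 0 x * p0 1 u ∧ a * p 0 u = a * p 0 x * p0 0 u - (p 0 x * p 1 y - p 1 x * p 0 y) * d * p 1 x * p0 1 u := fun p e => by
    have h1 := pol p e x x; have h3 := pol p e x y; have h4 := pol p e y y; have h5 := pol p e x; have h6 := pol p e y
    simp only [x1, x2, y1, y2] at h1 h3 h4 h5 h6
    refine ⟨by grind, by grind, fun u => ?_⟩
    have := h5 u; have := h6 u
    constructor <;> grind
  refine (card_le_card_of_injOn (t := ({c | a * c.1 ^ 2 + d * c.2 ^ 2 = a} : Finset (F × F)) ×ˢ ({1, -1} : Finset F)) (fun p => ((p 0 x, p 1 x), p 0 x * p 1 y - p 1 x * p 0 y))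
    (fun p hp => ?_) fun p hp p' hp' e => ?_).trans (by rw [card_product]; exact Nat.mul_le_mul_left _ card_le_two)
  · obtain ⟨h1, h3, -⟩ := k p (mem_filter.1 hp).2
    simpa [h1] using h3
  obtain ⟨-, -, h1⟩ := k p (mem_filter.1 hp).2
  obtain ⟨-, -, h3⟩ := k p' (mem_filter.1 hp').2
  simp only [Prod.mk.injEq] at e
  rw [e.2, e.1.1, e.1.2] at h1
  exact funext (Fin.forall_fin_two.2 ⟨LinearMap.ext fun u => mul_left_cancel₀ a0 ((h1 u).2.trans (h3 u).2.symm), LinearMap.ext fun u => (h1 u).1.trans (h3 u).1.symm⟩)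

omit h2 in
theorem card_pre {A B : Type*} [AddCommGroup A] [AddCommGroup B] [Fintype A] [Fintype B] (φ : A →+ B) (h : Function.Surjective φ) (p : B → Prop) :
    Fintype.card B * #{u | p (φ u)} = #{b | p b} * Fintype.card A := by
  have k : ∀ (D : Finset B), #{u | φ u ∈ D} = #D * #{u | φ u = 0} := fun D => by
    rw [card_eq_sum_card_fiberwise (f := φ) (t := D) fun _ h => by simpa using h, sum_congr rfl (g := fun _ => #{u | φ u = 0}) fun j hj => ?_, sum_const, smul_eq_mul]
    rw [← AddMonoidHom.card_fiber_eq_of_mem_range φ (h j) (h 0)]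
    congr 1; ext; simp; rintro rfl; exact hj
  have k1 := k univ
  have k2 := k {b | p b}
  simp only [mem_univ, filter_true, card_univ, mem_filter, true_and] at k1 k2
  rw [k1, k2]; ring

omit h2 in
theorem arith {q n m s : ℕ} (hq : 3 ≤ q) (h1 : q ^ 4 * s = (q ^ 2 - 1) * (q ^ 2 - q) * (q ^ n) ^ 2) (h2 : s ≤ (q - 1) * 2 * m) :
    (q ^ n - 1) * (q ^ n - q) ≤ (q + 1) * 2 * m := by
  obtain ⟨r, rfl⟩ := Nat.exists_eq_add_of_le' (by omega : 1 ≤ q)
  have e1 : (r + 1) ^ 2 - 1 = r * (r + 2) := by rw [Nat.sub_eq_iff_eq_add (by nlinarith)]; ring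
  have e2 : (r + 1) ^ 2 - (r + 1) = r * (r + 1) := by rw [Nat.sub_eq_iff_eq_add (by nlinarith)]; ring
  rw [e1, e2] at h1
  rw [Nat.add_sub_cancel] at h2
  refine (Nat.mul_le_mul (Nat.sub_le _ _) (Nat.sub_le _ _)).trans ?_
  generalize (r + 1) ^ n = Q at *
  refine Nat.le_of_mul_le_mul_left (c := r * (r + 1) ^ 4) ?_ (Nat.mul_pos (by omega) (by positivity))
  calc r * (r + 1) ^ 4 * (Q * Q) = (r * (r + 1) * Q ^ 2) * (r + 1) ^ 3 := by ring
    _ ≤ (r * (r + 1) * Q ^ 2) * (r * (r + 2) ^ 2) := Nat.mul_le_mul_left _ (by nlinarith)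
    _ = (r + 2) * ((r + 1) ^ 4 * s) := by rw [h1]; ring
    _ ≤ (r + 2) * ((r + 1) ^ 4 * (r * 2 * m)) := by gcongr
    _ = _ := by ring

variable {𝒬 : Finset (L → F)} (h𝒬 : ∀ Q ∈ 𝒬, ∀ g : L ≃ₗ[F] L, Q ∘ g ∈ 𝒬) {b : LinearMap.BilinForm F L} (hb : ∀ x y, b x y = b y x) (hQ : (fun x => b x x) ∈ 𝒬)
include h𝒬 hb hQ

theorem count0 {v w : L} (a0 : b v v ≠ 0) (d0 : b w w ≠ 0) (hv : b v w = 0) (h : b w w = -b v v ∨ ∀ z, b v z = 0 → b w z = 0 → b z z = 0) :
    (Fintype.card F ^ finrank F L - 1) * (Fintype.card F ^ finrank F L - Fintype.card F) ≤ (Fintype.card F + 1) * 2 * #𝒬 := by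
  have := Module.finite_of_finite F (M := Dual F L)
  have := Fintype.ofFinite (Dual F L)
  let α : Fin 2 → Dual F L := ![(b v v)⁻¹ • b v, (b w w)⁻¹ • b w]
  have hw : b w v = 0 := (hb _ _).trans hv
  have hi : LinearIndependent F α := LinearIndependent.pair_iff.2 fun s t e =>
    ⟨by simpa [a0, hw] using LinearMap.congr_fun e v, by simpa [d0, hv] using LinearMap.congr_fun e w⟩
  have hn : 2 ≤ finrank F (Dual F L) := by simpa using hi.fintype_card_le_finrank
  let π : L →ₗ[F] L := .id - (α 0).smulRight v - (α 1).smulRight w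
  have p1 : ∀ x, b v (π x) = 0 := fun x => by simp [π, α, hv]; field_simp; ring
  have p2 : ∀ x, b w (π x) = 0 := fun x => by simp [π, α, hw]; field_simp; ring
  have p3 : ∀ (s t : F) x, b (s • v + t • w + π x) (s • v + t • w + π x) = b v v * s ^ 2 + b w w * t ^ 2 + b (π x) (π x) := fun s t x => by
    simp only [map_add, map_smul, LinearMap.add_apply, LinearMap.smul_apply, hb (π x) v, hb (π x) w, p1, p2, hv, hw, smul_eq_mul]; ring
  have p4 : ∀ x, x = α 0 x • v + α 1 x • w + π x := fun x => by simp [π]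
  have q3 : 3 ≤ Fintype.card F := by
    by_contra! H
    exact h2 (by have := FiniteField.cast_card_eq_zero F; rwa [show Fintype.card F = 2 from le_antisymm (by omega) Fintype.one_lt_card] at this)
  rcases h with h | h
  · let φ : (Fin 2 → Dual F L) →+ Fin 2 → Fin 2 → F := ⟨⟨fun p i => ![p i v, p i w], by ext i j; fin_cases j <;> simp⟩, fun _ _ => by ext i j; fin_cases j <;> simp⟩
    have k1 := card_pre φ (fun c => ⟨fun i => c i 0 • α 0 + c i 1 • α 1, by ext i j; fin_cases j <;> simp [φ, α, a0, d0, hv, hw]⟩) fun c => LinearIndependent F c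
    have k2 := card_linearIndependent (K := F) (V := Fin 2 → F) (k := 2) (by simp)
    rw [Nat.card_eq_fintype_card, Fintype.card_subtype] at k2
    have k3 : ∀ p, LinearIndependent F (φ p) → p 0 v * p 1 w - p 0 w * p 1 v ≠ 0 := fun p hp => by
      have := ((Matrix.isUnit_iff_isUnit_det _).1 (Matrix.linearIndependent_rows_iff_isUnit.1 (hp : LinearIndependent F (Matrix.of (φ p)).row))).ne_zero
      exact (Matrix.det_fin_two (Matrix.of (φ p))).symm.trans_ne this
    refine arith q3 (s := #{u | LinearIndependent F (φ u)}) (by simpa [k2, Module.card_eq_pow_finrank (K := F) (V := Dual F L), ← pow_mul] using k1)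
      ((fib h2 a0 d0 _ fun p hp => ?_).trans (Nat.mul_le_mul (Nat.mul_le_mul_right _ (h ▸ conic2 h2 a0)) (card_le_card_of_injOn (· + fun x => b (π x) (π x)) (fun Q hQ' => ?_)
        (add_left_injective _).injOn)))
    · have := k3 p (mem_filter.1 hp).2
      refine ⟨(p 0 v * p 1 w - p 0 w * p 1 v)⁻¹ • (p 1 w • v - p 1 v • w), (p 0 v * p 1 w - p 0 w * p 1 v)⁻¹ • (p 0 v • w - p 0 w • v), ?_⟩
      simp only [map_smul, map_sub, smul_eq_mul]
      refine ⟨?_, ?_, ?_, ?_⟩ <;> field_simp <;> ring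
    obtain ⟨p, hp, rfl⟩ := mem_image.1 hQ'
    have := k3 p (mem_filter.1 hp).2
    let g : L →ₗ[F] L := (p 0).smulRight v + (p 1).smulRight w + π
    have hg : Function.Injective g := (injective_iff_map_eq_zero g).2 fun x hx => by
      have e1 : p 0 x = 0 := by simpa [g, p1, hv, a0] using congrArg (b v) hx
      have e2 : p 1 x = 0 := by simpa [g, p2, hw, d0] using congrArg (b w) hx
      have e3 : π x = 0 := by simpa [g, e1, e2] using hx
      have e4 := p4 x
      rw [e3, add_zero] at e4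
      generalize α 0 x = s, α 1 x = t at e4
      subst e4
      simp only [map_add, map_smul, smul_eq_mul] at e1 e2
      rw [show s = 0 by grind, show t = 0 by grind]; simp
    have := h𝒬 _ hQ (LinearEquiv.ofInjectiveEndo g hg)
    rwa [show (fun x => b x x) ∘ LinearEquiv.ofInjectiveEndo g hg = N (b v v) (b w w) p + fun x => b (π x) (π x) from funext fun x => p3 _ _ x] at this
  have k2 := card_linearIndependent (K := F) (V := Dual F L) (k := 2) hn
  rw [Nat.card_eq_fintype_card, Fintype.card_subtype] at k2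
  have k3 : ∀ p : Fin 2 → Dual F L, LinearIndependent F p → ∃ g : L ≃ₗ[F] L, ∀ i x, α i (g x) = p i x := fun p hp => by
    obtain ⟨e, he⟩ := Submodule.exists_linearEquiv_restrict_eq (hi.linearCombinationEquiv.symm.trans hp.linearCombinationEquiv)
    refine ⟨(evalEquiv F L).trans (e.dualMap.trans (evalEquiv F L).symm), fun i x => ?_⟩
    have := he (hi.linearCombinationEquiv (Finsupp.single i 1))
    simp at this
    simp [← this]
  refine le_trans (by simp [k2]) ((fib h2 a0 d0 {p | LinearIndependent F p} fun p hp => ?_).trans (Nat.mul_le_mul (Nat.mul_le_mul_right _ (conic1 h2 a0 d0))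
    (card_le_card fun Q hQ' => ?_)))
  · obtain ⟨g, hg⟩ := k3 p (mem_filter.1 hp).2
    exact ⟨g.symm v, g.symm w, by simp [← hg, α, a0, d0, hv, hw]⟩
  obtain ⟨p, hp, rfl⟩ := mem_image.1 hQ'
  obtain ⟨g, hg⟩ := k3 p (mem_filter.1 hp).2
  convert h𝒬 _ hQ g using 1
  funext x
  rw [Function.comp_apply, p4 (g x), p3, h _ (p1 _) (p2 _), hg, hg, add_zero, N]

theorem count1 {v w : L} (a0 : b v v ≠ 0) (d0 : b w w ≠ 0) (hv : b v w = 0) :
    (Fintype.card F ^ finrank F L - 1) * (Fintype.card F ^ finrank F L - Fintype.card F) ≤ (Fintype.card F + 1) * 2 * #𝒬 := by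
  by_cases h : ∀ z, b v z = 0 → b w z = 0 → b z z = 0
  · exact count0 h2 h𝒬 hb hQ a0 d0 hv (.inr h)
  push Not at h
  obtain ⟨z, z1, z2, z3⟩ := h
  obtain ⟨s, t, e⟩ := FiniteField.exists_root_sum_quadratic (f := Polynomial.C (b v v) * Polynomial.X ^ 2) (g := Polynomial.C (b w w) * Polynomial.X ^ 2 + Polynomial.C (b z z))
    (by compute_degree!) (by compute_degree!) (FiniteField.odd_card_of_char_ne_two fun e => h2 (by simpa [e] using ringChar.Nat.cast_ringChar (R := F)))
  refine count0 h2 h𝒬 hb hQ z3 (w := s • v + t • w) ?_ (by simp [hb z, z1, z2]) (.inl ?_)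
  all_goals simp [hb w v, hv] at e ⊢; grind

theorem count {v w : L} (h : b v w ^ 2 ≠ b v v * b w w) :
    (Fintype.card F ^ finrank F L - 1) * (Fintype.card F ^ finrank F L - Fintype.card F) ≤ (Fintype.card F + 1) * 2 * #𝒬 := by
  have k : ∀ v w, b v w ^ 2 ≠ b v v * b w w → b v v ≠ 0 → _ := fun v w h a0 =>
    count1 h2 h𝒬 hb hQ a0 (w := b v v • w - b v w • v) (by simp [hb w v]; grind) (by simp; ring)
  by_cases a0 : b v v = 0
  · by_cases d0 : b w w = 0
    · refine k (v + w) w ?_ ?_ <;> simp [hb w v] <;> grind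
    · exact k w v (by rwa [hb, mul_comm]) d0
  · exact k v w h a0

end CA.SpW
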