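/-
Representations of small degree of symplectic groups have rank one; types of such representations.
-/
import Cfsg.Agent.Lib.Lin.SpW2
import Cfsg.Agent.Lib.Lin.SpW3

set_option autoImplicit false
set_option linter.unusedSectionVars false

namespace CA.SpW

open Cfsg CA.Wt CA.DegO CA.DegT CA.CForm CA.CForm.Form CA.AutForm CChar.CharFun CChar.CharKer CChar.CharRep Finset Module
open scoped Classical

variable {F : Type*} [Field F] [Fintype F] {V : Type*} [AddCommGroup V] [Module F V] [FiniteDimensional F V] {f : Form (Kind.symp F) V}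

theorem X_add {u u' z : V} (h : f.B u z = 0) (h' : f.B u' z = 0) (e : f.B u u' = 0) (t : F) : X f (u + u') z t = X f u z t * X f u' z t := f.isom_ext fun y => by
  simp [X_apply h, X_apply h', X_apply (show f.B (u + u') z = 0 by simp [h, h']), f.symp_B_self, h, e, f.eq_zero_symm h']; module

theorem exists_Ch (h2 : (2 : F) ≠ 0) : Nonempty (Ch F) := by
  obtain ⟨ψ, hψ⟩ := exists_addChar F (one_ne_zero (α := F))
  exact ⟨⟨Par.of ψ AddMonoidHom.mul (fun a a0 => ⟨a⁻¹, by simpa [a0]⟩) rfl, ψ, fun _ _ => rfl, h2⟩⟩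

namespace Ch
variable {C : Ch F} {M M' : Type*} [AddCommGroup M] [Module ℂ M] [FiniteDimensional ℂ M] [AddCommGroup M'] [Module ℂ M'] [FiniteDimensional ℂ M']
  {ρ : Representation ℂ f.Isom M} {ρ' : Representation ℂ f.Isom M'}

theorem common {L : Submodule F V} (hL : f.TS L) {y : M} (y0 : y ≠ 0) (s : Finset L) :
    ∃ y' ≠ 0, (∀ u : L, ∀ c, y ∈ C.Wt ρ u c → y' ∈ C.Wt ρ u c) ∧ ∀ u ∈ s, ∃ c, y' ∈ C.Wt ρ u c := by
  induction s using Finset.induction_on with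
  | empty => exact ⟨y, y0, fun _ _ h => h, by simp⟩
  | insert u s _ ih =>
    obtain ⟨y', h0, h1, h2⟩ := ih
    obtain ⟨b, -, hb⟩ := exists_ne_zero_of_sum_ne_zero ((sum_pj (ρ := ρ) (x := T f u) C.P y').trans_ne h0)
    have k : ∀ z : L, ∀ c, y' ∈ C.Wt ρ z c → pj ρ (T f u) (C.P.e b) y' ∈ C.Wt ρ z c := fun z c h => pj_st (fun t _ h => tr' (T_fix (hL.B_eq _ u.2 _ z.2) t) h) h _
    exact ⟨_, hb, fun z c h => k z c (h1 z c h), forall_mem_insert .. |>.2 ⟨⟨b, pj_mem _ _ _ _⟩, fun z hz => (h2 z hz).imp (k z)⟩⟩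

theorem exists_b {L : Submodule F V} (hL : f.TS L) {y : M} (y0 : y ≠ 0) {Q : L → F} (hQ : ∀ u : L, y ∈ C.Wt ρ u (Q u)) :
    ∃ b : LinearMap.BilinForm F L, (∀ x y, b x y = b y x) ∧ (∀ x, b x x = Q x) ∧ ∀ x y, b x y = 2⁻¹ * (Q (x + y) - Q x - Q y) := by
  have hB : ∀ u z : L, f.B u z = 0 := fun u z => hL.B_eq _ u.2 _ z.2
  have hX : ∀ u z : L, y ∈ C.Xt ρ u z (QuadraticMap.polar Q u z) := fun u z => Xt_of (hB u z) (hQ u) (hQ z) (hQ (u + z)) rfl
  let Q0 : QuadraticMap F L F := .ofPolar Q (fun s u => Wt_ne (hQ (s • u)) (Wt_smul s (hQ u) (by simp [sq])) y0)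
    (fun u u' z => Xt_ne (hX (u + u') z) (mem_Xt.2 fun t => by
      rw [Submodule.coe_add, X_add (hB u z) (hB u' z) (hB u u'), map_mul, End.mul_apply, mem_Xt.1 (hX u' z), map_smul, mem_Xt.1 (hX u z), smul_smul, ← AddChar.map_add_eq_mul]
      ring_nf) y0)
    fun s u z => Xt_ne (hX (s • u) z) (by simpa using Xt_smul s 1 (hB u z) (hX u z) rfl) y0
  refine ⟨(2 : F)⁻¹ • Q0.polarBilin, fun x y => by simp [QuadraticMap.polar_comm], fun x => ?_, fun _ _ => rfl⟩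
  rw [LinearMap.smul_apply, LinearMap.smul_apply, QuadraticMap.polarBilin_apply_apply, QuadraticMap.polar_self, two_nsmul, ← two_mul, smul_eq_mul, inv_mul_cancel_left₀ C.h2]
  rfl

theorem card_eig {ι κ : Type*} [Fintype κ] (E : ι → End ℂ M) (hE : ∀ i j, Commute (E i) (E j)) {χ : κ → ι → ℂ} (hχ : Function.Injective χ) {y : κ → M} (y0 : ∀ k, y k ≠ 0)
    (hy : ∀ k i, E i (y k) = χ k i • y k) : Fintype.card κ ≤ finrank ℂ M :=
  (((End.independent_iInf_maxGenEigenspace_of_forall_mapsTo E fun i j φ => End.mapsTo_maxGenEigenspace_of_comm (hE j i) φ).comp hχ).linearIndependent _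
    (fun k => (Submodule.mem_iInf _).2 fun i => (End.mem_maxGenEigenspace _ _ _).2 ⟨1, by simp [hy]⟩) y0).fintype_card_le_finrank

theorem card_wt {L : Submodule F V} (hL : f.TS L) (𝒬 : Finset (L → F)) (h : ∀ Q ∈ 𝒬, ∃ y ≠ 0, ∀ u : L, y ∈ C.Wt ρ u (Q u)) : #𝒬 ≤ finrank ℂ M := by
  choose y y0 hy using h
  rw [← Fintype.card_coe]
  refine card_eig (fun i : L × F => ρ (T f i.1 i.2)) (fun i j => Commute.map (mul_inv_eq_iff_eq_mul.1 ?_) ρ) (χ := fun Q i => C.P.e (Q.1 i.1) i.2)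
    (fun Q Q' e => Subtype.ext (funext fun u => C.P.inj (DFunLike.ext _ _ fun s => congrFun e (u, s)))) (fun Q => y0 _ Q.2) fun Q i => hy _ Q.2 i.1 i.2
  rw [T_conj, T_fix (hL.B_eq _ i.1.2 _ j.1.2)]

theorem bound (hf : f.Nondeg) {n : ℕ} (hn : finrank F V = 2 * n) (h : ¬C.Rk ρ) :
    (Fintype.card F ^ n - 1) * (Fintype.card F ^ n - Fintype.card F) ≤ (Fintype.card F + 1) * 2 * finrank ℂ M := by
  simp only [Rk, not_forall] at h
  obtain ⟨v, w, a, d, β, y, hv, y0, h1, h2, h3, h4⟩ := h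
  obtain ⟨L, l1, hL, l2⟩ := f.exists_maximal_ts (ts_span (S := {v, w}) (fun x _ => f.symp_Q x) (by simp [hv, f.eq_zero_symm hv, f.symp_B_self]))
  obtain rfl : finrank F L = n := by
    have := hf.finrank_perp L
    rw [show f.perp L = L from le_antisymm (fun x hx => hL.mem_of_maximal l2 hx (f.symp_Q x)) hL.le_perp] at this
    omega
  have := Module.finite_of_finite F (M := L)
  have := Fintype.ofFinite L
  obtain ⟨y, y0, k1, k2⟩ := common (C := C) (ρ := ρ) hL y0 univ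
  choose Q hQ using fun u => k2 u (mem_univ u)
  obtain ⟨b, b1, b2, b3⟩ := exists_b hL y0 hQ
  let v' : L := ⟨v, l1 (Submodule.subset_span (by simp))⟩
  let w' : L := ⟨w, l1 (Submodule.subset_span (by simp))⟩
  refine (count C.h2 (𝒬 := {Q | ∃ y ≠ 0, ∀ u : L, y ∈ C.Wt ρ u (Q u)}) (fun Q hQ g => ?_) b1
    (by simp only [b2]; exact mem_filter.2 ⟨mem_univ _, y, y0, hQ⟩) (v := v') (w := w') fun e => h4 ?_).trans (Nat.mul_le_mul_left _ (card_wt hL _ fun _ h => (mem_filter.1 h).2))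
  · obtain ⟨y, y0, hy⟩ := (mem_filter.1 hQ).2
    obtain ⟨k, rfl⟩ := hf.resHom_surjective hL g
    refine mem_filter.2 ⟨mem_univ _, ρ k.1⁻¹ y, fun e => y0 (by simpa using congrArg (ρ k.1) e), fun u => ?_⟩
    have := tr k.1⁻¹ (hy (f.resHom L k u))
    rwa [resHom_apply, isom_inv_apply_apply] at this
  · have e1 := Wt_ne (hQ v') (k1 v' _ h1) y0
    have e2 := Wt_ne (hQ w') (k1 w' _ h2) y0
    have e3 := Wt_ne (hQ (v' + w')) (k1 (v' + w') _ (Wt_add hv h1 h2 h3 rfl)) y0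
    rw [b2, b2, b3, e1, e2, e3] at e
    have := C.h2
    field_simp at e
    linear_combination e

theorem Rk.bot (hR : C.Rk ρ) {u v : V} (hv : f.B u v = 0) {a d : F} (h : ¬IsSquare (a * d)) : C.Wt ρ u a ⊓ C.Wt ρ v d ≤ ⊥ :=
  ind C.P (stX hv a d) fun b y hy y0 hb => (h ⟨b / 2, by have := C.h2; field_simp; linear_combination -hR u v a d b y hv y0 hy.1 hy.2 hb⟩).elim

theorem Rk.kill0 (hR : C.Rk ρ) {u v : V} (hv : f.B u v = 0) {a d : F} (h : ¬IsSquare (a * d)) {y : M} (hy : y ∈ C.Wt ρ u a) : pj ρ (T f v) (C.P.e d) y = 0 :=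
  hR.bot hv h ⟨pj_st (fun t _ hy => tr' (T_fix (f.eq_zero_symm hv) t) hy) hy _, pj_mem _ _ _ _⟩

theorem Rk.kill (hf : f.Nondeg) (h4 : 2 < finrank F V) (hR : C.Rk ρ) {u v : V} {a d : F} (h : ¬IsSquare (a * d)) {y : M} (hy : y ∈ C.Wt ρ u a) :
    pj ρ (T f v) (C.P.e d) y = 0 := by
  by_cases hv : f.B u v = 0
  · exact hR.kill0 hv h hy
  have a1 : ∀ z, f.B u z = 0 → f.B v z = 0 → pj ρ (T f v) (C.P.e d) y ∈ C.Wt ρ z 0 := fun z h1 h2 => by
    have e1 := T_fix (f.eq_zero_symm h1)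
    have e2 := T_fix (f.eq_zero_symm h2)
    refine ind C.P (x := T f z) (K := (C.Wt ρ z 0).comap (pj ρ (T f v) (C.P.e d))) (fun t _ hy => tr' (e1 t) hy) (fun e y hy y0 he => ?_) hy
    by_cases e0 : e = 0
    · exact pj_st (fun t _ hy => tr' (T_fix h2 t) hy) (e0 ▸ he) _
    obtain ⟨r, hr⟩ : IsSquare (a * e) := by_contra fun k => y0 (hR.bot h1 k ⟨hy, he⟩)
    rw [Submodule.mem_comap, hR.kill0 (f.eq_zero_symm h2) (fun ⟨s, hs⟩ => h ⟨r * s / e, by field_simp; grind⟩) he]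
    exact zero_mem _
  have hy' : f.IsHyp u ((f.B u v)⁻¹ • v) := ⟨f.symp_Q _, f.symp_Q _, by simp [hv]⟩
  have := hy'.finrank_perp
  have : Nontrivial (f.perp (Submodule.span F {u, (f.B u v)⁻¹ • v})) := (finrank_pos_iff (R := F)).1 (by omega)
  obtain ⟨z, z0⟩ := _root_.exists_ne (0 : f.perp (Submodule.span F {u, (f.B u v)⁻¹ • v}))
  obtain ⟨z', hz⟩ := (hy'.nondeg_perp hf).exists_B_ne_zero z0
  have k : ∀ z : f.perp (Submodule.span F {u, (f.B u v)⁻¹ • v}), f.B u z = 0 ∧ f.B v z = 0 := fun z => by simpa [hv] using f.mem_perp_span_pair.1 z.2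
  exact hR.nofix (k z).2 (k z').2 hz (by rintro rfl; simp at h) (pj_mem _ _ _ _) (a1 z (k z).1 (k z).2) (a1 z' (k z').1 (k z').2)

theorem Rk.sq (hf : f.Nondeg) (h4 : 2 < finrank F V) [ρ.IsIrreducible] (hR : C.Rk ρ) {u v : V} {a d : F} (h1 : C.Wt ρ u a ≠ ⊥) (h2 : C.Wt ρ v d ≠ ⊥) : IsSquare (a * d) := by
  have := Fintype.ofFinite f.Isom
  obtain ⟨c, c0, hc⟩ := exists_c h1
  refine by_contra fun h => h2 (eq_bot_iff.2 fun y hy => smul_right_injective _ c0 ?_)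
  have := congrArg (pj ρ (T f v) (C.P.e d)) (LinearMap.congr_fun hc y)
  rw [LinearMap.sum_apply, map_sum, sum_eq_zero fun g _ => show pj ρ _ _ ((ρ g⁻¹ * pj ρ _ _ * ρ g) y) = 0 from hR.kill hf h4 h (tr g⁻¹ (pj_mem _ _ _ _))] at this
  simpa [pj_of_mem hy] using this.symm

theorem Wt_tr (hf : f.Nondeg) {u v : V} (u0 : u ≠ 0) (v0 : v ≠ 0) {a : F} (h : C.Wt ρ u a ≠ ⊥) : C.Wt ρ v a ≠ ⊥ := by
  obtain ⟨y, hy, y0⟩ := (Submodule.ne_bot_iff _).1 h
  obtain ⟨g, rfl⟩ := hf.witt_one u0 v0 (by simp [f.symp_Q])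
  exact (Submodule.ne_bot_iff _).2 ⟨_, tr g hy, fun e => y0 (by simpa using congrArg (ρ g⁻¹) e)⟩

theorem exists_type (C : Ch F) (hf : f.Nondeg) (h : ρ.ker ≠ ⊤) {v : V} (v0 : v ≠ 0) : ∃ a ≠ 0, C.Wt ρ v a ≠ ⊥ := by
  by_contra! H
  have k : ∀ u t, T f u t ∈ ρ.ker := fun u t => by
    by_cases u0 : u = 0
    · rw [show T f u t = 1 from f.isom_ext fun _ => by simp [T_apply, u0]]; exact one_mem _
    refine LinearMap.ext fun y => ?_
    have := ind (ρ := ρ) C.P (x := T f u) (W := ⊤) (K := C.Wt ρ u 0) (fun _ _ _ => trivial) (fun b y _ y0 hb => ?_) (Submodule.mem_top (x := y))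
    · simpa using mem_Wt.1 this t
    by_contra e
    exact Wt_tr hf u0 v0 ((Submodule.ne_bot_iff _).2 ⟨y, hb, y0⟩) (H b (by rintro rfl; exact e hb))
  refine h (eq_top_iff.2 (hf.symp_Eich_eq_top.ge.trans (Eich_le _ fun x w c hc => ?_)))
  rw [ei_eq, show X f x w 1 = (T f x 1 * T f w 1)⁻¹ * T f (x + w) 1 by rw [T_add hc.2]; group]
  exact mul_mem (k _ _) (mul_mem (inv_mem (mul_mem (k _ _) (k _ _))) (k _ _))

theorem twist (hf : f.Nondeg) (h4 : 2 < finrank F V) [ρ.IsIrreducible] (hR : C.Rk ρ) (h : ρ.ker ≠ ⊤) {s : V ≃ₗ[F] V} {μ : F} (hμ : ¬IsSquare μ)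
    (hs : ∀ x y, f.B (s x) (s y) = μ * f.B x y) : ∃ χ, IsIrrCharacter f.Isom χ ∧ χ 1 = ρ.character 1 ∧ χ ≠ ρ.character := by
  have μ0 : μ ≠ 0 := by rintro rfl; simp at hμ
  let σ : f.Isom →* f.Isom := ((MulAut.conj s⁻¹).toMonoidHom.comp f.Isom.subtype).codRestrict _ fun g => (symp_mem_Isom _).2 fun x y =>
    mul_left_cancel₀ μ0 (by rw [← hs, ← hs]; simp [LinearEquiv.coe_inv])
  have := Fintype.ofFinite f.Isom
  refine ⟨_, irr_comp_of_surjective (isIrrCharacter_character ρ) σ (Finite.injective_iff_surjective.1 fun g k e => Subtype.ext ((MulAut.conj s⁻¹).injective (congrArg Subtype.val e))),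
    by simp, fun e => ?_⟩
  have : Nontrivial V := (finrank_pos_iff (R := F)).1 (by omega)
  obtain ⟨v, v0⟩ := _root_.exists_ne (0 : V)
  obtain ⟨a, a0, ha⟩ := C.exists_type hf h v0
  have k : C.Wt (ρ.comp σ) (s v) (a * μ) ≠ ⊥ := by
    obtain ⟨y, hy, y0⟩ := (Submodule.ne_bot_iff _).1 ha
    refine (Submodule.ne_bot_iff _).2 ⟨y, mem_Wt.2 fun t => ?_, y0⟩
    rw [mul_assoc, ← mem_Wt.1 hy, MonoidHom.comp_apply, show σ (T f (s v) t) = T f v (μ * t) from f.isom_ext fun u => ?_]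
    change s.symm ((T f (s v) t).1 (s u)) = _
    simp [T_apply, hs]; ring_nf
  have sv : s v ≠ 0 := by simpa
  rw [← Submodule.finrank_eq_zero.ne, ← Nat.cast_ne_zero (R := ℂ), Wt, finrank_Ws (T_inj hf sv), show Representation.character (ρ.comp σ) = ρ.character from e,
    ← finrank_Ws (T_inj hf sv), Nat.cast_ne_zero, Submodule.finrank_eq_zero.ne] at k
  obtain ⟨r, hr⟩ := hR.sq hf h4 ha k
  exact hμ ⟨r / a, by field_simp; linear_combination hr⟩

theorem card_le (C : Ch F) (hf : f.Nondeg) (h4 : 2 < finrank F V) (S : Finset (f.Isom → ℂ))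
    (hS : ∀ χ ∈ S, ∃ (d : ℕ) (ρ : Representation ℂ f.Isom (Fin d → ℂ)), ρ.IsIrreducible ∧ ρ.character = χ ∧ C.Rk ρ ∧ ρ.ker ≠ ⊤) : #S ≤ 4 := by
  have : Nontrivial V := (finrank_pos_iff (R := F)).1 (by omega)
  obtain ⟨v, v0⟩ := _root_.exists_ne (0 : V)
  let n : f.Isom := ⟨LinearEquiv.neg F, (symp_mem_Isom _).2 fun x y => by simp⟩
  choose d ρ h1 h2 h3 h5 using hS
  choose a a0 ha using fun χ hχ => C.exists_type hf (h5 χ hχ) v0
  choose ε hε using fun χ hχ => have := h1 χ hχ; exists_eq_smul_of_commute (ρ χ hχ) (ρ χ hχ n) fun g => by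
    rw [← map_mul, ← map_mul, show n * g = g * n from f.isom_ext fun u => by simp [n]]
  rw [← card_attach]
  refine (card_le_card_of_injOn (t := ({1, -1} : Finset ℤ) ×ˢ ({1, -1} : Finset ℂ)) (fun χ => (quadraticChar F (a χ.1 χ.2), ε χ.1 χ.2)) (fun χ _ => ?_) fun χ _ χ' _ e => ?_).trans
    (by rw [card_product]; exact Nat.mul_le_mul card_le_two card_le_two)
  · have := h1 _ χ.2
    have := nontrivial_of_isIrreducible (ρ _ χ.2)
    have k : ρ _ χ.2 n * ρ _ χ.2 n = (1 : ℂ) • 1 := by rw [← map_mul, show n * n = 1 from f.isom_ext fun u => by simp [n], map_one, one_smul]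
    obtain ⟨y, y0⟩ := _root_.exists_ne (0 : Fin (d _ χ.2) → ℂ)
    rw [hε, smul_mul_smul, one_mul] at k
    simpa using And.intro (quadraticChar_dichotomy (a0 _ χ.2)) (mul_self_eq_one_iff.1 (show ε _ χ.2 * ε _ χ.2 = 1 from smul_left_injective ℂ y0 (LinearMap.congr_fun k y)))
  obtain ⟨e1, e2⟩ := Prod.mk.inj e
  obtain ⟨r, hr⟩ := (quadraticChar_one_iff_isSquare (mul_ne_zero (a0 _ χ.2) (a0 _ χ'.2))).1 (by rw [map_mul, ← e1, ← sq, quadraticChar_sq_one (a0 _ χ.2)])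
  have := h1 _ χ.2
  have := h1 _ χ'.2
  have r0 : r ≠ 0 := by rintro rfl; simp [a0] at hr
  have b0 := a0 _ χ'.2
  refine Subtype.ext ((h2 _ χ.2).symm.trans ((uniq hf h4 (h3 _ χ.2) (h3 _ χ'.2) v0 (a0 _ χ.2) (ha _ χ.2) (Wt_tr hf (u := (r / a _ χ'.2) • v) (by simp [r0, b0, v0]) v0 fun e => ha _ χ'.2 ?_)
    (n := n) (fun _ => rfl) (hε _ χ.2) (e2 ▸ hε _ χ'.2)).trans (h2 _ χ'.2)))
  exact eq_bot_iff.2 fun y hy => e.le (Wt_smul _ hy (by field_simp; linear_combination hr))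

end Ch

end CA.SpW
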