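/-
The four Weil characters of a symplectic group in odd characteristic and the degree gap above them.
-/
import Cfsg.Agent.Lib.Lin.SpW4
import Cfsg.Agent.Lib.Lin.Weil

set_option autoImplicit false
set_option linter.unusedSectionVars false

namespace CA.SpW

open Cfsg CA.Weil CA.CForm CA.CForm.Form CA.DegLS CChar.CharRep CChar.CharFun CChar.CharOrth CChar.CharKer Finset Module
open scoped Classical

variable {F : Type*} [Field F] [Fintype F] {n : ℕ} {ψ : AddChar F ℂ} (hψ : ψ ≠ 0) (h2 : (2 : F) ≠ 0)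
include hψ h2

theorem exists_omega : ∃ ω : (sympStd F n).Isom →* Γ n ψ, ∀ g, (ω g).1.1 = g := by
  let δ : Γ n ψ →* ℂˣ := (LinearMap.det.comp (W hψ 1).toRepresentation).toHomUnits / (LinearMap.det.comp (W hψ (-1)).toRepresentation).toHomUnits
  let s (c : ℂˣ) : Γ n ψ := ⟨(1, Units.map (algebraMap ℂ _).toMonoidHom c), fun v => by simp [Algebra.commutes]⟩
  have hs : ∀ c, δ (s c) = c := fun c => Units.ext <| by
    have h : ∀ ε, (W hψ ε).toRepresentation (s c) = (c : ℂ) • LinearMap.id := fun _ => rfl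
    have : finrank ℂ (W (n := n) hψ 1).toSubmodule = finrank ℂ (W (n := n) hψ (-1)).toSubmodule + 1 := by
      rw [← Nat.cast_inj (R := ℂ), Nat.cast_succ, finrank_W hψ h2 _ (by simp), finrank_W hψ h2 _ (by simp)]; ring
    simp [δ, h, this, pow_succ]
  let φ : δ.ker →* (sympStd F n).Isom := (MonoidHom.fst _ _).comp ((Γ n ψ).subtype.comp δ.ker.subtype)
  refine (?_ : Function.Bijective φ → _) ⟨(injective_iff_map_eq_one φ).2 fun ⟨⟨⟨g, T⟩, h1⟩, h3⟩ h => ?_, fun g => ?_⟩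
  · exact fun hφ => ⟨δ.ker.subtype.comp (MulEquiv.ofBijective φ hφ).symm.toMonoidHom, fun g => (MulEquiv.ofBijective φ hφ).apply_symm_apply g⟩
  · obtain rfl : g = 1 := h
    obtain ⟨c, hc⟩ := Algebra.mem_bot.1 ((Algebra.IsCentral.center_eq_bot ℂ _).le (Subalgebra.mem_center_iff.2 fun X =>
      LinearMap.congr_fun ((bas hψ h2).ext fun v => by simpa [bas_apply] using (h1 v).symm : LinearMap.mulRight ℂ T.1 = LinearMap.mulLeft ℂ T.1) X))
    have c0 : c ≠ 0 := by rintro rfl; exact T.ne_zero (by simpa using hc.symm)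
    have e : (⟨(1, T), h1⟩ : Γ n ψ) = s (.mk0 c c0) := Subtype.ext (Prod.ext rfl (Units.ext hc.symm))
    refine Subtype.ext (e.trans ?_)
    rw [e, MonoidHom.mem_ker, hs] at h3
    rw [h3]; exact Subtype.ext (Prod.ext rfl (map_one _))
  · obtain ⟨T, hT⟩ := exists_Γ hψ h2 g
    exact ⟨⟨(⟨_, hT⟩ : Γ n ψ) * s (δ ⟨_, hT⟩)⁻¹, by simp [hs]⟩, mul_one g⟩

theorem comm_eq {ω : (sympStd F n).Isom →* Γ n ψ} (hω : ∀ g, (ω g).1.1 = g) (T : End ℂ ((Fin n → F) → ℂ)) (hT : ∀ g, (ω g).1.2 * T = T * (ω g).1.2) :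
    ∃ x y : ℂ, T = x • J F n + y • 1 := by
  obtain ⟨c, rfl⟩ : ∃ c : (Fin n ⊕ Fin n → F) → ℂ, ∑ v, c v • ρ ψ v = T := ⟨_, by simpa only [bas_apply] using (bas hψ h2).sum_repr T⟩
  have k : ∀ g : (sympStd F n).Isom, ∀ v, c (g.1 v) = c v := fun g => by
    have h1 : (∑ v, c v • ρ ψ (g.1 v)) * (ω g).1.2 = (∑ v, c (g.1 v) • ρ ψ (g.1 v)) * (ω g).1.2 := by
      rw [show ∑ v, c (g.1 v) • ρ ψ (g.1 v) = _ from g.1.toEquiv.sum_comp fun v => c v • ρ ψ v, ← hT, mul_sum, sum_mul]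
      exact sum_congr rfl fun v _ => by rw [mul_smul_comm, (ω g).2 v, hω, smul_mul_assoc]
    have h3 := ((bas hψ h2).linearIndependent.comp _ g.1.injective).fintypeLinearCombination_injective (a₁ := fun v => c (g.1 v)) (a₂ := c)
      (by simpa [Fintype.linearCombination_apply, bas_apply] using ((Units.mul_left_inj _).1 h1).symm)
    exact congrFun h3
  obtain ⟨x, hx⟩ : ∃ x, ∀ v ≠ 0, c v = x := by
    by_cases h : ∃ u : Fin n ⊕ Fin n → F, u ≠ 0
    · obtain ⟨u, u0⟩ := h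
      exact ⟨c u, fun v v0 => by obtain ⟨g, rfl⟩ := (sympStd_nondeg F n).witt_one u0 v0 rfl; exact k g u⟩
    · exact ⟨0, fun v v0 => (h ⟨v, v0⟩).elim⟩
  refine ⟨x * Fintype.card F ^ n, c 0 - x, ?_⟩
  rw [mul_smul, ← sum_ρ hψ, smul_sum, ← ρ_zero ψ, ← add_sum_erase _ _ (mem_univ 0), ← add_sum_erase _ _ (mem_univ 0),
    sum_congr rfl fun v hv => by rw [hx v (ne_of_mem_erase hv)]]
  module

omit hψ h2 in
theorem irr_of {G M : Type*} [Group G] [Fintype G] [AddCommGroup M] [Module ℂ M] [FiniteDimensional ℂ M] {U : Representation ℂ G M} (W : Subrepresentation U) {P : End ℂ M}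
    (hp : LinearMap.IsProj W.toSubmodule P) (hc : ∀ g f, P (U g f) = U g (P f)) (hT : ∀ T : End ℂ M, (∀ g, U g * T = T * U g) → ∃ c : ℂ, ∀ f ∈ W.toSubmodule, T f = c • f)
    [Nontrivial W.toSubmodule] : IsIrrCharacter G W.toRepresentation.character := by
  refine irr_of_char_of_inner_self (isCharacter_character _) ?_
  rw [inner_character_eq_finrank, Nat.cast_eq_one, finrank_eq_one_iff_of_nonzero' (Representation.IntertwiningMap.id _) fun e => ?_]
  · intro ι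
    obtain ⟨c, h⟩ := hT (W.toSubmodule.subtype ∘ₗ ι.toLinearMap ∘ₗ hp.codRestrict) fun g => LinearMap.ext fun f => by
      change _ = (ι (hp.codRestrict _)).1
      rw [show hp.codRestrict (U g f) = W.toRepresentation g (hp.codRestrict f) from Subtype.ext (hc g f), ι.isIntertwining]
      rfl
    refine ⟨c, Representation.IntertwiningMap.ext (LinearMap.ext fun f => Subtype.ext ?_)⟩
    have e1 := h f.1 f.2
    rw [LinearMap.comp_apply, LinearMap.comp_apply, show hp.codRestrict f.1 = f from Subtype.ext (hp.2 _ f.2)] at e1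
    exact e1.symm
  obtain ⟨f, f0⟩ := exists_ne (0 : W.toSubmodule)
  exact f0 (DFunLike.congr_fun e f)

theorem irr_W (hn : 1 ≤ n) (ε : ℂ) (hε : ε * ε = 1) : ∃ χ, IsIrrCharacter (sympStd F n).Isom χ ∧ χ 1 = (Fintype.card F ^ n + ε) / 2 := by
  have := Fintype.ofFinite (sympStd F n).Isom
  obtain ⟨ω, hω⟩ := exists_omega (n := n) hψ h2
  let U : Representation ℂ _ _ := ((Units.coeHom _).comp ((MonoidHom.snd _ _).comp (Γ n ψ).subtype)).comp ω
  let W' : Subrepresentation U := ⟨(W hψ ε).toSubmodule, fun g => (W hψ ε).apply_mem_toSubmodule (ω g)⟩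
  have hp : LinearMap.IsProj (W (n := n) hψ ε).toSubmodule ((2 : ℂ)⁻¹ • (1 + ε • J F n)) :=
    ⟨fun f => End.mem_eigenspace_iff.2 (funext fun t => by simp [J]; linear_combination (-f (-t) / 2) * hε), fun f hf => by
      simp [End.mem_eigenspace_iff.1 hf, smul_smul, mul_assoc, hε]; module⟩
  have : Nontrivial W'.toSubmodule := by
    rw [← finrank_pos_iff (R := ℂ), pos_iff_ne_zero, ← Nat.cast_ne_zero (R := ℂ), finrank_W hψ h2 _ hε]
    have h3 : 1 < Fintype.card F ^ n := Nat.one_lt_pow (by omega) Fintype.one_lt_card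
    intro e
    have e1 : ((Fintype.card F ^ n * Fintype.card F ^ n : ℕ) : ℂ) = (1 : ℕ) := by push_cast; linear_combination hε + 2 * (Fintype.card F ^ n - ε) * e
    have := Nat.cast_injective e1
    nlinarith
  have k : ∀ U : End ℂ ((Fin n → F) → ℂ), U * J F n = J F n * U → ∀ f, ((2 : ℂ)⁻¹ • (1 + ε • J F n)) (U f) = U (((2 : ℂ)⁻¹ • (1 + ε • J F n)) f) := fun U h f => by
    simp [show U (J F n f) = J F n (U f) from LinearMap.congr_fun h f]
  refine ⟨_, irr_of W' hp (fun g => k _ (comm_J hψ (ω g))) fun T hT => ?_, (Representation.char_one _).trans (finrank_W hψ h2 _ hε)⟩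
  obtain ⟨x, y, rfl⟩ := comm_eq hψ h2 hω T hT
  exact ⟨x * ε + y, fun f hf => by simp [End.mem_eigenspace_iff.1 hf, add_smul, smul_smul]⟩

omit hψ h2 in
theorem arith2 {q N d : ℕ} (q3 : 3 ≤ q) (q4 : 3 * q ≤ N) (h : d * 2 ≤ N + 1) : (q + 1) * 2 * d < (N - 1) * (N - q) := by
  obtain ⟨r, rfl⟩ := Nat.exists_eq_add_of_le q4
  obtain ⟨t, rfl⟩ := Nat.exists_eq_add_of_le q3
  rw [show 3 * (3 + t) + r - (3 + t) = 6 + 2 * t + r by omega, show 3 * (3 + t) + r - 1 = 8 + 3 * t + r by omega]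
  nlinarith [Nat.mul_le_mul_left (3 + t + 1) h]

omit hψ in
theorem main (hn : 2 ≤ n) : ∃ χ : Fin 2 → Fin 2 → (sympStd F n).Isom → ℂ, (∀ i j, IsIrrCharacter _ (χ i j)) ∧ (∀ i, χ i 0 ≠ χ i 1) ∧
    (∀ j, χ 0 j 1 = ((Fintype.card F ^ n + 1 : ℕ) : ℂ) / 2) ∧ (∀ j, χ 1 j 1 = ((Fintype.card F ^ n - 1 : ℕ) : ℂ) / 2) ∧
    ∀ θ, IsIrrCharacter _ θ → ∀ d : ℕ, θ 1 = d → d ≠ 1 → (Fintype.card F + 1) * 2 * d < (Fintype.card F ^ n - 1) * (Fintype.card F ^ n - Fintype.card F) → ∃ i j, θ = χ i j := by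
  have := Fintype.ofFinite (sympStd F n).Isom
  obtain ⟨C⟩ := exists_Ch h2
  have hψ : C.ψ ≠ 0 := fun e => by obtain ⟨s, hs⟩ := C.exists_ne; simp [e] at hs
  have hf := sympStd_nondeg F n
  have h4 : 2 < finrank F (Fin n ⊕ Fin n → F) := by simp; omega
  have k : ∀ θ, IsIrrCharacter (sympStd F n).Isom θ → ∀ d : ℕ, θ 1 = d → d ≠ 1 → (Fintype.card F + 1) * 2 * d < (Fintype.card F ^ n - 1) * (Fintype.card F ^ n - Fintype.card F) →
      ∃ (d : ℕ) (ρ : Representation ℂ _ (Fin d → ℂ)), ρ.IsIrreducible ∧ ρ.character = θ ∧ C.Rk ρ ∧ ρ.ker ≠ ⊤ := by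
    rintro _ ⟨d, ρ, hρ, rfl⟩ d' e d1 h
    obtain rfl : d = d' := by simpa using e
    have := finrank_pos_of_isIrreducible ρ
    refine ⟨d, ρ, hρ, rfl, by_contra fun H => h.not_ge (by simpa using Ch.bound hf (by simp [two_mul]) H), charKer_character ρ ▸ ker_ne (.refl _) hρ ?_⟩
    simp at this; omega
  obtain ⟨μ, hμ⟩ := FiniteField.exists_nonsquare (F := F) fun e => h2 (by simpa [e] using ringChar.Nat.cast_ringChar (R := F))
  have μ0 : μ ≠ 0 := by rintro rfl; simp at hμ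
  let s : (Fin n ⊕ Fin n → F) ≃ₗ[F] (Fin n ⊕ Fin n → F) := .piCongrRight fun i => .smulOfNeZero F F (Sum.elim (fun _ => μ) (fun _ => 1) i) (by cases i <;> simp [μ0])
  have hs : ∀ x y, (sympStd F n).B (s x) (s y) = μ * (sympStd F n).B x y := fun x y => by
    simp only [sympStd_B, sympForm_eq, mul_sum]; exact sum_congr rfl fun i _ => by simp [s]; ring
  have q3 : 3 ≤ Fintype.card F := by
    by_contra! H
    exact h2 (by have := FiniteField.cast_card_eq_zero F; rwa [show Fintype.card F = 2 from le_antisymm (by omega) Fintype.one_lt_card] at this)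
  have q4 : 3 * Fintype.card F ≤ Fintype.card F ^ n := le_trans (by nlinarith) (Nat.pow_le_pow_right (by omega) hn)
  have l : ∀ θ, IsIrrCharacter (sympStd F n).Isom θ → ∀ m : ℕ, θ 1 = (m : ℂ) / 2 → Fintype.card F ^ n - 1 ≤ m → m ≤ Fintype.card F ^ n + 1 →
      ∃ (d : ℕ) (ρ : Representation ℂ _ (Fin d → ℂ)), ρ.IsIrreducible ∧ ρ.character = θ ∧ C.Rk ρ ∧ ρ.ker ≠ ⊤ := fun θ hθ m e h1 h3 => by
    obtain ⟨d, hd⟩ := char_apply_one (char_of_irr hθ)
    obtain rfl : d * 2 = m := by rw [hd, eq_div_iff two_ne_zero] at e; exact_mod_cast e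
    exact k θ hθ d hd (by omega) (arith2 q3 q4 h3)
  have m : ∀ θ, IsIrrCharacter (sympStd F n).Isom θ → ∀ m : ℕ, θ 1 = (m : ℂ) / 2 → Fintype.card F ^ n - 1 ≤ m → m ≤ Fintype.card F ^ n + 1 →
      ∃ χ, IsIrrCharacter _ χ ∧ χ 1 = θ 1 ∧ χ ≠ θ := fun θ hθ m e h1 h3 => by
    obtain ⟨d, ρ, hρ, rfl, h5, h6⟩ := l θ hθ m e h1 h3
    exact Ch.twist hf h4 h5 h6 hμ hs
  obtain ⟨χ1, a1, b1⟩ := irr_W hψ h2 (n := n) (by omega) 1 (by simp)
  obtain ⟨χ3, a3, b3⟩ := irr_W hψ h2 (n := n) (by omega) (-1) (by simp)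
  replace b1 : χ1 1 = ((Fintype.card F ^ n + 1 : ℕ) : ℂ) / 2 := by simpa using b1
  replace b3 : χ3 1 = ((Fintype.card F ^ n - 1 : ℕ) : ℂ) / 2 := by rw [b3, Nat.cast_sub (by omega)]; simp [sub_eq_add_neg]
  obtain ⟨χ2, a2, b2, c2⟩ := m χ1 a1 _ b1 (by omega) le_rfl
  obtain ⟨χ4, a4, b4, c4⟩ := m χ3 a3 _ b3 le_rfl (by omega)
  rw [b1] at b2
  rw [b3] at b4
  refine ⟨![![χ1, χ2], ![χ3, χ4]], by simp [Fin.forall_fin_two, *], by simp [Fin.forall_fin_two, c2.symm, c4.symm], by simp [Fin.forall_fin_two, *], by simp [Fin.forall_fin_two, *],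
    fun θ hθ d e d1 h => ?_⟩
  by_contra! H
  simp only [Fin.forall_fin_two, Matrix.cons_val_zero, Matrix.cons_val_one] at H
  have ne : ∀ χ χ' : (sympStd F n).Isom → ℂ, χ 1 = ((Fintype.card F ^ n + 1 : ℕ) : ℂ) / 2 → χ' 1 = ((Fintype.card F ^ n - 1 : ℕ) : ℂ) / 2 → χ ≠ χ' := by
    rintro χ _ h1 h3 rfl
    have := Nat.cast_injective (R := ℂ) ((div_left_inj' two_ne_zero).1 (h1.symm.trans h3))
    omega
  have := C.card_le hf h4 {θ, χ1, χ2, χ3, χ4} (by
    simp only [forall_mem_insert, mem_singleton, forall_eq]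
    exact ⟨k θ hθ d e d1 h, l _ a1 _ b1 (by omega) le_rfl, l _ a2 _ b2 (by omega) le_rfl, l _ a3 _ b3 le_rfl (by omega), l _ a4 _ b4 le_rfl (by omega)⟩)
  rw [card_insert_of_notMem (by simp [H]), card_insert_of_notMem (by simp [c2.symm, ne _ _ b1 b3, ne _ _ b1 b4]), card_insert_of_notMem (by simp [ne _ _ b2 b3, ne _ _ b2 b4]),
    card_pair c4.symm] at this
  omega

end CA.SpW
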